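import Cfsg.Statements.S4464
import Cfsg.Agent.H6.Clifford
import Cfsg.Agent.H5.Equiv
import Cfsg.Agent.H5.FS

set_option autoImplicit false
open Cfsg

namespace Cfsg.Agent.S4464

open H5 H6 Cfsg

theorem sum_fix_le {P X : Type*} [Group P] [Fintype P] [Fintype X] [MulAction P X] {p : ℕ}
    [hp : Fact p.Prime] (hP : IsPGroup p P) (x0 : X)
    (h : ∀ x : X, (∀ g : P, g • x = x) → x = x0) :
    p * ∑ g : P, Nat.card (MulAction.fixedBy X g) ≤
      p * Nat.card P + (Fintype.card X - 1) * Nat.card P := by
  classical
  have e : ∑ g : P, Nat.card (MulAction.fixedBy X g) =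
      ∑ x : X, Nat.card (MulAction.stabilizer P x) := by
    have h1 : ∀ g : P, Nat.card (MulAction.fixedBy X g) = ∑ x : X, if g • x = x then 1 else 0 := by
      intro g
      rw [Finset.sum_boole, Nat.cast_id]
      exact Nat.subtype_card _ (by simp [MulAction.mem_fixedBy])
    have h2 : ∀ x : X, Nat.card (MulAction.stabilizer P x) =
        ∑ g : P, if g • x = x then 1 else 0 := by
      intro x
      rw [Finset.sum_boole, Nat.cast_id]
      exact Nat.subtype_card _ (by simp [MulAction.mem_stabilizer_iff])
    simp only [h1, h2]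
    exact Finset.sum_comm
  rw [e, ← Finset.add_sum_erase _ _ (Finset.mem_univ x0), mul_add, Finset.mul_sum]
  refine add_le_add (Nat.mul_le_mul_left _ (Subgroup.card_le_card_group _)) ?_
  rw [← Finset.card_univ, ← Finset.card_erase_of_mem (Finset.mem_univ x0), ← smul_eq_mul]
  refine Finset.sum_le_card_nsmul _ _ _ fun x hx => ?_
  have hne : MulAction.stabilizer P x ≠ ⊤ := fun e => (Finset.mem_erase.1 hx).1
    (h x fun g => MulAction.mem_stabilizer_iff.1 (e ▸ Subgroup.mem_top g))
  obtain ⟨k, hk⟩ := hP.index (MulAction.stabilizer P x)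
  have hk0 : k ≠ 0 := by
    rintro rfl
    exact hne (Subgroup.index_eq_one.1 (by simpa using hk))
  rw [← (MulAction.stabilizer P x).index_mul_card, hk]
  exact Nat.mul_le_mul_right _ (Nat.le_self_pow hk0 p)

/-- Let p be a prime and G a finite group all of whose irreducible character degrees are less than p. Then G has a normal abelian Sylow p-subgroup. -/
theorem result {G : Type*} [Group G] [Finite G] (p : ℕ) (hp : p.Prime) (hb : ∀ χ : Cfsg.IrrCharacter G, Cfsg.charDegree (χ : G → ℂ) < p) : ∃ P : Subgroup G, P.Normal ∧ (∀ x ∈ P, ∀ y ∈ P, x * y = y * x) ∧ IsPGroup p P ∧ ¬ p ∣ P.index := by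
  classical
  letI := Fintype.ofFinite G
  haveI := Fact.mk hp
  obtain ⟨P⟩ : Nonempty (Sylow p G) := inferInstance
  letI : Fintype (Sylow p G) := Fintype.ofFinite _
  have hn : Fintype.card (Sylow p G) = 1 := by
    have hπ := isCharacter_fixedBy (G := G) (Sylow p G)
    obtain ⟨m, hm, hsum⟩ := hπ.exists_nat
    have hind := fixedBy_eq_indFun_one (G := G) (Sylow p G) P
    have hr : ∀ χ : IrrCharacter G, ∃ r : ℕ,
        classInner (fun x : (P : Subgroup G) => (χ : G → ℂ) x) (fun _ => 1) = r :=
      fun χ => (χ.2.isCharacter.restrict _).exists_classInner_nat isCharacter_one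
    choose r hr using hr
    have hle : (P : Subgroup G) ≤ MulAction.stabilizer G P := by
      rw [Sylow.stabilizer_eq_normalizer]; exact Subgroup.le_normalizer
    have hr1 : ∀ χ, m χ ≠ 0 → r χ ≠ 0 := by
      intro χ h0 h1
      have h2 : classInner (fun x : MulAction.stabilizer G P => (χ : G → ℂ) x) (fun _ => 1) ≠ 0 := by
        rw [Ne, classInner_eq_zero_comm, ← frobenius_reciprocity _ _ χ.2.isClassFunction, ← hind,
          hm]
        exact_mod_cast h0
      have h3 := inner_comp_ne_zero_of_constituent (Subgroup.inclusion hle)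
        (χ.2.isCharacter.restrict _) isIrrCharacter_one h2 (β := fun _ => 1) isCharacter_one
        (by simp)
      apply h3
      have := hr χ
      rw [h1, Nat.cast_zero] at this
      exact this
    have hm1 : m (irrOne G) = 1 := by
      have := hm (irrOne G)
      rw [hind, frobenius_reciprocity _ _ (irrOne G).2.isClassFunction] at this
      simp only [irrOne_apply, inner_one_one] at this
      exact_mod_cast this.symm
    have hr0 : r (irrOne G) = 1 := by
      have := hr (irrOne G)
      simp only [irrOne_apply, inner_one_one] at this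
      exact_mod_cast this.symm
    have hA : Fintype.card (Sylow p G) = ∑ χ, m χ * charDegree (χ : G → ℂ) := by
      have := congrFun hsum 1
      simp only [Finset.sum_apply, Pi.smul_apply, smul_eq_mul, MulAction.fixedBy_one_eq_univ,
        Nat.card_coe_set_eq, Set.ncard_univ] at this
      rw [Nat.card_eq_fintype_card] at this
      have h2 : ((∑ χ, m χ * charDegree (χ : G → ℂ) : ℕ) : ℂ) = ∑ χ, m χ * (χ : G → ℂ) 1 := by
        push_cast
        exact Finset.sum_congr rfl fun χ _ => by rw [χ.2.coe_charDegree]
      exact_mod_cast this.trans h2.symm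
    have hB : ∑ g : (P : Subgroup G), Nat.card (MulAction.fixedBy (Sylow p G) g) =
        Nat.card (P : Subgroup G) * ∑ χ, m χ * r χ := by
      have h1 : ∀ g : (P : Subgroup G), (Nat.card (MulAction.fixedBy (Sylow p G) g) : ℂ) =
          ∑ χ, m χ * (χ : G → ℂ) g := by
        intro g
        have := congrFun hsum g
        simp only [Finset.sum_apply, Pi.smul_apply, smul_eq_mul] at this
        exact this
      have h2 : ∀ χ : IrrCharacter G, ∑ g : (P : Subgroup G), (χ : G → ℂ) g =
          Nat.card (P : Subgroup G) * r χ := by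
        intro χ
        rw [← hr, card_mul_classInner]
        simp
      have : ((∑ g : (P : Subgroup G), Nat.card (MulAction.fixedBy (Sylow p G) g) : ℕ) : ℂ) =
          ((Nat.card (P : Subgroup G) * ∑ χ, m χ * r χ : ℕ) : ℂ) := by
        push_cast
        simp only [h1]
        rw [Finset.sum_comm, Finset.mul_sum]
        refine Finset.sum_congr rfl fun χ _ => ?_
        rw [← Finset.mul_sum, h2]; ring
      exact_mod_cast this
    have hC := sum_fix_le (X := Sylow p G) P.isPGroup' P (fun Q hQ => by
      have : (P : Subgroup G) ≤ Subgroup.normalizer (Q : Set G) := fun g hg =>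
        Sylow.smul_eq_iff_mem_normalizer.1 (hQ ⟨g, hg⟩)
      have h2 := (IsPGroup.inf_normalizer_sylow P.isPGroup' Q)
      rw [inf_eq_left.2 this] at h2
      exact (Sylow.ext ((P.is_maximal' Q.isPGroup' (h2.le.trans inf_le_right)))))
    rw [hB, ← Finset.add_sum_erase _ _ (Finset.mem_univ (irrOne G)), hm1, hr0] at hC
    rw [← Finset.add_sum_erase _ _ (Finset.mem_univ (irrOne G)), hm1,
      charDegree_eq_of_apply_one (χ := (irrOne G : G → ℂ)) (n := 1) (by simp)] at hA
    have hD : ∑ χ ∈ Finset.univ.erase (irrOne G), m χ * charDegree (χ : G → ℂ) ≤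
        (p - 1) * ∑ χ ∈ Finset.univ.erase (irrOne G), m χ * r χ := by
      rw [Finset.mul_sum]
      refine Finset.sum_le_sum fun χ _ => ?_
      by_cases h0 : m χ = 0
      · simp [h0]
      · have h1 := Nat.pos_of_ne_zero (hr1 χ h0)
        have h2 : charDegree (χ : G → ℂ) ≤ p - 1 := Nat.le_sub_one_of_lt (hb χ)
        calc m χ * charDegree (χ : G → ℂ) ≤ m χ * (p - 1) := Nat.mul_le_mul_left _ h2
          _ = (p - 1) * (m χ * 1) := by ring
          _ ≤ _ := Nat.mul_le_mul_left _ (Nat.mul_le_mul_left _ h1)
    generalize ∑ χ ∈ Finset.univ.erase (irrOne G), m χ * charDegree (χ : G → ℂ) = a at *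
    generalize ∑ χ ∈ Finset.univ.erase (irrOne G), m χ * r χ = b at *
    have hpos : 0 < Nat.card (P : Subgroup G) := Nat.card_pos
    rw [hA] at hC ⊢
    have h3 : p * b ≤ a := by
      have : Nat.card (P : Subgroup G) * (p * b) ≤ Nat.card (P : Subgroup G) * a := by
        simp only [mul_one, add_tsub_cancel_left] at hC
        nlinarith
      exact Nat.le_of_mul_le_mul_left this hpos
    obtain ⟨q, rfl⟩ : ∃ q, p = q + 1 := ⟨p - 1, (Nat.succ_pred_eq_of_pos hp.pos).symm⟩
    simp only [add_tsub_cancel_right] at hD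
    have : b = 0 := by nlinarith
    subst this
    omega
  haveI : Subsingleton (Sylow p G) := Fintype.card_le_one_iff_subsingleton.1 hn.le
  refine ⟨P, Sylow.normal_of_subsingleton P, ?_, P.isPGroup', P.not_dvd_index⟩
  have : ∀ a b : (P : Subgroup G), a * b = b * a := by
    refine forall_irr_degree_one_iff.1 fun θ => ?_
    obtain ⟨χ, hχ, hne⟩ := exists_irr_over θ.2
    have h1 := (hχ.isCharacter.restrict _).charDegree_le_of_constituent θ.2 hne
    have h2 : charDegree (fun n : (P : Subgroup G) => χ n) = charDegree χ := rfl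
    have h3 := hb ⟨χ, hχ⟩
    obtain ⟨k, hk⟩ := IsPGroup.iff_card.1 P.isPGroup'
    have h4 := θ.2.charDegree_dvd_card
    rw [hk] at h4
    obtain ⟨j, -, hj⟩ := (Nat.dvd_prime_pow hp).1 h4
    have hj0 : j = 0 := by
      by_contra h
      have := Nat.le_self_pow h p
      simp only at h3
      omega
    rw [← θ.2.coe_charDegree, hj, hj0]; simp
  intro x hx y hy
  exact congrArg Subtype.val (this ⟨x, hx⟩ ⟨y, hy⟩)

end Cfsg.Agent.S4464
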