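import Cfsg.Statements.S2284
import Cfsg.Agent.H11.GK

set_option autoImplicit false
open Cfsg

namespace Cfsg.Agent.S2284

open H11 Subgroup Equiv Equiv.Perm FreeGroup in
theorem cyc {G : Type*} [Group G] [IsCyclic G] : ∃ rels : Finset (FreeGroup (Fin 2)), rels.card ≤ 8 ∧
    Nonempty (PresentedGroup (↑rels : Set (FreeGroup (Fin 2))) ≃* G) := by
  obtain ⟨x, hx⟩ := IsCyclic.exists_generator (α := G)
  have h : closure (Set.range ![x, x]) = ⊤ := eq_top_iff.2 fun y _ =>
    (zpowers_le.2 (Subgroup.subset_closure (Set.mem_range_self (f := ![x, x]) 0))) (hx y)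
  exact (((PrG.cyc x).change' (h.trans (eq_top_iff.2 fun y _ =>
    (zpowers_le.2 (Subgroup.subset_closure (Set.mem_range_self (f := fun _ : Unit => x) ()))) (hx y)).symm)).mono (by simp)).iso' h

open H11 Subgroup Equiv Equiv.Perm in
open FreeGroup (of lift) in
theorem small {Ω : Type*} [DecidableEq Ω] [Fintype Ω] {α β : Ω} {f : ℕ → Ω} {k : ℕ} (P : Pts α β f (k + 1))
    (hk : k ≤ 1) (t : Perm Ω) (ht : t = 1 ∨ t = swap β α) : PrG ![cy α β (f k), cy α β (f 0), t] 6 := by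
  classical
  have c := P.car
  obtain ⟨ε, w, h1, h2, h3⟩ : ∃ (ε : ℤ) (w : FreeGroup (Fin 3)), (∀ i < k + 1, t * cy α β (f i) * t⁻¹ = cy α β (f i) ^ ε) ∧
      lift ![cy α β (f k), cy α β (f 0), t] w = 1 ∧ (w = of 2 ∨ w = of 2 * of 2 ∧ sign t = -1) := by
    rcases ht with rfl | rfl
    · exact ⟨1, of 2, by simp, by simp, .inl rfl⟩
    · exact ⟨-1, of 2 * of 2, fun i hi => by simpa using swap_cy P.ab (P.a i hi) (P.b i hi), by simp,
        .inr ⟨rfl, sign_swap P.ab.symm⟩⟩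
  refine ((((((Enf.rel (of 1)⁻¹ (of 1 * of 1) (by simpa using c.c3 0 (by omega))).and
    (Enf.rel (of 0)⁻¹ (of 0 * of 0) (by simpa using c.c3 k (by omega)))).and
    (Enf.rel (if k = 0 then of 0 else of 1 * of 0 * of 1) (if k = 0 then of 1 else (of 0)⁻¹) (by
      split_ifs with h
      · simp [h]
      · simpa using c.c2 0 (by omega) k (by omega) (by omega)))).and (Enf.rel w 1 (by simp [h2]))).and
    (Enf.rel (of 2 * of 1 * (of 2)⁻¹) (of 1 ^ ε) (by simpa using h1 0 (by omega)))).and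
    (Enf.rel (of 2 * of 0 * (of 2)⁻¹) (of 0 ^ ε) (by simpa using h1 k (by omega)))).mono le_rfl
    fun C ⟨⟨⟨⟨⟨e1, e2⟩, e3⟩, e4⟩, e5⟩, e6⟩ => ?_
  simp only [map_mul, map_inv, map_zpow, map_one] at e1 e2 e4 e5 e6
  let x : ℕ → C.H := fun i => if i = 0 then C.φ (of 1) else C.φ (of 0)
  have hx : Car x (k + 1) := ⟨fun i _ => by simp only [x]; split_ifs <;> assumption, fun i hi j hj h => by
    obtain rfl : k = 1 := by omega
    simp only [one_ne_zero, if_false, map_mul, map_inv] at e3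
    obtain ⟨rfl, rfl⟩ | ⟨rfl, rfl⟩ : i = 0 ∧ j = 1 ∨ i = 1 ∧ j = 0 := by omega
    · exact e3
    · simp only [x, if_true, one_ne_zero, if_false]
      calc _ = C.φ (of 0) * (C.φ (of 1) * C.φ (of 0) * C.φ (of 1)) * (C.φ (of 1))⁻¹ := by group
        _ = _ := by rw [e3]; group⟩
  have hπ : ∀ i < k + 1, C.π (x i) = cy α β (f i) := fun i hi => by
    simp only [x]; split_ifs with h
    · simp [h]
    · simp [show i = k by omega]
  have ha : C.φ (of 0) ∈ W x (k + 1) := by
    by_cases h : k = 0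
    · simp only [h, if_true] at e3; rw [e3]; exact mem_W (x := x) (i := 0) (by omega)
    · simpa [x, h] using mem_W (x := x) (Nat.lt_succ_self k)
  have h4 : ∀ w ∈ W x (k + 1), C.φ (of 2) * w * (C.φ (of 2))⁻¹ ∈ W x (k + 1) := fun w hw =>
    W_le (K := (W _ _).comap (MulAut.conj (C.φ (of 2))).toMonoidHom) (fun i hi => by
      change C.φ (of 2) * _ * _ ∈ W _ _
      simp only [x]; split_ifs
      · rw [e5]; exact zpow_mem (mem_W (x := x) (i := 0) (by omega)) _
      · rw [e6]; exact zpow_mem ha _) hw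
  have t2 : C.φ (of 2) * C.φ (of 2) = 1 := by
    rcases h3 with rfl | ⟨rfl, -⟩
    · simp [e4]
    · simpa using e4
  refine Pts.close C (fun w => hx.inj P C.π hπ) (fun w hw => sign_W P (map_W C.π hπ ▸ mem_map_of_mem _ hw)) ha
    (mem_W (x := x) (i := 0) (by omega)) (mem_normalizer_iff.2 fun w => ⟨h4 w, fun hw => by
      have := h4 _ hw
      rwa [show ∀ t : C.H, t * (t * w * t⁻¹) * t⁻¹ = t * t * w * (t * t)⁻¹ by intro; group, t2, one_mul, inv_one,
        mul_one] at this⟩) ?_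
  intro _
  rcases h3 with rfl | ⟨-, h⟩
  · exact .inl (e4 ▸ one_mem _)
  · exact .inr ⟨t2 ▸ one_mem _, h⟩

/-- For every n, the symmetric group S_n and the alternating group A_n each have a presentation with 2 generators and at most 8 relations. -/
theorem result (n : ℕ) : (∃ rels : Finset (FreeGroup (Fin 2)), rels.card ≤ 8 ∧ Nonempty (PresentedGroup (↑rels : Set (FreeGroup (Fin 2))) ≃* Equiv.Perm (Fin n))) ∧ (∃ rels : Finset (FreeGroup (Fin 2)), rels.card ≤ 8 ∧ Nonempty (PresentedGroup (↑rels : Set (FreeGroup (Fin 2))) ≃* ↥(alternatingGroup (Fin n)))) := by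
  open H11 Subgroup Equiv Equiv.Perm in
  by_cases hn : 5 ≤ n
  · obtain ⟨g, h1, h2, y, h⟩ := H11.exists_pres_sym n hn
    obtain ⟨g', h3, h4, y', h'⟩ := H11.exists_pres_alt n hn
    exact ⟨(h1.change₁ (h.trans h2.symm) 1 0 rfl).iso' h, (h3.change₁ (h'.trans h4.symm) 1 0 rfl).iso' h'⟩
  constructor
  · by_cases h2 : n ≤ 2
    · have : IsCyclic (Perm (Fin n)) := isCyclic_of_card_le_two (by simpa)
      exact cyc
    obtain ⟨k, rfl⟩ : ∃ k, n = k + 3 := ⟨n - 3, by omega⟩
    obtain ⟨α, β, f, P, all⟩ := pts_fin (k + 1)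
    have sr := P.sign_rot (j := 0) (m := k) (by omega)
    obtain ⟨y, h1, h2⟩ : ∃ y, (y = rot f 0 (k + 1) ∨ y = swap β α * rot f 0 (k + 1)) ∧ sign y = -1 := by
      obtain rfl | rfl : k = 0 ∨ k = 1 := by omega
      · exact ⟨_, .inr rfl, by rw [map_mul, sr, sign_swap P.ab.symm]; simp⟩
      · exact ⟨_, .inl rfl, sr⟩
    have h : closure (Set.range ![cy α β (f 0), y]) = ⊤ := eq_top_of_alt_le (P.gen all (subset_closure ⟨0, rfl⟩) (by
      rcases h1 with rfl | rfl; exacts [.inl (subset_closure ⟨1, rfl⟩), .inr (subset_closure ⟨1, rfl⟩)]))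
      (subset_closure ⟨1, rfl⟩) h2
    have h' : closure (Set.range ![cy α β (f k), cy α β (f 0), swap β α]) = ⊤ := by
      refine eq_top_of_alt_le (fun σ hσ => W_le (fun i hi => ?_) (mem_W_cy P hσ fun t ha hb ht => ?_))
        (subset_closure ⟨2, rfl⟩) (sign_swap P.ab.symm)
      · obtain rfl | rfl : i = k ∨ i = 0 := by omega
        exacts [subset_closure ⟨0, rfl⟩, subset_closure ⟨1, rfl⟩]
      · obtain ⟨i, hi, e⟩ := all t ha hb; exact (ht i hi e).elim
    exact ((small P (by omega) _ (.inr rfl)).change' (h.trans h'.symm)).iso' h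
  by_cases h3 : n ≤ 3
  · have := alternatingGroup.isCyclic_of_card_le_three (α := Fin n) (by simpa)
    exact cyc
  obtain rfl : n = 4 := by omega
  obtain ⟨α, β, f, P, all⟩ := pts_fin 2
  let z : ℕ → alternatingGroup (Fin 4) := fun i => if h : i < 2 then ⟨_, sign_cy P.ab (P.a i h)⟩ else 1
  have key : ∀ {ι : Type} (e : ι → alternatingGroup (Fin 4)), z 0 ∈ Set.range e → z 1 ∈ Set.range e →
      closure (Set.range e) = ⊤ := fun e ⟨i, hi⟩ ⟨j, hj⟩ =>
    closure_range_sub (le_antisymm ((closure_le _).2 fun _ ⟨i, h⟩ => h ▸ (e i).2) fun σ hσ => W_le (fun l hl => by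
      interval_cases l
      · exact subset_closure ⟨i, congrArg Subtype.val hi⟩
      · exact subset_closure ⟨j, congrArg Subtype.val hj⟩)
      (mem_W_cy P hσ fun t ha hb ht => by obtain ⟨i, hi, e⟩ := all t ha hb; exact (ht i hi e).elim))
  have h := key ![z 0, z 1] ⟨0, rfl⟩ ⟨1, rfl⟩
  have : PrG ![z 1, z 0, 1] 6 := (PrG.comp_iff _ (subtype_injective _)).1 (by
    convert small P le_rfl 1 (.inl rfl) using 1
    ext1 i; fin_cases i <;> rfl)
  exact (this.change' (h.trans (key _ ⟨1, rfl⟩ ⟨0, rfl⟩).symm)).iso' h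

end Cfsg.Agent.S2284
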