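import Cfsg.Statements.S2585
import Cfsg.Agent.H11.Inv2

set_option autoImplicit false
open Cfsg

namespace Cfsg.Agent.S2585

/-- Over a finite field of characteristic two every element of the symplectic group is orthogonal for a suitable quadratic form: for each A in Sp_2m(F) there is a quadratic form Q on F^(2m) whose polar form is the alternating form defining Sp_2m(F) (so Q is non-degenerate) and which A preserves. Equivalently, for m ≥ 1, Sp_2m(F) is the union of the conjugates of its two orthogonal subgroups O⁺_2m(F) and O⁻_2m(F). -/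
theorem result {F : Type*} [Field F] [Fintype F] [CharP F 2] {m : ℕ} (A : Matrix.symplecticGroup (Fin m) F) : ∃ Q : QuadraticForm F (Fin m ⊕ Fin m → F), (∀ u v : Fin m ⊕ Fin m → F, QuadraticMap.polar ⇑Q u v = Cfsg.sympForm m F u v) ∧ ∀ v : Fin m ⊕ Fin m → F, Q ((A : Matrix (Fin m ⊕ Fin m) (Fin m ⊕ Fin m) F).mulVec v) = Q v := by
  have h0 : ∀ u v, QuadraticMap.polar (H11.qPlus m F) u v = sympForm m F u v := fun u v => by
    simp [H11.qPlus_polar, H11.sympForm_eq, CharTwo.sub_eq_add, add_comm]
  have h1 := H11.mem_symplecticGroup_iff_form.1 A.2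
  obtain ⟨l, hl⟩ := H11.exists_dual_sq (fun v => H11.qPlus m F (A.1.mulVec v) + H11.qPlus m F v)
    (fun x y => by
      simp only [Matrix.mulVec_add, QuadraticMap.map_add (H11.qPlus m F), h0, h1]
      linear_combination CharTwo.add_self_eq_zero (sympForm m F x y))
    fun c x => by simp [Matrix.mulVec_smul, QuadraticMap.map_smul]; ring
  obtain ⟨μ, hμ⟩ : l ∈ LinearMap.range (Matrix.toLin' (A.1 - 1)).dualMap := by
    rw [LinearMap.range_dualMap_eq_dualAnnihilator_ker, Submodule.mem_dualAnnihilator]
    intro w hw
    have h2 : A.1.mulVec w = w := by simpa [Matrix.sub_mulVec, sub_eq_zero] using hw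
    simpa [h2, CharTwo.add_self_eq_zero] using (hl w).symm
  refine ⟨H11.qPlus m F + QuadraticMap.linMulLin μ μ, fun u v => ?_, fun v => ?_⟩
  · rw [← h0]
    simp only [QuadraticMap.polar, QuadraticMap.add_apply, QuadraticMap.linMulLin_apply, map_add μ]
    linear_combination CharTwo.add_self_eq_zero (μ u * μ v)
  · have h2 := hl v
    rw [← hμ, LinearMap.dualMap_apply, Matrix.toLin'_apply, Matrix.sub_mulVec,
      Matrix.one_mulVec, map_sub] at h2
    simp only [QuadraticMap.add_apply, QuadraticMap.linMulLin_apply]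
    linear_combination h2 + CharTwo.add_self_eq_zero (μ (A.1.mulVec v) ^ 2 - μ (A.1.mulVec v) * μ v -
      H11.qPlus m F v)

end Cfsg.Agent.S2585
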