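import Cfsg.Statements.S0811
import Cfsg.Agent.H10.PSL2Max

set_option autoImplicit false
open Cfsg

namespace Cfsg.Agent.S0811

/-- For q ∉ {2, 7, 9}, PSL_2(q) has a maximal subgroup isomorphic to the dihedral group of order 2(q + 1)/d, d = gcd(2, q − 1). -/
theorem result {F : Type*} [Field F] [Fintype F] {q : ℕ} (hF : Fintype.card F = q) (hq : q ∉ ({2, 7, 9} : Finset ℕ)) : ∃ H : Subgroup (Matrix.ProjectiveSpecialLinearGroup (Fin 2) F), IsCoatom H ∧ Nonempty (H ≃* DihedralGroup ((q + 1) / Nat.gcd 2 (q - 1))) := by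
  classical
  subst hF
  simp only [Finset.mem_insert, Finset.mem_singleton, not_or] at hq
  obtain ⟨D, c, hc, ho, hfix, ⟨e⟩⟩ := H10.exists_dihedral_nonsplit (F := F)
  exact ⟨D, H10.isCoatom_dihedral hc ho (fun x => ⟨c, hc, hfix x⟩) e (Or.inl ⟨rfl, hq⟩), ⟨e⟩⟩

end Cfsg.Agent.S0811
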