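import Cfsg.Statements.S3734
import Cfsg.Agent.H18.BG1

set_option autoImplicit false
open Cfsg

namespace Cfsg.Agent.S3734

/-- Let A and G be subgroups of a finite group with A abelian, A normalizing G and the orders of A and G coprime. Then G is generated by the fixed-point subgroups C_G(B) of those subgroups B of A for which A/B is cyclic (that is, A = ⟨B, a⟩ for some a), and [G, A] is generated by the commutator subgroups [C_G(B), A] over the same subgroups B. -/
theorem result {X : Type*} [Group X] [Finite X] (A G : Subgroup X) (hAab : IsMulCommutative A) (hAG : A ≤ Subgroup.normalizer (G : Set X)) (hcop : (Nat.card A).Coprime (Nat.card G)) : (⨆ B ∈ {B : Subgroup X | B ≤ A ∧ ∃ a ∈ A, B ⊔ Subgroup.zpowers a = A}, G ⊓ Subgroup.centralizer (B : Set X)) = G ∧ (⨆ B ∈ {B : Subgroup X | B ≤ A ∧ ∃ a ∈ A, B ⊔ Subgroup.zpowers a = A}, ⁅G ⊓ Subgroup.centralizer (B : Set X), A⁆) = ⁅G, A⁆ := by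
  open H18 in
  have hA := abel_of_comm hAab
  refine ⟨le_antisymm (iSup₂_le fun _ _ => inf_le_left) (coprime_abelian_gen_cent hA hAG hcop fun B hB e =>
    le_iSup₂_of_le (f := fun B _ => G ⊓ C(B)) B ⟨hB, e⟩ le_rfl),
    le_antisymm (iSup₂_le fun _ _ => comm_mono inf_le_left le_rfl) ?_⟩
  set Y := ⨆ B ∈ {B : Subgroup X | B ≤ A ∧ ∃ a ∈ A, B ⊔ Subgroup.zpowers a = A}, ⁅G ⊓ C(B), A⁆ with hY
  have h1 : A ≤ N(Y) := norm_iSup fun B => norm_iSup fun _ => norm_comm_right
  have h2 : G ⊓ C(A) ≤ N(Y) := norm_iSup fun B => norm_iSup fun hB =>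
    (inf_le_inf_left _ (C_anti hB.1)).trans norm_comm_left
  have h3 : G ≤ Y ⊔ (G ⊓ C(A)) := coprime_abelian_gen_cent hA hAG hcop fun B hB e => by
    have hc : H1.Cop A (G ⊓ C(B)) := ⟨norm_inf hAG (norm_C (hA.norm hB)), coprime_mono hcop le_rfl inf_le_left,
      Or.inl hA.solv⟩
    exact hc.comm_sup.ge.trans (sup_le_sup (le_iSup₂_of_le (f := fun B _ => ⁅G ⊓ C(B), A⁆) B ⟨hB, e⟩ le_rfl)
      (inf_le_inf_right _ inf_le_left))
  refine (comm_mono h3 le_rfl).trans (comm_sup_le (comm_le_left h1) ?_ le_N h2)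
  exact (comm_eq_bot_iff.2 inf_le_right).le.trans bot_le

end Cfsg.Agent.S3734
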