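import Cfsg.Statements.S4931
import Cfsg.Agent.H18.BG1
import Cfsg.Agent.H5.Kernel
import Cfsg.Agent.H6.Extension
import Cfsg.Agent.H3.Tate

set_option autoImplicit false
open Cfsg

namespace Cfsg.Agent.S4931
open H5
open H18 Subgroup H5.Cfsg
open scoped commutatorElement

/-- Let G be a finite group, p a prime and P a Sylow p-subgroup of G with normalizer N. Then every irreducible complex character of N of degree not divisible by p is the restriction of an irreducible character of G if and only if there is a normal subgroup K of G with KN = G and K ∩ N = 1. -/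
theorem result {G : Type*} [Group G] [Finite G] (p : ℕ) [Fact p.Prime] (P : Sylow p G) :
    (∀ θ : Cfsg.IrrCharacter ↥(Subgroup.normalizer ((P : Subgroup G) : Set G)), ¬ p ∣ Cfsg.charDegree (θ : ↥(Subgroup.normalizer ((P : Subgroup G) : Set G)) → ℂ) →
        ∃ χ : Cfsg.IrrCharacter G, ∀ x : ↥(Subgroup.normalizer ((P : Subgroup G) : Set G)), (χ : G → ℂ) x = (θ : ↥(Subgroup.normalizer ((P : Subgroup G) : Set G)) → ℂ) x) ↔
      ∃ K : Subgroup G, K.Normal ∧ K ⊔ Subgroup.normalizer ((P : Subgroup G) : Set G) = ⊤ ∧ K ⊓ Subgroup.normalizer ((P : Subgroup G) : Set G) = ⊥ := by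
  have hp : p.Prime := Fact.out
  have hP := hall_sylow_top hp P
  set S := (P : Subgroup G)
  refine ⟨fun h => ?_, ?_⟩
  · have L : ∀ W : Subgroup G, W ⊴ N(S) → ⁅S, S⁆ ≤ W → normalClosure W ⊓ N(S) ≤ W := by
      intro W hW h1 x hx
      by_contra hxW
      haveI := hW.subgroupOf_normal
      haveI := (nml_N (H := S)).subgroupOf_normal
      obtain ⟨θ, hθ, hk, hxθ⟩ := exists_irr_le_charKer_not_mem (W.subgroupOf N(S)) (g := ⟨x, hx.2⟩) hxW
      obtain ⟨θ', hθ', e⟩ := hθ.exists_deflate _ hk
      have hd := H6.ito_degree_dvd ((S.subgroupOf N(S)).map (QuotientGroup.mk' (W.subgroupOf N(S)))) (by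
        rintro _ ⟨a, ha, rfl⟩ _ ⟨b, hb, rfl⟩
        rw [← commutatorElement_eq_one_iff_mul_comm, ← map_commutatorElement]
        exact (QuotientGroup.eq_one_iff _).2 (h1 (commutator_mem_commutator ha hb))) hθ'
      have e1 : Cfsg.charDegree θ = Cfsg.charDegree θ' := by
        simp only [Cfsg.charDegree, ← e 1]; rfl
      obtain ⟨χ, hχ⟩ := h ⟨θ, hθ⟩ (fun hh => (piNat_compl_iff hp).1 (hP.of_le le_N le_top).idx
        ((e1 ▸ hh).trans (hd.trans (index_map_dvd _ (QuotientGroup.mk'_surjective _)))))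
      haveI := χ.2.isCharacter.normal_charKer
      have h2 : normalClosure W ≤ charKer (χ : G → ℂ) := normalClosure_le_normal fun w hw => χ.2.mem_charKer.2 (by
        have := hθ.mem_charKer.1 (hk (show (⟨w, hW.le hw⟩ : N(S)) ∈ W.subgroupOf N(S) from hw))
        exact (hχ ⟨w, hW.le hw⟩).trans (this.trans (hχ 1).symm))
      exact hxθ (hθ.mem_charKer.2 ((hχ ⟨x, hx.2⟩).symm.trans ((χ.2.mem_charKer.1 (h2 hx.1)).trans (hχ 1))))
    have L1 := L S nml_N der_le
    have L2 := L ⁅S, S⁆ nml_N.der le_rfl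
    set M := normalClosure (S : Set G)
    set K := normalClosure ((⁅S, S⁆ : Subgroup G) : Set G)
    have hM : M ⊴ ⊤ := nml_top
    have n : ∀ {X : Subgroup G}, X ≤ N(K) := fun {_} => norm_of_normal
    have hKM : K ≤ M := normalClosure_mono der_le
    have hS : Hall {p} S M := hP.of_le le_normalClosure le_top
    have hab : Abel (S ⫽ K) := (abel_quo_iff n).2 le_normalClosure
    have hN : M ⫽ K ⊓ N(S ⫽ K) ≤ S ⫽ K := by
      rw [← quo_sup_self (A := S) n, ← quo_inf_N (nml_sup_right n)]
      refine mim_mono fun m hm => ?_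
      obtain ⟨k, hk, y, hy, rfl⟩ := frattini_elt hp (hP.of_le le_sup_left le_top) hm.2
      refine mul_mem hk (mem_sup_left (L1 ⟨?_, hy⟩))
      exact (M.mul_mem_cancel_left (sup_le hS.le hKM hk)).1 hm.1
    have hD : ⁅M, M⁆ ⊓ S ≤ ⁅S, S⁆ := by
      have e := (hS.mim (f := coset K) n).der_inf_abel hp hab
      have e2 : (⁅M, M⁆ ⊓ S) ⫽ K = ⊥ := le_bot_iff.1 (mim_inf_le.trans (by
        rw [mim_comm n n, e, ← hab.der]; exact comm_mono le_rfl hN))
      exact (le_inf ((quo_eq_bot_iff n).1 e2) (inf_le_right.trans le_N)).trans L2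
    obtain ⟨P', hP'⟩ := hS.exists_sylow hp
    have hc := (hasNormalPComplement_iff hp).1 (H3.hasNormalPComplement_of_commutator_inf_le P' fun x hx => by
      have h1 : (x : G) ∈ ⁅M, M⁆ ⊓ S := ⟨by
        have := mem_map_of_mem M.subtype hx.1
        rwa [commutator_def, map_commutator, ← MonoidHom.range_eq_map, range_subtype] at this,
        hP' ▸ mem_map_of_mem M.subtype hx.2⟩
      have h2 := hD h1
      rw [← hP', ← map_commutator] at h2
      exact (mem_map_iff_mem M.subtype_injective).1 h2)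
    refine ⟨O[{p}ᶜ](M), hM.pcore.normal, ?_, ?_⟩
    · have := frattini_arg hp hM hS
      rw [top_inf_eq, ← hS.sup_compl hc, sup_comm S, sup_assoc, sup_eq_right.2 le_N] at this
      exact this
    · exact eq_bot_iff.2 ((le_inf ((inf_le_inf_right _ pcore_le).trans L1) inf_le_left).trans (hS.inf_compl hc).le)
  · rintro ⟨K, hK, h1, h2⟩ θ -
    have hc : IsComplement' N(S) K := ((sd_of_nml nml_top le_top h2 h1.ge).isComplement').symm
    refine ⟨⟨fun g => (θ : N(S) → ℂ) ((hc.QuotientMulEquiv.toMonoidHom.comp (QuotientGroup.mk' K)) g),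
      θ.2.comp_surjective _ (hc.QuotientMulEquiv.surjective.comp (QuotientGroup.mk'_surjective K))⟩, fun x => ?_⟩
    have : hc.QuotientMulEquiv (x : G) = x := by
      rw [← MulEquiv.eq_symm_apply]; rfl
    exact congrArg _ this

end Cfsg.Agent.S4931
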