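import Cfsg.Statements.S1225
import Cfsg.Agent.H9.Hv1

set_option autoImplicit false
open Cfsg

namespace Cfsg.Agent.S1225

open H18 H9 Subgroup

/-- Let H be a strongly embedded subgroup of the finite group G, u an involution outside H and D = H ∩ uHu⁻¹. Then any two involutions of H are conjugate by an element of D, and any two involutions of G are conjugate in G. -/
theorem result {G : Type*} [Group G] [Finite G] (H : Subgroup G) (hH : Cfsg.IsStronglyEmbedded H) (u : G) (hu : orderOf u = 2) (huH : u ∉ H) (s t : G) (hs : orderOf s = 2) (hsH : s ∈ H) (ht : orderOf t = 2) (htH : t ∈ H) : (∃ d ∈ (H ⊓ H.map (MulAut.conj u).toMonoidHom), d * s * d⁻¹ = t) ∧ ∀ a b : G, orderOf a = 2 → orderOf b = 2 → IsConj a b := by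
  have h := SA.of_se hH
  refine ⟨?_, fun a b ha hb => ?_⟩
  · obtain ⟨k, -, hk, -, e⟩ := h.exists_K (M := ⊤) (ord2.1 hu).1 smul_one' (one_ne_mk huH) (ord2.1 hs).1 (ord2.1 hs).2
      (fix_one.2 hsH) (ord2.1 ht).1 (ord2.1 ht).2 (fix_one.2 htH) (mem_top _) (mem_top _) (mem_top _)
    rw [St_D] at hk
    exact ⟨k⁻¹, inv_mem hk, by rw [inv_inv, e]⟩
  · have key : ∀ a : G, orderOf a = 2 → IsConj s a := fun a ha => by
      obtain ⟨g, -, e⟩ := h.conj_inv (M := ⊤) (ord2.1 hs).1 (ord2.1 hs).2 (fix_one.2 hsH) (mem_top _)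
        (fun l => huH (fix_one.1 (l (mem_top u)))) (ord2.1 ha).1 (ord2.1 ha).2 (mem_top _)
      exact isConj_iff.2 ⟨g, e⟩
    exact (key a ha).symm.trans (key b hb)

end Cfsg.Agent.S1225
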