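import Cfsg.Statements.S0021
import Cfsg.Agent.H1.Solv2

set_option autoImplicit false
open Pointwise
open Cfsg

namespace Cfsg.Agent.S0021

open H18 H1

/-- A finite group with a family of pairwise permuting Sylow subgroups, one for each prime, is solvable (this direction rests on Burnside's two-prime Theorem). -/
theorem result {G : Type*} [Group G] [Finite G]
    (S : (p : Nat.Primes) → Sylow (p : ℕ) G)
    (hS : ∀ p q : Nat.Primes, (S p : Set G) * (S q : Set G) = (S q : Set G) * (S p : Set G)) :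
    Group.IsSolvable G := by
  classical
  have key : ∀ T : Finset Nat.Primes, ∃ H : Subgroup G, PiGrp {q | ∃ r ∈ T, q = r.1} H ∧ (∀ r ∈ T, (S r : Subgroup G) ≤ H) ∧
      ∀ r, Perm2 H (S r) := fun T => by
    induction T using Finset.induction_on with
    | empty => exact ⟨⊥, .bot, by simp, fun r b hb a ha => ⟨1, one_mem _, b, hb, by simp [Subgroup.mem_bot.1 ha]⟩⟩
    | insert t T _ ih =>
      obtain ⟨H, a, b, c⟩ := ih
      refine ⟨H ⊔ S t, (c t).piGrp (a.sub fun q ⟨r, hr, e⟩ => ⟨r, Finset.mem_insert_of_mem hr, e⟩)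
        ((hall_sylow_top t.2 (S t)).pi.of_p ⟨t, Finset.mem_insert_self _ _, rfl⟩), fun r hr => ?_,
        fun r => (c r).sup_left (perm2_iff.2 (hS t r)) (c t)⟩
      rcases Finset.mem_insert.1 hr with rfl | hr
      exacts [le_sup_right, (b r hr).trans le_sup_left]
  refine solv_top_iff.1 (solv_of_complements fun p hp _ => ?_)
  obtain ⟨H, a, b, -⟩ := key (((Nat.card G).primeFactors.erase p).subtype Nat.Prime)
  refine ⟨H, hall_of_sylows le_top (a.sub ?_) fun q hq hqp hd => ⟨_, hall_sylow_top hq (S ⟨q, hq⟩), b ⟨q, hq⟩ ?_⟩⟩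
  · rintro _ ⟨r, hr, rfl⟩; exact (Finset.mem_erase.1 (Finset.mem_subtype.1 hr)).1
  · exact Finset.mem_subtype.2 (Finset.mem_erase.2 ⟨hqp, Nat.mem_primeFactors.2 ⟨hq, by simpa using hd, Nat.card_pos.ne'⟩⟩)

end Cfsg.Agent.S0021
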