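import Cfsg.Statements.S2299
import Cfsg.Agent.H24.SL2Table

set_option autoImplicit false
open Cfsg

namespace Cfsg.Agent.S2299

open H24 H5 Matrix

/-- Over a finite field F with q elements, q odd, every irreducible complex character of SL₂ has degree 1, q, q + 1, q − 1, (q + 1)/2 or (q − 1)/2; and when q ≥ 5 (so that these six numbers are distinct) there are exactly one irreducible character of degree 1, one of degree q, (q − 3)/2 of degree q + 1, (q − 1)/2 of degree q − 1, two of degree (q + 1)/2 and two of degree (q − 1)/2. -/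
theorem result {F : Type*} [Field F] [Fintype F] (hodd : Odd (Fintype.card F)) :
    (∀ χ : Matrix.SpecialLinearGroup (Fin 2) F → ℂ, Cfsg.IsIrrCharacter (Matrix.SpecialLinearGroup (Fin 2) F) χ →
      χ 1 = 1 ∨ χ 1 = (Fintype.card F : ℂ) ∨ χ 1 = (Fintype.card F : ℂ) + 1 ∨ χ 1 = (Fintype.card F : ℂ) - 1 ∨
        χ 1 = (((Fintype.card F + 1) / 2 : ℕ) : ℂ) ∨ χ 1 = (((Fintype.card F - 1) / 2 : ℕ) : ℂ)) ∧
    (5 ≤ Fintype.card F →
      Nat.card {χ : Cfsg.IrrCharacter (Matrix.SpecialLinearGroup (Fin 2) F) // (χ : Matrix.SpecialLinearGroup (Fin 2) F → ℂ) 1 = 1} = 1 ∧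
      Nat.card {χ : Cfsg.IrrCharacter (Matrix.SpecialLinearGroup (Fin 2) F) // (χ : Matrix.SpecialLinearGroup (Fin 2) F → ℂ) 1 = (Fintype.card F : ℂ)} = 1 ∧
      Nat.card {χ : Cfsg.IrrCharacter (Matrix.SpecialLinearGroup (Fin 2) F) // (χ : Matrix.SpecialLinearGroup (Fin 2) F → ℂ) 1 = (Fintype.card F : ℂ) + 1} = (Fintype.card F - 3) / 2 ∧
      Nat.card {χ : Cfsg.IrrCharacter (Matrix.SpecialLinearGroup (Fin 2) F) // (χ : Matrix.SpecialLinearGroup (Fin 2) F → ℂ) 1 = (Fintype.card F : ℂ) - 1} = (Fintype.card F - 1) / 2 ∧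
      Nat.card {χ : Cfsg.IrrCharacter (Matrix.SpecialLinearGroup (Fin 2) F) // (χ : Matrix.SpecialLinearGroup (Fin 2) F → ℂ) 1 = (((Fintype.card F + 1) / 2 : ℕ) : ℂ)} = 2 ∧
      Nat.card {χ : Cfsg.IrrCharacter (Matrix.SpecialLinearGroup (Fin 2) F) // (χ : Matrix.SpecialLinearGroup (Fin 2) F → ℂ) 1 = (((Fintype.card F - 1) / 2 : ℕ) : ℂ)} = 2) := by
  classical
  have := Fintype.ofFinite (GL (Fin 2) F)
  obtain ⟨w, hw⟩ := exists_ell_SL (F := F)
  have h2 := two_ne_zero_of_odd hodd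
  refine ⟨fun χ hχ => ?_, fun hq => ⟨?_, ?_, ?_, ?_, ?_, ?_⟩⟩
  · rcases irr_SL2 hw hχ with rfl | rfl | ⟨α, h, rfl⟩ | ⟨θ, h, rfl⟩ | ⟨α, ψ, -, -, h⟩ | ⟨θ, ψ, -, -, h⟩
    · exact Or.inl rfl
    · exact Or.inr (Or.inl StS_one)
    · exact Or.inr (Or.inr (Or.inl (WS_one _)))
    · exact Or.inr (Or.inr (Or.inr (Or.inl (cuspS_one _ _))))
    · exact Or.inr (Or.inr (Or.inr (Or.inr (Or.inl (h.degree_WS h2)))))
    · exact Or.inr (Or.inr (Or.inr (Or.inr (Or.inr (h.degree_cuspS hw h2)))))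
  · rw [card_irr_degree _ {fun _ => 1}, Set.ncard_singleton]
    exact fun χ => ⟨by rintro rfl; exact ⟨isIrrCharacter_one, rfl⟩,
      fun h => eq_one_of_degree hw h.1 (by omega) h.2⟩
  · rw [card_irr_degree _ {StS}, Set.ncard_singleton]
    exact fun χ => ⟨by rintro rfl; exact ⟨isIrr_StS, StS_one⟩, fun h => eq_StS_of_degree hw h.1 h.2⟩
  · have h := ncard_WS (F := F)
    rw [card_sq_eq_one_odd h2] at h
    rw [card_irr_degree _ (WS '' {α | α ^ 2 ≠ 1})]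
    · omega
    refine fun χ => ⟨?_, fun h => ?_⟩
    · rintro ⟨α, h, rfl⟩; exact ⟨(isIrr_WS_iff α).2 h, WS_one α⟩
    · obtain ⟨α, h1, rfl⟩ := eq_WS_of_degree hw h.1 h.2
      exact ⟨α, h1, rfl⟩
  · have h := ncard_cuspS hw
    rw [card_sq_eq_one_odd h2] at h
    rw [card_irr_degree _ (cuspS hw '' {α | α ^ 2 ≠ 1})]
    · omega
    refine fun χ => ⟨?_, fun h => ?_⟩
    · rintro ⟨α, h, rfl⟩; exact ⟨isIrr_cuspS hw h, cuspS_one hw α⟩
    · obtain ⟨α, h1, rfl⟩ := eq_cuspS_of_degree hw h.1 (by omega) h.2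
      exact ⟨α, h1, rfl⟩
  · obtain ⟨α, h1, h3, hu⟩ := exists_quad h2
    obtain ⟨a, b, H⟩ := exists_halves_WS h1 h3
    rw [card_irr_degree _ {a, b}, Set.ncard_pair H.ne]
    refine fun χ => ⟨?_, fun h => ?_⟩
    · rintro (rfl | rfl)
      · exact ⟨H.irr, H.degree_WS h2⟩
      · exact ⟨H.irr', H.symm.degree_WS h2⟩
    · obtain ⟨β, ψ, h4, h5, H'⟩ := halves_WS_of_degree hw h.1 hodd hq h.2
      rw [hu β h4 h5] at H'
      exact H.eq_or H'
  · obtain ⟨α, h1, h3, hu⟩ := exists_quadC h2 hw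
    obtain ⟨a, b, H⟩ := exists_halves_cuspS hw h1 h3
    rw [card_irr_degree _ {a, b}, Set.ncard_pair H.ne]
    refine fun χ => ⟨?_, fun h => ?_⟩
    · rintro (rfl | rfl)
      · exact ⟨H.irr, H.degree_cuspS hw h2⟩
      · exact ⟨H.irr', H.symm.degree_cuspS hw h2⟩
    · obtain ⟨β, ψ, h4, h5, H'⟩ := halves_cuspS_of_degree hw h.1 hodd hq h.2
      rw [hu β h4 h5] at H'
      exact H.eq_or H'

end Cfsg.Agent.S2299
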