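import Cfsg.Statements.S2300
import Cfsg.Agent.H24.SL2Table

set_option autoImplicit false
open Cfsg

namespace Cfsg.Agent.S2300

open H24 H5 Matrix

/-- Over a finite field F with q elements, q even, every irreducible complex character of SL₂ has degree 1, q − 1, q or q + 1; and when q ≥ 4 (so that these four numbers are distinct) there are exactly one irreducible character of degree 1, one of degree q, (q − 2)/2 of degree q + 1 and q/2 of degree q − 1. -/
theorem result {F : Type*} [Field F] [Fintype F] [CharP F 2] :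
    (∀ χ : Matrix.SpecialLinearGroup (Fin 2) F → ℂ, Cfsg.IsIrrCharacter (Matrix.SpecialLinearGroup (Fin 2) F) χ →
      χ 1 = 1 ∨ χ 1 = (Fintype.card F : ℂ) - 1 ∨ χ 1 = (Fintype.card F : ℂ) ∨ χ 1 = (Fintype.card F : ℂ) + 1) ∧
    (4 ≤ Fintype.card F →
      Nat.card {χ : Cfsg.IrrCharacter (Matrix.SpecialLinearGroup (Fin 2) F) // (χ : Matrix.SpecialLinearGroup (Fin 2) F → ℂ) 1 = 1} = 1 ∧
      Nat.card {χ : Cfsg.IrrCharacter (Matrix.SpecialLinearGroup (Fin 2) F) // (χ : Matrix.SpecialLinearGroup (Fin 2) F → ℂ) 1 = (Fintype.card F : ℂ)} = 1 ∧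
      Nat.card {χ : Cfsg.IrrCharacter (Matrix.SpecialLinearGroup (Fin 2) F) // (χ : Matrix.SpecialLinearGroup (Fin 2) F → ℂ) 1 = (Fintype.card F : ℂ) + 1} = (Fintype.card F - 2) / 2 ∧
      Nat.card {χ : Cfsg.IrrCharacter (Matrix.SpecialLinearGroup (Fin 2) F) // (χ : Matrix.SpecialLinearGroup (Fin 2) F → ℂ) 1 = (Fintype.card F : ℂ) - 1} = Fintype.card F / 2) := by
  classical
  have := Fintype.ofFinite (GL (Fin 2) F)
  obtain ⟨w, hw⟩ := exists_ell_SL (F := F)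
  have h2 : (2 : F) = 0 := by exact_mod_cast CharP.cast_eq_zero F 2
  refine ⟨fun χ hχ => ?_, fun hq => ⟨?_, ?_, ?_, ?_⟩⟩
  · rcases irr_SL2 hw hχ with rfl | rfl | ⟨α, h, rfl⟩ | ⟨θ, h, rfl⟩ | ⟨α, ψ, h, h', -⟩ | ⟨θ, ψ, h, h', -⟩
    · exact Or.inl rfl
    · exact Or.inr (Or.inr (Or.inl StS_one))
    · exact Or.inr (Or.inr (Or.inr (WS_one _)))
    · exact Or.inr (Or.inl (cuspS_one _ _))
    · exact absurd h2 (two_ne_zero_of_quad h h')
    · exact absurd h2 (two_ne_zero_of_quadC hw h h')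
  · rw [card_irr_degree _ {fun _ => 1}, Set.ncard_singleton]
    exact fun χ => ⟨by rintro rfl; exact ⟨isIrrCharacter_one, rfl⟩,
      fun h => eq_one_of_degree hw h.1 hq h.2⟩
  · rw [card_irr_degree _ {StS}, Set.ncard_singleton]
    exact fun χ => ⟨by rintro rfl; exact ⟨isIrr_StS, StS_one⟩, fun h => eq_StS_of_degree hw h.1 h.2⟩
  · have h := ncard_WS (F := F)
    rw [card_sq_eq_one_even h2] at h
    rw [card_irr_degree _ (WS '' {α | α ^ 2 ≠ 1})]
    · omega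
    refine fun χ => ⟨?_, fun h => ?_⟩
    · rintro ⟨α, h, rfl⟩; exact ⟨(isIrr_WS_iff α).2 h, WS_one α⟩
    · obtain ⟨α, h1, rfl⟩ := eq_WS_of_degree hw h.1 h.2
      exact ⟨α, h1, rfl⟩
  · have h := ncard_cuspS hw
    rw [card_sq_eq_one_even h2] at h
    rw [card_irr_degree _ (cuspS hw '' {α | α ^ 2 ≠ 1})]
    · omega
    refine fun χ => ⟨?_, fun h => ?_⟩
    · rintro ⟨α, h, rfl⟩; exact ⟨isIrr_cuspS hw h, cuspS_one hw α⟩
    · obtain ⟨α, h1, rfl⟩ := eq_cuspS_of_degree hw h.1 hq h.2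
      exact ⟨α, h1, rfl⟩

end Cfsg.Agent.S2300
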