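import Cfsg.Statements.S2323
import Cfsg.Agent.H24.SL2Table

set_option autoImplicit false
open Cfsg

namespace Cfsg.Agent.S2323

open H24 H5 Matrix

/-- Over a finite field F with q ≥ 4 elements, let u be the upper unitriangular matrix of SL₂ with off-diagonal entry 1. An irreducible complex character of SL₂ takes at u the value 1 if its degree is q + 1 and the value −1 if its degree is q − 1. -/
theorem result {F : Type*} [Field F] [Fintype F] (hq : 4 ≤ Fintype.card F) (χ : Matrix.SpecialLinearGroup (Fin 2) F → ℂ) (hχ : Cfsg.IsIrrCharacter (Matrix.SpecialLinearGroup (Fin 2) F) χ)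
    (u : Matrix.SpecialLinearGroup (Fin 2) F) (hu : (u : Matrix (Fin 2) (Fin 2) F) = !![1, 1; 0, 1]) :
    (χ 1 = (Fintype.card F : ℂ) + 1 → χ u = 1) ∧ (χ 1 = (Fintype.card F : ℂ) - 1 → χ u = -1) := by
  classical
  have := Fintype.ofFinite (GL (Fin 2) F)
  obtain ⟨w, hw⟩ := exists_ell_SL (F := F)
  have h1 : ¬ IsScal (u : M2 F) := fun h => by have := h.1; simp [hu] at this
  have h2 : (u : M2 F).trace = 1 + 1 := by simp [hu, trace_fin_two]
  refine ⟨fun h => ?_, fun h => ?_⟩
  · obtain ⟨α, -, rfl⟩ := eq_WS_of_degree hw hχ h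
    rw [WS_par α h1 h2 (mul_one 1), map_one]
  · obtain ⟨θ, -, rfl⟩ := eq_cuspS_of_degree hw hχ hq h
    exact cuspS_unip hw θ h1 h2

end Cfsg.Agent.S2323
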