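import Cfsg.Statements.S4691
import Cfsg.Agent.H8.Pairs4
import Cfsg.Agent.H3.Frobenius

set_option autoImplicit false
open Cfsg

namespace Cfsg.Agent.S4691

open H5 H7 H8

/-- Fix a prime p and a maximal ideal M of the algebraic integers containing p. A finite group G has a normal p-complement if and only if its principal p-block is nilpotent. -/
theorem result {G : Type*} [Group G] [Fintype G] (p : ℕ) [Fact p.Prime] (M : Ideal Cfsg.AlgInt) (hM : Cfsg.IsPModular p M) : Cfsg.HasNormalPComplement p G ↔ Cfsg.IsNilpotentBlock p M (Cfsg.principalBlock M G) := by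
  haveI : PM p M := ⟨hM⟩
  rw [H3.frobenius_iff', nil_iff isPBlock_principalBlock, fB_principal]
  have hc : ∀ g : G, (orderOf g).Coprime p ↔ ¬ p ∣ orderOf g := fun g => by
    rw [Nat.coprime_comm, Nat.Prime.coprime_iff_not_dvd Fact.out]
  refine ⟨fun h Q f hf x hx h1 => h Q hf.pair.pg x hx.1.2 ((hc x).2 h1), fun h Q hQ g hg h1 => ?_⟩
  refine h Q (b0 M (cC Q)) ((bp_b0_iff ⟨hQ, by rw [top_inf_eq]; exact blk_b0 _⟩ le_top).2
    (by rw [top_inf_eq])) g ⟨⟨Subgroup.mem_top g, hg⟩, ?_⟩ ((hc g).1 h1)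
  show cA g _ = _
  rw [cA_b0, cj_cC, mem_nN_iff.1 hg]

end Cfsg.Agent.S4691
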