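import Cfsg.Statements.S4646
import Cfsg.Agent.H8.Pairs4
import Cfsg.Agent.S4691
import Cfsg.Agent.H7.Quot

set_option autoImplicit false
open Cfsg

namespace Cfsg.Agent.S4646

open H5 H7 H8

/-- For a finite group G, a prime p and a maximal ideal M of the algebraic integers containing p: the principal block of G is nilpotent if and only if its p-regular rank is 1 (the trivial Brauer character is its only irreducible Brauer character). -/
theorem result {G : Type*} [Group G] [Finite G] (p : ℕ) [Fact p.Prime] (M : Ideal Cfsg.AlgInt) (hM : Cfsg.IsPModular p M) : Cfsg.IsNilpotentBlock p M (Cfsg.principalBlock M G) ↔ Cfsg.blockRank p (Cfsg.principalBlock M G) = 1 := by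
  classical
  haveI : PM p M := ⟨hM⟩
  letI := Fintype.ofFinite G
  have hc : ∀ g : G, (orderOf g).Coprime p ↔ ¬ p ∣ orderOf g := fun g => by
    rw [Nat.coprime_comm, Nat.Prime.coprime_iff_not_dvd Fact.out]
  have h1 : reg p (irrOne G : G → ℂ) ≠ 0 := fun h => by
    have := congrFun h 1
    rw [reg_of_not_dvd _ not_dvd_orderOf_one] at this
    simp at this
  rw [← Cfsg.Agent.S4691.result p M hM, blockRank]
  rw [show (fun χ : IrrCharacter G => pRegularPart p (χ : G → ℂ)) =
    fun χ : IrrCharacter G => reg p (χ : G → ℂ) from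
    funext fun χ => pRegularPart_eq _]
  constructor
  · intro h
    obtain ⟨N, hN, h2, h3⟩ := H3.hasNormalPComplement_iff_exists_normal.1 h
    obtain ⟨k, hk⟩ := IsPGroup.iff_card.1 h3
    have h4 := principalBlock_eq_kerSet (M := M) h2 (k := k) hk
    suffices h5 : Submodule.span ℂ ((fun χ : IrrCharacter G => reg p (χ : G → ℂ)) ''
        principalBlock M G) = ℂ ∙ reg p (irrOne G : G → ℂ) by
      rw [h5, finrank_span_singleton h1]
    refine le_antisymm (Submodule.span_le.2 ?_) (Submodule.span_mono ?_)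
    · rintro _ ⟨χ, hχ, rfl⟩
      refine Submodule.mem_span_singleton.2 ⟨(χ : G → ℂ) 1, funext fun x => ?_⟩
      rw [h4] at hχ
      by_cases hx : p ∣ orderOf x
      · simp [reg_of_dvd _ hx]
      · simp [reg_of_not_dvd _ hx, hχ x (mem_of_index_pow hk hx)]
    · rintro _ rfl
      exact ⟨_, irrOne_mem_principalBlock, rfl⟩
  · intro h
    have h2 : ∀ χ ∈ principalBlock M G, ∀ x, ¬ p ∣ orderOf x → x ∈ charKer (χ : G → ℂ) := by
      intro χ hχ x hx
      obtain ⟨c, hc⟩ := (finrank_eq_one_iff_of_nonzero' (⟨reg p (irrOne G : G → ℂ),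
        Submodule.subset_span ⟨_, irrOne_mem_principalBlock, rfl⟩⟩ : Submodule.span ℂ
          ((fun χ : IrrCharacter G => reg p (χ : G → ℂ)) '' principalBlock M G))
        (fun e => h1 (congrArg Subtype.val e))).1 h ⟨_, Submodule.subset_span ⟨χ, hχ, rfl⟩⟩
      have h3 := congrArg Subtype.val hc
      have h4 := congrFun h3 x
      have h5 := congrFun h3 1
      simp only [Submodule.coe_smul, Pi.smul_apply, reg_of_not_dvd _ hx,
        reg_of_not_dvd _ not_dvd_orderOf_one, irrOne_apply] at h4 h5
      rw [χ.2.isCharacter.mem_charKer, ← h4, ← h5]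
    rw [H3.hasNormalPComplement_iff_mul_coprime]
    intro x y hx hy
    rw [hc] at hx hy ⊢
    exact not_dvd_of_forall_eq (isSat_of_isPBlock isPBlock_principalBlock)
      ⟨_, irrOne_mem_principalBlock⟩ fun χ hχ =>
        apply_eq_of_mem_charKer (mul_mem (h2 χ hχ x hx) (h2 χ hχ y hy))

end Cfsg.Agent.S4646
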