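import Cfsg.Statements.S4652
import Cfsg.Agent.H7.Cover

set_option autoImplicit false
open Cfsg

namespace Cfsg.Agent.S4652

open H5 H7

/-- Fix a prime p and a maximal ideal M of the algebraic integers containing p. The defect groups of the principal p-block of a finite group G are exactly the Sylow p-subgroups of G: a subgroup D is a defect group of the principal block if and only if D is a Sylow p-subgroup. -/
theorem result {G : Type*} [Group G] [Fintype G] (p : ℕ) [Fact p.Prime] (M : Ideal Cfsg.AlgInt) (hM : Cfsg.IsPModular p M) (D : Subgroup G) : Cfsg.IsDefectGroup p M (Cfsg.principalBlock M G) D ↔ ∃ S : Sylow p G, (S : Subgroup G) = D := by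
  haveI : PM p M := ⟨hM⟩
  have hB := isPBlock_principalBlock (M := M) (G := G)
  have h1 := factorization_add_defect (M := M) (p := p) (irrOne_mem_principalBlock (M := M) (G := G))
  rw [blockHeight_irrOne, charDegree_eq (n := 1) (by simp), Nat.factorization_one] at h1
  simp only [Finsupp.coe_zero, Pi.zero_apply, zero_add, add_zero] at h1
  have key : ∀ D, IsDefectGroup p M (principalBlock M G) D → SylIn p D ⊤ := fun D hD =>
    sylIn_of_card_ge le_top (IsDefectGroup.isPGroup hD)
      (by rw [IsDefectGroup.card hB hD, h1, Subgroup.card_top])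
  refine ⟨fun h => (key D h).exists_sylow, ?_⟩
  rintro ⟨S, rfl⟩
  obtain ⟨E, hE⟩ := exists_isDefectGroup p hB
  exact IsDefectGroup.of_cle_cle hE ((key E hE).cle S.isPGroup' le_top)
    ((sylIn_top S).cle (IsDefectGroup.isPGroup hE) le_top)

end Cfsg.Agent.S4652
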