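import Cfsg.Statements.S0723
import Cfsg.Agent.H17.Scott
import Cfsg.Agent.H16.MinNormal

set_option autoImplicit false
open Cfsg

namespace Cfsg.Agent.S0723

open Subgroup H17.Sc

theorem core {G T : Type*} [Group G] [Group T] [IsSimpleGroup T] (hT : ¬ IsMulCommutative T) {m : ℕ} (hm : 0 < m)
    (N : Subgroup G) [N.Normal] (hmin : ∀ L : Subgroup G, L.Normal → L ≤ N → L = ⊥ ∨ L = N)
    (e : N ≃* (Fin m → T)) (M : Subgroup G) (hM : IsCoatom M) (hNM : ¬ N ≤ M) :
    (∃ K : Fin m → Subgroup T, (∀ i, K i ≠ ⊤) ∧ ∀ n : N, (n : G) ∈ M ↔ ∀ i, e n i ∈ K i) ∨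
    ∃ e' : N ≃* (Fin m → T), ∃ (k : ℕ) (c : Fin m → Fin m), 2 ≤ k ∧
      (∀ j : Fin m, Nat.card {i : Fin m // c i = j} = k ∨ Nat.card {i : Fin m // c i = j} = 0) ∧
      ∀ n : N, (n : G) ∈ M ↔ ∀ i j : Fin m, c i = c j → e' n i = e' n j := by
  classical
  obtain ⟨t₀, ht₀⟩ := exists_ne (1 : T)
  let cj : G → N ≃* N := fun g => MulAut.conjNormal g
  have cjm : ∀ g h n, cj (g * h) n = cj g (cj h n) := fun g h n => by simp [cj]
  have cjM : ∀ g ∈ M, ∀ n : N, (n : G) ∈ M → (cj g n : G) ∈ M := fun g hg n hn => by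
    simpa [cj] using M.mul_mem (M.mul_mem hg hn) (M.inv_mem hg)
  have hτ : ∀ g i, ∃ j, ∃ β : T →* T, Function.Injective β ∧ ∀ n : N, e (cj g n) i = β (e n j) := by
    intro g i
    let f : (Fin m → T) →* T := (Pi.evalMonoidHom (fun _ => T) i).comp (e.symm.trans ((cj g).trans e)).toMonoidHom
    have hf : Function.Surjective f :=
      (Function.surjective_eval (β := fun _ : Fin m => T) i).comp (e.symm.trans ((cj g).trans e)).surjective
    obtain ⟨j, β, hβ⟩ := factor hT f hf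
    refine ⟨j, β, ?_, fun n => by simpa [f] using hβ (e n)⟩
    rcases (inferInstance : β.ker.Normal).eq_bot_or_eq_top with h | h
    · exact (MonoidHom.ker_eq_bot_iff β).1 h
    · obtain ⟨x, hx⟩ := hf t₀
      have : x j ∈ β.ker := h ▸ mem_top _
      exact (ht₀ (by rw [← hx, hβ]; exact this)).elim
  choose τ β hβ hτ using hτ
  have hsup : ∀ g : G, ∃ n ∈ N, ∃ x ∈ M, n * x = g := fun g => by
    have : N ⊔ M = ⊤ := hM.2 _ (right_lt_sup.2 hNM)
    have h : g ∈ (↑(N ⊔ M) : Set G) := this ▸ mem_top g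
    rw [normal_mul] at h
    exact h
  have htr : ∀ i j, ∃ g ∈ M, τ g i = j := by
    intro i
    let S : Set (Fin m) := {j | ∃ g ∈ M, ∀ n : N, e n j = 1 → e (cj g n) i = 1}
    let L : Subgroup N :=
      { carrier := {n | ∀ j ∈ S, e n j = 1}
        one_mem' := fun j _ => by simp
        mul_mem' := fun ha hb j hj => by simp [ha j hj, hb j hj]
        inv_mem' := fun ha j hj => by simp [ha j hj] }
    have hL : (L.map N.subtype).Normal := ⟨by
      rintro _ ⟨n, hn, rfl⟩ g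
      obtain ⟨a, ha, x, hx, rfl⟩ := hsup g
      refine ⟨⟨a, ha⟩ * cj x n * ⟨a, ha⟩⁻¹, fun j ⟨y, hy, hj⟩ => ?_, by simp [cj, mul_assoc]⟩
      have : e n (τ x j) = 1 := hn _ ⟨y * x, M.mul_mem hy hx, fun n' hn' => by
        rw [cjm]; exact hj _ (by rw [hτ, hn', map_one])⟩
      simp [hτ, this]⟩
    intro j
    rcases hmin _ hL (map_subtype_le _) with h | h
    · have hj : j ∈ S := by
        by_contra hj
        have : ((e.symm (Pi.mulSingle j t₀) : N) : G) ∈ L.map N.subtype := ⟨_, fun k hk => by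
          have : k ≠ j := fun h => hj (h ▸ hk)
          simp [this], rfl⟩
        rw [h, mem_bot, OneMemClass.coe_eq_one, EmbeddingLike.map_eq_one_iff] at this
        exact ht₀ (by simpa using congrFun this j)
      obtain ⟨g, hg, hj⟩ := hj
      refine ⟨g, hg, by_contra fun hne => ht₀ (hβ g i ?_)⟩
      have := hj (e.symm (Pi.mulSingle (τ g i) t₀)) (by simp [Ne.symm hne])
      rw [hτ] at this
      simpa using this
    · have : ((e.symm (Pi.mulSingle i t₀) : N) : G) ∈ L.map N.subtype := h.symm ▸ Subtype.prop _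
      obtain ⟨n, hn, en⟩ := this
      have en' : n = e.symm (Pi.mulSingle i t₀) := Subtype.ext en
      have := hn i ⟨1, M.one_mem, fun n hn => by simpa [cj] using hn⟩
      exact (ht₀ (by simpa [en'] using this)).elim
  let R : Subgroup N := M.subgroupOf N
  let π : Fin m → R →* T := fun i => ((Pi.evalMonoidHom (fun _ => T) i).comp e.toMonoidHom).comp R.subtype
  have πa : ∀ i (r : R), π i r = e r i := fun _ _ => rfl
  by_cases hK : ∀ i, (π i).range ≠ ⊤
  · refine Or.inl ⟨fun i => (π i).range, hK, fun n => ⟨fun hn i => ⟨⟨n, hn⟩, rfl⟩, fun hn => ?_⟩⟩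
    have hP : ∀ g ∈ M, ∀ p : N, (∀ i, e p i ∈ (π i).range) → ∀ i, e (cj g p) i ∈ (π i).range := by
      intro g hg p hp i
      obtain ⟨r, hr⟩ := hp (τ g i)
      exact ⟨⟨cj g r, cjM g hg _ r.2⟩, by rw [πa, hτ, hτ, ← hr, πa]⟩
    let Q : Subgroup G :=
      { carrier := {g | ∃ p : N, (∀ i, e p i ∈ (π i).range) ∧ ∃ x ∈ M, p * x = g}
        one_mem' := ⟨1, fun i => by simp, 1, M.one_mem, by simp⟩
        mul_mem' := by
          rintro _ _ ⟨p, hp, x, hx, rfl⟩ ⟨q, hq, y, hy, rfl⟩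
          exact ⟨p * cj x q, fun i => by
            rw [map_mul, Pi.mul_apply]; exact mul_mem (hp i) (hP x hx q hq i), x * y, M.mul_mem hx hy,
            by simp [cj, mul_assoc]⟩
        inv_mem' := by
          rintro _ ⟨p, hp, x, hx, rfl⟩
          exact ⟨cj x⁻¹ p⁻¹, hP _ (M.inv_mem hx) _ fun i => by
            rw [map_inv, Pi.inv_apply]; exact inv_mem (hp i), x⁻¹, M.inv_mem hx, by simp [cj, mul_assoc]⟩ }
    have hMQ : M ≤ Q := fun x hx => ⟨1, fun i => by simp, x, hx, by simp⟩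
    rcases hMQ.eq_or_lt with h | h
    · rw [h]; exact ⟨n, hn, 1, M.one_mem, by simp⟩
    · exfalso
      refine hK ⟨0, hm⟩ (top_le_iff.1 fun t _ => ?_)
      obtain ⟨p, hp, x, hx, h'⟩ : ((e.symm fun _ => t : N) : G) ∈ Q := hM.2 _ h ▸ mem_top _
      have hr : p⁻¹ * e.symm (fun _ => t) ∈ R := by
        simp only [R, mem_subgroupOf, coe_mul, ← h', coe_inv, inv_mul_cancel_left]; exact hx
      have := mul_mem (hp ⟨0, hm⟩) (show e (p⁻¹ * e.symm fun _ => t) ⟨0, hm⟩ ∈ (π ⟨0, hm⟩).range from ⟨⟨_, hr⟩, rfl⟩)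
      simpa using this
  push Not at hK
  obtain ⟨i₀, hi₀⟩ := hK
  have hπ : ∀ j, Function.Surjective (π j) := fun j t => by
    obtain ⟨g, hg, rfl⟩ := htr i₀ j
    obtain ⟨r, hr⟩ : β g i₀ t ∈ (π i₀).range := hi₀ ▸ mem_top _
    refine ⟨⟨cj g⁻¹ r, cjM _ (M.inv_mem hg) _ r.2⟩, hβ g i₀ ?_⟩
    rw [πa, ← hτ, ← cjm, ← hr, πa]; simp [cj]
  right
  have := (⟨i₀⟩ : Nonempty (Fin m))
  let c : Fin m → Fin m := fun i => Classical.epsilon fun j => (π j).ker = (π i).ker
  have hc : ∀ i, (π (c i)).ker = (π i).ker := fun i =>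
    Classical.epsilon_spec (p := fun j => (π j).ker = (π i).ker) ⟨i, rfl⟩
  have hcc : ∀ i j, c i = c j ↔ (π i).ker = (π j).ker := fun i j =>
    ⟨fun h => by rw [← hc i, h, hc], fun h => by simp only [c, h]⟩
  choose γ hγ using fun i => exists_aut (hπ i) (hπ (c i)) (hc i).symm
  have hmem : ∀ n : N, (n : G) ∈ M ↔ ∀ i j : Fin m, c i = c j → γ i (e n i) = γ j (e n j) := fun n => by
    refine ⟨fun hn i j h => ?_, fun hn => ?_⟩
    · have h1 := hγ i ⟨n, hn⟩
      have h2 := hγ j ⟨n, hn⟩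
      rw [πa] at h1 h2
      rw [h1, h2, h]
    · obtain ⟨r, hr⟩ := scott hT π hπ (e n) (Finset.univ.image c) (by
        simp only [Finset.mem_image, Finset.mem_univ, true_and]
        rintro _ ⟨i, rfl⟩ _ ⟨j, rfl⟩ h
        exact (hcc i j).2 (by rw [← hc i, h, hc]))
      have : n = r := e.injective (funext fun i => (γ i).injective (by
        have h1 : c (c i) = c i := (hcc _ _).2 (hc i)
        rw [hn i (c i) h1.symm, ← hr (c i) (by simp), hγ, h1, ← πa, hγ]))
      rw [this]; exact r.2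
  have hle : ∀ i j, Nat.card {k // c k = c i} ≤ Nat.card {k // c k = c j} := fun i j => by
    obtain ⟨g, hg, rfl⟩ := htr i j
    have hk : ∀ k l, (π k).ker = (π l).ker → (π (τ g k)).ker ≤ (π (τ g l)).ker := fun k l h r hr => by
      have h1 : (⟨cj g r, cjM g hg _ r.2⟩ : R) ∈ (π k).ker := by
        rw [MonoidHom.mem_ker, πa] at hr ⊢
        rw [hτ, hr, map_one]
      rw [h, MonoidHom.mem_ker, πa, hτ] at h1
      exact hβ g l (h1.trans (map_one _).symm)
    refine Nat.card_le_card_of_injective (fun k : {k // c k = c i} => (⟨τ g k.1, (hcc _ _).2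
      (le_antisymm (hk _ _ ((hcc _ _).1 k.2)) (hk _ _ ((hcc _ _).1 k.2).symm))⟩ : {k // c k = c (τ g i)}))
      fun k l h => Subtype.ext ?_
    have h' : τ g k.1 = τ g l.1 := congrArg Subtype.val h
    by_contra hne
    have h1 := hτ g k.1 ((cj g).symm (e.symm (Pi.mulSingle k.1 t₀)))
    have h2 := hτ g l.1 ((cj g).symm (e.symm (Pi.mulSingle k.1 t₀)))
    simp only [MulEquiv.apply_symm_apply, Pi.mulSingle_eq_same] at h1 h2
    rw [Pi.mulSingle_eq_of_ne (Ne.symm hne), eq_comm, map_eq_one_iff _ (hβ _ _), ← h'] at h2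
    exact ht₀ (by rw [h1, h2, map_one])
  refine ⟨e.trans (MulEquiv.piCongrRight γ), Nat.card {k // c k = c i₀}, c, ?_, fun j => ?_, hmem⟩
  · by_contra hlt
    refine hNM fun n hn => (hmem ⟨n, hn⟩).2 fun i j h => ?_
    have : Subsingleton {k // c k = c j} := Finite.card_le_one_iff_subsingleton.1 (by have := hle j i₀; omega)
    have h' : i = j := congrArg Subtype.val (Subsingleton.elim (⟨i, h⟩ : {k // c k = c j}) ⟨j, rfl⟩)
    rw [h']
  · by_cases hj : ∃ i, c i = j
    · obtain ⟨i, rfl⟩ := hj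
      exact Or.inl (le_antisymm (hle _ _) (hle _ _))
    · push Not at hj
      have : IsEmpty {i // c i = j} := ⟨fun i => hj _ i.2⟩
      exact Or.inr (by simp)

/-- The core of the O'Nan–Scott Theorem. Let `H` be a primitive permutation group on a finite set whose unique minimal normal subgroup `N` is non-abelian, and `K` a point stabiliser. Then there are a non-abelian simple group `T` and an isomorphism `N ≃* T^m` (`m ≥ 1`) under which `K ⊓ N` becomes either a product `∏ K_i` of proper subgroups `K_i < T`, or the set of functions constant on each block of a partition of the index set into blocks of one common size `k ≥ 2`. -/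
theorem result {α : Type*} [Finite α] (H : Subgroup (Equiv.Perm α)) [MulAction.IsPreprimitive H α] (N : Subgroup H) [N.Normal] (hN : N ≠ ⊥) (hmin : ∀ M : Subgroup H, M.Normal → M ≤ N → M = ⊥ ∨ M = N) (huniq : ∀ L : Subgroup H, L.Normal → L ≠ ⊥ → (∀ M : Subgroup H, M.Normal → M ≤ L → M = ⊥ ∨ M = L) → L = N) (hnab : ¬ IsMulCommutative N) (a : α) : ∃ (T : Type) (_ : Group T) (m : ℕ) (e : N ≃* (Fin m → T)), IsSimpleGroup T ∧ ¬ IsMulCommutative T ∧ 0 < m ∧ ((∃ K : Fin m → Subgroup T, (∀ i, K i ≠ ⊤) ∧ ∀ n : N, (n : H) ∈ MulAction.stabilizer H a ↔ ∀ i, e n i ∈ K i) ∨ (∃ (k : ℕ) (c : Fin m → Fin m), 2 ≤ k ∧ (∀ j : Fin m, Nat.card {i : Fin m // c i = j} = k ∨ Nat.card {i : Fin m // c i = j} = 0) ∧ ∀ n : N, (n : H) ∈ MulAction.stabilizer H a ↔ ∀ i j : Fin m, c i = c j → e n i = e n j)) := by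
  obtain ⟨T, _, m, hT, hm, ⟨e⟩⟩ := H16.exists_pi_of_minimal_normal N hN hmin
  have hT' : ¬ IsMulCommutative T := fun h => hnab ⟨⟨fun x y => e.injective (by
    rw [map_mul, map_mul]; exact funext fun i => h.1.1 _ _)⟩⟩
  have hNM : ¬ N ≤ MulAction.stabilizer H a := fun h => hN (eq_bot_iff.2 fun n hn => ?_)
  · have : Nontrivial α := by
      by_contra hc
      have := not_nontrivial_iff_subsingleton.1 hc
      exact hNM fun n _ => Subsingleton.elim _ _
    rcases core hT' hm N hmin e _ (MulAction.IsPreprimitive.isCoatom_stabilizer_of_isPreprimitive H a) hNM with h | ⟨e', h⟩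
    · exact ⟨T, inferInstance, m, e, hT, hT', hm, Or.inl h⟩
    · exact ⟨T, inferInstance, m, e', hT, hT', hm, Or.inr h⟩
  · refine Subtype.ext (Equiv.ext fun b => ?_)
    obtain ⟨g, rfl⟩ := MulAction.exists_smul_eq H a b
    have := h ((inferInstance : N.Normal).conj_mem' n hn g)
    rw [MulAction.mem_stabilizer_iff, mul_smul, mul_smul, inv_smul_eq_iff] at this
    exact this

end Cfsg.Agent.S0723
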