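import Cfsg.Statements.S2431
import Cfsg.Agent.H9.L2
import Cfsg.Agent.H10.Klein

set_option autoImplicit false
open Cfsg

namespace Cfsg.Agent.S2431

open H24 Subgroup
open scoped MatrixGroups

theorem exists_om {F : Type*} [Field F] (h2 : (2 : F) ≠ 0) {i j : SL(2, F)} (hi : (i : M2 F).trace = 0)
    (hj : j * j = -1) (h : j * i = -(i * j)) :
    ∃ w : SL(2, F), w * i = j * w ∧ w * j = i * j * w := by
  have tj := H10.trace_eq_zero_of_mul_self hj
  have di := i.2
  have dj := j.2
  have e := congrFun (congrFun (congrArg Subtype.val h) 0) 0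
  rw [Matrix.trace_fin_two] at hi tj
  rw [Matrix.det_fin_two] at di dj
  simp [Matrix.mul_apply] at e
  obtain ⟨u, hu⟩ : ∃ u : F, 2 * u = 1 := ⟨2⁻¹, mul_inv_cancel₀ h2⟩
  obtain ⟨w, hw⟩ : ∃ w : SL(2, F), (w : M2 F) = u • (1 + i.1 + j.1 + i.1 * j.1) := ⟨⟨_, by
    simp [Matrix.det_fin_two, Matrix.mul_apply]; grind⟩, rfl⟩
  refine ⟨w, Subtype.ext ?_, Subtype.ext ?_⟩ <;> simp only [coe_mul_SL, hw] <;> ext a b <;>
    fin_cases a <;> fin_cases b <;> simp [Matrix.mul_apply, Matrix.one_apply] <;> grind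

/-- Let F be a finite field with q elements, q odd, and S a Sylow 2-subgroup of SL₂ over F. The centraliser of S is the centre of SL₂ (of order 2); S is its own normaliser when q ≡ ±1 mod 8, and has index 3 in its normaliser when q ≡ ±3 mod 8. -/
theorem result {F : Type*} [Field F] [Fintype F] (hodd : Odd (Fintype.card F)) (S : Sylow 2 (Matrix.SpecialLinearGroup (Fin 2) F)) :
    Subgroup.centralizer ((S : Subgroup (Matrix.SpecialLinearGroup (Fin 2) F)) : Set (Matrix.SpecialLinearGroup (Fin 2) F)) = Subgroup.center (Matrix.SpecialLinearGroup (Fin 2) F) ∧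
    ((Fintype.card F % 8 = 1 ∨ Fintype.card F % 8 = 7) →
      Subgroup.normalizer ((S : Subgroup (Matrix.SpecialLinearGroup (Fin 2) F)) : Set (Matrix.SpecialLinearGroup (Fin 2) F)) = (S : Subgroup (Matrix.SpecialLinearGroup (Fin 2) F))) ∧
    ((Fintype.card F % 8 = 3 ∨ Fintype.card F % 8 = 5) →
      Nat.card (Subgroup.normalizer ((S : Subgroup (Matrix.SpecialLinearGroup (Fin 2) F)) : Set (Matrix.SpecialLinearGroup (Fin 2) F))) = 3 * Nat.card S) := by
  have h2 := two_ne_zero_of_odd hodd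
  obtain ⟨t, tS, t0, hle, hn⟩ := sylow_two h2 S
  have hr := rs_of_trace_zero h2 t0
  obtain ⟨s, sS, sT⟩ := SetLike.not_le_iff_exists.1 hn
  have inv := fun z hz => hr.inv_of_mem_norm (z := z) (hle sS) sT hz
  have i2 := hr.index_subgroupOf hle hn
  have cT : Nat.card S = 2 * Nat.card ((C2 t).subgroupOf S) := by
    rw [← ((C2 t).subgroupOf S).index_mul_card, i2]
  have cyc := hr.isCyclic
  have k1 : ∀ n ∈ normalizer ((S : Subgroup SL(2, F)) : Set SL(2, F)), n ∈ C2 t →
      n ∈ (S : Subgroup SL(2, F)) := fun n h1 h3 => by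
    refine mem_sylow_of_pow_mem S h1 (k := 1) ?_
    have := mul_mem ((mem_normalizer_iff.1 h1 s).1 sS) (inv_mem sS)
    rwa [show n * s * n⁻¹ * s⁻¹ = n * (s * n⁻¹ * s⁻¹) by group, inv _ (inv_mem h3), inv_inv,
      ← pow_two] at this
  have cG := H10.card_SL2 (F := F)
  obtain ⟨m, hm⟩ := hodd
  refine ⟨le_antisymm (fun g hg => ?_) (center_le_centralizer _), fun h => ?_, fun h => ?_⟩
  · have g1 : g ∈ C2 t := mem_centralizer_singleton_iff.2 (hg t tS).symm
    have := inv g g1
    rw [hg s sS, mul_inv_cancel_right] at this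
    rw [mem_center_SL_iff, isScal_SL_iff]
    exact eq_of_sq_eq_one h2 (by rw [pow_two]; nth_rw 1 [this]; simp)
  · have d : 2 ^ 4 ∣ Nat.card S := S.pow_dvd_card_of_pow_dvd_card (by
      rw [cG, mul_assoc]
      refine Dvd.dvd.mul_left ?_ _
      rcases h with h | h
      · exact mul_dvd_mul (show 8 ∣ Fintype.card F - 1 by omega) (show 2 ∣ Fintype.card F + 1 by omega)
      · exact (show 2 ^ 4 ∣ 2 * 8 by norm_num).trans <| mul_dvd_mul (show 2 ∣ Fintype.card F - 1 by omega) (show 8 ∣ Fintype.card F + 1 by omega))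
    have : IsCyclic ((C2 t).subgroupOf S) := isCyclic_of_injective
      (((S : Subgroup SL(2, F)).subtype.comp ((C2 t).subgroupOf S).subtype).codRestrict (C2 t)
          fun x => x.2) fun a b e => Subtype.ext (Subtype.ext (congrArg (fun x : C2 t => x.1) e))
    obtain ⟨c, hc⟩ := IsCyclic.exists_ofOrder_eq_natCard (α := (C2 t).subgroupOf S)
    have c4 : ¬ c.1.1 ^ 4 = 1 := fun e => by
      have := Nat.le_of_dvd four_pos (orderOf_dvd_of_pow_eq_one e)
      rw [orderOf_coe, orderOf_coe, hc] at this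
      have : 0 < Nat.card ((C2 t).subgroupOf S) := Nat.card_pos
      omega
    have cs : ¬ IsScal (c.1.1 : M2 F) := fun e => c4 (by
      rcases (isScal_SL_iff _).1 e with e | e <;> rw [e]
      · simp
      · exact Even.neg_one_pow (by decide))
    have ce : C2 c.1.1 = C2 t := cent_SL_eq_of_mem hr.not_isScal cs c.2
    refine le_antisymm (fun n hn => ?_) le_normalizer
    have n1 : n ∈ normalizer (C2 t : Set SL(2, F)) := by
      rw [← ce]
      refine mem_norm_C2_of cs ?_
      rw [ce]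
      by_contra k
      have := hr.sq_eq_neg_one h2 (hle ((mem_normalizer_iff.1 hn _).1 c.1.2)) k
      apply c4
      have e : (n * c.1.1 * n⁻¹) ^ 4 = 1 := by
        rw [show 4 = 2 * 2 from rfl, pow_mul, pow_two (n * _ * _), this]; simp
      rw [conj_pow] at e
      simpa using e
    by_cases k : n ∈ C2 t
    · exact k1 n hn k
    · have : n * s ∈ C2 t := by
        have := (mul_mem_iff_of_index_two hr.index_norm (a := ⟨n, n1⟩) (b := ⟨s, hle sS⟩)).2
          (by simp [mem_subgroupOf, k, sT])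
        exact this
      simpa using mul_mem (k1 _ (mul_mem hn (le_normalizer sS)) this) (inv_mem sS)
  · have n16 : ¬ 2 ^ 4 ∣ Nat.card SL(2, F) := by
      rw [cG, mul_assoc, hm, Nat.add_sub_cancel, show 2 * m * (2 * m + 1 + 1) = 2 ^ 2 * (m * (m + 1)) by ring]
      intro d
      have d := (Nat.Coprime.pow_left 4 (by simp : Nat.Coprime 2 (2 * m + 1))).dvd_of_dvd_mul_left d
      have d : 4 ∣ m * (m + 1) := Nat.dvd_of_mul_dvd_mul_left four_pos d
      obtain ⟨k, rfl | rfl⟩ : ∃ k, m = 4 * k + 1 ∨ m = 4 * k + 2 := ⟨m / 4, by omega⟩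
      · rw [show (4 * k + 1) * (4 * k + 1 + 1) = 4 * (4 * k ^ 2 + 3 * k) + 2 by ring] at d; omega
      · rw [show (4 * k + 2) * (4 * k + 2 + 1) = 4 * (4 * k ^ 2 + 5 * k + 1) + 2 by ring] at d; omega
    have tt := mul_self_of_trace_zero t0
    have o4 : orderOf t = 2 ^ (1 + 1) := orderOf_eq_prime_pow
      (by rw [pow_one, pow_two, tt]; exact neg_one_ne_one_SL h2)
      (by rw [show 2 ^ (1 + 1) = 2 * 2 from rfl, pow_mul, pow_two t, tt]; simp)
    have c8 : Nat.card S = 8 := by
      obtain ⟨k, hk⟩ := S.isPGroup'.exists_card_eq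
      have a : 2 ^ 3 ∣ 2 ^ k := by
        rw [← hk, cT]
        have := orderOf_dvd_natCard (⟨⟨t, tS⟩, self_mem_C2 t⟩ : (C2 t).subgroupOf S)
        rw [← orderOf_coe, ← orderOf_coe] at this
        exact Nat.mul_dvd_mul_left 2 (o4 ▸ this)
      have b : ¬ 2 ^ 4 ∣ 2 ^ k := fun e => n16 (e.trans (hk ▸ card_subgroup_dvd_card _))
      rw [Nat.pow_dvd_pow_iff_le_right one_lt_two] at a b
      rw [hk, show k = 3 by omega]; rfl
    have ti : t⁻¹ = -t := by rw [inv_eq_iff_mul_eq_one, mul_neg, tt, neg_neg]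
    obtain ⟨w, w1, w2⟩ := exists_om h2 t0 (hr.sq_eq_neg_one h2 (hle sS) sT) (by
      have := inv t (self_mem_C2 t)
      rw [ti, mul_inv_eq_iff_eq_mul] at this
      rw [this, neg_mul])
    have zt : zpowers t = C2 t ⊓ S := eq_of_le_of_card_ge
      (zpowers_le_of_mem ⟨self_mem_C2 t, tS⟩) (by
        rw [Nat.card_zpowers, o4, ← Nat.card_congr (subgroupOfEquivOfLe (inf_le_right :
          C2 t ⊓ (S : Subgroup SL(2, F)) ≤ S)).toEquiv, inf_subgroupOf_right]
        omega)
    have wN : w ∈ normalizer ((S : Subgroup SL(2, F)) : Set SL(2, F)) := by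
      have a : ∀ x ∈ C2 t, x ∈ (S : Subgroup SL(2, F)) → w * x * w⁻¹ ∈ (S : Subgroup SL(2, F)) := by
        intro x h1 h3
        obtain ⟨k, rfl⟩ : x ∈ zpowers t := zt ▸ ⟨h1, h3⟩
        rw [← conj_zpow, w1, mul_inv_cancel_right]
        exact zpow_mem sS k
      refine mem_normalizer_fintype fun x hx => ?_
      by_cases k : x ∈ C2 t
      · exact a x k hx
      · have : x * s⁻¹ ∈ C2 t := (mul_mem_iff_of_index_two i2 (a := ⟨x, hx⟩) (b := ⟨s, sS⟩⁻¹)).2
          (by simp [mem_subgroupOf, k, sT])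
        have b := mul_mem (a _ this (mul_mem hx (inv_mem sS))) (mul_mem tS sS)
        rwa [show t * s = w * s * w⁻¹ by rw [w2, mul_inv_cancel_right],
          show w * (x * s⁻¹) * w⁻¹ * (w * s * w⁻¹) = w * x * w⁻¹ by group] at b
    have wS : w ∉ (S : Subgroup SL(2, F)) := fun k => sT (by
      have := (mem_normalizer_iff.1 (hle k) t).1 (self_mem_C2 t)
      rwa [w1, mul_inv_cancel_right] at this)
    set N := normalizer ((S : Subgroup SL(2, F)) : Set SL(2, F))
    have le : Nat.card N ≤ 24 := by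
      have a : (C2 t).relIndex N ≤ 6 := by
        have f : ∀ x : N, (x : SL(2, F)) * t * (x : SL(2, F))⁻¹ ∈
            ((S : Subgroup SL(2, F)) : Set SL(2, F)) \ {1, -1} := fun x =>
          ⟨(mem_normalizer_iff.1 x.2 t).1 tS, fun k => (hr.conj x).not_isScal ((isScal_SL_iff _).2 k)⟩
        have b : (((S : Subgroup SL(2, F)) : Set SL(2, F)) \ {1, -1}).ncard = 6 := by
          rw [Set.ncard_sdiff (by
            rintro _ (rfl | rfl)
            · exact one_mem _
            · exact neg_one_mem_sylow_two S), Set.ncard_pair (neg_one_ne_one_SL h2).symm,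
            ← Nat.card_coe_set_eq]
          exact congrArg (· - 2) c8
        rw [← b, ← Nat.card_coe_set_eq]
        refine Nat.card_le_card_of_injective (fun q => ⟨_, f q.out⟩) fun a b e => ?_
        rw [← a.out_eq', ← b.out_eq', QuotientGroup.eq, mem_subgroupOf, mem_C2_iff_conj]
        have e := congrArg Subtype.val e
        simp only [coe_mul, coe_inv] at e ⊢
        rw [mul_inv_rev, inv_inv, show (a.out : SL(2, F))⁻¹ * b.out * t * ((b.out : SL(2, F))⁻¹ * a.out) =
          (a.out : SL(2, F))⁻¹ * (b.out * t * (b.out : SL(2, F))⁻¹) * a.out by group, ← e]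
        group
      have b : Nat.card ((C2 t).subgroupOf N) ≤ 4 := by
        rw [show 4 = Nat.card (zpowers t) by rw [Nat.card_zpowers, o4]; rfl, zt]
        exact Nat.card_le_card_of_injective (fun x => ⟨x.1.1, x.2, k1 _ x.1.2 x.2⟩)
          fun a b e => Subtype.ext (Subtype.ext (Subtype.mk.inj e))
      rw [← ((C2 t).subgroupOf N).index_mul_card]
      exact Nat.mul_le_mul a b
    obtain ⟨k, hk⟩ := card_dvd_of_le (le_normalizer : (S : Subgroup SL(2, F)) ≤ N)
    have n8 : Nat.card N ≠ 8 := fun e =>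
      wS (eq_of_le_of_card_ge (le_normalizer : (S : Subgroup SL(2, F)) ≤ N) (e.trans c8.symm).le ▸ wN)
    have n16' : Nat.card N ≠ 16 := fun e => n16 (by have := card_subgroup_dvd_card N; rwa [e] at this)
    have : 0 < Nat.card N := Nat.card_pos
    have hk' : Nat.card N = 8 * k := hk.trans (congrArg (· * k) c8)
    rw [c8]
    omega

end Cfsg.Agent.S2431
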