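import Cfsg.Statements.S0006
import Cfsg.Agent.H1.Solv2

set_option autoImplicit false
open Cfsg

namespace Cfsg.Agent.S0006

open H18 H1

/-- Converse of Hall's Theorem: if for every prime p a finite group has a subgroup of index equal to the p-part of the group order (a Hall p-complement), then the group is solvable. -/
theorem result {G : Type*} [Group G] [Finite G]
    (h : ∀ p : ℕ, p.Prime → ∃ H : Subgroup G, H.index = p ^ (Nat.card G).factorization p) :
    Group.IsSolvable G := by
  refine solv_top_iff.1 (solv_of_complements fun p hp _ => ?_)
  obtain ⟨H, hH⟩ := h p hp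
  refine ⟨H, le_top, (piNat_compl_iff hp).2 fun hd => ?_, by
    rw [Subgroup.relIndex_top_right, hH]; exact (piNat_pow_self hp _).compl_compl⟩
  have := mul_dvd_mul_right hd H.index
  rw [H.card_mul_index, hH, ← pow_succ'] at this
  exact Nat.pow_succ_factorization_not_dvd Nat.card_pos.ne' hp this

end Cfsg.Agent.S0006
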