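import Cfsg.Statements.S0016
import Cfsg.Agent.H9.MaxClass

set_option autoImplicit false
open Cfsg

namespace Cfsg.Agent.S0016

/-- A finite p-group in which only one subgroup has order p is either cyclic or (with p = 2) isomorphic to a generalized quaternion group. -/
theorem result {G : Type*} [Group G] [Finite G] (p : ℕ) [Fact p.Prime]
    (hG : IsPGroup p G) (huniq : ∀ H K : Subgroup G, Nat.card H = p → Nat.card K = p → H = K) :
    IsCyclic G ∨ (p = 2 ∧ ∃ n : ℕ, Nonempty (G ≃* QuaternionGroup (2 ^ n))) := by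
  have hp : p.Prime := Fact.out
  rcases H9.cyclic_or_mc_or_normal (hG.to_subgroup ⊤) with h | ⟨rfl, k, x, h⟩ | ⟨W, -, h⟩
  · exact Or.inl (isCyclic_of_surjective _ Subgroup.topEquiv.surjective)
  · obtain ⟨y, hy, hy'⟩ := h.exists_out
    have key : ∀ g ∈ (⊤ : Subgroup G), g ∉ Subgroup.zpowers x → g * g = x ^ 2 ^ (k + 1) := by
      intro g hg hg'
      rcases h.orderOf_out hg hg' with ⟨-, h1⟩ | ⟨h1, -⟩
      · have := huniq (Subgroup.zpowers g) (Subgroup.zpowers (x ^ 2 ^ (k + 1)))
          (by rw [Nat.card_zpowers, h1]) (by rw [Nat.card_zpowers, h.orderOf_u])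
        exact absurd (Subgroup.zpowers_le.2 h.u_mem_x (this.le (Subgroup.mem_zpowers g))) hg'
      · exact h1
    obtain ⟨e⟩ := h.equiv_quaternion key
    exact Or.inr ⟨rfl, k + 1, ⟨Subgroup.topEquiv.symm.trans e⟩⟩
  · exfalso
    obtain ⟨a, ha, h1⟩ := H1.exists_prime_orderOf_mem (H := W) hp (by rw [h.card]; exact dvd_pow_self p two_ne_zero)
    have h2 : W ≤ Subgroup.zpowers a := fun b hb => by
      by_cases h2 : b = 1
      · exact h2 ▸ one_mem _
      · exact (huniq (Subgroup.zpowers b) _ (by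
          rw [Nat.card_zpowers, orderOf_eq_prime (h.elem.pow b hb) h2])
          (by rw [Nat.card_zpowers, h1])).le (Subgroup.mem_zpowers b)
    have := Subgroup.card_le_of_le h2
    rw [h.card, Nat.card_zpowers, h1] at this
    exact absurd this (H3.lt_sq hp).not_ge

end Cfsg.Agent.S0016
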