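import Cfsg.Statements.S0048
import Cfsg.Agent.H2.Frattini
import Cfsg.Agent.H2.Supersolvable

set_option autoImplicit false
open Cfsg

namespace Cfsg.Agent.S0048

/-- In a finite solvable group every maximal subgroup has index a prime power. -/
theorem result {G : Type*} [Group G] [Finite G] [Group.IsSolvable G]
    (M : Subgroup G) (hM : IsCoatom M) : IsPrimePow M.index := by
  have : Nontrivial (G ⧸ M.normalCore) := QuotientGroup.nontrivial_iff.mpr
    ((Subgroup.normalCore_le M).trans_lt hM.lt_top).ne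
  obtain ⟨N, p, h1, h2, hp, -, -, h3, -⟩ := H1.exists_normal_elementary (G ⧸ M.normalCore)
  have := Fact.mk hp
  have h4 : ¬ N.comap (QuotientGroup.mk' M.normalCore) ≤ M := fun h => h2 (by
    rw [← Subgroup.map_comap_eq_self_of_surjective (QuotientGroup.mk'_surjective _) N,
      H1.map_mk'_eq_bot_iff]
    exact Subgroup.normal_le_normalCore.mpr h)
  have h5 := H2.index_coatom_dvd hM h4 (Subgroup.normalCore_le M)
  obtain ⟨k, hk⟩ := IsPGroup.iff_card.mp h3
  rw [H2.relIndex_comap_mk', hk] at h5
  obtain ⟨j, -, hj⟩ := (Nat.dvd_prime_pow hp).mp h5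
  refine ⟨p, j, hp.prime, Nat.pos_of_ne_zero ?_, hj.symm⟩
  rintro rfl
  exact hM.1 (Subgroup.index_eq_one.mp hj)

end Cfsg.Agent.S0048
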