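import Cfsg.Statements.S0106
import Cfsg.Agent.H3.R2d

set_option autoImplicit false
open Cfsg

namespace Cfsg.Agent.S0106

/-- A finite group with generalized quaternion Sylow 2-subgroups either has a normal 2-complement or has a section isomorphic to SL(2,3). -/
theorem result {G : Type*} [Group G] [Finite G] (T : Sylow 2 G) (n : ℕ) (hn : 1 ≤ n) (hT : Nonempty ((T : Subgroup G) ≃* QuaternionGroup (2 ^ n))) : Cfsg.HasNormalPComplement 2 G ∨ ∃ (H K : Subgroup G) (hK : (K.subgroupOf H).Normal), Nonempty ((H ⧸ K.subgroupOf H) ≃* Matrix.SpecialLinearGroup (Fin 2) (ZMod 3)) := by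
  open Subgroup H18 H3 in
  refine or_iff_not_imp_left.2 fun h => ?_
  obtain ⟨Q, hQ, q, g, hq, q2, ⟨k, hk⟩, g1, g2⟩ := exists_prime_pow_normalizing_of_not_hasNormalPComplement T h
  obtain ⟨x, y, d⟩ := H9.exists_qData (Nat.two_pow_pos n) hT.some
  have ho : Odd (orderOf g) := hk ▸ (hq.odd_of_ne_two q2).pow
  have m : Metacyc Q := metacyc_of_le (metacyc_of_relIndex_prime ⟨d.zpowers_le,
    norm_iff.2 fun g hg a ha => d.conj_mem_zpowers hg ha⟩ cyc_zpowers (d.relIndex_eq.symm ▸ Nat.prime_two)) hQ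
  rcases aut_metacyc (T.isPGroup'.to_le hQ) (metacyc_iff.1 m) (fun a => g2 fun z hz => by
    obtain ⟨j, hj⟩ := a (Q.normalizerMonoidHom ⟨g, g1⟩)
    have o : Odd (orderOf (Q.normalizerMonoidHom ⟨g, g1⟩)) :=
      ho.of_dvd_nat ((orderOf_map_dvd _ _).trans (orderOf_coe ⟨g, g1⟩).symm.dvd)
    have e := orderOf_eq_one_iff.1 (((Nat.coprime_two_right.2 o).pow_right j).eq_one_of_dvd
      (orderOf_dvd_of_pow_eq_one hj))
    exact (mul_inv_eq_iff_eq_mul.1 (congrArg (fun f : MulAut Q => (f ⟨z, hz⟩ : G)) e)).symm) with ⟨⟨e⟩⟩ | ⟨m, m0, ⟨e⟩⟩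
  · exact exists_sl23_section e g1 ho g2
  obtain ⟨a, ha⟩ := exists_prime_orderOf_dvd_card' (G := Multiplicative (ZMod (2 ^ m))) 2
    (by rw [Nat.card_congr Multiplicative.toAdd, Nat.card_zmod]; exact dvd_pow_self 2 m0.ne')
  have k : ∀ v, orderOf v = 2 → (e.symm v : G) = x ^ 2 ^ n := fun v hv =>
    d.eq_u (hQ (e.symm v).2) (by rw [orderOf_coe, MulEquiv.orderOf_eq, hv])
  have := e.symm.injective (Subtype.ext ((k (a, 1) (by simp [Prod.orderOf, ha])).trans
    (k (1, a) (by simp [Prod.orderOf, ha])).symm))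
  rw [show a = 1 from (Prod.ext_iff.1 this).1, orderOf_one] at ha
  exact absurd ha (by decide)

end Cfsg.Agent.S0106
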