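import Cfsg.Statements.S0157
import Cfsg.Agent.H5.Equiv

set_option autoImplicit false
open Cfsg

namespace Cfsg.Agent.S0157
open H5

/-- For a transitive action of a finite group on a finite set with at least two points: the action is 2-transitive if and only if the function sending g to (number of fixed points of g) − 1 is an irreducible character. -/
theorem result {G : Type*} [Group G] [Finite G] (X : Type*) [MulAction G X] [Finite X] [MulAction.IsPretransitive G X] (hX : 2 ≤ Nat.card X) : Cfsg.IsIrrCharacter G (fun g => (Nat.card (MulAction.fixedBy X g) : ℂ) - 1) ↔ MulAction.IsMultiplyPretransitive G X 2 := by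
  classical
  have := Fintype.ofFinite G
  have hπ := isCharacter_fixedBy (G := G) X
  have hnt : Nontrivial X := Finite.one_lt_card_iff_nontrivial.1 hX
  have h1 : classInner (fun g : G => (Nat.card (MulAction.fixedBy X g) : ℂ)) (fun _ => 1) = 1 := by
    rw [classInner_fixedBy_one, Nat.cast_eq_one, Nat.card_eq_one_iff_unique]
    exact ⟨(MulAction.pretransitive_iff_subsingleton_quotient G X).1 inferInstance,
      ⟨Quotient.mk _ (Classical.arbitrary X)⟩⟩
  have h1' : classInner (fun _ => 1) (fun g : G => (Nat.card (MulAction.fixedBy X g) : ℂ)) = 1 := by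
    rw [← hπ.classInner_comm isCharacter_one, h1]
  have h2 := hπ.sub_irr isIrrCharacter_one (by rw [h1]; exact one_ne_zero)
  change IsIrrCharacter G ((fun g : G => (Nat.card (MulAction.fixedBy X g) : ℂ)) - fun _ => 1) ↔ _
  rw [isIrrCharacter_iff_classInner_self, and_iff_right h2, classInner_sub_left,
    classInner_sub_right, classInner_sub_right, h1, h1', isIrrCharacter_one.classInner_self,
    classInner_fixedBy, sub_self, sub_zero, sub_eq_iff_eq_add, one_add_one_eq_two,
    ← Nat.cast_two, Nat.cast_inj, MulAction.is_two_pretransitive_iff]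
  obtain ⟨x, y, hxy⟩ := exists_pair_ne X
  have hne : ∀ {a b c : X}, a ≠ b → (Quotient.mk (MulAction.orbitRel G (X × X)) (a, b)) ≠
      Quotient.mk _ (c, c) := by
    intro a b c hab e
    obtain ⟨g, hg⟩ := MulAction.orbitRel_apply.1 (Quotient.exact e)
    simp only [Prod.smul_mk, Prod.mk.injEq] at hg
    exact hab (hg.1.symm.trans hg.2)
  rw [Nat.card_eq_two_iff' (Quotient.mk (MulAction.orbitRel G (X × X)) (x, x))]
  constructor
  · rintro ⟨q, -, hq⟩ a b c d hab hcd
    have e := (hq _ (hne hcd)).trans (hq _ (hne hab)).symm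
    obtain ⟨g, hg⟩ := MulAction.orbitRel_apply.1 (Quotient.exact e)
    simp only [Prod.smul_mk, Prod.mk.injEq] at hg
    exact ⟨g, hg⟩
  · intro h
    refine ⟨Quotient.mk _ (x, y), hne hxy, fun q hq => ?_⟩
    obtain ⟨⟨a, b⟩, rfl⟩ := Quotient.exists_rep q
    have hab : a ≠ b := by
      rintro rfl
      obtain ⟨g, hg⟩ := MulAction.exists_smul_eq G x a
      exact hq (Quotient.sound (MulAction.orbitRel_apply.2 ⟨g, by simp [hg]⟩))
    obtain ⟨g, h1, h2⟩ := h hxy hab
    exact Quotient.sound (MulAction.orbitRel_apply.2 ⟨g, by simp [h1, h2]⟩)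

end Cfsg.Agent.S0157
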