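import Cfsg.Statements.S0440
import Cfsg.Agent.H28.O3

set_option autoImplicit false
open Cfsg

namespace Cfsg.Agent.S0440
open H28


/-- In the symplectic group in dimension 2n ≥ 2 over the field with two elements, the elements g for which g - 1 has rank one (the symplectic transvections) form a conjugacy class of 3-transpositions generating the group. -/
theorem result (n : ℕ) (hn : 1 ≤ n) : Cfsg.IsThreeTranspositionClass {g : Matrix.symplecticGroup (Fin n) (ZMod 2) | ((g : Matrix (Fin n ⊕ Fin n) (Fin n ⊕ Fin n) (ZMod 2)) - 1).rank = 1} := by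
  obtain ⟨⟨τ, h⟩, g1, -⟩ := md_sp n
  have h0 : (Pi.single (Sum.inl ⟨0, hn⟩) 1 : Fin n ⊕ Fin n → ZMod 2) ≠ 0 := by simp
  refine (h.T3.tc g1 (ncCon_of_common fun a ha b hb _ _ => ?_)).cls ⟨_, h.mem _ (nv_symp.2 h0)⟩
  obtain ⟨u, hu, rfl⟩ := h.surj a ha
  obtain ⟨v, hv, rfl⟩ := h.surj b hb
  obtain ⟨x, hx⟩ := h.nd.exists_h_ne_zero hu.1
  obtain ⟨y, hy⟩ := h.nd.exists_h_ne_zero hv.1
  obtain ⟨p, -, p1, p2⟩ := H11.exists_both_ne_zero ⊤ _ _ ⟨x, trivial, hx⟩ ⟨y, trivial, hy⟩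
  have hp : NV (H11.stdSymp n (ZMod 2)) p := nv_symp.2 (by rintro rfl; simp at p1)
  exact ⟨_, h.mem p hp, by rwa [h.comm2 rfl hu hp], by rwa [h.comm2 rfl hv hp]⟩

end Cfsg.Agent.S0440
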