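import Cfsg.Statements.S0447
import Cfsg.Agent.H23.Dbl

set_option autoImplicit false
open Cfsg

namespace Cfsg.Agent.S0447

open H23 H23.Dbl Equiv Equiv.Perm Subgroup

theorem conj {n : ℕ} (hn : n ≤ 7) (s t : alternatingGroup (Fin n)) (hs : orderOf s = 2) (ht : orderOf t = 2) :
    IsConj s t ∧ 4 ≤ n := by
  haveI : Fact (Nat.Prime 2) := ⟨Nat.prime_two⟩
  have key : ∀ s : alternatingGroup (Fin n), orderOf s = 2 → s.1.cycleType = {2, 2} := fun s hs => by
    obtain ⟨k, h⟩ := cycleType_prime_order (σ := s.1) (by rw [orderOf_coe, hs]; exact Nat.prime_two)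
    rw [orderOf_coe, hs] at h
    have a := s.1.support.card_le_univ
    have b := mem_alternatingGroup.1 s.2
    rw [← sum_cycleType, h] at a
    rw [sign_of_cycleType, h] at b
    simp only [Multiset.sum_replicate, Multiset.card_replicate, smul_eq_mul, Fintype.card_fin] at a b
    have : k ≤ 2 := by omega
    interval_cases k
    · exact absurd b (by decide)
    · exact h
    · exact absurd b (by decide)
  refine ⟨isConj_alt (isConj_iff_cycleType_eq.2 ((key s hs).trans (key t ht).symm)) fun h => ?_, ?_⟩
  · have := (centralizer_le_alternating_iff.1 h).1 2 (by simp [key s hs])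
    exact absurd this (by decide)
  · simpa [← sum_cycleType, key s hs] using s.1.support.card_le_univ

/-- Involutions in double covers of alternating groups: for n ≤ 7, a finite non-split double cover of the alternating group of degree n has exactly one element of order 2 (the central one); for degree 8 there is a non-split double cover with two distinct involutions. -/
theorem result : (∀ (n : ℕ) (H : Type) (_ : Group H) (_ : Finite H), n ≤ 7 → Cfsg.IsNonsplitDoubleCover H (alternatingGroup (Fin n)) → ∀ x y : H, orderOf x = 2 → orderOf y = 2 → x = y) ∧ ∃ (H : Type) (_ : Group H) (_ : Finite H), Cfsg.IsNonsplitDoubleCover H (alternatingGroup (Fin 8)) ∧ ∃ x y : H, x ≠ y ∧ orderOf x = 2 ∧ orderOf y = 2 := by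
  haveI : Fact (Nat.Prime 2) := ⟨Nat.prime_two⟩
  constructor
  · rintro n H _ _ hn ⟨h1, ⟨φ⟩, h2⟩
    have key : ∀ x : H, orderOf x = 2 → x ∈ center H := fun x hx => by_contra fun h => by
      have a : x * x = 1 := by rw [← sq, ← hx, pow_orderOf_eq_one]
      have b := fun s t c d => (conj hn s t c d).1
      have c : orderOf (φ x) = 2 := orderOf_eq_prime (by rw [← map_pow, ← QuotientGroup.mk_pow, sq, a]; simp) (by simpa using h)
      have d := (conj hn _ _ c c).2
      have card : Nat.card (alternatingGroup (Fin n)) = n.factorial / 2 := by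
        haveI : Nontrivial (Fin n) := Fin.nontrivial_iff_two_le.2 (by omega)
        rw [nat_card_alternatingGroup, Nat.card_fin]
      interval_cases n
      · exact (split h1 φ h a b (a := ⟨swap 0 1 * swap 2 3, Wr.swap_swap_mem (by decide) (by decide)⟩) (b := ⟨swap 0 2 * swap 1 3, Wr.swap_swap_mem (by decide) (by decide)⟩) (k := 1)
          (orderOf_eq_prime (by decide) (by decide)) (orderOf_eq_prime (by decide) (by decide))
          (orderOf_eq_prime (by decide) (by decide)) one_ne_zero (by
            rw [mem_zpowers_iff_mem_range_orderOf, orderOf_eq_prime (p := 2) (by decide) (by decide)]; decide)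
          (by rw [card]; decide)).elim h2
      · exact (split h1 φ h a b (a := ⟨swap 0 1 * swap 2 3, Wr.swap_swap_mem (by decide) (by decide)⟩) (b := ⟨swap 0 2 * swap 1 3, Wr.swap_swap_mem (by decide) (by decide)⟩) (k := 1)
          (orderOf_eq_prime (by decide) (by decide)) (orderOf_eq_prime (by decide) (by decide))
          (orderOf_eq_prime (by decide) (by decide)) one_ne_zero (by
            rw [mem_zpowers_iff_mem_range_orderOf, orderOf_eq_prime (p := 2) (by decide) (by decide)]; decide)
          (by rw [card]; decide)).elim h2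
      · have e : orderOf ((⟨swap 0 1 * swap 2 3, Wr.swap_swap_mem (by decide) (by decide)⟩ * ⟨swap 0 2 * swap 4 5, Wr.swap_swap_mem (by decide) (by decide)⟩ : alternatingGroup (Fin 6))) =
          2 ^ (1 + 1) := orderOf_eq_prime_pow (by decide) (by decide)
        exact (split h1 φ h a b (k := 2) (orderOf_eq_prime (by decide) (by decide)) (orderOf_eq_prime (by decide) (by decide))
          e two_ne_zero (by rw [mem_zpowers_iff_mem_range_orderOf, e]; decide) (by rw [card]; decide)).elim h2
      · have e : orderOf ((⟨swap 0 1 * swap 2 3, Wr.swap_swap_mem (by decide) (by decide)⟩ * ⟨swap 0 2 * swap 4 5, Wr.swap_swap_mem (by decide) (by decide)⟩ : alternatingGroup (Fin 7))) =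
          2 ^ (1 + 1) := orderOf_eq_prime_pow (by decide) (by decide)
        exact (split h1 φ h a b (k := 2) (orderOf_eq_prime (by decide) (by decide)) (orderOf_eq_prime (by decide) (by decide))
          e two_ne_zero (by rw [mem_zpowers_iff_mem_range_orderOf, e]; decide) (by rw [card]; decide)).elim h2
    intro x y hx hy
    obtain ⟨z, -, hz⟩ := (Nat.card_eq_two_iff' (1 : center H)).1 h1
    exact congrArg Subtype.val ((hz ⟨x, key x hx⟩ fun e => by simp [show x = 1 from congrArg Subtype.val e] at hx).trans
      (hz ⟨y, key y hy⟩ fun e => by simp [show y = 1 from congrArg Subtype.val e] at hy).symm)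
  · refine ⟨H (Fin 8), inferInstance, inferInstance, nonsplit (by simp), z _,
      lf (i := 0) (j := 1) (k := 2) (l := 3) (by decide) (by decide) * lf (i := 4) (j := 5) (k := 6) (l := 7) (by decide) (by decide),
      fun e => absurd (congrArg (π _) e) (by decide), orderOf_eq_prime (Subtype.ext (by simp [z])) z_ne,
      orderOf_eq_prime (Subtype.ext (Prod.ext (Units.ext ?_) (by decide))) fun e => absurd (congrArg (π _) e) (by decide)⟩
    have a : ∀ i j k l : Fin 8, [i, j, k, l].Nodup → u i j * u k l = -(u k l * u i j) := fun i j k l h => by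
      simp only [List.nodup_cons, List.mem_cons, not_or, List.not_mem_nil] at h
      exact u_u h.1.1 (Ne.symm h.1.2.1) (Ne.symm h.2.1.1) (Ne.symm h.1.2.2.1) (Ne.symm h.2.1.2.1)
    have b : ∀ i j k l : Fin 8, [i, j, k, l].Nodup → (u i j * u k l) ^ 2 = -1 := fun i j k l h => by
      rw [sq, mul_assoc, ← mul_assoc (u k l), ← neg_eq_iff_eq_neg.2 (a i j k l h), neg_mul, mul_assoc]
      simp only [List.nodup_cons, List.mem_cons, not_or] at h
      simp [u_sq h.2.2.1.1, u_sq h.1.1]
    have c : ∀ i j : Fin 8, [i, j, 4, 5].Nodup → [i, j, 6, 7].Nodup → Commute (u i j) (u 4 5 * u 6 7) := fun i j h1 h2 => by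
      rw [Commute, SemiconjBy, ← mul_assoc, a _ _ _ _ h1, neg_mul, mul_assoc, a _ _ _ _ h2, mul_neg, neg_neg, mul_assoc]
    change ((u (0 : Fin 8) 1 * u 2 3) * (u 4 5 * u 6 7)) ^ 2 = 1
    rw [((c 0 1 (by decide) (by decide)).mul_left (c 2 3 (by decide) (by decide))).mul_pow, b _ _ _ _ (by decide),
      b _ _ _ _ (by decide)]
    simp

end Cfsg.Agent.S0447
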