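import Cfsg.Statements.S0480
import Cfsg.Agent.S5369
import Cfsg.Agent.H28.M24
import Cfsg.Agent.H28.Fis3

set_option autoImplicit false
open Cfsg

namespace Cfsg.Agent.S0480
open H28
open H11 H11.PForm Subgroup


/-- The simple 3-transposition groups: if a finite non-abelian simple group G is generated by a conjugacy class of 3-transpositions, then G is isomorphic to a symplectic group Sp(2n, 2), or to a projective special unitary group PSU(n, 2) (defined over the field with four elements), or to the projective commutator subgroup of an orthogonal group in odd dimension over the field with three elements, or G has order 64561751654400, or G has order 4089470473293004800. -/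
theorem result {G : Type*} [Group G] [Finite G] [IsSimpleGroup G] (hna : ∃ x y : G, x * y ≠ y * x) {D : Set G} (hD : Cfsg.IsThreeTranspositionClass D) : (∃ n : ℕ, Nonempty (G ≃* Matrix.symplecticGroup (Fin n) (ZMod 2))) ∨ (∃ (F : Type) (_ : Field F) (_ : Fintype F) (n : ℕ), Fintype.card F = 4 ∧ Nonempty (G ≃* Cfsg.PSU n F 2)) ∨ (∃ m : ℕ, Nonempty (G ≃* Cfsg.POmega (ZMod 3) (Cfsg.quadFormOdd m (ZMod 3)))) ∨ Cfsg.IsFi22 G ∨ Cfsg.IsFi23 G := by
  have hs : ∀ φ : G →* ℤˣ, ∀ x, φ x = 1 := fun φ x => (inferInstance : φ.ker.Normal).eq_bot_or_eq_top.elim (fun h => by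
    obtain ⟨a, b, n⟩ := hna
    exact absurd ((MonoidHom.ker_eq_bot_iff φ).1 h (by rw [map_mul, map_mul, mul_comm])) n) fun h => h.ge (mem_top x)
  have hc : commutator G = ⊤ := (inferInstance : (commutator G).Normal).eq_bot_or_eq_top.resolve_left fun h =>
    hna.elim fun a k => k.elim fun b n => n (((commutator_eq_bot_iff G).1 h).1.1 a b)
  have hZ : center G = ⊥ := (inferInstance : (center G).Normal).eq_bot_or_eq_top.resolve_right fun h =>
    hna.elim fun a k => k.elim fun b n => n (mem_center_iff.1 (h.ge (mem_top b)) a)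
  have e0 : commutator G ≃* G := (MulEquiv.subgroupCongr hc).trans topEquiv
  have hP := PC.of_simple' hD e0.isSimpleGroup (hna.elim fun a k => k.elim fun b n =>
    ⟨e0.symm a, e0.symm b, fun h => n (by simpa using congrArg e0 h)⟩)
  have sn : ∀ n (e : G ≃* Equiv.Perm (Fin n)), e '' D ≠ {s | s.IsSwap} := fun n e h => by
    obtain ⟨d, hd, -⟩ := hP.w
    have := hs (Equiv.Perm.sign.comp e.toMonoidHom) d
    simp [Equiv.Perm.IsSwap.sign_eq ((mem_of_equiv e h).2 hd)] at this
  have o2 : ∀ {ι : Type} [Fintype ι] [DecidableEq ι] [Nonempty ι] (Q : QuadraticForm (ZMod 2) (ι → ZMod 2)),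
      (orthS Q).Nondeg → (G ≃* isometryGroup (ZMod 2) ⇑Q) → False := fun Q h e => by
    obtain ⟨g, hg⟩ := h.dick_surjective (-1)
    have := hs (h.dick.comp (e.trans (orthEquiv Q)).toMonoidHom) ((e.trans (orthEquiv Q)).symm g)
    simp only [MulEquiv.toMonoidHom_eq_coe, MonoidHom.comp_apply, MonoidHom.coe_coe, MulEquiv.apply_symm_apply, hg] at this
    exact absurd this (by decide)
  obtain ⟨d, hd, -⟩ := hP.w
  by_cases h3 : WT (nb D d)
  swap
  · exact (hP.caseA hd h3).elim fun e h => absurd h (sn _ e)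
  by_cases h2 : VT (nb D d)
  swap
  · rcases hP.caseB hZ hd h2 with ⟨-, n, S, τ, m⟩ | ⟨n, h4, m⟩
    · obtain ⟨k, -, e, -⟩ := m.fin_sp hP.gen hZ
      exact Or.inl ⟨k, ⟨e⟩⟩
    · obtain ⟨e, -⟩ := m.fin hP hZ h4
      exact Or.inr (Or.inl ⟨K4, inferInstance, inferInstance, n, K4.card, ⟨e⟩⟩)
  rcases hP.caseC' hd h2 h3 with h | ⟨n, h5, S, τ, m⟩ | h | h | h
  · rcases hP.syC hd h2 h3 h with ⟨n, -, e, h⟩ | ⟨n, T, τ, m, h6⟩
    · exact absurd h (sn _ e)
    rcases m.fin_o2 hP.gen hZ (by simp; omega) with ⟨k, h, e, -⟩ | ⟨k, -, e, -⟩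
    · have : Nonempty (Fin k) := ⟨⟨0, by omega⟩⟩
      exact (o2 (qPlus k _) (sPlus_nondeg k _) e).elim
    · exact (o2 (qMinus k _ 1 1) (sMinus_nondeg k aniso_two) e).elim
  · rcases Nat.even_or_odd n with h | ⟨k, h⟩
    · obtain ⟨φ, x, n⟩ := m.sign (by simp; omega) (by simpa) hP.gen hZ
      exact absurd (hs φ x) n
    obtain ⟨c, c0, q⟩ := m.nd.exists_eqv_scale (sOdd_nondeg k (by decide)) (by simp [h]) (by rw [finrank_odd_fun]; simp [h])
    obtain ⟨e1⟩ := m.omega (by simpa)
    obtain ⟨e2⟩ := q.nonempty_mulEquiv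
    have e3 := (commutatorCongr ((MulEquiv.subgroupCongr hP.gen).trans topEquiv)).trans e0
    exact Or.inr (Or.inr (Or.inl ⟨k, ⟨(((QuotientGroup.quotientBot.symm.trans (QuotientGroup.quotientMulEquivOfEq
      hZ.symm)).trans (centerQuotCongr e3.symm)).trans e1).trans ((centerQuotCongr (commutatorCongr
        ((MulEquiv.subgroupCongr (isom_scale c0).symm).trans e2))).trans (pomegaEquiv (qOdd k _)).symm)⟩⟩))
  · obtain ⟨e, -⟩ := typeM22 hP.grp (h.type hZ)
    exact Or.inr (Or.inr (Or.inr (Or.inl ⟨inferInstance, (Nat.card_congr e.toEquiv).trans H15.Fi22.card⟩)))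
  · obtain ⟨e, -⟩ := typeM23 hP.grp (h.type hZ)
    exact Or.inr (Or.inr (Or.inr (Or.inr ⟨inferInstance, (Nat.card_congr e.toEquiv).trans H15.Fi23.card⟩)))
  · obtain ⟨e, -⟩ := typeM24 hP.grp hP.prim (h.type hZ)
    have := layer_m24 e
    rw [hP.layer_eq, hc, index_top] at this
    exact absurd this (by decide)

end Cfsg.Agent.S0480
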