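import Cfsg.Statements.S0488
import Cfsg.Agent.H26.NEnd
import Cfsg.Agent.S0810

set_option autoImplicit false
open Cfsg

namespace Cfsg.Agent.S0488

open H26 Subgroup
open scoped Pointwise commutatorElement

/-- A finite minimal simple group is isomorphic to a projective special linear group of dimension 2 over a field with
2^p elements (p prime), 3^p elements (p an odd prime) or p elements (p = 5, or p a prime greater than 5 congruent to
2 or 3 modulo 5), or to the projective special linear group of dimension 3 over the field with 3 elements, or is simple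
with the order of a Suzuki group over the field with 2^p elements, p prime. -/
theorem result {G : Type*} [Group G] [Finite G] (hG : Cfsg.IsMinimalSimple G) :
    (∃ p : ℕ, p.Prime ∧ ∃ (F : Type) (_ : Field F) (_ : Fintype F), Fintype.card F = 2 ^ p ∧ Nonempty (G ≃* Matrix.ProjectiveSpecialLinearGroup (Fin 2) F)) ∨
      (∃ p : ℕ, p.Prime ∧ p ≠ 2 ∧ ∃ (F : Type) (_ : Field F) (_ : Fintype F), Fintype.card F = 3 ^ p ∧ Nonempty (G ≃* Matrix.ProjectiveSpecialLinearGroup (Fin 2) F)) ∨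
      (∃ p : ℕ, p.Prime ∧ (p = 5 ∨ (5 < p ∧ (p % 5 = 2 ∨ p % 5 = 3))) ∧ ∃ (F : Type) (_ : Field F) (_ : Fintype F), Fintype.card F = p ∧ Nonempty (G ≃* Matrix.ProjectiveSpecialLinearGroup (Fin 2) F)) ∨
      (∃ (F : Type) (_ : Field F) (_ : Fintype F), Fintype.card F = 3 ∧ Nonempty (G ≃* Matrix.ProjectiveSpecialLinearGroup (Fin 3) F)) ∨
      (Cfsg.IsSuzuki G ∧ ∃ p : ℕ, p.Prime ∧ Nat.card G = (2 ^ p) ^ 2 * ((2 ^ p) ^ 2 + 1) * (2 ^ p - 1)) := by
    rcases H26.ms_class hG with ⟨F, _, _, -, ⟨e⟩⟩ | k | k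
    · rcases (Cfsg.Agent.S0810.result rfl).1 (H26.ms_equiv hG e) with ⟨r, h1, h2⟩ | ⟨r, h1, h2, h3⟩ | ⟨h1, h2, h3⟩ | h
      · exact .inl ⟨r, h1, F, _, _, h2, ⟨e⟩⟩
      · exact .inr (.inl ⟨r, h1, h2, F, _, _, h3, ⟨e⟩⟩)
      · exact .inr (.inr (.inl ⟨_, h1, .inr ⟨h2, h3⟩, F, _, _, rfl, ⟨e⟩⟩))
      · exact .inr (.inr (.inl ⟨5, Nat.prime_five, .inl rfl, F, _, _, h, ⟨e⟩⟩))
    · exact .inr (.inr (.inr (.inl ⟨ZMod 3, _, _, ZMod.card 3, k⟩)))
    · refine .inr (.inr (.inr (.inr ⟨H19.isSuzuki_of_iso k, ?_⟩)))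
      obtain ⟨F, _, _, m, h1, h2, ⟨f⟩⟩ := k
      have : H13.Sz.IsSz F m := ⟨h1, h2⟩
      have e := f.trans (H13.Sz.lieEquiv F m).symm
      exact ⟨_, H26.ms_suzuki h1 h2 (H26.ms_equiv hG e), by rw [Nat.card_congr e.toEquiv, H13.Sz.card_Sz, h2]⟩

end Cfsg.Agent.S0488
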