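import Cfsg.Statements.S0490
import Cfsg.Agent.H9.MSC
import Cfsg.Agent.H26.NEnd

set_option autoImplicit false
open Cfsg

namespace Cfsg.Agent.S0490

/-- A finite group fails to be solvable exactly when it has three non-identity elements with pairwise coprime orders
whose product is the identity. -/
theorem result {G : Type*} [Group G] [Finite G] :
    ¬ Group.IsSolvable G ↔ ∃ a b c : G, a ≠ 1 ∧ b ≠ 1 ∧ c ≠ 1 ∧ (orderOf a).Coprime (orderOf b) ∧
      (orderOf b).Coprime (orderOf c) ∧ (orderOf a).Coprime (orderOf c) ∧ a * b * c = 1 := by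
  refine ⟨H9.MSi.coprime_triple, fun ⟨a, b, c, h1, _, _, h4, h5, h6, h7⟩ hs => ?_⟩
  obtain rfl := eq_inv_of_mul_eq_one_right h7
  rw [orderOf_inv] at h5 h6
  exact H9.MSi.not_solv (Subgroup.mem_top a) (Subgroup.mem_top b) h1 h4 h5 h6 (H18.solv_top_iff.2 hs)

end Cfsg.Agent.S0490
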