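import Cfsg.Statements.S0491
import Cfsg.Agent.H9.MSD
import Cfsg.Agent.H26.NEnd

set_option autoImplicit false
open Cfsg

namespace Cfsg.Agent.S0491

/-- If a finite group is not solvable and its order is divisible by at most three primes, then some subgroup has a
quotient isomorphic to a projective special linear group of dimension 2 over a field with 5, 7, 8 or 17 elements, or of
dimension 3 over the field with 3 elements. -/
theorem result {G : Type*} [Group G] [Finite G]
    (hG : ¬ Group.IsSolvable G) (h3 : (Nat.card G).primeFactors.card ≤ 3) :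
    ∃ (H : Subgroup G) (N : Subgroup H) (_ : N.Normal) (F : Type) (_ : Field F) (_ : Fintype F),
      ((Fintype.card F = 5 ∨ Fintype.card F = 7 ∨ Fintype.card F = 8 ∨ Fintype.card F = 17) ∧
          Nonempty (H ⧸ N ≃* Matrix.ProjectiveSpecialLinearGroup (Fin 2) F)) ∨
        (Fintype.card F = 3 ∧ Nonempty (H ⧸ N ≃* Matrix.ProjectiveSpecialLinearGroup (Fin 3) F)) := by
  obtain ⟨D, N, _, s, l⟩ := H9.exists_ML hG
  rcases H9.MSi.three_primes s.ms l ((Finset.card_le_card (Nat.primeFactors_mono s.card_dvd Nat.card_pos.ne')).trans h3) with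
    ⟨F, _, _, h, e⟩ | e
  · exact ⟨D, N, _, F, _, _, Or.inl ⟨h, e⟩⟩
  · exact ⟨D, N, _, ZMod 3, _, _, Or.inr ⟨ZMod.card 3, e⟩⟩

end Cfsg.Agent.S0491
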