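import Cfsg.Statements.S0547
import Cfsg.Agent.H2.Primitive

set_option autoImplicit false
open Cfsg

namespace Cfsg.Agent.S0547

/-- Let a finite solvable group G act faithfully and primitively on a set, and let M be a minimal normal subgroup of G. Then M is transitive with trivial point stabilizers, and the number of points equals the order of M, which is a prime power p ^ d with d ≥ 1. -/
theorem result {G : Type*} [Group G] [Finite G] [Group.IsSolvable G] {Ω : Type*} [Nonempty Ω] [MulAction G Ω] [FaithfulSMul G Ω] (hprim : MulAction.IsPreprimitive G Ω) (M : Subgroup G) [M.Normal] (hM : M ≠ ⊥) (hmin : ∀ K : Subgroup G, K.Normal → K ≤ M → K = ⊥ ∨ K = M) : MulAction.IsPretransitive M Ω ∧ (∀ ω : Ω, MulAction.stabilizer M ω = ⊥) ∧ ∃ p d : ℕ, p.Prime ∧ 0 < d ∧ Nat.card Ω = p ^ d ∧ Nat.card M = p ^ d := by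
  have := H2.nontrivial_of_faithful (Ω := Ω) hM
  obtain ⟨hc, p, hp, hexp⟩ := H1.minimal_normal_elementary M hM hmin
  have := Fact.mk hp
  have hco := fun ω : Ω => MulAction.IsPreprimitive.isCoatom_stabilizer_of_isPreprimitive G ω
  have hcf := fun ω : Ω => H2.normalCore_stabilizer_eq_bot (G := G) ω
  obtain ⟨ω⟩ := ‹Nonempty Ω›
  refine ⟨H2.pretransitive_of_sup_stabilizer ω (H2.corefree_sup (hco ω) (hcf ω) hM), fun x => ?_, ?_⟩
  · rw [eq_bot_iff]
    intro m hm
    have : (m : G) ∈ M ⊓ MulAction.stabilizer G x := ⟨m.2, hm⟩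
    rw [H2.corefree_inf (hco x) (hcf x) hM] at this
    exact Subtype.ext this
  · have := (Subgroup.nontrivial_iff_ne_bot M).mpr hM
    obtain ⟨d, hd, h⟩ := (H1.isPGroup_of_pow_eq_one hexp).nontrivial_iff_card.mp this
    refine ⟨p, d, hp, hd, ?_, h⟩
    rw [← h, ← (H2.corefree_isComplement (hco ω) (hcf ω) hM).index_eq_card,
      MulAction.index_stabilizer_of_transitive]

end Cfsg.Agent.S0547
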