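import Cfsg.Statements.S0555
import Cfsg.Agent.H2.Factor

set_option autoImplicit false
open Cfsg

open H18 H1 H2 Subgroup

namespace Cfsg.Agent.S0555

theorem gen {G : Type*} [Group G] {A K : Subgroup G} [(K.subgroupOf A).Normal] (h : IsCyclic (A ⧸ K.subgroupOf A)) :
    ∃ x ∈ A, ∀ a ∈ A, ∃ n : ℤ, (x ^ n)⁻¹ * a ∈ K := by
  obtain ⟨z, hz⟩ := h.exists_generator
  obtain ⟨x, rfl⟩ := QuotientGroup.mk_surjective z
  refine ⟨x, x.2, fun a ha => ?_⟩
  obtain ⟨n, hn⟩ := hz (QuotientGroup.mk ⟨a, ha⟩)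
  exact ⟨n, by simpa [mem_subgroupOf] using QuotientGroup.eq.1 ((QuotientGroup.mk_zpow _ x n).trans hn)⟩

/-- Let i ≥ 1. If in the derived series of a group the quotient of the i-th term by the (i+1)-st and the quotient of the (i+1)-st by the (i+2)-nd are both cyclic, then the (i+1)-st and (i+2)-nd terms coincide. -/
theorem result {G : Type*} [Group G] (i : ℕ) (hi : 1 ≤ i) (h₁ : IsCyclic (↥(derivedSeries G i) ⧸ (derivedSeries G (i + 1)).subgroupOf (derivedSeries G i))) (h₂ : IsCyclic (↥(derivedSeries G (i + 1)) ⧸ (derivedSeries G (i + 2)).subgroupOf (derivedSeries G (i + 1)))) : derivedSeries G (i + 1) = derivedSeries G (i + 2) := by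
  obtain ⟨j, rfl⟩ := Nat.exists_eq_add_of_le' hi
  obtain ⟨x, hx, h1⟩ := gen h₁
  obtain ⟨y, hy, h2⟩ := gen h₂
  have e : ∀ n, derivedSeries G (n + 1) = ⁅derivedSeries G n, derivedSeries G n⁆ := fun _ => rfl
  have nn : ∀ (n) (X : Subgroup G), X ≤ N(derivedSeries G n) := fun n X => norm_of_normal
  refine le_antisymm ?_ (e (j + 1 + 1) ▸ der_le)
  set K := derivedSeries G (j + 1 + 2) with hK
  have c1 : Cyc (derivedSeries G (j + 1 + 1) ⫽ K) := by
    refine Cyc.of_le (cyc_zpowers (x := cs K y)) fun z hz => ?_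
    obtain ⟨a, ha, rfl⟩ := (mem_quo (nn _ _)).1 hz
    obtain ⟨n, hn⟩ := h2 a ha
    exact ⟨n, by rw [← (cs_eq_iff (nn _ ⊤ trivial) (nn _ ⊤ trivial)).2 hn, mfun_zpow (nn _ ⊤ trivial)]⟩
  have c2 := c1.der_cent (A := derivedSeries G j ⫽ K) (mim_norm (nn _ _))
  rw [← mim_comm (nn _ _) (nn _ _), ← e, ← comm_le_iff_quo (nn _ _) (nn _ _)] at c2
  have c3 : derivedSeries G (j + 1) ≤ zpowers x ⊔ derivedSeries G (j + 1 + 1) := fun a ha => by
    obtain ⟨n, hn⟩ := h1 a ha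
    simpa using mul_mem_sup' (zpow_mem (mem_zpowers x) n) hn
  have nK : ∀ X : Subgroup G, X ≤ N(K) := nn _
  refine (der_mono c3).trans (comm_sup_le (comm_sup_le' (abel_zpowers.der.le.trans bot_le)
    ((comm_mono (zpowers_le.2 hx) le_rfl).trans c2) (nK _) (nK _)) (comm_sup_le' ?_ le_rfl (nK _) (nK _)) (nK _) (nK _))
  rw [comm_comm]; exact (comm_mono (zpowers_le.2 hx) le_rfl).trans c2

end Cfsg.Agent.S0555
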