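import Cfsg.Statements.S0556
import Cfsg.Agent.H2.Factor
import Cfsg.Agent.H1.Harv1

set_option autoImplicit false
open Cfsg

open H18 H1 H2 Subgroup

namespace Cfsg.Agent.S0556

/-- If a finite group has a maximal subgroup that is abelian, then the third term of its derived series is trivial (so the group is solvable of derived length at most three). -/
theorem result {G : Type*} [Group G] [Finite G] (A : Subgroup G) (hA : IsCoatom A) [IsMulCommutative A] : derivedSeries G 3 = ⊥ := by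
  have ab : Abel A := abel_of_comm ‹_›
  have hs : Solv (⊤ : Subgroup G) := solv_top_iff.2 (solv_of_max_nil G A hA ab.nil (by rw [(ab.mono pcore_le).der]; exact bot_le))
  obtain ⟨K, -, ⟨h1, h2⟩, hmax⟩ := exists_maximal_sub (fun K => K ⊴ ⊤ ∧ K ≤ A) ⟨Nml.bot, bot_le⟩
  obtain ⟨V, hV, -⟩ := exists_chief_above h1 Nml.rfl (lt_of_le_of_lt h2 hA.1.lt_top)
  have e : V ⊔ A = ⊤ := hA.2 _ (lt_of_le_of_ne le_sup_right fun e => hV.lt.ne' (hmax V ⟨hV.nmlU, e ▸ le_sup_left⟩ hV.le))
  have a1 : ⁅(⊤ : Subgroup G), (⊤ : Subgroup G)⁆ ≤ V := by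
    have := H18.der_sup_le (A := V) (B := A) (le_top.trans hV.nmlU.norm)
    rwa [e, ab.der, sup_bot_eq] at this
  have a2 : ⁅V, V⁆ ≤ K := (abel_quo_iff hV.nml.norm).1 (hV.minNorm.abel (hs.of_le le_top).mim)
  exact eq_bot_iff.2 ((der_mono ((der_mono a1).trans (a2.trans h2))).trans ab.der.le)

end Cfsg.Agent.S0556
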