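import Cfsg.Statements.S0557
import Cfsg.Agent.H2.Factor
import Cfsg.Agent.H3.HallTransfer

set_option autoImplicit false
open Cfsg

open H18 H1 H2 Subgroup

namespace Cfsg.Agent.S0557

/-- Let H be a subgroup of a finite group G with order coprime to its index. If iterating the focal-subgroup construction starting from H reaches the trivial subgroup after finitely many steps, then H has a normal complement in G. -/
theorem result {G : Type*} [Group G] [Finite G] (H : Subgroup G) (hHall : (Nat.card H).Coprime H.index) (n : ℕ) (hfoc : (fun K : Subgroup G => Subgroup.focalSubgroup K)^[n] H = ⊥) : ∃ N : Subgroup G, N.Normal ∧ Subgroup.IsComplement' N H := by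
  have hH : Hall (primes (Nat.card H)) H ⊤ := hall_primes le_top (by simpa using hHall)
  generalize primes (Nat.card H) = π at hH
  set K : Subgroup G := closure {x | PiElt πᶜ x} with hK
  have nK : K ⊴ ⊤ := ⟨le_top, norm_closure fun a _ b hb => hb.conj a⟩
  have iK : PiNat π (K.relIndex ⊤) := by
    rw [← piGrp_quo_iff nK.norm]
    refine piGrp_of_prime_elt fun z hz hp => by_contra fun e => ?_
    obtain ⟨x, -, -, h1, rfl⟩ := exists_piElt_lift (π := πᶜ) hz ((piNat_prime hp).2 e)
    rw [cs_eq_one (subset_closure h1), orderOf_one] at hp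
    exact Nat.not_prime_one hp
  have h1 : H ⊓ K ≤ ⁅K, K⁆ := by
    have n : K ≤ N(⁅K, K⁆) := nml_der.norm
    have a1 : PiGrp πᶜ (K ⫽ ⁅K, K⁆) := by
      have ab := (abel_quo_iff n).2 le_rfl
      refine pcore_pi.of_le (?_ : _ ≤ O[πᶜ](K ⫽ ⁅K, K⁆))
      rw [mim_le_iff n]
      refine (closure_le _).2 fun x hx => mem_mpre.2 ⟨n (subset_closure hx), ?_⟩
      exact ab.nil.le_pcore (zpowers_le.2 (mfun_mem_mim (subset_closure hx))) (PiElt.mfun hx (n (subset_closure hx))).zpowers
        (mem_zpowers _)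
    exact hH.pi.inf_left.le_of_nml inf_le_right nml_der ((piGrp_quo_iff n).1 a1)
  have h2 := hH.inf_nml nK
  have h3 : H ⊓ K ≤ (H ⊓ K).focalSubgroup := by
    have c : ((H ⊓ K).subgroupOf K).index.Coprime (Nat.card ((H ⊓ K).subgroupOf K)) := by
      rw [H18.card_subgroupOf inf_le_right]; exact h2.coprime.symm
    have := (H3.focal_of_coprime_index ((H ⊓ K).subgroupOf K) (c.coprime_dvd_right relIndex_dvd)).2.2
    intro x hx
    have hx' : (⟨x, hx.2⟩ : K) ∈ ((H ⊓ K).subgroupOf K).focalSubgroup := by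
      rw [this]
      refine ⟨?_, hx⟩
      have := h1 hx
      rw [← map_subtype_commutator] at this
      obtain ⟨y, hy, e⟩ := this
      exact (Subtype.ext e : y = ⟨x, hx.2⟩) ▸ hy
    have hm : ((H ⊓ K).subgroupOf K).focalSubgroup.map K.subtype ≤ (H ⊓ K).focalSubgroup := by
      rw [focalSubgroup_def, MonoidHom.map_closure, closure_le]
      rintro _ ⟨_, ⟨h4, y, hy, u, rfl⟩, rfl⟩
      exact subset_closure ⟨h4, y, hy, u, rfl⟩
    exact hm ⟨_, hx', rfl⟩
  have h4 : ∀ i, H ⊓ K ≤ (fun K : Subgroup G => Subgroup.focalSubgroup K)^[i] H := by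
    intro i
    induction i with
    | zero => exact inf_le_left
    | succ i ih =>
      rw [Function.iterate_succ_apply']
      refine h3.trans (closure_mono ?_)
      rintro _ ⟨h4, y, hy, u, rfl⟩
      exact ⟨ih h4, y, ih hy, u, rfl⟩
  refine ⟨K, nK.normal, (sd_of_nml nK le_top ?_ ?_).isComplement'⟩
  · rw [inf_comm, eq_bot_iff, ← hfoc]; exact h4 n
  · rw [sup_comm, hH.sup_of_idx le_top iK]

end Cfsg.Agent.S0557
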