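import Cfsg.Statements.S0558
import Cfsg.Agent.H2.Factor
import Cfsg.Agent.H22.Dih
import Cfsg.Agent.H3.HallTransfer

set_option autoImplicit false
open Cfsg

open H18 H1 H2 Subgroup

namespace Cfsg.Agent.S0558

/-- Let H be a subgroup of a finite group G that is not a Sylow subgroup of G for any prime, and suppose that for every prime p dividing the order of H and every Sylow p-subgroup P of H the normalizer of P in G is exactly H. Then some normal subgroup of G is a complement to H. -/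
theorem result {G : Type*} [Group G] [Finite G] (H : Subgroup G) (hnot : ∀ p : ℕ, p.Prime → ∀ P : Sylow p G, (P : Subgroup G) ≠ H) (hnorm : ∀ p : ℕ, p.Prime → p ∣ Nat.card H → ∀ P : Sylow p H, Subgroup.normalizer (((P : Subgroup H).map H.subtype : Subgroup G) : Set G) = H) : ∃ N : Subgroup G, N.Normal ∧ Subgroup.IsComplement' N H := by
  have hN : ∀ p, p.Prime → p ∣ Nat.card H → ∀ P, Hall {p} P H → N(P) = H := fun p hp hd P hP => by
    obtain ⟨P, rfl⟩ := hP.exists_sylow hp
    exact hnorm p hp hd P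
  have hS : ∀ p, p.Prime → p ∣ Nat.card H → ∀ P, Hall {p} P H → Hall {p} P ⊤ := fun p hp hd P hP =>
    sylow_of_max hp le_top hP.pi fun Q hQ h1 _ => (hQ.nil.eq_of_norm_le h1
      (hP.eq_of_le (le_inf h1 le_N) (inf_le_right.trans (hN p hp hd P hP).le) hQ.inf_left).le).ge
  have hn : Nil H := nil_of_sylow_norm fun p hp hd => (exists_sylow hp H).imp fun P hP => ⟨hP, (hN p hp hd P hP).ge⟩
  have hH : Hall (primes (Nat.card H)) H ⊤ := hall_of_sylows le_top piNat_primes fun p hp hd _ =>
    ⟨_, hS p hp hd.2 _ hn.pcore_hall, pcore_le⟩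
  refine H3.exists_normal_complement_of_forall (by simpa using hH.coprime) fun p hp hd => ?_
  have hp := hp.out
  have hP := hS p hp hd _ hn.pcore_hall
  obtain ⟨q, hq, hqd, hqp⟩ := exists_prime_not_mem (π := {p}) (n := Nat.card H) fun e => by
    obtain ⟨P, e'⟩ := hP.exists_sylow_top hp
    exact hnot p hp P (e'.trans (pcore_eq_self e))
  have hQ := hS q hq hqd _ hn.pcore_hall
  have key : ∀ A, A ≤ O[{p}](H) → ∀ g ∈ N(A), PiElt {p}ᶜ g → g ∈ C(A) := by
    intro A hA g hg hg'
    have c : O[{q}](H) ≤ C(A) := cent_symm (hn.cent_pi (hA.trans pcore_le) pcore_le (pcore_pi.of_le hA) (pcore_pi.p'_of_ne hqp))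
    have e := frattini_arg hq nml_C_N (hQ.of_le c le_top)
    rw [hN q hq hqd _ hn.pcore_hall] at e
    refine hg'.mem_of_nml hg nml_C_N ?_
    have c2 : O[{p}ᶜ](H) ≤ C(A) := cent_symm (hn.cent_pi (hA.trans pcore_le) pcore_le (pcore_pi.of_le hA) pcore_pi)
    rw [← e, (nml_C_N.nrm2 inf_le_left).relIndex_sup']
    have := ((hn.pcore_hall (π := {p}ᶜ)).nml_inf pcore_nml.norm (inf_le_right : N(A) ⊓ H ≤ H)).idx_of_le (inf_le_left.trans c2)
    exact this
  rw [hasNormalPComplement_top_iff' hp]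
  refine H22.nilp_of_frob hp fun A _ hA g _ hg hg' => ?_
  obtain ⟨a, -, ha⟩ := sylow_le_cj hp hP hA le_top
  have := key _ ha (a * g * a⁻¹) (cj_N (g := a) (H := A) ▸ conj_mem_cj hg) (hg'.conj a)
  rwa [← cj_C, conj_mem_cj_iff] at this

end Cfsg.Agent.S0558
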