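import Cfsg.Statements.S0563
import Cfsg.Agent.H2.Factor

set_option autoImplicit false
open Pointwise
open Cfsg

open H18 H1 H2 Subgroup

namespace Cfsg.Agent.S0563

/-- If a finite group G is the product AB of two nilpotent subgroups of coprime orders, then G is solvable, and for every Sylow p-subgroup P of A and Sylow q-subgroup Q of B the product set PQ is a subgroup. -/
theorem result {G : Type*} [Group G] [Finite G] (A B : Subgroup G) (hA : Group.IsNilpotent A) (hB : Group.IsNilpotent B) (hcop : (Nat.card A).Coprime (Nat.card B)) (hAB : ∀ g : G, ∃ a ∈ A, ∃ b ∈ B, g = a * b) : Group.IsSolvable G ∧ ∀ (p q : ℕ) [Fact p.Prime] [Fact q.Prime] (P : Sylow p A) (Q : Sylow q B), ∃ S : Subgroup G, (S : Set G) = (((P : Subgroup A).map A.subtype : Subgroup G) : Set G) * (((Q : Subgroup B).map B.subtype : Subgroup G) : Set G) := by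
  have h : H17.Mul2 ⊤ A B := fun g _ => hAB g
  have hs := kegel_wielandt h le_top le_top hA hB
  refine ⟨solv_top_iff.1 hs, fun p q hp hq P Q => ?_⟩
  have pA : PiGrp (primes (Nat.card A)) A := piNat_primes
  have pB : PiGrp (primes (Nat.card A))ᶜ B := piNat_of_coprime' hcop
  have aux : ∀ (π : Set ℕ) (A P : Subgroup G) (p : ℕ), Hall π A ⊤ → Hall {p} P A → Hall (π ∩ {p}) P ⊤ := fun π A P p h1 h2 =>
    (h2.congr (ρ := π ∩ {p}) fun r hr hd => ⟨fun e => ⟨h1.pi r hr hd, e⟩, fun e => e.2⟩).trans h1 fun _ _ e => e.1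
  have hP := hall_map_sylow hp.out P
  have hQ := hall_map_sylow hq.out Q
  have := perm2_of_hall hs h le_top (Nil.hall_nml hA hP).norm (Nil.hall_nml hB hQ).norm (aux _ _ _ _ (mul2_hall h le_top pA pB) hP)
    (aux _ _ _ _ (mul2_hall (mul2_symm h) le_top pB pA.compl_compl) hQ)
  exact ⟨_, (perm2_mul2 this).set_eq le_sup_left le_sup_right⟩

end Cfsg.Agent.S0563
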