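import Cfsg.Statements.S0566
import Cfsg.Agent.H2.Factor

set_option autoImplicit false
open Pointwise
open Cfsg

open H18 H1 H2 Subgroup

namespace Cfsg.Agent.S0566

/-- Let A and B be nontrivial subgroups of a finite group G such that for every x the product set of A and xBx⁻¹ is a proper subgroup of G. Then there is a proper normal subgroup of G containing A or containing B. -/
theorem result {G : Type*} [Group G] [Finite G] (A B : Subgroup G) (hA : A ≠ ⊥) (hB : B ≠ ⊥) (h : ∀ x : G, ∃ S : Subgroup G, S ≠ ⊤ ∧ (S : Set G) = (A : Set G) * ((MulAut.conj x • B : Subgroup G) : Set G)) : ∃ N : Subgroup G, N.Normal ∧ N ≠ ⊤ ∧ (A ≤ N ∨ B ≤ N) := by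
  have key : ∀ x : G, Perm2 A (cj x B) ∧ A ⊔ cj x B ≠ ⊤ := fun x => by
    obtain ⟨S, h1, h2⟩ := h x
    have m : H17.Mul2 S A (cj x B) := H17.mul2_of_set_eq h2
    have a1 : A ≤ S := fun a ha => show a ∈ (S : Set G) from h2 ▸ ⟨a, ha, 1, one_mem _, mul_one a⟩
    have a2 : cj x B ≤ S := fun a ha => show a ∈ (S : Set G) from h2 ▸ ⟨1, one_mem _, a, ha, one_mul a⟩
    exact ⟨perm2_of_mul2 m a1 a2, fun e => h1 (top_le_iff.1 (e ▸ sup_le a1 a2))⟩
  obtain ⟨K, h1, h2⟩ := kegel_proper (fun x => (key x).1) (by simpa using (key 1).2)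
  exact ⟨K, h1.normal, h2⟩

end Cfsg.Agent.S0566
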