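import Cfsg.Statements.S0571
import Cfsg.Agent.H2.Factor
import Cfsg.Agent.H2.Supersolvable

set_option autoImplicit false
open Cfsg

open H18 H1 H2 Subgroup

namespace Cfsg.Agent.S0571

universe u
theorem key (n : ℕ) : ∀ (G : Type u) [Group G] [Finite G] (A B : Subgroup G), Nat.card G = n → H17.Mul2 ⊤ A B → Cyc A → Cyc B →
    IsSupersolvable G := by
  induction n using Nat.strong_induction_on with
  | _ n ih =>
  intro G _ _ A B hn h hA hB
  rcases subsingleton_or_nontrivial G with _ | _
  · exact ssolv_of_subsingleton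
  obtain ⟨K, h1, h2, h3⟩ := ito_nml h le_top le_top hA.abel hB.abel top_ne_bot
  haveI := h1.normal
  haveI : IsCyclic K := h3.elim hA.of_le hB.of_le
  have hlt := card_mim_lt (f := topq K) (A := ⊤) le_rfl (by simpa [mker_topq] using h2)
  have m := mul2_mim (f := topq K) h le_top le_top
  rw [mim_topq_top] at hlt m
  exact ssolv_of_cyclic_normal K (ih _ (by rwa [card_top, card_top, hn] at hlt) _ _ _ rfl m hA.mim hB.mim)

/-- If a finite group G is the product AB of two cyclic subgroups (every element is a product ab), then G is supersolvable. -/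
theorem result {G : Type*} [Group G] [Finite G] (A B : Subgroup G) [IsCyclic A] [IsCyclic B] (hAB : ∀ g : G, ∃ a ∈ A, ∃ b ∈ B, g = a * b) : Cfsg.IsSupersolvable G := by
  exact key _ G A B rfl (fun g _ => hAB g) ‹_› ‹_›

end Cfsg.Agent.S0571
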