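import Cfsg.Statements.S0589
import Cfsg.Agent.H2.Factor
import Cfsg.Agent.H5.TI

set_option autoImplicit false
open Pointwise
open Cfsg

open H18 H1 H2 Subgroup

namespace Cfsg.Agent.S0589

/-- Let H be a Frobenius complement in a finite group G and L a subgroup of G whose order divides the order of H. Then L is contained in some conjugate of H. -/
theorem result {G : Type*} [Group G] [Finite G] (H : Subgroup G) (hH : Cfsg.IsFrobeniusComplement H) (L : Subgroup G) (hL : Nat.card L ∣ Nat.card H) : ∃ x : G, L ≤ MulAut.conj x • H := by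
  obtain ⟨N, hN, nN, hc⟩ := H5.frobenius_kernel H hH.2.2
  have sd := sd_of_isComplement' hc
  have sr : Semireg N H := fun x hx x1 => eq_bot_iff.2 fun y hy => by_contra fun y1 => by
    have hy' : y ∉ H := fun e => y1 (eq_one_of_eq_bot sd.inf (mem_inf.2 ⟨hy.1, e⟩))
    refine x1 (eq_one_of_eq_bot (hH.2.2 y hy') (mem_inf.2 ⟨hx, ?_⟩))
    have : x = y * x * y⁻¹ := by rw [mem_C1.1 hy.2]; group
    exact this ▸ conj_mem_cj hx
  obtain ⟨n, -, h⟩ := exists_cj_le sd.norm ((sr.coprime sd.norm).coprime_dvd_right hL) (sd.sup ▸ le_top)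
  exact ⟨n⁻¹, cj_le_iff.1 h⟩

end Cfsg.Agent.S0589
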