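import Cfsg.Statements.S0618
import Cfsg.Agent.H4.FFD

set_option autoImplicit false
open Cfsg

namespace Cfsg.Agent.S0618

open Subgroup H26 H4


/-- A p-separable group with trivial p'-core in which the Thompson factorization fails has p = 2 or 3, and J(G) induces on the normal closure of Ω₁(Z(S)) a group containing a normal SL(2, p). -/
theorem result {G : Type*} [Group G] [Finite G] {p : ℕ} [Fact p.Prime] (hsep : Cfsg.IsPSolvable p G) (hO : Cfsg.pPrimeCore p G = ⊥) (hnf : ¬ Cfsg.IsThompsonFactorizable p G) : (p = 2 ∨ p = 3) ∧ ∃ E : Subgroup G, Subgroup.centralizer ((⨆ S : Sylow p G, Cfsg.omegaOne p ((S : Subgroup G) ⊓ Subgroup.centralizer ((S : Subgroup G) : Set G))) : Set G) ≤ E ∧ E ≤ Cfsg.thompsonSubgroup p G ⊔ Subgroup.centralizer ((⨆ S : Sylow p G, Cfsg.omegaOne p ((S : Subgroup G) ⊓ Subgroup.centralizer ((S : Subgroup G) : Set G))) : Set G) ∧ Cfsg.thompsonSubgroup p G ⊔ Subgroup.centralizer ((⨆ S : Sylow p G, Cfsg.omegaOne p ((S : Subgroup G) ⊓ Subgroup.centralizer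 ((S : Subgroup G) : Set G))) : Set G) ≤ Subgroup.normalizer (E : Set G) ∧ ∃ hn : ((Subgroup.centralizer ((⨆ S : Sylow p G, Cfsg.omegaOne p ((S : Subgroup G) ⊓ Subgroup.centralizer ((S : Subgroup G) : Set G))) : Set G)).subgroupOf E).Normal, Nonempty ((↥E ⧸ (Subgroup.centralizer ((⨆ S : Sylow p G, Cfsg.omegaOne p ((S : Subgroup G) ⊓ Subgroup.centralizer ((S : Subgroup G) : Set G))) : Set G)).subgroupOf E) ≃* Matrix.SpecialLinearGroup (Fin 2) (ZMod p)) := by
  rw [factorizable_iff hO, ← thompsonOf_top] at hnf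
  have hs := isPSolvable_iff.1 hsep
  obtain ⟨S, hS⟩ := exists_isSyl p (⊤ : Subgroup G)
  have r := (hs.charPOf (by rwa [H17.oQ_top])).pRed_sylowCenterClosure
  rw [hS.sylowCenterClosure_eq, ← iSup_omegaOne_center_eq hS] at r
  have h := FFD.of_mF r.elemAb (le_top.trans r.norm) (ffd_thompson r.elemAb le_top r.norm hs r.red)
  rw [top_inf_eq] at h
  have e : ∀ X : Sylow p G → Subgroup G, centralizer (⨆ S, (X S : Set G)) = 𝐂 (⨆ S, X S) := fun X => le_antisymm
    (le_centralizer_iSup fun S => centralizer_le (le_iSup (fun S => (X S : Set G)) S))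
    (centralizer_le (iSup_le fun S => le_iSup X S))
  rw [← thompsonOf_top, e]
  obtain ⟨W, hW⟩ := h.nonempty fun h1 => hnf (le_sup_left.trans h1)
  refine ⟨h.two_or_three W hW, _, le_trans (le_inf le_sup_right le_rfl) (inf_le_plE hW.1), plE_le,
    h.le_normalizer_plE hW, ?_⟩
  rw [← inf_subgroupOf_right, inf_comm, le_antisymm (inf_le_inf_left _ (centralizer_anti hW.1))
    (le_inf inf_le_left (h.inf W hW)), inf_comm, inf_subgroupOf_right]
  exact hW.2.nonempty_quotient

end Cfsg.Agent.S0618
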