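import Cfsg.Statements.S3681


set_option autoImplicit false
open Cfsg

open Equiv Equiv.Perm Finset

namespace Cfsg.Agent.S3681

theorem three {Ω : Type*} [Fintype Ω] [DecidableEq Ω] {g h : Perm Ω} {a : Ω} (hg : g a ≠ a) (hh : h a ≠ a)
    (k : ∀ x, x ≠ a → g x = x ∨ h x = x) : (g * h * g⁻¹ * h⁻¹).IsThreeCycle := by
  have apply_inv_self : ∀ (f : Perm Ω) x, f (f⁻¹ x) = x := fun f x => f.apply_symm_apply x
  have inv_apply_self : ∀ (f : Perm Ω) x, f⁻¹ (f x) = x := fun f x => f.symm_apply_apply x
  have k1 : ∀ {f : Perm Ω} {x}, f (f⁻¹ x) = f⁻¹ x ↔ f x = x := fun {f x} => by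
    rw [apply_inv_self, eq_comm, Perm.inv_eq_iff_eq, eq_comm]
  have h1 : (g * h * g⁻¹ * h⁻¹).support ⊆ {a, g a, h a} := fun x hx => by
    by_contra hn
    simp only [mem_insert, mem_singleton, not_or] at hn
    refine mem_support.1 hx ?_
    simp only [mul_apply]
    by_cases e : h x = x
    · rw [Perm.inv_eq_iff_eq.2 e.symm]
      by_cases e' : g x = x
      · rw [Perm.inv_eq_iff_eq.2 e'.symm, e, e']
      · rw [(k (g⁻¹ x) fun e => hn.2.1 (Perm.inv_eq_iff_eq.1 e)).resolve_left (mt k1.1 e'), apply_inv_self]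
    · rw [Perm.inv_eq_iff_eq.2 ((k (h⁻¹ x) fun e => hn.2.2 (Perm.inv_eq_iff_eq.1 e)).resolve_right (mt k1.1 e)).symm,
        apply_inv_self, (k x hn.1).resolve_right e]
  have h2 := (card_le_card h1).trans card_le_three
  have h3 : g * h * g⁻¹ * h⁻¹ ≠ 1 := fun e => by
    have := DFunLike.congr_fun e (h a)
    simp only [mul_apply, inv_apply_self, one_apply] at this
    rw [(k (g⁻¹ a) fun e => hg (Perm.inv_eq_iff_eq.1 e).symm).resolve_left (mt k1.1 hg), apply_inv_self] at this
    exact hh this.symm
  have h4 := two_le_card_support_of_ne_one h3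
  have h5 : #(g * h * g⁻¹ * h⁻¹).support ≠ 2 := fun e => by
    have := (card_support_eq_two.1 e).sign_eq
    simp [mul_right_comm (sign g)] at this
  exact card_support_eq_three_iff.1 (by omega)

/-- Bochert's bound for primitive groups. Let a finite group G act faithfully and primitively on a finite set Ω with n elements, and suppose the image of G in the symmetric group of Ω does not contain the alternating group of Ω. Then |G| · ⌊(n + 1)/2⌋! ≤ n!, that is, the index of G in the symmetric group is at least ⌊(n + 1)/2⌋!. -/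
theorem result {G Ω : Type*} [Group G] [Finite G] [MulAction G Ω] [FaithfulSMul G Ω] [Fintype Ω] [DecidableEq Ω]
    (hprim : MulAction.IsPreprimitive G Ω) (hA : ¬ alternatingGroup Ω ≤ (MulAction.toPermHom G Ω).range) :
    Nat.card G * Nat.factorial ((Fintype.card Ω + 1) / 2) ≤ Nat.factorial (Fintype.card Ω) := by
  classical
  set H := (MulAction.toPermHom G Ω).range
  have hp : MulAction.IsPreprimitive H Ω := MulAction.IsPreprimitive.of_surjective
    (φ := (MulAction.toPermHom G Ω).rangeRestrict) (f := ⟨id, fun _ _ => rfl⟩) Function.surjective_id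
  obtain ⟨D, hD, hm⟩ := exists_max_image (univ.filter fun D : Finset Ω => ∀ h ∈ H, h.support ⊆ D → h = 1) card
    ⟨∅, by simp +contextual⟩
  simp only [mem_filter, mem_univ, true_and] at hD hm
  have h1 : Fintype.card Ω ≤ 2 * #D := by
    by_contra! h
    have h2 := mt (hm Dᶜ) (by rw [card_compl]; omega)
    push Not at h2
    obtain ⟨g, gH, g1, g2⟩ := h2
    obtain ⟨a, ha⟩ := nonempty_iff_ne_empty.2 (mt support_eq_empty_iff.1 g2)
    have h2 := mt (hm (insert a D)) (by rw [card_insert_of_notMem (mem_compl.1 (g1 ha))]; omega)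
    push Not at h2
    obtain ⟨k, kH, k1, k2⟩ := h2
    refine hA (alternatingGroup_le_of_isPreprimitive_of_isThreeCycle_mem hp (three (a := a) (g := g) (h := k)
      (mem_support.1 ha) (fun e => k2 (hD k kH fun x hx => (mem_insert.1 (k1 hx)).resolve_left fun e' =>
        mem_support.1 hx (e' ▸ e))) fun x hx => ?_) (mul_mem (mul_mem (mul_mem gH kH) (inv_mem gH)) (inv_mem kH)))
    by_contra! e
    exact mem_compl.1 (g1 (mem_support.2 e.1)) ((mem_insert.1 (k1 (mem_support.2 e.2))).resolve_left hx)
  have h2 := Nat.card_le_card_of_injective _ (Subgroup.mul_injective_of_disjoint (H₁ := H)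
    (H₂ := (ofSubtype (p := (· ∈ D))).range) (Subgroup.disjoint_def.2 fun hx ⟨s, e⟩ => hD _ hx fun x h => by
      by_contra e'; exact mem_support.1 h (e ▸ ofSubtype_apply_of_not_mem s e')))
  rw [Nat.card_prod, ← Nat.card_congr (MonoidHom.ofInjective ofSubtype_injective).toEquiv,
    ← Nat.card_congr (MonoidHom.ofInjective (f := MulAction.toPermHom G Ω) MulAction.toPerm_injective).toEquiv,
    Nat.card_perm, Nat.card_perm, Nat.card_eq_fintype_card (α := Ω), Nat.card_eq_fintype_card (α := {x // x ∈ D}),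
    Fintype.card_coe] at h2
  exact (Nat.mul_le_mul_left _ (Nat.factorial_le (by omega))).trans h2

end Cfsg.Agent.S3681
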