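import Cfsg.Statements.S0679
import Cfsg.Agent.H10.Neu
import Cfsg.Agent.H16.Jordan
import Cfsg.Agent.H16.PrimeDeg2
import Cfsg.Agent.H16.Normal
import Cfsg.Agent.S3681
import Cfsg.Agent.S0676
import Cfsg.Agent.S1013
import Cfsg.Agent.S0498

set_option autoImplicit false
open Cfsg

namespace Cfsg.Agent.S0679

open MulAction Subgroup Equiv Equiv.Perm Finset H16

variable {α : Type*} [Fintype α] [DecidableEq α] {G : Subgroup (Perm α)}

theorem supp {σ : Perm α} {p : ℕ} (hp : p.Prime) (h : orderOf σ = p) :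
    ∃ n, #σ.support = (n + 1) * p ∧ sign σ = (-1) ^ ((n + 1) * p + (n + 1)) := by
  obtain ⟨n, e⟩ := cycleType_prime_order (h ▸ hp)
  exact ⟨n, by rw [← sum_cycleType, e, h]; simp [add_mul, add_comm],
    by rw [sign_of_cycleType, e, h]; simp [add_mul, add_comm]⟩

theorem red {g : Perm α} (h : g ≠ 1) : ∃ p k, p.Prime ∧ p ∣ orderOf g ∧ orderOf (g ^ k) = p := by
  obtain ⟨p, hp, e⟩ := Nat.exists_prime_and_dvd (mt orderOf_eq_one_iff.1 h)
  exact ⟨p, _, hp, e, orderOf_pow_orderOf_div (orderOf_pos g).ne' e⟩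

theorem fix_le {g : Perm α} {s : Finset α} (h : ∀ x ∈ s, g x = x) : #g.support + #s ≤ Fintype.card α := by
  rw [← card_union_of_disjoint (disjoint_left.2 fun x hx hs => mem_support.1 hx (h x hs))]
  exact card_le_univ _

structure E (G : Subgroup (Perm α)) : Prop where
  c : Fintype.card α = 11
  t : IsPretransitive G α
  s : ¬ Group.IsSolvable G
  a : ¬ alternatingGroup α ≤ G

namespace E
variable (h : E G)
include h

theorem c' : Nat.card α = 11 := Nat.card_eq_fintype_card.trans h.c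

theorem prim : IsPreprimitive G α :=
  have := h.t
  IsPreprimitive.of_prime_card (by rw [h.c']; norm_num)

theorem cyc {g : Perm α} (hg : g ∈ G) {p : ℕ} (hp : p.Prime) (o : orderOf g = p) (e : #g.support = p)
    (l : p ≤ 8) : False :=
  h.a (jordan_prime_cycle h.prim hp (by rw [h.c]; omega)
    (isCycle_of_prime_order (o ▸ hp) (by have := hp.pos; omega)) e hg)

theorem five {g : Perm α} (hg : g ∈ G) (o : orderOf g = 5) : #g.support = 10 := by
  obtain ⟨n, e, -⟩ := supp (by norm_num) o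
  have := h.c ▸ card_le_univ g.support
  have := mt (fun e => h.cyc hg (by norm_num) o e (by norm_num)) not_false
  omega

theorem seven {g : Perm α} (hg : g ∈ G) (o : orderOf g = 7) : False := by
  obtain ⟨n, e, -⟩ := supp (by norm_num) o
  have := h.c ▸ card_le_univ g.support
  exact h.cyc hg (by norm_num) o (by omega) (by norm_num)

theorem idx {a b : α} (ab : b ≠ a) : (stabilizer (stabilizer G a) b).index = 10 := by
  have := h.t
  have : Fact (Nat.Prime 11) := ⟨by norm_num⟩
  have e : orbit (stabilizer G a) b = {a}ᶜ := by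
    ext c
    refine ⟨?_, fun hc => ?_⟩
    · rintro ⟨g, rfl⟩ e
      exact ab (smul_left_cancel g (Eq.trans e g.2.symm))
    · obtain ⟨g, e1, e2⟩ := is_two_pretransitive_iff.1 (burnside_prime_degree h.c h.s) ab.symm (Ne.symm hc)
      exact ⟨⟨g, e1⟩, e2⟩
  rw [index_stabilizer, e, Set.ncard_compl, h.c', Set.ncard_singleton]

theorem card {a b : α} (ab : b ≠ a) : Nat.card G = 110 * Nat.card (stabilizer (stabilizer G a) b) := by
  have := h.t
  have := card_mul_card_stabilizer (G := G) a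
  have := (stabilizer (stabilizer G a) b).card_mul_index
  rw [h.idx ab, h.c'] at *
  omega

theorem cop {a b : α} (ab : b ≠ a) {p : ℕ} (hp : p = 5 ∨ p = 7) :
    ¬ p ∣ Nat.card (stabilizer (stabilizer G a) b) := fun e => by
  have : Fact p.Prime := ⟨by rcases hp with rfl | rfl <;> norm_num⟩
  obtain ⟨g, o⟩ := exists_prime_orderOf_dvd_card' p e
  rw [← orderOf_coe, ← orderOf_coe, ← orderOf_coe] at o
  rcases hp with rfl | rfl
  · have := fix_le (g := g.1.1.1) (s := {a, b}) (by simpa using ⟨g.1.2, g.2⟩)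
    rw [h.five g.1.1.2 o, card_pair ab.symm, h.c] at this
    omega
  · exact h.seven g.1.1.2 o

theorem ex2 : ∃ a b : α, b ≠ a :=
  have := Fintype.one_lt_card_iff_nontrivial.1 (by rw [h.c]; norm_num : 1 < Fintype.card α)
  (exists_pair_ne α).imp fun _ k => k.imp fun _ => Ne.symm

theorem num (A : G ≤ alternatingGroup α) [Fact (Nat.Prime 11)] (P : Sylow 11 G) :
    Nat.card (normalizer ((P : Subgroup G) : Set G)) = 55 ∧ (Nat.card G = 660 ∨ Nat.card G = 7920) := by
  have := h.t
  obtain ⟨-, -, -, d, h1, h2, h3⟩ := prime_degree_sylow h.c' P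
  have d1 : d ≠ 1 := by
    rintro rfl
    have := isCyclic_of_prime_card (card_eq_of_normalizer h.c' P h2)
    exact h.s inferInstance
  have d2 : ¬ 2 ∣ d := fun e => by
    obtain ⟨t, o⟩ := exists_prime_orderOf_dvd_card' 2 (h2 ▸ e.mul_left 11)
    obtain ⟨c, hc, k⟩ := H10.exists_aff h.c' P
    obtain ⟨k, hk⟩ := k t t.2
    rw [← orderOf_coe, ← orderOf_coe] at o
    obtain ⟨n, e1, e2⟩ := supp Nat.prime_two o
    have l := h.c ▸ card_le_univ (t.1.1).support
    have : #(t.1.1).supportᶜ ≤ 1 := card_le_one.2 fun a ha b hb => by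
      by_contra ab
      have := hk.eq_one hc.1 ab (notMem_support.1 (mem_compl.1 ha)) (notMem_support.1 (mem_compl.1 hb))
      simp [this] at o
    rw [card_compl, h.c] at this
    obtain rfl : n = 4 := by omega
    exact absurd (e2.symm.trans (A t.1.2)) (by decide)
  obtain rfl : d = 5 := by
    have := Nat.le_of_dvd (by norm_num) h1
    interval_cases d <;> omega
  obtain ⟨a, b, ab⟩ := h.ex2
  have b1 := S3681.result h.prim fun k => h.a (k.trans (by rintro _ ⟨g, rfl⟩; exact g.2))
  have b2 := card_subgroup_dvd_card G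
  have b3 : _ % 11 = 1 := card_sylow_modEq_one 11 G
  have b4 := h.cop ab (.inl rfl)
  have b5 := h.cop ab (.inr rfl)
  rw [Nat.card_perm, h.c'] at b2
  rw [h.c, h.card ab] at *
  refine ⟨h2, ?_⟩
  generalize Nat.card (stabilizer (stabilizer G a) b) = m at *
  have k : ∀ m < 505, 110 * m ∣ Nat.factorial 11 ∧ 2 * m % 11 = 1 ∧ ¬ 5 ∣ m ∧ ¬ 7 ∣ m → m = 6 ∨ m = 72 := by
    decide +kernel
  have := k m (by simp [Nat.factorial] at b1; omega) ⟨b2, by omega, b4, b5⟩
  omega

theorem no4 {t : Perm α} (ht : t ∈ G) : #t.support ≠ 4 := fun e => by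
  obtain ⟨a, ha⟩ := card_pos.1 (by omega : 0 < #t.support)
  set K := stabilizer G a
  have := Fintype.ofFinite K
  set B := t.support.erase a
  have cB : #B = 3 := by rw [card_erase_of_mem ha, e]
  have k : ∀ g : K, ∃ x ∈ B ×ˢ B, g • x.1 = x.2 := fun g => by
    by_contra! n
    have ga : g.1.1 a = a := g.2
    refine h.a (alternating_le_of_support_le_three h.prim (h := t * (g.1.1 * t * g.1.1⁻¹) * t⁻¹ * (g.1.1 * t * g.1.1⁻¹)⁻¹)
      ?_ ?_ ?_)
    · have := G.mul_mem (G.mul_mem g.1.2 ht) (G.inv_mem g.1.2)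
      exact G.mul_mem (G.mul_mem (G.mul_mem ht this) (G.inv_mem ht)) (G.inv_mem this)
    all_goals
      have := S3681.three (g := t) (h := g.1.1 * t * g.1.1⁻¹) (a := a) (mem_support.1 ha)
        (by rw [← mem_support, support_conj]; exact Finset.mem_map.2 ⟨a, ha, ga⟩) fun x xa => by
          by_contra! m
          have := mem_support.2 m.2
          rw [support_conj] at this
          obtain ⟨y, hy, rfl⟩ := Finset.mem_map.1 this
          exact n (y, g.1.1 y) (mem_product.2 ⟨mem_erase.2 ⟨fun e => xa ((congrArg g.1.1 e).trans ga), hy⟩,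
            mem_erase.2 ⟨xa, mem_support.2 m.1⟩⟩) rfl
    exacts [this.ne_one, this.card_support.le]
  have l : Nat.card K ≤ ∑ x ∈ B ×ˢ B, #(univ.filter fun g : K => g • x.1 = x.2) := by
    rw [Nat.card_eq_fintype_card, ← card_univ]
    exact (card_le_card fun g _ => mem_biUnion.2 ((k g).imp fun x hx => ⟨hx.1, mem_filter.2 ⟨mem_univ _, hx.2⟩⟩)).trans
      card_biUnion_le
  have m : ∀ x ∈ B ×ˢ B, 10 * #(univ.filter fun g : K => g • x.1 = x.2) ≤ Nat.card K := fun x hx => by
    rw [← (stabilizer K x.1).card_mul_index, h.idx (mem_erase.1 (mem_product.1 hx).1).1, mul_comm, Nat.mul_le_mul_right_iff (by norm_num)]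
    rcases (univ.filter fun g : K => g • x.1 = x.2).eq_empty_or_nonempty with e | ⟨g, hg⟩
    · simp [e]
    rw [← Fintype.card_coe, ← Nat.card_eq_fintype_card]
    exact Nat.card_le_card_of_injective (fun k => ⟨g⁻¹ * k.1, by
      rw [mem_stabilizer_iff, mul_smul, (mem_filter.1 k.2).2, inv_smul_eq_iff, (mem_filter.1 hg).2]⟩)
      fun _ _ e => Subtype.ext (mul_left_cancel (congrArg Subtype.val e))
  have := sum_le_card_nsmul _ _ _ m
  rw [← mul_sum, card_product, cB, smul_eq_mul] at this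
  have := Nat.card_pos (α := K)
  omega

theorem t5 {z : Perm α} (e : #z.support = 6)
    (tr : ∀ c d, z c = c → z d = d → ∃ m ∈ G, m * z = z * m ∧ m c = d) : False := by
  have : Fact (Nat.Prime 5) := ⟨by norm_num⟩
  set C := G ⊓ centralizer {z}
  have mC : ∀ {m}, m ∈ C ↔ m ∈ G ∧ m * z = z * m := by simp [C, mem_centralizer_singleton_iff]
  have i : ∀ a, z a = a → Nat.card (stabilizer C a) * 5 = Nat.card C := fun a ha => by
    have : orbit C a = ↑z.supportᶜ := by
      ext c
      simp only [coe_compl, Set.mem_compl_iff, mem_coe, notMem_support]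
      refine ⟨?_, fun hc => ?_⟩
      · rintro ⟨m, rfl⟩
        exact (DFunLike.congr_fun (mC.1 m.2).2 a).symm.trans (congrArg m.1 ha)
      · obtain ⟨m, k1, k2, k3⟩ := tr a c ha hc
        exact ⟨⟨m, mC.2 ⟨k1, k2⟩⟩, k3⟩
    rw [← (stabilizer C a).card_mul_index, index_stabilizer, this, Set.ncard_coe_finset, card_compl, e, h.c]
  obtain ⟨a, ha⟩ := card_pos.1 (by rw [card_compl, e, h.c]; norm_num : 0 < #z.supportᶜ)
  obtain ⟨y, o⟩ := exists_prime_orderOf_dvd_card' (G := C) 5 ⟨_, by rw [← i a (by simpa using ha), mul_comm]⟩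
  obtain ⟨x, hx⟩ := card_eq_one.1
    (by rw [card_compl, h.five (mC.1 y.2).1 ((orderOf_coe y).trans o), h.c] : #y.1.supportᶜ = 1)
  have f : ∀ w, y.1 w = w ↔ w = x := fun w => by rw [← mem_singleton (a := x), ← hx]; simp
  have zx : z x = x := (f _).1 ((DFunLike.congr_fun (mC.1 y.2).2 x).trans (congrArg z ((f x).2 rfl)))
  have k1 := orderOf_dvd_natCard (⟨y, (f x).2 rfl⟩ : stabilizer C x)
  have k2 := card_dvd_of_le (inf_le_left : C ≤ G)
  obtain ⟨a, b, ab⟩ := h.ex2
  have := h.cop ab (.inl rfl)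
  rw [← orderOf_coe, o] at k1
  rw [← i x zx, h.card ab] at k2
  have := (Nat.mul_dvd_mul_right k1 5).trans k2
  omega

theorem no6 (c : Nat.card G = 7920) {z : Perm α} (hz : z ∈ G) (o : orderOf z = 3) : #z.support ≠ 6 := fun e => by
  refine h.t5 e fun c d zc zd => ?_
  by_cases cd : c = d
  · exact ⟨1, G.one_mem, by simp, cd⟩
  have cF : #z.supportᶜ = 5 := by rw [card_compl, e, h.c]
  obtain ⟨a, ha, b, hb, ab⟩ := one_lt_card.1 (show 1 < #(z.supportᶜ \ {c, d}) by
    have := le_card_sdiff {c, d} z.supportᶜ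
    have := card_le_two (a := c) (b := d)
    omega)
  simp only [mem_sdiff, mem_compl, notMem_support, mem_insert, mem_singleton, not_or] at ha hb
  set K := stabilizer (stabilizer G a) b
  have cK : Nat.card K = 72 := by have : _ = 110 * Nat.card K := h.card ab.symm; omega
  let z' : K := ⟨⟨⟨z, hz⟩, ha.1⟩, hb.1⟩
  obtain ⟨M, hM⟩ := (IsPGroup.of_card (p := 3) (n := 1) (G := zpowers z') (by
    rw [Nat.card_zpowers, ← orderOf_coe, ← orderOf_coe, ← orderOf_coe, o, pow_one])).exists_le_sylow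
  have cM : Nat.card M = 3 ^ 2 := by rw [M.card_eq_multiplicity, cK]; decide +kernel
  have cm : ∀ m : M, m.1.1.1.1 * z = z * m.1.1.1.1 := fun m => congrArg (fun x : M => x.1.1.1.1)
    ((IsPGroup.isMulCommutative_of_card_eq_prime_sq cM).1.1 m ⟨z', hM (mem_zpowers _)⟩)
  have fx : ∀ (m : M) x, z x = x → z (m.1.1.1.1 x) = m.1.1.1.1 x := fun m x e =>
    (DFunLike.congr_fun (cm m) x).symm.trans (congrArg m.1.1.1.1 e)
  have ma : ∀ m : M, m.1.1.1.1 a = a := fun m => m.1.1.2
  have mb : ∀ m : M, m.1.1.1.1 b = b := fun m => m.1.2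
  have six : ∀ {s : Finset α}, (∀ x ∈ s, z x = x) → #s ≤ 5 := fun k => by have := fix_le k; rw [e, h.c] at this; omega
  by_cases k : ∀ m : M, m.1.1.1.1 c = c
  · exfalso
    obtain ⟨x, hx⟩ := card_pos.1 (by omega : 0 < #z.support)
    have i1 : (stabilizer M x).index ≤ 6 := by
      rw [index_stabilizer, ← e, ← Set.ncard_coe_finset]
      refine Set.ncard_le_ncard ?_
      rintro _ ⟨m, rfl⟩
      exact mem_support.2 fun e' => mem_support.1 hx (m.1.1.1.1.injective ((DFunLike.congr_fun (cm m) x).trans e'))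
    have i2 := (stabilizer M x).card_mul_index
    obtain ⟨w, ow⟩ := exists_prime_orderOf_dvd_card' (G := stabilizer M x) 3 (by
      rw [cM] at i2
      have := Nat.le_of_dvd (by norm_num) (Dvd.intro _ i2)
      generalize Nat.card (stabilizer M x) = n at *
      interval_cases n <;> omega)
    rw [← orderOf_coe, ← orderOf_coe, ← orderOf_coe, ← orderOf_coe, ← orderOf_coe] at ow
    obtain ⟨n, e1, -⟩ := supp Nat.prime_three ow
    have wx : w.1.1.1.1.1 x = x := w.2
    have wz : w.1.1.1.1.1 (z x) = z x := (DFunLike.congr_fun (cm w.1) x).trans (congrArg z wx)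
    have z1 := mem_support.1 hx
    have z2 : z (z x) ≠ z x := fun e => z1 (z.injective e)
    have z3 : z⁻¹ x ≠ x := fun e => z1 (Perm.inv_eq_iff_eq.1 e).symm
    have z4 : z⁻¹ x ≠ z x := fun e => z1 (by
      have := DFunLike.congr_fun (o ▸ pow_orderOf_eq_one z) x
      rw [pow_three', mul_apply, mul_apply, ← Perm.inv_eq_iff_eq.1 e] at this
      exact this)
    have z5 : z (z⁻¹ x) ≠ z⁻¹ x := by simpa using z3.symm
    have := fix_le (g := w.1.1.1.1.1) (s := {a, b, c, x, z x, z⁻¹ x}) (by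
      simp only [mem_insert, mem_singleton, forall_eq_or_imp, forall_eq]
      refine ⟨ma _, mb _, k _, wx, wz, z.injective ?_⟩
      rw [← mul_apply, ← cm]; simpa using wx)
    have n1 : ∀ {u v}, z u = u → z v ≠ v → u ≠ v := fun k1 k2 e => k2 (e ▸ k1)
    generalize z⁻¹ x = x' at *
    rw [card_insert_of_notMem (by simp [ab, ha.2.1, n1 ha.1 z1, n1 ha.1 z2, n1 ha.1 z5]),
      card_insert_of_notMem (by simp [hb.2.1, n1 hb.1 z1, n1 hb.1 z2, n1 hb.1 z5]),
      card_insert_of_notMem (by simp [n1 zc z1, n1 zc z2, n1 zc z5]),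
      card_insert_of_notMem (by simp [z1.symm, z3.symm]), card_pair z4.symm, h.c] at this
    exact h.cyc w.1.1.1.1.2 Nat.prime_three ow (by omega) (by norm_num)
  push Not at k
  obtain ⟨m, hm⟩ := k
  by_contra! n
  have n1 := n _ m.1.1.1.2 (cm m)
  have n2 := n _ (m⁻¹).1.1.1.2 (cm m⁻¹)
  have e1 : ∀ x, (m⁻¹).1.1.1.1 x = (m.1.1.1.1)⁻¹ x := fun _ => rfl
  have m9 : m.1.1.1.1 ^ 9 = 1 := congrArg (fun x : M => x.1.1.1.1) (show m ^ 3 ^ 2 = 1 from cM ▸ pow_card_eq_one')
  have f1 := fx m c zc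
  have f2 := fx m⁻¹ c zc
  have a1 := ma m
  have b1 := mb m
  rw [e1] at n2 f2
  generalize m.1.1.1.1 = σ at *
  have p1 : ∀ {x}, σ x = x → x ≠ c → x ≠ σ c ∧ x ≠ σ⁻¹ c := fun k1 k2 =>
    ⟨fun e => k2 (σ.injective (k1.trans e)), fun e => k2 (k1.symm.trans (Perm.eq_inv_iff_eq.1 e))⟩
  have p2 : σ⁻¹ c ≠ c := fun e => hm (Perm.inv_eq_iff_eq.1 e).symm
  have p3 : σ c ≠ σ⁻¹ c := fun e => hm (by
    have k := Perm.eq_inv_iff_eq.1 e
    have := DFunLike.congr_fun m9 c
    simp only [pow_succ, mul_apply, k, pow_zero, one_apply] at this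
    exact this)
  have a2 := p1 a1 ha.2.1
  have b2 := p1 b1 hb.2.1
  generalize σ⁻¹ c = c' at *
  have := six (s := {a, b, d, c, σ c, c'}) (by simp [ha.1, hb.1, zc, zd, f1, f2])
  rw [card_insert_of_notMem (by simp [ab, ha.2, a2]), card_insert_of_notMem (by simp [hb.2, b2]),
    card_insert_of_notMem (by simp [Ne.symm cd, n1.symm, n2.symm]), card_insert_of_notMem (by simp [hm.symm, p2.symm]),
    card_pair p3] at this
  omega

theorem big (A : G ≤ alternatingGroup α) (c : Nat.card G = 7920) {g : Perm α} (hg : g ∈ G) (x : Fin 4 ↪ α)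
    (k : ∀ i, g (x i) = x i) : g = 1 := by
  by_contra g1
  obtain ⟨p, j, hp, -, o⟩ := red g1
  have l := fix_le (g := g) (s := univ.map x) (by simpa using k)
  have l' := card_le_card (support_pow_le g j)
  have m := G.pow_mem hg j
  obtain ⟨n, e1, e2⟩ := supp hp o
  have e3 := e2.symm.trans (A m)
  rw [card_map, card_univ, h.c, Fintype.card_fin] at l
  have : p ≤ 7 := by nlinarith
  have := h.no4 m
  have := hp.two_le
  interval_cases p
  · have : n ≤ 2 := by omega
    interval_cases n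
    exacts [absurd e3 (by decide), by omega, absurd e3 (by decide)]
  · have := h.no6 c m o
    exact h.cyc m hp o (by omega) (by norm_num)
  · exact absurd hp (by norm_num)
  · have := h.five m o
    omega
  · exact absurd hp (by norm_num)
  · exact h.seven m o

theorem sharp (A : G ≤ alternatingGroup α) (c : Nat.card G = 7920) :
    IsMultiplyPretransitive G α 4 ∧ ∀ x : Fin 4 ↪ α, stabilizer G x = ⊥ := by
  have k : ∀ x : Fin 4 ↪ α, stabilizer G x = ⊥ := fun x => eq_bot_iff.2 fun g hg =>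
    Subtype.ext (h.big A c g.2 x fun i => DFunLike.congr_fun hg i)
  refine ⟨⟨fun x y => ?_⟩, k⟩
  have : orbit G x = Set.univ := Set.eq_of_subset_of_ncard_le (Set.subset_univ _) (by
    erw [← index_stabilizer G x]
    rw [k, index_bot, c, Set.ncard_univ, Nat.card_eq_fintype_card, Fintype.card_embedding_eq, h.c]
    decide)
  exact this.ge (Set.mem_univ y)

end E

/-- A non-solvable transitive permutation group on 11 points that does not contain the alternating group is either sharply 4-transitive (of order 7920) or isomorphic to the projective special linear group of degree 2 over the field with 11 elements. -/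
theorem result {α : Type*} [Fintype α] [DecidableEq α] (hα : Fintype.card α = 11) (G : Subgroup (Equiv.Perm α)) [MulAction.IsPretransitive G α] (hG : ¬ Group.IsSolvable G) (hA : ¬ alternatingGroup α ≤ G) : (MulAction.IsMultiplyPretransitive G α 4 ∧ ∀ x : Fin 4 ↪ α, MulAction.stabilizer G x = ⊥) ∨ Nonempty (G ≃* Matrix.ProjectiveSpecialLinearGroup (Fin 2) (ZMod 11)) := by
  have h : E G := ⟨hα, ‹_›, hG, hA⟩
  have : Fact (Nat.Prime 11) := ⟨by norm_num⟩
  obtain ⟨P⟩ : Nonempty (Sylow 11 G) := inferInstance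
  obtain ⟨cP, tP, -, d, h1, h2, h3⟩ := prime_degree_sylow h.c' P
  by_cases A : G ≤ alternatingGroup α
  · obtain ⟨k, c | c⟩ := h.num A P
    · have := S1013.result hα G P (by rw [h2.symm.trans k, c] at h3; omega) (by
        have := ((P : Subgroup G).subgroupOf (normalizer ((P : Subgroup G) : Set G))).card_mul_index
        rw [Nat.card_congr (subgroupOfEquivOfLe le_normalizer).toEquiv, cP] at this
        rw [show ((P : Subgroup G).subgroupOf (normalizer ((P : Subgroup G) : Set G))).index = 5 by omega]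
        norm_num)
      exact .inr (S0498.result 11 (.inl rfl) (by rw [c]; norm_num) (ZMod.card 11))
    · exact .inl (h.sharp A c)
  exfalso
  set S := G ⊓ alternatingGroup α
  obtain ⟨g, hg, g1⟩ := SetLike.not_le_iff_exists.1 A
  have od : ∀ {u : Perm α}, u ∉ alternatingGroup α ↔ sign u = -1 := by
    intro u; rw [mem_alternatingGroup]; rcases Int.units_eq_one_or (sign u) with e | e <;> simp [e]
  have i2 : (S.subgroupOf G).index = 2 := index_eq_two_iff.2 ⟨⟨g, hg⟩, fun b => by
    rcases Int.units_eq_one_or (sign b.1) with e | e <;> simp [S, mem_subgroupOf, e, od.1 g1, G.mul_mem b.2 hg]⟩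
  have c2 : Nat.card S * 2 = Nat.card G := by
    rw [← (S.subgroupOf G).card_mul_index, i2, Nat.card_congr (subgroupOfEquivOfLe inf_le_left).toEquiv]
  have hS : E S := by
    refine ⟨hα, ⟨fun a b => ?_⟩, fun k => hG ?_, fun k => hA (k.trans inf_le_left)⟩
    · obtain ⟨u, e⟩ := tP.1 a b
      refine ⟨⟨u.1.1, u.1.2, by_contra fun n => ?_⟩, e⟩
      have := congrArg (fun x : P => sign x.1.1) ((congrArg (u ^ ·) cP).symm.trans pow_card_eq_one')
      simp [od.1 n] at this
      exact absurd this (by decide)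
    · exact Group.isSolvable_of_ker_le_range (inclusion (inf_le_left : S ≤ G)) (sign.comp G.subtype)
        fun x hx => ⟨⟨x, x.2, hx⟩, rfl⟩
  obtain ⟨Q⟩ : Nonempty (Sylow 11 S) := inferInstance
  rcases (hS.num inf_le_right Q).2 with c | c
  · have b3 : _ % 11 = 1 := card_sylow_modEq_one 11 G
    have t3 := S0676.result hα G hG P (by
      have := Nat.le_of_dvd (by norm_num) h1
      rw [Nat.even_iff]
      erw [h2]
      interval_cases d <;> omega)
    obtain ⟨x⟩ : Nonempty (Fin 3 ↪ α) := Function.Embedding.nonempty_of_card_le (by simp [hα])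
    have := @card_mul_card_stabilizer G _ _ _ ⟨t3.1⟩ x
    rw [Nat.card_eq_fintype_card, Fintype.card_embedding_eq, hα] at this
    simp [Nat.descFactorial] at this
    omega
  have t4 := (hS.sharp inf_le_right c).1
  obtain ⟨x⟩ : Nonempty (Fin 4 ↪ α) := Function.Embedding.nonempty_of_card_le (by simp [hα])
  obtain ⟨s, hs⟩ := t4.1 x ((⟨g, hg⟩ : G) • x)
  set u := s.1⁻¹ * g
  have uG : u ∈ G := G.mul_mem (G.inv_mem s.2.1) hg
  have us : sign u = -1 := by simp [u, od.1 g1, mem_alternatingGroup.1 s.2.2]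
  have ux : ∀ i, u (x i) = x i := fun i => Perm.inv_eq_iff_eq.2 (DFunLike.congr_fun hs i).symm
  have u2 : u * u = 1 := hS.big inf_le_right c ⟨G.mul_mem uG uG, by simp [us]⟩ x fun i => by simp [ux]
  have u1 : u ≠ 1 := fun e => by simp [e] at us
  obtain ⟨n, e1, e2⟩ := supp Nat.prime_two (orderOf_eq_prime ((sq u).trans u2) u1)
  have l := fix_le (g := u) (s := univ.map x) (by simpa using ux)
  rw [card_map, card_univ, hα, Fintype.card_fin] at l
  have := mt (alternating_le_of_support_le_three h.prim uG u1) hA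
  have := h.no4 uG
  have e6 : #u.support = 6 := by omega
  have em : ∀ c, u c = c → ∃ y : Fin 4 ↪ α, y 0 = c ∧ ∀ i, u (y i) = y i := fun c uc => by
    let f := (u.supportᶜ.equivFinOfCardEq (by rw [card_compl, e6, hα] : _ = 5)).symm
    refine ⟨Fin.castSuccEmb.trans ((swap 0 (f.symm ⟨c, by simpa using uc⟩)).toEmbedding.trans
      (f.toEmbedding.trans (.subtype _))), by simp, fun i => notMem_support.1 (mem_compl.1 (f _).2)⟩
  refine h.t5 e6 fun a b ha hb => ?_
  obtain ⟨y, rfl, y1⟩ := em a ha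
  obtain ⟨z, rfl, z1⟩ := em b hb
  obtain ⟨m, hm⟩ := t4.1 y z
  have f : ∀ i, m.1 (y i) = z i := fun i => DFunLike.congr_fun hm i
  refine ⟨m, m.2.1, ?_, f 0⟩
  have := hS.big inf_le_right c (g := u⁻¹ * m.1⁻¹ * (u * m.1)) ⟨G.mul_mem (G.mul_mem (G.inv_mem uG) (G.inv_mem m.2.1))
    (G.mul_mem uG m.2.1), by simp [us]⟩ y fun i => by
      simp only [mul_apply, f, z1, Perm.inv_eq_iff_eq, y1]
  rwa [← mul_inv_rev, inv_mul_eq_one] at this

end Cfsg.Agent.S0679
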