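import Cfsg.Statements.S0803
import Cfsg.Agent.H10.PSL2Sub
import Mathlib.NumberTheory.LegendreSymbol.QuadraticChar.GaussSum

set_option autoImplicit false
open Cfsg

namespace Cfsg.Agent.S0803

/-- PSL_2(q) has a subgroup isomorphic to S_4 iff q² ≡ 1 (mod 16). -/
theorem result {F : Type*} [Field F] [Fintype F] {q : ℕ} (hF : Fintype.card F = q) : (∃ H : Subgroup (Matrix.ProjectiveSpecialLinearGroup (Fin 2) F), Nonempty (H ≃* Equiv.Perm (Fin 4))) ↔ q ^ 2 % 16 = 1 := by
  subst hF
  obtain ⟨p, hp⟩ := CharP.exists F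
  have : Fact p.Prime := ⟨CharP.char_is_prime F p⟩
  constructor
  · rintro ⟨H, ⟨e⟩⟩
    have h4 : orderOf (finRotate 4) = 4 := orderOf_eq_prime_pow (p := 2) (n := 1) (by decide) (by decide)
    have h5 : orderOf (H10.ι F (e.symm (finRotate 4))) = 4 := by
      rw [orderOf_injective _ H10.ι_injective, Subgroup.orderOf_coe, MulEquiv.orderOf_eq, h4]
    have h6 := H10.orderOf_PSL2_dvd p (H10.ι_mem (e.symm (finRotate 4) : H).1)
    rw [h5] at h6
    have hq := Fintype.card_pos (α := F)
    have h7 : Odd (Fintype.card F) := by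
      by_contra hc
      rw [Nat.not_odd_iff_even] at hc
      obtain ⟨k, hk⟩ := hc
      have hg : Nat.gcd 2 (Fintype.card F - 1) = 1 :=
        (Nat.coprime_two_left.2 ⟨k - 1, by omega⟩)
      rw [hg, Nat.div_one, Nat.div_one] at h6
      rcases h6 with h | h | h
      · rcases (Nat.dvd_prime Fact.out).1 h with h | h
        · omega
        · exact absurd (h ▸ Fact.out : Nat.Prime 4) (by norm_num)
      all_goals omega
    obtain ⟨k, hk⟩ := h7
    rw [hk, Nat.add_sub_cancel, Nat.gcd_eq_left (Dvd.intro _ rfl)] at h6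
    rw [hk]
    rcases h6 with h | ⟨c, h⟩ | ⟨c, h⟩
    · rcases (Nat.dvd_prime Fact.out).1 h with h | h
      · omega
      · exact absurd (h ▸ Fact.out : Nat.Prime 4) (by norm_num)
    · obtain ⟨c, rfl⟩ : ∃ c', c = c' + 1 := ⟨c - 1, by omega⟩
      rw [show k = 4 * c + 3 by omega,
        show (2 * (4 * c + 3) + 1) ^ 2 = 1 + 16 * (4 * c ^ 2 + 7 * c + 3) by ring]
      omega
    · rw [show k = 4 * c by omega, show (2 * (4 * c) + 1) ^ 2 = 1 + 16 * (4 * c ^ 2 + c) by ring]
      omega
  · intro h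
    have h8 : Fintype.card F % 8 = 1 ∨ Fintype.card F % 8 = 7 := by
      rw [Nat.pow_mod] at h
      have : Fintype.card F % 16 < 16 := Nat.mod_lt _ (by norm_num)
      have h16 : Fintype.card F % 8 = Fintype.card F % 16 % 8 := by omega
      generalize Fintype.card F % 16 = r at *
      interval_cases r <;> simp_all
    have h2 : (2 : F) ≠ 0 := H24.two_ne_zero_of_odd (Nat.odd_iff.2 (by omega))
    obtain ⟨τ, hτ⟩ := FiniteField.isSquare_two_iff.2 (show Fintype.card F % 8 ≠ 3 ∧ _ by omega)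
    obtain ⟨a, c, hac⟩ := H10.exists_root_of_odd h2 τ
    exact H10.exists_S4_of_root h2 (by rw [hτ, pow_two]) hac

end Cfsg.Agent.S0803
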