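import Cfsg.Statements.S0899
import Cfsg.Agent.H23.Ito
import Cfsg.Agent.S0898

set_option autoImplicit false
open Cfsg

namespace Cfsg.Agent.S0899

open H5 H6 H8 H18 H23 Subgroup
open scoped commutatorElement

theorem core {G : Type*} [Group G] [Finite G] {p : ℕ} [hp : Fact p.Prime] {χ : G → ℂ} (hχ : IsCharacter G χ)
    (hf : ∀ g, χ g = χ 1 → g = 1) (hd : charDegree χ + 1 < p) (ih : ∀ K : Subgroup G, K ≠ ⊤ → NSyl p K)
    {P : Subgroup G} (hP : Hall {p} P ⊤) (hn : ¬ P ⊴ ⊤) : Nat.card P < (charDegree χ + 1) ^ 2 := by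
  have hA : ∀ A : Subgroup G, PiGrp {p} A → Abel A := fun A h =>
    cent_iff.2 (comm_of_primes hχ hf le_rfl A fun q hq e => by rw [h.eq_of_dvd hq e]; omega)
  have hM : ∀ M, M ⊴ ⊤ → PiNat {p} M.index ∨ PiNat {p}ᶜ M.index → M = ⊤ := fun M h hi => by_contra fun e => by
    obtain ⟨q, Q, -, h1, h2, h3, h4⟩ := ito_exists_pair ih hP (hA P hP.pi) hn h e hi
    have := (ito_pair hχ hf hp.out (by omega) h1 hP.pi h2 h3 h4).1
    omega
  have hi : PiNat {p}ᶜ P.index := by simpa using hP.idx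
  have hZ : P ⊓ center G = ⊥ := by
    haveI := (hA P hP.pi).comm
    letI : CommGroup P := IsMulCommutative.instCommGroup
    have := hM (MonoidHom.transfer (MonoidHom.id P)).ker nml_top (Or.inl (by
      rw [index_ker]; exact hP.pi.of_dvd (card_subgroup_dvd_card _)))
    refine eq_bot_iff.2 fun z hz => ?_
    have h1 : z ∈ (MonoidHom.transfer (MonoidHom.id P)).ker := this ▸ mem_top z
    rw [MonoidHom.mem_ker, MonoidHom.transfer_eq_pow _ _ fun k g _ => by
      rw [mul_assoc, ← mem_center_iff.1 (pow_mem hz.2 k), inv_mul_cancel_left]] at h1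
    exact (hP.pi.elt hz.1).eq_one' (hi.of_dvd (orderOf_dvd_of_pow_eq_one (congrArg Subtype.val h1)))
  have hu : ∀ y, y ∉ center G → ∀ R, Hall {p} R C1(y) → ∀ A ≤ C1(y), PiGrp {p} A → A ≤ R := fun y hy R hR A h1 h2 =>
    hR.le_of_nml (nsyl_iff.1 (ih _ (mt centralizer_eq_top_iff_subset.1 (by simpa using hy))) _ hR) h1 h2
  have hu' : ∀ y, y ≠ 1 → ∀ a, y ∈ cj a P → ∀ A ≤ C1(y), PiGrp {p} A → A ≤ cj a P := fun y h1 a h =>
    hu y (fun e => h1 (conj_eq_one_iff'.1 (eq_one_of_eq_bot hZ (x := a⁻¹ * y * a⁻¹⁻¹) ⟨by simpa using mem_cj.1 h,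
      Normal.conj_mem inferInstance _ e _⟩))) _ ((hP.cj_top a).of_le (le_C1_iff.2 (hA _ (hP.pi.cj a) h)) le_top)
  obtain ⟨x, hx, g, -, hc⟩ : ∃ x ∈ P, ∃ g ∈ (⊤ : Subgroup G), x * g ≠ g * x := by
    by_contra hc
    push Not at hc
    exact hn ⟨le_top, cent_norm (cent_symm (cent_iff.2 hc))⟩
  obtain ⟨ψ, θ, hψ, hθ, e, h⟩ := exists_const hχ (g := ⁅x, g⁆) fun e =>
    hc (commutatorElement_eq_one_iff_mul_comm.1 (hf _ e))
  letI := Fintype.ofFinite G
  letI := Fintype.ofFinite P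
  have := (S0898.result P (cent_iff.1 (hA P hP.pi)) hZ (fun g hg a b h1 h2 => by
    obtain ⟨y, hy, y1⟩ := exists_mem_ne_one' h1
    obtain ⟨z, hz, z1⟩ := exists_mem_ne_one' h2
    obtain ⟨R, hR⟩ := exists_sylow hp.out C1(g)
    have h3 : y ∈ C1(z) := mem_C1.2 (comm_of_cent (hA R hR.pi)
      (zpowers_le.1 (hu g hg R hR _ (zpowers_le.2 hy.1) ((hP.pi.cj a).elt hy.2).zpowers))
      (zpowers_le.1 (hu g hg R hR _ (zpowers_le.2 hz.1) ((hP.pi.cj b).elt hz.2).zpowers)))
    have h4 := zpowers_le.1 (hu' z z1 b hz.2 _ (zpowers_le.2 h3) ((hP.pi.cj a).elt hy.2).zpowers)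
    exact (hP.cj_top a).eq_of_le' (hP.cj_top b) (hu' y y1 b h4 _ (le_C1_iff.2 (hA _ (hP.pi.cj a) hy.2)) (hP.pi.cj a)))
    ψ hψ ⟨x, hx, fun e => h (by
      have := hψ.mem_charKer.2 e
      simpa [commutatorElement_def, mul_assoc] using mul_mem this (hψ.isCharacter.normal_charKer.conj_mem _ (inv_mem this) g))⟩).2
    (fun e => h (hψ.commutator_le_charKer_iff.2 e (commutator_mem_commutator (mem_top _) (mem_top _))))
    fun M h1 h2 => hM M nml_top (Or.inr (hi.of_dvd (index_dvd_of_le h2)))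
  rw [← hψ.coe_charDegree, Complex.natCast_re] at this
  have h5 : Nat.card P < (1 + charDegree ψ) ^ 2 := by exact_mod_cast this
  rw [e, charDegree_add' hψ.isCharacter hθ]
  exact h5.trans_le (Nat.pow_le_pow_left (by omega) 2)

theorem aux {p : ℕ} [hp : Fact p.Prime] (m : ℕ) : ∀ (G : Type*) [Group G] [Finite G], Nat.card G = m → ∀ χ : G → ℂ,
    IsCharacter G χ → (∀ g, χ g = χ 1 → g = 1) → charDegree χ + 1 < p →
    ((charDegree χ + 1) ^ 2 ≤ p ∨ ∀ K : Subgroup G, ¬ p ^ 2 ∣ Nat.card K → NSyl p K) → NSyl p G := by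
  induction m using Nat.strong_induction_on with
  | _ m ih =>
  intro G _ _ hm χ hχ hf hd h S
  have hP := hall_sylow_top hp.out S
  refine (by_contra fun hn => ?_ : (S : Subgroup G) ⊴ ⊤).normal
  have := core hχ hf hd (fun K hK => by
    have e : charDegree (fun x : K => χ x) = charDegree χ := charDegree_eq_of_apply_one hχ.coe_charDegree.symm
    exact ih _ (hm ▸ (card_lt (lt_top_iff_ne_top.2 hK)).trans_eq card_top) K rfl _ (hχ.restrict K)
      (fun g hg => Subtype.ext (hf _ hg)) (e ▸ hd) (h.imp (e ▸ id) fun h L hL =>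
        (h _ (by rwa [H18.card_map_subtype])).of_surjective (L.equivMapOfInjective _ K.subtype_injective).symm.surjective
          (f := (L.equivMapOfInjective _ K.subtype_injective).symm.toMonoidHom))) hP hn
  rcases h with h | h
  · have := Nat.le_of_dvd card_pos' (hP.pi.dvd_card fun e => hn (e ▸ Nml.bot))
    omega
  · refine hn ⟨le_top, nsyl_iff.1 (h ⊤ fun h' => ?_) _ hP⟩
    have := Nat.le_of_dvd card_pos' (hP.dvd_of_piNat (piNat_pow_self hp.out 2) h')
    have := Nat.pow_lt_pow_left hd two_ne_zero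
    omega

/-- Let G be a finite group with a faithful complex representation of degree n (on Fin n → ℂ) and p a prime. Suppose either that (n + 1) ^ 2 ≤ p, or that n + 1 < p and every subgroup of G whose order is not divisible by p ^ 2 has a normal Sylow p-subgroup. Then every Sylow p-subgroup of G is normal. -/
theorem result {G : Type*} [Group G] [Finite G] (n : ℕ) (ρ : Representation ℂ G (Fin n → ℂ)) (hρ : Function.Injective ρ) (p : ℕ) [Fact p.Prime] (h : (n + 1) ^ 2 ≤ p ∨ (n + 1 < p ∧ ∀ K : Subgroup G, ¬ p ^ 2 ∣ Nat.card K → ∀ Q : Sylow p K, (Q : Subgroup K).Normal)) (P : Sylow p G) : (P : Subgroup G).Normal := by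
  have e : charDegree ρ.character = n := by rw [charDegree_character]; simp
  have hf : ∀ g, ρ.character g = ρ.character 1 → g = 1 := fun g hg => hρ (by
    rw [(mem_charKer_character ρ g).1 ((isCharacter_character ρ).mem_charKer.2 hg), map_one]; rfl)
  rcases Nat.eq_zero_or_pos n with rfl | hn
  · haveI : Subsingleton G := ⟨fun a b => hρ (Subsingleton.elim _ _)⟩
    rw [Subsingleton.elim (P : Subgroup G) ⊤]; infer_instance
  exact aux _ G rfl _ (isCharacter_character ρ) hf (by rw [e]; rcases h with h | h; nlinarith; exact h.1)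
    (h.imp (by rw [e]; exact id) fun h => h.2) P

end Cfsg.Agent.S0899
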