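import Cfsg.Statements.S0948
import Cfsg.Agent.H7.FSOdd

set_option autoImplicit false
open Cfsg

namespace Cfsg.Agent.S0948

open H5 H7

/-- Let the finite group G have a Sylow 2-subgroup P that is a Klein four-group, suppose all involutions of G are conjugate, and fix a maximal ideal M of the algebraic integers containing 2. Then the principal block consists of exactly four irreducible characters, the principal character and ζ₂, ζ₃, ζ₄, and there is a sign ε such that for every involution z: ζ₂ z = 1, ζ₃ z = ε, ζ₄ z = -1; moreover ζ₂ 1 ≡ 1, ζ₃ 1 ≡ ε, ζ₄ 1 ≡ -1 (mod 4), and 1 + ζ₂ y + ε ζ₃ y - ζ₄ y = 0 for every y of odd order. -/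
theorem result {G : Type*} [Group G] [Finite G] (M : Ideal Cfsg.AlgInt) (hM : Cfsg.IsPModular 2 M) (P : Sylow 2 G) (hP : IsKleinFour (P : Subgroup G)) (hone : ∀ s t : G, orderOf s = 2 → orderOf t = 2 → IsConj s t) : ∃ ζ₂ ζ₃ ζ₄ : Cfsg.IrrCharacter G, ∃ ε : ℤ, (ε = 1 ∨ ε = -1) ∧ (ζ₂ : G → ℂ) ≠ (fun _ => 1) ∧ (ζ₃ : G → ℂ) ≠ (fun _ => 1) ∧ ζ₂ ≠ ζ₃ ∧ ζ₂ ≠ ζ₄ ∧ ζ₃ ≠ ζ₄ ∧ Cfsg.principalBlock M G = {χ : Cfsg.IrrCharacter G | (χ : G → ℂ) = (fun _ => 1) ∨ χ = ζ₂ ∨ χ = ζ₃ ∨ χ = ζ₄} ∧ (∀ z : G, orderOf z = 2 → (ζ₂ : G → ℂ) z = 1 ∧ (ζ₃ : G → ℂ) z = (ε : ℂ) ∧ (ζ₄ : G → ℂ) z = -1) ∧ (4 : ℤ) ∣ (Cfsg.charDegree (ζ₂ : G → ℂ) : ℤ) - 1 ∧ (4 : ℤ) ∣ (Cfsg.charDegree (ζ₃ : G → ℂ) : ℤ) - ε ∧ (4 : ℤ) ∣ (Cfsg.charDegree (ζ₄ : G → ℂ) : ℤ) + 1 ∧ ∀ y : G, Odd (orderOf y) → 1 + (ζ₂ : G → ℂ) y + (ε : ℂ) * (ζ₃ : G → ℂ) y - (ζ₄ : G → ℂ) y = 0 := by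
    haveI : PM 2 M := ⟨hM⟩
    classical
    have h : K4 G := ⟨kl_of_sylIn hP (sylIn_top P), hone⟩
    obtain ⟨h4, -, ε, hε⟩ := h.main (M := M)
    obtain ⟨t, ht⟩ := h.exists_invol
    have h1 : irrOne G ∈ principalBlock M G := irrOne_mem_principalBlock
    have h2 := Set.ncard_diff_singleton_add_one h1
    rw [show (principalBlock M G).ncard = 4 from h4] at h2
    obtain ⟨a, b, c, ab, ac, bc, e⟩ := Set.ncard_eq_three.1 (Nat.succ_injective h2)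
    have key : ∀ a b c, a ≠ b → a ≠ c → b ≠ c → principalBlock M G \ {irrOne G} = {a, b, c} →
        principalBlock M G = {χ : IrrCharacter G | (χ : G → ℂ) = (fun _ => 1) ∨ χ = a ∨ χ = b ∨ χ = c} ∧
        (a ∈ principalBlock M G ∧ b ∈ principalBlock M G ∧ c ∈ principalBlock M G) ∧
        ((a : G → ℂ) ≠ (fun _ => 1) ∧ (b : G → ℂ) ≠ (fun _ => 1) ∧ (c : G → ℂ) ≠ (fun _ => 1)) ∧
        ∀ y : G, Odd (orderOf y) →
          1 + (ε a * (a : G → ℂ) y + (ε b * (b : G → ℂ) y + ε c * (c : G → ℂ) y)) = 0 :=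
      fun a b c ab ac bc e => by
      have k1 : principalBlock M G =
          {χ : IrrCharacter G | (χ : G → ℂ) = (fun _ => 1) ∨ χ = a ∨ χ = b ∨ χ = c} := by
        rw [← Set.insert_diff_self_of_mem h1, e]; ext; simp [coe_eq_one_iff]
      have ka := e.ge (show a ∈ _ by simp)
      have kb := e.ge (show b ∈ _ by simp)
      have kc := e.ge (show c ∈ _ by simp)
      have k2 := And.intro (mt coe_eq_one_iff.1 ka.2)
        (And.intro (mt coe_eq_one_iff.1 kb.2) (mt coe_eq_one_iff.1 kc.2))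
      refine ⟨k1, ⟨ka.1, kb.1, kc.1⟩, k2, fun y hy => ?_⟩
      have k3 := mu_eq_zero_of_dvd (p := 2) (isSat_of_isPBlock (isPBlock_principalBlock (M := M)))
        hy.not_two_dvd_nat ht.symm.dvd
      rw [mu, finsum_four k1 ⟨k2.1, k2.2.1, k2.2.2, ab, ac, bc⟩, (hε a ka.1).2.1 t ht.symm.dvd,
        (hε b kb.1).2.1 t ht.symm.dvd, (hε c kc.1).2.1 t ht.symm.dvd] at k3
      simpa [mul_comm] using k3
    have main : ∀ a b c, a ≠ b → a ≠ c → b ≠ c → principalBlock M G \ {irrOne G} = {a, b, c} →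
        ε a = 1 → ε c = -1 → _ := fun a b c ab ac bc e ha hc => by
      obtain ⟨k1, ⟨ka, kb, kc⟩, k2, k3⟩ := key a b c ab ac bc e
      exact (⟨a, b, c, ε b, (hε b kb).1, k2.1, k2.2.1, ab, ac, bc, k1, fun z hz =>
        ⟨by simp [(hε a ka).2.1 z hz.symm.dvd, ha], (hε b kb).2.1 z hz.symm.dvd,
          by simp [(hε c kc).2.1 z hz.symm.dvd, hc]⟩, ha ▸ (hε a ka).2.2, (hε b kb).2.2,
        by simpa [hc] using (hε c kc).2.2, fun y hy => by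
          have := k3 y hy
          rw [ha, hc] at this
          push_cast at this
          linear_combination this⟩ : ∃ ζ₂ ζ₃ ζ₄ : IrrCharacter G, ∃ ε : ℤ, (ε = 1 ∨ ε = -1) ∧ (ζ₂ : G → ℂ) ≠ (fun _ => 1) ∧ (ζ₃ : G → ℂ) ≠ (fun _ => 1) ∧ ζ₂ ≠ ζ₃ ∧ ζ₂ ≠ ζ₄ ∧ ζ₃ ≠ ζ₄ ∧ principalBlock M G = {χ : IrrCharacter G | (χ : G → ℂ) = (fun _ => 1) ∨ χ = ζ₂ ∨ χ = ζ₃ ∨ χ = ζ₄} ∧ (∀ z : G, orderOf z = 2 → (ζ₂ : G → ℂ) z = 1 ∧ (ζ₃ : G → ℂ) z = (ε : ℂ) ∧ (ζ₄ : G → ℂ) z = -1) ∧ (4 : ℤ) ∣ (charDegree (ζ₂ : G → ℂ) : ℤ) - 1 ∧ (4 : ℤ) ∣ (charDegree (ζ₃ : G → ℂ) : ℤ) - ε ∧ (4 : ℤ) ∣ (charDegree (ζ₄ : G → ℂ) : ℤ) + 1 ∧ ∀ y : G, Odd (orderOf y) → 1 + (ζ₂ : G → ℂ) y + (ε : ℂ) * (ζ₃ : G → ℂ) y - (ζ₄ : G → ℂ) y = 0)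
    obtain ⟨-, ⟨ka, kb, kc⟩, -, k3⟩ := key a b c ab ac bc e
    have k4 := k3 1 (by simp)
    simp only [← H8.coe_deg] at k4
    have k5 : (1 + (ε a * charDegree (a : G → ℂ) + (ε b * charDegree (b : G → ℂ) +
      ε c * charDegree (c : G → ℂ))) : ℤ) = 0 := by exact_mod_cast k4
    have pa := H8.deg_pos a
    have pb := H8.deg_pos b
    have pc := H8.deg_pos c
    rcases (hε a ka).1 with ha | ha <;> rcases (hε b kb).1 with hb | hb <;>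
      rcases (hε c kc).1 with hc | hc
    · rw [ha, hb, hc] at k5; omega
    · exact main a b c ab ac bc e ha hc
    · exact main a c b ac ab bc.symm (by rw [e]; ext; simp; tauto) ha hb
    · exact main a b c ab ac bc e ha hc
    · exact main b c a bc ab.symm ac.symm (by rw [e]; ext; simp; tauto) hb ha
    · exact main b a c ab.symm bc ac (by rw [e]; ext; simp; tauto) hb hc
    · exact main c a b ac.symm bc.symm ab (by rw [e]; ext; simp; tauto) hc hb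
    · rw [ha, hb, hc] at k5; omega

end Cfsg.Agent.S0948
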