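import Cfsg.Statements.S4341
import Cfsg.Agent.H1.Harv1

set_option autoImplicit false
open Cfsg

namespace Cfsg.Agent.S4341

open H18 Subgroup

/-- Let K be a normal subgroup of a finite group G, p a prime and P a Sylow p-subgroup of G; let N be the normalizer of P ∩ K inside the subgroup PK. Then the number of Sylow p-subgroups of G equals the product of the numbers of Sylow p-subgroups of G/K, of K, and of N/(P ∩ K). (The normality of P ∩ K in N, which always holds, is assumed as a hypothesis so that the quotient can be formed.) -/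
theorem result {G : Type*} [Group G] [Finite G]
    (p : ℕ) [Fact p.Prime] (K : Subgroup G) [K.Normal] (P : Sylow p G) (N : Subgroup G)
    (hN : N = ((P : Subgroup G) ⊔ K) ⊓ Subgroup.normalizer (((P : Subgroup G) ⊓ K : Subgroup G) : Set G))
    [hn : (((P : Subgroup G) ⊓ K).subgroupOf N).Normal] :
    Nat.card (Sylow p G) =
      Nat.card (Sylow p (G ⧸ K)) * Nat.card (Sylow p K) * Nat.card (Sylow p (N ⧸ ((P : Subgroup G) ⊓ K).subgroupOf N)) := by
  have hp : p.Prime := Fact.out
  have hP := hall_sylow_top hp P
  have l : (P : Subgroup G) ≤ N := hN ▸ le_inf le_sup_left (norm_inf le_N norm_of_normal)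
  have e : mker (D := N) (QuotientGroup.mk' (((P : Subgroup G) ⊓ K).subgroupOf N)) ≤ P := fun x hx => by
    obtain ⟨a, b⟩ := mem_mker.1 hx
    rw [mfun_of_mem a] at b
    exact (mem_subgroupOf.1 ((QuotientGroup.eq_one_iff _).1 b)).1
  rw [H1.card_sylow_top hp hP, ← relIndex_top_right, H1.relIndex_N_sylow_three hp (nml_top (K := K)) hP,
    H1.card_sylow_mim (f := topq K) (fun z => by obtain ⟨a, rfl⟩ := QuotientGroup.mk_surjective z; exact ⟨⟨a, trivial⟩, rfl⟩)
      hp hP, mker_topq, H1.card_sylow_eq hp (hP.inf_nml nml_top),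
    H1.card_sylow_mim (QuotientGroup.mk'_surjective _) hp (hP.of_le l le_top), sup_eq_left.2 e, hN]

end Cfsg.Agent.S4341
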