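import Cfsg.Statements.S4303
import Cfsg.Agent.H1.Harv1
import Cfsg.Agent.S4341

set_option autoImplicit false
universe u
open Cfsg

namespace Cfsg.Agent.S4303

open H18 Subgroup

/-- For a finite group `G` and a prime `p`, the number of Sylow `p`-subgroups of `G` is a product of natural numbers each of which is either a prime power congruent to 1 modulo `p` or the number of Sylow `p`-subgroups of some finite simple group. -/
theorem result {G : Type u} [Group G] [Finite G]
    (p : ℕ) [Fact p.Prime] :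
    ∃ l : List ℕ, l.prod = Nat.card (Sylow p G) ∧
      ∀ m ∈ l, (IsPrimePow m ∧ m % p = 1) ∨
        ∃ (S : Type u) (_ : Group S) (_ : Finite S), IsSimpleGroup S ∧ m = Nat.card (Sylow p S) := by
  have hp : p.Prime := Fact.out
  refine H1.card_induction (P := fun G _ _ => ∃ l : List ℕ, l.prod = Nat.card (Sylow p G) ∧
      ∀ m ∈ l, (IsPrimePow m ∧ m % p = 1) ∨
        ∃ (S : Type u) (_ : Group S) (_ : Finite S), IsSimpleGroup S ∧ m = Nat.card (Sylow p S)) (fun G _ _ ih => ?_) G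
  by_cases hs : IsSimpleGroup G
  · exact ⟨[Nat.card (Sylow p G)], by simp, fun m hm => Or.inr ⟨G, _, ‹_›, hs, by simpa using hm⟩⟩
  obtain ⟨P⟩ : Nonempty (Sylow p G) := inferInstance
  have hP := hall_sylow_top hp P
  by_cases h : ∃ K : Subgroup G, K.Normal ∧ (P : Subgroup G) ⊓ K = ⊥ ∧ (P : Subgroup G) ⊔ K = ⊤
  · obtain ⟨K, _, h1, h2⟩ := h
    have hK : PiGrp {p}ᶜ K := (h1 ▸ hP.inf_nml nml_top).compl_of_eq_bot
    have cop : H1.Cop P K := H1.cop_of_pi norm_of_normal hP.pi hK (Or.inl hP.pi.solv)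
    rw [H1.card_sylow_top hp hP, ← relIndex_top_right, H1.relIndex_N_mul_sylow hp (nml_top (K := K)) hP.pi le_top hK.relIndex,
      h2, relIndex_eq_one_iff.2 le_N, one_mul, ← relIndex_inf_left, cop.inf_N, relIndex_inf_left]
    set n := C((P : Subgroup G)).relIndex K
    have h0 : n ≠ 0 := H18.relIndex_ne_zero
    refine ⟨n.primeFactors.toList.map fun q => q ^ n.factorization q, ?_, fun m hm => Or.inl ?_⟩
    · rw [Finset.prod_map_toList]; exact Nat.prod_factorization_pow_eq_self h0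
    obtain ⟨q, hq, rfl⟩ := List.mem_map.1 hm
    obtain ⟨a, b, -⟩ := Nat.mem_primeFactors.1 (Finset.mem_toList.1 hq)
    obtain ⟨Q, c, d⟩ := cop.exists_sylow a
    refine ⟨⟨q, _, a.prime, a.factorization_pos_of_dvd h0 b, rfl⟩, ?_⟩
    rw [H1.ordProj_relIndex_cent cop a c d,
      H1.relIndex_cent_modEq hp hP.pi d ((piNat_compl_iff hp).1 (hK.of_le c.le)), Nat.mod_eq_of_lt hp.one_lt]
  have : Nontrivial G := by
    by_contra e
    rw [not_nontrivial_iff_subsingleton] at e
    exact h ⟨⊥, inferInstance, Subsingleton.elim _ _, Subsingleton.elim _ _⟩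
  obtain ⟨K, _, h1, h2⟩ : ∃ K : Subgroup G, K.Normal ∧ K ≠ ⊥ ∧ K ≠ ⊤ := by
    by_contra! e
    exact hs ⟨fun K a => or_iff_not_imp_left.2 (e K a)⟩
  set N := ((P : Subgroup G) ⊔ K) ⊓ N(((P : Subgroup G) ⊓ K : Subgroup G)) with hN
  have l : (P : Subgroup G) ⊓ K ⊴ N := ⟨le_inf (inf_le_left.trans le_sup_left) le_N, inf_le_right⟩
  haveI := l.subgroupOf_normal
  obtain ⟨l1, a1, b1⟩ := ih _ (H1.card_quotient_lt h1)
  obtain ⟨l2, a2, b2⟩ := ih _ (H1.card_lt_of_ne_top h2)
  obtain ⟨l3, a3, b3⟩ := ih (N ⧸ ((P : Subgroup G) ⊓ K).subgroupOf N) (by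
    by_cases e : (P : Subgroup G) ⊓ K = ⊥
    · exact (Nat.le_of_dvd Nat.card_pos (card_quotient_dvd_card _)).trans_lt (H1.card_lt_of_ne_top fun d =>
        h ⟨K, ‹_›, e, eq_top_iff.2 (d.ge.trans inf_le_left)⟩)
    · exact (H1.card_quotient_lt fun d => e (by rwa [subgroupOf_eq_bot, disjoint_iff, inf_eq_left.2 l.le] at d)).trans_le
        (card_le_card_group _))
  refine ⟨l1 ++ l2 ++ l3, by rw [List.prod_append, List.prod_append, a1, a2, a3, S4341.result p K P N hN], fun m hm => ?_⟩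
  simp only [List.mem_append] at hm
  rcases hm with (hm | hm) | hm
  exacts [b1 m hm, b2 m hm, b3 m hm]

end Cfsg.Agent.S4303
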