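import Cfsg.Statements.S1010
import Cfsg.Agent.H10.Sieve
import Cfsg.Agent.S4303

set_option autoImplicit false
open Cfsg

namespace Cfsg.Agent.S1010

open H5 H10 Subgroup
open scoped commutatorElement

theorem simple {G : Type*} [Group G] [Finite G] [IsSimpleGroup G] : Nat.card (Sylow 5 G) ≠ 21 := by
  intro h
  classical
  have : Fact (Nat.Prime 5) := ⟨by norm_num⟩
  have := Fintype.ofFinite G
  have h1 : ∀ P Q : Sylow 5 G, (Q : Subgroup G).relIndex P ∣ 5 := fun P Q => by
    obtain ⟨j, hj⟩ := relIndex_sylow_eq_pow P Q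
    have : 𝐍[(Q : Subgroup G)].relIndex P ≤ 21 := by
      rw [← h, card_sylow_eq_index Q, ← relIndex_top_right]
      exact relIndex_le_of_le_right le_top (by simpa using FiniteIndex.index_ne_zero)
    rw [← inf_relIndex_right, inf_comm, show _ ⊓ 𝐍[(Q : Subgroup G)] = _ from
      P.isPGroup'.inf_normalizer_sylow Q, inf_comm, inf_relIndex_right, hj] at this
    rw [hj]
    rcases j with _ | _ | j
    · simp
    · simp
    · have := Nat.pow_le_pow_right (show 0 < 5 by norm_num) (show 2 ≤ j + 1 + 1 by omega); omega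
  obtain ⟨P⟩ : Nonempty (Sylow 5 G) := inferInstance
  have h2 : ∀ Q : Sylow 5 G, ¬ (Q : Subgroup G).Normal := fun Q hQ => by
    have := Sylow.unique_of_normal Q hQ
    rw [Nat.card_unique] at h; omega
  have h3 : (⨅ R : Sylow 5 G, (R : Subgroup G)) = ⊥ := by
    refine (IsSimpleGroup.eq_bot_or_eq_top_of_normal _ ⟨fun x hx g => ?_⟩).resolve_right fun e => ?_
    · rw [mem_iInf] at hx ⊢
      intro R
      have := hx (g⁻¹ • R)
      rw [Sylow.coe_subgroup_smul, mem_pointwise_smul_iff_inv_smul_mem] at this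
      simpa using this
    · exact h2 P (top_le_iff.1 (e.ge.trans (iInf_le _ P)) ▸ inferInstance)
  have h4 : ∀ Q : Sylow 5 G, IsMulCommutative (Q : Subgroup G) := fun Q => ⟨⟨fun a b => by
    refine commutatorElement_eq_one_iff_mul_comm.1 (Subtype.ext ((h3.le (mem_iInf.2 fun R => ?_))))
    rcases (Nat.dvd_prime (by norm_num)).1 (h1 Q R) with e | e
    · exact relIndex_eq_one.1 e ⁅a, b⁆.2
    · have : ((R : Subgroup G).subgroupOf Q).Normal := by
        apply normal_of_index_eq_minFac_card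
        obtain ⟨k, hk⟩ := Q.isPGroup'.exists_card_eq
        have := ((R : Subgroup G).subgroupOf Q).index_dvd_card
        rw [hk] at this ⊢
        rcases k with _ | k
        · rw [show index _ = 5 from e] at this; omega
        · rw [Nat.Prime.pow_minFac (by norm_num) k.succ_ne_zero]; exact e
      have := isCyclic_of_prime_card (α := Q ⧸ (R : Subgroup G).subgroupOf Q) (p := 5) e
      exact mem_subgroupOf.1 ((QuotientGroup.eq_one_iff _).1 (by
        rw [← QuotientGroup.mk'_apply, map_commutatorElement, commutatorElement_eq_one_iff_mul_comm]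
        exact mul_comm' _ _))⟩⟩
  obtain ⟨S, hS⟩ := brodkey h4 P
  have hP := card_inf_mul_relIndex (S : Subgroup G) P
  rw [hS, h3, card_bot, one_mul] at hP
  replace hP : Nat.card (P : Subgroup G) = 5 := ((Nat.dvd_prime (by norm_num)).1
    (hP ▸ h1 P S)).resolve_left fun e => h2 P (card_eq_one.1 e ▸ inferInstance)
  have hG : ¬ IsMulCommutative G := fun _ => h2 P inferInstance
  have hG' := commutator_eq_top_of_simple hG
  obtain ⟨e, t, he, ⟨D⟩⟩ := exists_PB_of_perfect hG' P hP
  have h5 : ∀ χ : IrrCharacter G, χ ≠ irrOne G → χ ∈ D.X ∨ χ ∈ D.Y →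
      charDegree (χ : G → ℂ) < 10 → Nat.card G = 21 * (e * 5) := fun χ h1 h2 h3 => h ▸
    (D.sc_of_faithful hG' h2 h3
      (χ.2.charKer_eq_bot_of_isSimpleGroup fun e => h1 (Subtype.ext e))).card_G D.he
  have h6 := D.te
  have h7 := D.index_C
  rw [h] at h7
  have h8 := h7 ▸ D.dvdY
  have h9 := D.f_mod
  have h10 : e = 2 ∨ e = 4 := by
    have : e ≤ 4 := Nat.le_of_dvd (by norm_num) ⟨t, by rw [mul_comm]; omega⟩
    interval_cases e <;> omega
  have h11 : ∀ χ : IrrCharacter G, χ ≠ irrOne G → χ ∈ D.X ∨ χ ∈ D.Y →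
      10 ≤ charDegree (χ : G → ℂ) := fun χ h1 h2 => not_lt.1 fun h3 =>
    not_kills hG 21 1 7 (by rw [h5 χ h1 h2 h3]; rcases h10 with rfl | rfl <;> decide +kernel)
  have h12 := D.deg_eq
  rw [← Finset.add_sum_erase _ _ D.one_mem, D.δ_one, H7.charDegree_eq (n := 1) (by simp)] at h12
  have h13 : (7 : ℤ) ∣ ∑ χ ∈ D.X.erase (irrOne G), D.δ χ * charDegree (χ : G → ℂ) :=
    Finset.dvd_sum fun χ hχ => by
      obtain ⟨a1, a2⟩ := Finset.mem_erase.1 hχ
      have a3 := h7 ▸ D.dvdX a2
      have a4 := D.degX χ a2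
      have a5 := h11 χ a1 (.inl a2)
      generalize charDegree (χ : G → ℂ) = d at *
      refine Dvd.dvd.mul_left (Int.natCast_dvd_natCast.2 (?_ : 7 ∣ d)) _
      rcases h10 with rfl | rfl <;> have := Nat.le_of_dvd (by norm_num) a3 <;>
        rcases D.δ_sign χ a2 with b | b <;> rw [b, Int.ModEq] at a4 <;> interval_cases d <;> omega
  obtain ⟨θ, hθ⟩ := D.Y_nonempty
  have h14 := D.degY θ hθ ▸ h11 θ (D.ne_one_of_mem_Y hθ) (.inr hθ)
  have h15 : 7 ∣ D.f := by
    generalize D.f = d at *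
    rcases D.ε_sign with b | b <;> rw [b, Int.ModEq] at h9 <;> rcases h10 with rfl | rfl <;>
      have := Nat.le_of_dvd (by norm_num) h8 <;> interval_cases d <;> omega
  have := (Int.natCast_dvd_natCast.2 h15).mul_left D.ε
  omega

/-- No finite group has exactly twenty-one Sylow 5-subgroups. -/
theorem result {G : Type*} [Group G] [Finite G] : Nat.card (Sylow 5 G) ≠ 21 := by
  intro h
  have : Fact (Nat.Prime 5) := ⟨by norm_num⟩
  obtain ⟨l, h1, h2⟩ := S4303.result (G := G) 5
  rw [h] at h1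
  by_cases h3 : 21 ∈ l
  · rcases h2 _ h3 with ⟨h4, -⟩ | ⟨S, _, _, _, h4⟩
    · exact absurd ((isPrimePow_iff_unique_prime_dvd.1 h4).unique (y₁ := 7) (y₂ := 3)
        (by norm_num) (by norm_num)) (by norm_num)
    · exact simple h4.symm
  rw [List.prod_eq_one fun m hm => ?_] at h1
  · omega
  have h4 : m % 5 = 1 := by
    rcases h2 _ hm with ⟨-, h4⟩ | ⟨S, _, _, _, rfl⟩
    · exact h4
    · exact card_sylow_modEq_one 5 S
  have h5 := h1 ▸ List.dvd_prod hm
  have := Nat.le_of_dvd (by norm_num) h5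
  have : m ≠ 21 := fun e => h3 (e ▸ hm)
  interval_cases m <;> omega

end Cfsg.Agent.S1010
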