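import Cfsg.Statements.S1065
import Cfsg.Agent.H12.Ord

set_option autoImplicit false
open Cfsg

namespace Cfsg.Agent.S1065
open H12 H13 Cfsg.Lie

/-- `|E₈(q)| = q¹²⁰ ∏_{d ∈ {2,8,12,14,18,20,24,30}} (q^d - 1)`. -/
theorem result {F : Type*} [Field F] [Fintype F] {q : ℕ} (hq : Fintype.card F = q) : Nat.card ↥(Cfsg.Lie.chevE8.group F) = q ^ 120 * (q ^ 2 - 1) * (q ^ 8 - 1) * (q ^ 12 - 1) * (q ^ 14 - 1) * (q ^ 18 - 1) * (q ^ 20 - 1) * (q ^ 24 - 1) * (q ^ 30 - 1) := by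
  have h := card_group (D := chevE8) (F := F)
  rw [smithE8.card_ker, Nat.card_eq_fintype_card, hq] at h
  have h1 : 1 ≤ q := hq ▸ Fintype.card_pos
  replace h : 1 * Nat.card (chevE8.group F) = q ^ 120 * ((q - 1) ^ 8 * poin (Set.univ : Set (I chevE8)) q) := by
    refine Eq.trans ?_ h; congr 1; exact (Fin.prod_univ_eight _).trans (by simp [sq]) |>.symm
  rw [← one_mul (Nat.card _), h]
  zify [h1, fun k => Nat.one_le_pow k q h1]
  rw [poinE8]; ring

end Cfsg.Agent.S1065
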