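import Cfsg.Statements.S1153
import Cfsg.Agent.H13.ReeInv

set_option autoImplicit false
open Cfsg

namespace Cfsg.Agent.S1153

open H13 H13.Ree MulAction

/-- In the small Ree group ²G₂(q), q = 3^(2m+1), realised as G¹ inside the Chevalley group G₂ over the field with q elements, with `B¹ = G¹ ∩ B`: in the action of `G¹` on the cosets of `B¹`, the joint stabiliser of any three distinct cosets has order at most 2, and for some three distinct cosets it has order exactly 2. -/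
theorem result {K : Type*} [Field K] [Fintype K] {m : ℕ} (hK : Fintype.card K = 3 ^ (2 * m + 1)) :
    (∀ x y z : ↥(Cfsg.Lie.twistedG2 K (3 ^ m)) ⧸ ((Cfsg.Lie.chevG2.borelSubgroup K ⊓ Cfsg.Lie.twistedG2 K (3 ^ m))).subgroupOf (Cfsg.Lie.twistedG2 K (3 ^ m)), x ≠ y → x ≠ z → y ≠ z →
        Nat.card ↥(MulAction.stabilizer ↥(Cfsg.Lie.twistedG2 K (3 ^ m)) x ⊓ MulAction.stabilizer ↥(Cfsg.Lie.twistedG2 K (3 ^ m)) y ⊓ MulAction.stabilizer ↥(Cfsg.Lie.twistedG2 K (3 ^ m)) z) ≤ 2) ∧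
      ∃ x y z : ↥(Cfsg.Lie.twistedG2 K (3 ^ m)) ⧸ ((Cfsg.Lie.chevG2.borelSubgroup K ⊓ Cfsg.Lie.twistedG2 K (3 ^ m))).subgroupOf (Cfsg.Lie.twistedG2 K (3 ^ m)), x ≠ y ∧ x ≠ z ∧ y ≠ z ∧
        Nat.card ↥(MulAction.stabilizer ↥(Cfsg.Lie.twistedG2 K (3 ^ m)) x ⊓ MulAction.stabilizer ↥(Cfsg.Lie.twistedG2 K (3 ^ m)) y ⊓ MulAction.stabilizer ↥(Cfsg.Lie.twistedG2 K (3 ^ m)) z) = 2 := by
  haveI : H13.Ree.IsRee K m := ⟨hK⟩
  rw [B_eq]
  have h2 : Nat.card (Subgroup.zpowers (j K m)) = 2 := by rw [Nat.card_zpowers, orderOf_j]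
  have key : ∀ z : Ω K m, ptInf K m ≠ z → pt m 0 0 0 ≠ z →
      stabilizer (R K m) (ptInf K m) ⊓ stabilizer (R K m) (pt m (0 : K) 0 0) ⊓ stabilizer (R K m) z ≤
        Subgroup.zpowers (j K m) := by
    rintro z h1 h2 g ⟨h3, h4⟩
    obtain ⟨s, rfl⟩ := mem_H.1 (mem_H_iff.2 h3)
    rw [mem_zpowers_j]
    by_contra hn
    push Not at hn
    rcases fix_h (fun e => hn.1 (by rw [e, h_one])) (fun e => hn.2 (by rw [e])) h4 with e | e
    · exact h1 e.symm
    · exact h2 e.symm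
  refine ⟨fun x y z hxy hxz hyz => ?_, ptInf K m, pt m 0 0 0, pt m 0 1 0, (pt_ne_ptInf _ _ _).symm,
    (pt_ne_ptInf _ _ _).symm, by simp [pt_inj], ?_⟩
  · obtain ⟨g, rfl, rfl⟩ := exists_smul_eq_pair hxy
    obtain ⟨z, rfl⟩ := (MulAction.bijective g).2 z
    rw [stabilizer_smul_eq_stabilizer_map_conj, stabilizer_smul_eq_stabilizer_map_conj,
      stabilizer_smul_eq_stabilizer_map_conj, ← Subgroup.map_inf _ _ _ (MulAut.conj g).injective,
      ← Subgroup.map_inf _ _ _ (MulAut.conj g).injective, Subgroup.card_map_of_injective (MulAut.conj g).injective, ← h2]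
    exact Subgroup.card_le_of_le (key z (fun e => hxz (by rw [e])) fun e => hyz (by rw [e]))
  · rw [← h2]
    congr 2
    refine le_antisymm (key _ (pt_ne_ptInf _ _ _).symm (by simp [pt_inj])) (Subgroup.zpowers_le.2 ⟨⟨?_, ?_⟩, ?_⟩)
    · exact h_smul_ptInf _
    · simpa using j_smul_pt (m := m) (0 : K) 0 0
    · simpa using j_smul_pt (m := m) (0 : K) 1 0

end Cfsg.Agent.S1153
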