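import Cfsg.Statements.S1164
import Cfsg.Agent.H24.CT
import Cfsg.Agent.H12.All

set_option autoImplicit false
open Cfsg

namespace Cfsg.Agent.S1164

open H24 H12 Cfsg.Lie

/-- Curtis–Tits: for the Chevalley datum of type D₄, F₄, E₆, E₇ or E₈ and a field `K` with at least four elements, there is an isomorphism from the group presented by the Curtis–Tits relators (additivity, the commutator relators and the `h̄`-relators only for roots inside a common rank-two subsystem spanned by two fundamental roots, all other generators killed) onto the group of Steinberg's presentation, sending each generator `x̄_r(t)` with `r` in such a subsystem to `x̄_r(t)`. -/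
theorem result (D : Cfsg.Lie.ChevalleyDatum)
    (hD : D ∈ [Cfsg.Lie.chevD4, Cfsg.Lie.chevF4, Cfsg.Lie.chevE6, Cfsg.Lie.chevE7, Cfsg.Lie.chevE8])
    (K : Type*) [Field K] [Fintype K] (hK : 4 ≤ Fintype.card K) :
    ∃ e : D.CurtisTitsGroup K ≃* D.SteinbergGroup K,
      ∀ (i j r : ℕ) (t : K), D.InRankTwoSub i j r →
        e (PresentedGroup.mk (D.curtisTitsRels K) (D.stX r t)) = D.stGen K r t := by
  classical
  obtain ⟨G⟩ := good_of_mem (D := D) (by simp only [List.mem_cons] at hD ⊢; tauto)
  let y : Φ D → K → D.CurtisTitsGroup K := fun r t => PresentedGroup.of (r, t)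
  obtain ⟨S, hS⟩ := curtis_tits (a2n_of_mem hD) y
    (fun i j r hr t u => by
      have := PresentedGroup.one_of_mem (rels := D.curtisTitsRels K)
        (Or.inl (Or.inl (Or.inr ⟨i, j, r, t, u, inRankTwoSub_iff.2 hr, rfl⟩)))
      simp only [map_mul, map_inv, stX_eq, mul_inv_eq_one] at this
      exact this.symm)
    (fun i j r s hr hs h1 h2 t u => by
      have := PresentedGroup.one_of_mem (rels := D.curtisTitsRels K)
        (Or.inl (Or.inr ⟨i, j, r, s, t, u, inRankTwoSub_iff.2 hr, inRankTwoSub_iff.2 hs, fun h => h1 (Fin.ext h),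
          fun h => h2 (Fin.ext h), rfl⟩))
      simp only [map_mul, map_inv, stX_eq, mul_inv_eq_one, stWord_eq, toΦ_commWord, map_wprod] at this
      rw [show wprod y (cword r s t u) = _ from this.symm]
      simp only [y, PresentedGroup.of]; group)
  have lft : ∀ i j r : ℕ, D.InRankTwoSub i j r → ∃ (i' j' : I D) (r' : Φ D), r = r' ∧ InJ {i', j'} r' ∧ i = i' ∧ j = j' :=
    fun i j r h => ⟨⟨i, h.2.1⟩, ⟨j, h.2.2.1⟩, ⟨r, h.1⟩, rfl, inRankTwoSub_iff.1 h, rfl, rfl⟩
  let z : Φ D × K → D.SteinbergGroup K := fun p => if ∃ i j, InJ {i, j} p.1 then (stS D K).x p.1 p.2 else 1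
  have hz : ∀ i j r, InJ {i, j} r → ∀ t, z (r, t) = (stS D K).x r t := fun i j r hr t => if_pos ⟨i, j, hr⟩
  have hn : ∀ i j (r : Φ D), InJ {i, j} r → ∀ t : Kˣ, FreeGroup.lift z (D.stN r (t : K)) = (stS D K).n r t :=
    fun i j r hr t => by
      have e : D.neg r = (ng r : Φ D) := rfl
      simp [ChevalleyDatum.stN, ChevalleyDatum.stWord, ChevalleyDatum.nWord, e, stX_eq, hz i j r hr,
        hz i j _ (inJ_ng hr), StSys.n, mul_assoc, -ng_val]
  have hh : ∀ i j (r : Φ D), InJ {i, j} r → ∀ t : Kˣ, FreeGroup.lift z (D.stH r (t : K)) = (stS D K).h r t :=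
    fun i j r hr t => by
      rw [StSys.h, ← hn i j r hr, ← hn i j r hr, ← map_mul]
      simp [ChevalleyDatum.stN, ChevalleyDatum.stH, ChevalleyDatum.stWord, ChevalleyDatum.hWord]
  have hrel : ∀ g ∈ D.curtisTitsRels K, FreeGroup.lift z g = 1 := by
    rintro g (((⟨r, t, hr, h, rfl⟩ | ⟨i, j, r, t, u, hr, rfl⟩) | ⟨i, j, r, s, t, u, hr, hs, h1, h2, rfl⟩) |
      ⟨i, j, r, t, u, hr, h1, h2, rfl⟩)
    · lift r to Φ D using hr
      rw [stX_eq, FreeGroup.lift_apply_of]
      exact if_neg fun ⟨i, j, h'⟩ => h i j (inRankTwoSub_iff.2 h')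
    · obtain ⟨i, j, r, rfl, hr, -⟩ := lft i j r hr
      simp [stX_eq, hz i j r hr, (stS D K).add]
    · obtain ⟨i, j, r, rfl, -, rfl, rfl⟩ := lft i j r hr
      have hr := inRankTwoSub_iff.1 hr
      lift s to Φ D using hs.1
      have hs := inRankTwoSub_iff.1 hs
      have n1 : s ≠ r := fun h => h1 (congrArg _ h)
      have n2 : s ≠ ng r := fun h => h2 (congrArg _ h)
      simp only [map_mul, map_inv, stX_eq, stWord_eq, toΦ_commWord, map_wprod, FreeGroup.lift_apply_of, mul_inv_eq_one,
        hz i j r hr, hz i j s hs]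
      rw [mul_assoc, (stS D K).comm n1 n2]
      have : wprod (fun a b => z (a, b)) (cword r s t u) = wprod (stS D K).x (cword r s t u) := by
        refine congrArg List.prod (List.map_congr_left fun p hp => ?_)
        obtain ⟨c, hc, rfl⟩ := List.mem_map.1 hp
        exact hz i j _ (closed_inJ _ r hr s hs c.1 ⟨_, _, cterms_spec n1 n2 hc⟩) _
      rw [this]; group
    · obtain ⟨i, j, r, rfl, hr, -⟩ := lft i j r hr
      lift t to Kˣ using h1.isUnit
      lift u to Kˣ using h2.isUnit
      rw [← Units.val_mul]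
      simp only [map_mul, map_inv, hh i j r hr, r3_st r t u, mul_inv_cancel]
  let f : D.CurtisTitsGroup K →* D.SteinbergGroup K := PresentedGroup.toGroup hrel
  have hf : ∀ p, f (PresentedGroup.of p) = z p := fun p => PresentedGroup.toGroup.of hrel
  have h3 := r3_of_finite S
  refine ⟨f.toMulEquiv h3.lift (PresentedGroup.ext fun p => ?_) ?_, fun i j r t h => ?_⟩
  · obtain ⟨r, t⟩ := p
    simp only [MonoidHom.comp_apply, hf, MonoidHom.id_apply]
    by_cases h : ∃ i j, InJ {i, j} r
    · obtain ⟨i, j, h⟩ := h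
      rw [hz i j r h, h3.lift_x, hS i j r h]
    · have := PresentedGroup.one_of_mem (rels := D.curtisTitsRels K)
        (Or.inl (Or.inl (Or.inl ⟨r, t, r.2, fun i j h' => h (by
          obtain ⟨i, j, r', e, hr, -⟩ := lft i j r h'
          exact ⟨i, j, Fin.ext e ▸ hr⟩), rfl⟩)))
      rw [stX_eq] at this
      rw [show z (r, t) = 1 from if_neg h, map_one]; exact this.symm
  · have key : ∀ i r, InJ {i, i} r → ∀ t, (stS D K).x r t ∈ (f.comp h3.lift).eqLocus (MonoidHom.id _) :=
      fun i r h t => by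
        change f (h3.lift _) = _
        rw [h3.lift_x, hS i i r h, hf, hz i i r h]; rfl
    have := (stS D K).T_le_of_sim (fun i => key i _ (inJ_sim.2 (Or.inl rfl)))
      fun i => key i _ (inJ_ng (inJ_sim.2 (Or.inl rfl)))
    rw [stS_T] at this
    exact MonoidHom.ext fun g => this trivial
  · obtain ⟨i, j, r, rfl, hr, -⟩ := lft i j r h
    rw [stX_eq, stGen_eq, ← hz i j r hr]; exact hf _

end Cfsg.Agent.S1164
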