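import Cfsg.Statements.S1220
import Cfsg.Agent.H18.Bender

set_option autoImplicit false
open Cfsg

namespace Cfsg.Agent.S1220

/-- Let H be a strongly embedded subgroup of the finite group G. Then either G acts doubly transitively on the cosets of H (H permutes transitively the cosets gH with g ∉ H), or every Sylow 2-subgroup of G is cyclic or generalized quaternion and G = O(G)H. -/
theorem result {G : Type*} [Group G] [Finite G] (H : Subgroup G) (hH : Cfsg.IsStronglyEmbedded H) : (∀ g₁ g₂ : G, g₁ ∉ H → g₂ ∉ H → ∃ h ∈ H, g₂⁻¹ * (h * g₁) ∈ H) ∨ ((∀ S : Sylow 2 G, IsCyclic S ∨ ∃ m : ℕ, 1 ≤ m ∧ Nonempty ((S : Subgroup G) ≃* QuaternionGroup (2 ^ m))) ∧ Cfsg.oddCore G ⊔ H = ⊤) := by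
  open H18 H9 Subgroup in
  rcases le_or_gt (prank 2 (⊤ : Subgroup G)) 1 with h1 | h2
  · refine .inr ⟨fun S => ?_, by rw [oddCore, pPrimeCore_eq Nat.prime_two]; exact (sein_top.2 hH).sup_eq h1⟩
    refine (isCyclic_or_qData S.isPGroup' fun v hv w hw v2 w2 => ?_).imp id
      fun ⟨k, x, y, h⟩ => ⟨_, by omega, h.nonempty_equiv⟩
    obtain ⟨v2, v1⟩ := orderOf_eq_two.1 v2
    obtain ⟨w2, w1⟩ := orderOf_eq_two.1 w2
    have pS := piGrp_of_isPGroup Nat.prime_two S.isPGroup'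
    obtain ⟨z, hz, z2, z1⟩ := H5.exists_inv_of_even (even_iff_two_dvd.2
      (pS.inf_left.dvd_card (pS.nil.Z_ne_bot (ne_bot_of_mem hv v1))))
    have k : ∀ v ∈ (S : Subgroup G), v * v = 1 → v ≠ 1 → v = z := fun v hv v2 v1 => by_contra fun e =>
      h1.not_gt (H5.prank_of_pair (mem_top v) (mem_top z) v1 z1 e v2 z2 (mem_C.1 hz.2 v hv))
    rw [k v hv v2 v1, k w hw w2 w1]
  · refine .inl fun g₁ g₂ h1 h2' => ?_
    have h := SA.of_se hH
    obtain ⟨u, hu⟩ := h.inv ((1 : G) : G ⧸ H)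
    obtain ⟨S, hS⟩ := h.bq hu (mem_top u) h2 fun e => hH.1 (top_le_iff.1 (St_one (H := H) ▸ e))
    have k : ∀ g : G, g ∉ H → g • ((1 : G) : G ⧸ H) ≠ ((1 : G) : G ⧸ H) := fun g hg e => hg ((St_one (H := H)).le e)
    obtain ⟨y, hy, e⟩ := hS.tr g₁ (mem_top _) g₂ (mem_top _) (k _ h1) (k _ h2')
    exact ⟨y, (St_one (H := H)).le (hS.le hy).2, (St_one (H := H)).le (MulAction.mem_stabilizer_iff.2 (by
      rw [mul_smul, mul_smul, e, inv_smul_smul]))⟩

end Cfsg.Agent.S1220
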