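import Cfsg.Statements.S1312
import Cfsg.Agent.H17.Bender

set_option autoImplicit false
open Cfsg

namespace Cfsg.Agent.S1312

/-- Let G be a non-abelian finite simple group and M ≠ N maximal subgroups of G with F*(M) ≤ N and F*(N) ≤ M. Then there is a prime p such that F*(M) and F*(N) are both p-groups. -/
theorem result {G : Type*} [Group G] [Finite G] [IsSimpleGroup G] (hna : ¬ IsMulCommutative G) (M N : Subgroup G) (hM : IsCoatom M) (hN : IsCoatom N) (hMN : M ≠ N) (h1 : (Cfsg.generalizedFittingSubgroup ↥M).map M.subtype ≤ N) (h2 : (Cfsg.generalizedFittingSubgroup ↥N).map N.subtype ≤ M) : ∃ p : ℕ, p.Prime ∧ IsPGroup p ↥(Cfsg.generalizedFittingSubgroup ↥M) ∧ IsPGroup p ↥(Cfsg.generalizedFittingSubgroup ↥N) := by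
  rcases H17.bender_max (H17.prim_of_coatom hM N) (H17.prim_of_coatom hN M) (.self M) (.self N) h1 h2 with
    h | ⟨p, hp, h3, h4⟩
  · exact absurd h hMN
  · haveI := Fact.mk hp
    exact ⟨p, hp, h3.isPGroup_gfit, h4.isPGroup_gfit⟩

end Cfsg.Agent.S1312
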