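import Cfsg.Statements.S1313
import Cfsg.Agent.H17.Bal
import Mathlib.Data.Finite.Perm

set_option autoImplicit false
open Cfsg

namespace Cfsg.Agent.S1313

/-- For a finite group H, |H| ≤ |F*(H)|!. -/
theorem result {H : Type*} [Group H] [Finite H] : Nat.card H ≤ Nat.factorial (Nat.card ↥(Cfsg.generalizedFittingSubgroup H)) := by
  set F := Cfsg.generalizedFittingSubgroup H with hF
  have h1 : (MulAut.conjNormal (H := F)).ker ≤ F := by
    intro g hg
    have := H17.centralizer_gfit_le (⊤ : Subgroup H)
    rw [H17.gfit_top, top_inf_eq] at this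
    refine this fun x hx => ?_
    have h2 := congrArg Subtype.val (DFunLike.congr_fun (MonoidHom.mem_ker.mp hg) ⟨x, hx⟩)
    simp only [MulAut.conjNormal_apply, MulAut.one_apply] at h2
    rw [mul_inv_eq_iff_eq_mul] at h2
    exact h2.symm
  have h2 : Nat.card (F × MulAut F) ≤ Nat.card (Equiv.Perm F) := by
    refine Nat.card_le_card_of_injective (fun q => Equiv.mulLeft q.1 * q.2.toEquiv) ?_
    rintro ⟨a, s⟩ ⟨b, t⟩ e
    have h3 : ∀ x, a * s x = b * t x := fun x => DFunLike.congr_fun e x
    have h4 : a = b := by simpa using h3 1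
    subst h4
    exact Prod.ext rfl (MulEquiv.ext fun x => mul_left_cancel (h3 x))
  rw [Nat.card_perm, Nat.card_prod] at h2
  refine le_trans ?_ h2
  rw [← Subgroup.card_mul_index (MulAut.conjNormal (H := F)).ker, Subgroup.index_ker]
  exact Nat.mul_le_mul (Subgroup.card_le_of_le h1) (Subgroup.card_le_card_group _)

end Cfsg.Agent.S1313
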