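import Cfsg.Statements.S1602
import Cfsg.Agent.H28.GE

set_option autoImplicit false
open scoped Pointwise
open Cfsg

namespace Cfsg.Agent.S1602
open H28
open H14 Finset MulAction


/-- In the 12-point action of the smallest Mathieu group the setwise stabiliser of a pair is isomorphic to the symmetric group of degree 5. -/
theorem result (d : Finset Cfsg.GolayPt) (hd : d ∈ Cfsg.dodecads) (p q q' : Cfsg.GolayPt) (hp : p ∈ d) (hq : q ∉ d) (hq' : q' ∉ d) (hqq' : q ≠ q') : Nonempty (↥(MulAction.stabilizer Cfsg.M24 d ⊓ MulAction.stabilizer Cfsg.M24 p ⊓ MulAction.stabilizer Cfsg.M24 ({q, q'} : Finset Cfsg.GolayPt)) ≃* Equiv.Perm (Fin 5)) := by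
  have n := ne_of_mem_of_not_mem hp hq
  have n' := ne_of_mem_of_not_mem hp hq'
  obtain ⟨o, ho, h1, h2⟩ := ((((Cfg.dod hd).sstep1 cp1 (card_singleton p) (by simp [sgS, hp])).sstep1 cq1
    (card_singleton q) (by simp [sgS, hq, n.symm])).sstep1 cq2 (card_singleton q')
    (by simp [sgS, hq', n'.symm, hqq'.symm])).uniq (r := 0x843039) (by decide +kernel)
  rw [show sgN _ _ = [8, 1, 1, 1, 6] by decide +kernel] at h1 h2
  simp [sgS, card_single] at h1 h2
  have c : ((d ∩ o).erase p).card = 5 := by rw [card_erase_of_mem (by simp [hp, h1]), h1.2.2.2.2]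
  have l : stabilizer M24 d ⊓ stabilizer M24 p ⊓ stabilizer M24 ({q, q'} : Finset GolayPt) ≤
      stabilizer M24 ((d ∩ o).erase p) := fun g ⟨⟨a, b⟩, e⟩ => by
    have s : {q, q'} ⊆ g • o := (e : g • _ = _) ▸ smul_finset_subset_smul_finset (by simp [insert_subset_iff, h1])
    have := h2 _ (smul_mem_GC g ho) (by simp [h1]) (s (by simp)) (s (by simp)) ((b : g • _ = _) ▸ smul_mem_smul_finset h1.2.2.2.1)
      (by rw [← h1.2.2.2.2, ← card_smul_finset g (d ∩ o), smul_finset_inter, show g • d = d from a])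
    rw [mem_stabilizer_iff, erase_eq, smul_finset_sdiff, smul_finset_inter, smul_finset_singleton, this, a, b]
  have f : ∀ g ∈ stabilizer M24 d ⊓ stabilizer M24 p ⊓ stabilizer M24 ({q, q'} : Finset GolayPt),
      (∀ x ∈ (d ∩ o).erase p, g • x = x) → g = 1 := fun g hg h => by
    obtain ⟨x, hx⟩ := exists_emb c.ge
    exact dodecad_sharp hd x x.injective (fun i => (mem_inter.1 (mem_of_mem_erase (hx i))).1) hg.1.1 fun i => h _ (hx i)
  refine equiv_perm_of l f c (le_antisymm ?_ ?_)
  · rw [← c, ← card_perm_coe]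
    exact Nat.card_le_card_of_injective ((resHom M24 _).comp (Subgroup.inclusion l)) ((injective_iff_map_eq_one _).2
      fun g hg => Subtype.ext (f g g.2 (mem_ker_resHom.1 hg)))
  have k := card_inf_stabilizer_mul (stabilizer M24 d ⊓ stabilizer M24 p) ({q, q'} : Finset GolayPt)
  obtain ⟨e⟩ := stabDp_equiv hd hp
  rw [← Nat.card_congr e.toEquiv, card_G11] at k
  have : {y | ∃ g ∈ stabilizer M24 d ⊓ stabilizer M24 p, g • ({q, q'} : Finset GolayPt) = y}.ncard ≤ 66 := by
    refine (Set.ncard_le_ncard (t := ↑(powersetCard 2 dᶜ)) ?_).trans (by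
      rw [Set.ncard_coe_finset, card_powersetCard, card_compl, card_golayPt, hd.2]; rfl)
    rintro _ ⟨g, hg, rfl⟩
    refine mem_powersetCard.2 ⟨?_, by simp [hqq']⟩
    rw [← show g • d = d from hg.1, ← smul_compl_finset]
    exact smul_finset_subset_smul_finset (by simp [insert_subset_iff, hq, hq'])
  by_contra! h
  exact absurd (k ▸ Nat.mul_le_mul (Nat.le_of_lt_succ h : _ ≤ 119) this) (by norm_num)

end Cfsg.Agent.S1602
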