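import Cfsg.Statements.S1612
import Cfsg.Agent.H28.G5

set_option autoImplicit false
open Cfsg

namespace Cfsg.Agent.S1612
open H28


/-- In a 3-transposition group (no solvable normal subgroup, perfect derived group), the normaliser of a commuting set of transpositions of maximum size contains a Sylow 2-subgroup and is doubly transitive on the set. -/
theorem result {G : Type*} [Group G] [Finite G] (hsol : ∀ N : Subgroup G, N.Normal → Group.IsSolvable ↥N → N = ⊥) (hperf : ⁅commutator G, commutator G⁆ = commutator G) {D : Set G} (hD : Cfsg.IsThreeTranspositionClass D) {E : Set G} (hE : E ⊆ D) (hc : ∀ a ∈ E, ∀ b ∈ E, Commute a b) (hmax : ∀ E' : Set G, E' ⊆ D → (∀ a ∈ E', ∀ b ∈ E', Commute a b) → E'.ncard ≤ E.ncard) : (∃ P : Sylow 2 G, (P : Subgroup G) ≤ Subgroup.normalizer E) ∧ ∀ a ∈ E, ∀ b ∈ E, ∀ c ∈ E, ∀ d ∈ E, a ≠ b → c ≠ d → ∃ g ∈ Subgroup.normalizer E, g * a * g⁻¹ = c ∧ g * b * g⁻¹ = d := by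
  have h := PC.of_sol hsol hperf hD
  have hp : ∀ g : G, IsPGroup 2 (Subgroup.closure (cjs g E)) := fun g => pgroup_closure_of_comm
    (by rintro _ ⟨a, ha, rfl⟩; rw [pow_two]; exact t3_sq h.t3 (h.cj g a (hE ha)))
    (by rintro _ ⟨a, ha, rfl⟩ _ ⟨b, hb, rfl⟩; exact (commute_conj g).2 (hc a ha b hb))
  have e1 : cjs 1 E = E := by simp [cjs]
  constructor
  · obtain ⟨P, hP⟩ := (e1 ▸ hp 1).exists_le_sylow
    refine ⟨P, fun g hg => Subgroup.mem_normalizer_fintype fun n hn => ?_⟩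
    have := eq_of_max_comm h.t3 hE hmax P.2 fun x hx => hP (Subgroup.subset_closure hx)
    rw [this] at hn ⊢
    exact ⟨h.cj g n hn.1, P.1.mul_mem (P.1.mul_mem hg hn.2) (P.1.inv_mem hg)⟩
  · intro a ha b hb c hc' d hd hab hcd
    obtain ⟨g, e2, e3⟩ := h.pair_tr (hE ha) ⟨hE hb, hab.symm, hc a ha b hb⟩ (hE hc') ⟨hE hd, hcd.symm, hc c hc' d hd⟩
    let C := Subgroup.centralizer ({c, d} : Set G)
    have l1 : Subgroup.closure E ≤ C := (Subgroup.closure_le _).2 fun x hx => by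
      rintro _ (rfl | rfl)
      exacts [hc _ hc' x hx, hc _ hd x hx]
    have l2 : Subgroup.closure (cjs g E) ≤ C := (Subgroup.closure_le _).2 (by
      rintro _ ⟨x, hx, rfl⟩ _ (rfl | rfl)
      · rw [← e2]; exact (commute_conj g).2 (hc a ha x hx)
      · rw [← e3]; exact (commute_conj g).2 (hc b hb x hx))
    obtain ⟨P1, h1⟩ := ((e1 ▸ hp 1).comap_subtype (K := C)).exists_le_sylow
    obtain ⟨P2, h2⟩ := ((hp g).comap_subtype (K := C)).exists_le_sylow
    obtain ⟨k, rfl⟩ := MulAction.exists_smul_eq C P2 P1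
    have := eq_of_max_comm h.t3 hE hmax (P := ((k • P2 : Sylow 2 C) : Subgroup C).map C.subtype)
      ((k • P2).2.map _) fun x hx => ⟨⟨x, l1 (Subgroup.subset_closure hx)⟩, h1 (Subgroup.subset_closure hx), rfl⟩
    have k1 : (k : G) * c * (k : G)⁻¹ = c := by rw [← k.2 c (by simp)]; group
    have k2 : (k : G) * d * (k : G)⁻¹ = d := by rw [← k.2 d (by simp)]; group
    refine ⟨k * g, Subgroup.mem_normalizer_fintype fun n hn => ?_, ?_, ?_⟩
    · rw [this]
      refine ⟨h.cj _ n (hE hn), ?_⟩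
      have m : (⟨g * n * g⁻¹, l2 (Subgroup.subset_closure (conj_mem_cjs hn))⟩ : C) ∈ (P2 : Subgroup C) :=
        h2 (Subgroup.subset_closure (conj_mem_cjs hn))
      exact ⟨_, Subgroup.smul_mem_pointwise_smul _ (MulAut.conj k) _ m, by simp [mul_assoc]⟩
    · rw [← k1, ← e2]; group
    · rw [← k2, ← e3]; group

end Cfsg.Agent.S1612
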