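import Cfsg.Statements.S1614
import Cfsg.Agent.H28.CS

set_option autoImplicit false
open Cfsg

namespace Cfsg.Agent.S1614
open H28


/-- If the commuting transpositions of one transposition generate a solvable group, a Fischer 3-transposition group is S5, S6, PSU(4, 2) or PSU(5, 2). -/
theorem result {G : Type*} [Group G] [Finite G] (hsol : ∀ N : Subgroup G, N.Normal → Group.IsSolvable ↥N → N = ⊥) (hperf : ⁅commutator G, commutator G⁆ = commutator G) {D : Set G} (hD : Cfsg.IsThreeTranspositionClass D) (x : G) (hx : x ∈ D) (hs : Group.IsSolvable ↥(Subgroup.closure {y : G | y ∈ D ∧ y ≠ x ∧ Commute x y})) : Nonempty (G ≃* Equiv.Perm (Fin 5)) ∨ Nonempty (G ≃* Equiv.Perm (Fin 6)) ∨ ∃ (F : Type) (_ : Field F) (_ : Fintype F), Fintype.card F = 4 ∧ (Nonempty (G ≃* Cfsg.PSU 4 F 2) ∨ Nonempty (G ≃* Cfsg.PSU 5 F 2)) := by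
  have hP := PC.of_sol hsol hperf hD
  have hZ := center_of_sol hsol
  have nc : ¬ ∃ y ∈ D, Ch4 (nb D y) := fun ⟨y, hy, c⟩ => (hP.ch4 hy hx c).not_solv (hP.T3.nb x) hs
  by_cases hW : WT (nb D x)
  swap
  · obtain ⟨e, -⟩ := hP.caseA hx hW
    exact Or.inl ⟨e⟩
  rcases hP.caseB hZ hx fun hV => (hP.loc_pc hx hV hW).not_solv hs with ⟨hS, n, S, τ, m⟩ | ⟨n, hn, m⟩
  · obtain ⟨k, e, he⟩ := sn_of_noD4 hP.toTC hP.two hS fun h4 =>
      nc (m.chain rfl (fun _ => by simp [nv_symp, H11.PForm.symp_sing]) (fun _ => ND.isoS) (m.six_of_D4 h4))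
    have h5 := hP.sn_five e he
    have h7 : ¬ 7 ≤ k := fun h => nc (sn_ch4 e he h)
    obtain rfl | rfl : k = 5 ∨ k = 6 := by omega
    exacts [Or.inl ⟨e⟩, Or.inr (Or.inl ⟨e⟩)]
  · obtain ⟨e, -⟩ := m.fin hP hZ hn
    obtain ⟨τ, m⟩ := m
    have h6 : ¬ 6 ≤ n := fun h => nc (m.chain K4.two (fun _ => by rw [nv_unit, H11.PForm.unit_sing])
      (fun _ => ND.isoU) (by simpa using h))
    refine Or.inr (Or.inr ⟨K4, inferInstance, inferInstance, K4.card, ?_⟩)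
    obtain rfl | rfl : n = 4 ∨ n = 5 := by omega
    exacts [Or.inl ⟨e⟩, Or.inr ⟨e⟩]

end Cfsg.Agent.S1614
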