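import Cfsg.Statements.S1618
import Cfsg.Agent.S5560
import Cfsg.Agent.H1.Cores

set_option autoImplicit false
open Cfsg

namespace Cfsg.Agent.S1618

/-- A group generated by a class of involutions whose pairwise products (of distinct members) have p-power order for a fixed odd prime p has nilpotent derived subgroup. -/
theorem result {G : Type*} [Group G] [Finite G] (p : ℕ) (hp : p.Prime) (hodd : p ≠ 2) {D : Set G} (hinv : ∀ d ∈ D, orderOf d = 2) (hconj : ∃ d ∈ D, D = conjugatesOf d) (hgen : Subgroup.closure D = ⊤) (hprod : ∀ x ∈ D, ∀ y ∈ D, x ≠ y → ∃ k : ℕ, orderOf (x * y) = p ^ k) : Group.IsNilpotent ↥(commutator G) := by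
  obtain ⟨d, hd, rfl⟩ := hconj
  have : Fact p.Prime := ⟨hp⟩
  have h := Cfsg.Agent.S5560.result hp hodd d (hinv d hd) fun a ha b hb => by
    by_cases hab : a = b
    · exact ⟨0, by rw [hab, H9.mul_self_of_orderOf (hinv b hb)]; simp⟩
    · exact hprod a ha b hb hab
  have h1 : ∀ g : G, (g : G ⧸ pCore p G) ∈ Subgroup.zpowers (d : G ⧸ pCore p G) := fun g => by
    have : Subgroup.closure (conjugatesOf d) ≤
        (Subgroup.zpowers (d : G ⧸ pCore p G)).comap (QuotientGroup.mk' _) := by
      rw [Subgroup.closure_le]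
      intro a ha
      have h2 : (a : G ⧸ pCore p G) = d := by
        rw [QuotientGroup.eq, H9.inv_eq_of_orderOf (hinv a ha)]
        exact h a ha d hd
      change (a : G ⧸ pCore p G) ∈ Subgroup.zpowers (d : G ⧸ pCore p G)
      rw [h2]; exact Subgroup.mem_zpowers _
    exact this (hgen ▸ Subgroup.mem_top g)
  have h2 : commutator G ≤ pCore p G := Subgroup.commutator_le.2 fun a _ b _ => by
    rw [← QuotientGroup.eq_one_iff]
    exact commutatorElement_eq_one_iff_commute.2 (H9.commute_of_mem_zpowers (h1 a) (h1 b))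
  exact ((H1.pCore_isPGroup p G).to_le h2).isNilpotent

end Cfsg.Agent.S1618
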