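import Cfsg.Statements.S1892
import Cfsg.Agent.H1.Harv3

set_option autoImplicit false
open Cfsg

namespace Cfsg.Agent.S1892
open H18 Subgroup
open scoped commutatorElement

/-- Let S be a finite p-solvable group with no nontrivial normal subgroup of order prime to p, A a p-subgroup of S, and Q a nontrivial A-invariant subgroup of order prime to p with [A, Q] = Q. Then the commutator [O_p(S), A, Q] is nontrivial. -/
theorem result {S : Type*} [Group S] [Finite S] {p : ℕ} [Fact p.Prime]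
    (hS : Cfsg.IsPSolvable p S) (hred : Cfsg.pPrimeCore p S = ⊥)
    (A Q : Subgroup S) (hA : IsPGroup p A) (hQ : ¬ p ∣ Nat.card Q) (hQ1 : Q ≠ ⊥)
    (hinv : ∀ a ∈ A, ∀ x ∈ Q, a * x * a⁻¹ ∈ Q) (hAQ : ⁅A, Q⁆ = Q) :
    ⁅⁅Cfsg.pCore p S, A⁆, Q⁆ ≠ ⊥ := by
  have hp : p.Prime := Fact.out
  have hs := (H1.isPSolvable_iff_piSep hp).1 hS
  rw [pPrimeCore_eq hp] at hred
  rw [pCore_eq hp]
  intro h
  have hO : ∀ {X : Subgroup S}, X ≤ N(O[{p}]((⊤ : Subgroup S))) := fun {_} => le_top.trans pcore_nml.norm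
  have hQ' := (piNat_compl_iff hp).2 hQ
  have h1 := comm_eq_bot_iff.1 h
  have nQ := cent_norm (cent_symm h1)
  have nA : A ≤ N(⁅O[{p}]((⊤ : Subgroup S)), A⁆) := norm_comm_right
  have nO : O[{p}]((⊤ : Subgroup S)) ≤ N(⁅O[{p}]((⊤ : Subgroup S)), A⁆) := norm_comm_left
  have h2 := cent_symm ((comm_le_iff_quo nO nA).1 le_rfl)
  have h3 := comm_cent_of_cent (mim_norm (f := coset ⁅O[{p}]((⊤ : Subgroup S)), A⁆) (hO (X := Q))) h2
  rw [← mim_comm nQ nA, comm_comm (A := Q), hAQ] at h3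
  have h5 := H1.cent_of_comm_le ((comm_le_iff_quo nO nQ).2 (cent_symm h3)) h1
    (hQ'.coprime' (pcore_pi.of_le (comm_le_left hO)))
  exact hQ1 (PiGrp.eq_bot (pcore_pi.of_le ((le_inf le_top (cent_symm h5)).trans (hs.cent_pcore_le hred))) hQ')

end Cfsg.Agent.S1892
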