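import Cfsg.Statements.S1893
import Cfsg.Agent.H18.BG1
import Cfsg.Agent.H4.PSol

set_option autoImplicit false
open Cfsg

namespace Cfsg.Agent.S1893
open H18 Subgroup
open scoped commutatorElement

theorem aux {G : Type*} [Group G] [Finite G] {π : Set ℕ} (h2 : 2 ∉ π) (h3 : 3 ∉ π) {L : Subgroup G} (hs : Solv L)
    (hO : O[πᶜ](L) = ⊥) {c : G} (hc : c ∈ L) (h : ⁅⁅F(L), zpowers c⁆, zpowers c⁆ = ⊥) : c ∈ F(L) := by
  refine le_of_pElts (fun q hq x hx hx' => ?_) (mem_zpowers c)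
  have := Fact.mk hq
  have xc := zpowers_le.2 hx
  have xL := xc.trans (zpowers_le.2 hc)
  have a : ∀ K ≤ F(L), ⁅⁅K, zpowers x⁆, zpowers x⁆ = ⊥ := fun K hK => eq_bot_mono (comm_mono (comm_mono hK xc) xc) h
  have nY : O[{q}ᶜ](F(L)) ⊴ L := fit_nml.pcore
  have b1 : x ∈ C(O[{q}ᶜ](F(L))) := zpowers_le.1 (cent_symm ((H1.cop_of_pi (xL.trans nY.norm) hx'.zpowers pcore_pi
    (.inl abel_zpowers.solv)).cent_of_comm_cent (comm_eq_bot_iff.1 (a _ pcore_le))))
  have b2 : x ∈ H4.opMod q L C(O[{q}](L)) := by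
    by_cases e : q ∈ π
    · exact H4.mem_opMod_of_not_sec_SL2 (fun e' => h2 (e' ▸ e)) pcore_pi.isPGroup pcore_nml.norm
        ((H4.pSol_of_solvable hs).not_sec_SL2 (hq.five_le_of_ne_two_of_ne_three (fun e' => h2 (e' ▸ e))
          fun e' => h3 (e' ▸ e))) (xL (mem_zpowers x)) (a _ pcore_le_fit)
    · rw [eq_bot_mono (pcore_sub (Set.singleton_subset_iff.2 e)) hO]
      exact H4.inf_le_opMod (by simp) ⟨xL (mem_zpowers x), by simp⟩
  set E := H4.opMod q L C(O[{q}](L)) ⊓ C(O[{q}ᶜ](F(L)))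
  have nE : E ⊴ L := ⟨inf_le_left.trans (H4.opMod_le _ _ _), norm_inf (H4.le_normalizer_opMod _ _ _) (norm_C nY.norm)⟩
  have d : ∀ r, r ≠ q → ∀ R, Hall {r} R E → R ≤ C(E) := fun r hr R hR => by
    have d1 : R ≤ F(L) := fun y hy => cent_sub_Fitting hs ⟨nE.le (hR.le hy), by
      rw [← fit_nil.pcore_sup (π := {q}), C_sup, pcore_fit]
      exact ⟨H4.pResidualOf_opMod_le (norm_C pcore_nml.norm) (H26.mem_pResidualOf (hR.le hy).1
        ((piNat_compl_iff_coprime hq).1 ((hR.pi.elt hy).p'_of_ne hr))), (hR.le hy).2⟩⟩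
    exact (fit_nil.le_pcore d1 (hR.pi.p'_of_ne hr)).trans (cent_symm inf_le_right)
  refine le_fit nE (nil_of_sylow_norm fun r hr _ => ?_) ⟨b2, b1⟩
  obtain ⟨R, hR⟩ := exists_sylow hr E
  refine ⟨R, hR, le_of_sylows fun s hs _ => ?_⟩
  by_cases e : s = r
  · exact ⟨R, e ▸ hR, le_N⟩
  obtain ⟨T, hT⟩ := exists_sylow hs E
  refine ⟨T, hT, cent_norm ?_⟩
  by_cases e' : s = q
  · exact cent_symm ((d r (fun e'' => e (e'.trans e''.symm)) R hR).trans (C_anti hT.le))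
  · exact (d s e' T hT).trans (C_anti hR.le)

/-- Let S be a finite solvable group, π a set of primes containing neither 2 nor 3, H a Hall π-subgroup of S, and A a self-centralizing normal subgroup of the Fitting subgroup F(H). Then C_S(A) = A × D for a normal subgroup D of C_S(A) whose order has no prime divisor in π. -/
theorem result {S : Type*} [Group S] [Finite S] [Group.IsSolvable S]
    (π : Set ℕ) (h2 : 2 ∉ π) (h3 : 3 ∉ π) (H : Subgroup S) (hH : Cfsg.IsPiHall π H)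
    (A : Subgroup S) (hA : Cfsg.IsSCN ((Cfsg.fittingSubgroup H).map H.subtype) A) :
    ∃ D : Subgroup S, D ≤ Subgroup.centralizer (A : Set S) ∧
      (∀ c ∈ Subgroup.centralizer (A : Set S), ∀ d ∈ D, c * d * c⁻¹ ∈ D) ∧
      A ⊓ D = ⊥ ∧ A ⊔ D = Subgroup.centralizer (A : Set S) ∧
      ∀ q : ℕ, q.Prime → q ∣ Nat.card D → q ∉ π := by
  have hH := hall_top_iff.2 hH
  have hA : SCN A F(H) := scn_iff.2 hA
  set O := O[πᶜ]((⊤ : Subgroup S))
  have n : ∀ {X : Subgroup S}, X ≤ N(O) := fun {_} => le_top.trans pcore_nml.norm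
  have pA := hH.pi.of_le (hA.le.trans fit_le)
  have a1 : F(⊤ ⫽ O) ≤ F(H) ⫽ O := by
    rw [mim_fit n (by rw [mker_coset, hH.pi.inf_eq_bot pcore_pi]; exact bot_le)]
    refine fit_le_fit_of_le (mim_mono le_top) ((hH.mim n).nml_le fit_nml ?_)
    rw [← fit_nil.pcore_sup (π := π), eq_bot_mono pcore_fit_le pcore_quo_pcore, sup_bot_eq]; exact pcore_pi
  have a2 := H1.quo_inf_cent (le_norm hA.le) n (H1.cop_of_pi n pA pcore_pi (.inl solv_of_solv))
  rw [hA.cent] at a2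
  have a3 : C(A) ≤ A ⊔ O := fun c hc => by
    have b1 : zpowers (cs O c) ≤ C(A ⫽ O) := zpowers_le.2 (mim_cent le_rfl (mfun_mem_mim hc))
    have b2 : cs O c ∈ ⊤ ⫽ O := mfun_mem_mim (mem_top c)
    have := aux h2 h3 solv_of_solv.mim pcore_quo_pcore b2 (comm_eq_bot_iff.2 ((le_inf ((comm_le_left
      ((zpowers_le.2 b2).trans fit_nml.norm)).trans a1) (comm_cent_of_cent (a1.trans (mim_norm hA.nml.norm)) b1)).trans
      (a2.ge.trans (cent_symm b1))))
    refine zpowers_le.1 ((quo_le_quo_iff n n).1 ?_)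
    rw [mim_zpowers (n (mem_top c)), a2]; exact le_inf (zpowers_le.2 (a1 this)) b1
  refine ⟨C(A) ⊓ O, inf_le_left, norm_iff.1 (norm_inf le_N n), pA.inf_eq_bot pcore_pi.inf_right, ?_,
    (pcore_pi (π := πᶜ) (H := ⊤)).inf_right⟩
  rw [← Nrm2.modular_left (.inl n) hA.abel, inf_eq_left.2 a3]

end Cfsg.Agent.S1893
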