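import Cfsg.Statements.S1894
import Cfsg.Agent.H3.Br

set_option autoImplicit false
open Cfsg

namespace Cfsg.Agent.S1894

/-- Let P be a finite p-group, A a normal subgroup of P and B an abelian subgroup of A that is normal in P. Then some subgroup C of A containing B is normal in P and is self-centralizing and normal in A (C ∈ SCN(A)). -/
theorem result {P : Type*} [Group P] [Finite P] {p : ℕ} [Fact p.Prime] (hP : IsPGroup p P)
    (A : Subgroup P) [A.Normal] (B : Subgroup P) [B.Normal] (hBA : B ≤ A) (hB : IsMulCommutative B) :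
    ∃ C : Subgroup P, C.Normal ∧ B ≤ C ∧ Cfsg.IsSCN A C := by
  open Subgroup H18 in
  have hp : p.Prime := Fact.out
  obtain ⟨C, h1, ⟨h2, h3, h4⟩, h5⟩ := exists_maximal_sub (fun C : Subgroup P => C ⊴ ⊤ ∧ C ≤ A ∧ Abel C)
    ⟨nml_top, hBA, abel_of_comm hB⟩
  refine ⟨C, h2.normal, h1, h3, le_top.trans h2.norm, ?_⟩
  by_contra hc
  obtain ⟨W, w1, w2, w3, w4⟩ := H3.exists_nml_above (H3.piTop hp hP) h2.norm
    ⟨le_top, norm_inf norm_of_normal (norm_C h2.norm)⟩ (lt_of_le_of_ne (le_inf h3 h4) (Ne.symm hc))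
  have hi := relIndex_eq_of_mul w1 w4
  rw [h5 W ⟨H3.nml_of_comm_le w1 le_top w3, w2.trans inf_le_left, H3.abel_of_relIndex_prime w1
    (cent_symm (w2.trans inf_le_right)) (hi ▸ hp)⟩ w1, relIndex_self] at hi
  exact hp.ne_one hi.symm

end Cfsg.Agent.S1894
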