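import Cfsg.Statements.S1895
import Cfsg.Agent.H3.BG4a
import Cfsg.Agent.H22.Count

set_option autoImplicit false
open Cfsg

namespace Cfsg.Agent.S1895
open H18 Subgroup
open scoped commutatorElement

universe u

section
variable {G : Type*} [Group G] [Finite G] {p : ℕ} {X Y K U Z R : Subgroup G}

/-- `K` is a maximal `X`-invariant subgroup of `Z ≤ X` -/
structure Mx (X K Z : Subgroup G) : Prop where
  le : K ≤ Z
  leX : Z ≤ X
  nK : X ≤ N(K)
  max : ∀ W, K ≤ W → W ≤ Z → X ≤ N(W) → W = K ∨ W = Z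

theorem Mx.inf (h : Mx X K Z) (hX : X ≤ K ⊔ Y) (hY : Y ≤ X) (hU : U ≤ Y) (e : K ⊔ U = Z) :
    Mx Y (K ⊓ U) U ∧ (Y ≤ N(U) → K.relIndex Z = (K ⊓ U).relIndex U) ∨ ¬ Y ≤ N(U) := by
  by_cases nU : Y ≤ N(U)
  swap; · exact .inr nU
  have n : ∀ W ≤ U, Nrm2 W K := fun W hW => .inl (((hW.trans hU).trans hY).trans h.nK)
  refine .inl ⟨⟨inf_le_right, hU, norm_inf (hY.trans h.nK) nU, fun W h1 h2 h3 => ?_⟩,
    fun _ => by rw [relIndex_inf_right, ← e, sup_comm, (n U le_rfl).relIndex_sup]⟩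
  refine (h.max (W ⊔ K) le_sup_right (sup_le (h2.trans (e ▸ le_sup_right)) h.le)
    (hX.trans (sup_le (le_norm le_sup_right) (norm_sup h3 (hY.trans h.nK))))).imp
    (fun e' => le_antisymm (le_inf (le_sup_left.trans e'.le) h2) h1) fun e' => ?_
  have := (n W h2).modular h2
  rw [e', sup_eq_left.2 h1, inf_eq_right.2 (e ▸ le_sup_right)] at this
  exact this.symm

theorem Mx.inf' (h : Mx X K Z) (hU : U ≤ Z) (nU : X ≤ N(U)) (e : ¬ U ≤ K) :
    Mx X (K ⊓ U) U ∧ K.relIndex Z = (K ⊓ U).relIndex U :=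
  ((h.inf le_sup_right le_rfl (hU.trans h.leX) ((h.max _ le_sup_left (sup_le h.le hU) (norm_sup h.nK nU)).resolve_left
    fun e' => e (e' ▸ le_sup_right))).resolve_right (not_not.2 nU)).imp_right (· nU)

theorem pc_quo (hp : p.Prime) (h2 : p ≠ 2) (hZ : PiGrp {p} Z) (h : Ω[p](Z) ≤ C(Z)) :
    Ω[p](Z ⫽ Ω[p](Z)) ≤ C(Z ⫽ Ω[p](Z)) ∧ Nat.card Ω[p](Z ⫽ Ω[p](Z)) ≤ Nat.card Ω[p](Z) := by
  have nN : Ω[p](Z) ⊴ Z := omega_nml
  have eN : Elem p Ω[p](Z) := by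
    have := Abel.omega_elem (p := p) (cent_mono h le_rfl omega_le); rwa [omega_omega] at this
  have a : Ω[p](Z ⫽ Ω[p](Z)) ≤ C(Z ⫽ Ω[p](Z)) := by
    obtain ⟨A, -, a1, a2, a3⟩ := H3.exists_max_elem_nml (R := Z ⫽ Ω[p](Z)) Nml.bot (elem_bot (p := p))
    have a4 := H3.maxElem_of_max_nml hp h2 hZ.mim a1 a2 a3
    by_cases e : A ≤ C(Z ⫽ Ω[p](Z))
    · exact omega_le_iff.2 fun x hx h => e (a4.mem hx (cent_symm e hx) h)
    obtain ⟨B, hB, ⟨b1, b2⟩, b3⟩ := exists_minimal_sub (fun B => B ⊴ Z ⫽ Ω[p](Z) ∧ ¬ B ≤ C(Z ⫽ Ω[p](Z))) ⟨a1, e⟩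
    have b4 := hZ.mim.nil.comm_lt b1.le le_rfl b1.norm fun e => b2 (e ▸ bot_le)
    have b5 : ⁅B, Z ⫽ Ω[p](Z)⁆ ≤ C(Z ⫽ Ω[p](Z)) := by
      by_contra e; exact b4.ne (b3 _ ⟨b1.comm Nml.rfl, e⟩ b4.le)
    refine absurd (fun x hx => ?_) b2
    obtain ⟨x, xZ, rfl⟩ := (mem_quo nN.norm).1 (b1.le hx)
    refine mem_C.2 fun y hy => ?_
    obtain ⟨y, yZ, rfl⟩ := (mem_quo nN.norm).1 hy
    have m : ∀ {a b}, a ∈ Z → b ∈ Z → ⁅a, b⁆ ∈ Z := fun ha hb => der_le (commutator_mem_commutator ha hb)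
    have c1 : x ^ p ∈ Ω[p](Z) := (cs_eq_one_iff (nN.norm (pow_mem xZ p))).1 (by
      rw [mfun_pow (nN.norm xZ)]; exact a2.pow _ (hB hx))
    have c2 : ⁅x, ⁅x, y⁆⁆ ∈ Ω[p](Z) := (cs_eq_one_iff (nN.norm (m xZ (m xZ yZ)))).1 (by
      rw [mfun_comm (nN.norm xZ) (nN.norm (m xZ yZ)), mfun_comm (nN.norm xZ) (nN.norm yZ), commutatorElement_eq_one_iff_mul_comm]
      exact mem_C.1 (b5 (commutator_mem_commutator hx hy)) _ (mfun_mem_mim xZ))
    have c3 := H3.comm_pow_eq_one_three (n := 0) hp (by simpa) (mem_C.1 (h c2) x xZ) (mem_C.1 (h c2) _ (m xZ yZ))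
      (mem_C.1 (h c1) y yZ).symm (mem_C.1 (h c1) _ (m xZ yZ)).symm
    rw [eq_comm, ← commutatorElement_eq_one_iff_mul_comm, ← mfun_comm (nN.norm xZ) (nN.norm yZ)]
    exact cs_eq_one (mem_omega (m xZ yZ) (by simpa using c3))
  refine ⟨a, ?_⟩
  set W := qpre Ω[p](Z) Ω[p](Z ⫽ Ω[p](Z))
  have hW : W ≤ Z := qpre_le_of_le nN omega_le
  have d1 : ⁅W, W⁆ ≤ Ω[p](Z) := (comm_le_iff_quo qpre_le qpre_le).2 (by
    rw [quo_qpre]; exact cent_mono a le_rfl omega_le)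
  have d2 : Ω[p](W) = Ω[p](Z) := omega_eq_of_le le_qpre hW
  have d3 := (H3.exponent_odd_nil23 hp (hZ.of_le hW) (by
    obtain ⟨k, hk⟩ := (hZ.of_le hW).card_eq_pow; rw [hk]; exact (hp.odd_of_ne_two h2).pow)
    (.inl (comm_eq_bot_iff.2 (cent_mono h d1 hW)))).2 (d2 ▸ d1)
  have d4 : ∀ x ∈ W, x ^ p ∈ Ω[p](Z) := fun x hx => (cs_eq_one_iff (pow_mem (qpre_le hx) p)).1 (by
    rw [mfun_pow (qpre_le hx)]
    have := Abel.omega_elem (p := p) (cent_mono a le_rfl omega_le)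
    rw [omega_omega] at this
    exact this.pow _ (mem_mpre.1 hx).2)
  let f : W →* Ω[p](Z) := MonoidHom.mk' (fun x => ⟨x ^ p, d4 x x.2⟩) fun x y => Subtype.ext (d3 x x.2 y y.2)
  have d5 := f.ker.card_mul_index
  rw [index_ker, card_qpre, show f.ker = Ω[p](Z).subgroupOf W from Subgroup.ext fun x => ⟨fun e => mem_omega (hW x.2)
    (congrArg Subtype.val e), fun e => Subtype.ext (eN.pow _ e)⟩, card_subgroupOf le_qpre] at d5
  rw [← Nat.eq_of_mul_eq_mul_left card_pos' d5]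
  exact Nat.le_of_dvd Nat.card_pos (card_subgroup_dvd_card _)

end

theorem pc (p : ℕ) (hp : p.Prime) (h2 : p ≠ 2) (n : ℕ) : ∀ {G : Type u} [Group G] [Finite G] {X K Z : Subgroup G},
    Nat.card Z < n → PiGrp {p} Z → Ω[p](Z) ≤ C(Z) → Nat.card Ω[p](Z) ≤ p ^ 2 → X ≤ N(Z) → Mx X K Z → K.relIndex Z ≤ p ^ 2 := by
  induction n with
  | zero => intro _ _ _ _ _ _ h; omega
  | succ n ih =>
    intro G _ _ X K Z hn hZ h1 h3 nZ h
    have nX := norm_omega (p := p) nZ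
    by_cases e : Ω[p](Z) ≤ K
    swap
    · rw [(h.inf' omega_le nX e).2]; exact (Nat.le_of_dvd card_pos' relIndex_dvd).trans h3
    by_cases e1 : Z = ⊥
    · rw [relIndex_eq_one_iff.2 (e1.le.trans bot_le)]; exact Nat.one_le_pow _ _ hp.pos
    have nN : Ω[p](Z) ⊴ Z := omega_nml
    obtain ⟨a, b⟩ := pc_quo hp h2 hZ h1
    rw [← relIndex_quo h.le nN.norm e]
    refine ih (by have := card_quo_lt nN (hZ.omega_ne_bot e1); omega) hZ.mim a (b.trans h3) (mim_norm nZ)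
      ⟨mim_mono h.le, mim_mono h.leX, mim_norm h.nK, fun W c1 c2 c3 => ?_⟩
    refine (h.max (qpre _ W) ?_ (qpre_le_of_le nN c2) (norm_mpre nX c3)).imp (fun e => quo_qpre.symm.trans (congrArg _ e))
      fun e => quo_qpre.symm.trans (congrArg _ e)
    exact (mim_le_iff (h.le.trans nN.norm)).1 c1

theorem top {G : Type*} [Group G] [Finite G] {p : ℕ} {R : Subgroup G} (hp : p.Prime) (h2 : p ≠ 2) (hR : PiGrp {p} R)
    (hr : prank p R ≤ 2) : ∃ Z ≤ R, N(R) ≤ N(Z) ∧ Ω[p](Z) ≤ C(Z) ∧ Z.relIndex R ≤ p ^ 2 := by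
  have ho : Odd (Nat.card R) := by obtain ⟨k, hk⟩ := hR.card_eq_pow; rw [hk]; exact (hp.odd_of_ne_two h2).pow
  by_cases h0 : Ω[p](R) ≤ C(R)
  · exact ⟨R, le_rfl, le_rfl, h0, by rw [relIndex_self]; exact Nat.one_le_pow _ _ hp.pos⟩
  have hc : ¬ Cyc R := fun e => h0 (omega_le.trans e.abel)
  obtain ⟨a1, a2⟩ := H3.ohm_odd_ucn2 hp hR ho hc
  set D := Ω[p](Z₂(R))
  have nD : D ⊴ R := zTwo_nml.omega
  obtain ⟨E, nE, hE⟩ := H3.odd_normal_p2Elem_exists hp hR ho nD a1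
  have mE := (hE.of_le nD.le).maxElem_of_prank hp hr
  refine ⟨R ⊓ C(D), inf_le_left, norm_inf le_rfl (norm_C (norm_omega (norm_zTwo le_rfl))), omega_le_iff.2 fun x hx e =>
    cent_symm inf_le_right (hE.le (mE.mem hx.1 (C_anti hE.le hx.2) e)), ?_⟩
  have lt : Ω[p](Z(R)) < E := lt_of_le_of_ne mE.omegaZ_le fun e => h0 (omega_le_iff.2 fun x hx h =>
    cent_symm omegaZ_cent (e ▸ mE.mem hx (e ▸ omegaZ_cent hx) h))
  have cZ := card_eq_of_lt_sq hp hE.card lt (hR.omegaZ_ne_bot (ne_bot_of_not_cyc hc))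
  have cl : ∀ d ∈ D, C1(d).relIndex R ≤ p := fun d hd => by
    rw [← H22.ncard_conj_by_subgroup, ← cZ]
    refine Set.ncard_le_ncard_of_injOn (t := (Ω[p](Z(R)) : Set G)) (· * d⁻¹) ?_ (mul_left_injective _).injOn
    rintro _ ⟨n, hn, rfl⟩
    have b := mul_mem (conj_mem nD.norm hn hd) (inv_mem hd)
    refine mem_omega ⟨nD.le b, ?_⟩ (a2 _ b)
    have := inv_mem ((mem_zTwo.1 (omega_le hd)).2 n hn)
    rwa [commutatorElement_inv] at this
  obtain ⟨Y, hY, cY, ne⟩ := hE.exists_other hp cZ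
  obtain ⟨y, -, rfl⟩ := exists_gen_of_prime (cY ▸ hp)
  obtain ⟨d, hd, e⟩ : ∃ d ∈ D, D ≤ E ⊔ zpowers d := by
    by_cases h : D ≤ E
    · exact ⟨1, one_mem _, h.trans le_sup_left⟩
    obtain ⟨d, hd, h⟩ := SetLike.not_le_iff_exists.1 h
    have b : E ⊔ zpowers d ≤ D := sup_le hE.le (zpowers_le.2 hd)
    refine ⟨d, hd, (eq_of_card_ge b ((H3.rank2_exponent_p hp (hR.of_le nD.le) ((prank_mono hp nD.le).trans hr) a2).trans ?_)).ge⟩
    obtain ⟨k, hk⟩ := (hR.of_le (b.trans nD.le)).card_eq_pow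
    have := card_lt (left_lt_sup.2 fun e : zpowers d ≤ E => h (e (mem_zpowers d)))
    rw [hE.card, hk] at this
    rw [hk]; exact Nat.pow_le_pow_right hp.pos ((Nat.pow_lt_pow_iff_right hp.one_lt).1 this)
  rw [← hE.sup_eq_two hp lt.le hY cZ cY ne.symm] at e
  have b : R ⊓ (C1(y) ⊓ C1(d)) ≤ R ⊓ C(D) := le_inf inf_le_left (le_trans (by
    rw [C_sup, C_sup, C_zpowers, C_zpowers, inf_assoc]; exact inf_le_inf_right _ omegaZ_cent) (C_anti e))
  refine (relIndex_le_of_le_left b relIndex_ne_zero).trans ?_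
  rw [relIndex_inf_left, sq]
  exact relIndex_inf_le.trans (Nat.mul_le_mul (cl y (hE.le (hY (mem_zpowers y)))) (cl d hd))

/-- Let p be an odd prime and G a finite p-solvable group with no elementary abelian subgroup of order p³. Then every chief factor H/K of G (H, K normal in G with no normal subgroup of G strictly between them) whose order is a power of p has order p or p². -/
theorem result {G : Type*} [Group G] [Finite G] {p : ℕ} [Fact p.Prime] (hp : p ≠ 2)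
    (hG : Cfsg.IsPSolvable p G) (hr : Cfsg.PRankLE p 2 G)
    (H K : Subgroup G) [H.Normal] [K.Normal] (hKH : K < H) (hpow : ∃ n : ℕ, K.relIndex H = p ^ n)
    (hchief : ∀ L : Subgroup G, L.Normal → K ≤ L → L ≤ H → L = K ∨ L = H) :
    K.relIndex H = p ∨ K.relIndex H = p ^ 2 := by
  have h2 := hp
  have hp : p.Prime := Fact.out
  obtain ⟨n, hn⟩ := hpow
  obtain ⟨R, hR⟩ := exists_sylow hp H
  have hr' := (prank_mono hp (le_top (a := R))).trans ((prank_top_le_iff hp).2 hr)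
  have e : K ⊔ R = H := by rw [sup_comm]; exact hR.sup_of_idx hKH.le (hn ▸ piNat_pow_self hp n)
  have m : Mx ⊤ K H := ⟨hKH.le, le_top, norm_of_normal, fun W h1 h2 h3 => hchief W (norm_top_iff.1 h3) h1 h2⟩
  obtain ⟨m1, m2⟩ := (m.inf (Y := N(R)) ((frattini_arg hp nml_top hR).ge.trans (sup_le (e.ge.trans (sup_le_sup_left le_N _))
    (inf_le_right.trans le_sup_right))) le_top le_N e).resolve_right (not_not.2 le_rfl)
  obtain ⟨Z, a1, a2, a3, a4⟩ := top hp h2 hR.pi hr'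
  have : K.relIndex H ≤ p ^ 2 := by
    rw [m2 le_rfl]
    by_cases h : Z ≤ K ⊓ R
    · exact (relIndex_le_of_le_left h relIndex_ne_zero).trans a4
    obtain ⟨m3, m4⟩ := m1.inf' a1 a2 h
    rw [m4]
    refine pc p hp h2 _ (Nat.lt_succ_self _) (hR.pi.of_le a1) a3 ?_ a2 m3
    have := Abel.omega_elem (p := p) (cent_mono a3 le_rfl omega_le)
    rw [omega_omega] at this
    exact (this.card_le_prank hp (omega_le.trans a1)).trans (Nat.pow_le_pow_right hp.pos hr')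
  have b := one_lt_relIndex hKH.not_ge
  rw [hn] at this b ⊢
  have := (Nat.pow_le_pow_iff_right hp.one_lt).1 this
  interval_cases n <;> simp at b ⊢

end Cfsg.Agent.S1895
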