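import Cfsg.Statements.S1897
import Cfsg.Agent.H15.StdU33
import Cfsg.Agent.H15.StdL32
import Cfsg.Agent.H15.Emb2
import Cfsg.Agent.S0255
-- import your own Cfsg.Agent.* helpers here

set_option autoImplicit false
open Cfsg

namespace Cfsg.Agent.S1897

/-- The projective special unitary group PSU₃(3) (realised over the field with 9 elements) has a subgroup isomorphic to PSL₂(7). -/
theorem result {F : Type*} [Field F] [Fintype F] (hF : Fintype.card F = 9)
    {K : Type*} [Field K] [Fintype K] (hK : Fintype.card K = 7) :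
    ∃ H : Subgroup (Cfsg.PSU 3 F 3), Nonempty (H ≃* Matrix.ProjectiveSpecialLinearGroup (Fin 2) K) := by
  obtain ⟨S⟩ := H15.StdU33.std hF
  obtain ⟨T⟩ := H15.StdL32.std (F := ZMod 2) (ZMod.card 2)
  obtain ⟨e⟩ := Cfsg.Agent.S0255.result hK (ZMod.card 2)
  have := S.faithful
  have := Matrix.ProjectiveSpecialLinearGroup.rank_two_simple (F := K) (by rw [Nat.card_eq_fintype_card]; omega)
  obtain ⟨r, n⟩ := H15.sub_of_chk (H15.base_of_fix S.M S.top (H15.StdU33.fixw0 S.M (H15.StdU33.rels_of_all S.rels)))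
    (C := 64) (D := 5) (W := [[6, 6, 9], [0, 6, 3, 9], [2, 8, 11, 4], [0, 11, 0, 11], [0, 11, 5, 2, 6]])
    (rels := H15.StdL32.allRels) (c := 2) (by decide +kernel)
  obtain ⟨φ, -, h⟩ := H15.StdL32.hom' T _ r
  exact ⟨_, ⟨(MonoidHom.ofInjective (H15.inj_of_simple (φ.comp e.toMonoidHom) (g := e.symm (T.M.gen 0))
    (by simpa [h 0 (by decide)] using n))).symm⟩⟩

end Cfsg.Agent.S1897
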