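import Cfsg.Statements.S1898
import Cfsg.Agent.H21.HSub
import Cfsg.Agent.H1.Hol

set_option autoImplicit false
open Cfsg

namespace Cfsg.Agent.S1898
open H18 H1 Subgroup
open scoped commutatorElement

/-- Let X be a finite 2-group whose derived subgroup is elementary abelian and central. Then the subgroup generated by the elements of order dividing 4 has exponent dividing 4, and every automorphism of X fixing each element of order dividing 4 has 2-power order. -/
theorem result {X : Type*} [Group X] [Finite X] (hX : IsPGroup 2 X)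
    (hel : Cfsg.IsElementaryAbelian 2 (commutator X)) (hcen : commutator X ≤ Subgroup.center X) :
    (∀ x ∈ Subgroup.closure {g : X | g ^ 4 = 1}, x ^ 4 = 1) ∧
      ∀ φ : MulAut X, (∀ g : X, g ^ 4 = 1 → φ g = g) → ∃ k : ℕ, φ ^ (2 ^ k) = 1 := by
  have a : ∀ x y : X, y * x = x * y * ⁅y⁻¹, x⁻¹⁆ := fun x y => by group
  have m : ∀ x y : X, ⁅x, y⁆ ∈ commutator X := fun x y => commutator_mem_commutator (mem_top _) (mem_top _)
  have b : ∀ x y : X, Commute (x ^ 2) y := fun x y => by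
    have c := mem_center_iff.1 (hcen (m y⁻¹ x⁻¹))
    have d := (elem_iff.2 hel).pow _ (m y⁻¹ x⁻¹)
    show _ = _
    calc x ^ 2 * y = x * (x * y * ⁅y⁻¹, x⁻¹⁆) * ⁅y⁻¹, x⁻¹⁆ := by rw [mul_assoc, mul_assoc, mul_assoc, ← sq, d, mul_one, sq, mul_assoc]
      _ = x * y * (x * ⁅y⁻¹, x⁻¹⁆) := by rw [← a]; group
      _ = _ := by rw [c, ← mul_assoc, ← a, sq, mul_assoc]
  refine ⟨fun x hx => ?_, fun φ h => ?_⟩
  · induction hx using closure_induction with
    | mem x h => exact h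
    | one => exact one_pow _
    | inv x _ h => rw [inv_pow, h, inv_one]
    | mul x y _ _ hx hy =>
      have c : Commute (x ^ 2 * y ^ 2) ⁅y⁻¹, x⁻¹⁆ := mem_center_iff.1 (hcen (m y⁻¹ x⁻¹)) _
      have e : (x * y) ^ 2 = x ^ 2 * y ^ 2 * ⁅y⁻¹, x⁻¹⁆ := by
        rw [sq, mul_assoc, ← mul_assoc y, a x y, mul_assoc _ _ y, ← mem_center_iff.1 (hcen (m y⁻¹ x⁻¹))]; simp only [sq, mul_assoc]
      rw [show 4 = 2 * 2 from rfl, pow_mul, e, c.mul_pow, (elem_iff.2 hel).pow _ (m _ _), (b _ _).mul_pow, ← pow_mul,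
        ← pow_mul, hx, hy]; simp
  have hψ : piPart {2}ᶜ φ = 1 := by
    have := H21.cent_of_pow_four (P := hl (MonoidHom.id (MulAut X)) ⊤) (piGrp_hl.2 (piGrp_of_isPGroup Nat.prime_two
      (hX.to_subgroup ⊤))) hr_norm_top (piGrp_hr.2 (piElt_piPart (π := {2}ᶜ) (x := φ)).zpowers) fun x hx h4 => by
        obtain ⟨x, -, rfl⟩ := mem_hl.1 hx
        rw [← map_pow, map_eq_one_iff _ SemidirectProduct.inl_injective] at h4
        refine inl_mem_C.2 (mem_fixS.2 fun a ha => ?_)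
        exact (mem_fixS (φ := MonoidHom.id _)).1 (mem_fixS_zpowers.2 (h x h4)) a (zpowers_le.2 piPart_mem_zpowers ha)
    ext x
    exact mem_fixS_zpowers.1 (hl_le_C_iff.1 (cent_symm this) (mem_top x))
  obtain ⟨k, hk⟩ := (piPart_eq_one_iff.1 hψ).of_compl_compl.eq_pow (orderOf_pos φ).ne'
  exact ⟨k, hk ▸ pow_orderOf_eq_one φ⟩

end Cfsg.Agent.S1898
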