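import Cfsg.Statements.S1899
import Cfsg.Agent.H18.BG1

set_option autoImplicit false
open Cfsg

namespace Cfsg.Agent.S1899
open H18 Subgroup

/-- Let a dihedral group of order 2n, n odd and n > 1, act on a finite abelian 2-group A through automorphisms d and t with d^n = 1, t² = 1 and t d t⁻¹ = d⁻¹, and suppose that d fixes only the identity. Then A is the internal direct product of C_A(t) and its image under d. -/
theorem result {A : Type*} [CommGroup A] [Finite A] (hA : IsPGroup 2 A)
    {n : ℕ} (hn : Odd n) (hn1 : 1 < n) (d t : MulAut A) (hd : d ^ n = 1) (ht : t ^ 2 = 1) (hdt : t * d * t⁻¹ = d⁻¹)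
    (hfix : ∀ a : A, d a = a → a = 1) :
    (MulEquiv.toMonoidHom t).eqLocus (MonoidHom.id A) ⊓ ((MulEquiv.toMonoidHom t).eqLocus (MonoidHom.id A)).map d.toMonoidHom = ⊥ ∧
      (MulEquiv.toMonoidHom t).eqLocus (MonoidHom.id A) ⊔ ((MulEquiv.toMonoidHom t).eqLocus (MonoidHom.id A)).map d.toMonoidHom = ⊤ := by
  have h2 : ∀ a : A, d (d a) = a → a = 1 := fun a h => by
    obtain ⟨k, rfl⟩ := hn
    have b : ∀ j : ℕ, (d ^ (2 * j)) a = a := fun j => by
      induction j with
      | zero => simp
      | succ j ih => rw [Nat.mul_succ, pow_add, MulAut.mul_apply, sq, MulAut.mul_apply, h, ih]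
    refine hfix a ?_
    have := congrArg (fun f : MulAut A => f a) hd
    simpa only [pow_succ', MulAut.mul_apply, b, MulAut.one_apply] using this
  have h3 : ∀ a, d (t (d a)) = t a := fun a => by
    rw [← MulAut.mul_apply _ t, mul_inv_eq_iff_eq_mul.1 hdt, MulAut.mul_apply, MulAut.apply_inv_self]
  have h4 : ∀ a, t (t a) = a := fun a => by rw [← MulAut.mul_apply, ← sq, ht, MulAut.one_apply]
  set B := (MulEquiv.toMonoidHom t).eqLocus (MonoidHom.id A)
  have e1 : B ⊓ B.map d.toMonoidHom = ⊥ := eq_bot_iff.2 <| by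
    rintro _ ⟨h, a, ha, rfl⟩
    have h : t (d a) = d a := h
    have ha : t a = a := ha
    rw [h2 a (by rw [← h, h3, ha])]; simp
  refine ⟨e1, ?_⟩
  let f : A →* A := t.toMonoidHom / MonoidHom.id A
  have hf : ∀ a ∈ f.range, t a = a⁻¹ := by rintro _ ⟨a, rfl⟩; simp [f, h4]
  have e2 : f.range ⊓ f.range.map d.toMonoidHom = ⊥ := eq_bot_iff.2 <| by
    rintro _ ⟨h, a, ha, rfl⟩
    have h : t (d a) = (d a)⁻¹ := hf _ h
    rw [h2 a (inv_injective (by rw [← map_inv, ← h, h3, hf a ha]))]; simp
  have c : ∀ X : Subgroup A, Nat.card (X.map d.toMonoidHom) = Nat.card X := fun X => card_map_of_injective d.injective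
  have n : ∀ X Y : Subgroup A, Nrm2 X Y := fun X Y => .inl norm_of_normal
  have a1 := (n _ _).card_sup_of_disj e1
  have a2 := card_le (le_top (a := f.range ⊔ f.range.map d.toMonoidHom))
  have a3 : Nat.card B * Nat.card f.range = Nat.card (⊤ : Subgroup A) := by
    rw [← index_ker, card_top, ← f.ker.card_mul_index]
    congr 3; ext a; exact div_eq_one.symm
  rw [(n _ _).card_sup_of_disj e2, c, ← a3] at a2
  refine eq_of_card_ge le_top ?_
  rw [a1, c, ← a3]
  exact Nat.mul_le_mul_left _ (Nat.le_of_mul_le_mul_right a2 card_pos')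

end Cfsg.Agent.S1899
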