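import Cfsg.Statements.S1900
import Cfsg.Agent.H18.BG1
import Cfsg.Agent.H3.Petrescu

set_option autoImplicit false
open Cfsg

namespace Cfsg.Agent.S1900
open H18 Subgroup
open H1 (Cop cop_of_pi cop_of_pi')
open scoped commutatorElement

theorem aux {S : Type*} [Group S] {P X A B : Subgroup S} (hA : A ≤ P) (hB : B ≤ P) (e : A ⊔ B = P) (hX : A ≤ C(X))
    (hb : ⁅B, X⁆ = B) (n0 : X ≤ N(P)) (n1 : X ≤ N(A)) (n2 : X ≤ N(B))
    (h : ⁅A, B⁆ ≤ (⁅A, B⁆ ⊓ A) ⊔ (⁅A, B⁆ ⊓ B)) : ⁅A, B⁆ ≤ ⁅⁅A, B⁆, P⁆ ⊔ (⁅A, B⁆ ⊓ B) := by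
  have nP : P ≤ N(⁅A, B⁆) := e ▸ sup_le norm_comm_left norm_comm_right
  have n3 := norm_comm n1 n2
  have a1 : P ≤ N(⁅⁅A, B⁆, P⁆ ⊔ (⁅A, B⁆ ⊓ B)) :=
    norm_of_comm_le_of_le le_sup_left (sup_le (comm_le_left nP) inf_le_left)
  have a2 : X ≤ N(⁅⁅A, B⁆, P⁆ ⊔ (⁅A, B⁆ ⊓ B)) := norm_sup (norm_comm n3 n0) (norm_inf n3 n2)
  have := H3.three_subgroup_mod (A := B) (B := X) (C := A) (hB.trans a1) a2 (hA.trans a1)
    (by rw [comm_eq_bot_iff.2 (cent_symm hX)]; simp) (by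
      refine (comm_mono h le_rfl).trans (comm_sup_le ?_ ?_ ((inf_le_right.trans hA).trans a1) ((inf_le_right.trans hB).trans a1))
      · rw [comm_eq_bot_iff.2 (inf_le_right.trans hX)]; exact bot_le
      · exact (comm_le_left (norm_inf n3 n2)).trans le_sup_right)
  rwa [hb, comm_comm] at this

/-- Let S = PQ be a finite group with P a normal Sylow p-subgroup and Q elementary abelian of order q², q a prime different from p. If exactly two subgroups X₁, X₂ of order q in Q have a nontrivial centralizer in P, then P is the internal direct product of C_P(X₁) and C_P(X₂): they commute elementwise, meet trivially and generate P. -/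
theorem result {S : Type*} [Group S] [Finite S] {p q : ℕ} [Fact p.Prime] [Fact q.Prime] (hpq : p ≠ q)
    (P : Sylow p S) [(P : Subgroup S).Normal] (Q : Subgroup S) (hQ : Cfsg.IsElementaryAbelian q Q) (hQc : Nat.card Q = q ^ 2)
    (hS : (P : Subgroup S) ⊔ Q = ⊤)
    (X₁ X₂ : Subgroup S) (h₁ : X₁ ≤ Q) (h₂ : X₂ ≤ Q) (h₁₂ : X₁ ≠ X₂) (hc₁ : Nat.card X₁ = q) (hc₂ : Nat.card X₂ = q)
    (hf₁ : (P : Subgroup S) ⊓ Subgroup.centralizer (X₁ : Set S) ≠ ⊥)
    (hf₂ : (P : Subgroup S) ⊓ Subgroup.centralizer (X₂ : Set S) ≠ ⊥)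
    (honly : ∀ X : Subgroup S, X ≤ Q → Nat.card X = q →
      (P : Subgroup S) ⊓ Subgroup.centralizer (X : Set S) ≠ ⊥ → X = X₁ ∨ X = X₂) :
    ⁅(P : Subgroup S) ⊓ Subgroup.centralizer (X₁ : Set S), (P : Subgroup S) ⊓ Subgroup.centralizer (X₂ : Set S)⁆ = ⊥ ∧
      ((P : Subgroup S) ⊓ Subgroup.centralizer (X₁ : Set S)) ⊓ ((P : Subgroup S) ⊓ Subgroup.centralizer (X₂ : Set S)) = ⊥ ∧
      ((P : Subgroup S) ⊓ Subgroup.centralizer (X₁ : Set S)) ⊔ ((P : Subgroup S) ⊓ Subgroup.centralizer (X₂ : Set S)) = P := by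
  have hp : p.Prime := Fact.out
  have hq : q.Prime := Fact.out
  have hP := (hall_sylow_top hp P).pi
  have hE : PElem q 2 Q Q := ⟨le_rfl, elem_iff.2 hQ, hQc⟩
  have hP' : PiGrp {q}ᶜ (P : Subgroup S) := hP.p'_of_ne hpq
  have nC : ∀ X ≤ Q, Q ≤ N((P : Subgroup S) ⊓ C(X)) := fun X hX => norm_inf norm_of_normal (norm_C (hE.abel.norm hX))
  have h0 : (P : Subgroup S) ⊓ C(Q) = ⊥ := by
    by_contra h
    obtain ⟨x, x1, rfl⟩ := exists_gen_of_prime (hc₁ ▸ hq)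
    obtain ⟨y, y1, rfl⟩ := exists_gen_of_prime (hc₂ ▸ hq)
    have hd := prime_inf_eq_bot hq hc₁ hc₂ h₁₂
    have hxy : x * y ∈ Q := mul_mem (h₁ (mem_zpowers x)) (h₂ (mem_zpowers y))
    have a : y ∉ zpowers x := fun a => y1 (eq_one_of_eq_bot hd ⟨a, mem_zpowers y⟩)
    have b : x ∉ zpowers y := fun a => x1 (eq_one_of_eq_bot hd ⟨mem_zpowers x, a⟩)
    rcases honly (zpowers (x * y)) (zpowers_le.2 hxy) (hE.elem.card_zpowers hq hxy fun e =>
      a (by rw [eq_inv_of_mul_eq_one_right e]; simp)) (fun e => h (eq_bot_mono (inf_le_inf_left _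
        (C_anti (zpowers_le.2 hxy))) e)) with e | e
    · exact a ((mul_mem_cancel_left (mem_zpowers x)).1 (e ▸ mem_zpowers _))
    · exact b ((mul_mem_cancel_right (mem_zpowers y)).1 (e ▸ mem_zpowers _))
  have hd : ((P : Subgroup S) ⊓ C(X₁)) ⊓ ((P : Subgroup S) ⊓ C(X₂)) = ⊥ := by
    rw [← inf_inf_distrib_left, ← C_sup, hE.sup_eq_two hq h₁ h₂ hc₁ hc₂ h₁₂, h0]
  have gen : ∀ K ≤ (P : Subgroup S), Q ≤ N(K) → K ≤ (K ⊓ (P ⊓ C(X₁))) ⊔ (K ⊓ (P ⊓ C(X₂))) := fun K hK hn =>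
    coprime_elem_gen_cent hq hE hn (hP'.of_le hK) fun B hB => by
      by_cases h : (P : Subgroup S) ⊓ C(B) = ⊥
      · exact ((inf_le_inf_right _ hK).trans h.le).trans bot_le
      rcases honly B hB.le hB.card_one h with rfl | rfl
      · exact le_sup_of_le_left (le_inf inf_le_left (inf_le_inf_right _ hK))
      · exact le_sup_of_le_right (le_inf inf_le_left (inf_le_inf_right _ hK))
  have e : ((P : Subgroup S) ⊓ C(X₁)) ⊔ ((P : Subgroup S) ⊓ C(X₂)) = P :=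
    le_antisymm (sup_le inf_le_left inf_le_left) ((gen _ le_rfl norm_of_normal).trans (sup_le_sup inf_le_right inf_le_right))
  refine ⟨?_, hd, e⟩
  set A := (P : Subgroup S) ⊓ C(X₁)
  set B := (P : Subgroup S) ⊓ C(X₂)
  have cp : ∀ X ≤ Q, ∀ K ≤ (P : Subgroup S), Q ≤ N(K) → Cop X K := fun X hX K hK hn =>
    cop_of_pi (hX.trans hn) ((hE.pi hq).of_le hX) (hP'.of_le hK) (.inr (hP.of_le hK).solv)
  have nA : Q ≤ N(A) := nC _ h₁
  have nB : Q ≤ N(B) := nC _ h₂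
  have hN : ⁅A, B⁆ ≤ P := comm_le_of_le inf_le_left inf_le_left
  have nN := norm_comm nA nB
  have g := gen _ hN nN
  have f1 : ∀ K ≤ B, Q ≤ N(K) → ⁅K, X₁⁆ = K := fun K hK hn => (cp _ h₁ _ (hK.trans inf_le_left) hn).comm_eq_of_cent
    (eq_bot_mono (le_inf (inf_le_inf_right _ (hK.trans inf_le_left)) (inf_le_left.trans hK)) hd)
  have b1 := aux inf_le_left inf_le_left e inf_le_right (f1 _ le_rfl nB) norm_of_normal (h₁.trans nA) (h₁.trans nB) g
  have b2 := aux (A := B) (B := A) (X := X₂) inf_le_left inf_le_left (by rw [sup_comm, e]) inf_le_right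
    ((cp _ h₂ _ inf_le_left nA).comm_eq_of_cent (eq_bot_mono (le_inf inf_le_left (inf_le_inf_right _ inf_le_left)) hd))
    norm_of_normal (h₂.trans nB) (h₂.trans nA) (by rw [comm_comm, sup_comm]; exact g)
  rw [comm_comm (A := B)] at b2
  have nP : (P : Subgroup S) ≤ N(⁅A, B⁆) := e ▸ sup_le norm_comm_left norm_comm_right
  have nM : (P : Subgroup S) ≤ N(⁅⁅A, B⁆, (P : Subgroup S)⁆) := norm_comm_right
  refine hP.nil.eq_bot_of_le_comm hN le_rfl (b1.trans (sup_le le_rfl ?_))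
  rw [← f1 _ inf_le_right (norm_inf nN nB)]
  refine (comm_mono (inf_le_left.trans b2) le_rfl).trans (comm_sup_le (comm_le_left (h₁.trans (norm_comm nN norm_of_normal)))
    ?_ le_N ((inf_le_left.trans hN).trans nM))
  rw [comm_eq_bot_iff.2 (inf_le_right.trans inf_le_right)]; exact bot_le

end Cfsg.Agent.S1900
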