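import Cfsg.Statements.S1901
import Cfsg.Agent.H1.Harv3

set_option autoImplicit false
open Cfsg

namespace Cfsg.Agent.S1901
open H18 Subgroup
open H1 (Cop cop_of_pi cop_of_pi')
open scoped commutatorElement

theorem aux {G : Type*} [Group G] [Finite G] {p : ℕ} {P H Q A M : Subgroup G} (hP : Hall {p} P H) (hn : Q ≤ N(P))
    (hQ : PiGrp {p}ᶜ Q) (hA : PiGrp {p} A) (hAQ : A ≤ N(Q)) (hAH : A ≤ H) (hM : H ≤ N(M))
    (h : PiGrp {p} M ∨ PiGrp {p}ᶜ M) (e : ⁅Q, A⁆ ≤ M) : Q ≤ C(A) := by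
  have a := comm_le_left hAQ
  rcases h with h | h
  · exact comm_eq_bot_iff.1 (eq_bot_mono (le_inf e a) (h.inf_eq_bot hQ))
  have b : P ≤ C(⁅Q, A⁆) := comm_eq_bot_iff.1 (eq_bot_mono (le_inf (comm_le_left (a.trans hn))
    ((comm_mono le_rfl e).trans (comm_le_right (hP.le.trans hM)))) (hP.pi.inf_eq_bot h))
  refine (cop_of_pi hAQ hA hQ (.inl hA.solv)).cent_of_comm_cent (cent_symm ?_)
  exact (hA.le_of_nml (le_inf hAH norm_comm_right) (nml_cent inf_le_right)
    ((hP.of_le (le_inf hP.le (cent_norm b)) inf_le_left).idx_of_le (le_inf (le_inf hP.le (cent_norm b)) b))).trans inf_le_right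

/-- Let G be a finite p-solvable group and Q a subgroup of order prime to p such that p divides the index of C_G(Q) in N_G(Q). Then Q normalizes no Sylow p-subgroup of G. -/
theorem result {G : Type*} [Group G] [Finite G] {p : ℕ} [Fact p.Prime]
    (hG : Cfsg.IsPSolvable p G) (Q : Subgroup G) (hQ : ¬ p ∣ Nat.card Q)
    (hA : p ∣ (Subgroup.centralizer (Q : Set G)).relIndex (Subgroup.normalizer (Q : Set G)))
    (P : Sylow p G) : ¬ Q ≤ Subgroup.normalizer ((P : Subgroup G) : Set G) := by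
  have hp : p.Prime := Fact.out
  have hs := (H1.isPSolvable_iff_piSep hp).1 hG
  have hQ' : PiGrp {p}ᶜ Q := (piNat_compl_iff hp).2 hQ
  intro hn
  obtain ⟨A, hA'⟩ := exists_sylow hp N(Q)
  have : ⁅Q, A⁆ ≤ ⊥ := chief_induction_down (T := fun W => ⁅Q, A⁆ ≤ W) (H := ⊤) Nml.rfl Nml.bot bot_le le_top
    fun W U hc _ _ h => by
      have n : ∀ {X : Subgroup G}, X ≤ N(W) := fun {_} => le_top.trans hc.nmlV.norm
      refine (comm_le_iff_quo n n).2 (aux ((hall_sylow_top hp P).mim n) (mim_norm hn) hQ'.mim hA'.pi.mim (mim_norm hA'.le)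
        (mim_mono le_top) hc.minNorm.norm ((hs.mim.mono (mim_mono le_top)).minNorm hc.minNorm) ?_)
      rw [← mim_comm n n]; exact mim_mono h
  exact (hA'.idx_of_le (cent_symm (comm_eq_bot_iff.1 (le_bot_iff.1 this)))).not_dvd' hp rfl hA

end Cfsg.Agent.S1901
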