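import Cfsg.Statements.S1902
import Cfsg.Agent.H1.Harv3
import Cfsg.Agent.H21.MinAct

set_option autoImplicit false
open Cfsg

namespace Cfsg.Agent.S1902
open H18 Subgroup
open H1 (Cop cop_of_pi cop_of_pi')
open scoped commutatorElement

/-- Let p be an odd prime, G a finite p-solvable group, and B an elementary abelian subgroup of order p² such that B is the subgroup generated by the elements of order p of some Sylow p-subgroup of C_G(b₀), for some nontrivial b₀ ∈ B. Then every B-invariant subgroup of G of order prime to p lies in O_{p'}(G). -/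
theorem result {G : Type*} [Group G] [Finite G] {p : ℕ} [Fact p.Prime] (hp : p ≠ 2)
    (hG : Cfsg.IsPSolvable p G) (B : Subgroup G) (hB : Cfsg.IsElementaryAbelian p B) (hBc : Nat.card B = p ^ 2)
    (b₀ : G) (hb₀ : b₀ ∈ B) (hb₁ : b₀ ≠ 1) (P : Sylow p ↥(Subgroup.centralizer ({b₀} : Set G)))
    (hBP : B = Subgroup.closure {x : G | x ∈ ((P : Subgroup ↥(Subgroup.centralizer ({b₀} : Set G))).map
      (Subgroup.centralizer ({b₀} : Set G)).subtype : Subgroup G) ∧ orderOf x = p})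
    (Q : Subgroup G) (hQ : ¬ p ∣ Nat.card Q) (hinv : ∀ b ∈ B, ∀ x ∈ Q, b * x * b⁻¹ ∈ Q) :
    Q ≤ Cfsg.pPrimeCore p G := by
  have h2 := hp
  have hp : p.Prime := Fact.out
  have hs := (H1.isPSolvable_iff_piSep hp).1 hG
  have hQ' : PiGrp {p}ᶜ Q := (piNat_compl_iff hp).2 hQ
  have hE := elem_iff.2 hB
  have hP := hall_map_sylow hp P
  set R := (P : Subgroup C1(b₀)).map C1(b₀).subtype
  rw [pPrimeCore_eq hp]
  set O := O[{p}ᶜ]((⊤ : Subgroup G))
  have n : ∀ {X : Subgroup G}, X ≤ N(O) := fun {_} => le_top.trans pcore_nml.norm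
  have nB : B ≤ N(Q) := norm_iff.2 hinv
  have hT := (hE.pi hp).of_le (zpowers_le.2 hb₀)
  have e := quo_inf_cent' (cop_p'core le_top hT) (pcore_nml (H := ⊤))
  rw [top_inf_eq, C_zpowers] at e
  have hP' := hP.mim (f := coset O) n
  rw [e] at hP'
  have nO : ∀ X : Subgroup G, X ⫽ O ≤ N(O[{p}](⊤ ⫽ O)) := fun X => (mim_mono le_top).trans pcore_nml.norm
  have nT : zpowers b₀ ⫽ O ≤ N(Q ⫽ O) := mim_norm ((zpowers_le.2 hb₀).trans nB)
  refine (quo_eq_bot_iff n).1 (PiGrp.eq_bot (pcore_pi.of_le ((le_inf (mim_mono le_top) (cent_symm ?_)).trans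
    (hs.mim.cent_pcore_le pcore_quo_pcore))) hQ'.mim)
  by_contra h
  obtain ⟨U, hU, m⟩ := H21.exists_minAct pcore_pi (sup_le (nO Q) (nO (zpowers b₀))) le_sup_left (sup_le le_N nT) hQ'.mim h
  refine m.nt (cent_symm (H21.PxQ_odd h2 hT.mim hQ'.mim m.pi nT (le_sup_right.trans m.norm) (le_sup_left.trans m.norm)
    fun x hx => ?_))
  have a : x ∈ R ⫽ O := hP'.nml_le (pcore_nml.inf_right inf_le_left) pcore_pi.inf_left ⟨hU hx.1, pcore_le (hU hx.1), hx.2⟩
  obtain ⟨y, hy, rfl⟩ := (mem_quo n).1 a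
  have b : y ^ p = 1 := eq_one_of_eq_bot (hP.pi.inf_eq_bot pcore_pi) ⟨pow_mem hy p, (cs_eq_one_iff (n (mem_top _))).1
    (by rw [mfun_pow (n (mem_top _))]; exact m.pow h2 hx.1)⟩
  have c : y ∈ B := by
    by_cases y1 : y = 1
    · exact y1 ▸ one_mem _
    · exact hBP ▸ subset_closure ⟨hy, orderOf_eq_prime b y1⟩
  exact comm_eq_bot_iff.1 (eq_bot_mono (le_inf ((comm_mono inf_le_left le_rfl).trans (comm_le_left (nO Q)))
    (comm_le_right (inf_le_right.trans (mim_norm nB)))) (pcore_pi.inf_eq_bot hQ'.mim))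
    (⟨hU hx.1, mfun_mem_mim c⟩ : _ ∈ _ ⊓ B ⫽ O)

end Cfsg.Agent.S1902
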