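import Cfsg.Statements.S1903
import Cfsg.Agent.H17.SzAut
import Cfsg.Agent.H17.QR
import Cfsg.Agent.H18.BG1

set_option autoImplicit false
open Cfsg

namespace Cfsg.Agent.S1903

open Subgroup H18 H3 Matrix
open scoped commutatorElement

section
variable {F : Type*} [Field F] [Fintype F] [CharP F 2] {μ : F}

theorem f16 (hF : Fintype.card F = 16) (h5 : μ ^ 5 = 1) (h1 : μ ≠ 1) (a : F) :
    a = 0 ∨ ∃ i : ℕ, a = μ ^ i * 1 ∨ a = μ ^ i * (1 + μ) ∨ a = μ ^ i * (1 + μ ^ 2) := by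
  refine (em _).imp_right fun a0 => ?_
  have two : (2 : F) = 0 := CharTwo.two_eq_zero
  have : Fact (Nat.Prime 5) := ⟨Nat.prime_five⟩
  have pr : IsPrimitiveRoot μ 5 := (orderOf_eq_prime h5 h1) ▸ IsPrimitiveRoot.orderOf μ
  have e : μ ^ 4 + μ ^ 3 + μ ^ 2 + μ + 1 = 0 := mul_left_cancel₀ (sub_ne_zero.2 h1) (by linear_combination h5)
  have k : ∀ c, a ^ 5 = c ^ 5 → ∃ i : ℕ, a = μ ^ i * c := fun c h => by
    have c0 : c ≠ 0 := by rintro rfl; exact a0 (by simpa using h)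
    obtain ⟨i, -, hi⟩ := pr.eq_pow_of_pow_eq_one (ξ := a / c) (by rw [div_pow, h, div_self (pow_ne_zero _ c0)])
    exact ⟨i, by rw [hi, div_mul_cancel₀ _ c0]⟩
  have e1 : (1 + μ) ^ 5 = μ + μ ^ 4 := by linear_combination h5 + (1 + 2 * μ + 5 * μ ^ 2 + 5 * μ ^ 3 + 2 * μ ^ 4) * two
  have e2 : (1 + μ ^ 2) ^ 5 = 1 + μ + μ ^ 4 := by grind
  have e3 := FiniteField.pow_card_sub_one_eq_one a a0
  rw [hF] at e3
  have : (a ^ 5 - 1 ^ 5) * ((a ^ 5 - (1 + μ) ^ 5) * (a ^ 5 - (1 + μ ^ 2) ^ 5)) = 0 := by rw [e1, e2]; grind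
  simp only [mul_eq_zero, sub_eq_zero] at this
  rcases this with h | h | h <;> obtain ⟨i, hi⟩ := k _ h
  exacts [⟨i, .inl hi⟩, ⟨i, .inr (.inl hi)⟩, ⟨i, .inr (.inr hi)⟩]

variable {P : Type*} [Group P] [Finite P]

theorem quad5 (hF : Fintype.card F = 16) (h5 : μ ^ 5 = 1) (h1 : μ ≠ 1) {Z : Subgroup P} (hZ : Nat.card Z = 4)
    (h2 : ∀ a ∈ Z, a * a = 1) (hc : Z ≤ center P) {α : MulAut P} (hα : ∀ a ∈ Z, α a = a) {g : P → F}
    (ga : ∀ x y, g (x * y) = g x + g y) (gk : ∀ x, g x = 0 ↔ x ∈ Z) {x0 : P} (g0 : g x0 = 1) (gα : ∀ x, g (α x) = μ * g x)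
    (hsq : Z ≤ Sq ⊤) : ∃ z : P → ZMod 2 × ZMod 2, (∀ x ∈ Z, ∀ y ∈ Z, z (x * y) = z x + z y) ∧ (∀ x ∈ Z, z x = 0 → x = 1) ∧
      (∀ w, ∃ a ∈ Z, z a = w) ∧ ∀ x, (g x = 0 → z (x * x) = 0) ∧ ∀ i : ℕ, (g x = μ ^ i * 1 → z (x * x) = (1, 0)) ∧
        (g x = μ ^ i * (1 + μ) → z (x * x) = (0, 1)) ∧ (g x = μ ^ i * (1 + μ ^ 2) → z (x * x) = (1, 1)) := by
  have two : (2 : F) = 0 := CharTwo.two_eq_zero
  have sq : ∀ x, x * x ∈ Z := fun x => (gk _).1 (by rw [ga, CharTwo.add_self_eq_zero])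
  have cm : ∀ a ∈ Z, ∀ x, x * a = a * x := fun a ha => mem_center_iff.1 (hc ha)
  have k1 : ∀ x y, g x = g y → x * x = y * y := fun x y h => by
    obtain ⟨a, rfl⟩ : ∃ a, y = x * a := ⟨x⁻¹ * y, by simp⟩
    have := (gk a).1 (by simpa [ga] using h)
    rw [mul_assoc, ← mul_assoc a, ← cm a this, mul_assoc, h2 a this, mul_one]
  have k2 : ∀ (i : ℕ) x y, g x = μ ^ i * g y → x * x = y * y := fun i => by
    induction i with
    | zero => simpa using k1
    | succ i ih => exact fun x y h => (ih x (α y) (by rw [h, gα, pow_succ, mul_assoc])).trans (by rw [← map_mul, hα _ (sq y)])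
  have cZ : ∀ a b : P, ⁅a, b⁆ ∈ Z := fun a b => comm_mem_of_sq (fun x _ => sq x) (mem_top a) (mem_top b)
  have ms : ∀ a b : P, a * b * (a * b) = a * a * ⁅a⁻¹, b⁆ * (b * b) := fun a b => by
    simpa only [pow_two] using H17.QR.mul_sq a b
  obtain ⟨A, hA⟩ : ∃ A, A = x0 * x0 := ⟨_, rfl⟩
  obtain ⟨B, hB⟩ : ∃ B, B = x0 * α x0 * (x0 * α x0) := ⟨_, rfl⟩
  have AZ : A ∈ Z := hA ▸ sq _
  have BZ : B ∈ Z := hB ▸ sq _
  have gB : g (x0 * α x0) = 1 + μ := by rw [ga, gα, g0, mul_one]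
  have gC : g (x0 * α (α x0)) = 1 + μ ^ 2 := by rw [ga, gα, gα, g0]; ring
  have hC : x0 * α (α x0) * (x0 * α (α x0)) = A * B := by
    have e1 := k2 3 (x0 * (α x0 * α (α x0))) (x0 * α x0) (by simp only [ga, gα, g0]; grind)
    have e2 := k2 1 (α x0 * α (α x0)) (x0 * α x0) (by simp only [ga, gα, g0]; ring)
    have e3 := k2 1 (α x0) x0 (by simp only [gα, pow_one])
    have e4 := k2 2 (α (α x0)) x0 (by simp only [gα]; ring)
    rw [ms, e2, ← hA, ← hB, H17.QR.comm_mul_r (hc (cZ _ _)), mul_eq_right, ← mul_assoc] at e1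
    rw [ms, e4, ← hA, hB, ms, e3, ← hA, mul_assoc A _ A, mul_right_inj, mul_left_inj,
      eq_inv_of_mul_eq_one_right e1, inv_eq_of_mul_eq_one_right (h2 _ (mul_mem AZ (cZ _ _)))]
  have all : ∀ x, x * x = 1 ∨ x * x = A ∨ x * x = B ∨ x * x = A * B := fun x => by
    rcases f16 hF h5 h1 (g x) with h | ⟨i, h | h | h⟩
    · exact .inl (h2 x ((gk x).1 h))
    · exact .inr (.inl ((k2 i _ _ (g0 ▸ h)).trans hA.symm))
    · exact .inr (.inr (.inl ((k2 i _ _ (gB ▸ h)).trans hB.symm)))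
    · exact .inr (.inr (.inr ((k2 i _ _ (gC ▸ h)).trans hC)))
  have AA := h2 A AZ
  have BB := h2 B BZ
  have BA := cm A AZ B
  let ψ : ZMod 2 × ZMod 2 → P := fun w => A ^ w.1.val * B ^ w.2.val
  have ψa : ∀ v w, ψ (v + w) = ψ v * ψ w := fun v w => by
    have : ∀ {A : P}, A * A = 1 → ∀ i j : ZMod 2, A ^ (i + j).val = A ^ i.val * A ^ j.val := fun {A} h i j => by
      rw [ZMod.val_add, ← pow_add, ← pow_eq_pow_mod _ (by rwa [pow_two])]
    simp only [ψ, Prod.fst_add, Prod.snd_add, this AA, this BB]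
    exact ((show Commute A B from BA.symm).pow_pow _ _).mul_mul_mul_comm _ _
  have ψ0 : ψ 0 = 1 := by simp [ψ]
  have ψ1 : ψ (1, 0) = A := by simp [ψ, ZMod.val_one]
  have ψ2 : ψ (0, 1) = B := by simp [ψ, ZMod.val_one]
  have ψ3 : ψ (1, 1) = A * B := by simp [ψ, ZMod.val_one]
  have ψZ : ∀ w, ψ w ∈ Z := fun w => mul_mem (pow_mem AZ _) (pow_mem BZ _)
  have sur : ∀ a ∈ Z, ∃ w, ψ w = a := fun a ha =>
    (hsq.trans (Sq_le_iff.2 fun x _ => by
      rcases all x with h | h | h | h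
      exacts [⟨.ofAdd 0, ψ0.trans h.symm⟩, ⟨.ofAdd (1, 0), ψ1.trans h.symm⟩, ⟨.ofAdd (0, 1), ψ2.trans h.symm⟩,
        ⟨.ofAdd (1, 1), ψ3.trans h.symm⟩]) : Z ≤ (MonoidHom.mk' (fun w : Multiplicative _ => ψ w.toAdd) ψa).range) ha
  have inj : Function.Injective ψ := fun v w h => ((Nat.bijective_iff_surjective_and_card fun w => (⟨ψ w, ψZ w⟩ : Z)).2
    ⟨fun a => (sur a a.2).imp fun _ => Subtype.ext, by simp [hZ]⟩).1 (Subtype.ext h)
  have li := Function.leftInverse_invFun inj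
  refine ⟨Function.invFun ψ, fun x hx y hy => ?_, fun x hx h => ?_, fun w => ⟨_, ψZ w, li w⟩, fun x => ⟨fun h => ?_,
    fun i => ⟨fun h => ?_, fun h => ?_, fun h => ?_⟩⟩⟩
  · obtain ⟨v, rfl⟩ := sur x hx
    obtain ⟨w, rfl⟩ := sur y hy
    rw [← ψa, li, li, li]
  · obtain ⟨v, rfl⟩ := sur x hx
    rw [← li v, h, ψ0]
  · rw [h2 x ((gk x).1 h), ← ψ0, li]
  · rw [k2 i _ _ (g0 ▸ h), ← hA, ← ψ1, li]
  · rw [k2 i _ _ (gB ▸ h), ← hB, ← ψ2, li]
  · rw [k2 i _ _ (gC ▸ h), hC, ← ψ3, li]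

theorem fix5 {α : MulAut P} (h5 : α ^ 5 = 1) {K : Subgroup P} (hK : XInv α K) (h4 : Nat.card K = 4) : ∀ a ∈ K, α a = a := by
  intro a ha
  by_contra h
  have := Fintype.ofFinite K
  have : Fact (Nat.Prime 5) := ⟨Nat.prime_five⟩
  have e := Function.minimalPeriod_le_card (f := fun x : K => (⟨α x, hK _ x.2⟩ : K)) (x := ⟨a, ha⟩)
  rw [Function.minimalPeriod_eq_prime (p := 5) (Subtype.ext (by
    simpa [pow_succ] using MulEquiv.congr_fun h5 a)) fun e => h (congrArg Subtype.val e), ← Nat.card_eq_fintype_card] at e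
  omega

theorem coord5 (hF : Fintype.card F = 16) (hP : Nat.card P = 64) (hZ : Nat.card (center P) = 4) {α : MulAut P} (h5 : α ^ 5 = 1)
    (inv0 : ∀ g : P → F, AddOn ⊤ g → (∀ x, g (α x) = g x) → ∀ x, g x = 0) : center P ≤ Sq ⊤ ∧ ∃ (g : P → F) (μ : F),
      μ ^ 5 = 1 ∧ μ ≠ 1 ∧ (∀ x y, g (x * y) = g x + g y) ∧ (∀ x, g x = 0 ↔ x ∈ center P) ∧ (∀ x, g (α x) = μ * g x) ∧
        Function.Surjective g := by
  have p2 : IsPGroup 2 P := .of_card (n := 6) hP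
  have fZ := fix5 h5 (fun x hx => mem_center_iff.2 fun g => by
    obtain ⟨g, rfl⟩ := α.surjective g
    rw [← map_mul, ← map_mul, mem_center_iff.1 hx]) hZ
  have a5 : ∀ x, α (α (α (α (α x)))) = x := fun x => by simpa [pow_succ] using MulEquiv.congr_fun h5 x
  refine ⟨fun a ha => by_contra fun h => ?_, ?_⟩
  · obtain ⟨π, h1, -, h3⟩ := exists_functional (F := F) Sq_le (fun x => sq_mem_Sq) (mem_top a) h
    have := inv0 (fun x => π x + π (α x) + π (α (α x)) + π (α (α (α x))) + π (α (α (α (α x))))) (fun x _ y _ => by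
      simp only [map_mul, h1 _ trivial _ trivial]; ring) (fun x => by rw [a5]; ring) a
    simp only [fZ a ha, CharTwo.add_self_eq_zero, zero_add] at this
    exact h3 this
  obtain ⟨x, -, hx⟩ := SetLike.not_le_iff_exists.1 (not_le_Sq p2 (X := ⊤) fun e => by
    have := congrArg (fun K : Subgroup P => Nat.card K) e
    simp [hP] at this)
  obtain ⟨π, h1, -, h3⟩ := exists_functional (F := F) Sq_le (fun x => sq_mem_Sq) (mem_top x) hx
  obtain ⟨ν, ν0, hν⟩ := exists_avg_ne (ξ := α) h3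
  have gc := avg_conj (π := π) (ξ := α) (by rw [hF, show 16 - 1 = 5 * 3 from rfl, pow_mul, h5, one_pow]) ν0
  have ga := avg_add (ν := ν) (ξ := α) xinv_top h1
  generalize avg α π ν = g, ν⁻¹ = μ at *
  have m5 : μ ^ 5 = 1 := mul_right_cancel₀ hν (by nth_rw 2 [← a5 x]; simp only [gc]; ring)
  have m1 : μ ≠ 1 := fun e => hν (inv0 g ga (by simp [gc, e]) x)
  have pw : ∀ (i : ℕ) x, g ((α ^ i) x) = μ ^ i * g x := fun i x => by
    induction i with
    | zero => simp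
    | succ i ih => rw [pow_succ', MulAut.mul_apply, gc, ih, pow_succ', mul_assoc]
  have sur : Function.Surjective g := fun a => by
    rw [← div_mul_cancel₀ a hν]
    rcases f16 hF m5 m1 (a / g x) with h | ⟨i, h | h | h⟩ <;> rw [h]
    · exact ⟨1, by rw [ga.one, zero_mul]⟩
    · exact ⟨(α ^ i) x, by rw [pw, mul_one]⟩
    · exact ⟨(α ^ i) (x * α x), by rw [pw, ga _ trivial _ trivial, gc]; ring⟩
    · exact ⟨(α ^ i) (x * α (α x)), by rw [pw, ga _ trivial _ trivial, gc, gc]; ring⟩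
  let φ : P →* Multiplicative F := .mk' (fun x => .ofAdd (g x)) fun a b => ga a trivial b trivial
  have c4 := card_mul_index φ.ker
  rw [index_ker, MonoidHom.range_eq_top.2 sur, card_top, hP, Nat.card_congr Multiplicative.toAdd,
    Nat.card_eq_fintype_card (α := F), hF] at c4
  have : center P = φ.ker := eq_of_le_of_card_ge (fun a ha => (mul_left_eq_self₀.1 ((gc a).symm.trans
    (by rw [fZ a ha]))).resolve_left m1) (by omega)
  exact ⟨g, μ, m5, m1, fun a b => ga a trivial b trivial, fun x => by rw [this]; rfl, gc, sur⟩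

theorem iso5 (hF : Fintype.card F = 16) (h5 : μ ^ 5 = 1) (h1 : μ ≠ 1) {U : Type*} [Group U] [Finite U] {Z : Subgroup P}
    {Y : Subgroup U} (hZ : Nat.card Z = 4) (hY : Nat.card Y = 4) (z2 : ∀ a ∈ Z, a * a = 1) (y2 : ∀ a ∈ Y, a * a = 1)
    (zc : Z ≤ center P) (yc : Y ≤ center U) {α : MulAut P} {β : MulAut U} (hα : ∀ a ∈ Z, α a = a) (hβ : ∀ a ∈ Y, β a = a)
    {g : P → F} {f : U → F} (ga : ∀ x y, g (x * y) = g x + g y) (fa : ∀ x y, f (x * y) = f x + f y)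
    (gk : ∀ x, g x = 0 ↔ x ∈ Z) (fk : ∀ x, f x = 0 ↔ x ∈ Y) (gs : Function.Surjective g) (fs : Function.Surjective f)
    (gα : ∀ x, g (α x) = μ * g x) (fβ : ∀ x, f (β x) = μ * f x) (zs : Z ≤ Sq ⊤) (ys : Y ≤ Sq ⊤) :
    ∃ e : P ≃* U, ∀ x, e (α x) = β (e x) := by
  obtain ⟨x0, g0⟩ := gs 1
  obtain ⟨y0, f0⟩ := fs 1
  obtain ⟨z, a1, a2, a3, a4⟩ := quad5 hF h5 h1 hZ z2 zc hα ga gk g0 gα zs
  obtain ⟨z', b1, b2, b3, b4⟩ := quad5 hF h5 h1 hY y2 yc hβ fa fk f0 fβ ys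
  obtain ⟨e, he, -⟩ := iso_of_sq ga fa gk fk (fun x => gs _) (fun x => (fs _).imp fun _ => Eq.symm) a1 b1 a2 b2
    (fun _ _ => a3 _) (fun _ _ => (b3 _).imp fun _ h => ⟨h.1, h.2.symm⟩)
    (fun x => (gk _).1 (by rw [ga, CharTwo.add_self_eq_zero])) (fun x => (fk _).1 (by rw [fa, CharTwo.add_self_eq_zero]))
    fun x y h => by
      rcases f16 hF h5 h1 (g x) with k | ⟨i, k | k | k⟩
      · rw [(a4 x).1 k, (b4 y).1 (h ▸ k)]
      · rw [((a4 x).2 i).1 k, ((b4 y).2 i).1 (h ▸ k)]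
      · rw [((a4 x).2 i).2.1 k, ((b4 y).2 i).2.1 (h ▸ k)]
      · rw [((a4 x).2 i).2.2 k, ((b4 y).2 i).2.2 (h ▸ k)]
  have cm : ∀ a ∈ Y, ∀ x, x * a = a * x := fun a ha => mem_center_iff.1 (yc ha)
  obtain ⟨w, hw⟩ : ∃ w : P → U, ∀ x, e (α x) = β (e x) * w x := ⟨fun x => (β (e x))⁻¹ * e (α x), by simp⟩
  have wY : ∀ x, w x ∈ Y := fun x => (fk _).1 (by simpa [fa, fβ, he, gα] using congrArg f (hw x))
  have wm : ∀ x y, w (x * y) = w x * w y := fun x y => by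
    have := hw (x * y)
    rw [map_mul, map_mul, hw, hw, map_mul, map_mul, mul_assoc, mul_assoc, mul_right_inj, ← mul_assoc, ← cm _ (wY x), mul_assoc,
      mul_right_inj] at this
    exact this.symm
  have wg : ∀ x y, g x = g y → w x = w y := fun x y h => by
    obtain ⟨a, rfl⟩ : ∃ a, y = x * a := ⟨x⁻¹ * y, by simp⟩
    have a0 : g a = 0 := by simpa [ga] using h
    have := hw a
    rw [hα a ((gk a).1 a0), hβ _ ((fk _).1 ((he a).trans a0)), left_eq_mul] at this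
    rw [wm, this, mul_one]
  have m1 : 1 + μ ≠ 0 := fun e => h1 (CharTwo.add_eq_zero.1 e).symm
  choose r hr using fun x => gs (g x / (1 + μ))
  let e' : P →* U := .mk' (fun x => e x * w (r x)) fun x y => by
    rw [wg (r (x * y)) (r x * r y) (by rw [ga, hr, hr, hr, ga, add_div]), wm, map_mul, mul_assoc, mul_assoc, mul_right_inj,
      ← mul_assoc, cm _ (wY (r x)) (e y), mul_assoc]
  have inj : Function.Injective e' := (injective_iff_map_eq_one _).2 fun x hx => by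
    have hx : e x * w (r x) = 1 := hx
    have := congrArg f hx
    rw [fa, he, (fk _).2 (wY _), add_zero, (fk 1).2 (one_mem _)] at this
    rwa [wg (r x) 1 (by rw [hr, this, zero_div, (gk 1).2 (one_mem _)]), show w 1 = 1 by simpa [eq_comm] using hw 1, mul_one,
      EmbeddingLike.map_eq_one_iff] at hx
  refine ⟨.ofBijective e' ((Nat.bijective_iff_injective_and_card _).2 ⟨inj, Nat.card_congr e.toEquiv⟩), fun x => ?_⟩
  change e (α x) * w (r (α x)) = β (e x * w (r x))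
  rw [map_mul, hβ _ (wY _), hw, mul_assoc, wg x (r x * α (r x)) (by rw [ga, gα, hr]; field_simp), wm,
    wg (r (α x)) (α (r x)) (by rw [gα, hr, hr, gα, mul_div_assoc]), mul_assoc, y2 _ (wY _), mul_one]

variable {σ : F ≃+* F} (hq : ∀ x, σ x = x ^ 4)

def dg {l : F} (h : l ^ 5 = 1) : Cfsg.SU 3 F 4 :=
  ⟨⟨!![l, 0, 0; 0, l, 0; 0, 0, l ^ 3], by rw [det_fin_three]; simp; linear_combination h⟩, fun u v => by
    show Cfsg.hermForm 3 F 4 (!![l, 0, 0; 0, l, 0; 0, 0, l ^ 3] *ᵥ u) (!![l, 0, 0; 0, l, 0; 0, 0, l ^ 3] *ᵥ v) = _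
    simp only [Cfsg.hermForm, Fin.sum_univ_three]
    simp [mulVec, dotProduct, Fin.sum_univ_three]
    linear_combination (u 0 * v 0 ^ 4 + u 1 * v 1 ^ 4 + u 2 * v 2 ^ 4 * (l ^ 10 + l ^ 5 + 1)) * h⟩

theorem dg_mul {l m : F} (h : l ^ 5 = 1) (h' : m ^ 5 = 1) (h'' : (l * m) ^ 5 = 1) : dg h * dg h' = dg h'' := by
  refine Subtype.ext (Subtype.ext ?_)
  show !![l, 0, 0; 0, l, 0; 0, 0, l ^ 3] * !![m, 0, 0; 0, m, 0; 0, 0, m ^ 3] = !![l * m, 0, 0; 0, l * m, 0; 0, 0, (l * m) ^ 3]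
  simp [mul_pow]

theorem dg_pow {l : F} (h : l ^ 5 = 1) (k : ℕ) : ∀ h', dg h ^ k = dg (l := l ^ k) h' := by
  induction k with
  | zero => exact fun _ => Subtype.ext (Subtype.ext (show (1 : Matrix (Fin 3) (Fin 3) F) =
      !![l ^ 0, 0, 0; 0, l ^ 0, 0; 0, 0, (l ^ 0) ^ 3] by simp [Matrix.one_fin_three]))
  | succ k ih =>
    intro h'
    rw [pow_succ (dg h), ih (by rw [← pow_mul, mul_comm, pow_mul, h, one_pow]), dg_mul _ _ (by rwa [← pow_succ])]
    congr 1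
    rw [pow_succ]

theorem dg_conj (inv : ∀ a, σ (σ a) = a) {l a b : F} (h : l ^ 5 = 1) (h' : b + σ b = a * σ a) :
    ∃ h'', dg h * suEl inv hq h' = suEl inv hq (a := l ^ 2 * a) (b := b) h'' * dg h := by
  refine ⟨by rw [h', map_mul, hq (l ^ 2)]; linear_combination -(a * σ a * (l ^ 5 + 1)) * h, Subtype.ext (Subtype.ext ?_)⟩
  show !![l, 0, 0; 0, l, 0; 0, 0, l ^ 3] * !![1 + b, b, σ a; b, 1 + b, σ a; a, a, 1] =
    !![1 + b, b, σ (l ^ 2 * a); b, 1 + b, σ (l ^ 2 * a); l ^ 2 * a, l ^ 2 * a, 1] * !![l, 0, 0; 0, l, 0; 0, 0, l ^ 3]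
  rw [map_mul, hq (l ^ 2)]
  ext i j
  fin_cases i <;> fin_cases j <;> simp [Matrix.mul_apply, Fin.sum_univ_three] <;> grind

theorem cent_t (inv : ∀ a, σ (σ a) = a) (h0 : 1 + σ 1 = 0 * σ 0) {g : Cfsg.SU 3 F 4} (h : g * suEl inv hq h0 = suEl inv hq h0 * g) :
    ∃ l h a b h', g = dg (l := l) h * suEl inv hq (a := a) (b := b) h' := by
  have e : g.1.1 * !![1 + 1, 1, σ 0; 1, 1 + 1, σ 0; 0, 0, 1] = !![1 + 1, 1, σ 0; 1, 1 + 1, σ 0; 0, 0, 1] * g.1.1 :=
    congrArg (fun x : Cfsg.SU 3 F 4 => x.1.1) h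
  have e1 := congrFun (congrFun e 0) 0
  have e2 := congrFun (congrFun e 0) 1
  have e3 := congrFun (congrFun e 0) 2
  have e4 := congrFun (congrFun e 2) 0
  simp [Matrix.mul_apply, Fin.sum_univ_three, CharTwo.add_self_eq_zero] at e1 e2 e3 e4
  have d := g.1.2
  rw [det_fin_three] at d
  have u1 := g.2 (Pi.single 0 1) (Pi.single 0 1)
  have u2 := g.2 (Pi.single 2 1) (Pi.single 0 1)
  have u3 := g.2 (Pi.single 2 1) (Pi.single 2 1)
  simp [Cfsg.hermForm, Cfsg.slToMat, Fin.sum_univ_three] at u1 u2 u3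
  rw [e1, ← e2, e3, e4] at d
  rw [e3] at u2 u3
  have d1 : (g.1.1 0 0 + g.1.1 1 0) ^ 2 * g.1.1 2 2 = 1 := by grind
  have d2 : g.1.1 2 2 ^ 5 = 1 := by grind
  have d3 : (g.1.1 0 0 + g.1.1 1 0) ^ 5 = 1 := sq_inj (by grind)
  refine ⟨_, d3, g.1.1 2 0 * (g.1.1 0 0 + g.1.1 1 0) ^ 2, g.1.1 1 0 * (g.1.1 0 0 + g.1.1 1 0) ^ 4, by
    simp only [hq]; grind, Subtype.ext (Subtype.ext ?_)⟩
  change g.1.1 = !![_, 0, 0; 0, _, 0; 0, 0, _] * !![_, _, _; _, _, _; _, _, 1]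
  ext i j
  fin_cases i <;> fin_cases j <;> simp [Matrix.mul_apply, Fin.sum_univ_three, hq, e1, ← e2, e3, e4] <;> grind

end

theorem glue {G H : Type*} [Group G] [Group H] [Finite G] [Finite H] {T : Subgroup G} {U : Subgroup H} (e : T ≃* U)
    {y : G} {d : H} {n : ℕ} (hy : y ^ n = 1) (hd : d ^ n = 1) (n0 : n ≠ 0)
    (cG : Nat.card (T ⊔ zpowers y : Subgroup G) = Nat.card T * n) (cH : Nat.card (U ⊔ zpowers d : Subgroup H) = Nat.card T * n)
    (h : ∀ x : T, ∃ x' : T, x'.1 = y * x * y⁻¹ ∧ (e x').1 = d * e x * d⁻¹) :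
    Nonempty ((T ⊔ zpowers y : Subgroup G) ≃* (U ⊔ zpowers d : Subgroup H)) := by
  let Γ := (T.subtype.prod (U.subtype.comp e.toMonoidHom)).range
  have c1 : Nat.card (Γ ⊔ zpowers (y, d) : Subgroup _) ≤ Nat.card T * n := by
    refine (Nat.le_of_dvd (Nat.mul_pos Nat.card_pos Nat.card_pos) (H1.card_sup_dvd (zpowers_le.2 (mem_N_of_finite ?_)))).trans
      (Nat.mul_le_mul (Nat.card_le_card_of_surjective _ (MonoidHom.rangeRestrict_surjective _)) ?_)
    · rintro _ ⟨x, rfl⟩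
      obtain ⟨x', e1, e2⟩ := h x
      exact ⟨x', Prod.ext e1 e2⟩
    · rw [Nat.card_zpowers]
      exact Nat.le_of_dvd (Nat.pos_of_ne_zero n0) (orderOf_dvd_of_pow_eq_one (Prod.ext hy hd))
  have e1 : (Γ ⊔ zpowers (y, d)).map (MonoidHom.fst G H) = T ⊔ zpowers y := by
    rw [Subgroup.map_sup, MonoidHom.map_zpowers, ← MonoidHom.range_comp, MonoidHom.fst_comp_prod, range_subtype]; rfl
  have e2 : (Γ ⊔ zpowers (y, d)).map (MonoidHom.snd G H) = U ⊔ zpowers d := by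
    rw [Subgroup.map_sup, MonoidHom.map_zpowers, ← MonoidHom.range_comp, MonoidHom.snd_comp_prod, MonoidHom.range_comp,
      MonoidHom.range_eq_top.2 e.surjective, ← MonoidHom.range_eq_map, range_subtype]; rfl
  rw [← e1] at cG ⊢
  rw [← e2] at cH ⊢
  exact ⟨(MulEquiv.ofBijective _ ((Nat.bijective_iff_surjective_and_card _).2 ⟨MonoidHom.subgroupMap_surjective _ _,
    le_antisymm (cG ▸ c1) (Nat.card_le_card_of_surjective _ (MonoidHom.subgroupMap_surjective _ _))⟩)).symm.trans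
    (.ofBijective _ ((Nat.bijective_iff_surjective_and_card _).2 ⟨MonoidHom.subgroupMap_surjective _ _,
    le_antisymm (cH ▸ c1) (Nat.card_le_card_of_surjective _ (MonoidHom.subgroupMap_surjective _ _))⟩))⟩

/-- A finite group of order 320 whose derived subgroup has order 64 and has centre a Klein four-group is isomorphic to the centralizer of an involution in PSU₃(4). -/
theorem result {G : Type*} [Group G] [Finite G] (hG : Nat.card G = 320) (hD : Nat.card (commutator G) = 64)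
    (hZ : IsKleinFour (Subgroup.center (commutator G)))
    {F : Type*} [Field F] [Fintype F] (hF : Fintype.card F = 16) :
    ∃ t : Cfsg.PSU 3 F 4, orderOf t = 2 ∧ Nonempty (G ≃* Subgroup.centralizer ({t} : Set (Cfsg.PSU 3 F 4))) := by
  have : Fact (Nat.Prime 5) := ⟨Nat.prime_five⟩
  obtain ⟨y, hy⟩ := exists_prime_orderOf_dvd_card' (G := G) 5 (by simp [hG])
  have y5 : y ^ 5 = 1 := hy ▸ pow_orderOf_eq_one y
  have cT : Nat.card (commutator G ⊔ zpowers y : Subgroup G) = Nat.card (commutator G) * 5 := by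
    rw [H1.card_sup_of_disjoint le_normalizer_of_normal (disjoint_of_coprime_natCard (by simp [hD, hy]; decide)).eq_bot, Nat.card_zpowers, hy]
  have hT : commutator G ⊔ zpowers y = ⊤ := eq_top_of_card_eq _ (by rw [cT, hD, hG])
  have := H25.charP_of_card (p := 2) (f := 4) hF
  let α : MulAut (commutator G) := MulAut.conjNormal y
  obtain ⟨zs, g, μ, m5, m1, ga, gk, gα, gs⟩ := coord5 hF hD hZ.card_four (α := α) (by rw [← map_pow, y5, map_one])
    fun g ga gα x => by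
      let φ : commutator G →* Multiplicative F := .mk' (fun x => .ofAdd (g x)) fun a b => ga a trivial b trivial
      have pw : ∀ (k : ℕ) x, φ (MulAut.conjNormal (y ^ k) x) = φ x := fun k x => by
        induction k with
        | zero => simp
        | succ k ih => rw [pow_succ', map_mul, MulAut.mul_apply, ← ih]; exact gα _
      have : (commutator G : Subgroup G) ≤ φ.ker.map (commutator G).subtype := by
        refine (commutator_mono hT.ge hT.ge).trans (der_sup.le.trans ?_)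
        refine sup_le (sup_le (commutator_le.2 fun a ha b hb => ⟨⁅(⟨a, ha⟩ : commutator G), ⟨b, hb⟩⁆, ?_, rfl⟩)
          (commutator_le.2 fun a ha b hb => ?_)) (commutator_le.2 fun a ha b hb => ?_)
        · exact (map_commutatorElement φ _ _).trans (commutatorElement_eq_one_iff_mul_comm.2 (mul_comm _ _))
        · obtain ⟨k, rfl⟩ := mem_powers_iff_mem_zpowers.2 hb
          exact ⟨⟨a, ha⟩ * MulAut.conjNormal (y ^ k) ⟨a, ha⟩⁻¹, (map_mul φ _ _).trans (by rw [pw, map_inv, mul_inv_cancel]),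
            (show a * (y ^ k * a⁻¹ * (y ^ k)⁻¹) = _ by simp only [commutatorElement_def, mul_assoc])⟩
        · rw [commutatorElement_eq_one_iff_mul_comm.2 (congrArg Subtype.val (mul_comm' (⟨a, ha⟩ : zpowers y) ⟨b, hb⟩))]
          exact one_mem _
      obtain ⟨x', h1, h2⟩ := this x.2
      exact (Subtype.ext h2 : x' = x) ▸ h1
  obtain ⟨σ0, hq, inv, ne⟩ := H11.exists_frob (q := 4) hF
  let σ : F ≃+* F := RingEquiv.ofBijective σ0 (Finite.injective_iff_bijective.1 σ0.injective)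
  have h := u3d_suU (σ := σ) inv hq fun e => ne (RingHom.ext fun x => DFunLike.congr_fun e x)
  have l5 : (μ ^ 3) ^ 5 = 1 := by rw [← pow_mul, mul_comm, pow_mul, m5, one_pow]
  have dN : dg l5 ∈ normalizer (suU (σ := σ) inv hq : Set (Cfsg.SU 3 F 4)) := mem_N_of_finite (by
    rintro _ ⟨a, b, h, rfl⟩
    obtain ⟨h', e⟩ := dg_conj (σ := σ) hq inv l5 h
    exact ⟨_, _, h', by rw [e, mul_inv_cancel_right]⟩)
  let β := (suU (σ := σ) inv hq).normalizerMonoidHom ⟨_, dN⟩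
  have hβ : ∀ a b h, ∃ h', (β ⟨_, a, b, h, rfl⟩).1 = suEl inv hq (a := (μ ^ 3) ^ 2 * a) (b := b) h' := fun a b h => by
    obtain ⟨h', e⟩ := dg_conj (σ := σ) hq inv l5 h
    exact ⟨h', (show _ = dg l5 * _ * (dg l5)⁻¹ from rfl).trans (by rw [e, mul_inv_cancel_right])⟩
  have fβ : ∀ x, (β x).1.1.1 2 0 = μ * x.1.1.1 2 0 ∧ (β x).1.1.1 1 0 = x.1.1.1 1 0 := by
    rintro ⟨_, a, b, h, rfl⟩
    obtain ⟨h', e⟩ := hβ a b h
    rw [e]
    exact ⟨show (μ ^ 3) ^ 2 * a = μ * a by linear_combination μ * a * m5, rfl⟩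
  have c16 : Nat.card F = 4 ^ 2 := Nat.card_eq_fintype_card.trans hF
  obtain ⟨e, he⟩ := iso5 hF m5 m1 hZ.card_four (h.card_center c16) (fun a ha => congrArg Subtype.val
      (IsKleinFour.mul_self (⟨a, ha⟩ : center _))) (fun a ha => h.sq_eq_one.2 (h.mem_center.1 ha)) le_rfl le_rfl
    (fix5 (α := α) (by rw [← map_pow, y5, map_one]) (fun x hx => (gk _).1 (by rw [gα, (gk _).2 hx, mul_zero])) hZ.card_four)
    (β := β) (fun a ha => h.inj _ _ ((fβ a).1.trans (by rw [h.mem_center.1 ha, mul_zero])) (fβ a).2) ga h.mul_f gk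
    (fun _ => h.mem_center.symm) gs h.f_surj gα (fun x => (fβ x).1) zs fun a ha => by
      obtain ⟨x, rfl⟩ := (H17.cd_u3 h).root a (h.mem_center.1 ha)
      exact sq_mem_Sq trivial
  have d5 : dg l5 ^ 5 = 1 := by
    rw [dg_pow l5 5 (by rw [l5, one_pow]), ← pow_zero (dg l5), dg_pow l5 0 (by simp)]
    congr 1
    rw [l5, pow_zero]
  have h0 : 1 + σ 1 = 0 * σ 0 := by simp [CharTwo.add_self_eq_zero]
  have : Finite (Cfsg.SU 3 F 4) := Subtype.finite
  have hC : suU (σ := σ) inv hq ⊔ zpowers (dg l5) = centralizer {suEl (σ := σ) inv hq h0} := by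
    refine le_antisymm (sup_le (fun x hx => mem_centralizer_singleton_iff.2 (congrArg Subtype.val
      ((h.comm_iff (x := ⟨x, hx⟩) (y := ⟨_, _, _, h0, rfl⟩)).2 (show _ * 0 = σ 0 * _ by simp))))
      (zpowers_le.2 (mem_centralizer_singleton_iff.2 ?_))) fun x hx => ?_
    · obtain ⟨h', e⟩ := dg_conj (σ := σ) hq inv l5 h0
      rw [e]
      congr 2
      exact mul_zero _
    · obtain ⟨l, k5, a, b, h', rfl⟩ := cent_t (σ := σ) hq inv h0 (mem_centralizer_singleton_iff.1 hx)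
      have pr : IsPrimitiveRoot (μ ^ 3) 5 := (orderOf_eq_prime l5 fun e => m1 (by
        linear_combination (μ ^ 3 + 1) * e - μ * m5)) ▸ IsPrimitiveRoot.orderOf _
      obtain ⟨i, -, rfl⟩ := pr.eq_pow_of_pow_eq_one k5
      exact mul_mem (mem_sup_right (dg_pow l5 i k5 ▸ npow_mem_zpowers _ _)) (mem_sup_left ⟨_, _, h', rfl⟩)
  have o5 : orderOf (dg l5) = 5 := orderOf_eq_prime d5 fun e => m1 (by
    have : μ ^ 3 = 1 := congrArg (fun g : Cfsg.SU 3 F 4 => g.1.1 0 0) e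
    linear_combination (μ ^ 3 + 1) * this - μ * m5)
  obtain ⟨E⟩ := glue e y5 d5 (by decide) cT (by
    rw [H1.card_sup_of_disjoint (zpowers_le.2 dN) (disjoint_of_coprime_natCard (by simp [h.card c16, o5]; decide)).eq_bot,
      Nat.card_zpowers, o5, h.card c16, hD]; rfl) fun x => ⟨α x, rfl, congrArg Subtype.val (he x)⟩
  rw [hT, hC] at E
  let φ : Cfsg.SU 3 F 4 ≃* Cfsg.PSU 3 F 4 := .ofBijective (QuotientGroup.mk' _) ⟨(MonoidHom.ker_eq_bot_iff _).1 (by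
    rw [QuotientGroup.ker_mk', ← card_eq_one, Cfsg.Agent.S0279.result (q := 4) hF 3 le_rfl]; rfl), QuotientGroup.mk'_surjective _⟩
  refine ⟨φ (suEl (σ := σ) inv hq h0), ?_, ⟨topEquiv.symm.trans (E.trans ((φ.subgroupMap _).trans (.subgroupCongr ?_)))⟩⟩
  · rw [MulEquiv.orderOf_eq]
    refine orderOf_eq_prime ((pow_two _).trans (congrArg Subtype.val ((h.sq_eq_one (x := ⟨_, _, _, h0, rfl⟩)).2 rfl))) fun e => ?_
    exact one_ne_zero (α := F) (congrArg (fun g : Cfsg.SU 3 F 4 => g.1.1 1 0) e)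
  · ext x
    obtain ⟨x, rfl⟩ := φ.surjective x
    rw [mem_centralizer_singleton_iff, ← map_mul, ← map_mul, φ.apply_eq_iff_eq, ← mem_centralizer_singleton_iff]
    exact mem_map_iff_mem φ.injective

end Cfsg.Agent.S1903
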