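import Cfsg.Statements.S1904
import Cfsg.Agent.H22.Sc2
import Cfsg.Agent.H1.Hol

set_option autoImplicit false
open Cfsg

namespace Cfsg.Agent.S1904

open H18 H1 Subgroup H22.Sc SemidirectProduct

/-- Let X be a finite nonabelian 2-group with no normal abelian subgroup that is self-centralizing and contains an elementary abelian subgroup of order 8. Suppose a group A of automorphisms of X of odd order satisfies [X, A] = X. Then X is the quaternion group of order 8, or X is special of order 64 with exactly three involutions, all central, or X is extraspecial of order 32 with exactly eleven involutions (the central product of a quaternion group and a dihedral group of order 8). -/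
theorem result {X : Type*} [Group X] [Finite X] (hX : IsPGroup 2 X) (hna : ¬ IsMulCommutative X)
    (hscn : ¬ ∃ A : Subgroup X, A.Normal ∧ Subgroup.centralizer (A : Set X) = A ∧
      ∃ E : Subgroup X, E ≤ A ∧ Cfsg.IsElementaryAbelian 2 E ∧ Nat.card E = 8)
    (A : Subgroup (MulAut X)) (hA : Odd (Nat.card A))
    (hXA : Subgroup.closure {g : X | ∃ φ ∈ A, ∃ x : X, g = x⁻¹ * φ x} = ⊤) :
    Nonempty (X ≃* QuaternionGroup 2) ∨
      (Cfsg.IsSpecial 2 X ∧ Nat.card X = 64 ∧ Nat.card {x : X // orderOf x = 2} = 3 ∧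
        ∀ x : X, orderOf x = 2 → x ∈ Subgroup.center X) ∨
      (Cfsg.IsExtraspecial 2 X ∧ Nat.card X = 32 ∧ Nat.card {x : X // orderOf x = 2} = 11) := by
  have two := Nat.prime_two
  have : Finite (MulAut X) := inferInstance
  have pX : PiGrp {2} (⊤ : Subgroup X) := piGrp_of_isPGroup two (hX.to_subgroup ⊤)
  have na : ¬ Abel (⊤ : Subgroup X) := fun d => hna (H21.abel_top_iff.1 d)
  have h : Hy (hl A.subtype ⊤) (hr A.subtype ⊤) := by
    refine ⟨piGrp_hl.2 pX, piGrp_hr.2 (H5.piNat_two_compl.2 (by rwa [card_top])), hr_norm_top, ?_,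
      fun d => na (abel_hl.1 d), fun U u1 u2 u3 => ?_⟩
    · rw [comm_hl_hr, ← hXA, comS]; congr 2; ext g; simp [hXA]
    obtain ⟨K, -, rfl⟩ := exists_hl u1
    by_contra c
    obtain ⟨B, b1, b2⟩ := H3.exists_SCN two pX (hl_nml_iff.1 ⟨u1, u2⟩) (abel_hl.1 u3.abel)
    have eK : Elem 2 K := ⟨abel_hl.1 u3.abel, fun a ha => inl_injective (φ := A.subtype)
      (by rw [map_pow, map_one]; exact u3.pow _ ⟨a, ha, rfl⟩)⟩
    obtain ⟨E, hE⟩ := H3.exists_pElem_of_le (n := 3) two eK (by
      obtain ⟨k, hk⟩ := (eK.pi two).card_eq_pow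
      rw [card_hl, hk] at c; rw [hk]
      exact Nat.pow_le_pow_right two.pos (by_contra fun d => c (Nat.pow_le_pow_right (j := 2) two.pos (by omega))))
    exact hscn ⟨B, norm_top_iff.1 b2.nml.norm, by simpa using b2.cent, E, hE.le.trans b1, hE.elem.isElem, hE.card⟩
  have inj := inl_injective (φ := A.subtype)
  have cn : {g | g ∈ hl A.subtype ⊤ ∧ orderOf g = 2}.ncard = Nat.card {x : X // orderOf x = 2} := by
    rw [show Nat.card {x : X // orderOf x = 2} = {x : X | orderOf x = 2}.ncard from rfl,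
      ← Set.ncard_image_of_injective _ inj]
    congr 1; ext g; constructor
    · rintro ⟨⟨x, -, rfl⟩, o⟩; exact ⟨x, orderOf_inl.symm.trans o, rfl⟩
    · rintro ⟨x, o, rfl⟩; exact ⟨⟨x, trivial, rfl⟩, orderOf_inl.trans o⟩
  have eZ : Z(hl A.subtype ⊤) = (center X).map inl := by rw [← H21.Z_top, H21.map_Z inj]; rfl
  rcases h.main with ⟨x, q⟩ | ⟨h1, h2, h3, h4, h5⟩ | ⟨h1, h2, h3⟩
  · obtain ⟨e⟩ := q.1.equiv_quaternion q.2
    exact .inl ⟨topEquiv.symm.trans ((hlEquiv A.subtype ⊤).trans e)⟩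
  · refine .inr (.inl ⟨⟨hX, map_injective inj ?_, map_injective inj ?_⟩, by rwa [card_hl, card_top] at h3, cn ▸ h4,
      fun x o => (mem_map_iff_mem inj).1 (eZ ▸ h5 _ ⟨x, trivial, rfl⟩ (orderOf_inl.trans o))⟩)
    · rw [← eZ, ← h1, ← phi_top, ← H22.R4.phi_map pX]; rfl
    · rw [← eZ, ← h2, commutator_def, map_commutator]; rfl
  · exact .inr (.inr ⟨(H21.isExtraspecial_iff_top two).2 ⟨(H21.es_map_iff inj).1 h1, na⟩,
      by rwa [card_hl, card_top] at h2, cn ▸ h3⟩)

end Cfsg.Agent.S1904
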