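import Cfsg.Statements.S1924
import Cfsg.Agent.H5.SignT

set_option autoImplicit false
open Cfsg

namespace Cfsg.Agent.S1924
open H5
open H18 Subgroup

/-- A consequence of Thompson's transfer lemma. Let G be a finite group, L a subgroup with O²(L) = L, T a Sylow 2-subgroup of L and S a Sylow 2-subgroup of G containing T. Suppose D ≤ S is a dihedral subgroup of order at least 4 (the four-group counts) with D ∩ T = 1 and S = TD as a set of products (so |S| = |T|·|D|), and C ≤ D is cyclic of index 2 in D. If no involution of D outside C is G-conjugate to an involution of the subgroup generated by T and C, and the involution of C is not G-conjugate to any involution of T, then G has a normal subgroup K, containing every Sylow 2-subgroup of L as a Sylow 2-subgroup, with G = KD. -/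
theorem result {G : Type*} [Group G] [Finite G] (L T S D C : Subgroup G) (hL : Cfsg.pResidual 2 ↥L = ⊤)
    (hTL : T ≤ L) (hT2 : IsPGroup 2 T) (hTsyl : ¬ 2 ∣ T.relIndex L)
    (hS2 : IsPGroup 2 S) (hSsyl : ¬ 2 ∣ S.index) (hTS : T ≤ S)
    (hDS : D ≤ S) (hDih : ∃ n : ℕ, 2 ≤ n ∧ Nonempty (↥D ≃* DihedralGroup n)) (hDT : D ⊓ T = ⊥) (hTD : T ⊔ D = S) (hTDc : Nat.card T * Nat.card D = Nat.card S)
    (hCD : C ≤ D) (hC : IsCyclic ↥C) (hCi : C.relIndex D = 2)
    (h1 : ∀ x ∈ D, x ∉ C → orderOf x = 2 → ∀ g : G, g * x * g⁻¹ ∈ T ⊔ C → False)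
    (h2 : ∀ c ∈ C, orderOf c = 2 → ∀ g : G, g * c * g⁻¹ ∈ T → False) :
    ∃ K : Subgroup G, K.Normal ∧ K ⊔ D = ⊤ ∧
      ∀ T' : Subgroup G, T' ≤ L → IsPGroup 2 T' → ¬ 2 ∣ T'.relIndex L → T' ≤ K ∧ ¬ 2 ∣ T'.relIndex K := by
  have p2 := Nat.prime_two
  have hS : Hall {2} S ⊤ := ⟨le_top, piGrp_of_isPGroup p2 hS2, (piNat_compl_iff p2).2 (by rwa [relIndex_top_right])⟩
  have hT : Hall {2} T L := ⟨hTL, piGrp_of_isPGroup p2 hT2, (piNat_compl_iff p2).2 hTsyl⟩
  set K := H17.oUp 2 (⊤ : Subgroup G) with hK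
  have nK : K ⊴ ⊤ := ⟨le_top, H17.le_normalizer_oUp 2 ⊤⟩
  have hKK : K ≤ H17.oUp 2 K := H17.oUp_le_iff.2 fun g _ hg =>
    H17.le_oUp (H17.le_oUp le_top (by rwa [card_zpowers'])) (by rwa [card_zpowers']) (mem_zpowers g)
  have hLK : L ≤ K := by
    have := H17.map_pResidual (p := 2) L
    rw [hL, ← MonoidHom.range_eq_map, range_subtype] at this
    exact this.le.trans (H17.oUp_mono 2 le_top)
  obtain ⟨n, hn, ⟨e⟩⟩ := hDih
  have inv : ∀ x ∈ D, x ∉ C → orderOf x = 2 := fun x hx hc => by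
    refine orderOf_eq_prime ?_ fun e => hc (e ▸ one_mem _)
    obtain ⟨c, rfl⟩ := Cyc.gen hC
    have cD := hCD (mem_zpowers c)
    suffices e ⟨x, hx⟩ ^ 2 = 1 by
      rw [← map_pow, e.map_eq_one_iff] at this; exact congrArg Subtype.val this
    rcases ex : e ⟨x, hx⟩ with i | i
    · rcases ec : e ⟨c, cD⟩ with j | j
      · have a : ∀ y : D, (y : G) ∈ zpowers c → ∃ l, e y = .r l := by
          rintro y ⟨l, hl⟩
          exact ⟨_, by rw [show y = ⟨c, cD⟩ ^ l from Subtype.ext hl.symm, map_zpow, ec, DihedralGroup.r_zpow]⟩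
        by_cases h : ((e.symm (.sr 0) : D) : G) ∈ zpowers c
        · obtain ⟨l, hl⟩ := a _ h; simp at hl
        · obtain ⟨l, hl⟩ := a (⟨x, hx⟩ * e.symm (.sr 0)) ((mul_mem_iff_of_index_two (H := (zpowers c).subgroupOf D) hCi).2
            (iff_of_false hc h))
          simp [ex] at hl
      · have a := card_mul_relIndex hCD
        rw [hCi, card_zpowers', ← Subgroup.orderOf_mk c cD, ← e.orderOf_eq, ec, DihedralGroup.orderOf_sr,
          Nat.card_congr e.toEquiv, DihedralGroup.nat_card] at a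
        obtain rfl : n = 2 := by omega
        clear ex; revert i; decide
    · rw [sq, DihedralGroup.sr_mul_self]
  have od : ∀ {X Y : Subgroup G}, Hall {2} X Y → Odd (X.relIndex Y) := fun h => Nat.odd_iff.2 (Nat.two_dvd_ne_zero.1 (h.idx.not_dvd' p2 rfl))
  have a1 : K ⊓ D ≤ C := fun x hx => by
    by_contra hc
    have h2 := inv x hx.2 hc
    have b0 : T ⊔ C ≤ S := sup_le hTS (hCD.trans hDS)
    have b1 := card_mul_le (le_sup_left : T ≤ T ⊔ C) le_sup_right
    rw [eq_bot_mono (inf_le_inf_left T hCD) (by rwa [inf_comm]), card_bot, one_mul] at b1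
    have b2 := card_mul_relIndex hCD
    have b3 := card_mul_relIndex b0
    have b4 := one_lt_relIndex fun h : S ≤ T ⊔ C => h1 x hx.2 hc h2 1 (by simpa using h (hDS hx.2))
    have b5 : 0 < Nat.card ↥(T ⊔ C) := card_pos'
    rw [hCi] at b2
    have b6 : (T ⊔ C).relIndex S = 2 := by nlinarith
    refine not_mem_oUp (T := T ⊔ C) (by rw [h2]; decide) (fun g _ m hm => ?_)
      (by rw [← relIndex_tower b0 le_top, b6, h2]) (od hS) hx.1
    rw [← pow_mod_orderOf, h2] at hm ⊢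
    rcases Nat.mod_two_eq_zero_or_one m with h | h
    · rw [h, pow_zero]
    · rw [h, pow_one] at hm; exact (h1 x hx.2 hc h2 g hm).elim
  have hTK := hTL.trans hLK
  have hSK := hS.inf_nml nK
  have dec : ∀ y ∈ S ⊓ K, ∃ d ∈ K ⊓ D, ∃ t ∈ T, y = d * t := fun y hy => by
    have b1 := card_mul_relIndex' (A := T) (B := D)
    rw [inf_comm, hDT, card_bot, one_mul] at b1
    obtain ⟨d, hd, t, ht, rfl⟩ := exists_mul_of_relIndex hDS (by rw [b1, relIndex_eq_of_mul hTS hTDc.symm]) hy.1 hTS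
    exact ⟨d, ⟨(mul_mem_cancel_right (hTK ht)).1 hy.2, hd⟩, t, ht, rfl⟩
  have a2 : K ⊓ D = ⊥ := by
    by_contra h
    obtain ⟨c, hc⟩ := (Cyc.of_le hC a1).gen
    have cK : c ∈ K ⊓ D := hc ▸ mem_zpowers c
    have pD := hS.pi.of_le (inf_le_right.trans hDS : K ⊓ D ≤ S)
    have b : T.relIndex (S ⊓ K) = orderOf c := by
      rw [← card_zpowers', hc]
      refine relIndex_eq_of_mul (le_inf hTS hTK) (le_antisymm ?_ ?_)
      · rw [mul_comm, ← Nat.card_prod]
        refine Nat.card_le_card_of_surjective (fun x => ⟨x.1 * x.2, mul_mem (hDS x.1.2.2) (hTS x.2.2),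
          mul_mem x.1.2.1 (hTK x.2.2)⟩) fun y => ?_
        obtain ⟨d, hd, t, ht, e⟩ := dec y y.2
        exact ⟨(⟨d, hd⟩, ⟨t, ht⟩), Subtype.ext e.symm⟩
      · have := card_mul_le (le_inf hTS hTK) (le_inf (inf_le_right.trans hDS) inf_le_left : K ⊓ D ≤ S ⊓ K)
        rwa [eq_bot_mono (inf_le_inf_left T inf_le_right) (by rwa [inf_comm]), card_bot, one_mul] at this
    refine not_mem_oUp (T := T) (even_iff_two_dvd.2 (by rw [← card_zpowers', hc]; exact pD.dvd_card h)) (fun g _ m hm => ?_)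
      (by rw [← relIndex_tower (le_inf hTS hTK) inf_le_right, b]) (od hSK) (hKK cK.1)
    by_contra h1
    obtain ⟨y, hy, hp⟩ := exists_prime_pow_elt h1
    have yK := zpowers_le.2 (pow_mem cK m) hy
    refine h2 y (a1 yK) ((pD.elt yK).eq_of_dvd hp dvd_rfl) g ?_
    obtain ⟨l, rfl⟩ := hy
    simpa only [conj_zpow] using zpow_mem hm l
  have a3 : S ⊓ K = T := le_antisymm (fun y hy => by
    obtain ⟨d, hd, t, ht, rfl⟩ := dec y hy
    rwa [eq_one_of_eq_bot a2 hd, one_mul]) (le_inf hTS hTK)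
  rw [a3] at hSK
  refine ⟨K, nK.normal, eq_top_iff.2 ((H17.IsSyl.sup_oUp ⟨le_top, hS2, hS.idx.not_dvd' p2 rfl⟩).ge.trans (sup_le le_sup_left
    (hTD.ge.trans (sup_le_sup_right hTK _)))), fun T' h3 h4 h5 => ⟨h3.trans hLK, ?_⟩⟩
  exact (hSK.of_card (h3.trans hLK) (Hall.card_eq ⟨h3, piGrp_of_isPGroup p2 h4, (piNat_compl_iff p2).2 h5⟩ hT)).idx.not_dvd' p2 rfl

end Cfsg.Agent.S1924
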