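import Cfsg.Statements.S1935
import Cfsg.Agent.H17.QO2
import Cfsg.Agent.H4.Quad
import Cfsg.Agent.S0599

set_option autoImplicit false
open Cfsg

namespace Cfsg.Agent.S1935

open Subgroup Module H4 H17.QO
open scoped commutatorElement

theorem best {Ω : Type*} [Group Ω] [Finite Ω] {p : ℕ} [Fact p.Prime] {V E : Subgroup Ω} (hV : IsElementaryAbelian p V)
    (hN : E ≤ normalizer (V : Set Ω)) (hC : E ⊓ centralizer (V : Set Ω) = ⊥) (h1 : E ≠ ⊥) (hE : IsElementaryAbelian p E)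
    (h : Nat.card V ≤ Nat.card E * Nat.card ↥(V ⊓ centralizer (E : Set Ω))) :
    ∃ A ≤ E, A ≠ ⊥ ∧ Nat.card V ≤ Nat.card A * Nat.card ↥(V ⊓ centralizer (A : Set Ω)) ∧ ⁅⁅V, A⁆, A⁆ = ⊥ := by
  have b : Nat.card (⊥ : Subgroup Ω) * Nat.card ↥(V ⊓ centralizer ((⊥ : Subgroup Ω) : Set Ω)) = Nat.card V := by
    rw [inf_eq_left.2 fun v _ x (hx : x ∈ (⊥ : Subgroup Ω)) => by simp [mem_bot.1 hx]]; simp
  obtain ⟨A, ⟨l, a1⟩, mx⟩ := Set.exists_max_image {A : Subgroup Ω | A ≤ E ∧ A ≠ ⊥}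
    (fun A => Nat.card A * Nat.card ↥(V ⊓ centralizer (A : Set Ω))) (Set.toFinite _) ⟨E, le_rfl, h1⟩
  obtain ⟨k1, -, k2⟩ := S0599.result V A hV (l.trans hN) ⟨fun B hB => by
      by_cases e : B = ⊥
      · rw [e, b]; exact h.trans (mx E ⟨le_rfl, h1⟩)
      · exact mx B ⟨hB.trans l, e⟩,
    by rw [commutator_eq_bot_iff_le_centralizer.2 fun x hx y hy =>
      congrArg Subtype.val (hE.1.is_comm.comm ⟨y, l hy⟩ ⟨x, l hx⟩)]; exact bot_le,
    fun a ha => by rw [hE.2 a (l ha)]; exact one_mem _⟩ V le_rfl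
  refine ⟨_, inf_le_left.trans l, fun e => k2 (fun c => a1 ?_) (by rw [e, commutator_bot_right]), b ▸ k1.1 ⊥ bot_le, ?_⟩
  · rw [commutator_comm, commutator_eq_bot_iff_le_centralizer] at c
    exact eq_bot_iff.2 (hC ▸ le_inf l c)
  · rw [eq_bot_iff, ← commutator_eq_bot_iff_le_centralizer.2 (inf_le_right (a := A)
      (b := centralizer ((⁅V, A⁆ : Subgroup Ω) : Set Ω))), commutator_comm]
    exact commutator_mono le_rfl (commutator_mono le_rfl inf_le_left)

/-- Let p ≥ 5 be a prime and, inside an ambient finite group, let G be a p-subgroup acting faithfully by conjugation on an elementary abelian p-subgroup V that it normalizes (only the identity of G centralizes V). Suppose V is an F-module for G: some nontrivial elementary abelian subgroup E of G satisfies #E · #C_V(E) ≥ #V. Then G contains such an offender A that moreover acts quadratically on V ([V, A, A] = 1) and is normal in its normal closure in G. -/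
theorem result {Ω : Type*} [Group Ω] [Finite Ω] (p : ℕ) [Fact p.Prime] (hp : 5 ≤ p) (V G : Subgroup Ω) (hV : Cfsg.IsElementaryAbelian p V) (hG : IsPGroup p ↥G) (hGV : G ≤ Subgroup.normalizer (V : Set Ω)) (hfaith : G ⊓ Subgroup.centralizer (V : Set Ω) = ⊥) (hF : ∃ E : Subgroup Ω, E ≤ G ∧ E ≠ ⊥ ∧ Cfsg.IsElementaryAbelian p E ∧ Nat.card ↥V ≤ Nat.card ↥E * Nat.card ↥(V ⊓ Subgroup.centralizer (E : Set Ω))) : ∃ A : Subgroup Ω, A ≤ G ∧ A ≠ ⊥ ∧ Cfsg.IsElementaryAbelian p A ∧ Nat.card ↥V ≤ Nat.card ↥A * Nat.card ↥(V ⊓ Subgroup.centralizer (A : Set Ω)) ∧ ⁅⁅V, A⁆, A⁆ = ⊥ ∧ ∀ g ∈ Subgroup.closure {x : Ω | ∃ h ∈ G, ∃ a ∈ A, x = h * a * h⁻¹}, ∀ a ∈ A, g * a * g⁻¹ ∈ A := by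
  obtain ⟨E, hEG, e1, hE, he⟩ := hF
  obtain ⟨A₀, l0, a1, a2, a3⟩ := best hV (hEG.trans hGV) (eq_bot_iff.2 (hfaith ▸ inf_le_inf_right _ hEG)) e1 hE he
  let ρ : G →* End (ZMod p) (EA hV) := (EA.rep hV).comp (inclusion hGV)
  have vr : ∀ (g : G) x, EA.val ((ρ g - 1) x) = ⁅(g : Ω), EA.val x⁆ := fun g x => by
    rw [LinearMap.sub_apply, EA.val_sub]; rfl
  have inj : Function.Injective ρ := (injective_iff_map_eq_one ρ).2 fun g e =>
    Subtype.ext (mem_bot.1 (hfaith ▸ ⟨g.2, EA.rep_eq_one_iff.1 e⟩))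
  have cd : ∀ (M : Type _) [AddCommGroup M] [Module (ZMod p) M] [Finite M], p ^ finrank (ZMod p) M = Nat.card M :=
    fun M _ _ _ => by rw [natCard_eq_pow_finrank (K := ZMod p) (V := M), Nat.card_zmod]
  have c1 : ∀ {L} (h : Qd ρ L), Nat.card (h.grp.map G.subtype) = p ^ finrank (ZMod p) L := fun {L} h => by
    have : Finite (End (ZMod p) (EA hV)) := Finite.of_injective _ DFunLike.coe_injective
    rw [card_subtype, cd]
    refine Nat.card_eq_of_bijective (fun g => ⟨ρ g - 1, g.2⟩) ⟨fun g g' e => Subtype.ext (inj ?_), fun a => ?_⟩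
    · simpa using congrArg Subtype.val e
    · obtain ⟨g, e⟩ := h.ex a a.2
      exact ⟨⟨g, by rw [h.mem, e]; simp⟩, Subtype.ext (by simp [e])⟩
  have c2 : ∀ {L} (h : Qd ρ L), Nat.card ↥(V ⊓ centralizer (h.grp.map G.subtype : Set Ω)) =
      p ^ finrank (ZMod p) (fix L) := fun {L} h => by
    rw [cd]
    refine (Nat.card_eq_of_bijective (fun x : fix L => (⟨EA.val x.1, EA.val_mem _, ?_⟩ :
      ↥(V ⊓ centralizer (h.grp.map G.subtype : Set Ω))))
      ⟨fun x y e => Subtype.ext (EA.val_injective (Subtype.ext_iff.1 e :)), fun v => ⟨⟨EA.mk hV v v.2.1, fun a ha => ?_⟩, rfl⟩⟩).symm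
    · rintro _ ⟨g, hg, rfl⟩
      exact commutatorElement_eq_one_iff_mul_comm.1 ((vr g x).symm.trans (EA.val_eq_one.2 (x.2 _ hg)))
    · obtain ⟨g, e⟩ := h.ex a ha
      have e' : a = ρ g - 1 := by simp [e]
      rw [← EA.val_eq_one, e', vr]
      exact commutatorElement_eq_one_iff_mul_comm.2 (v.2.2 _ ⟨g, by rw [SetLike.mem_coe, h.mem, ← e']; exact ha, rfl⟩)
  have q0 : ∀ a b : G, (a : Ω) ∈ A₀ → (b : Ω) ∈ A₀ → (ρ a - 1) * (ρ b - 1) = 0 := fun a b ha hb =>
    LinearMap.ext fun x => EA.val_eq_one.1 (by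
      rw [End.mul_apply, vr, vr, ← mem_bot, ← a3, commutator_comm]
      exact commutator_mem_commutator ha (by rw [commutator_comm]; exact commutator_mem_commutator hb (EA.val_mem x)))
  let L₀ : Submodule (ZMod p) (End (ZMod p) (EA hV)) := AddSubgroup.toZModSubmodule p
    { carrier := {a | ∃ g : G, (g : Ω) ∈ A₀ ∧ ρ g - 1 = a}
      zero_mem' := ⟨1, one_mem _, by simp⟩
      add_mem' := by
        rintro _ _ ⟨a, ha, rfl⟩ ⟨b, hb, rfl⟩
        refine ⟨a * b, mul_mem ha hb, ?_⟩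
        rw [← add_zero (_ + _), ← q0 a b ha hb, map_mul]; noncomm_ring
      neg_mem' := by
        rintro _ ⟨a, ha, rfl⟩
        exact ⟨a⁻¹, inv_mem ha, by rw [rho_inv (q0 a a ha ha), sub_sub_cancel_left]⟩ }
  have h0 : Qd ρ L₀ := ⟨by rintro _ ⟨a, ha, rfl⟩ _ ⟨b, hb, rfl⟩; exact q0 a b ha hb,
    by rintro _ ⟨a, -, rfl⟩; exact ⟨a, by simp⟩⟩
  have e0 : h0.grp.map G.subtype = A₀ := le_antisymm (by
    rintro _ ⟨g, ⟨a, ha, e⟩, rfl⟩
    exact inj (sub_left_inj.1 e) ▸ ha) fun a ha => ⟨⟨a, hEG (l0 ha)⟩, ⟨_, ha, rfl⟩, rfl⟩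
  have hP : IsPGroup p ↥(V ⊔ G) := by
    rw [sup_comm]
    exact hG.to_sup_of_normal_right' (fun v => ⟨1, Subtype.ext (by simpa using hV.2 v v.2)⟩) hGV
  obtain ⟨n, hn⟩ := (isNilpotent_iff_lowerCentralSeries _).1 hP.isNilpotent
  let F : ℕ → Submodule (ZMod p) (EA hV) := fun k => AddSubgroup.toZModSubmodule p
    { carrier := {x | EA.val x ∈ (V ⊔ G).lowerCentralSeries k}
      zero_mem' := Subgroup.one_mem _
      add_mem' := fun h k => Subgroup.mul_mem _ h k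
      neg_mem' := fun h => Subgroup.inv_mem _ h }
  have := hG.isNilpotent
  obtain ⟨L, h, r1, r2, r3⟩ := exists_two (F := F) (n := n) (ρ := ρ) (by
      intro e
      have := (ZMod.natCast_eq_zero_iff 2 p).1 e
      have := Nat.le_of_dvd two_pos this; omega)
    (fun _ _ l _ hx => Subgroup.lowerCentralSeries_antitone _ l hx) (eq_top_iff.2 fun x _ => mem_sup_left (EA.val_mem x))
    (eq_bot_iff.2 fun x hx => EA.val_eq_one.1 (mem_bot.1 (hn ▸ hx))) (fun g k x hx => by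
      change EA.val _ ∈ ⁅(V ⊔ G).lowerCentralSeries k, V ⊔ G⁆
      rw [vr, commutator_comm]
      exact commutator_mem_commutator (mem_sup_right g.2) hx) h0
  have p1 := (Fact.out : p.Prime).pos
  have d1 : Nat.card A₀ ≤ Nat.card (h.grp.map G.subtype) := by
    rw [← e0, c1, c1]; exact Nat.pow_le_pow_right p1 r1
  have d2 : Nat.card ↥(V ⊓ centralizer (A₀ : Set Ω)) ≤ Nat.card ↥(V ⊓ centralizer (h.grp.map G.subtype : Set Ω)) := by
    rw [← e0, c2, c2]; exact Nat.pow_le_pow_right p1 r2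
  refine ⟨h.grp.map G.subtype, map_subtype_le _, fun e => a1 (eq_bot_of_card_le _ (by simpa [e] using d1)),
    ⟨⟨⟨?_⟩⟩, ?_⟩, a2.trans (Nat.mul_le_mul d1 d2), ?_, fun g hg => ?_⟩
  · rintro ⟨_, a, ha, rfl⟩ ⟨_, b, hb, rfl⟩
    have : ρ (a * b) = ρ (b * a) := by
      have k1 := h.z _ ha _ hb
      have k2 := h.z _ hb _ ha
      rw [map_mul, map_mul, ← sub_eq_zero, ← sub_zero 0]
      nth_rw 1 [← k1]
      rw [← k2]; noncomm_ring
    exact Subtype.ext (congrArg G.subtype (inj this))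
  · rintro _ ⟨a, ha, rfl⟩
    have : ∀ m : ℕ, ρ (a ^ m) = 1 + (m : ZMod p) • (ρ a - 1) := fun m => by
      induction m with
      | zero => simp
      | succ m ih =>
        have k : ρ a = 1 + (ρ a - 1) := by simp
        rw [pow_succ, map_mul, ih]
        nth_rw 2 [k]
        rw [mul_add, mul_one, add_mul, one_mul, smul_mul_assoc, h.z _ ha _ ha, smul_zero, add_zero, Nat.cast_succ,
          add_smul, one_smul, add_assoc]
    exact congrArg Subtype.val (inj (a₁ := a ^ p) (a₂ := 1) (by rw [this]; simp))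
  · rw [commutator_eq_bot_iff_le_centralizer, commutator_le]
    rintro v hv _ ⟨a, ha, rfl⟩ _ ⟨b, hb, rfl⟩
    have := congrArg EA.val (LinearMap.congr_fun (h.z _ hb _ ha) (EA.mk hV v hv))
    rw [End.mul_apply, vr, vr] at this
    rw [← commutatorElement_inv]
    exact (Commute.inv_right (commutatorElement_eq_one_iff_commute.1 this)).eq
  · have : g ∈ normalizer (h.grp.map G.subtype : Set Ω) := (closure_le _).2 (by
      rintro _ ⟨u, hu, _, ⟨a, ha, rfl⟩, rfl⟩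
      exact le_normalizer_map _ ⟨_, r3 ⟨u, hu⟩ a ha, rfl⟩) hg
    exact fun a ha => (mem_normalizer_iff.1 this a).1 ha

end Cfsg.Agent.S1935
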