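import Cfsg.Statements.S1936
import Cfsg.Agent.H21.AbSyl
import Cfsg.Agent.H5.Central

set_option autoImplicit false
open Cfsg

namespace Cfsg.Agent.S1936

open H18 H1 H21 Subgroup

universe u

def Hyp (p : ℕ) (G : Type u) [Group G] : Prop :=
  ∀ H : Subgroup G, PiGrp {p}ᶜ H → Abel H ∧ ∀ x ∈ H, x ^ (p - 1) = 1

theorem Hyp.mim {p : ℕ} {G Q : Type u} [Group G] [Finite G] [Group Q] [Finite Q] (h : Hyp p G)
    {D : Subgroup G} (f : D →* Q) (hD : H18.mim f D = ⊤) (hk : Solv (D ⊓ mker f)) : Hyp p Q := fun U hU => by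
  obtain ⟨K, hK, h1, rfl⟩ := exists_pi_lift (f := f) le_rfl hk (hD ▸ le_top) hU
  refine ⟨(h K h1).1.mim, fun x hx => ?_⟩
  obtain ⟨y, hy, hyD, rfl⟩ := mem_mim.1 hx
  rw [← mfun_pow hyD, (h K h1).2 y hy, mfun_one]

theorem small {p : ℕ} (hp : p.Prime) (h3 : p ≤ 3) {G : Type u} [Group G] [Finite G] (h : Hyp p G) :
    Group.IsSolvable G := by
  have key : ∀ q, q.Prime → q ∣ Nat.card G → q = 2 ∨ q = p := fun q hq hd => by
    by_contra e
    push Not at e
    obtain ⟨x, -, hx⟩ := cauchy (H := (⊤ : Subgroup G)) hq (by rwa [card_top])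
    have h1 := (h (zpowers x) (piGrp_zpowers.2 (by
      show PiNat _ (orderOf x); rw [hx]; exact (piNat_prime hq).2 e.2))).2 x (mem_zpowers x)
    have h2 := hx ▸ orderOf_dvd_of_pow_eq_one h1
    have h4 := Nat.le_of_dvd (by have := hp.two_le; omega) h2
    have := hq.two_le
    omega
  obtain ⟨a, b, e, ha, hb⟩ := exists_pi_factor {2} (Nat.card_pos (α := G)).ne'
  obtain ⟨i, rfl⟩ := ha.eq_pow (fun e' => (Nat.card_pos (α := G)).ne' (by rw [e, e', zero_mul]))
  have hb' : PiNat {p} b := fun q hq hd =>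
    (key q hq (e ▸ hd.mul_left _)).resolve_left (hb q hq hd)
  obtain ⟨j, rfl⟩ := hb'.eq_pow (fun e' => (Nat.card_pos (α := G)).ne' (by rw [e, e', mul_zero]))
  exact H5.burnside_paqb Nat.prime_two hp e

theorem aux {p : ℕ} (hp : p.Prime) (h5 : 5 ≤ p) (n : ℕ) : ∀ (G : Type u) [Group G] [Finite G],
    Nat.card G = n → Hyp p G → Solv (⊤ : Subgroup G) := by
  induction n using Nat.strong_induction_on with
  | _ n ih =>
  intro G _ _ hn h
  have sub : ∀ H : Subgroup G, H ≠ ⊤ → Solv H := fun H hH => by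
    refine solv_top_iff.1 (ih _ ?_ H rfl (h.mim (MonoidHom.id H) (by rw [mim_id, subgroupOf_self])
      (by rw [mker_id, inf_bot_eq]; exact solv_bot)))
    have := card_lt (lt_top_iff_ne_top.2 hH)
    rwa [card_top, hn] at this
  by_contra hns
  haveI : Nontrivial G := by
    by_contra e
    rw [not_nontrivial_iff_subsingleton] at e
    exact hns (by rw [Subsingleton.elim (⊤ : Subgroup G) ⊥]; exact solv_bot)
  haveI : IsSimpleGroup G := ⟨fun K hK => by
    by_contra e
    push Not at e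
    have hKn : K ⊴ ⊤ := nml_top
    have e' : (⊤ : Subgroup G) ⫽ K = ⊤ := top_le_iff.1 (quo_N.ge.trans (mim_mono le_top))
    refine hns (solv_of_quo hKn.norm (e' ▸ ih _ ?_ _ rfl (h.mim (coset K) quo_N
      ((sub K e.2).of_le (by simp)))) (sub K e.2))
    have := card_quo_lt hKn e.1
    rwa [e', card_top, card_top, hn] at this⟩
  obtain ⟨S, hS⟩ := exists_sylow Nat.prime_two (⊤ : Subgroup G)
  have p2 : (2 : ℕ) ≠ p := by omega
  have hA : Abel S := (h S (hS.pi.p'_of_ne p2)).1
  by_cases h3 : Cfsg.PRankLE 2 2 G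
  · have hr : prank 2 S ≤ 2 := (prank_mono Nat.prime_two le_top).trans
      ((prank_top_le_iff Nat.prime_two).2 h3)
    have hN : ⊤ ⊓ N(S) ≤ C(S) := le_of_pElts fun q hq x hx hx' => by
      by_cases e : q = p
      · subst e
        exact zpowers_le.1 (cent_of_abel_rank_two hS.pi hA hr (zpowers_le.2 hx.2) fun r hr hd => by
          rw [hx'.zpowers.eq_of_dvd hr hd]; exact h5)
      · have := (h (zpowers x ⊔ S) ((PiElt.zpowers (hx'.p'_of_ne e)).sup_norm (hS.pi.p'_of_ne p2)
          (zpowers_le.2 hx.2))).1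
        exact cent_mono this le_sup_left le_sup_right (mem_zpowers x)
    have hB := Burnside_normal_complement Nat.prime_two hS hN
    exact hns (solv_of_quo pcore_nml.norm (PiGrp.solv (hB.quo_compl pcore_nml.norm).of_compl_compl)
      (solv_of_two' pcore_pi))
  obtain ⟨M, hM⟩ := se_of_abel (fun t ht => sub _ fun e => by
    rcases (nml_of_le_Z (H := ⊤) (K := zpowers t) (le_inf le_top (zpowers_le_C_iff.2 e.ge))).normal.eq_bot_or_eq_top with e' | e'
    · exact H9.ne_one_of_orderOf ht (eq_one_of_eq_bot e' (mem_zpowers t))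
    · exact hns (e' ▸ cyc_zpowers.solv)) h3 hS hA
  obtain ⟨⟨s, t, ss, tt, e⟩, -⟩ := psl_of_abel_se hM hS hA
  have h1 : PiElt {p}ᶜ s := (piElt_of_pow_eq_one Nat.prime_two (by rw [pow_two, ss])).p'_of_ne p2
  have h2 : PiElt {p}ᶜ (s * t) := by
    show PiNat _ (orderOf (s * t)); rw [e]; exact (piNat_prime Nat.prime_three).2 (by simp; omega)
  have h4 := (h (zpowers s ⊔ zpowers (s * t)) (h1.zpowers.sup_norm h2.zpowers (zpowers_le.2
    (mem_N_iff_cj.2 (by rw [cj_zpowers, H9.left_inverts ss tt, zpowers_inv]))))).1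
  have h6 := comm_of_cent h4 (mem_sup_left (mem_zpowers s)) (mem_sup_right (mem_zpowers (s * t)))
  have h7 : (s * t) ^ 2 = 1 := by
    rw [← mul_assoc, ss, one_mul] at h6
    rw [pow_two, ← mul_assoc, ← h6, tt]
  have := e ▸ orderOf_dvd_of_pow_eq_one h7
  omega

/-- Let p be a prime and G a finite group in which every subgroup of order prime to p is abelian of exponent dividing p − 1. Then G is solvable. -/
theorem result {G : Type*} [Group G] [Finite G] (p : ℕ) [Fact p.Prime] (h : ∀ H : Subgroup G, (Nat.card ↥H).Coprime p → IsMulCommutative ↥H ∧ ∀ x ∈ H, x ^ (p - 1) = 1) : Group.IsSolvable G := by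
  have hp : p.Prime := Fact.out
  have h' : Hyp p G := fun H hH => ⟨abel_of_comm (h H ((piNat_compl_iff_coprime hp).1 hH)).1,
    (h H ((piNat_compl_iff_coprime hp).1 hH)).2⟩
  by_cases h3 : p ≤ 3
  · exact small hp h3 h'
  · exact solv_top_iff.1 (aux hp (hp.five_le_of_ne_two_of_ne_three (by omega) (by omega)) _ G rfl h')

end Cfsg.Agent.S1936
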