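import Cfsg.Statements.S1939
import Cfsg.Agent.H18.Hall

set_option autoImplicit false
open Cfsg

namespace Cfsg.Agent.S1939
open H18 Subgroup

/-- Let S be a Sylow p-subgroup of the finite group G and a an element of S that is the only G-conjugate of a lying in S. Then every power of a has the same property: for every n, the only G-conjugate of a^n lying in S is a^n. -/
theorem result {G : Type*} [Group G] [Finite G] {p : ℕ} [Fact p.Prime] (S : Sylow p G) (a : G)
    (haS : a ∈ (S : Subgroup G)) (hwc : ∀ g : G, g * a * g⁻¹ ∈ (S : Subgroup G) → g * a * g⁻¹ = a) (n : ℕ) :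
    ∀ g : G, g * a ^ n * g⁻¹ ∈ (S : Subgroup G) → g * a ^ n * g⁻¹ = a ^ n := by
  intro g hg
  have hp : p.Prime := Fact.out
  have hS : Hall {p} (S : Subgroup G) ⊤ := hall_sylow_top hp S
  have hc : ∀ s ∈ (S : Subgroup G), s * a = a * s := fun s hs =>
    mul_inv_eq_iff_eq_mul.1 (hwc s (mul_mem (mul_mem hs haS) (inv_mem hs)))
  have ha := hS.pi.elt haS
  obtain ⟨P, hP, haP⟩ := exists_sylow_le hp ha.zpowers (M := C1(g * a ^ n * g⁻¹))
    (zpowers_le_of_mem (mem_C1.2 (hc _ hg).symm))
  obtain ⟨c, hc1, hc2⟩ := sylow_le_cj hp hP (Q := zpowers (g * a * g⁻¹)) (ha.conj g).zpowers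
    (zpowers_le_of_mem (mem_C1.2 (by group)))
  obtain ⟨h, -, hh⟩ := sylow_le_cj hp hS hP.pi le_top
  have e1 := hwc h (hh (conj_mem_cj (haP (mem_zpowers a))))
  have e2 := hwc (h * c * g) (by
    have := hh (conj_mem_cj (hc2 (conj_mem_cj (mem_zpowers _))))
    convert this using 1; group)
  have e3 : c * (g * a * g⁻¹) * c⁻¹ = a := by
    have : h * (c * (g * a * g⁻¹) * c⁻¹) * h⁻¹ = h * a * h⁻¹ := by
      rw [e1]; conv_rhs => rw [← e2]
      group
    simpa using this
  conv_rhs => rw [← e3, conj_pow, conj_pow, mem_C1.1 hc1, mul_inv_cancel_right]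

end Cfsg.Agent.S1939
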