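import Cfsg.Statements.S1940


set_option autoImplicit false
open Cfsg

namespace Cfsg.Agent.S1940

/-- Let the finite group L act by automorphisms on the finite abelian group M, and let N be an L-invariant subgroup of M such that M/N is a p-group on which L acts trivially (every l • m lies in the coset mN). If every element of M is a product of an element of N and an element fixed by a Sylow p-subgroup T of L, then every element of M is a product of an element of N and an element fixed by all of L. -/
theorem result {L : Type*} [Group L] [Finite L] {M : Type*} [CommGroup M] [Finite M] [MulDistribMulAction L M]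
    {p : ℕ} [Fact p.Prime] (N : Subgroup M) (hN : ∀ (l : L) (m : M), m ∈ N → l • m ∈ N)
    (hquot : IsPGroup p (M ⧸ N)) (htriv : ∀ (l : L) (m : M), (l • m) * m⁻¹ ∈ N) (T : Sylow p L)
    (hT : ∀ m : M, ∃ n ∈ N, ∃ c : M, (∀ t ∈ (T : Subgroup L), t • c = c) ∧ m = n * c) :
    ∀ m : M, ∃ n ∈ N, ∃ c : M, (∀ l : L, l • c = c) ∧ m = n * c := by
  classical
  have := Fintype.ofFinite (L ⧸ (T : Subgroup L))
  intro m
  have hk : (T : Subgroup L).index.Coprime p :=
    ((Nat.Prime.coprime_iff_not_dvd Fact.out).2 T.not_dvd_index).symm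
  obtain ⟨x, hx⟩ := (hquot.powEquiv' (n := (T : Subgroup L).index) T.not_dvd_index).surjective (m : M ⧸ N)
  obtain ⟨m', rfl⟩ := QuotientGroup.mk_surjective x
  obtain ⟨n, hn, c, hc, rfl⟩ := hT m'
  let F : L ⧸ (T : Subgroup L) → M := Quotient.lift (fun l => l • c) fun a b h => by
    have := hc _ (QuotientGroup.leftRel_apply.1 h)
    rw [mul_smul, inv_smul_eq_iff] at this
    exact this.symm
  have hF : ∀ (l : L) q, F (l • q) = l • F q := fun l q => by
    obtain ⟨a, rfl⟩ := QuotientGroup.mk_surjective q
    exact mul_smul l a c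
  have h1 : ∀ q, ((F q : M) : M ⧸ N) = (c : M ⧸ N) := fun q => by
    obtain ⟨a, rfl⟩ := QuotientGroup.mk_surjective q
    rw [eq_comm, QuotientGroup.eq, mul_comm]
    exact htriv a c
  refine ⟨m * (∏ q, F q)⁻¹, ?_, ∏ q, F q, fun l => ?_, by simp⟩
  · rw [mul_comm, ← QuotientGroup.eq, ← hx, ← QuotientGroup.mk'_apply, map_prod]
    simp only [QuotientGroup.mk'_apply, h1, Finset.prod_const, Finset.card_univ]
    rw [QuotientGroup.mk_mul, (QuotientGroup.eq_one_iff n).2 hn, one_mul, ← Nat.card_eq_fintype_card]
    rfl
  · rw [Finset.smul_prod']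
    simp only [← hF]
    exact Fintype.prod_equiv (MulAction.toPerm l) _ _ fun q => rfl

end Cfsg.Agent.S1940
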