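import Cfsg.Statements.S2799
import Cfsg.Agent.H27.FSGen

set_option autoImplicit false
open Cfsg

namespace Cfsg.Agent.S2799

open H20 H27 Subgroup

/-- Let S be a Sylow p-subgroup of the finite group G, J(S) the subgroup generated by the abelian subgroups of S of largest order, and x an element of S lying in the centre of N_G(J(S)). Assume that p is odd, or that x is a p-th power of an element of Z(S), or that the symmetric group of degree 4 is not involved in G. Then x is weakly closed in S with respect to G: every G-conjugate of x that lies in S equals x. -/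
theorem result {G : Type*} [Group G] [Finite G] {p : ℕ} [Fact p.Prime] (S : Sylow p G) (x : G) (hxS : x ∈ (S : Subgroup G)) (hxZ : x ∈ (Subgroup.center ↥(Subgroup.normalizer ((Cfsg.thompsonSubgroupAOf (S : Subgroup G)) : Set G))).map (Subgroup.normalizer ((Cfsg.thompsonSubgroupAOf (S : Subgroup G)) : Set G)).subtype) (h : p ≠ 2 ∨ (∃ z ∈ (S : Subgroup G) ⊓ Subgroup.centralizer ((S : Subgroup G) : Set G), z ^ p = x) ∨ ¬ Cfsg.Involves (Equiv.Perm (Fin 4)) G) : ∀ g : G, g * x * g⁻¹ ∈ (S : Subgroup G) → g * x * g⁻¹ = x := by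
    intro g hg
    rw [H4.thompsonSubgroupAOf_eq, H26.map_subtype_center] at hxZ
    have hS := syl_top S
    have hJ := H4.thompsonOf_le 0 (S : Subgroup G)
    have hn := H4.le_normalizer_thompsonOf 0 (S : Subgroup G)
    have hN := isKN_group (hSH := (le_top : (S : Subgroup G) ≤ ⊤)) hJ (kd_Stab _) (NK_mono_left le_top)
    have h1 : x ∈ (fusionSystemOfSubgroup _ _ (NK_mono_left (K := Stab (thompsonSubgroupOf 0 (S : Subgroup G)))
        (le_top : (S : Subgroup G) ≤ ⊤))).center :=
      (mem_fcenter_iff (S.isPGroup'.to_le NK_le) (sat_normalizer S.isPGroup' hS.sat (fn_of_normal hJ hn) hN)).2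
        ⟨NK_Stab.ge ⟨hxS, hn hxS⟩, fun σ hσ => by
          obtain ⟨-, -, a, h1, h2⟩ := mor_sub_iff.1 hσ
          rw [h2 x (mem_zpowers x), hxZ.2 a (NK_Stab.le h1).2, mul_inv_cancel_right]⟩
    have h2 : x ∈ (fusionSystemOfSubgroup ⊤ (S : Subgroup G) le_top).center := by
      rcases h with h | ⟨z, h, rfl⟩ | h
      · exact (center_eq_J S.isPGroup' hS.sat (Or.inl h) hN).le h1
      · exact agemo_center cpf_J quadC_J S.isPGroup' hS.sat hN ⟨pow_mem_ag h, h1⟩
      · refine (center_eq_J S.isPGroup' hS.sat (or_iff_not_imp_left.2 fun h2 h3 => h ?_) hN).le h1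
        obtain rfl := not_not.1 h2
        obtain ⟨e⟩ := qd_two_equiv
        exact Inv.of_equiv (H4.involves_iff.2 ((qdF_group_iff hS).1 h3)) e
    exact ((mem_fcenter_iff S.isPGroup' hS.sat).1 h2).2 (cj g) (mor_sub_cj (zpowers_le.2 hxS) (mem_top g) (by
      rintro _ ⟨k, rfl⟩
      simpa only [conj_zpow] using zpow_mem hg k))

end Cfsg.Agent.S2799
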