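import Cfsg.Statements.S1945
import Cfsg.Agent.S2799
import Cfsg.Agent.H4.PSol

set_option autoImplicit false
open Cfsg

namespace Cfsg.Agent.S1945

open Subgroup H26 H4

theorem split {G : Type*} [Group G] [Finite G] {p : ℕ} [hp : Fact p.Prime] {S V H : Subgroup G} (hS : IsSyl p S ⊤)
    (hV : V ≤ S) (hc : V ≤ 𝐂 V) (hZ : S ⊓ 𝐂 S ≤ V) (hSH : S ≤ H) (hn : H ≤ 𝐍 V) :
    ∃ K ≤ S ⊓ 𝐂 S, (V ⊓ 𝐂 H) ⊓ K = ⊥ ∧ (V ⊓ 𝐂 H) ⊔ K = S ⊓ 𝐂 S := by
  classical
  have := Fintype.ofFinite (H ⧸ S.subgroupOf H)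
  let _ : CommGroup V := { (inferInstance : Group V) with mul_comm := (isMulCommutative_iff'.2 hc).is_comm.comm }
  let c : H → V →* V := fun x => (V.normalizerMonoidHom ⟨x, hn x.2⟩).toMonoidHom
  have hcx : ∀ x (r : V), (c x r : G) = x * r * (x : G)⁻¹ := fun _ _ => rfl
  let F : H ⧸ S.subgroupOf H → ↥(S ⊓ 𝐂 S) →* V := fun ω => (c ω.out).comp (inclusion hZ)
  have hF : ∀ (y : H) z, (F y z : G) = y * z * (y : G)⁻¹ := fun y z => by
    obtain ⟨m, e⟩ := QuotientGroup.mk_out_eq_mul (S.subgroupOf H) y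
    have e2 : ((m : H) : G) * z = z * ((m : H) : G) := z.2.2 _ m.2
    simp only [F, MonoidHom.comp_apply]
    rw [e, hcx, coe_mul, coe_inclusion, _root_.mul_inv_rev, mul_assoc (y : G), e2]
    group
  let N : ↥(S ⊓ 𝐂 S) →* V := ∏ ω, F ω
  have hN : ∀ z, N z = ∏ ω, F ω z := fun z => MonoidHom.finsetProd_apply _ _ _
  have N1 : ∀ z, (N z : G) ∈ V ⊓ 𝐂 H := fun z => ⟨(N z).2, fun h hh => by
    have h7 : c ⟨h, hh⟩ (N z) = N z := by
      rw [hN, map_prod, ← Equiv.prod_comp (MulAction.toPerm (⟨h, hh⟩ : H)) fun ω => F ω z]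
      refine Finset.prod_congr rfl fun ω _ => Subtype.ext ?_
      obtain ⟨y, rfl⟩ := QuotientGroup.mk_surjective ω
      rw [MulAction.toPerm_apply, MulAction.Quotient.smul_mk, hF, hcx, hF, smul_eq_mul, coe_mul]
      group
    exact mul_inv_eq_iff_eq_mul.1 (congrArg Subtype.val h7)⟩
  have N2 : ∀ z : ↥(S ⊓ 𝐂 S), (z : G) ∈ 𝐂 H → (N z : G) = z ^ S.relIndex H := fun z hz => by
    have h7 : ∀ ω, F ω z = inclusion hZ z := fun ω => Subtype.ext (by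
      obtain ⟨y, rfl⟩ := QuotientGroup.mk_surjective ω
      rw [hF, hz y y.2, mul_inv_cancel_right, coe_inclusion])
    rw [hN, Finset.prod_congr rfl fun ω _ => h7 ω, Finset.prod_const, Finset.card_univ, ← Nat.card_eq_fintype_card]
    rfl
  have hW : V ⊓ 𝐂 H ≤ S ⊓ 𝐂 S := inf_le_inf hV (centralizer_anti hSH)
  have cop : ∀ x ∈ S, ∃ m, (x ^ S.relIndex H) ^ m = x := fun x hx => by
    obtain ⟨k, hk⟩ := isPGroup_iff_mem.1 hS.isP x hx
    exact exists_pow_eq_self_of_coprime (Nat.Coprime.of_dvd_right (orderOf_dvd_of_pow_eq_one hk)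
      (((Nat.Prime.coprime_iff_not_dvd hp.out).2 (hS.mono hSH le_top).not_dvd_relIndex).symm.pow_right k))
  refine ⟨N.ker.map (S ⊓ 𝐂 S).subtype, map_subtype_le _, eq_bot_iff.2 ?_,
    le_antisymm (sup_le hW (map_subtype_le _)) fun z hz => ?_⟩
  · rintro _ ⟨h1, z, h2, rfl⟩
    obtain ⟨m, hm⟩ := cop z z.2.1
    rw [← N2 z h1.2, show N z = 1 from h2, OneMemClass.coe_one, one_pow] at hm
    exact hm.symm
  · obtain ⟨m, hm⟩ := cop _ (hV (N ⟨z, hz⟩).2)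
    have h1 := pow_mem (N1 ⟨z, hz⟩) m
    rw [← mul_inv_cancel_left ((N ⟨z, hz⟩ : G) ^ m) z]
    refine mul_mem_sup h1 ⟨(⟨_, hW h1⟩ : ↥(S ⊓ 𝐂 S))⁻¹ * ⟨z, hz⟩, ?_, rfl⟩
    rw [SetLike.mem_coe, MonoidHom.mem_ker, map_mul, map_inv, inv_mul_eq_one]
    exact Subtype.ext (by rw [N2 _ h1.2, pow_right_comm, hm])

/-- Let S be a Sylow p-subgroup of the finite group G, and assume that p is odd or that G is solvable. The elements of S each of which is its only G-conjugate in S form a subgroup W of Z(S); W is then a direct factor of Z(S): there is a subgroup K of Z(S) with W ∩ K = 1 and WK = Z(S). (For p = 2 and G not solvable this can fail.) -/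
theorem result {G : Type*} [Group G] [Finite G] {p : ℕ} [Fact p.Prime] (S : Sylow p G) (h : p ≠ 2 ∨ Group.IsSolvable G) :
    ∃ W K : Subgroup G, (∀ x : G, x ∈ W ↔ (x ∈ (S : Subgroup G) ∧ ∀ g : G, g * x * g⁻¹ ∈ (S : Subgroup G) → g * x * g⁻¹ = x)) ∧
      K ≤ ((S : Subgroup G) ⊓ Subgroup.centralizer ((S : Subgroup G) : Set G)) ∧ W ⊓ K = ⊥ ∧ W ⊔ K = ((S : Subgroup G) ⊓ Subgroup.centralizer ((S : Subgroup G) : Set G)) := by
  have hS := isSyl_top S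
  suffices ∃ V H : Subgroup G, V ≤ S ∧ V ≤ 𝐂 V ∧ (S : Subgroup G) ⊓ 𝐂 (S : Subgroup G) ≤ V ∧ S ≤ H ∧ H ≤ 𝐍 V ∧
      ∀ x ∈ V ⊓ 𝐂 H, ∀ g : G, g * x * g⁻¹ ∈ (S : Subgroup G) → g * x * g⁻¹ = x by
    obtain ⟨V, H, h1, h2, h3, h4, h5, h6⟩ := this
    obtain ⟨K, hK⟩ := split hS h1 h2 h3 h4 h5
    refine ⟨V ⊓ 𝐂 H, K, fun x => ⟨fun hx => ⟨h1 hx.1, h6 x hx⟩, fun ⟨hx, h7⟩ => ?_⟩, hK⟩
    have h8 : x ∈ V := h3 ⟨hx, fun s hs => mul_inv_eq_iff_eq_mul.1 (h7 s (mul_mem (mul_mem hs hx) (inv_mem hs)))⟩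
    exact ⟨h8, fun g hg => mul_inv_eq_iff_eq_mul.1 (h7 g (h1 ((mem_normalizer_iff.1 (h5 hg) x).1 h8)))⟩
  rcases h with h | h
  · refine ⟨centerThompsonOf 0 S, 𝐍 (thompsonSubgroupOf 0 (S : Subgroup G)), centerThompsonOf_le _ _,
      isMulCommutative_iff'.1 (centerThompsonOf_comm _ _),
      fun x hx => mem_centerThompsonOf_of_center hx.1 hx.2 (pow_zero x), le_normalizer_thompsonOf _ _,
      le_normalizer_inf le_rfl (le_normalizer_centralizer le_rfl), fun x hx => S2799.result S x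
        (centerThompsonOf_le _ _ hx.1) ?_ (Or.inl h)⟩
    rw [thompsonSubgroupAOf_eq, map_subtype_center]
    exact ⟨le_normalizer hx.1.1, hx.2⟩
  · let f := QuotientGroup.mk' (pPrimeCore p G)
    have hc := isPConstrained_iff.1 (PSol.isPConstrained (p := p) (pSol_top_of_solvable (G := G)))
    have hT : IsSyl p ((S : Subgroup G).map f) ⊤ := map_top_of_surjective f (QuotientGroup.mk'_surjective _) ▸ hS.map f
    set Z := pCoreOf p (⊤ : Subgroup (G ⧸ pPrimeCore p G)) ⊓ 𝐂 (pCoreOf p (⊤ : Subgroup (G ⧸ pPrimeCore p G)))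
    have nZ : Z.Normal := normal_of_top_le_normalizer (le_normalizer_inf (le_normalizer_pCoreOf p ⊤)
      (le_normalizer_centralizer (le_normalizer_pCoreOf p ⊤)))
    have inj : ∀ x ∈ (S : Subgroup G), ∀ y ∈ (S : Subgroup G), f x = f y → x = y := fun x hx y hy e =>
      mul_inv_eq_one.1 ((inf_pPrimeCore_eq_bot hS.isP).le <| mem_inf.2 ⟨mul_mem hx (inv_mem hy),
        (QuotientGroup.eq_one_iff _).1 (show f _ = 1 by rw [map_mul, map_inv, e, mul_inv_cancel])⟩)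
    have e : ((S : Subgroup G) ⊓ Z.comap f).map f = Z := le_antisymm (map_le_iff_le_comap.2 inf_le_right) fun z hz => by
      obtain ⟨s, hs, rfl⟩ := hT.pCoreOf_le hz.1
      exact ⟨s, ⟨hs, hz⟩, rfl⟩
    have e2 := sup_normalizer_eq_top_of_map (hS.isP.to_le inf_le_left) (H1.coprime_card_pPrimeCore p G) (e.symm ▸ nZ)
    refine ⟨S ⊓ Z.comap f, _, inf_le_left, fun x hx y hy => inj _ (mul_mem hy.1 hx.1) _ (mul_mem hx.1 hy.1) ?_,
      fun x hx => ⟨hx.1, hc.center_le hT ⟨⟨x, hx.1, rfl⟩, ?_⟩⟩,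
      le_normalizer_inf le_normalizer le_normalizer_of_normal, le_rfl, fun x hx g hg => inj _ hg _ hx.1.1 ?_⟩
    · rw [map_mul, map_mul]
      exact center_le_centralizer_center _ hx.2 _ hy.2
    · rintro _ ⟨s, hs, rfl⟩
      rw [← map_mul, hx.2 s hs, map_mul]
    · obtain ⟨o, ho, n, hn, rfl⟩ := mem_sup_of_normal_left.1 (e2.ge (mem_top g))
      have h1 : f o = 1 := (QuotientGroup.eq_one_iff _).2 ho
      rw [mul_assoc o, hx.2 n hn]
      simp only [map_mul, map_inv, h1, _root_.mul_inv_rev, one_mul, inv_one, mul_one, mul_inv_cancel_right]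

end Cfsg.Agent.S1945
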