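import Cfsg.Statements.S1948
import Cfsg.Agent.H17.FStar

set_option autoImplicit false
open Cfsg

namespace Cfsg.Agent.S1948

/-- Let S be a Sylow p-subgroup of the finite group G. Then G = N_G(S)·O_{p'}(G) if and only if G is p-constrained and N_G(S) controls fusion in S, in the sense that whenever a subgroup Q of S has a conjugate g Q g⁻¹ inside S, the element g is a product n c with n normalizing S and c centralizing Q. -/
theorem result {G : Type*} [Group G] [Finite G] {p : ℕ} [Fact p.Prime] (S : Sylow p G) :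
    Subgroup.normalizer ((S : Subgroup G) : Set G) ⊔ Cfsg.pPrimeCore p G = ⊤ ↔
      (Cfsg.IsPConstrained p G ∧
        ∀ Q : Subgroup G, Q ≤ (S : Subgroup G) → ∀ g : G, Q.map (MulAut.conj g).toMonoidHom ≤ (S : Subgroup G) →
          ∃ n ∈ Subgroup.normalizer ((S : Subgroup G) : Set G), ∃ c ∈ Subgroup.centralizer (Q : Set G), g = n * c) := by
  set f := QuotientGroup.mk' (Cfsg.pPrimeCore p G) with hf
  have hS := H17.isSyl_sylow S
  constructor
  · intro h
    have hn : Subgroup.normalizer ((S : Subgroup G) : Set G) ≤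
        Subgroup.normalizer (Cfsg.pPrimeCore p G : Set G) := H17.le_normalizer_of_normal' _ _
    refine ⟨H17.isPConstrained_iff_charP.mpr (H17.charP_iff.mpr ⟨H17.oQ_top_quotient G p,
      H17.lay_eq_bot_iff.mpr fun K hK => ?_⟩), fun Q hQ g hg => ?_⟩
    · have h1 := hS.map f
      rw [H17.map_mk'_top] at h1
      have h2 : (S : Subgroup G).map f ≤ H17.oP p ⊤ := by
        refine H17.le_oP le_top ?_ h1.pgroup
        rw [← H17.map_mk'_top, ← h, Subgroup.map_sup, H17.map_mk'_eq_bot_iff.mpr le_rfl, sup_bot_eq]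
        exact H17.map_le_normalizer_map f le_rfl
      have h3 := h1.inf_subn hK.subn
      refine h3.eq_bot_iff.mp (h3.eq_bot_of_perfect_of_central hK.perfect (inf_le_left.trans (h2.trans ?_)))
        (hK.dvd_card (H17.oQ_top_quotient G p))
      exact H17.le_centralizer_of_commutator_eq_bot' (H17.commutator_eq_bot_mono (H17.commutator_lay_oP p ⊤)
        hK.le_lay le_rfl)
    · obtain ⟨n, hn', y, hy, rfl⟩ := (H17.mem_sup_of_le_normalizer_right hn).mp (h ▸ Subgroup.mem_top g)
      refine ⟨n, hn', y, fun q hq => ?_, rfl⟩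
      have h1 : y * q * y⁻¹ ∈ (S : Subgroup G) := by
        refine (Subgroup.mem_normalizer_iff.mp hn' _).mpr ?_
        have := hg (H17.conj_mem_cj (g := n * y) hq)
        rwa [show n * y * q * (n * y)⁻¹ = n * (y * q * y⁻¹) * n⁻¹ by group] at this
      have h2 : y * q * y⁻¹ * q⁻¹ ∈ (S : Subgroup G) ⊓ Cfsg.pPrimeCore p G := by
        refine Subgroup.mem_inf.mpr ⟨mul_mem h1 (inv_mem (hQ hq)), ?_⟩
        rw [show y * q * y⁻¹ * q⁻¹ = y * (q * y⁻¹ * q⁻¹) by group]
        exact mul_mem hy (Subgroup.Normal.conj_mem inferInstance _ (inv_mem hy) q)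
      rw [H17.inf_eq_bot_of_pgroup_of_not_dvd S.isPGroup' (H17.pPrimeCore_not_dvd G p), Subgroup.mem_bot,
        mul_inv_eq_one, mul_inv_eq_iff_eq_mul] at h2
      exact h2.symm
  · rintro ⟨h1, h2⟩
    haveI : (Cfsg.pPrimePCore p G).Normal := Subgroup.Normal.comap inferInstance _
    have hP := hS.inf_normal (K := Cfsg.pPrimePCore p G) le_top (H17.le_normalizer_of_normal' _ _)
    set P := (S : Subgroup G) ⊓ Cfsg.pPrimePCore p G with hPdef
    have h3 : Cfsg.pPrimePCore p G ≤ Subgroup.normalizer ((S : Subgroup G) : Set G) ⊔ Cfsg.pPrimeCore p G := by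
      rw [H17.eq_sup_ker_inf_of_map_eq f hP.le (H17.map_pPrimePCore.trans hP.map_pPrimePCore.symm).le]
      exact sup_le_sup (inf_le_left.trans Subgroup.le_normalizer) (inf_le_left.trans (QuotientGroup.ker_mk' _).le)
    obtain ⟨T, hT⟩ := hP.exists_sylow
    have h4 := h1 T
    rw [hT] at h4
    rw [eq_top_iff, hP.frattini le_top (H17.le_normalizer_of_normal' _ _)]
    refine sup_le h3 fun g hg => ?_
    obtain ⟨n, hn, c, hc, rfl⟩ := h2 P inf_le_left g ((H17.mem_normalizer_iff_cj.mp hg.2).le.trans inf_le_left)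
    exact mul_mem (Subgroup.mem_sup_left hn) (h3 (h4 hc))

end Cfsg.Agent.S1948
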