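import Cfsg.Statements.S1951
import Cfsg.Agent.H9.PSg
import Cfsg.Agent.H3.PNilpotent

set_option autoImplicit false
open Cfsg

namespace Cfsg.Agent.S1951

open H5 H7 H9.PSg
open scoped ComplexConjugate

/-- Let p be a prime and P a nontrivial elementary abelian Sylow p-subgroup of a finite nonabelian simple group G whose nonidentity elements are all conjugate in G. Suppose that two elements of P are conjugate in G only if they are conjugate in N_G(P), that the centralizer of every element of order p of P has a normal p-complement, and that every two elements of order p of G generate a p-solvable subgroup. Then p = 2. -/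
theorem result {G : Type*} [Group G] [Finite G] [IsSimpleGroup G] (hG : ¬ IsMulCommutative G) {p : ℕ} [Fact p.Prime] (P : Sylow p G)
    (hP1 : (P : Subgroup G) ≠ ⊥) (hPe : Cfsg.IsElementaryAbelian p (P : Subgroup G))
    (hconj : ∀ x ∈ (P : Subgroup G), ∀ y ∈ (P : Subgroup G), x ≠ 1 → y ≠ 1 → ∃ g : G, g * x * g⁻¹ = y)
    (ha : ∀ x ∈ (P : Subgroup G), ∀ y ∈ (P : Subgroup G), (∃ g : G, g * x * g⁻¹ = y) →
      ∃ n ∈ Subgroup.normalizer ((P : Subgroup G) : Set G), n * x * n⁻¹ = y)
    (hb : ∀ x ∈ (P : Subgroup G), orderOf x = p → Cfsg.HasNormalPComplement p ↥(Subgroup.centralizer ({x} : Set G)))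
    (hc : ∀ x y : G, orderOf x = p → orderOf y = p → Cfsg.IsPSolvable p ↥(Subgroup.closure ({x, y} : Set G))) :
    p = 2 := by
  classical
  have hp : p.Prime := Fact.out
  by_contra h2
  have := Fintype.ofFinite G
  obtain ⟨M, hM⟩ := exists_isPModular p
  haveI : PM p M := ⟨hM⟩
  haveI : Nontrivial (P : Subgroup G) := (Subgroup.nontrivial_iff_ne_bot _).2 hP1
  obtain ⟨⟨x, hx⟩, x1⟩ := exists_ne (1 : (P : Subgroup G))
  have x1 : x ≠ 1 := fun e => x1 (Subtype.ext e)
  have hc' : ∀ a b : (P : Subgroup G), a * b = b * a := hPe.1.is_comm.comm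
  have xp : x ^ p = 1 := hPe.2 x hx
  have ox : orderOf x = p := orderOf_eq_prime xp x1
  have hx' : IsPE p x := ⟨1, by simpa⟩
  have pn : PNil p (Subgroup.centralizer ({x} : Set G)) := by
    obtain ⟨N, _, h1, h3⟩ := H3.hasNormalPComplement_iff_exists_normal.1 (hb x hx ox)
    obtain ⟨k, hk⟩ := IsPGroup.iff_card.1 h3
    exact pnil_of_normal h1 hk
  have syl : SylIn p (P : Subgroup G) (Subgroup.centralizer ({x} : Set G)) :=
    (sylIn_top P).of_le (fun y hy => Subgroup.mem_centralizer_singleton_iff.2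
      (congrArg Subtype.val (hc' ⟨y, hy⟩ ⟨x, hx⟩))) le_top
  set q := Nat.card (P : Subgroup G) with hq
  have hmu : ∀ g, mu (principalBlock M G) g x = if p ∣ orderOf g then (q : ℂ) else 0 := by
    intro g
    split_ifs with e
    · obtain ⟨t, -, ht⟩ := (sylIn_top P).exists_cj_le (isPE_pp (p := p) g).isPGroup_zpowers le_top
      have m := cj_le_iff'.1 ht _ (Subgroup.mem_zpowers _)
      obtain ⟨s, hs⟩ := hconj _ m x hx
        (fun e' => pp_eq_one_iff.1 (conj_eq_one_iff.1 e') e) x1
      have e' : IsConj (pp p g) x := (isConj_iff.2 ⟨t, rfl⟩).trans (isConj_iff.2 ⟨s, hs⟩)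
      rw [hq, syl.card, ← mu_principal_of_pnil (M := M) hx' pn]
      exact finsum_mem_congr rfl fun χ hχ => by rw [apply_section pn hχ e']
    · exact mu_eq_zero_of_dvd (isSat_of_isPBlock isPBlock_principalBlock) e (ox ▸ dvd_rfl)
  -- integer values
  have hval : ∀ χ : IrrCharacter G, ∃ n a : ℕ, 0 < n ∧ (χ : G → ℂ) 1 = n ∧
      (χ : G → ℂ) x = ((n : ℤ) - q * a : ℤ) ∧ (χ ≠ irrOne G → 0 < a) := by
    intro χ
    obtain ⟨n, hn, e⟩ := χ.2.exists_apply_one
    obtain ⟨a, ha⟩ := const_int hc' (χ.2.isCharacter.restrict (P : Subgroup G))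
      (d := (χ : G → ℂ) x) fun v hv => by
        obtain ⟨s, hs⟩ := hconj _ v.2 x hx (fun e' => hv (Subtype.ext e')) x1
        rw [← hs, χ.2.isClassFunction]
    simp only [OneMemClass.coe_one] at ha
    refine ⟨n, a, hn, e, by rw [ha, e]; push_cast; rfl, fun h1 => Nat.pos_of_ne_zero fun a0 => x1 ?_⟩
    have := χ.2.charKer_eq_bot_of_isSimpleGroup fun e' => h1 (Subtype.ext e')
    rw [← Subgroup.mem_bot, ← this, χ.2.mem_charKer, ha, a0]; simp
  choose n a hn e1 ex ha using hval
  set D : IrrCharacter G → ℤ := fun χ => n χ - q * a χ with hD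
  have ex : ∀ χ : IrrCharacter G, (χ : G → ℂ) x = (D χ : ℂ) := ex
  set B := Finset.univ.filter (· ∈ principalBlock M G) with hB
  have hmu' : ∀ g, ∑ χ ∈ B, (χ : G → ℂ) g * D χ = if p ∣ orderOf g then (q : ℂ) else 0 := by
    intro g
    rw [← hmu, mu_eq, hB, Finset.sum_filter]
    refine Finset.sum_congr (by convert rfl) fun χ _ => ?_
    simp [ex]
  have q3 : 3 ≤ q := by
    have h1 : p ∣ q := ox ▸ Subgroup.orderOf_dvd_natCard _ hx
    have := Nat.le_of_dvd Nat.card_pos h1
    have := hp.two_le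
    omega
  have lt := num_bound B D (fun χ => n χ) q (by exact_mod_cast q3) (o := irrOne G)
    (by simp [hB, irrOne_mem_principalBlock])
    (by have := ex (irrOne G); rw [irrOne_apply] at this; exact_mod_cast this.symm)
    (by have := e1 (irrOne G); rw [irrOne_apply] at this; exact_mod_cast this.symm)
    (fun χ _ => by exact_mod_cast hn χ)
    (fun χ _ h => by
      have : (1 : ℤ) ≤ a χ := by exact_mod_cast ha χ h
      simp only [hD]; nlinarith)
    (by
      have := hmu' x
      simp only [ex, ox, dvd_rfl, if_true, ← sq] at this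
      exact_mod_cast this)
    (by
      have := hmu' 1
      simp only [e1, orderOf_one, Nat.dvd_one, hp.one_lt.ne', if_false] at this
      exact_mod_cast this)
  -- the count
  set S := Finset.univ.filter fun y : G => p ∣ orderOf (y * x * y⁻¹ * x) with hS
  have cnt : (q : ℚ) * S.card = Nat.card G * ∑ χ ∈ B, (D χ : ℚ) ^ 3 / (n χ : ℤ) := by
    have h1 : ∑ y : G, ∑ χ ∈ B, (χ : G → ℂ) (y * x * y⁻¹ * x) * D χ = q * S.card := by
      simp only [hmu']
      rw [← Finset.sum_filter, Finset.sum_const, nsmul_eq_mul, mul_comm]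
    rw [Finset.sum_comm] at h1
    simp only [← Finset.sum_mul, fun χ : IrrCharacter G => χ.2.sum_conj_mul x x, ex, e1] at h1
    have h3 : ((q : ℚ) * S.card : ℚ) = ((Nat.card G * ∑ χ ∈ B, (D χ : ℚ) ^ 3 / (n χ : ℤ) : ℚ) : ℂ) := by
      push_cast
      rw [← h1, Finset.mul_sum]
      exact Finset.sum_congr rfl fun χ _ => by ring
    exact_mod_cast h3
  obtain ⟨t, ht⟩ := hconj x hx x⁻¹ (inv_mem hx) x1 (inv_ne_one.2 x1)
  have half : Nat.card G ≤ 2 * S.card := by
    have : (Finset.univ : Finset G) ⊆ S ∪ S.image (· * t⁻¹) := fun y _ => by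
      have oy : orderOf (y * x * y⁻¹) = p := by rw [← ox]; exact (MulAut.conj y).orderOf_eq x
      rcases psolv_pair hp h2 (hc _ _ oy ox) (oy ▸ pow_orderOf_eq_one _) xp
        (fun e => x1 (conj_eq_one_iff.1 e)) with h | h
      · exact Finset.mem_union_left _ (by simpa [hS] using h)
      · refine Finset.mem_union_right _ (Finset.mem_image.2 ⟨y * t, ?_, by simp⟩)
        rw [hS, Finset.mem_filter]
        refine ⟨Finset.mem_univ _, ?_⟩
        rwa [show y * t * x * (y * t)⁻¹ = y * (t * x * t⁻¹) * y⁻¹ by group, ht,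
          show y * x⁻¹ * y⁻¹ = (y * x * y⁻¹)⁻¹ by group]
    have h1 := (Finset.card_le_card this).trans (Finset.card_union_le _ _)
    have h3 := Finset.card_image_le (s := S) (f := (· * t⁻¹))
    rw [Finset.card_univ, ← Nat.card_eq_fintype_card] at h1
    omega
  have g0 : (0 : ℚ) < Nat.card G := by exact_mod_cast Nat.card_pos
  have h5 : (Nat.card G : ℚ) ≤ 2 * S.card := by exact_mod_cast half
  have h6 : (0 : ℚ) < q := by exact_mod_cast (by omega : 0 < q)
  push_cast at lt cnt
  nlinarith [mul_lt_mul_of_pos_left lt g0, mul_le_mul_of_nonneg_left h5 h6.le]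

end Cfsg.Agent.S1951
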