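import Cfsg.Statements.S1953
import Cfsg.Agent.H27.Constr
import Cfsg.Agent.H10.SL2Sylow

set_option autoImplicit false
open Cfsg

namespace Cfsg.Agent.S1953

open H26 H27 Subgroup

open scoped MatrixGroups

universe u

/-- no automizer involves `SL₂(p)` -/
def AF (p : ℕ) (Y : Type*) [Group Y] : Prop :=
  ∀ Q : Subgroup Y, IsPGroup p Q → ∀ L ≤ 𝐍 Q, ∀ ψ : L →* SL(2, ZMod p), Function.Surjective ψ →
    (∀ l : L, (l : Y) ∈ 𝐂 Q → ψ l = 1) → False

theorem AF.subgroup {p : ℕ} {Y : Type*} [Group Y] (h : AF p Y) (H : Subgroup Y) : AF p H := by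
  intro Q hQ L hL ψ hψ hc
  let ε := L.equivMapOfInjective _ H.subtype_injective
  refine h (Q.map H.subtype) (hQ.map _) (L.map H.subtype) (map_le_normalizer_map _ hL)
    (ψ.comp ε.symm.toMonoidHom) (hψ.comp ε.symm.surjective) fun l hl => hc _ ?_
  obtain ⟨l, rfl⟩ := ε.surjective l
  have : ε.symm.toMonoidHom (ε l) = l := ε.symm_apply_apply l
  rw [this]
  exact (map_mem_centralizer_iff H.subtype_injective).1 hl

theorem AF.of_surj {p : ℕ} {Y Z : Type*} [Group Y] [Group Z] (h : AF p Y) (π : Y →* Z)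
    (hπ : ∀ Q : Subgroup Z, IsPGroup p Q → ∃ T : Subgroup Y, IsPGroup p T ∧ T.map π = Q ∧ (𝐍 T).map π = 𝐍 Q) :
    AF p Z := by
  intro Q hQ L hL ψ hψ hc
  obtain ⟨T, hT, rfl, h2⟩ := hπ Q hQ
  let φ : ↥(𝐍 T ⊓ L.comap π) →* L := (π.comp (𝐍 T ⊓ L.comap π).subtype).codRestrict L fun l => l.2.2
  have hφ : Function.Surjective φ := by
    intro l
    obtain ⟨y, hy, e⟩ := h2.ge (hL l.2)
    exact ⟨⟨y, hy, mem_comap.2 (e ▸ l.2)⟩, Subtype.ext e⟩
  exact h T hT _ inf_le_left (ψ.comp φ) (hψ.comp hφ) fun l hl =>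
    hc _ (map_le_centralizer_map π le_rfl (mem_map_of_mem π hl))

theorem pCore_SL2 {p : ℕ} [Fact p.Prime] : Cfsg.pCore p SL(2, ZMod p) = ⊥ := by
  have h1 := H10.card_sylow_SL2 (F := ZMod p) p
  have h2 : 1 < Nat.card (Sylow p SL(2, ZMod p)) := by
    have : 0 < Nat.card (ZMod p) := Nat.card_pos
    omega
  obtain ⟨P, Q, hPQ⟩ := (Finite.one_lt_card_iff_nontrivial.1 h2).exists_pair_ne
  classical
  rw [eq_bot_iff, ← (H10.centralP'_SL (F := ZMod p) p).inf_eq_bot hPQ]
  exact le_inf (H1.pCore_le_sylow P) (H1.pCore_le_sylow Q)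

theorem AF.not_involves {p : ℕ} [Fact p.Prime] {Y : Type*} [Group Y] (h : AF p Y)
    (hc : 𝐂 (Cfsg.pCore p Y) ≤ Cfsg.pCore p Y) : ¬ Cfsg.Involves SL(2, ZMod p) Y := by
  rw [involves_iff]
  rintro ⟨L, ψ, hψ⟩
  refine h _ (isPGroup_pCore p Y) L le_normalizer_of_normal ψ hψ fun l hl => ?_
  have := (inferInstance : ((Cfsg.pCore p Y).subgroupOf L).Normal).map ψ hψ
  have h1 : ((Cfsg.pCore p Y).subgroupOf L).map ψ ≤ Cfsg.pCore p _ :=
    le_pCore (((isPGroup_pCore p Y).comap_subtype).map ψ)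
  rw [pCore_SL2] at h1
  exact h1 (mem_map_of_mem ψ (hc hl))

theorem ctl_kL {p : ℕ} [Fact p.Prime] (hp : p ≠ 2) {G : Type u} [Group G] [Finite G] (h : AF p G) {S : Subgroup G}
    (hS : IsSyl p S ⊤) : Ctl (𝐍 (kL S)) S ⊤ := by
  rw [← inducedFunctor_kInfLower]
  refine ctl_of_class isCharPFunctor_kInfLower (fun Y _ => AF p Y) (fun Y _ _ H h => h.subgroup H)
    (fun Y _ _ h => h.of_surj (QuotientGroup.mk' _) fun Q hQ => ?_)
    (fun Y _ _ h _ => h.of_surj (QuotientGroup.mk' _) fun Q hQ => ?_) (fun Y _ _ h hc T hT => ?_) h hS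
  · obtain ⟨T, hT, rfl⟩ := IsSyl.exists_map_eq (H := Q.comap (QuotientGroup.mk' _)) (QuotientGroup.mk' _)
      (by rw [map_comap_eq_self_of_surjective (QuotientGroup.mk'_surjective _)]; exact isSyl_self hQ)
    exact ⟨T, hT.isP, rfl, map_mk'_normalizer_of_coprime hT.isP (H1.coprime_card_pPrimeCore p Y)⟩
  · have e := map_comap_eq_self_of_surjective (QuotientGroup.mk'_surjective (Cfsg.pCore p Y)) Q
    refine ⟨Q.comap (QuotientGroup.mk' _), hQ.comap_of_ker_isPGroup _
      (by rw [QuotientGroup.ker_mk']; exact isPGroup_pCore p Y), e, ?_⟩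
    rw [map_mk'_normalizer_aux ((QuotientGroup.ker_mk' _).ge.trans (ker_le_comap _ _)), e]
  · rw [inducedFunctor_kInfLower]
    exact (kinf_normal_of_pStable hT hc fun V _ => pStable_of_not_involves_SL2 hp fun h1 =>
      h.not_involves hc (Inv.trans h1 (involves_quotient V))).1

/-- Let p be an odd prime and P a Sylow p-subgroup of the finite group G, and suppose that for no p-subgroup Q of G does N_G(Q)/C_G(Q) have a section isomorphic to SL₂(p). Call a subgroup Q of P centric-radical when Z(Q) is a Sylow p-subgroup of C_G(Q) and the only normal subgroup X of N_G(Q) containing Q·C_G(Q) such that the index of Q·C_G(Q) in X is a power of p is Q·C_G(Q) itself (that is, N_G(Q)/Q·C_G(Q) has no nontrivial normal p-subgroup). Then there is a centric-radical subgroup Q of P contained in every centric-radical subgroup of P; it is normal in P, and N_G(Q) controls strong fusion in P: whenever a subgroup A of P has g A g⁻¹ ≤ P, the element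 g is a product h c with h in N_G(Q) and c centralizing A. -/
theorem result {G : Type*} [Group G] [Finite G] {p : ℕ} [Fact p.Prime] (hp : p ≠ 2) (P : Sylow p G)
    (hfree : ∀ Q : Subgroup G, IsPGroup p ↥Q → ¬ ∃ (H K : Subgroup G) (_ : (K.subgroupOf H).Normal),
      Subgroup.centralizer (Q : Set G) ≤ K ∧ K ≤ H ∧ H ≤ Subgroup.normalizer (Q : Set G) ∧
      Nonempty ((↥H ⧸ K.subgroupOf H) ≃* Matrix.SpecialLinearGroup (Fin 2) (ZMod p)))
    (cr : Subgroup G → Prop)
    (hcr : ∀ Q : Subgroup G, cr Q ↔ (Q ≤ (P : Subgroup G) ∧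
      (∃ R : Sylow p ↥(Subgroup.centralizer (Q : Set G)),
        (R : Subgroup ↥(Subgroup.centralizer (Q : Set G))).map (Subgroup.centralizer (Q : Set G)).subtype = Q ⊓ Subgroup.centralizer (Q : Set G)) ∧
      ∀ X : Subgroup G, X ≤ Subgroup.normalizer (Q : Set G) →
        (∀ n ∈ Subgroup.normalizer (Q : Set G), X.map (MulAut.conj n).toMonoidHom = X) →
        Q ⊔ Subgroup.centralizer (Q : Set G) ≤ X → (∃ k : ℕ, (Q ⊔ Subgroup.centralizer (Q : Set G)).relIndex X = p ^ k) →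
        X = Q ⊔ Subgroup.centralizer (Q : Set G))) :
    ∃ Q : Subgroup G, cr Q ∧ (∀ R : Subgroup G, cr R → Q ≤ R) ∧ (∀ x ∈ (P : Subgroup G), Q.map (MulAut.conj x).toMonoidHom = Q) ∧
      ∀ A : Subgroup G, A ≤ (P : Subgroup G) → ∀ g : G, A.map (MulAut.conj g).toMonoidHom ≤ (P : Subgroup G) →
        ∃ h ∈ Subgroup.normalizer (Q : Set G), ∃ c ∈ Subgroup.centralizer (A : Set G), g = h * c := by
  have hS := isSyl_top P
  have hAF : AF p G := by
    intro Q hQ L hL ψ hψ hc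
    refine hfree Q hQ ?_
    have hn : L ≤ 𝐍 (𝐂 Q) := hL.trans (normalizer_le_normalizer_centralizer Q)
    have hn2 : L ⊔ 𝐂 Q ≤ 𝐍 (𝐂 Q) := sup_le hn le_normalizer
    have i1 : ((𝐂 Q).subgroupOf L).Normal := normal_subgroupOf_of_le_normalizer hn
    have i2 : ((𝐂 Q).subgroupOf (L ⊔ 𝐂 Q)).Normal := normal_subgroupOf_of_le_normalizer hn2
    let ε := QuotientGroup.quotientInfEquivProdNormalizerQuotient L (𝐂 Q) hn
    let ψ' : ↥(L ⊔ 𝐂 Q) →* Matrix.SpecialLinearGroup (Fin 2) (ZMod p) :=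
      ((QuotientGroup.lift _ ψ fun l hl => hc l hl).comp ε.symm.toMonoidHom).comp (QuotientGroup.mk' _)
    have hψ' : Function.Surjective ψ' :=
      ((QuotientGroup.lift_surjective_of_surjective _ _ hψ fun l hl => hc l hl).comp ε.symm.surjective).comp
        (QuotientGroup.mk'_surjective _)
    have e : (ψ'.ker.map (L ⊔ 𝐂 Q).subtype).subgroupOf (L ⊔ 𝐂 Q) = ψ'.ker :=
      comap_map_eq_self_of_injective (subtype_injective _) _
    have i3 : ((ψ'.ker.map (L ⊔ 𝐂 Q).subtype).subgroupOf (L ⊔ 𝐂 Q)).Normal := by rw [e]; infer_instance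
    refine ⟨L ⊔ 𝐂 Q, ψ'.ker.map (L ⊔ 𝐂 Q).subtype, i3, fun c hc' => ?_, map_subtype_le _,
      sup_le hL (centralizer_le_normalizer _), ⟨(QuotientGroup.quotientMulEquivOfEq e).trans
        (QuotientGroup.quotientKerEquivOfSurjective ψ' hψ')⟩⟩
    refine ⟨⟨c, mem_sup_right hc'⟩, ?_, rfl⟩
    have : QuotientGroup.mk' ((𝐂 Q).subgroupOf (L ⊔ 𝐂 Q)) ⟨c, mem_sup_right hc'⟩ = 1 :=
      (QuotientGroup.eq_one_iff _).2 hc'
    change ((QuotientGroup.lift _ ψ fun l hl => hc l hl).comp ε.symm.toMonoidHom) (QuotientGroup.mk' _ _) = 1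
    rw [this, map_one]
  have h0 : Ctl (⊤ ⊓ 𝐍 (kL (P : Subgroup G))) P ⊤ := by rw [top_inf_eq]; exact ctl_kL hp hAF hS
  have hcen := centric_opF (kL_le _) h0 (inf_centralizer_kL_le hS.isP)
  have hrad := rad_opF hS hcen
  have hQ := ctl_opF (P : Subgroup G) ⊤
  have hle := opF_le (P : Subgroup G) ⊤
  set Q := opF (P : Subgroup G) ⊤
  have hSQ := hQ.le_normalizer hle le_top
  have hE := ext_of_le_normalizer hS hle hSQ
  refine ⟨Q, (hcr Q).2 ⟨hle, ?_, fun X h1 h2 h3 ⟨k, h4⟩ => le_antisymm ?_ h3⟩, fun R hR => ?_,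
    fun x hx => cj_eq_of_mem_normalizer (hSQ hx), fun A hA g hg => ?_⟩
  · have h1 := hE.isSyl_centralizer
    rw [top_inf_eq, le_antisymm (le_inf hcen inf_le_right) (inf_le_inf_right _ hle)] at h1
    exact h1.exists_sylow
  · have hn : 𝐍 Q ≤ 𝐍 X := fun n hn => cj_eq_iff.1 (h2 n hn)
    have h5 : pResidualOf p X ≤ Q ⊔ 𝐂 Q := pResidualOf_le_of_relIndex
      (h1.trans (le_normalizer_sup le_rfl (normalizer_le_normalizer_centralizer Q))) h4
    have h6 := hrad X (le_inf le_top h1) (inf_le_right.trans hn) fun y hy hc =>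
      pResidualOf_sup_le (hS.isP.to_le hle) (le_normalizer.trans (normalizer_le_normalizer_centralizer Q))
        (mem_pResidualOf (h5 (mem_pResidualOf hy hc)) hc)
    exact ((hS.mono hSQ le_top).inf_of_normal hn h1).le_of_pResidualOf_le h5 (h6.trans le_sup_left)
  · obtain ⟨h1, ⟨T, h2⟩, h3⟩ := (hcr R).1 hR
    have hT := isSyl_map_subtype T
    rw [h2] at hT
    have hRc : (P : Subgroup G) ⊓ 𝐂 R ≤ R := (hT.le_of_le_normalizer' (hS.isP.to_le inf_le_left) inf_le_right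
      (inf_le_right.trans ((centralizer_anti inf_le_left).trans (centralizer_le_normalizer _)))).trans inf_le_left
    refine hQ.le_of_rad hS hle h1 fun K a b c => ?_
    rw [top_inf_eq] at a b
    have hn : 𝐍 R ≤ 𝐍 (R ⊔ 𝐂 R) := le_normalizer_sup le_rfl (normalizer_le_normalizer_centralizer R)
    have h4 := h3 (K ⊔ (R ⊔ 𝐂 R)) (sup_le a (sup_le le_normalizer (centralizer_le_normalizer _)))
      (fun n hn' => cj_eq_iff.2 (le_normalizer_sup b hn hn')) le_sup_right (by
        rw [relIndex_sup_of_le_normalizer (a.trans hn)]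
        exact relIndex_eq_pow_of_pResidualOf_le ((pResidualOf_le_iff.2 c).trans le_sup_right))
    refine (inf_le_inf_left _ (le_sup_left.trans h4.le)).trans ?_
    rw [inf_comm, dedekind_left h1 (le_normalizer.trans (normalizer_le_normalizer_centralizer R)), inf_comm]
    exact sup_le le_rfl hRc
  · obtain ⟨n, hn, c, hc, e⟩ := hQ A g hA (mem_top g) hg
    exact ⟨n, hn.2, c, hc, e⟩

end Cfsg.Agent.S1953
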