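import Cfsg.Statements.S1954
import Cfsg.Agent.H27.Normal

set_option autoImplicit false
open Cfsg

namespace Cfsg.Agent.S1954

open H26 H27 Subgroup

/-- Let N be a normal subgroup of the finite group G, P a Sylow p-subgroup of G, and V a subgroup of P ∩ N normal in P ∩ N such that N_N(V) controls strong fusion in P ∩ N with respect to N (whenever a subgroup A of P ∩ N has n A n⁻¹ ≤ P ∩ N for some n in N, then n = h c with h in N_N(V) and c in C_N(A)). Let W be the subgroup generated by the conjugates of V under N_G(P ∩ N). Then N_G(W) controls strong fusion in P with respect to G. -/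
theorem result {G : Type*} [Group G] [Finite G] {p : ℕ} [Fact p.Prime] (N : Subgroup G) [N.Normal] (P : Sylow p G) (V : Subgroup G)
    (hV : V ≤ (P : Subgroup G) ⊓ N) (hVn : ∀ x ∈ (P : Subgroup G) ⊓ N, V.map (MulAut.conj x).toMonoidHom = V)
    (hctrl : ∀ A : Subgroup G, A ≤ (P : Subgroup G) ⊓ N → ∀ n ∈ N, A.map (MulAut.conj n).toMonoidHom ≤ (P : Subgroup G) ⊓ N →
      ∃ h ∈ N ⊓ Subgroup.normalizer (V : Set G), ∃ c ∈ N ⊓ Subgroup.centralizer (A : Set G), n = h * c)
    (W : Subgroup G) (hW : W = Subgroup.closure (⋃ x ∈ Subgroup.normalizer (((P : Subgroup G) ⊓ N : Subgroup G) : Set G),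
      ((V.map (MulAut.conj x).toMonoidHom : Subgroup G) : Set G))) :
    ∀ A : Subgroup G, A ≤ (P : Subgroup G) → ∀ g : G, A.map (MulAut.conj g).toMonoidHom ≤ (P : Subgroup G) →
        ∃ h ∈ Subgroup.normalizer (W : Set G), ∃ c ∈ Subgroup.centralizer (A : Set G), g = h * c := by
  have hS := isSyl_top P
  have hN : (⊤ : Subgroup G) ≤ 𝐍 N := by rw [normalizer_eq_top]
  have h0 : IsSyl p ((P : Subgroup G) ⊓ N) N := hS.inf_of_normal hN le_top
  have hW' : W = ⨆ x : ↥(𝐍 ((P : Subgroup G) ⊓ N)), cj (x : G) V := by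
    rw [hW, iSup_eq_closure]
    congr 1
    ext y
    simp
  have h1 : Ctl (N ⊓ 𝐍 V) ((P : Subgroup G) ⊓ N) N := fun A g hA hg hgA => by
    obtain ⟨h, hh, c, hc, e⟩ := hctrl A hA g hg hgA
    exact ⟨h, hh, c, hc.2, e⟩
  have hWle : W ≤ (P : Subgroup G) ⊓ N := by
    rw [hW']; exact iSup_le fun x => cj_le_of_mem_normalizer hV x.2
  have h2 : Ctl (N ⊓ 𝐍 W) ((P : Subgroup G) ⊓ N) N := by
    rw [hW']
    refine ctl_iSup (fun x => cj_le_of_mem_normalizer hV x.2) fun x => ?_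
    have := h1.cj x
    rwa [cj_eq_of_mem_normalizer x.2, cj_inf, cj_normalizer, cj_eq_of_normal (x : G) N] at this
  have h3 : 𝐍 ((P : Subgroup G) ⊓ N) ≤ 𝐍 W := by
    rw [le_normalizer_iff_cj]
    intro h hh
    rw [hW', cj_iSup]
    refine iSup_le fun x => ?_
    rw [← cj_mul]
    exact le_iSup (fun x : ↥(𝐍 ((P : Subgroup G) ⊓ N)) => cj (x : G) V) ⟨h * x, mul_mem hh x.2⟩
  have h4 := ctl_of_sclosed_char hS (hWle.trans inf_le_left) fun Z hZ hZn z hz g _ hgz => by
    obtain ⟨n, hn, h5⟩ := h0.frattini_mem (hN (mem_top g))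
    have h6 := conj_mem_of_mem_normalizer (hZn (h3 h5)) hz
    have e : g * z * g⁻¹ = n⁻¹ * (n * g * z * (n * g)⁻¹) * n⁻¹⁻¹ := by group
    rw [e]
    refine h2.sclosed (hZ.trans hWle) (inf_le_right.trans hZn) _ h6 _ (inv_mem hn) ?_
    rw [← e]
    exact ⟨hgz, Normal.conj_mem inferInstance _ (hWle (hZ hz)).2 g⟩
  intro A hA g hg
  obtain ⟨n, hn, c, hc, e⟩ := h4 A g hA (mem_top g) hg
  exact ⟨n, hn.2, c, hc, e⟩

end Cfsg.Agent.S1954
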