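import Cfsg.Statements.S2015
import Cfsg.Agent.H27.SecCor

set_option autoImplicit false
universe u
open Cfsg

namespace Cfsg.Agent.S2015

open H26 H27 Subgroup

/-- For p ≥ 5, every finite p-group P has a characteristic subgroup K containing Z(P), depending only on P, whose normalizer controls transfer wherever P is a Sylow subgroup: for every finite group G and every embedding ι of P onto a Sylow p-subgroup of G, the intersection of ι(P) with the derived subgroup of G equals its intersection with the derived subgroup of N_G(ι(K)). -/
theorem result (p : ℕ) [Fact p.Prime] (hp : 5 ≤ p) (P : Type u) [Group P] [Finite P] (hP : IsPGroup p P) : ∃ K : Subgroup P, K.Characteristic ∧ Subgroup.center P ≤ K ∧ ∀ (G : Type u) [Group G] [Finite G] (ι : P →* G), Function.Injective ι → (∃ T : Sylow p G, (T : Subgroup G) = ι.range) → ι.range ⊓ commutator G = ι.range ⊓ (commutator ↥(Subgroup.normalizer ((K.map ι : Subgroup G) : Set G))).map (Subgroup.normalizer ((K.map ι : Subgroup G) : Set G)).subtype := by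
  refine ⟨kInfLower P, characteristic_iff_map_eq.2 fun φ => (isCharPFunctor_kInfLower (p := p)).2 P P hP φ, ?_, ?_⟩
  · rw [← kL_top, ← centralizer_top', ← top_inf_eq (𝐂 ⊤)]
    exact center_le_kL ⊤
  · rintro G _ _ ι hι ⟨T, hT⟩
    have h := (controlsTransferIn_iff (isConjugacyFunctor_induced isCharPFunctor_kInfLower) (isSyl_top T)).1
      (kinf_transfer (G := G) hp).1
    rw [top_inf_eq, inducedFunctor_kInfLower, hT] at h
    rw [← kL_top, map_kL hι, ← MonoidHom.range_eq_map, map_subtype_commutator]
    exact le_antisymm (le_inf inf_le_left h) (inf_le_inf_left _ (commutator_mono le_top le_top))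

end Cfsg.Agent.S2015
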