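import Cfsg.Statements.S2132
import Cfsg.Agent.H14.CzMcL
import Cfsg.Agent.H14.CvMcL2
import Cfsg.Agent.H14.Conway2

set_option autoImplicit false
open Cfsg

namespace Cfsg.Agent.S2132

open H14 L L.CzMcL

/-- The McLaughlin group (as a two-vector stabiliser in the automorphism group of the rank-24 lattice) has a single conjugacy class of involutions, and the centraliser of an involution is a non-split double cover of the alternating group of degree 8. -/
theorem result : (∀ x y : ↥Cfsg.Spor.McL, orderOf x = 2 → orderOf y = 2 → IsConj x y) ∧ ∃ t : ↥Cfsg.Spor.McL, orderOf t = 2 ∧ Cfsg.IsNonsplitDoubleCover ↥(Subgroup.centralizer ({t} : Set ↥Cfsg.Spor.McL)) ↥(alternatingGroup (Fin 8)) := by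
  obtain ⟨_, ⟨M⟩, hN, _⟩ := exM PMc eMcL card_CM (by norm_num)
  obtain ⟨S⟩ := H15.StdAlt8.std
  have : IsSimpleGroup (alternatingGroup (Fin 8)) := alternatingGroup.isSimpleGroup (by simp)
  exact ⟨one_class (CvMcL2.cover M hN), _, ord M hN, dc M hN (Pres.of fun _ _ y hy => H15.StdAlt8.hom S y hy) S.card
    (center_simple S.card (by norm_num))⟩

end Cfsg.Agent.S2132
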