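import Cfsg.Statements.S2134
import Cfsg.Agent.H14.Tv
import Cfsg.Agent.H14.TvHe
import Cfsg.Agent.H15.He

set_option autoImplicit false
open Cfsg

namespace Cfsg.Agent.S2134

/-- The Held group (presented on seven involutions, as in the definitions) has an involution whose centraliser is isomorphic to the centraliser of a transvection in SL(5, 2) (a group of shape 2^{1+6}:GL(3, 2)). -/
theorem result (s : Matrix.SpecialLinearGroup (Fin 5) (ZMod 2)) (hs : (s : Matrix (Fin 5) (Fin 5) (ZMod 2)) = Matrix.transvection 0 1 1) : ∃ z : Cfsg.Spor.He, orderOf z = 2 ∧ Nonempty (↥(Subgroup.centralizer ({z} : Set Cfsg.Spor.He)) ≃* ↥(Subgroup.centralizer ({s} : Set (Matrix.SpecialLinearGroup (Fin 5) (ZMod 2))))) := by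
  obtain ⟨e⟩ := (H14.tv_cen s hs).2
  have : Finite Cfsg.Spor.He := Nat.finite_of_card_ne_zero (by rw [H15.He.card]; norm_num)
  obtain ⟨f⟩ := L.TvHe.iso H15.He.M H15.He.card
  exact ⟨_, L.TvHe.ord H15.He.M H15.He.card, ⟨f.trans e.symm⟩⟩

end Cfsg.Agent.S2134
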