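import Cfsg.Statements.S2135
import Cfsg.Agent.H14.CzJ3
import Cfsg.Agent.H14.CvJ32
import Cfsg.Agent.H15.J3

set_option autoImplicit false
open Cfsg

namespace Cfsg.Agent.S2135

open H14 L L.CzJ3 Subgroup

/-- For any field with 4 elements and any element ω of it with ω² + ω + 1 = 0: in the Janko group J₃ (the group generated by explicit 9 × 9 matrices over that field built from ω, taken modulo its centre) all involutions are conjugate, and the centraliser C of an involution has a normal extraspecial subgroup Q of order 32 containing no elementary abelian subgroup of order 8, complemented in C, with C / Q isomorphic to the alternating group of degree 5 (shape 2^{1+4}_-:A₅). -/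
theorem result {F : Type*} [Field F] [Fintype F] (hF : Fintype.card F = 4) (ω : F) (hω : ω ^ 2 + ω + 1 = 0) : (∀ x y : Cfsg.Spor.J3 F ω, orderOf x = 2 → orderOf y = 2 → IsConj x y) ∧ ∃ t : Cfsg.Spor.J3 F ω, orderOf t = 2 ∧ ∃ (Q : Subgroup ↥(Subgroup.centralizer ({t} : Set (Cfsg.Spor.J3 F ω)))) (_ : Q.Normal), Cfsg.IsExtraspecial 2 Q ∧ Nat.card Q = 32 ∧ (∀ E : Subgroup Q, Cfsg.IsElementaryAbelian 2 E → Nat.card E ≤ 2 ^ 2) ∧ (∃ H : Subgroup ↥(Subgroup.centralizer ({t} : Set (Cfsg.Spor.J3 F ω))), Q.IsComplement' H) ∧ Nonempty (↥(Subgroup.centralizer ({t} : Set (Cfsg.Spor.J3 F ω))) ⧸ Q ≃* ↥(alternatingGroup (Fin 5))) := by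
  obtain ⟨S⟩ := H15.J3.std (hω := hω) hF
  have := S.finite
  have hN := S.card
  obtain ⟨A⟩ := H15.StdAlt5.std
  have hP : PresF (Spor.J3 F ω) _ _ _ := Pres.of fun _ _ y hy => H15.StdAlt5.hom A y hy
  have h := ext S.M hN hP A.card
  have e := subgroupOfEquivOfLe h.le
  have := h.normal
  refine ⟨one_class (CvJ32.cover S.M hN), _, h.ord, _, h.normal, H21.isExtraspecial_of_equiv Nat.prime_two e.symm h.es,
    (Nat.card_congr e.toEquiv).trans h.card, fun E hE => ?_, ⟨_, h.compl' ((ls_le _ hN).trans (eqC _ hN).1.ge)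
      ((lqs _ hN hP).iso_bot A.card (ls_low _ hN) (by norm_num))
      (noP_simple Nat.prime_two A.card Nat.prime_three (by norm_num))⟩, h.iso _ (map_subgroupOf_eq_of_le h.le)⟩
  have hi : Function.Injective ((Subgroup.subtype _).comp e.toMonoidHom) := Subtype.val_injective.comp e.injective
  rw [← card_map_of_injective (K := E) hi]
  refine rank_two (KhJ3.base0 S.M hN) (qpc _ hN).1 (by norm_num) (Nn_eq_sub _ qz [] rfl 0)
    ((Nn_eq_sub _ qz [] rfl 4).trans (L.sub_single _ z)) h.ord h.le rk ?_ ⟨?_, ?_⟩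
  · rintro _ ⟨x, -, rfl⟩; exact (e x).2
  · have := hE.1; infer_instance
  · rintro _ ⟨x, hx, rfl⟩; rw [← map_pow, hE.2 x hx, map_one]

end Cfsg.Agent.S2135
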