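import Cfsg.Statements.S2162
import Cfsg.Agent.H11.ED2

set_option autoImplicit false
open Cfsg

namespace Cfsg.Agent.S2162

/-- Conjugacy of involutions in the special linear group over a finite field of characteristic two, in dimension at least 3: two elements of order 2 of SL_n(F) are conjugate in SL_n(F) exactly when the matrices a − 1 and b − 1 have the same rank (the rank of a − 1 is the dimension of the commutator space [V, a]). -/
theorem result {F : Type*} [Field F] [Fintype F] [CharP F 2] {n : ℕ} (hn : 3 ≤ n) (a b : Matrix.SpecialLinearGroup (Fin n) F) (ha : orderOf a = 2) (hb : orderOf b = 2) :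
    IsConj a b ↔ ((a : Matrix (Fin n) (Fin n) F) - 1).rank = ((b : Matrix (Fin n) (Fin n) F) - 1).rank := by
  have : Nonempty (Fin n) := ⟨⟨0, by omega⟩⟩
  have : Fact (Nat.Prime 2) := ⟨Nat.prime_two⟩
  have h0 : ∀ {s : Matrix.SpecialLinearGroup (Fin n) F}, orderOf s = 2 → (H11.mE s.1 - 1) ^ 2 = 0 :=
    fun hs => (H11.pow_char_pow_eq_one_iff 2 (j := 1)).1 (by
      rw [pow_one, ← hs, ← H11.orderOf_mE_sl, pow_orderOf_eq_one])
  refine ⟨fun h => ?_, fun h => ?_⟩
  · have := ((H11.sl_sim_of_isConj h).sub_one_pow 1).finrank_range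
    rwa [pow_one, pow_one, ← H11.rank_sub_one, ← H11.rank_sub_one] at this
  have h2 := (H11.JT_of_sq (h0 ha) (H11.rank_sub_one _).symm).2
  have h4 := (H11.JT_of_sq (h0 hb) (H11.rank_sub_one _).symm).2
  have h1 : H11.Unip _ := ⟨2, h0 ha⟩
  refine H11.sl_isConj (fun c => ?_) ((h1.sim_iff ⟨2, h0 hb⟩).2 (by rw [h2, h4, h]))
  obtain ⟨k, hk⟩ := Multiset.exists_mem_of_ne_zero (s := H11.JT (H11.mE a.1))
    (by simpa [H11.JT] using H11.ED_ne_zero _)
  have h5 := h1.pow_eq_zero_iff.1 (h0 ha) k hk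
  have h6 := H11.JT_pos hk
  obtain ⟨d, hd⟩ := (FiniteField.isSquare_of_char_two (ringChar.eq F 2) (c : F))
  interval_cases k
  · simpa using h1.detC hk c
  · simpa [hd, pow_two] using h1.detC hk d

end Cfsg.Agent.S2162
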