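import Cfsg.Statements.S2163
import Cfsg.Agent.H11.ED2

set_option autoImplicit false
open Cfsg

namespace Cfsg.Agent.S2163

open Matrix in
theorem rank_aux {F : Type*} [Field F] {n ℓ : ℕ} (h2 : ℓ ≤ n) {A B : Matrix (Fin n) (Fin ℓ) F}
    {C D : Matrix (Fin ℓ) (Fin n) F} (h : C * A = 1) (h' : D * B = 1) : (A * D).rank = ℓ := by
  refine le_antisymm ((rank_mul_le_left _ _).trans (rank_le_width _)) ?_
  calc ℓ = (C * (A * D) * B).rank := by
        rw [← Matrix.mul_assoc, h, Matrix.one_mul, h', rank_one, Fintype.card_fin]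
    _ ≤ _ := (rank_mul_le_left _ _).trans (rank_mul_le_right _ _)

/-- Over a finite field of characteristic two and for n ≥ 3: for every ℓ with 1 ≤ ℓ and 2ℓ ≤ n, the matrix j_ℓ that is the identity plus the entries 1 in positions (n − ℓ + i, i) for i < ℓ (an identity block of size ℓ in the lower left corner) lies in SL_n(F), has order 2, and j_ℓ − 1 has rank ℓ. Together with the conjugacy criterion by rank, these matrices represent the conjugacy classes of involutions of SL_n(F). -/
theorem result {F : Type*} [Field F] [Fintype F] [CharP F 2] {n : ℕ} (hn : 3 ≤ n) (ℓ : ℕ) (h1 : 1 ≤ ℓ) (h2 : 2 * ℓ ≤ n) :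
    ∃ a : Matrix.SpecialLinearGroup (Fin n) F, (a : Matrix (Fin n) (Fin n) F) = 1 + Matrix.of (fun i j : Fin n => if j.val < ℓ ∧ i.val = j.val + (n - ℓ) then (1 : F) else 0) ∧ orderOf a = 2 ∧ ((a : Matrix (Fin n) (Fin n) F) - 1).rank = ℓ := by
  set N : Matrix (Fin n) (Fin n) F :=
    Matrix.of (fun i j : Fin n => if j.val < ℓ ∧ i.val = j.val + (n - ℓ) then (1 : F) else 0) with hN
  have h3 : N * N = 0 := by
    ext i j
    simp only [hN, Matrix.mul_apply, Matrix.of_apply]
    exact Finset.sum_eq_zero fun k _ => by split_ifs <;> first | omega | simp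
  have h4 : (1 + N) ^ 2 = 1 := by
    rw [pow_two, mul_add, add_mul, add_mul, h3, one_mul, mul_one, one_mul, add_zero, add_assoc,
      ← two_smul F N, CharTwo.two_eq_zero, zero_smul, add_zero]
  have h5 : (1 + N).det = 1 := by
    have := congr(Matrix.det $h4)
    rw [Matrix.det_pow, Matrix.det_one, sq_eq_one_iff, CharTwo.neg_eq, or_self] at this
    exact this
  let A : Matrix (Fin n) (Fin ℓ) F := Matrix.of fun i k => if i.val = k.val + (n - ℓ) then 1 else 0
  let B : Matrix (Fin n) (Fin ℓ) F := Matrix.of fun i k => if i.val = k.val then 1 else 0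
  have h6 : N = A * B.transpose := by
    ext i j
    simp only [hN, A, B, Matrix.mul_apply, Matrix.of_apply, Matrix.transpose_apply]
    split_ifs with h
    · rw [Finset.sum_eq_single ⟨j, h.1⟩ (fun k _ hk => by
        rw [if_neg (c := j.val = k) fun h => hk (Fin.ext h.symm), mul_zero]) (by simp)]
      simp [h.2]
    · exact (Finset.sum_eq_zero fun k _ => by split_ifs <;> first | omega | simp).symm
  have h7 : ∀ c, c + ℓ ≤ n → ∀ A : Matrix (Fin n) (Fin ℓ) F,
      A = Matrix.of (fun i k => if i.val = k.val + c then 1 else 0) → A.transpose * A = 1 := by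
    rintro c hc _ rfl
    ext i j
    simp only [Matrix.mul_apply, Matrix.of_apply, Matrix.transpose_apply, Matrix.one_apply]
    rw [Finset.sum_eq_single ⟨i + c, by omega⟩ (fun k _ hk => by simp_all [Fin.ext_iff]) (by simp)]
    simp [Fin.ext_iff]
  have h8 : N.rank = ℓ := h6 ▸ rank_aux (by omega) (h7 _ (by omega) A rfl) (h7 0 (by omega) B rfl)
  refine ⟨⟨_, h5⟩, rfl, orderOf_eq_prime (Subtype.ext h4) fun h => ?_, by simpa using h8⟩
  rw [show N = 0 by simpa using congr($h.1)] at h8
  simp at h8; omega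

end Cfsg.Agent.S2163
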