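import Cfsg.Statements.S2164
import Cfsg.Agent.H11.Inv2

set_option autoImplicit false
open Cfsg

namespace Cfsg.Agent.S2164

/-- Conjugacy of involutions in the special unitary group SU_n(q), q even, n ≥ 3, realised over the field F with q² elements as the matrices of determinant 1 preserving the form Σ u_i v_i^q: for two elements of order 2 of SU_n(q) the following are equivalent — they are conjugate in SU_n(q); they are conjugate in SL_n(F); the matrices a − 1 and b − 1 have the same rank. -/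
theorem result {F : Type*} [Field F] [Fintype F] [CharP F 2] {n q : ℕ} (hF : Fintype.card F = q ^ 2) (hn : 3 ≤ n) (a b : ↥(Cfsg.SU n F q)) (ha : orderOf a = 2) (hb : orderOf b = 2) :
    (IsConj a b ↔ IsConj (a : Matrix.SpecialLinearGroup (Fin n) F) (b : Matrix.SpecialLinearGroup (Fin n) F)) ∧
    (IsConj a b ↔ (((a : Matrix.SpecialLinearGroup (Fin n) F) : Matrix (Fin n) (Fin n) F) - 1).rank = (((b : Matrix.SpecialLinearGroup (Fin n) F) : Matrix (Fin n) (Fin n) F) - 1).rank) := by
  obtain ⟨σ, hq, hσ, hne⟩ := H11.exists_frob hF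
  have hS := H11.stdUnit_nondeg hσ hne (Fin n)
  let e := H11.suEquiv hσ hne hq n
  have h0 : ∀ a : SU n F q, orderOf a = 2 → H11.PForm.Quad (e a).1 ∧ (e a).1 ≠ 1 := fun a ha => by
    have := (Subgroup.orderOf_coe (e a)).trans ((e.orderOf_eq a).trans ha)
    exact ⟨(H11.PForm.orderOf_eq_two_iff'.1 this).1, fun h => by simp [h] at this⟩
  have h1 : (a.1.1 - 1).rank = (b.1.1 - 1).rank → IsConj a b := fun h => by
    rw [H11.rank_eq_finrank_res (H11.suEquiv_apply hσ hne hq n a),
      H11.rank_eq_finrank_res (H11.suEquiv_apply hσ hne hq n b)] at h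
    obtain ⟨k, hk, h⟩ := hS.unit_exists_conj_SIsom hne (h0 a ha).1
      ((hS.unit_isConj_iff_quad hne (h0 a ha).1 (h0 b hb).1).2 h)
      (Or.inr ⟨(h0 a ha).2, CharTwo.two_eq_zero⟩)
    exact (H11.isConj_equiv_iff e).1 (isConj_iff.2 ⟨⟨k, hk⟩, Subtype.ext h⟩)
  have h2 : IsConj a b → IsConj a.1 b.1 := (SU n F q).subtype.map_isConj
  have h3 : IsConj a.1 b.1 → (a.1.1 - 1).rank = (b.1.1 - 1).rank := fun h =>
    H11.rank_sub_one_of_isConj (((Units.coeHom _).comp Matrix.SpecialLinearGroup.toGL).map_isConj h)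
  tauto

end Cfsg.Agent.S2164
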