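import Cfsg.Statements.S2165
import Cfsg.Agent.H11.ED2
import Cfsg.Agent.S2163

set_option autoImplicit false
open Cfsg

namespace Cfsg.Agent.S2165

/-- In SU_n(q), q even, n ≥ 3 (matrices of determinant 1 over the field with q² elements preserving Σ u_i v_i^q): for every ℓ with 1 ≤ ℓ and 2ℓ ≤ n, the permutation matrix of the involution of {0, …, n−1} exchanging i and n − ℓ + i for each i < ℓ lies in SU_n(q), has order 2, and differs from the identity by a matrix of rank ℓ. So every rank between 1 and n/2 occurs for involutions of SU_n(q). -/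
theorem result {F : Type*} [Field F] [Fintype F] [CharP F 2] {n q : ℕ} (hF : Fintype.card F = q ^ 2) (hn : 3 ≤ n) (ℓ : ℕ) (h1 : 1 ≤ ℓ) (h2 : 2 * ℓ ≤ n) :
    ∃ a : ↥(Cfsg.SU n F q), (((a : Matrix.SpecialLinearGroup (Fin n) F) : Matrix (Fin n) (Fin n) F) = Matrix.of (fun i j : Fin n => if (j.val < ℓ ∧ i.val = j.val + (n - ℓ)) ∨ (i.val < ℓ ∧ j.val = i.val + (n - ℓ)) ∨ (i = j ∧ ℓ ≤ i.val ∧ i.val < n - ℓ) then (1 : F) else 0)) ∧ orderOf a = 2 ∧ ((((a : Matrix.SpecialLinearGroup (Fin n) F) : Matrix (Fin n) (Fin n) F)) - 1).rank = ℓ := by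
  set P : Matrix (Fin n) (Fin n) F := Matrix.of (fun i j : Fin n => if (j.val < ℓ ∧ i.val = j.val + (n - ℓ)) ∨ (i.val < ℓ ∧ j.val = i.val + (n - ℓ)) ∨ (i = j ∧ ℓ ≤ i.val ∧ i.val < n - ℓ) then (1 : F) else 0) with hP
  let s : Fin n → Fin n := fun i => ⟨if i.val < ℓ then i + (n - ℓ) else if n - ℓ ≤ i then i - (n - ℓ)
    else i, by have := i.2; split_ifs <;> omega⟩
  have hs : Function.Involutive s := fun i => by
    have := i.2
    ext; simp only [s]; split_ifs <;> omega
  have h3 : ∀ i j, P i j = if j = s i then 1 else 0 := fun i j => by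
    have := i.2
    have := j.2
    simp only [hP, Matrix.of_apply, s, Fin.ext_iff]
    refine if_congr ?_ rfl rfl
    split_ifs <;> omega
  have h3' : ∀ v, P.mulVec v = fun i => v (s i) := fun v => by
    ext i; simp [Matrix.mulVec, dotProduct, h3]
  have h4 : P ^ 2 = 1 := H11.matrix_ext_mulVec fun v => by
    rw [pow_two, ← Matrix.mulVec_mulVec, h3', h3', Matrix.one_mulVec]
    ext i; simp [hs i]
  have h5 : P.det = 1 := by
    have := congr(Matrix.det $h4)
    rwa [Matrix.det_pow, Matrix.det_one, sq_eq_one_iff, CharTwo.neg_eq, or_self] at this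
  let A : Matrix (Fin n) (Fin ℓ) F := Matrix.of fun i k => if i.val = k.val + (n - ℓ) then 1 else 0
  let B : Matrix (Fin n) (Fin ℓ) F := Matrix.of fun i k => if i.val = k.val then 1 else 0
  have h6 : P - 1 = (A + B) * (A + B).transpose := by
    ext i j
    have := i.2
    have := j.2
    simp only [A, B, Matrix.mul_apply, Matrix.of_apply, Matrix.transpose_apply, Matrix.add_apply,
      Matrix.sub_apply, hP, Matrix.one_apply, Fin.ext_iff, CharTwo.sub_eq_add]
    by_cases h : i.val < ℓ ∨ n - ℓ ≤ i
    · rw [Finset.sum_eq_single ⟨if i.val < ℓ then i else i - (n - ℓ), by split_ifs <;> omega⟩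
        (fun k _ hk => by
          have := k.2
          simp only [ne_eq, Fin.ext_iff] at hk
          rw [if_neg (by split_ifs at hk <;> omega), if_neg (by split_ifs at hk <;> omega)]
          simp) (by simp)]
      dsimp only
      split_ifs <;> first | omega | simp
    · rw [Finset.sum_eq_zero fun k _ => by
        have := k.2
        rw [if_neg (by omega), if_neg (by omega)]; simp]
      split_ifs <;> first | omega | simp [CharTwo.add_self_eq_zero]
  have h7 : A.transpose * (A + B) = 1 := by
    ext i j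
    have := i.2
    have := j.2
    simp only [A, B, Matrix.mul_apply, Matrix.of_apply, Matrix.transpose_apply, Matrix.one_apply,
      Matrix.add_apply]
    rw [Finset.sum_eq_single ⟨i + (n - ℓ), by omega⟩ (fun k _ hk => by simp_all [Fin.ext_iff])
      (by simp)]
    simp only [Fin.ext_iff]
    split_ifs <;> first | omega | simp
  have h8 : (P - 1).rank = ℓ := h6 ▸ Cfsg.Agent.S2163.rank_aux (by omega) h7 (B := A)
    (by simpa using congr(($h7).transpose))
  refine ⟨⟨⟨_, h5⟩, fun u v => ?_⟩, rfl, orderOf_eq_prime (Subtype.ext (Subtype.ext h4)) fun h => ?_,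
    h8⟩
  · change Cfsg.hermForm n F q (P.mulVec u) (P.mulVec v) = _
    rw [h3', h3']
    exact Equiv.sum_comp hs.toPerm fun i => u i * v i ^ q
  · rw [show P = 1 from congr($h.1.1)] at h8
    simp at h8; omega

end Cfsg.Agent.S2165
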