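import Cfsg.Statements.S2166
import Cfsg.Agent.H11.Inv2

set_option autoImplicit false
open Cfsg

namespace Cfsg.Agent.S2166

/-- Conjugacy of involutions in the symplectic group Sp_{2m}(F), F a finite field of characteristic two, m ≥ 2 (Sp taken as the matrices A with A J Aᵀ = J, acting on column vectors, with the alternating form f(u, v) = u ⬝ (J v)). For an involution t write V(t) for the set of vectors v with f(v, t v) = 0 (a subspace). Two involutions a, b are conjugate in Sp_{2m}(F) exactly when a − 1 and b − 1 have the same rank and, in case that rank is even, V(a) and V(b) have the same number of elements. -/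
theorem result {F : Type*} [Field F] [Fintype F] [CharP F 2] {m : ℕ} (hm : 2 ≤ m) (a b : ↥(Matrix.symplecticGroup (Fin m) F)) (ha : orderOf a = 2) (hb : orderOf b = 2) :
    IsConj a b ↔ ((((a : ↥(Matrix.symplecticGroup (Fin m) F)) : Matrix (Fin m ⊕ Fin m) (Fin m ⊕ Fin m) F) - 1).rank = (((b : ↥(Matrix.symplecticGroup (Fin m) F)) : Matrix (Fin m ⊕ Fin m) (Fin m ⊕ Fin m) F) - 1).rank ∧
      (Even (((a : ↥(Matrix.symplecticGroup (Fin m) F)) : Matrix (Fin m ⊕ Fin m) (Fin m ⊕ Fin m) F) - 1).rank → Nat.card {v : Fin m ⊕ Fin m → F // Cfsg.sympForm m F v (Matrix.mulVec ((a : ↥(Matrix.symplecticGroup (Fin m) F)) : Matrix (Fin m ⊕ Fin m) (Fin m ⊕ Fin m) F) v) = 0} = Nat.card {v : Fin m ⊕ Fin m → F // Cfsg.sympForm m F v (Matrix.mulVec ((b : ↥(Matrix.symplecticGroup (Fin m) F)) : Matrix (Fin m ⊕ Fin m) (Fin m ⊕ Fin m) F) v) = 0})) := by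
  have hS := H11.stdSymp_nondeg (F := F) m
  have h1 := H11.quad_of_sq (H11.spEquiv m F) (ha ▸ pow_orderOf_eq_one a)
  have h2 := H11.quad_of_sq (H11.spEquiv m F) (hb ▸ pow_orderOf_eq_one b)
  have h3 := h1.card_alt_set hS
  have h4 := h2.card_alt_set hS
  simp only [H11.stdSymp_h, H11.spEquiv_apply] at h3 h4
  rw [← H11.isConj_equiv_iff (H11.spEquiv m F), hS.isConj_iff_inv2 h1 h2,
    H11.rank_eq_finrank_res (H11.spEquiv_apply m a), H11.rank_eq_finrank_res (H11.spEquiv_apply m b)]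
  have h5 : 1 < Nat.card F := Finite.one_lt_card
  have h6 : ∀ c, c = Nat.card F ^ Module.finrank F (Fin m ⊕ Fin m → F) →
      c * Nat.card F ≠ Nat.card F ^ Module.finrank F (Fin m ⊕ Fin m → F) := fun c h =>
    h ▸ (lt_mul_of_one_lt_right (h ▸ pow_pos (by omega) _) h5).ne'
  refine and_congr_right fun h => ⟨fun h' _ => ?_, fun h' => ⟨fun h7 => by_contra fun h8 =>
    h6 _ ((h' (h7.even hS)).symm.trans (h3.1 h7)) (h4.2 h8), fun h7 => by_contra fun h8 =>
    h6 _ ((h' (h ▸ h7.even hS)).trans (h4.1 h7)) (h3.2 h8)⟩⟩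
  by_cases h7 : H11.PForm.Alt (H11.spEquiv m F a)
  · rw [h3.1 h7, h4.1 (h'.1 h7)]
  · exact Nat.eq_of_mul_eq_mul_right (by omega) ((h3.2 h7).trans (h4.2 (mt h'.2 h7)).symm)

end Cfsg.Agent.S2166
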