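import Cfsg.Statements.S2173
import Cfsg.Agent.H11.Inv2

set_option autoImplicit false
open Cfsg

namespace Cfsg.Agent.S2173

/-- For the quadratic form Σ x_i y_i + (z₁² + c z₁ z₂ + d z₂²) in dimension 2m with anisotropic binary part over a finite field F of characteristic two, m ≥ 4 (minus type): two involutions of the commutator subgroup Ω that are conjugate in the full isometry group O are conjugate by an element of Ω (no class of involutions of O inside Ω splits). -/
theorem result {F : Type*} [Field F] [Fintype F] [CharP F 2] {m : ℕ} (hm : 4 ≤ m) (c d : F) (hcd : ∀ z₁ z₂ : F, z₁ ^ 2 + c * z₁ * z₂ + d * z₂ ^ 2 = 0 → z₁ = 0 ∧ z₂ = 0) (t s : ↥(Cfsg.isometryGroup F (Cfsg.quadFormMinus (m - 1) F c d))) (ht : orderOf t = 2) (hs : orderOf s = 2) (htO : t ∈ Cfsg.Omega F (Cfsg.quadFormMinus (m - 1) F c d)) (hsO : s ∈ Cfsg.Omega F (Cfsg.quadFormMinus (m - 1) F c d)) (hconj : IsConj t s) :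
    ∃ g ∈ Cfsg.Omega F (Cfsg.quadFormMinus (m - 1) F c d), g * t * g⁻¹ = s := by
  have hS := H11.sMinus_nondeg (m - 1) hcd
  have h4 : (H11.sMinus (m - 1) F c d).NotO4 := H11.PForm.notO4_of_card (by simp; omega)
  have h1 := H11.exists_Omega_conj hS h4 ht hconj (H11.finrank_minus_fun _)
  refine h1.1 fun h => H11.sMinus_not_hasTS (m - 1) hcd ⟨_, H11.PForm.alt_iff_ts.1
    ((H11.PForm.alt_iff_q (g := H11.orthEquiv (H11.qMinus (m - 1) F c d) t)).2 fun x => ?_), ?_⟩
  · rw [H11.orthEquiv_apply (H11.qMinus (m - 1) F c d) t]; exact h.2 x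
  · exact (H11.rank_eq_finrank_res (H11.orthEquiv_apply (H11.qMinus (m - 1) F c d) t)).symm.trans h.1

end Cfsg.Agent.S2173
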