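import Cfsg.Statements.S2180
import Cfsg.Agent.H12.CentX

set_option autoImplicit false
open Cfsg

namespace Cfsg.Agent.S2180
open H12 H13 Cfsg.Lie

/-- Centralizers of involutions in the Chevalley group G of type G₂ over a finite field F of characteristic two with at least four elements (this problem's root numbering for type G₂, from the Chevalley data module: a = p₁ short with index 7, b = p₂ long with index 6, −a = 4, −b = 5, 2a + b = 9, 3a + b = 10, 3a + 2b = 11; U generated by the positive root subgroups). For an element z of G with matrix x_{3a+2b}(1): the centralizer of z in G is generated by U and X_{−a}. For an element t of G with matrix x_{2a+b}(1): the centralizer of t in G is generated by X_{2a+b}, X_{3a+b}, X_{3a+2b}, X_b and X_{−b}. -/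
theorem result {F : Type*} [Field F] [Fintype F] [CharP F 2] (hF : 4 ≤ Fintype.card F) (z t : GL Cfsg.Lie.chevG2.Idx F) (hz : (z : Matrix Cfsg.Lie.chevG2.Idx Cfsg.Lie.chevG2.Idx F) = Cfsg.Lie.chevG2.x F 11 1) (ht : (t : Matrix Cfsg.Lie.chevG2.Idx Cfsg.Lie.chevG2.Idx F) = Cfsg.Lie.chevG2.x F 9 1) :
    Cfsg.Lie.chevG2.group F ⊓ Subgroup.centralizer {z} = Cfsg.Lie.chevG2.posUnipotent F ⊔ Cfsg.Lie.chevG2.rootSubgroup F 4 ∧
    Cfsg.Lie.chevG2.group F ⊓ Subgroup.centralizer {t} = Cfsg.Lie.chevG2.rootSubgroup F 9 ⊔ Cfsg.Lie.chevG2.rootSubgroup F 10 ⊔ Cfsg.Lie.chevG2.rootSubgroup F 11 ⊔ Cfsg.Lie.chevG2.rootSubgroup F 6 ⊔ Cfsg.Lie.chevG2.rootSubgroup F 5 := by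
  have hF : CharOK F 2 := Or.inr ⟨Nat.prime_two, inferInstance⟩
  rw [cent_ad hF (O := [11]) (Jl := [0]) (Nl := [4]) (a := [1, 2]) (b := 2) (by rw [tabG2_eq]; decide +kernel) (hz.trans (mul_one _).symm),
    show t = (adS chevG2 F).prod [rG 9] 1 from Units.ext (ht.trans (by rw [coe_prod_one]; exact (mul_one _).symm)), group_eq, cent_G2t]
  simp (disch := decide) only [rootSub_nat, sup_assoc, ← StSys.gen_union]
  constructor
  · congr 2; ext r; simp
  · congr 1; ext r; simp [or_assoc]

end Cfsg.Agent.S2180
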