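import Cfsg.Statements.S2185
import Cfsg.Agent.H12.InvTw

set_option autoImplicit false
open Cfsg

namespace Cfsg.Agent.S2185
open H12 H13 Cfsg.Lie

/-- In the group ²F₄(2) (realised inside the Chevalley group of type F₄ over the field with two elements, θ the identity) every element of order 2 lies in the commutator subgroup (the Tits group, of index 2): there are no involutions outside it. -/
theorem result (g : ↥(Cfsg.Lie.twistedF4 (ZMod 2) 1)) (hg : orderOf g = 2) :
    g ∈ commutator ↥(Cfsg.Lie.twistedF4 (ZMod 2) 1) := by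
  obtain ⟨_, φ, hφ, h2⟩ := exists_frob2 (K := ZMod 2) (m := 0) (by simp)
  have h := invF_comm h2 hφ g.2 (by rw [← Subgroup.coe_mul, ← sq, orderOf_dvd_iff_pow_eq_one.1 hg.dvd]; rfl)
  rw [← Subgroup.map_subtype_commutator] at h
  obtain ⟨g', h1, h3⟩ := h
  exact (Subtype.ext h3 : g' = g) ▸ h1

end Cfsg.Agent.S2185
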