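import Cfsg.Statements.S2186
import Cfsg.Agent.H12.BT

set_option autoImplicit false
open Cfsg

namespace Cfsg.Agent.S2186
open H12 H13 Cfsg.Lie

/-- Let G be the Chevalley group of type G₂ (over a field with at least four elements), D₄, E₆, E₇ or E₈ over a finite field F of characteristic two, and let X be the root subgroup of the highest root (the last root index) — a long root subgroup, of order |F|. For every g in G, the subgroup generated by X and its conjugate g X g⁻¹ is either a 2-group or is conjugate by an element of G to the subgroup generated by X and the root subgroup of the lowest root (index 0, the negative of the highest root), which is a copy of SL₂(F). -/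
theorem result {F : Type*} [Field F] [Fintype F] [CharP F 2] (D : Cfsg.Lie.ChevalleyDatum) (hD : D ∈ [Cfsg.Lie.chevG2, Cfsg.Lie.chevD4, Cfsg.Lie.chevE6, Cfsg.Lie.chevE7, Cfsg.Lie.chevE8]) (hF : D = Cfsg.Lie.chevG2 → 4 ≤ Fintype.card F) (g : GL D.Idx F) (hg : g ∈ D.group F) :
    IsPGroup 2 ↥(D.rootSubgroup F (D.nroots - 1) ⊔ (D.rootSubgroup F (D.nroots - 1)).map (MulAut.conj g).toMonoidHom) ∨
    ∃ h ∈ D.group F, (D.rootSubgroup F (D.nroots - 1) ⊔ (D.rootSubgroup F (D.nroots - 1)).map (MulAut.conj g).toMonoidHom).map (MulAut.conj h).toMonoidHom = D.rootSubgroup F (D.nroots - 1) ⊔ D.rootSubgroup F 0 := by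
  obtain ⟨_⟩ : Nonempty (Good D) := good_of_mem (by simp only [List.mem_cons, List.not_mem_nil, or_false] at hD ⊢; tauto)
  haveI : Fact (Nat.Prime 2) := ⟨Nat.prime_two⟩
  have h0 : 0 < D.nroots := (sim ⟨0, by have := two_le_rank (D := D); omega⟩).pos
  let r : Φ D := ⟨D.nroots - 1, by omega⟩
  have h1 : ng r = ⟨0, h0⟩ := Fin.ext (by have := ng_add r; simp only [r] at this ⊢; omega)
  rw [rootSubgroup_eq r, rootSubgroup_eq ⟨0, h0⟩, ← h1, group_eq] at *
  obtain ⟨u, hu, s, e⟩ := StSys.top_pair (r := r) (fun s => Nat.le_sub_one_of_lt s.2) hg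
  by_cases hs : s = ng r
  · exact Or.inr ⟨u, hu, hs ▸ e⟩
  · obtain ⟨f, a1, a2⟩ := exists_pos_pair hs
    refine Or.inl (IsPGroup.of_equiv (e ▸ (cov_ad.isPGroup_gen 2 (closed_pos f) fun _ h => h).to_le (sup_le (StSys.gen_mono _ ?_) (StSys.gen_mono _ ?_)))
      (Subgroup.equivMapOfInjective _ _ (MulAut.conj u).injective).symm) <;> simpa

end Cfsg.Agent.S2186
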