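import Cfsg.Statements.S2189
import Cfsg.Agent.H12.OG3
import Cfsg.Agent.H12.ConjB

set_option autoImplicit false
open Cfsg

namespace Cfsg.Agent.S2189
open H12 H12.StSys Polynomial

theorem result {k : Type*} [Field k] [IsAlgClosed k] (p : ℕ) [Fact p.Prime] [CharP k p] (D : Cfsg.Lie.ChevalleyDatum) (hD : D ∈ [Cfsg.Lie.chevG2, Cfsg.Lie.chevB2, Cfsg.Lie.chevD4, Cfsg.Lie.chevF4, Cfsg.Lie.chevE6, Cfsg.Lie.chevE7, Cfsg.Lie.chevE8]) (a : ℕ) (ha : 1 ≤ a) (M : Subgroup (GL D.Idx k)) (hMfin : Finite ↥M) (hMG : M ≤ D.group k)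
    (hLM : Subgroup.closure {g : GL D.Idx k | ∃ (s : ℕ) (t : k), t ^ (p ^ a) = t ∧ (g : Matrix D.Idx D.Idx k) = D.x k s t} ≤ M) :
    ∃ r : ℕ, 1 ≤ r ∧ Subgroup.closure {g : GL D.Idx k | ∃ (s : ℕ) (t : k), t ^ ((p ^ a) ^ r) = t ∧ (g : Matrix D.Idx D.Idx k) = D.x k s t} ≤ M ∧
      ∀ g ∈ M, ∀ i j : D.Idx, ((g : Matrix D.Idx D.Idx k) i j) ^ ((p ^ a) ^ r) = (g : Matrix D.Idx D.Idx k) i j := by
  classical
  obtain ⟨G⟩ := good_of_mem hD
  have : SC D := ⟨hD⟩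
  have h0 : ∀ (r : Φ D) t, t ^ p ^ a = t → xG k r t ∈ M := fun r t ht => hLM (Subgroup.subset_closure ⟨r, t, ht, coe_eq_x.2 rfl⟩)
  obtain ⟨E, _, h1, h2, h3⟩ := exists_subfield hD p (fun hp z hz e => by
    subst hp
    obtain ⟨x, -, rfl⟩ := (cov_st.map_gen _).ge hz
    obtain ⟨g, c, u, hu, e'⟩ := exists_conj_jordan x
    have k1 : r3_ad.lift u ∈ (adS D k).U := (cov_st.map_gen _).le ⟨u, gen_mono _ Set.inter_subset_left hu, rfl⟩
    have k2 : r3_ad.lift ((stS D k).hl c) ^ 2 * r3_ad.lift u ^ 2 = 1 := by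
      rw [← ((commute_hl_of_Psi hu).map _).mul_pow, ← map_mul, ← e', map_mul, map_mul, map_inv, conj_pow, sq, e]; simp
    have k3 := cov_ad.eq_one_of_U_H (pow_mem k1 2) (eq_inv_of_mul_eq_one_right k2 ▸ inv_mem (pow_mem (cov_st.map_hl c ▸ hl_mem _ _) _))
    rw [k3, mul_one, ← Units.val_inj, Units.val_pow_eq_pow_val, cov_st.hl, sq, ← dg_mul, Units.val_one, dg_eq_one] at k2
    have k4 : r3_ad.lift ((stS D k).hl c) = 1 := Units.ext (by
      rw [cov_st.hl, Units.val_one, dg_eq_one]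
      exact fun s => Units.ext ((frobenius k 2).injective (by simpa [frobenius_def, sq] using congrArg Units.val (k2 s))))
    exact ⟨_, θ_mem g, by rwa [← map_inv, ← map_mul, ← map_mul, e', map_mul, k4, one_mul]⟩) (group_eq (D := D) (F := k) ▸ hMG) fun r => h0 r 1 (one_pow _)
  let E₀ := (iterateFrobenius k p a).eqLocusField (RingHom.id k)
  obtain ⟨d, hd, e⟩ := card_eq_pow_of_le (E := E₀) (A := E) fun t ht => (h1 t).2 (h0 _ t ht)
  have hq : 1 < p ^ a := Nat.one_lt_pow (by omega) (Fact.out : p.Prime).one_lt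
  have : Nat.card E₀ = p ^ a := by
    rw [← FiniteField.X_pow_card_sub_X_natDegree_eq k hq, ← card_rootSet_eq_natDegree (K := k)
      (galois_poly_separable p _ (dvd_pow_self p (by omega))) (IsAlgClosed.splits _), ← Nat.card_eq_fintype_card]
    exact Nat.card_congr (Equiv.subtypeEquivRight fun t => by
      simp [E₀, mem_rootSet, FiniteField.X_pow_card_sub_X_ne_zero k hq, sub_eq_zero, iterateFrobenius_def])
  rw [this] at e
  refine ⟨d, hd, (Subgroup.closure_le _).2 ?_, fun g hg i j => e ▸ (mem_iff_pow_card E).1 (h3 g hg i j)⟩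
  rintro g ⟨s, t, ht, hg⟩
  by_cases h : s < D.nroots
  · exact (coe_eq_x (r := ⟨s, h⟩)).1 hg ▸ h2 _ t ((mem_iff_pow_card E).2 (e ▸ ht))
  · exact (show 1 = g from Units.ext (by rw [hg, Lie.ChevalleyDatum.x, dif_neg h]; rfl)) ▸ one_mem M

end Cfsg.Agent.S2189
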