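import Cfsg.Statements.S2190
import Cfsg.Agent.H12.OG3

set_option autoImplicit false
open Cfsg

namespace Cfsg.Agent.S2190
open H12 H12.StSys

theorem result {K : Type*} [Field K] [Fintype K] (p : ℕ) [Fact p.Prime] [CharP K p] (D : Cfsg.Lie.ChevalleyDatum) (hD : D ∈ [Cfsg.Lie.chevG2, Cfsg.Lie.chevB2, Cfsg.Lie.chevD4, Cfsg.Lie.chevF4, Cfsg.Lie.chevE6, Cfsg.Lie.chevE7, Cfsg.Lie.chevE8]) (a r : ℕ) (ha : 1 ≤ a) (hr : r.Prime) (hK : Fintype.card K = (p ^ a) ^ r) (M : Subgroup (GL D.Idx K))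
    (hM : ∀ g : GL D.Idx K, g ∈ M ↔ g ∈ D.group K ∧ ∀ i j : D.Idx, ((g : Matrix D.Idx D.Idx K) i j) ^ (p ^ a) = (g : Matrix D.Idx D.Idx K) i j) :
    M ≠ D.group K ∧ ∀ H : Subgroup (GL D.Idx K), M ≤ H → H ≤ D.group K → H = M ∨ H = D.group K := by
  obtain ⟨G⟩ := good_of_mem hD
  rw [group_eq] at hM ⊢
  have hq : 1 < p ^ a := Nat.one_lt_pow (by omega) (Fact.out : p.Prime).one_lt
  have h0 : ∀ (r : Φ D) t, xG K r t ∈ M ↔ t ^ p ^ a = t := fun r t => by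
    have k : glMap D (iterateFrobenius K p a) (xG K r t) = xG K r t ↔ t ^ p ^ a = t := by
      rw [glMap_x]; exact ⟨fun h => xR_inj (congrArg Units.val h), fun h => congrArg _ h⟩
    rw [hM, ← k, Units.ext_iff, ← Matrix.ext_iff]; exact and_iff_right (x_mem_T (adS D K) r t)
  let E₀ := (iterateFrobenius K p a).eqLocusField (RingHom.id K)
  have c0 : Nat.card E₀ = p ^ a := card_fix (by omega) hK
  have c1 : Nat.card (⊤ : Subfield K) = (p ^ a) ^ r := by rw [← hK, ← Nat.card_eq_fintype_card]; exact Nat.card_congr Subfield.topEquiv.toEquiv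
  refine ⟨fun h => ?_, fun H h1 h2 => ?_⟩
  · rw [show E₀ = ⊤ from eq_top_iff.2 fun t _ => (h0 (topR D) t).1 (h ▸ x_mem_T _ _ t), c1] at c0
    exact hr.ne_one (Nat.pow_right_injective hq (c0.trans (pow_one _).symm))
  obtain ⟨E, _, k1, k2, k3⟩ := exists_subfield hD p (fun hp z hz e => exists_conj_mem_U p hz (k := 1) (by rw [hp, ← e, ← sq]; rfl)) h2
    fun r => h1 ((h0 r 1).2 (one_pow _))
  obtain ⟨d, -, e⟩ := card_eq_pow_of_le (E := E₀) (A := E) fun t ht => (k1 t).2 (h1 ((h0 _ t).2 ht))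
  obtain ⟨d', -, e'⟩ := card_eq_pow_of_le (le_top (a := E))
  rw [c0] at e
  rw [c1, e, ← pow_mul (p ^ a)] at e'
  rcases (Nat.dvd_prime hr).1 (Dvd.intro _ (Nat.pow_right_injective hq e').symm) with rfl | rfl
  · exact Or.inl (le_antisymm (fun g hg => (hM g).2 ⟨h2 hg, fun i j => by simpa [e] using (mem_iff_pow_card E).1 (k3 g hg i j)⟩) h1)
  · exact Or.inr (le_antisymm h2 ((gen_le _).2 fun s _ t => k2 s t ((mem_iff_pow_card E).2 (by rw [e, ← hK, FiniteField.pow_card]))))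

end Cfsg.Agent.S2190
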