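import Cfsg.Statements.S2191
import Cfsg.Agent.H12.OG4

set_option autoImplicit false
open Cfsg

namespace Cfsg.Agent.S2191
open H12 H12.StSys Cfsg.Lie

theorem result {K : Type*} [Field K] [Fintype K] (p : ℕ) [Fact p.Prime] [CharP K p] (q : ℕ) (hq : ∃ a : ℕ, 1 ≤ a ∧ q = p ^ a) (hK : Fintype.card K = q ^ 2) (M : Subgroup (GL Cfsg.Lie.chevE6.Idx K))
    (hM : ∀ g : GL Cfsg.Lie.chevE6.Idx K, g ∈ M ↔ g ∈ Cfsg.Lie.twistedE6 K q ∧ ∀ i j : Cfsg.Lie.chevE6.Idx, ((g : Matrix Cfsg.Lie.chevE6.Idx Cfsg.Lie.chevE6.Idx K) i j) ^ q = (g : Matrix Cfsg.Lie.chevE6.Idx Cfsg.Lie.chevE6.Idx K) i j) :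
    M ≠ Cfsg.Lie.twistedE6 K q ∧ ∀ H : Subgroup (GL Cfsg.Lie.chevE6.Idx K), M ≤ H → H ≤ Cfsg.Lie.twistedE6 K q → H = M ∨ H = Cfsg.Lie.twistedE6 K q := by
  obtain ⟨a, ha, hq⟩ := hq
  have hφ : ∀ t, iterateFrobenius K p a t = t ^ q := fun t => by rw [hq, iterateFrobenius_def]
  generalize iterateFrobenius K p a = φ at hφ
  rw [eq6 hφ hK] at hM ⊢
  obtain ⟨L, -, h⟩ := twT6.1.tg (τ := tw6 φ) (γ := (fldTw _ φ).toTw) (e := ⟨66, by decide⟩) (fun _ => rfl) (adTw_ε _ _ _ _ _)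
    (fun r t => (adTw_ψ _ _ _ _ _ r t).trans (by rw [twT6.2 r r.2, pow_one])) (glMap_x φ) cov_ad (fun t => by simp [hφ, pow_sq6 hφ hK]) orb6' (by decide +kernel)
  exact h.max p (by unfold RSym.Lin; decide +kernel) (rk_of π6.2.1 (n6 0) (by decide)) (O := [n6 0, n6 5]) (by simp) (i := n6 0) (j := n6 5) (by simp) (by simp)
    (by decide) (by decide +kernel) (by decide +kernel) hφ Nat.prime_two (q_pos6 hφ hK) hK (fun H le k t ht _ i hi => by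
      interval_cases i
      exacts [by simpa using h.one_mem_tA le k, by simpa using ht]) hM

end Cfsg.Agent.S2191
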