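import Cfsg.Statements.S2192
import Cfsg.Agent.H12.OG4

set_option autoImplicit false
open Cfsg

namespace Cfsg.Agent.S2192
open H12 H12.StSys Cfsg.Lie

/-- the roots of `D₄` -/
def rt (i : Fin 24) : Φ chevD4 := i

theorem result {K : Type*} [Field K] [Fintype K] (p : ℕ) [Fact p.Prime] [CharP K p] (q : ℕ) (hq : ∃ a : ℕ, 1 ≤ a ∧ q = p ^ a) (hK : Fintype.card K = q ^ 3) (M : Subgroup (GL Cfsg.Lie.chevD4.Idx K))
    (hM : ∀ g : GL Cfsg.Lie.chevD4.Idx K, g ∈ M ↔ g ∈ Cfsg.Lie.twistedD4 K q ∧ ∀ i j : Cfsg.Lie.chevD4.Idx, ((g : Matrix Cfsg.Lie.chevD4.Idx Cfsg.Lie.chevD4.Idx K) i j) ^ q = (g : Matrix Cfsg.Lie.chevD4.Idx Cfsg.Lie.chevD4.Idx K) i j) :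
    M ≠ Cfsg.Lie.twistedD4 K q ∧ ∀ H : Subgroup (GL Cfsg.Lie.chevD4.Idx K), M ≤ H → H ≤ Cfsg.Lie.twistedD4 K q → H = M ∨ H = Cfsg.Lie.twistedD4 K q := by
  obtain ⟨a, ha, hq⟩ := hq
  have hφ : ∀ t, iterateFrobenius K p a t = t ^ q := fun t => by rw [hq, iterateFrobenius_def]
  generalize iterateFrobenius K p a = φ at hφ
  rw [eq4 hφ hK] at hM ⊢
  have h3 : ∀ t, φ (φ (φ t)) = t := fun t => by rw [hφ, hφ, hφ, ← pow_mul t, ← sq, pow_cube4 hK]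
  obtain ⟨c0, c1, c2, c3, c4, c5, c6, c7⟩ := twT4
  have hψ : ∀ r t, (tw4 φ).ψ r t = φ t := fun r t => (adTw_ψ _ _ _ _ _ r t).trans (by rw [c1 r r.2, pow_one])
  obtain ⟨L, hL, h⟩ := c0.tg (τ := tw4 φ) (γ := (fldTw _ φ).toTw) (e := rt 17) (fun _ => rfl) (adTw_ε _ _ _ _ _)
    hψ (glMap_x φ) cov_ad (m := 3) h3 orb4' (by decide +kernel)
  refine h.max p (by unfold RSym.Lin; decide +kernel) (rk_of π4.2.1 (n4 0) (by decide)) (O := [n4 0, n4 2, n4 3]) (by simp) (i := n4 0) (j := n4 2) (by simp)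
    (by simp) (by decide) (by decide +kernel) (by decide +kernel) hφ Nat.prime_three (q_pos4 hK) hK (fun H le k => ?_) hM
  have k1 : ∀ t ∈ h.tA H, φ t * φ (φ t) ∈ h.tA H := fun t ht => by
    obtain ⟨v, v2, v3, v5, -⟩ := exists_v6 t (φ t) (φ (φ t)) 0 0 0
    have k0 : ∀ (r : Φ chevD4) (c : List (I chevD4)), 24 ≤ 2 * r.1 → gD4a.ρ r ≠ r → gD4a.ρ (gD4a.ρ r) ≠ r → W1T (tab chevD4) gD4a.ρ (c.map Fin.val) →
        runW (tab chevD4) (c.map Fin.val) r = 17 → ∀ t ∈ h.tA H, _ ∈ H := fun r c hr h1 h2 h4 h5 t ht =>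
      h.tr le k (inv_mem (h4.mem fun _ => rfl)) (Fin.ext ((runW_eq c r).symm.trans h5)) ht (mul_mem
        (x_mem _ (And.intro (fun e => h1 (congrArg Fin.val e)) (Or.inl rfl)) _) (x_mem _ (And.intro (fun e => h2 (congrArg Fin.val e)) (Or.inr rfl)) _))
        (fix3 (fun _ => rfl) (adTw_ε _ _ _ _ _) hψ hr h3 (c0.1 r r.2 hr).2.2.2.1 h1 t)
    have e1 : (gD4a.ε (rt 18).1 = 1 ∧ gD4a.ε (gD4a.ρ (rt 18).1) = 1 ∧ gD4a.ε (rt 19).1 = -1 ∧ gD4a.ε (gD4a.ρ (rt 19).1) = 1) ∧ R4.ρ (rt 18) = (rt 13) ∧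
      R4.ρ (rt 13) = (rt 12) ∧ R4.ρ (rt 19) = (rt 16) ∧ R4.ρ (rt 16) = (rt 15) := by decide +kernel
    have a1 := k0 (rt 18) [n4 1, n4 0, n4 2, n4 3] (by decide) (by decide +kernel) (by decide +kernel) c2 c4 t ht
    have a2 := k0 (rt 19) [n4 0, n4 2, n4 3] (by decide) (by decide +kernel) (by decide +kernel) c3 c5 _ (neg_mem ht)
    have a3 := c6.mem (S := adS chevD4 K) (H := H) (Or.inl rfl) v (by
      convert a1 using 1; simp [v2, v3, v5, e1]; rfl) (by convert (h.xU_mem le k (O := [n4 1]) (by simp)).1 using 1; simp; rfl)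
    rw [evE_append, H.mul_mem_cancel_left (by convert a2 using 1; simp [v2, v3, v5, e1]; rfl)] at a3
    have p17 : IsPos (D := chevD4) (rt 17) := h.pos
    have a4 := Lay.ld_evE (L := L) cov_ad v p17 (.var 15) (w := [(20, .cst (-1) * .var 10), (21, .cst (-1) * .var 6), (22, .cst (-1) * .var 30), (23, .cst (-2) * .var 30)])
      fun c hc => by
        obtain ⟨b1, b2, b3⟩ := c7 c.1 (List.mem_map_of_mem (f := Prod.fst) hc)
        exact ⟨b1, fun hc => ⟨b2, by zify; rw [hL.eq p17, hL.eq (r := ⟨_, hc⟩) b2, lfun_wt, lfun_wt]; exact b3⟩⟩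
    exact ⟨_, a4.1, a3, by rw [a4.2, ← v5, ← v3, ← map_mul]; rfl⟩
  have k2 : ∀ t ∈ h.tA H, t⁻¹ ∈ h.tA H := fun t ht => by
    by_cases h0 : t = 0
    · simp [h0]
    convert h.smul_tA le k (c := (t * (φ t * φ (φ t)))⁻¹) (by simp only [map_inv₀, map_mul, h3]; ring) (k1 t ht) using 1
    field_simp [(map_ne_zero φ).2 h0, (map_ne_zero φ).2 ((map_ne_zero φ).2 h0)]
  intro t ht h1 i hi
  have k3 := h.one_mem_tA le k
  interval_cases i
  · simpa using k3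
  · simpa using ht
  have b1 : t ≠ 0 := by rintro rfl; simp at h1
  have b2 : 1 - t ≠ 0 := fun e => h1 (by simp [← sub_eq_zero.1 e])
  convert sub_mem ht (k2 _ (add_mem (k2 t ht) (k2 _ (sub_mem k3 ht)))) using 1
  rw [inv_add_inv b1 b2]; field_simp; ring

end Cfsg.Agent.S2192
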