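import Cfsg.Statements.S2197
import Cfsg.Agent.H14.CvTits3
import Cfsg.Agent.H14.CvTits5
import Cfsg.Agent.H14.CZ3

set_option autoImplicit false
open Cfsg

namespace Cfsg.Agent.S2197

open H14 L MulAction
open scoped Pointwise

section
variable {G Ω : Type*} [Group G] [Finite G] [MulAction G Ω] [Fintype Ω]

theorem fix_conj {x g : G} (h : IsConj x g) : Nat.card (fixedBy Ω g) = Nat.card (fixedBy Ω x) := by
  obtain ⟨k, rfl⟩ := isConj_iff.1 h
  rw [← smul_fixedBy]
  exact Set.natCard_smul_set k _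

theorem fix_lt [FaithfulSMul G Ω] {x : G} (hx : x ≠ 1) : Nat.card (fixedBy Ω x) < Fintype.card Ω := by
  rw [← Nat.card_eq_fintype_card, Nat.card_coe_set_eq, ← Set.ncard_univ]
  refine Set.ncard_lt_ncard (Set.ssubset_univ_iff.2 fun h => hx ?_)
  exact eq_of_smul_eq_smul (α := Ω) fun y => by
    rw [one_smul]; exact (h ▸ Set.mem_univ y : y ∈ fixedBy Ω x)

theorem sum_fix (P : Subgroup G) [Fintype P] {x : G} (h : ∀ g ∈ P, g = 1 ∨ IsConj x g) :
    ∑ g : P, Nat.card (fixedBy Ω g) = Fintype.card Ω + (Nat.card P - 1) * Nat.card (fixedBy Ω x) := by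
  classical
  rw [← Finset.add_sum_erase _ _ (Finset.mem_univ 1), fixedBy_one_eq_univ, Finset.sum_congr rfl
    (f := fun g : P => Nat.card (fixedBy Ω g)) (g := fun _ => Nat.card (fixedBy Ω x))
    fun (g : P) hg => fix_conj (g := (g : G)) ((h g g.2).resolve_left fun e =>
      (Finset.mem_erase.1 hg).1 (Subtype.ext e))]
  simp

theorem burn (P : Subgroup G) {x : G} (h : ∀ g ∈ P, g = 1 ∨ IsConj x g) :
    Nat.card P ∣ Fintype.card Ω + (Nat.card P - 1) * Nat.card (fixedBy Ω x) := by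
  classical
  have := Fintype.ofFinite P
  have := Fintype.ofFinite (Quotient (orbitRel P Ω))
  rw [← sum_fix P h]
  simp only [Nat.card_eq_fintype_card]
  rw [sum_card_fixedBy_eq_card_orbits_mul_card_group P Ω]
  exact Dvd.intro_left _ rfl

theorem burn_le (P : Subgroup G) {x : G} (h : ∀ g ∈ P, g = 1 ∨ IsConj x g) {k : ℕ}
    (hk : ∀ y : Ω, Nat.card (stabilizer P y) ≤ k) :
    Fintype.card Ω + (Nat.card P - 1) * Nat.card (fixedBy Ω x) ≤ Fintype.card Ω * k := by
  classical
  have := Fintype.ofFinite P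
  rw [← sum_fix P h]
  have e1 : ∀ g : P, Nat.card (fixedBy Ω g) = ∑ y : Ω, if g • y = y then 1 else 0 := fun g => by
    rw [Nat.card_eq_fintype_card, Fintype.card_subtype, Finset.card_filter]; rfl
  have e2 : ∀ y : Ω, Nat.card (stabilizer P y) = ∑ g : P, if g • y = y then 1 else 0 := fun y => by
    rw [Nat.card_eq_fintype_card, Fintype.card_subtype, Finset.card_filter]; rfl
  simp only [e1]
  rw [Finset.sum_comm, ← Finset.card_univ, ← smul_eq_mul]
  exact Finset.sum_le_card_nsmul _ _ _ fun y _ => e2 y ▸ hk y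

theorem fix_pos {x t : G} {p k : ℕ} (hp : p.Prime) (ht : t ^ p = 1) (h : t * x * t⁻¹ = x ^ k)
    (hn : ¬ p ∣ Nat.card (fixedBy Ω x)) : Nat.card (fixedBy Ω t) ≠ 0 := by
  have := Fact.mk hp
  have h1 : t • fixedBy Ω x ⊇ fixedBy Ω x := by
    rw [smul_fixedBy, h]
    exact_mod_cast fixedBy_subset_fixedBy_zpow Ω x k
  have h2 : t • fixedBy Ω x = fixedBy Ω x :=
    (Set.eq_of_subset_of_ncard_le h1 (Set.ncard_smul_set _ _).le).symm
  let A : SubMulAction (Subgroup.zpowers t) Ω := ⟨fixedBy Ω x, fun c y hy => by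
    have : (c : G) ∈ stabilizer G (fixedBy Ω x) := Subgroup.zpowers_le.2 h2 c.2
    rw [← mem_stabilizer_iff.1 this]
    exact Set.smul_mem_smul_set hy⟩
  have h3 : IsPGroup p (Subgroup.zpowers t) := fun ⟨g, j, e⟩ => ⟨1, Subtype.ext (by
    show g ^ p ^ 1 = 1
    rw [← e, pow_one, ← zpow_natCast, ← zpow_mul, mul_comm, zpow_mul, zpow_natCast, ht, one_zpow])⟩
  obtain ⟨y, hy⟩ := h3.nonempty_fixed_point_of_prime_not_dvd_card A hn
  have : Nonempty (fixedBy Ω t) := ⟨y.1, congrArg Subtype.val (hy ⟨t, Subgroup.mem_zpowers t⟩)⟩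
  exact Nat.card_pos.ne'

theorem fix_mod {x : G} {p : ℕ} (hp : p.Prime) (hx : orderOf x = p) :
    Fintype.card Ω ≡ Nat.card (fixedBy Ω x) [MOD p] := by
  have := Fact.mk hp
  have h3 : IsPGroup p (Subgroup.zpowers x) := IsPGroup.of_card (n := 1) (by rw [Nat.card_zpowers, hx, pow_one])
  have := h3.card_modEq_card_fixedPoints Ω
  rw [Nat.card_eq_fintype_card] at this
  convert this using 2
  refine congrArg _ (Set.ext fun y => ⟨fun h g => ?_, fun h => h ⟨x, Subgroup.mem_zpowers x⟩⟩)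
  exact Subgroup.zpowers_le (H := stabilizer G y).2 h g.2

end

section
variable {G Ω : Type*} [Group G] [Finite G] [MulAction G Ω] {n : ℕ} {N : List Net} {M : PM G Ω n N}
  {F : FK} [PtK n N F]

theorem expo {bs : List ℕ} (hb : IsBase M bs) {ws : List Word} {p m : ℕ} (hp : 0 < p)
    (h : Pc (loc M.gen ws) p m) (hc : allL (fun t => rel2 F bs ws (powW t p) []) (cosL p m) = true) :
    ∀ g ∈ Nn (loc M.gen ws) m 0, g ^ p = 1 := fun g hg => by
  obtain ⟨t, ht, k, hk, rfl⟩ := cosL_cover hp h le_rfl g hg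
  rw [Nn_end le_rfl, Subgroup.mem_bot] at hk
  rw [hk, mul_one, ← ev_powW, rel2_spec hb (allL_iff.1 hc t ht), ev_nil]

theorem one_rep {gen : ℕ → G} {w : Word} {g : G} (h : g = 1 ∨ ∃ v ∈ [w], IsConj (ev gen v) g) :
    g = 1 ∨ IsConj (ev gen w) g :=
  h.imp_right fun ⟨_, h1, h2⟩ => List.mem_singleton.1 h1 ▸ h2

end

noncomputable def wx : Word := [12, 11, 0, 6, 2, 8, 2, 11]
noncomputable def wt : Word := [2, 11, 3, 14, 10, 2, 18, 3]

theorem ns : allN (fun n => bor (bnot (Nat.beq (Nat.mod 17971200 (Nat.mul n (Nat.sub n 1))) 0))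
    (bor (Nat.ble n 27) (bor (Nat.beq n 40) (Nat.beq n 65)))) 4300 = true := by decide +kernel

theorem ns' {n : ℕ} (h : n * (n - 1) ∣ 17971200) : n ≤ 27 ∨ n = 40 ∨ n = 65 := by
  have h1 := Nat.le_of_dvd (by norm_num) h
  have h2 : n < 4300 := by
    by_contra h2
    have : 4300 * 4299 ≤ n * (n - 1) := Nat.mul_le_mul (by omega) (by omega)
    omega
  rcases bor_iff.1 (allN_iff.1 ns n h2) with h3 | h3
  · rw [show Nat.mod 17971200 (Nat.mul n (Nat.sub n 1)) = 0 from Nat.mod_eq_zero_of_dvd h] at h3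
    exact nomatch h3
  · rcases bor_iff.1 h3 with h3 | h3
    · exact .inl (Nat.le_of_ble_eq_true h3)
    · exact .inr ((bor_iff.1 h3).imp Nat.eq_of_beq_eq_true Nat.eq_of_beq_eq_true)

theorem fin {n a b c : ℕ} (h0 : 3 ≤ n) (h : n ≤ 27 ∨ n = 40 ∨ n = 65) (h3 : 27 ∣ n + 26 * a)
    (h5 : 25 ∣ n + 24 * b) (l3 : a < n) (k : 5 ∣ n → n + 24 * b ≤ n * 5) (h7 : ¬ 3 ∣ c → a ≠ 0)
    (h8 : n % 13 = c % 13) (h9 : c < n) : False := by
  rcases h with h | rfl | rfl
  · have : n = 27 ∧ a = 0 := by omega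
    omega
  · omega
  · omega

/-- The Tits group (the commutator subgroup of ²F₄(2)) has no faithful 2-transitive action on a finite set with more than two points. -/
theorem result {Ω : Type*} [Fintype Ω] [MulAction Cfsg.Lie.TitsGroup Ω] [FaithfulSMul Cfsg.Lie.TitsGroup Ω] (hΩ : 3 ≤ Fintype.card Ω) :
    ¬ MulAction.IsMultiplyPretransitive Cfsg.Lie.TitsGroup Ω 2 := by
  intro h2
  obtain ⟨S⟩ := H15.StdTits.std
  have := S.finite
  have hN := S.card
  have hb := KhTits.base0 S.M hN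
  obtain ⟨s, -, hs⟩ := Set.exists_subset_card_eq (s := (Set.univ : Set Ω)) (n := 2)
    (by rw [Set.ncard_univ, Nat.card_eq_fintype_card]; omega)
  have h3 := h2.index_of_fixingSubgroup_mul hs
  have h4 := (fixingSubgroup Lie.TitsGroup s).index_dvd_card
  rw [Nat.card_eq_fintype_card] at h3
  obtain ⟨m, hm⟩ : ∃ m, Fintype.card Ω = m + 2 := ⟨Fintype.card Ω - 2, by omega⟩
  rw [hm, Nat.add_sub_cancel, Nat.factorial_succ, Nat.factorial_succ, ← mul_assoc] at h3
  rw [Nat.eq_of_mul_eq_mul_right m.factorial_pos h3, hN] at h4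
  have h5 := ns' (n := m + 2) h4
  rw [← hm] at h5
  have c3 := fun g h => one_rep (CvTits3.cover S.M hN g h)
  have c5 := fun g h => one_rep (CvTits5.cover S.M hN g h)
  have p3 := CvTits3.pc S.M hN
  have p5 := CvTits5.pc S.M hN
  have e3 := fun g h => c3 g (expo (F := KhTitsT.F) hb (by norm_num) p3.1 (by decide +kernel) g h)
  have e5 := fun g h => c5 g (expo (F := KhTitsT.F) hb (by norm_num) p5.1 (by decide +kernel) g h)
  have b3 := burn (Ω := Ω) _ e3
  have b5 := burn (Ω := Ω) _ e5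
  have l3 := fix_lt (Ω := Ω) (show ev S.M.gen CvTits3.ra ≠ ev S.M.gen [] from
    ne_base1 (F := KhTitsT.F) hb (by decide +kernel))
  rw [p3.2 0 (by norm_num)] at b3
  rw [p5.2 0 (by norm_num)] at b5
  have key : 5 ∣ Fintype.card Ω → Fintype.card Ω + 24 * Nat.card (fixedBy Ω (ev S.M.gen CvTits5.ra)) ≤
      Fintype.card Ω * 5 := fun h5 => by
    have := burn_le (Ω := Ω) _ e5 (k := 5) fun y => by
      have h6 := (stabilizer (Nn (loc S.M.gen CvTits5.ws) 2 0) y).card_subgroup_dvd_card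
      rw [p5.2 0 (by norm_num)] at h6
      obtain ⟨i, hi, h7⟩ := (Nat.dvd_prime_pow (by norm_num)).1 h6
      have : i ≠ 2 := by
        rintro rfl
        have h8 : Nn (loc S.M.gen CvTits5.ws) 2 0 ≤ stabilizer _ y := fun g hg => by
          have := Subgroup.eq_top_of_card_eq _ (h7.trans (p5.2 0 (by norm_num)).symm)
          exact (this ▸ Subgroup.mem_top _ : (⟨g, hg⟩ : Nn (loc S.M.gen CvTits5.ws) 2 0) ∈ stabilizer _ y)
        have h9 := Subgroup.card_dvd_of_le h8
        have := isPretransitive_of_is_two_pretransitive (G := Lie.TitsGroup) (α := Ω)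
        have h10 := (stabilizer Lie.TitsGroup y).index_mul_card
        rw [index_stabilizer_of_transitive, hN, Nat.card_eq_fintype_card] at h10
        rw [p5.2 0 (by norm_num)] at h9
        have := h10 ▸ mul_dvd_mul h5 h9
        norm_num at this
      rw [h7]
      have : i ≤ 1 := by omega
      interval_cases i <;> norm_num
    rwa [p5.2 0 (by norm_num)] at this
  have hx : orderOf (ev S.M.gen wx) = 13 := order_of_rel (F := KhTitsT.F) (b := 0) (by norm_num)
    (rels_base (F := KhTitsT.F) hb (by decide +kernel)) (by decide +kernel)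
  have ht : orderOf (ev S.M.gen wt) = 3 := order_of_rel (F := KhTitsT.F) (b := 0) Nat.prime_three
    (rels_base (F := KhTitsT.F) hb (by decide +kernel)) (by decide +kernel)
  have h6 := conj_base (F := KhTitsT.F) hb wt wx (powW wx 3) (by decide +kernel)
  rw [ev_powW] at h6
  have ht3 : ev S.M.gen wt ^ 3 = 1 := by rw [← ht]; exact pow_orderOf_eq_one _
  have h7 := fix_pos (Ω := Ω) Nat.prime_three ht3 h6
  have h8 := fix_mod (Ω := Ω) (by norm_num) hx
  have h9 := fix_lt (Ω := Ω) (x := ev S.M.gen wx) fun e => by rw [e, orderOf_one] at hx; omega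
  have h10 : IsConj (ev S.M.gen CvTits3.ra) (ev S.M.gen wt) := (c3 _ ht3).resolve_left fun e => by
    rw [e, orderOf_one] at ht; omega
  rw [fix_conj h10] at h7
  exact fin hΩ h5 b3 b5 l3 key h7 h8 h9

end Cfsg.Agent.S2197
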