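import Cfsg.Statements.S2202
import Cfsg.Agent.H23.BSW

set_option autoImplicit false
open Cfsg

namespace Cfsg.Agent.S2202

open H18 Subgroup

/-- Finite groups in which the centralizer of every involution is abelian. Let G be a finite group of even order in which the centralizer of every element of order 2 is abelian. Then the Sylow 2-subgroups of G are cyclic, or a Sylow 2-subgroup of G is normal, or G is isomorphic to the direct product of SL₂(F) for a finite field F of characteristic two and an abelian group of odd order. -/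
theorem result {G : Type*} [Group G] [Finite G] (heven : Even (Nat.card G)) (h : ∀ t : G, orderOf t = 2 → IsMulCommutative ↥(Subgroup.centralizer ({t} : Set G))) :
    (∀ P : Sylow 2 G, IsCyclic ↥P) ∨ (∀ P : Sylow 2 G, (P : Subgroup G).Normal) ∨
    (∃ (F : Type) (_ : Field F) (_ : Fintype F) (A : Type) (_ : CommGroup A) (_ : Finite A), CharP F 2 ∧ Odd (Nat.card A) ∧ Nonempty (G ≃* Matrix.SpecialLinearGroup (Fin 2) F × A)) := by
  by_cases h1 : ∃ P : Sylow 2 G, IsCyclic P
  · obtain ⟨P, hP⟩ := h1
    exact .inl fun Q => isCyclic_of_surjective _ (P.equiv Q).surjective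
  by_cases h2 : ∀ P : Sylow 2 G, (P : Subgroup G).Normal
  · exact .inr (.inl h2)
  obtain ⟨P, hP⟩ := not_forall.1 h2
  obtain ⟨F, _, _, L, V, h3, ⟨e⟩, h4, h5, h6⟩ := H23.bsw h heven (hall_sylow_top Nat.prime_two P) hP
    fun e => h1 ⟨P, e⟩
  obtain ⟨f⟩ := H23.dp_equiv h6
  have := h5.comm
  letI : CommGroup V := { mul_comm := mul_comm' }
  exact .inr (.inr ⟨F, _, inferInstance, Shrink.{0} V, inferInstance, Finite.of_equiv _ (equivShrink.{0} V), h3,
    by rwa [Nat.card_congr (equivShrink.{0} V).symm], ⟨(topEquiv.symm.trans f).trans (e.prodCongr Shrink.mulEquiv.symm)⟩⟩)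

end Cfsg.Agent.S2202
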