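import Cfsg.Statements.S2207
import Cfsg.Agent.H26.Rf8
import Cfsg.Agent.S0547
import Cfsg.Agent.S0494
import Cfsg.Agent.H5.Central

set_option autoImplicit false
open Cfsg

namespace Cfsg.Agent.S2207

/-- Primitive rank 3 groups whose point stabilizer acts as a Frobenius group on one of its two non-trivial orbits. Let a finite group G of even order act faithfully and primitively on a finite set X so that the stabilizer of a point A has exactly three orbits, and suppose that on one of its non-trivial orbits I the stabilizer of A acts faithfully as a Frobenius group: transitively, some non-identity element fixing a point of I, and no non-identity element fixing two points of I. Then either G ≅ A₅ and X has 10 points (the action on unordered pairs), or G is solvable and has a normal subgroup of order 16 acting regularly on X. -/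
theorem result {G X : Type*} [Group G] [Finite G] [Fintype X] [MulAction G X] [FaithfulSMul G X] (heven : Even (Nat.card G)) (hprim : MulAction.IsPreprimitive G X) (A : X)
    (h3 : Nat.card (MulAction.orbitRel.Quotient ↥(MulAction.stabilizer G A) X) = 3) (B : X) (hBA : B ≠ A)
    (hfaith : ∀ g ∈ MulAction.stabilizer G A, (∀ h ∈ MulAction.stabilizer G A, g • (h • B) = h • B) → g = 1)
    (hfix : ∃ g ∈ MulAction.stabilizer G A, g ≠ 1 ∧ g • B = B)
    (hfrob : ∀ g ∈ MulAction.stabilizer G A, ∀ h ∈ MulAction.stabilizer G A, g • B = B → g • (h • B) = h • B → h • B ≠ B → g = 1) :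
    (Nonempty (G ≃* ↥(alternatingGroup (Fin 5))) ∧ Fintype.card X = 10) ∨
    (IsSolvable G ∧ ∃ N : Subgroup G, N.Normal ∧ Nat.card N = 16 ∧ ∀ x y : X, ∃! n : ↥N, (n : G) • x = y) := by
  obtain ⟨s⟩ := H326.Rf.mk_rk heven hprim A h3 B hBA hfaith hfix hfrob
  haveI : Nonempty X := ⟨A⟩
  have nt : Nontrivial G := by obtain ⟨g, -, a, -⟩ := hfix; exact ⟨g, 1, a⟩
  have reg : Group.IsSolvable G → ∃ N : Subgroup G, N.Normal ∧ (∀ x y : X, ∃! n : ↥N, (n : G) • x = y) ∧
      ∃ p d : ℕ, p.Prime ∧ Fintype.card X = p ^ d ∧ Nat.card N = p ^ d := by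
    intro hs
    obtain ⟨M, ⟨hM, M0⟩, hmin⟩ := exists_minimal_of_wellFoundedLT (fun M : Subgroup G => M.Normal ∧ M ≠ ⊥)
      ⟨⊤, inferInstance, top_ne_bot⟩
    obtain ⟨t, f, p, d, pp, -, e1, e2⟩ := Cfsg.Agent.S0547.result hprim M M0 (fun K a b => by
      by_contra! c
      exact c.2 (le_antisymm b (hmin ⟨a, c.1⟩ b)))
    refine ⟨M, hM, fun x y => ?_, p, d, pp, by rw [← e1, Nat.card_eq_fintype_card], e2⟩
    obtain ⟨n, e⟩ := t.exists_smul_eq x y
    refine ⟨n, e, fun n' e' => ?_⟩
    have : n⁻¹ * n' ∈ MulAction.stabilizer M x := by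
      rw [MulAction.mem_stabilizer_iff, mul_smul, inv_smul_eq_iff]; exact e'.trans e.symm
    rw [f x, Subgroup.mem_bot, inv_mul_eq_one] at this
    exact this.symm
  rcases s.params heven with ⟨p, q⟩ | ⟨p, q⟩
  · left
    have ns : ¬ Group.IsSolvable G := fun hs => by
      obtain ⟨-, -, -, r, d, pp, e, -⟩ := reg hs
      rw [p] at e
      have h2 := (Nat.prime_dvd_prime_iff_eq Nat.prime_two pp).1 (Nat.prime_two.dvd_of_dvd_pow (n := d) (by rw [← e]; norm_num))
      have h5 := (Nat.prime_dvd_prime_iff_eq Nat.prime_five pp).1 (Nat.prime_five.dvd_of_dvd_pow (n := d) (by rw [← e]; norm_num))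
      omega
    haveI : IsSimpleGroup G := ⟨fun N hN => by
      by_contra! c
      have t : MulAction.IsPretransitive N X := MulAction.IsQuasiPreprimitive.isPretransitive_of_normal (fun e => c.1 (by
        refine eq_bot_iff.2 fun g a => eq_of_smul_eq_smul (α := X) fun x => ?_
        have : x ∈ MulAction.fixedPoints N X := e ▸ Set.mem_univ x
        rw [one_smul]; exact this ⟨g, a⟩))
      have o := H326.Rf.os N A
      rw [H326.Yk.cn_congr (q := fun _ => True) (fun u => ⟨fun _ => trivial, fun _ => by
        obtain ⟨n, e⟩ := t.exists_smul_eq A u; exact ⟨n, n.2, e⟩⟩), H326.Rf.cn_true, p] at o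
      have m := N.card_mul_index
      have i1 : N.index ≠ 1 := fun e => c.2 (Subgroup.index_eq_one.1 e)
      rw [q, o] at m
      have dv : N.index ∣ 2 ^ 1 * 3 ^ 1 := Dvd.intro_left (Nat.card ↥(N ⊓ MulAction.stabilizer G A)) (by linarith)
      haveI : Group.IsSolvable (G ⧸ N) := H5.burnside_paqb_dvd Nat.prime_two Nat.prime_three dv
      haveI : Group.IsSolvable N := by
        have := Nat.le_of_dvd (by norm_num) dv
        generalize Nat.card ↥(N ⊓ MulAction.stabilizer G A) = j at o m
        have : j = 1 ∨ j = 2 ∨ j = 3 := by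
          generalize N.index = i at *
          interval_cases i <;> omega
        rcases this with rfl | rfl | rfl
        · exact H5.burnside_paqb_dvd (a := 2) (b := 1) Nat.prime_two Nat.prime_five (by rw [o]; norm_num)
        · exact H5.burnside_paqb_dvd (a := 2) (b := 1) Nat.prime_two Nat.prime_five (by rw [o]; norm_num)
        · haveI := IsZGroup.of_squarefree (G := N) (by
            rw [o, Nat.squarefree_iff_nodup_primeFactorsList (by norm_num)]; simp)
          infer_instance
      exact ns (Group.isSolvable_of_ker_le_range N.subtype (QuotientGroup.mk' N) (by simp))⟩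
    exact ⟨Cfsg.Agent.S0494.result q, p⟩
  · right
    have hs : Group.IsSolvable G := q.elim (H5.burnside_paqb_dvd Nat.prime_two Nat.prime_three)
      (H5.burnside_paqb_dvd Nat.prime_two Nat.prime_five)
    obtain ⟨N, a, b, r, d, -, e, e'⟩ := reg hs
    exact ⟨hs, N, a, by rw [e', ← e, p], b⟩

end Cfsg.Agent.S2207
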