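import Cfsg.Statements.S2209
import Cfsg.Agent.H12.CentX

set_option autoImplicit false
open Cfsg

namespace Cfsg.Agent.S2209
open H12 H13 Cfsg.Lie

/-- Centralizer of a long root involution in the Chevalley groups of type E₆, E₇, E₈ over a finite field F of characteristic two. Let G be the group generated by the root elements, U the subgroup generated by the positive root subgroups, r the highest root (the last root index: 71, 125, 239 respectively), and t the element of G with matrix x_r(1). Then the centralizer of t in G is the subgroup generated by U together with the root subgroups X_{−p} for the fundamental roots p orthogonal to r — all fundamental roots except p₂ for E₆, except p₁ for E₇, except p₈ for E₈ (numbering with p₁–p₃–p₄–…–p_l the long chain and p₂ joined to p₄); the indices of these negative fundamental roots are 15, 29, 32, 34, 35 (E₆), 47, 52, 56, 59, 61, 62 (E₇), 77, 98, 104, 109, 113, 116, 118 (E₈). (This is the unipotent radical of the corresponding maximal parabolic subgroup extended by the root subgroups of its Levi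 factor, of type A₅, D₆, E₇ respectively.) -/
theorem result {F : Type*} [Field F] [Fintype F] [CharP F 2] (d : Cfsg.Lie.ChevalleyDatum × List ℕ)
    (hd : d ∈ [(Cfsg.Lie.chevE6, [15, 29, 32, 34, 35]), (Cfsg.Lie.chevE7, [47, 52, 56, 59, 61, 62]), (Cfsg.Lie.chevE8, [77, 98, 104, 109, 113, 116, 118])])
    (t : GL d.1.Idx F) (ht : (t : Matrix d.1.Idx d.1.Idx F) = d.1.x F (d.1.nroots - 1) 1) :
    d.1.group F ⊓ Subgroup.centralizer {t} = d.1.posUnipotent F ⊔ Subgroup.closure {g : GL d.1.Idx F | ∃ s ∈ d.2, ∃ c : F, (g : Matrix d.1.Idx d.1.Idx F) = d.1.x F s c} := by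
  have hF : CharOK F 2 := Or.inr ⟨Nat.prime_two, inferInstance⟩
  have key : ∀ {D : ChevalleyDatum} [Good D] {L : List ℕ}, (∀ r ∈ L, r < D.nroots) → Subgroup.closure {g : GL D.Idx F | ∃ s ∈ L, ∃ c : F,
      (g : Matrix D.Idx D.Idx F) = D.x F s c} = (adS D F).gen {r | r.1 ∈ L} := fun h => by
    rw [← closure_x_eq (· ∈ _) h]; simp
  simp only [List.mem_cons, List.not_mem_nil, or_false] at hd
  rcases hd with rfl | rfl | rfl <;> rw [key (by decide)]
  · exact cent_ad hF (O := [71]) (Jl := [0, 2, 3, 4, 5]) (a := [1, 2, 2, 3, 2, 1]) (b := 2) (by rw [tabE6_eq]; decide +kernel) (ht.trans (mul_one _).symm)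
  · exact cent_ad hF (O := [125]) (Jl := [1, 2, 3, 4, 5, 6]) (a := [2, 2, 3, 4, 3, 2, 1]) (b := 2) (by rw [tabE7_eq]; decide +kernel)
      (ht.trans (mul_one _).symm)
  · exact cent_ad hF (O := [239]) (Jl := [0, 1, 2, 3, 4, 5, 6]) (a := [2, 3, 4, 6, 5, 4, 3, 2]) (b := 2) (by rw [tabE8_eq]; decide +kernel)
      (ht.trans (mul_one _).symm)

end Cfsg.Agent.S2209
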