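import Cfsg.Statements.S2214
import Cfsg.Agent.H24.AutFix
import Cfsg.Agent.H12.All

set_option autoImplicit false
open Cfsg

namespace Cfsg.Agent.S2214

open H24 H12 Cfsg.Lie

/-- Let k be an algebraically closed field of prime characteristic p, G the adjoint Chevalley group of type G₂, B₂, D₄, F₄, E₆, E₇ or E₈ over k (the matrix group generated by the root elements x_s(t), t ∈ k, acting on the Lie algebra), q = p^a with a ≥ 1, and K a subgroup of G containing every root element x_s(t) with t^q = t and consisting of matrices all of whose entries c satisfy c^q = c. Then the centralizer of K in G is trivial, and the normalizer of K in G is exactly the set of elements of G all of whose entries c satisfy c^q = c. -/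
theorem result {k : Type*} [Field k] [IsAlgClosed k] (p : ℕ) [Fact p.Prime] [CharP k p] (D : Cfsg.Lie.ChevalleyDatum) (hD : D ∈ [Cfsg.Lie.chevG2, Cfsg.Lie.chevB2, Cfsg.Lie.chevD4, Cfsg.Lie.chevF4, Cfsg.Lie.chevE6, Cfsg.Lie.chevE7, Cfsg.Lie.chevE8]) (a : ℕ) (ha : 1 ≤ a) (K : Subgroup (GL D.Idx k)) (hKG : K ≤ D.group k)
    (hLK : Subgroup.closure {g : GL D.Idx k | ∃ (s : ℕ) (t : k), t ^ (p ^ a) = t ∧ (g : Matrix D.Idx D.Idx k) = D.x k s t} ≤ K)
    (hKfix : ∀ g ∈ K, ∀ i j : D.Idx, ((g : Matrix D.Idx D.Idx k) i j) ^ (p ^ a) = (g : Matrix D.Idx D.Idx k) i j) :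
    D.group k ⊓ Subgroup.centralizer (K : Set (GL D.Idx k)) = ⊥ ∧
    ∀ g : GL D.Idx k, g ∈ D.group k → (g ∈ Subgroup.normalizer (K : Set (GL D.Idx k)) ↔ ∀ i j : D.Idx, ((g : Matrix D.Idx D.Idx k) i j) ^ (p ^ a) = (g : Matrix D.Idx D.Idx k) i j) := by
  obtain ⟨G⟩ := good_of_mem hD
  let φ : k →+* k := iterateFrobenius k p a
  have hx : ∀ (r : Φ D) (t : k), φ t = t → xG k r t ∈ K := fun r t ht =>
    hLK (Subgroup.subset_closure ⟨r, t, ht, coe_eq_x.2 rfl⟩)
  have hfix : ∀ g : GL D.Idx k, glMap D φ g = g ↔ ∀ i j, ((g : Matrix D.Idx D.Idx k) i j) ^ (p ^ a) = (g : Matrix D.Idx D.Idx k) i j :=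
    fun g => Units.ext_iff.trans Matrix.ext_iff.symm
  have hc : ∀ g ∈ D.group k, (∀ y ∈ K, y * g = g * y) → g = 1 := fun g h1 h2 =>
    eq_one_of_comm cov_ad (group_eq (D := D) (F := k) ▸ h1) fun r => (h2 _ (hx r 1 (map_one φ))).symm
  have h0 := adm_fldTw (D := D) (f := (φ.eqLocusField (RingHom.id k)).subtype) (φ := φ) fun t =>
    ⟨fun h => ⟨⟨t, h⟩, rfl⟩, by rintro ⟨t, rfl⟩; exact t.2⟩
  have h1 : ((adS D k).comap (φ.eqLocusField (RingHom.id k)).subtype).T ≤ K := (StSys.gen_le _).2 fun r _ t => hx r t t.2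
  have hK : (fldTw D φ).Adm K := ⟨fun g hg => ⟨group_eq (D := D) (F := k) ▸ hKG hg, (hfix g).2 (hKfix g hg)⟩,
    fun i => (h0.hU i).trans h1, fun i => (h0.neV i).imp fun v h => ⟨h1 h.1, h.2⟩⟩
  refine ⟨(Subgroup.eq_bot_iff_forall _).2 fun g hg => hc g hg.1 hg.2, fun g hg => ⟨fun h => (hfix g).1 ?_, fun h =>
    fix_le_normalizer hK cov_ad r3_ad ⟨group_eq (D := D) (F := k) ▸ hg, (hfix g).2 h⟩⟩⟩
  have h2 : glMap D φ g ∈ D.group k := by
    rw [group_eq] at hg ⊢
    exact (show (adS D k).T ≤ (adS D k).T.comap (glMap D φ) from (StSys.gen_le _).2 fun r _ t => by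
      simpa using (adS D k).x_mem_T r (φ t)) hg
  refine (inv_mul_eq_one.1 (hc _ (mul_mem (inv_mem hg) h2) fun y hy => ?_)).symm
  have h3 := (hK.le (conj_mem_of_normalizer h hy)).2
  change glMap D φ _ = _ at h3
  rw [map_mul, map_mul, map_inv, show glMap D φ y = y from (hK.le hy).2] at h3
  calc _ = g⁻¹ * (g * y * g⁻¹) * glMap D φ g := by group
    _ = _ := by rw [← h3]; group

end Cfsg.Agent.S2214
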