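import Cfsg.Statements.S2221
import Cfsg.Agent.H23.Dec

set_option autoImplicit false
open Cfsg

namespace Cfsg.Agent.S2221

open H23 H23.Wr H20 H18 Equiv Equiv.Perm Subgroup MulAction

/-- Direct decomposability of the Sylow 2-subgroups of the alternating groups. Let n ≥ 4 and let P be a Sylow 2-subgroup of the alternating group of degree n. Then P is the internal direct product of two nontrivial subgroups if and only if n = 4, n = 5, or n ≡ 2, 3 (mod 4) with 4⌊n/4⌋ not a power of 2. In the remaining cases (n ≡ 0, 1 (mod 4) with n ≥ 8, or n ≡ 2, 3 (mod 4) with 4⌊n/4⌋ a power of 2) P is directly indecomposable. -/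
theorem result (n : ℕ) (hn : 4 ≤ n)
    (P : Sylow 2 (alternatingGroup (Fin n))) :
    (∃ S₁ S₂ : Subgroup (alternatingGroup (Fin n)), S₁ ≠ ⊥ ∧ S₂ ≠ ⊥ ∧
        Cfsg.IsInternalDirectProduct S₁ S₂ (P : Subgroup (alternatingGroup (Fin n)))) ↔
      (n = 4 ∨ n = 5 ∨ ((n % 4 = 2 ∨ n % 4 = 3) ∧ ∀ r : ℕ, 4 * (n / 4) ≠ 2 ^ r)) := by
  obtain ⟨A, hA⟩ := exists_good 2 (n / 2) (Fin (n / 2)) (by simp)
  have hβ : Fintype.card (Fin (n % 2)) < 2 := by simp; omega
  haveI : Subsingleton (Fin (n % 2)) := Fintype.card_le_one_iff_subsingleton.1 (by omega)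
  obtain ⟨e, he⟩ := exists_model (syl_map_subtype P).pgroup hβ hA (by rw [card_model, Fintype.card_fin])
  have a1 := (syl_map_subtype P).map e.permCongrHom.toMonoidHom
  have a2 : (alternatingGroup (Fin n)).map e.permCongrHom.toMonoidHom = alternatingGroup _ := le_antisymm
    (map_le_iff_le_comap.2 fun g hg => by simpa using hg) fun g hg => ⟨e.symm.permCongr g, by simpa using hg, by ext; simp⟩
  rw [a2] at a1
  have a0 : ((P : Subgroup (alternatingGroup (Fin n))).map (alternatingGroup (Fin n)).subtype).map e.permCongrHom.toMonoidHom ≤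
    T 2 _ A ⊓ alternatingGroup _ := le_inf (map_le_iff_le_comap.2 he) a1.1
  have a3 := le_antisymm a0 (a1.2.2 _ a0 inf_le_right (syl_alt hβ hA).pgroup)
  refine Iff.trans (b := Dec (P : Subgroup (alternatingGroup (Fin n)))) (exists₂_congr fun S₁ S₂ => and_congr_right' (and_congr_right'
    ⟨fun h => ⟨fun x hx y hy => (h.2.2.1 x hx y hy).symm, h.2.2.2.1, h.2.2.2.2⟩,
      fun h => ⟨h.le_left, h.le_right, fun x hx y hy => (h.cent hx y hy).symm, h.inf, h.sup⟩⟩)) ?_
  rw [← dec_map (Subgroup.subtype_injective _), ← dec_map (f := e.permCongrHom.toMonoidHom) e.permCongrHom.injective, a3]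
  obtain ⟨ρ, b1, b2, b3⟩ := exists_Ew Nat.prime_two (hA.syl.exists_sylow_top.elim fun R h => h ▸ hall_sylow_top Nat.prime_two R :
    Hall {2} A ⊤)
  rw [Fintype.card_fin] at b2
  have b4 : ∀ x, ρ (ρ x) = x := fun x => congrArg (· x) ((sq ρ).symm.trans b1)
  have b5 : ρ ∈ A := b3 ⟨⟨Commute.refl _, fun x => by simp [SameCycle.rfl]⟩, trivial⟩
  by_cases h4 : n ≤ 5
  · exact iff_of_true (dec_two (by simp; omega) (ne_bot_of_mem b5 fun d => by simp [d] at b2; omega)) (by omega)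
  have h3 : 3 ≤ Fintype.card (Fin (n / 2)) := by simp; omega
  by_cases h5 : n / 2 % 2 = 0
  · refine iff_of_false (not_dec_even h3 hA.syl.pgroup b4 (fun x => mem_support.1 ?_) b5 fun x => b3 ⟨⟨?_, fun y => ?_⟩, trivial⟩)
      (by omega)
    · rw [Finset.eq_univ_of_card ρ.support (by simp; omega)]; exact Finset.mem_univ _
    · exact (mul_inv_eq_iff_eq_mul.1 (by rw [← swap_apply_apply, b4, swap_comm])).symm
    · rw [swap_apply_def]; split_ifs with h1 h2 <;> simp [*, SameCycle.rfl]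
  obtain ⟨x, hx⟩ := hA.syl.pgroup.nonempty_fixed_point_of_prime_not_dvd_card (Fin (n / 2)) (by simp; omega)
  have c1 : ∀ σ ∈ A, σ x = x := fun σ h => hx ⟨σ, h⟩
  refine ⟨fun h => Or.inr (Or.inr ⟨by omega, fun r d => not_dec_odd (x := x) h3 (by simp [Nat.odd_iff]; omega) hA.syl.pgroup
    (fun y z h1 h2 => ?_) h⟩), fun h => ?_⟩
  · obtain ⟨c, d1, d2⟩ := exists_cycle (Ω := Fin (n / 2)) (p := n / 2 - 1) (by omega) (by simp)
    obtain ⟨k, rfl⟩ := Nat.exists_eq_add_of_le' (show 1 ≤ r from Nat.one_le_iff_ne_zero.2 (by rintro rfl; omega))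
    obtain ⟨g, -, d3⟩ := hA.syl.exists_conj (L := zpowers c) le_top (IsPGroup.of_card (n := k) (by
      rw [Nat.card_zpowers, d1.orderOf, d2]; omega))
    have d4 := d3 c (mem_zpowers c)
    have d5 : (g * c * g⁻¹).support = {x}ᶜ := Finset.eq_of_subset_of_card_le (fun u hu => by
      simpa using fun f : u = x => mem_support.1 hu (f ▸ c1 _ d4)) (by simp [Finset.card_compl, d2])
    obtain ⟨i, f⟩ := d1.conj.sameCycle (x := y) (y := z) (mem_support.1 (d5.ge (by simpa))) (mem_support.1 (d5.ge (by simpa)))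
    exact ⟨_, zpow_mem d4 i, f⟩
  · obtain ⟨u, d1, -⟩ := exists_third h3 x x
    have d2 : x ∉ orbit A u := fun ⟨σ, f⟩ => d1 (σ.1.injective (f.trans (c1 σ σ.2).symm))
    by_cases d3 : ∃ y, y ∉ orbit A u ∧ y ≠ x
    · exact d3.elim fun y f => dec_odd hA.syl c1 (inv_orbit u) d2 ⟨u, mem_orbit_self u⟩ f.1 f.2
    obtain ⟨k, d4⟩ := hA.syl.pgroup.card_orbit u
    rw [Nat.card_coe_set_eq, show orbit A u = {x}ᶜ from Set.ext fun y => ⟨fun f g => d2 (g ▸ f), fun f =>
      by_contra fun g => d3 ⟨y, g, f⟩⟩, Set.ncard_compl, Set.ncard_singleton, Nat.card_fin] at d4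
    exact absurd (show 4 * (n / 4) = 2 ^ (k + 1) by omega) ((h.resolve_left (by omega)).resolve_left (by omega) |>.2 _)

end Cfsg.Agent.S2221
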