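import Cfsg.Statements.S2222
import Cfsg.Agent.H23.Wr2
import Cfsg.Agent.H9.InvCount
import Cfsg.Agent.H18.Hall

set_option autoImplicit false
open Cfsg

namespace Cfsg.Agent.S2222

open H18 Subgroup H23.Wr

theorem selfnorm (n : ℕ) (hn : 6 ≤ n) : ∃ P : Subgroup (alternatingGroup (Fin n)), Hall {2} P ⊤ ∧ N(P) ≤ P := by
  obtain ⟨A, hA⟩ := exists_good 2 (n / 2) (Fin (n / 2)) (by simp)
  have hβ : Fintype.card (Fin (n % 2)) < 2 := by simpa using Nat.mod_lt _ two_pos
  obtain ⟨R, hR⟩ := (syl_alt hβ hA).exists_sylow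
  let e := (Fintype.equivOfCardEq ((card_model (p := 2) n).trans (Fintype.card_fin n).symm)).altCongrHom
  refine ⟨_, hall_sylow_top Nat.prime_two (R.mapSurjective (f := e.toMonoidHom) e.surjective), ?_⟩
  change N((R : Subgroup _).map e.toMonoidHom) ≤ (R : Subgroup _).map e.toMonoidHom
  rw [← map_equiv_normalizer_eq, hR]
  refine map_mono fun g hg => ⟨selfnorm_alt rfl (by simp; omega) hβ hA (H20.mem_normalizer_of_conj fun x hx =>
    (conj_mem_N hg (y := ⟨x, hx.2⟩) hx :)), g.2⟩

/-- In the alternating group of degree n ≥ 5 every subgroup H of odd index is pronormal: for every element g, the subgroups H and gHg⁻¹ are conjugate by an element of the subgroup they generate. -/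
theorem result (n : ℕ) (hn : 5 ≤ n)
    (H : Subgroup (alternatingGroup (Fin n))) (hH : Odd H.index) : Cfsg.IsPronormal H := by
  intro g
  obtain ⟨P, hP, hN⟩ : ∃ P : Subgroup (alternatingGroup (Fin n)), Hall {2} P ⊤ ∧ (n ≠ 5 → N(P) ≤ P) := by
    by_cases h : n = 5
    · exact (exists_sylow Nat.prime_two ⊤).imp fun P hP => ⟨hP, fun e => absurd h e⟩
    · exact (selfnorm n (by omega)).imp fun P hP => ⟨hP.1, fun _ => hP.2⟩
  obtain ⟨S, hS⟩ := exists_sylow Nat.prime_two H
  have hS' := hS.of_idx le_top ((piNat_compl_iff Nat.prime_two).2 (by simpa using hH.not_two_dvd_nat))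
  obtain ⟨c, -, rfl⟩ := sylow_conj Nat.prime_two hP hS'
  obtain ⟨x, hx, e⟩ := sylow_conj Nat.prime_two (hS'.of_le (hS.le.trans (le_sup_left (b := cj g H))) le_top)
    ((hS'.cj_top g).of_le ((cj_mono hS.le).trans le_sup_right) le_top)
  change ∃ x ∈ H ⊔ cj g H, cj g H = cj x H
  have h1 : x⁻¹ * g ∈ N(cj c P) := mem_N_iff_cj.2 (by rw [cj_mul, e, cj_inv_cj])
  by_cases h : n = 5
  · subst h
    by_cases h2 : H ⊔ cj g H = ⊤
    · exact ⟨g, h2 ▸ mem_top g, rfl⟩
    have c60 : Nat.card (alternatingGroup (Fin 5)) = 60 := by rw [nat_card_alternatingGroup]; simp [Nat.factorial]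
    have h3 := H9.card_dvd_factorial_index h2
    have h4 := (H ⊔ cj g H).index_mul_card
    have h5 : 2 ^ 2 ∣ Nat.card (cj c P) := hS'.dvd_of_piNat (piNat_pow_self Nat.prime_two 2) (by rw [card_top, c60]; decide)
    obtain ⟨k, hk⟩ := hS'.pi.card_eq_pow
    have h6 := H.index_mul_card
    have h7 := h5.trans (card_dvd hS.le)
    have h8 := card_le (le_sup_left (a := H) (b := cj g H))
    rw [c60] at h3 h4 h6
    have h9 : 5 ≤ (H ⊔ cj g H).index := by
      by_contra h; push Not at h
      generalize (H ⊔ cj g H).index = i at h h3; interval_cases i <;> simp [Nat.factorial] at h3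
    have h10 : Nat.card (H ⊔ cj g H :) ≤ 12 := by nlinarith
    have h11 : Nat.card H = 4 ∨ Nat.card H = 12 := by
      have := Dvd.intro_left _ h6
      have h : Nat.card H ≤ 12 := by omega
      generalize Nat.card H = i at *; interval_cases i <;> simp_all
    rcases h11 with h11 | h11
    · have := eq_of_card_ge hS.le (h11 ▸ Nat.le_of_dvd card_pos' h5)
      exact ⟨x, hx, by rw [← this, e]⟩
    · refine ⟨1, one_mem _, ?_⟩
      rw [cj_one]
      exact eq_of_card_eq (le_sup_right.trans (eq_of_card_ge le_sup_left (h11 ▸ h10)).ge) card_cj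
  · rw [← cj_N] at h1
    refine ⟨x, hx, ?_⟩
    conv_rhs => rw [← cj_eq_self_of_mem (hS.le (cj_mono (hN h) h1)), ← cj_mul, mul_inv_cancel_left]

end Cfsg.Agent.S2222
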