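import Cfsg.Statements.S2225
import Cfsg.Agent.H9.Pn4

set_option autoImplicit false
open Cfsg

namespace Cfsg.Agent.S2225

open H9.Pn H17 Matrix Subgroup

theorem em_GL {F : Type*} [Field F] [Fintype F] (h : Odd (Fintype.card F)) (n : ℕ) :
    emultiplicity 2 (Nat.card (Iso False (RingHom.id F) (1 : Matrix (Fin n) (Fin n) F))) = ev (Fintype.card F) n := by
  rw [show Iso False (RingHom.id F) (1 : Matrix (Fin n) (Fin n) F) = ⊤ from eq_top_iff.2 fun _ _ => False.elim, card_top,
    card_GL_field, Fin.prod_univ_eq_prod_range (fun i => Fintype.card F ^ n - Fintype.card F ^ i),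
    Finset.emultiplicity_prod Nat.prime_two.prime, ev, ← Finset.sum_range_reflect]
  refine Finset.sum_congr rfl fun i hi => ?_
  have := Finset.mem_range.1 hi
  rw [← Int.natCast_emultiplicity, show n = (n - 1 - i) + (i + 1) by omega, pow_add, show n - 1 - i + (i + 1) - 1 - i =
    n - 1 - i by omega, ← Nat.mul_sub_one, Nat.cast_mul, Nat.cast_ofNat, emultiplicity_mul Int.prime_two,
    emultiplicity_eq_zero.2 (by exact_mod_cast h.pow.not_two_dvd_nat), zero_add, Nat.cast_sub (Nat.one_le_pow _ _ h.pos)]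
  simp

/-- Let F be a finite field and d = 2^w ≥ 2 a power of 2 such that PSL_d(F) is simple. Then every subgroup H of PSL_d(F) of odd index is pronormal: for every g, H and gHg⁻¹ are conjugate by an element of the subgroup they generate. -/
theorem result {F : Type*} [Field F] [Fintype F]
    (w : ℕ) (hw : 1 ≤ w) (hs : IsSimpleGroup (Matrix.ProjectiveSpecialLinearGroup (Fin (2 ^ w)) F))
    (H : Subgroup (Matrix.ProjectiveSpecialLinearGroup (Fin (2 ^ w)) F)) (hH : Odd H.index) : Cfsg.IsPronormal H := by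
  refine fin SpecialLinearGroup.toGL SpecialLinearGroup.toGL_injective ?_ _ H hH
  have e : (SpecialLinearGroup.toGL : SpecialLinearGroup (Fin (2 ^ w)) F →* _).range = GeneralLinearGroup.det.ker := by
    ext g
    exact ⟨by rintro ⟨x, rfl⟩; simp [MonoidHom.mem_ker], fun h => ⟨⟨g.1, congrArg Units.val h⟩, Units.ext rfl⟩⟩
  rw [e]
  by_cases h2 : (2 : F) = 0
  · have : CharP F 2 := CharTwo.of_one_ne_zero_of_two_eq_zero one_ne_zero h2
    simpa [H9.Pn.Fix] using sp_two (MonoidHom.id (GL (Fin (2 ^ w)) F)) (fun _ => rfl) (fun _ h => h) (fun _ h => h)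
      (fun _ h => h) fun s => ⟨s, rfl⟩
  obtain rfl | hw := hw.eq_or_lt
  · exact sp_dim2 h2
  have ho : Odd (Fintype.card F) := Nat.odd_iff.2 (FiniteField.odd_card_of_char_ne_two fun e => h2 (by
    simpa [e] using ringChar.Nat.cast_ringChar (R := F)))
  obtain ⟨p, _⟩ := CharP.exists F
  have : NeZero p := ⟨(CharP.char_ne_zero_of_finite F p)⟩
  obtain ⟨a, b, e⟩ := CharP.sq_add_sq F p (-1)
  have := sp_odd h2 (by exact_mod_cast ho) (em_GL ho) (base (μ := 1) h2 (by simpa using e) one_ne_zero (by simp)) hw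
  rwa [inf_eq_right.2 fun _ _ => False.elim] at this

end Cfsg.Agent.S2225
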