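import Cfsg.Statements.S2226
import Cfsg.Agent.H9.Pn4
import Cfsg.Agent.S0277

set_option autoImplicit false
open Cfsg

namespace Cfsg.Agent.S2226

open H9.Pn H17 Matrix Subgroup

variable {F : Type*} [Field F] {σ : F →+* F} {n : ℕ}

theorem mem_iso {q : ℕ} (hq : ∀ x, σ x = x ^ q) (g : GL (Fin n) F) :
    g ∈ Iso True σ (1 : Matrix (Fin n) (Fin n) F) ↔ g ∈ GU n F q := by
  have k : ∀ u v, hermForm n F q (g.1 *ᵥ u) (g.1 *ᵥ v) = (σ ∘ v) ⬝ᵥ ((g.1.map σ)ᵀ * g.1) *ᵥ u := fun u v => by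
    rw [← mulVec_mulVec, dotProduct_mulVec, vecMul_transpose, dotProduct_comm]
    simp [hermForm, dotProduct, ← hq, mulVec]
  refine ⟨fun h u v => (k u v).trans ?_, fun h _ => ?_⟩
  · rw [show (g.1.map σ)ᵀ * g.1 = 1 by simpa using h trivial]
    simp [hermForm, dotProduct, hq, mul_comm]
  · ext i j
    have := (k _ _).symm.trans (h (Pi.single j 1) (Pi.single i 1))
    rw [show σ ∘ Pi.single i 1 = Pi.single i 1 from funext fun k => by by_cases e : k = i <;> simp [e]] at this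
    simpa [hermForm, ← hq, Pi.single_apply, one_apply, eq_comm] using this

theorem em_GU [Fintype F] {q : ℕ} (hF : Fintype.card F = q ^ 2) (hq : ∀ x, σ x = x ^ q) (h : Odd q) (n : ℕ) :
    emultiplicity 2 (Nat.card (Iso True σ (1 : Matrix (Fin n) (Fin n) F))) = ev (-q) n := by
  rw [show Iso True σ (1 : Matrix (Fin n) (Fin n) F) = GU n F q from Subgroup.ext (mem_iso hq), S0277.result hF,
    Nat.prime_two.emultiplicity_mul, emultiplicity_eq_zero.2 h.pow.not_two_dvd_nat, zero_add,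
    Finset.emultiplicity_prod Nat.prime_two.prime, ev]
  refine Finset.sum_congr rfl fun i _ => ?_
  rw [← Int.natCast_emultiplicity]
  split_ifs with e
  · rw [e.add_one.neg_pow, ← emultiplicity_neg]; congr 1; push_cast; ring
  · rw [(Nat.not_even_iff_odd.1 e).add_one.neg_pow, Nat.cast_sub (Nat.one_le_pow _ _ h.pos)]; simp

/-- inverse conjugate transpose -/
def st (σ : F →+* F) : GL (Fin n) F →* GL (Fin n) F := MonoidHom.toHomUnits
  { toFun := fun g => ((g⁻¹).1.map σ)ᵀ
    map_one' := by simp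
    map_mul' := fun x y => by rw [_root_.mul_inv_rev, Units.val_mul, Matrix.map_mul, transpose_mul] }

theorem st_inv (x : GL (Fin n) F) : (x.1.map σ)ᵀ = (st σ x⁻¹).1 := rfl

theorem iso_conj {c : Prop} {J J' : Matrix (Fin n) (Fin n) F} {P : GL (Fin n) F} (h : (P.1.map σ)ᵀ * J * P.1 = J')
    (g : GL (Fin n) F) : P⁻¹ * g * P ∈ Iso c σ J' ↔ g ∈ Iso c σ J := by
  refine imp_congr_right fun _ => ?_
  rw [st_inv, st_inv, ← h, st_inv]
  simp only [_root_.mul_inv_rev, inv_inv, map_mul, map_inv, Units.val_mul, mul_assoc, Units.mul_inv_cancel_left,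
    Units.mul_right_inj]
  simp only [← mul_assoc, Units.mul_left_inj]

theorem sp_char [Finite F] [CharP F 2] (hσ : ∀ a, σ (σ a) = a) (hne : σ ≠ RingHom.id F) (hn : Even n) :
    SP 2 (Iso True σ (1 : Matrix (Fin n) (Fin n) F) ⊓ GeneralLinearGroup.det.ker) := by
  let J := pm F (Fin.revPerm (n := n))
  let τ := (MulAut.conj J⁻¹).toMonoidHom.comp (st σ)
  have h1 : ∀ g i j, (τ g).1 i j = σ ((g⁻¹).1 j.rev i.rev) := fun g i j => by
    simpa [τ, st, -Units.val_mul, -coe_units_inv] using pm_conj Fin.revPerm Fin.revPerm (st σ g) i j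
  have h2 := sp_two τ (fun g => Units.ext (by ext i j; rw [h1, ← map_inv, h1]; simp [hσ]))
    (fun g hg => ⟨fun i j (e : j < i) => (h1 g i j).trans ((map_eq_zero σ).2 ((inv_mem hg).1 (Fin.rev_lt_rev.2 e))),
      fun i => by rw [h1, (inv_mem hg).2, map_one]⟩)
    (fun g hg i j (e : j < i) => (h1 g i j).trans ((map_eq_zero σ).2 (inv_mem hg (Fin.rev_lt_rev.2 e))))
    (fun g hg i j (e : i < j) => (h1 g i j).trans ((map_eq_zero σ).2 (inv_mem hg (Fin.rev_lt_rev.2 e))))
    fun s => ⟨Fin.revPerm * s * Fin.revPerm, Units.ext (by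
      ext i j; rw [h1, ← map_inv, pm_apply, pm_apply]
      simp [Equiv.eq_symm_apply, Fin.rev_eq_iff, eq_comm (a := i)])⟩
  obtain ⟨x, hx⟩ := H11.exists_trace_one hσ hne
  have h3 : ∀ i : Fin n, i.rev ≠ i := fun i e => by
    have := congrArg Fin.val e
    rw [Fin.val_rev] at this
    obtain ⟨m, rfl⟩ := hn
    omega
  have h4 : (2 : F) = 0 := CharTwo.two_eq_zero
  let P : Matrix (Fin n) (Fin n) F := diagonal (fun i => if i < i.rev then 1 else x + 1) +
    J.1 * diagonal fun i => if i < i.rev then 1 else x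
  have h5 : (P.map σ)ᵀ * 1 * P = J.1 := by
    ext i j
    rw [mul_one, mul_apply, ← Finset.sum_subset (Finset.subset_univ {i, i.rev}) fun k _ hk => by
      simp only [Finset.mem_insert, Finset.mem_singleton, not_or] at hk
      simp [P, J, pm_apply, hk], Finset.sum_pair (h3 i).symm]
    rcases eq_or_ne j i with rfl | e
    · by_cases e : j < j.rev <;> simp [P, J, pm_apply, h3, (h3 _).symm, e] <;> grind
    rcases eq_or_ne j i.rev with rfl | e'
    · rcases lt_or_gt_of_ne (h3 i) with e | e <;> simp [P, J, pm_apply, h3, (h3 _).symm, e, e.not_gt] <;> grind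
    · simp [P, J, pm_apply, e.symm, e'.symm, Fin.rev_inj, Ne.symm (mt Fin.rev_eq_iff.1 e')]
  let P' := GeneralLinearGroup.mkOfDetNeZero P fun e => J.det_ne_zero (by rw [← h5, det_mul, e, mul_zero])
  convert h2.map (MulAut.conj P').toMonoidHom using 1
  ext g
  rw [mem_cj, mem_inf, ← iso_conj (P := P') h5]
  refine and_congr ?_ (by simp [MonoidHom.mem_ker])
  generalize P'⁻¹ * g * P' = y
  change (True → _) ↔ J⁻¹ * st σ y * J⁻¹⁻¹ = y
  rw [st_inv, true_imp_iff, ← Units.val_mul, ← Units.val_mul, Units.val_inj, map_inv, inv_inv, mul_assoc, mul_assoc,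
    inv_mul_eq_iff_eq_mul, inv_mul_eq_iff_eq_mul, eq_comm]

/-- Let F be a finite field with q² elements and d = 2^w ≥ 4 a power of 2 such that the unitary group PSU_d(q) (realised over F) is simple. Then every subgroup H of PSU_d(q) of odd index is pronormal: for every g, H and gHg⁻¹ are conjugate by an element of the subgroup they generate. -/
theorem result {F : Type*} [Field F] [Fintype F] (q : ℕ)
    (hF : Fintype.card F = q ^ 2) (w : ℕ) (hw : 2 ≤ w) (hs : IsSimpleGroup (Cfsg.PSU (2 ^ w) F q))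
    (H : Subgroup (Cfsg.PSU (2 ^ w) F q)) (hH : Odd H.index) : Cfsg.IsPronormal H := by
  obtain ⟨σ, hq, hσ, hne⟩ := H11.exists_frob hF
  refine fin (SpecialLinearGroup.toGL.comp (SU (2 ^ w) F q).subtype)
    (SpecialLinearGroup.toGL_injective.comp Subtype.val_injective) ?_ _ H hH
  have e : (SpecialLinearGroup.toGL.comp (SU (2 ^ w) F q).subtype).range =
      Iso True σ 1 ⊓ GeneralLinearGroup.det.ker := by
    ext g
    rw [mem_inf, mem_iso hq]
    exact ⟨by rintro ⟨x, rfl⟩; exact ⟨x.2, by simp [MonoidHom.mem_ker]⟩,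
      fun h => ⟨⟨⟨g.1, congrArg Units.val h.2⟩, h.1⟩, Units.ext rfl⟩⟩
  rw [e]
  by_cases h2 : (2 : F) = 0
  · have : CharP F 2 := CharTwo.of_one_ne_zero_of_two_eq_zero one_ne_zero h2
    exact sp_char hσ hne (by simp [Nat.even_pow]; omega)
  have ho : Odd q := (Nat.odd_pow_iff two_ne_zero).1 <| hF ▸ Nat.odd_iff.2
    (FiniteField.odd_card_of_char_ne_two fun e => h2 (by simpa [e] using ringChar.Nat.cast_ringChar (R := F)))
  obtain ⟨μ, hμ⟩ := H11.exists_norm_eq hσ hne (μ := 2⁻¹) (by simp [map_ofNat])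
  obtain ⟨a, b, h3, h4, h5⟩ : ∃ a b : F, a ^ 2 + b ^ 2 = -1 ∧ σ a = -a ∧ σ b = -b := by
    obtain ⟨i, hi⟩ := (FiniteField.isSquare_neg_one_iff (F := F)).2 (by
      obtain ⟨m, rfl⟩ := ho
      rw [hF, show (2 * m + 1) ^ 2 = 4 * (m ^ 2 + m) + 1 by ring]; omega)
    rcases mul_self_eq_mul_self_iff.1 (show σ i * σ i = i * i by rw [← map_mul, ← hi]; simp) with k | k
    · obtain ⟨y, hy⟩ := H11.exists_σ_ne hne
      have h6 : σ y - y ≠ 0 := sub_ne_zero.2 hy
      have h7 : σ (σ y - y) = -(σ y - y) := by simp [hσ]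
      generalize σ y - y = d at h6 h7
      refine ⟨(d - d⁻¹) / 2, i * (d + d⁻¹) / 2, ?_, ?_, ?_⟩
      · field_simp; linear_combination -(d ^ 2 + 1) ^ 2 * hi
      · simp [h7, map_ofNat]; ring
      · simp [h7, k, map_ofNat]; ring
    · exact ⟨i, 0, by simp [hi, pow_two], k, by simp⟩
  exact sp_odd h2 (Odd.neg (by exact_mod_cast ho)) (em_GU hF hq ho) (base h2 h3 (μ := μ)
    (by rintro rfl; exact inv_ne_zero h2 (by simpa using hμ.symm)) fun _ => ⟨h4, h5, by rw [hμ, inv_mul_cancel₀ h2]⟩) hw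

end Cfsg.Agent.S2226
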