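import Cfsg.Statements.S2227
import Cfsg.Agent.H12.O5a
import Cfsg.Agent.H12.O5b
-- import your own Cfsg.Agent.* helpers here

set_option autoImplicit false
open Cfsg

namespace Cfsg.Agent.S2227
open H12 H12.O5 Cfsg.Lie StSys Subgroup

theorem ps_spec : ∀ r < 72, ((tab chevE6).lf a0 r % 5 = 0 ↔ r ∈ Ps) ∧ (r ∈ Ps → runW (tab chevE6) l0 (gE6.ρ r) = r) := by rw [tabE6_eq]; decide +kernel

theorem main {k : Type*} [Field k] [IsAlgClosed k] [CharP k 2] {G₀ : Type*} [Group G₀] (m : FM chevE6 k 2 G₀) (e1 : m.q = 2) (e2 : m.P = twP sim_gE6)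
    (e3 : m.σ = stσ chk_gE6 (Or.inl rfl) (iterateFrobenius k 2 1)) :
    ∃ x : G₀, (∀ y, orderOf y = 5 → IsConj y x) ∧ Nonempty (centralizer {x} ≃* Multiplicative (ZMod 5) × alternatingGroup (Fin 8)) := by
  obtain ⟨ζ, hζ, hζ'⟩ := exists_prim (k := k) 2 (N := 5) (by decide)
  obtain ⟨ω, hω⟩ : ∃ ω : k, ω ^ 2 = ω + 1 := by
    obtain ⟨ω, h1, -⟩ := exists_prim (k := k) 2 (N := 3) (by decide)
    have h2 : (ω : k) ^ 3 = 1 := by rw [← Units.val_pow_eq_pow_val, ← h1, pow_orderOf_eq_one, Units.val_one]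
    have h3 : (ω : k) - 1 ≠ 0 := fun e => by simp [show ω = 1 from Units.ext (sub_eq_zero.1 e)] at h1
    exact ⟨ω, mul_left_cancel₀ h3 (by linear_combination h2 + (1 - (ω : k) ^ 2) * CharTwo.two_eq_zero (R := k))⟩
  obtain ⟨l, hl⟩ := exists_map_val (n := chevE6.rank) (l := l0) (by decide)
  have hn := (rep_nw (S := stS chevE6 k) l).inv
  obtain ⟨g, hg⟩ := m.exists_lang ((stS chevE6 k).nw l)⁻¹
  have hc := c0_mem hζ m e1 e2 hl
  have h5 : c0 ζ ^ 5 = 1 := lin_pow hζ _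
  have hΨ : ∀ r, r ∈ Psi {c0 ζ} ↔ r.1 ∈ Ps := fun r => by
    rw [← (ps_spec r r.2).1, show r ∈ Psi {c0 ζ} ↔ _ from forall_eq, tch_c0, ← zpow_zero ζ, zpow_iff hζ]; rfl
  have hz : ∀ z ∈ (actM (M := kˣ) (CA chevE6)).ker, z ^ 6 = 1 := fun z => smithE6.pow_eq_one (e := 6) (by decide)
  refine ⟨m.π (m.tor hn hg ⟨_, hc⟩), fun y hy => ?_, ?_⟩
  · obtain ⟨y, rfl⟩ := m.π_surjective y
    obtain ⟨z, h1, h2⟩ := m.π_eq_one.1 (show m.π (y ^ 5) = 1 by rw [map_pow, ← hy, pow_orderOf_eq_one])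
    have h3 : (y.1 ^ 6) ^ 5 = 1 := by rw [← pow_mul, mul_comm, pow_mul, ← coe_pow, h2, ← r3_st.hl_pow, hz z h1, r3_st.hl_one]
    obtain ⟨a, c, h4⟩ := exists_conj_H 2 (by decide) h3
    obtain ⟨v, hv⟩ := m.exists_mem_TF (x := y.1 ^ 6) (m.mem_Fix.1 (y ^ 6).2) h4
    have h6 : m.π (y ^ 6) = m.π y := by rw [map_pow, pow_succ, ← hy, pow_orderOf_eq_one, one_mul]
    obtain ⟨u, hu⟩ := exists_wT hζ m e1 e2 hζ' (c := c) (hi_st k (by rw [map_pow, map_one, R3.hprod_apply, ← h4, conj_pow, h3]; simp)) (by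
      rintro rfl
      rw [r3_st.hl_one, mul_inv_eq_one, mul_eq_left] at h4
      simp [← h6, show y ^ 6 = 1 from Subtype.ext h4] at hy) hv
    rw [← h6]
    exact m.π.map_isConj (m.isConj_of_conj (x := y ^ 6) (a := g * (stS _ k).nr u * a) h4 (by
      change _ = g * (stS _ k).hl (c0 ζ) * g⁻¹
      rw [← hu, ← r3_st.rep_conj_hl (rep_nr u), ← h4, coe_pow]; group))
  obtain ⟨f, hf⟩ := exists_A8 hω
  have hx : ∀ r ∈ Psi {c0 ζ}, ∀ t, ((stS chevE6 k).nw l)⁻¹ * m.σ ((stS _ k).x r t) * ((stS chevE6 k).nw l)⁻¹⁻¹ = (stS _ k).x r (t ^ 2) := fun r hr t => by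
    have : m.σ ((stS _ k).x r t) = (stS _ k).xN (gE6.ρ r) (t ^ 2) := by
      rw [e3]
      refine (stσ_x _ _ _ _ _).trans ((xN_val _ _ _).symm.trans ?_)
      rcases chk_gE6.ε_pm r with h | h <;> simp [h, CharTwo.neg_eq, (tf_spec.1 r r.2).1, frobenius_def]
    rw [this, inv_inv, nw_conj_xN _ _ (r := gE6.ρ r) (chk_gE6.emb r).2, hl, (ps_spec r r.2).2 ((hΨ r).1 hr), xN_val]
  have hK : (closure {y | ∃ r ∈ Psi {c0 ζ}, y = (stS chevE6 k).x r 1}).map r3_ad.lift = f.range := by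
    rw [hf, MonoidHom.map_closure]
    refine congrArg _ (Set.ext fun y => ⟨?_, ?_⟩)
    · rintro ⟨_, ⟨r, hr, rfl⟩, rfl⟩; exact ⟨r, (hΨ r).1 hr, by rw [R3.lift_x, xN_val]⟩
    · rintro ⟨r, hr, rfl⟩
      have : r < chevE6.nroots := (show ∀ r ∈ Ps, r < 72 by decide) r hr
      exact ⟨_, ⟨⟨r, this⟩, (hΨ _).2 hr, rfl⟩, by rw [R3.lift_x, xN_lt _ this]⟩
  have := alternatingGroup.isSimpleGroup (α := Fin 8) (by simp)
  have := Fact.mk Nat.prime_five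
  refine cent_equiv (alternatingGroup.center_eq_bot (by simp)) m.inj (orderOf_eq_prime ?_ fun e => ?_) (f := (MulAut.conj (r3_ad.lift g)).toMonoidHom.comp f)
    (fun e => ?_) (le_antisymm ?_ (sup_le (zpowers_le.2 (mem_map_of_mem _ (mem_centralizer_singleton_iff.2 rfl))) ?_))
  · rw [← map_pow, ← map_pow, show (⟨_, hc⟩ : m.TF _) ^ 5 = 1 from Subtype.ext h5, map_one, map_one]
  · have := tch_wt_of_ker ((m.π_tor_eq_one hn hg).1 e) ⟨39, by decide⟩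
    rw [tch_c0, ← zpow_zero ζ, zpow_iff hζ] at this
    exact absurd (tf_spec.2.2.2.2.symm.trans this) (by decide)
  · obtain ⟨a, ha⟩ := hK.le (mem_map_of_mem _ (subset_closure ⟨⟨60, by decide⟩, (hΨ _).2 (by decide), rfl⟩))
    have := e.le ⟨a, rfl⟩
    rw [mem_bot, MonoidHom.comp_apply, ha, R3.lift_x, MulEquiv.coe_toMonoidHom, EmbeddingLike.map_eq_one_iff, ← (adS _ k).x_zero ⟨60, by decide⟩] at this
    exact one_ne_zero (xR_inj (congrArg Units.val this))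
  · rintro _ ⟨y, hy, rfl⟩
    obtain ⟨y, rfl⟩ := m.π_surjective y
    have h1 := Commute.map (mem_centralizer_singleton_iff.1 hy) m.j
    rw [m.j_π, m.j_π, m.coe_tor] at h1
    have h2 := mem_CA_pow (c := c0 ζ) (x := g⁻¹ * y * g) hz (by simpa [mul_assoc] using h1.conj (r3_ad.lift g)⁻¹)
    rw [pow_succ, h5, one_mul] at h2
    obtain ⟨b, hb, y', h3, h4⟩ := m.cent_split hn hx h2 (by rw [hg, map_mul, map_mul, map_inv, m.mem_Fix.1 y.2]; group)
    obtain ⟨s, hs⟩ := tf_le hζ m e1 e2 hζ' hl hb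
    obtain ⟨a, ha⟩ := hK.le (mem_map_of_mem _ h3)
    rw [← cov_st.hl_mem_ker, r3_st.hl_mul, r3_st.hl_inv, r3_st.hl_pow, map_mul, map_inv, mul_inv_eq_one, map_pow] at hs
    refine Set.mem_of_eq_of_mem ?_ (mul_mem (mem_sup_left (npow_mem_zpowers _ s)) (mem_sup_right ⟨a, rfl⟩))
    rw [m.j_π, m.j_π, m.coe_tor, show y.1 = g * (g⁻¹ * y * g) * g⁻¹ by group, h4]
    simp only [map_mul, map_inv, hs, conj_pow]; simp [ha, mul_assoc]
  rintro _ ⟨a, rfl⟩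
  obtain ⟨y, h1, h2⟩ := hK.ge ⟨a, rfl⟩
  obtain ⟨h3, h4⟩ := (closure_le (MonoidHom.eqLocus (twE ((stS chevE6 k).nw l)⁻¹ m.σ) (MonoidHom.id _) ⊓ (stS _ k).CA {c0 ζ})).2 (by
    rintro _ ⟨r, hr, rfl⟩; exact ⟨(hx r hr 1).trans (by rw [one_pow]; rfl), gen_le_CA ((stS _ k).x_mem hr 1)⟩) h1
  have h6 : g * y * g⁻¹ ∈ m.Fix := by
    rw [m.mem_Fix, map_mul, map_mul, map_inv]
    conv_rhs => rw [← show twE _ m.σ y = y from h3, twE_apply, hg]
    group
  refine ⟨m.π ⟨_, h6⟩, mem_centralizer_singleton_iff.2 (by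
    rw [← map_mul, ← map_mul]
    refine congrArg _ (Subtype.ext ?_)
    simp [m.coe_tor, mul_assoc, mul_inv_eq_iff_eq_mul.1 (mem_stCA.1 h4 _ rfl), ← mul_assoc ((stS _ k).hl _)]), ?_⟩
  simp [m.j_π, h2]


/-- In the twisted group ²E₆(2) all elements of order 5 are conjugate, and the centralizer of an element of order 5 is isomorphic to the direct product of a cyclic group of order 5 with the alternating group of degree 8. -/
theorem result {K : Type*} [Field K] [Fintype K] (hK : Fintype.card K = 4) :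
    (∀ x y : ↥(Cfsg.Lie.twistedE6 K 2), orderOf x = 5 → orderOf y = 5 → IsConj x y) ∧
      ∀ x : ↥(Cfsg.Lie.twistedE6 K 2), orderOf x = 5 →
        Nonempty (↥(Subgroup.centralizer ({x} : Set ↥(Cfsg.Lie.twistedE6 K 2))) ≃* (Multiplicative (ZMod 5) × ↥(alternatingGroup (Fin 8)))) := by
  have hK' : Fintype.card K = (2 ^ 1) ^ 2 := hK
  have : CharP K 2 := charP_of_card_eq_prime_pow (show Fintype.card K = 2 ^ 2 from hK)
  suffices h : ∀ q, q = 2 ^ 1 → ∃ x : twistedE6 K q, (∀ y, orderOf y = 5 → IsConj y x) ∧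
      Nonempty (centralizer {x} ≃* Multiplicative (ZMod 5) × alternatingGroup (Fin 8)) by
    obtain ⟨x, h1, ⟨e⟩⟩ := h 2 rfl
    exact ⟨fun a b ha hb => (h1 a ha).trans (h1 b hb).symm, fun a ha => (cent_conj (h1 a ha)).map (·.trans e)⟩
  rintro _ rfl
  obtain ⟨m, e1, e2, -, e3⟩ := exists_fm6 (locFin_of_algebraic (F := K) (k := AlgebraicClosure K) 2) (algebraMap _ _) hK'
  exact main m e1 e2 e3

end Cfsg.Agent.S2227
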