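import Cfsg.Statements.S2231
import Cfsg.Agent.H10.SL2Sylow
import Cfsg.Agent.H10.PSL2Sub
import Cfsg.Agent.H27.Qd

set_option autoImplicit false
open Cfsg

namespace Cfsg.Agent.S2231

open H10 H27 Subgroup in

/-- Let p be an odd prime and K a finite field of characteristic p. Then Qd(p) (the natural semidirect product of an elementary abelian group of order p² by SL₂(p)) is not involved in the projective special linear group PSL₂(K). -/
theorem result {p : ℕ} [Fact p.Prime] (hp : p ≠ 2) {K : Type*} [Field K] [Fintype K] [CharP K p] : ¬ Cfsg.Involves ↥(Cfsg.qd p) (Matrix.ProjectiveSpecialLinearGroup (Fin 2) K) := by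
  classical
  intro c
  obtain ⟨T, -, h1, h2⟩ := (H4.involves_iff.1 c).exists_isPGroup isPGroup_qdS fun e => by
    have := congrArg Subtype.val (e.1.1 ⟨_, 1, 0, 0, rfl⟩ ⟨_, 0, 0, 1, rfl⟩)
    simp only [coe_mul, qu_mul, qe_eq_iff] at this
    simp at this
  have h := centralP'_of_injective p (ι_injective (K := K))
  obtain ⟨x, hx⟩ := h.exists_le_pAt h1
  refine h2 ⟨⟨fun a b => Subtype.ext ?_⟩⟩
  obtain ⟨k1, i, k2⟩ := h.mem_pAt.1 (hx a.2)
  obtain ⟨k3, j, k4⟩ := h.mem_pAt.1 (hx b.2)
  exact h.commute k2 k4 k1 k3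

end Cfsg.Agent.S2231
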