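import Cfsg.Statements.S2232
import Cfsg.Agent.H27.Qd
import Cfsg.Agent.H11.Unit

set_option autoImplicit false
open Cfsg

namespace Cfsg.Agent.S2232

open Module Subgroup H11 H11.PForm
open scoped commutatorElement

theorem step {F V : Type*} [Field F] [AddCommGroup V] [Module F V] [FiniteDimensional F V] {A B : Submodule F V} (h : A ≤ B)
    (hd : finrank F B ≤ finrank F A + 1) {x y : V ≃ₗ[F] V} (xa : ∀ v ∈ A, x v ∈ A) (ya : ∀ v ∈ A, y v ∈ A) (xb : ∀ v ∈ B, x v ∈ B)
    (yb : ∀ v ∈ B, y v ∈ B) {v : V} (hv : v ∈ B) : x (y v) - y (x v) ∈ A := by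
  by_cases e : v ∈ A
  · exact sub_mem (xa _ (ya _ e)) (ya _ (xa _ e))
  have k : A ⊔ F ∙ v = B := Submodule.eq_of_le_of_finrank_le (sup_le h ((Submodule.span_singleton_le_iff_mem _ _).2 hv))
    (hd.trans (Submodule.finrank_lt_finrank_of_lt (left_lt_sup.2 (mt (Submodule.span_singleton_le_iff_mem _ _).1 e))))
  obtain ⟨a, ha, _, hb, e1⟩ := Submodule.mem_sup.1 (k.ge (xb v hv))
  obtain ⟨c, rfl⟩ := Submodule.mem_span_singleton.1 hb
  obtain ⟨a', ha', _, hb, e2⟩ := Submodule.mem_sup.1 (k.ge (yb v hv))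
  obtain ⟨c', rfl⟩ := Submodule.mem_span_singleton.1 hb
  rw [← congrArg x e2, ← congrArg y e1, map_add, map_add, map_smul, map_smul, ← e1, ← e2]
  convert sub_mem (add_mem (xa _ ha') (A.smul_mem c' ha)) (add_mem (ya _ ha) (A.smul_mem c ha')) using 1
  module

theorem core {p : ℕ} [Fact p.Prime] (hp : p ≠ 2) {F V : Type*} [Field F] [Finite F] [CharP F p] [AddCommGroup V] [Module F V]
    [FiniteDimensional F V] {σ : F →+* F} {P : FParam σ} {S : PForm P V} (hS : S.Nondeg) (hV : finrank F V = 3) {G : Type*} [Group G]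
    (ρ : G →* S.Isom) {Q : Subgroup G} (hQ : IsPGroup p Q) (h1 : ¬ ∀ x ∈ Q, ρ x = 1) {x y : G} (hx : x ∈ normalizer (Q : Set G))
    (hy : y ∈ normalizer (Q : Set G)) : ρ ⁅x, y⁆ ^ p = 1 := by
  have := Module.finite_of_finite F (M := V)
  let W : Submodule F V := ⨅ g ∈ Q, LinearMap.eqLocus (ρ g).1.toLinearMap LinearMap.id
  have mW : ∀ v, v ∈ W ↔ ∀ g ∈ Q, (ρ g).1 v = v := fun v => by simp [W]
  have pp : ∀ {A : Submodule F V}, (∀ g ∈ normalizer (Q : Set G), ∀ v ∈ A, (ρ g).1 v ∈ A) →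
      ∀ g ∈ normalizer (Q : Set G), ∀ v ∈ S.perp A, (ρ g).1 v ∈ S.perp A := fun h g hg v hv u hu => by
    rw [isom_h_right, ← map_inv]; exact hv _ (h _ (inv_mem hg) u hu)
  have iW : ∀ g ∈ normalizer (Q : Set G), ∀ v ∈ W, (ρ g).1 v ∈ W := fun g hg v hv => (mW _).2 fun u hu => by
    conv_rhs => rw [← (mW v).1 hv _ ((mem_normalizer_iff''.1 hg u).1 hu)]
    rw [← isom_mul_apply, ← isom_mul_apply, ← map_mul, ← map_mul, mul_assoc, mul_inv_cancel_left]
  obtain ⟨e, e1, e0⟩ : ∃ e ∈ W ⊓ S.perp W, e ≠ 0 := by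
    let _ : MulAction Q (S.perp W) :=
      { smul := fun g x => ⟨(ρ g).1 x, pp iW g (le_normalizer g.2) x x.2⟩
        one_smul := fun x => Subtype.ext (by change (ρ 1).1 x = x; simp)
        mul_smul := fun g g' x => Subtype.ext (by change (ρ (g * g')).1 x = (ρ g).1 ((ρ g').1 x); simp) }
    have := Fintype.ofFinite F
    obtain ⟨b, hb, hb0⟩ := hQ.exists_fixed_point_of_prime_dvd_card_of_fixed_point (S.perp W) (a := 0) (by
      obtain ⟨k, -, hk⟩ := FiniteField.card F p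
      rw [natCard_eq_pow_finrank (K := F), Nat.card_eq_fintype_card, hk]
      refine (dvd_pow_self p k.ne_zero).trans (dvd_pow_self _ fun e => h1 fun g hg => isom_ext fun v => (mW v).1 ?_ g hg)
      have := hS.finrank_perp W
      rw [Submodule.eq_top_of_finrank_eq (S := W) (by omega)]
      trivial) fun g => Subtype.ext (by change (ρ g).1 0 = 0; simp)
    exact ⟨b, ⟨(mW _).2 fun g hg => congrArg Subtype.val (hb ⟨g, hg⟩), b.2⟩, fun e => hb0 (Subtype.ext e.symm)⟩
  set R := W ⊓ S.perp W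
  have iR : ∀ g ∈ normalizer (Q : Set G), ∀ v ∈ R, (ρ g).1 v ∈ R := fun g hg v hv => ⟨iW g hg v hv.1, pp iW g hg v hv.2⟩
  have r1 : R ≤ S.perp R := fun v hv u hu => hv.2 u hu.1
  have r2 := hS.finrank_perp R
  have r3 := Submodule.finrank_mono r1
  have r4 : 0 < finrank F R := finrank_pos_iff_exists_ne_zero.2 ⟨⟨e, e1⟩, fun h => e0 (congrArg Subtype.val h)⟩
  have key : ∀ {A B : Submodule F V}, A ≤ B → finrank F B ≤ finrank F A + 1 → (∀ g ∈ normalizer (Q : Set G), ∀ v ∈ A, (ρ g).1 v ∈ A) →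
      (∀ g ∈ normalizer (Q : Set G), ∀ v ∈ B, (ρ g).1 v ∈ B) → ∀ v ∈ B, ((ρ ⁅x, y⁆).1.toLinearMap - 1) v ∈ A := fun h hd a b v hv => by
    simpa [commutatorElement_def] using step h hd (a x hx) (a y hy) (b x hx) (b y hy) (b _ (inv_mem hx) _ (b _ (inv_mem hy) v hv))
  have h3 : ((ρ ⁅x, y⁆).1.toLinearMap - 1) ^ 3 = 0 := LinearMap.ext fun v => key bot_le (by simp; omega) (by simp) iR _
    (key r1 (by omega) iR (pp iR) _ (key le_top (by simp; omega) (pp iR) (fun _ _ _ _ => trivial) v trivial))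
  have : Nontrivial V := nontrivial_of_finrank_pos (R := F) (by omega)
  have : CharP (End F V) p := charP_of_injective_algebraMap (algebraMap F (End F V)).injective p
  have h4 := pow_eq_zero_of_le (show 3 ≤ p by have := (Fact.out : p.Prime).two_le; omega) h3
  rw [sub_pow_char_of_commute _ (Commute.one_right _), one_pow, sub_eq_zero] at h4
  exact Subtype.ext (LinearEquiv.toLinearMap_injective ((map_pow (LinearEquiv.automorphismGroup.toLinearMapMonoidHom) _ p).trans h4))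

/-- Let p be an odd prime, q a power of p and K a finite field with q² elements. Then Qd(p) (the natural semidirect product of an elementary abelian group of order p² by SL₂(p)) is not involved in the projective special unitary group PSU₃(q) realised over K. -/
theorem result {p : ℕ} [Fact p.Prime] (hp : p ≠ 2) {K : Type*} [Field K] [Fintype K] [CharP K p] (n : ℕ) (hn : 1 ≤ n) (hK : Fintype.card K = (p ^ n) ^ 2) : ¬ Cfsg.Involves ↥(Cfsg.qd p) (Cfsg.PSU 3 K (p ^ n)) := by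
  intro h
  obtain ⟨σ, hq, hσ, hne⟩ := H11.exists_frob hK
  obtain ⟨L, f, hf⟩ := H27.involves_iff.1 (H27.Inv.trans h (H27.involves_quotient _))
  let ρ := (stdUnit hσ hne (Fin 3)).SIsom.subtype.comp ((suEquiv hσ hne hq 3).toMonoidHom.comp L.subtype)
  have hρ : Function.Injective ρ := Subtype.val_injective.comp ((suEquiv hσ hne hq 3).injective.comp Subtype.val_injective)
  let N := (H27.qdV p).comap f
  obtain ⟨P⟩ : Nonempty (Sylow p N) := inferInstance
  have o2 : (-1 : ZMod p) ≠ 1 := fun e => hp ((Nat.prime_dvd_prime_iff_eq Fact.out Nat.prime_two).1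
    ((ZMod.natCast_eq_zero_iff 2 p).1 (by linear_combination -e)))
  have hP : P.1 ≠ ⊥ := P.ne_bot_of_dvd_card (by
    obtain ⟨z, hz⟩ := hf (H27.qu 0 1 0)
    have : orderOf (f z) = p := orderOf_eq_prime (by rw [hz, H27.qu_pow_center, H27.qe_one]; simp) (by
      rw [hz, H27.qe_one, Ne, H27.qe_eq_iff]; simp)
    exact (this ▸ orderOf_map_dvd f z).trans (Subgroup.orderOf_dvd_natCard N ⟨1, 0, hz⟩))
  have lift : ∀ a, ∃ x ∈ normalizer (P.1.map N.subtype : Set L), QuotientGroup.mk' (H27.qdV p) (f x) = QuotientGroup.mk' _ a := fun a => by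
    obtain ⟨a, rfl⟩ := hf a
    obtain ⟨x, hx, y, hy, rfl⟩ := mem_sup_of_normal_right.1 (P.normalizer_sup_eq_top.ge (mem_top a))
    exact ⟨x, hx, by rw [map_mul, map_mul, show QuotientGroup.mk' _ (f y) = 1 from (QuotientGroup.eq_one_iff _).2 hy, mul_one]⟩
  obtain ⟨s, t, hst⟩ := ZMod.sq_add_sq p (-1)
  obtain ⟨x, hx, e1⟩ := lift (H27.qe 0 1 (-1) 0 0 0 (by simp))
  obtain ⟨y, hy, e2⟩ := lift (H27.qe s t t (-s) 0 0 (by linear_combination -hst))
  have e := congrArg (fun x => QuotientGroup.mk' (H27.qdV p) (f x)) (hρ ((map_pow ρ _ p).trans ((core hp (stdUnit_nondeg hσ hne _) (by simp) ρ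
    (P.2.map _) (fun e => hP ((map_eq_bot_iff_of_injective _ N.subtype_injective).1 ((eq_bot_iff_forall _).2 fun x hx =>
      hρ ((e x hx).trans (map_one ρ).symm)))) hx hy).trans (map_one ρ).symm)))
  simp only [map_pow, map_commutatorElement, e1, e2, map_one] at e
  have d : ⁅H27.qe (0 : ZMod p) 1 (-1) 0 0 0 (by simp), H27.qe s t t (-s) 0 0 (by linear_combination -hst)⁆ = H27.qe (-1) 0 0 (-1) 0 0 (by simp) := by
    rw [commutatorElement_def, mul_inv_eq_iff_eq_mul, mul_inv_eq_iff_eq_mul, H27.qe_mul, H27.qe_mul, H27.qe_mul, H27.qe_eq_iff]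
    simp
  obtain ⟨k, hk⟩ := (Fact.out : p.Prime).odd_of_ne_two hp
  rw [← map_commutatorElement, d, ← map_pow, congrArg (HPow.hPow _) hk, pow_succ, pow_mul, sq, H27.qe_mul] at e
  simp only [mul_neg, mul_one, neg_neg, mul_zero, add_zero, zero_add, neg_zero, ← H27.qe_one, one_pow, one_mul] at e
  exact o2 (H27.qe_mem_qdV.1 ((QuotientGroup.eq_one_iff _).1 e)).1

end Cfsg.Agent.S2232
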