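import Cfsg.Statements.S2238
import Cfsg.Agent.H13.SzSub2

set_option autoImplicit false
open Cfsg

namespace Cfsg.Agent.S2238

/-- The partition of the Suzuki group: with q = 2^(2m+1), m ≥ 1, r = 2^m and the Suzuki group realised as the stabiliser in SL₄ of the Suzuki–Tits ovoid, every non-identity element lies in exactly one subgroup that is either a Sylow 2-subgroup or a cyclic subgroup of order q − 1, q + 2r + 1 or q − 2r + 1. -/
theorem result {F : Type*} [Field F] [Fintype F] {m : ℕ} (hm : 1 ≤ m) (hF : Fintype.card F = 2 ^ (2 * m + 1)) (g : ↥(Cfsg.Sz F m)) (hg : g ≠ 1) :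
    ∃! U : Subgroup ↥(Cfsg.Sz F m), ((∃ P : Sylow 2 ↥(Cfsg.Sz F m), U = (P : Subgroup ↥(Cfsg.Sz F m))) ∨
      (IsCyclic ↥U ∧ Nat.card ↥U ∈ ({2 ^ (2 * m + 1) - 1, 2 ^ (2 * m + 1) + 2 ^ (m + 1) + 1, 2 ^ (2 * m + 1) - 2 ^ (m + 1) + 1} : Set ℕ))) ∧ g ∈ U := by
  have : H13.Sz.IsSz F m := ⟨hm, hF⟩
  have hr := H13.Sz.r_le (F := F)
  have hodd : ∀ n ∈ ({2 ^ (2 * m + 1) - 1, 2 ^ (2 * m + 1) + 2 ^ (m + 1) + 1, 2 ^ (2 * m + 1) - 2 ^ (m + 1) + 1} : Set ℕ),
      Odd n := by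
    rw [hF] at hr
    have h1 : Even (2 ^ (2 * m + 1)) := Nat.even_pow.mpr ⟨even_two, by omega⟩
    have h2 : Even (2 ^ (m + 1)) := Nat.even_pow.mpr ⟨even_two, by omega⟩
    rintro n (rfl | rfl | rfl)
    · exact Nat.Even.sub_odd Nat.one_le_two_pow h1 odd_one
    · exact (h1.add h2).add_one
    · exact ((Nat.even_sub (by omega)).mpr (iff_of_true h1 h2)).add_one
  rcases H13.Sz.tor_or_conj_U hg with h | ⟨k, a, ha, ha1, rfl⟩
  · have hc := h.card_cases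
    rw [hF] at hc
    refine ⟨Subgroup.centralizer {g}, ⟨Or.inr ⟨h.isCyclic, hc⟩,
      Subgroup.mem_centralizer_singleton_iff.mpr rfl⟩, ?_⟩
    rintro V ⟨⟨P, rfl⟩ | ⟨h1, h2⟩, hV⟩
    · exfalso
      obtain ⟨k, hk⟩ := H13.Sz.sylow_eq_cj P
      rw [hk, H13.Sz.mem_cj] at hV
      exact (h.conj k⁻¹).not_mem_U (by simpa using hV)
    · have hle : V ≤ Subgroup.centralizer {g} := fun x hx =>
        Subgroup.mem_centralizer_singleton_iff.mpr
          (congrArg Subtype.val (h1.isMulCommutative.is_comm.comm (⟨x, hx⟩ : V) ⟨g, hV⟩))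
      apply Subgroup.eq_of_le_of_card_ge hle
      obtain ⟨c, hc'⟩ := Subgroup.card_dvd_of_le hle
      have h3 : Odd c := h.odd_card.of_dvd_nat (Dvd.intro_left _ hc'.symm)
      by_contra hlt
      have h4 : 3 ≤ c := by
        obtain ⟨d, rfl⟩ := h3
        rcases Nat.eq_zero_or_pos d with rfl | h
        · simp [hc'] at hlt
        · omega
      have h5 := Nat.mul_le_mul_left (Nat.card V) h4
      rw [← hc'] at h5
      have h8 := H13.Sz.eight_le_card (F := F)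
      rw [hF] at hr h8
      have h6 : 4 ≤ 2 ^ (m + 1) := Nat.pow_le_pow_right (n := 2) (i := 2) (by norm_num) (by omega)
      generalize 2 ^ (m + 1) = r at *
      generalize 2 ^ (2 * m + 1) = q at *
      simp only [Set.mem_insert_iff, Set.mem_singleton_iff] at h2
      rcases hc with hc | hc | hc <;> rcases h2 with h2 | h2 | h2 <;> omega
  · obtain ⟨P, hP⟩ := H13.Sz.exists_sylow_eq_cj k
    refine ⟨P, ⟨Or.inl ⟨P, rfl⟩, hP ▸ ⟨a, ha, rfl⟩⟩, ?_⟩
    rintro V ⟨⟨Q, rfl⟩ | ⟨h1, h2⟩, hV⟩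
    · obtain ⟨l, hl⟩ := H13.Sz.sylow_eq_cj Q
      rw [hl, H13.Sz.mem_cj] at hV
      have h1 : l⁻¹ * k ∈ H13.Sz.B F m := H13.Sz.mem_B_of_conj_mem_B ha ha1
        (H13.Sz.U_le_B (by simpa [mul_assoc] using hV))
      rw [hl, hP]
      ext x
      rw [H13.Sz.mem_cj, H13.Sz.mem_cj]
      rw [← H13.Sz.normalizer_U, Subgroup.mem_normalizer_iff] at h1
      rw [h1 (k⁻¹ * x * k)]
      simp [mul_assoc]
    · exact absurd (by rw [conj_pow, H13.Sz.pow_four_of_mem_U ha]; simp) (H13.Sz.Tor.pow_four_ne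
        ⟨hg, (hodd _ h2).of_dvd_nat (Subgroup.orderOf_dvd_natCard _ hV)⟩)

end Cfsg.Agent.S2238
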