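import Cfsg.Statements.S2240
import Cfsg.Agent.H13.SzSub2

set_option autoImplicit false
open Cfsg

namespace Cfsg.Agent.S2240

open H13 H13.Sz in
theorem card_eq {F : Type*} [Field F] [Fintype F] {m : ℕ} [IsSz F m] {E : Subgroup (Cfsg.Sz F m)}
    (hE : ∀ x ∈ E, ∃ b, x = u m 0 b) {c : F} (hc : c ≠ 0) (K : Subfield F)
    (hK : ∀ x, x ∈ K ↔ u m 0 (x * c) ∈ E) : Nat.card K = Nat.card E := by
  refine Nat.card_eq_of_bijective (fun x => ⟨u m 0 (x * c), (hK x).mp x.2⟩) ⟨?_, ?_⟩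
  · intro x y hxy
    exact Subtype.ext (mul_right_cancel₀ hc (u_inj.mp (congrArg Subtype.val hxy)).2)
  · rintro ⟨x, hx⟩
    obtain ⟨b, rfl⟩ := hE x hx
    exact ⟨⟨b / c, by rwa [hK, div_mul_cancel₀ _ hc]⟩, by simp [div_mul_cancel₀ _ hc]⟩

open H13 H13.Sz in
theorem aux {F : Type*} [Field F] [Fintype F] {m : ℕ} [IsSz F m] {E : Subgroup (Cfsg.Sz F m)}
    (hE : ∀ x ∈ E, ∃ b, x = u m 0 b) (h0 : E ≠ ⊥)
    (hTI : ∀ x, E ⊓ cj x E ≠ ⊥ → x ∈ Subgroup.normalizer (E : Set (Cfsg.Sz F m))) :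
    ∃ K : Subfield F, Nat.card K = Nat.card E := by
  obtain ⟨⟨y, hy⟩, hy1⟩ := Subgroup.ne_bot_iff_exists_ne_one.mp h0
  obtain ⟨c, rfl⟩ := hE y hy
  have hc : c ≠ 0 := by
    rintro rfl
    exact hy1 (Subtype.ext u_zero)
  have hmul : ∀ x b : F, u m 0 (x * c) ∈ E → u m 0 b ∈ E → u m 0 (x * b) ∈ E := by
    intro x b hx hb
    by_cases hx0 : x = 0
    · simp [hx0]
    obtain ⟨s, hs⟩ := Finite.surjective_of_injective (th_mul_sq_injective (F := F) (m := m)) x
    simp only at hs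
    have hs0 : s ≠ 0 := by
      rintro rfl
      exact hx0 (by simp [← hs])
    have key : ∀ b, h m (Units.mk0 s hs0) * u m 0 b * (h m (Units.mk0 s hs0))⁻¹ = u m 0 (x * b) := by
      intro b
      rw [h_conj_u, Units.val_mk0, hs, mul_zero]
    have h1 := hTI (h m (Units.mk0 s hs0)) (Subgroup.ne_bot_iff_exists_ne_one.mpr
      ⟨⟨u m 0 (x * c), hx, _, hy, key c⟩,
        fun h => u_zero_ne_one (mul_ne_zero hx0 hc) (congrArg Subtype.val h)⟩)
    rw [← key]
    exact (Subgroup.mem_normalizer_iff.mp h1 _).mp hb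
  refine ⟨{ carrier := {x | u m 0 (x * c) ∈ E}
            mul_mem' := fun {x y} hx hy => by
              have := hmul x _ hx hy
              rwa [← mul_assoc] at this
            one_mem' := by simpa using hy
            add_mem' := fun {x y} hx hy => by
              have := E.mul_mem hx hy
              rwa [u_zero_mul, ← add_mul] at this
            zero_mem' := by simp
            neg_mem' := fun {x} hx => by rwa [CharTwo.neg_eq]
            inv_mem' := fun x hx => by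
              by_cases hx0 : x = 0
              · simp [hx0]
              refine mem_of_injective (K := {b | u m 0 b ∈ E}) (f := fun b => x * b)
                (mul_right_injective₀ hx0) (fun b hb => hmul x b hx hb) ?_
              simpa [hx0] using hy }, card_eq hE hc _ fun x => Iff.rfl⟩


/-- Elementary abelian TI-subgroups of the Suzuki group: let q = 2^(2m+1) with m ≥ 1, the group realised as the stabiliser in SL₄ of the Suzuki–Tits ovoid, and n ≥ 2. There is an elementary abelian 2-subgroup E of order 2^n that is a TI-subgroup (every conjugate of E meeting E nontrivially is E itself) if and only if n divides 2m + 1. -/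
theorem result {F : Type*} [Field F] [Fintype F] {m : ℕ} (hm : 1 ≤ m) (hF : Fintype.card F = 2 ^ (2 * m + 1)) (n : ℕ) (hn : 2 ≤ n) :
    (∃ E : Subgroup ↥(Cfsg.Sz F m), Cfsg.IsElementaryAbelian 2 E ∧ Nat.card ↥E = 2 ^ n ∧
      ∀ x : ↥(Cfsg.Sz F m), E ⊓ E.map (MulAut.conj x).toMonoidHom ≠ ⊥ → x ∈ Subgroup.normalizer (E : Set ↥(Cfsg.Sz F m))) ↔ n ∣ 2 * m + 1 := by
  have : H13.Sz.IsSz F m := ⟨hm, hF⟩
  have : Fact (Nat.Prime 2) := ⟨Nat.prime_two⟩
  constructor
  · rintro ⟨E, ⟨-, h1⟩, h2, h3⟩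
    obtain ⟨g, hg⟩ := H13.Sz.exists_cj_le_U (Q := E) (IsPGroup.of_card h2)
    obtain ⟨K, hK⟩ := aux (E := H13.Sz.cj g E) (by
      rintro _ ⟨x, hx, rfl⟩
      refine H13.Sz.exists_eq_u_zero (H13.Sz.U_le_B (hg ⟨x, hx, rfl⟩)) ?_
      rw [← map_mul, ← sq, h1 x hx, map_one]) (by
      intro h
      have := H13.Sz.card_cj g E
      rw [h, h2, Subgroup.card_bot] at this
      have := Nat.one_lt_two_pow (n := n) (by omega)
      omega) (by
      intro x hx
      rw [H13.Sz.normalizer_cj, H13.Sz.mem_cj]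
      apply h3
      intro h4
      apply hx
      have : H13.Sz.cj x (H13.Sz.cj g E) = H13.Sz.cj g (H13.Sz.cj (g⁻¹ * x * g) E) := by
        rw [H13.Sz.cj_cj, H13.Sz.cj_cj]
        congr 1
        group
      rw [this, ← Subgroup.map_inf _ _ _ (MulAut.conj g).injective, h4, Subgroup.map_bot])
    have := Fintype.ofFinite K
    have h4 := Module.card_eq_pow_finrank (K := K) (V := F)
    rw [← Nat.card_eq_fintype_card (α := K), hK, H13.Sz.card_cj, h2, hF, ← pow_mul] at h4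
    exact ⟨_, Nat.pow_right_injective le_rfl h4⟩
  · intro hdiv
    letI := ZMod.algebra F 2
    have h1 := Module.card_eq_pow_finrank (K := ZMod 2) (V := F)
    rw [ZMod.card, hF] at h1
    obtain ⟨φ⟩ := FiniteField.nonempty_algHom_of_finrank_dvd (F := ZMod 2) (K := GaloisField 2 n)
      (L := F) (by
      rw [← Nat.pow_right_injective le_rfl h1, GaloisField.finrank 2 (by omega)]
      exact hdiv)
    let K := φ.toRingHom.fieldRange
    have hK : Nat.card K = 2 ^ n := by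
      rw [← Nat.card_congr φ.toRingHom.rangeRestrictFieldEquiv.toEquiv, GaloisField.card 2 n (by omega)]
    let E : Subgroup (Cfsg.Sz F m) :=
      { carrier := {x | ∃ b ∈ K, x = H13.Sz.u m 0 b}
        mul_mem' := by
          rintro _ _ ⟨b, hb, rfl⟩ ⟨c, hc, rfl⟩
          exact ⟨b + c, K.add_mem hb hc, H13.Sz.u_zero_mul b c⟩
        one_mem' := ⟨0, K.zero_mem, H13.Sz.u_zero.symm⟩
        inv_mem' := by
          rintro _ ⟨b, hb, rfl⟩
          exact ⟨b, hb, inv_eq_of_mul_eq_one_right (H13.Sz.u_zero_mul_self b)⟩ }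
    refine ⟨E, ⟨⟨⟨?_⟩⟩, ?_⟩, ?_, ?_⟩
    · rintro ⟨_, b, hb, rfl⟩ ⟨_, c, hc, rfl⟩
      exact Subtype.ext (H13.Sz.u_comm_iff.mpr (by simp))
    · rintro _ ⟨b, hb, rfl⟩
      rw [sq, H13.Sz.u_zero_mul_self]
    · rw [← hK]
      refine (card_eq (E := E) (fun x ⟨b, _, h⟩ => ⟨b, h⟩) one_ne_zero K fun x => ⟨fun h => ⟨x, h, by simp⟩, ?_⟩).symm
      rintro ⟨b, hb, h⟩
      rw [mul_one, H13.Sz.u_inj] at h
      exact h.2 ▸ hb
    · intro x hx
      obtain ⟨⟨_, ⟨b, hb, rfl⟩, _, ⟨c, hc, rfl⟩, h2⟩, h3⟩ := Subgroup.ne_bot_iff_exists_ne_one.mp hx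
      have h4 : x * H13.Sz.u m 0 c * x⁻¹ = H13.Sz.u m 0 b := h2
      have hb0 : b ≠ 0 := by
        rintro rfl
        exact h3 (Subtype.ext H13.Sz.u_zero)
      have hc0 : c ≠ 0 := by
        rintro rfl
        exact H13.Sz.u_zero_ne_one hb0 (by simpa using h4.symm)
      obtain ⟨a, a', s, rfl⟩ := H13.Sz.mem_B_iff.mp (H13.Sz.mem_B_of_conj_mem_B (H13.Sz.u_mem_U _ _)
        (H13.Sz.u_zero_ne_one hc0) (h4 ▸ H13.Sz.U_le_B (H13.Sz.u_mem_U _ _)))
      rw [H13.Sz.uh_conj_u_zero, H13.Sz.u_inj] at h4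
      have h5 : H13.Sz.th m (s : F) * (s : F) ^ 2 ∈ K := by
        rw [eq_div_of_mul_eq hc0 h4.2]
        exact K.div_mem hb hc
      apply Subgroup.mem_normalizer_fintype
      rintro _ ⟨d, hd, rfl⟩
      exact ⟨_, K.mul_mem h5 hd, H13.Sz.uh_conj_u_zero a a' s d⟩

end Cfsg.Agent.S2240
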