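import Cfsg.Statements.S2244
import Cfsg.Agent.H12.WC

set_option autoImplicit false
open Cfsg

namespace Cfsg.Agent.S2244
open H12 H13 Cfsg.Lie

/-- Weakly closed unipotent subgroups of Chevalley groups: let G be the Chevalley group of type G₂, B₂, D₄, F₄, E₆, E₇ or E₈ over a finite field F (the matrix group generated by the root elements), with |F| ≠ 2, and |F| ≠ 3 as well for the types G₂, B₂, D₄, F₄. Let U be the subgroup generated by the positive root subgroups. If X ≤ U is weakly closed in U with respect to G (every G-conjugate of X lying in U equals X), then X is the unipotent radical U_J of a standard parabolic subgroup for some set J of fundamental roots. -/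
theorem result {F : Type*} [Field F] [Fintype F] (D : Cfsg.Lie.ChevalleyDatum) (hD : D ∈ [Cfsg.Lie.chevG2, Cfsg.Lie.chevB2, Cfsg.Lie.chevD4, Cfsg.Lie.chevF4, Cfsg.Lie.chevE6, Cfsg.Lie.chevE7, Cfsg.Lie.chevE8])
    (h2 : Fintype.card F ≠ 2) (h3 : D ∈ [Cfsg.Lie.chevG2, Cfsg.Lie.chevB2, Cfsg.Lie.chevD4, Cfsg.Lie.chevF4] → Fintype.card F ≠ 3)
    (X : Subgroup (GL D.Idx F)) (hXU : X ≤ D.posUnipotent F)
    (hwc : ∀ g ∈ D.group F, X.map (MulAut.conj g).toMonoidHom ≤ D.posUnipotent F → X.map (MulAut.conj g).toMonoidHom = X) :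
    ∃ J : Set ℕ, (∀ j ∈ J, j < D.rank) ∧ X = D.unipotentRadical F J := by
  obtain ⟨G⟩ := good_of_mem hD
  have key {ms ns : List ℤ} (hw : WcT (tab D) ms ns) (hm : ∀ m ∈ ms, ∃ l : Fˣ, l ^ m ≠ 1) (hn : ∀ n ∈ ns, (n : F) ≠ 0) :
      ∃ J : Set ℕ, (∀ j ∈ J, j < D.rank) ∧ X = D.unipotentRadical F J := by
    rw [posUnipotent_eq] at hXU hwc
    obtain ⟨J, hJ⟩ := cov_ad.weakly_closed hw hm hn hXU fun g hg h x hx =>
      hwc g (group_eq (D := D) (F := F) ▸ hg) (by rintro _ ⟨y, hy, rfl⟩; exact h y hy) ▸ ⟨x, hx, rfl⟩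
    exact ⟨Fin.val '' J, by rintro _ ⟨j, -, rfl⟩; exact j.2, by rw [unipotentRadical_eq, Set.preimage_image_eq _ Fin.val_injective, hJ]⟩
  classical
  obtain ⟨g, hg⟩ := IsCyclic.exists_ofOrder_eq_natCard (α := Fˣ)
  rw [Nat.card_eq_fintype_card, Fintype.card_units] at hg
  have hk (m : ℤ) (h : ¬ ((Fintype.card F - 1 : ℕ) : ℤ) ∣ m) : ∃ l : Fˣ, l ^ m ≠ 1 := ⟨g, by rwa [Ne, ← orderOf_dvd_iff_zpow_eq_one, hg]⟩
  have h0 := Fintype.one_lt_card (α := F)
  have h1 : ∀ m ∈ [(1 : ℤ), -1], ∃ l : Fˣ, l ^ m ≠ 1 := by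
    simp only [List.forall_mem_cons]; refine ⟨hk _ ?_, hk _ ?_, by simp⟩ <;> simp [Int.natCast_dvd] <;> omega
  have h4 (h : Fintype.card F ≠ 3) : ∀ m ∈ [(1 : ℤ), -1, 2, -2], ∃ l : Fˣ, l ^ m ≠ 1 := by
    simp only [List.forall_mem_cons]
    refine ⟨hk _ ?_, hk _ ?_, hk _ ?_, hk _ ?_, by simp⟩ <;> simp only [Int.natCast_dvd] <;> exact fun h => by have := Nat.le_of_dvd (by decide) h; simp at this; omega
  have h5 : ∀ n ∈ [(1 : ℤ), -1], (n : F) ≠ 0 := by simp
  simp only [List.mem_cons, List.not_mem_nil, or_false] at hD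
  rcases hD with rfl | rfl | rfl | rfl | rfl | rfl | rfl
  · by_cases h6 : (3 : F) = 0
    · refine key wcG2.2 (fun m hm => ?_) h5
      have h7 : 3 ∣ Fintype.card F := (prime_dvd_char_iff_dvd_card 3).1 ((ringChar.spec F 3).1 h6 |> fun h => by
        rcases (Nat.dvd_prime Nat.prime_three).1 h with h | h
        · exact (CharP.ringChar_ne_one h).elim
        · rw [h])
      by_cases h8 : m ∈ [1, -1, 2, -2]
      · exact h4 (h3 (by simp)) m h8
      refine hk m fun h => ?_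
      have h9 : m.natAbs = 3 := by simp at hm h8; omega
      have := h3 (by simp)
      rw [Int.natCast_dvd, h9] at h
      have := Nat.le_of_dvd (by decide) h
      rcases (Nat.dvd_prime Nat.prime_three).1 h with h | h <;> omega
    · exact key wcG2.1 (h4 (h3 (by simp))) (by simpa using h6)
  exacts [key wcB2 (h4 (h3 (by simp))) h5, key wcD4 (h4 (h3 (by simp))) h5, key wcF4 (h4 (h3 (by simp))) h5, key wcE6 h1 h5, key wcE7 h1 h5, key wcE8 h1 h5]

end Cfsg.Agent.S2244
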