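import Cfsg.Statements.S2251
import Cfsg.Agent.H13.SzSub2

set_option autoImplicit false
open Cfsg

namespace Cfsg.Agent.S2251

open H13 H13.Sz in
theorem galois (k : ℕ) (K : Type*) [Field K] [Fintype K] [hK : IsSz K k] :
    ∃ (L : Type) (_ : Field L) (_ : Fintype L) (_ : IsSz L k), Nonempty (L ≃+* K) := by
  have : Fact (Nat.Prime 2) := ⟨Nat.prime_two⟩
  have : Fintype (GaloisField 2 (2 * k + 1)) := Fintype.ofFinite _
  have h : Fintype.card (GaloisField 2 (2 * k + 1)) = 2 ^ (2 * k + 1) := by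
    rw [← Nat.card_eq_fintype_card, GaloisField.card 2 _ (by omega)]
  exact ⟨GaloisField 2 (2 * k + 1), inferInstance, inferInstance, ⟨hK.hm, h⟩,
    ⟨FiniteField.ringEquivOfCardEq (h.trans hK.card.symm)⟩⟩


/-- The subgroups of the Suzuki group: with q = 2^(2m+1), m ≥ 1, r = 2^m and the group realised as the stabiliser in SL₄ of the Suzuki–Tits ovoid, every proper subgroup is contained in the normalizer of a Sylow 2-subgroup, or in the normalizer of a cyclic subgroup of order q − 1, q + 2r + 1 or q − 2r + 1, or in a subgroup isomorphic to a smaller Suzuki group Sz(s) with s = 2^(2k+1) ≥ 8 and 2k+1 a proper divisor of 2m+1. -/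
theorem result {F : Type*} [Field F] [Fintype F] {m : ℕ} (hm : 1 ≤ m) (hF : Fintype.card F = 2 ^ (2 * m + 1)) (M : Subgroup ↥(Cfsg.Sz F m)) (hM : M ≠ ⊤) :
    (∃ P : Sylow 2 ↥(Cfsg.Sz F m), M ≤ Subgroup.normalizer ((P : Subgroup ↥(Cfsg.Sz F m)) : Set ↥(Cfsg.Sz F m))) ∨
    (∃ U : Subgroup ↥(Cfsg.Sz F m), IsCyclic ↥U ∧ Nat.card ↥U ∈ ({2 ^ (2 * m + 1) - 1, 2 ^ (2 * m + 1) + 2 ^ (m + 1) + 1, 2 ^ (2 * m + 1) - 2 ^ (m + 1) + 1} : Set ℕ) ∧
      M ≤ Subgroup.normalizer (U : Set ↥(Cfsg.Sz F m))) ∨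
    (∃ (K : Type) (_ : Field K) (_ : Fintype K) (k : ℕ), 1 ≤ k ∧ k < m ∧ Fintype.card K = 2 ^ (2 * k + 1) ∧ 2 * k + 1 ∣ 2 * m + 1 ∧
      ∃ S : Subgroup ↥(Cfsg.Sz F m), Nonempty (↥S ≃* ↥(Cfsg.Sz K k)) ∧ M ≤ S) := by
  have : H13.Sz.IsSz F m := ⟨hm, hF⟩
  have key : ∀ p : Cfsg.suzukiOvoid F m, M ≤ MulAction.stabilizer _ p →
      ∃ P : Sylow 2 ↥(Cfsg.Sz F m), M ≤ Subgroup.normalizer ((P : Subgroup ↥(Cfsg.Sz F m)) : Set ↥(Cfsg.Sz F m)) := by
    intro p hp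
    obtain ⟨P, hP⟩ := H13.Sz.exists_sylow_normalizer_eq p
    exact ⟨P, hP ▸ hp⟩
  by_cases hS : Group.IsSolvable M
  · rcases H13.Sz.local_of_isSolvable hS with ⟨p, hp⟩ | ⟨z, -, hz, h⟩
    · exact Or.inl (key p hp)
    · refine Or.inr (Or.inl ⟨_, hz.isCyclic, ?_, h⟩)
      have := hz.card_cases
      rwa [hF] at this
  · obtain ⟨g, K, _, k, hK, h⟩ := H13.Sz.exists_cj_eq_of_not_isSolvable hS
    obtain ⟨L, _, _, hL, ⟨e⟩⟩ := galois k K
    refine Or.inr (Or.inr ⟨L, inferInstance, inferInstance, k, hK.hm, ?_, hL.card,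
      H13.Sz.dvd_of_hom K.subtype, M, ⟨?_⟩, le_rfl⟩)
    · by_contra hlt
      exact hM (H13.Sz.cj_eq_top (h.trans (H13.Sz.range_eq_top_of_le _ (by omega))))
    · refine (H13.Sz.cjEquiv g M).trans ((MulEquiv.subgroupCongr h).trans
        ((MonoidHom.ofInjective (H13.Sz.szMap_injective _)).symm.trans
          (MulEquiv.ofBijective (H13.Sz.szMap k k (e : L →+* K))
            ⟨H13.Sz.szMap_injective _, H13.Sz.szMap_surjective e.surjective⟩).symm))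

end Cfsg.Agent.S2251
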