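import Cfsg.Statements.S2253
import Cfsg.Agent.H23.Nil1

set_option autoImplicit false
open Cfsg

namespace Cfsg.Agent.S2253

open H23 H18

/-- Let n be a natural number not congruent to 3 modulo 4. Then every nilpotent subgroup of the symmetric group on n letters has order at most the order of a Sylow 2-subgroup (so the nilpotent subgroups of largest order are exactly the Sylow 2-subgroups). -/
theorem result  (n : ℕ) (hn : n % 4 ≠ 3)
    (N : Subgroup (Equiv.Perm (Fin n))) (hN : Group.IsNilpotent N)
    (P : Sylow 2 (Equiv.Perm (Fin n))) :
    Nat.card N ≤ Nat.card P := by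
  rw [card_syl_perm]
  refine (nil_le_perm hN).elim (fun ⟨c, h1, K, h2, h3, _, h4⟩ => ?_) id
  have a1 := card_le_tw h2 h3
  have a2 := h1.card_support ▸ c.support.card_le_univ
  rw [Set.ncard_coe_finset, h1.card_support, Fintype.card_fin] at *
  have := (tw_three (n - 3)).2 (by omega)
  rw [Nat.sub_add_cancel a2] at this
  omega

end Cfsg.Agent.S2253
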