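import Cfsg.Statements.S2254
import Cfsg.Agent.H23.Nil1

set_option autoImplicit false
open Cfsg

namespace Cfsg.Agent.S2254

open H23 H18

/-- Let n ≡ 3 (mod 4). Then every nilpotent subgroup of the symmetric group on n letters has order at most 3 times the order of a Sylow 2-subgroup of the symmetric group on n − 3 letters; the bound is attained by a nilpotent subgroup isomorphic to the direct product of such a Sylow 2-subgroup with a cyclic group of order 3; and any two nilpotent subgroups attaining the bound are conjugate. -/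
theorem result  (n : ℕ) (hn : n % 4 = 3)
    (P : Sylow 2 (Equiv.Perm (Fin (n - 3)))) :
    (∀ N : Subgroup (Equiv.Perm (Fin n)), Group.IsNilpotent N → Nat.card N ≤ 3 * Nat.card P) ∧
    (∃ M : Subgroup (Equiv.Perm (Fin n)), Group.IsNilpotent M ∧ Nat.card M = 3 * Nat.card P ∧
      Nonempty (M ≃* (↥(P : Subgroup (Equiv.Perm (Fin (n - 3)))) × Multiplicative (ZMod 3)))) ∧
    (∀ N₁ N₂ : Subgroup (Equiv.Perm (Fin n)), Group.IsNilpotent N₁ → Group.IsNilpotent N₂ →
      Nat.card N₁ = 3 * Nat.card P → Nat.card N₂ = 3 * Nat.card P →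
      ∃ g : Equiv.Perm (Fin n), N₂ = N₁.map (MulAut.conj g).toMonoidHom) := by
  have a0 := card_syl_perm P
  have a1 := (tw_three (n - 3)).1 (by omega)
  have a2 := tw_pos (n - 3)
  rw [Fintype.card_fin] at a0
  rw [Nat.sub_add_cancel (by omega)] at a1
  have a3 : ∀ {c : Equiv.Perm (Fin n)}, c.IsThreeCycle → ∀ L ≤ fx (c.support : Set (Fin n)), PiGrp {2} L →
      Nat.card L ≤ tw (n - 3) := fun h L h1 h2 => by
    simpa [h.card_support] using card_le_tw h1 h2
  refine ⟨fun N hN => ?_, ?_, fun N₁ N₂ h1 h2 h3 h4 => ?_⟩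
  · rcases nil_le_perm hN with ⟨c, h1, K, h2, h3, -, h4⟩ | h
    · have := a3 h1 K h2 h3
      omega
    · rw [Fintype.card_fin] at h; omega
  · obtain ⟨ψ, h1, -⟩ := exists_prod_three (Ω := Fin n) (P : Subgroup (Equiv.Perm (Fin (n - 3)))).subtype
      (Subgroup.subtype_injective _) (by simp; omega)
    haveI := P.2.isNilpotent
    exact ⟨ψ.range, Group.nilpotent_of_mulEquiv (MonoidHom.ofInjective h1), by
      rw [← Nat.card_congr (MonoidHom.ofInjective h1).toEquiv, Nat.card_prod, mul_comm]; simp,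
      ⟨(MonoidHom.ofInjective h1).symm⟩⟩
  · obtain ⟨c, b1, K, b2, b3, rfl, b4⟩ := (nil_le_perm h1).resolve_right (by rw [Fintype.card_fin]; omega)
    obtain ⟨d, c1, L, c2, c3, rfl, c4⟩ := (nil_le_perm h2).resolve_right (by rw [Fintype.card_fin]; omega)
    obtain ⟨σ, e⟩ := isConj_iff.1 (Equiv.Perm.isConj_iff_cycleType_eq.2 (b1.trans c1.symm))
    obtain ⟨g, -, hg⟩ := conj_of_max (A := ⊤) (Subgroup.mem_top σ) e (le_inf b2 le_top) (le_inf c2 le_top) b3 c3
      (by omega) fun M d1 d2 => (a3 c1 M (d1.trans inf_le_left) d2).trans (by omega)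
    exact ⟨g, hg⟩

end Cfsg.Agent.S2254
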