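import Cfsg.Statements.S2255
import Cfsg.Agent.H23.Nil1

set_option autoImplicit false
open Cfsg

namespace Cfsg.Agent.S2255

open H23 H18

/-- Let n be a natural number not congruent to 3 modulo 4, with n ∉ {5, 6, 9}. Then every nilpotent subgroup of the alternating group on n letters has order at most the order of a Sylow 2-subgroup of the alternating group (so the nilpotent subgroups of largest order are exactly the Sylow 2-subgroups). -/
theorem result  (n : ℕ) (hn : n % 4 ≠ 3)
    (h5 : n ≠ 5) (h6 : n ≠ 6) (h9 : n ≠ 9)
    (N : Subgroup (alternatingGroup (Fin n))) (hN : Group.IsNilpotent N)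
    (P : Sylow 2 (alternatingGroup (Fin n))) :
    Nat.card N ≤ Nat.card P := by
  by_cases h2 : n < 2
  · haveI : Subsingleton (Fin n) := Fin.subsingleton_iff_le_one.2 (by omega)
    rw [Subsingleton.elim N P]
  have a0 := card_syl_alt (by simp; omega) P
  rw [← card_map_subtype]
  rcases nil_le_alt (nil_map_subtype.2 hN) (Subgroup.map_subtype_le _) (by simp; omega) (by simpa) (by simpa) (by simpa)
    with ⟨c, h1, K, h2, h3, h4, h7⟩ | h | h
  · have a2 := h1.card_support ▸ c.support.card_le_univ
    have a3 := card_le_tw h2 h3
    have a4 := card_le_tw_alt h2 h3 ((le_sup_left.trans h4.ge).trans (Subgroup.map_subtype_le _))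
    rw [Set.ncard_coe_finset, h1.card_support, Fintype.card_fin] at *
    have := (tw_three (n - 3)).2 (by omega)
    rw [Nat.sub_add_cancel a2] at this
    by_cases e : n = 4
    · subst e
      have := le_tw (tw_small 4 (by omega))
      simp [tw] at a3
      omega
    · have := a4 (by omega)
      omega
  · omega
  · rw [Fintype.card_fin] at h; omega

end Cfsg.Agent.S2255
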