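import Cfsg.Statements.S2256
import Cfsg.Agent.H23.Nil1

set_option autoImplicit false
open Cfsg

namespace Cfsg.Agent.S2256

open H23 H18

/-- Let n ≡ 3 (mod 4) with n ≥ 7. Then every nilpotent subgroup of the alternating group on n letters has order at most 3 times the order of a Sylow 2-subgroup of the alternating group on n − 3 letters; the bound is attained by a nilpotent subgroup isomorphic to the direct product of such a Sylow 2-subgroup with a cyclic group of order 3; and any two nilpotent subgroups of the alternating group attaining the bound are conjugate in it. -/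
theorem result  (n : ℕ) (hn : n % 4 = 3) (h7 : 7 ≤ n)
    (P : Sylow 2 (alternatingGroup (Fin (n - 3)))) :
    (∀ N : Subgroup (alternatingGroup (Fin n)), Group.IsNilpotent N → Nat.card N ≤ 3 * Nat.card P) ∧
    (∃ M : Subgroup (alternatingGroup (Fin n)), Group.IsNilpotent M ∧ Nat.card M = 3 * Nat.card P ∧
      Nonempty (M ≃* (↥(P : Subgroup (alternatingGroup (Fin (n - 3)))) × Multiplicative (ZMod 3)))) ∧
    (∀ N₁ N₂ : Subgroup (alternatingGroup (Fin n)), Group.IsNilpotent N₁ → Group.IsNilpotent N₂ →
      Nat.card N₁ = 3 * Nat.card P → Nat.card N₂ = 3 * Nat.card P →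
      ∃ g : alternatingGroup (Fin n), N₂ = N₁.map (MulAut.conj g).toMonoidHom) := by
  have a0 := card_syl_alt (by simp; omega) P
  have a1 := (tw_three (n - 3)).1 (by omega)
  have a2 := tw_pos (n - 3)
  have a5 := le_tw (tw_small 4 (by omega))
  rw [Fintype.card_fin] at a0
  rw [Nat.sub_add_cancel (by omega)] at a1
  have a3 : ∀ {c : Equiv.Perm (Fin n)}, c.IsThreeCycle → ∀ L ≤ fx (c.support : Set (Fin n)) ⊓ alternatingGroup _,
      PiGrp {2} L → Nat.card L ≤ Nat.card P := fun h L h1 h2 => by
    have := card_le_tw_alt (h1.trans inf_le_left) h2 (h1.trans inf_le_right) (by simp [h.card_support]; omega)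
    rw [Set.ncard_coe_finset, h.card_support, Fintype.card_fin] at this
    omega
  have a4 : ∀ N : Subgroup (alternatingGroup (Fin n)), Group.IsNilpotent N → (∃ c : Equiv.Perm (Fin n), c.IsThreeCycle ∧
      ∃ K ≤ fx (c.support : Set (Fin n)) ⊓ alternatingGroup _, PiGrp {2} K ∧
        N.map (alternatingGroup (Fin n)).subtype = K ⊔ Subgroup.zpowers c ∧ Nat.card N = Nat.card K * 3) ∨
      Nat.card N < 3 * Nat.card P := fun N hN => by
    rcases nil_le_alt (nil_map_subtype.2 hN) (Subgroup.map_subtype_le _) (by simp; omega) (by simp; omega)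
      (by simp; omega) (by simp; omega) with ⟨c, h1, K, h2, h3, h4, h7⟩ | h | h
    · exact Or.inl ⟨c, h1, K, le_inf h2 ((le_sup_left.trans h4.ge).trans (Subgroup.map_subtype_le _)), h3, h4,
        card_map_subtype.symm.trans h7⟩
    · rw [card_map_subtype, Fintype.card_fin] at h; omega
    · rw [card_map_subtype, Fintype.card_fin] at h
      obtain ⟨rfl, h⟩ := h
      norm_num at a0 a5 ⊢
      omega
  refine ⟨fun N hN => ?_, ?_, fun N₁ N₂ h1 h2 h3 h4 => ?_⟩
  · rcases a4 N hN with ⟨c, h1, K, h2, h3, -, h4⟩ | h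
    · have := a3 h1 K h2 h3
      omega
    · exact h.le
  · obtain ⟨ψ, h1, h2⟩ := exists_prod_three (Ω := Fin n) ((alternatingGroup _).subtype.comp
      (P : Subgroup (alternatingGroup (Fin (n - 3)))).subtype)
      ((Subgroup.subtype_injective _).comp (Subgroup.subtype_injective _)) (by simp; omega)
    have h3 : Function.Injective (ψ.codRestrict (alternatingGroup _) fun x => (h2 x).trans x.1.1.2) :=
      fun a b e => h1 (congrArg Subtype.val e)
    haveI := P.2.isNilpotent
    exact ⟨_, Group.nilpotent_of_mulEquiv (MonoidHom.ofInjective h3), by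
      rw [← Nat.card_congr (MonoidHom.ofInjective h3).toEquiv, Nat.card_prod, mul_comm]; simp,
      ⟨(MonoidHom.ofInjective h3).symm⟩⟩
  · obtain ⟨c, b1, K, b2, b3, b5, b4⟩ := (a4 _ h1).resolve_right h3.not_lt
    obtain ⟨d, c1, L, c2, c3, c5, c4⟩ := (a4 _ h2).resolve_right h4.not_lt
    obtain ⟨σ, e⟩ := isConj_iff.1 (alternatingGroup.isThreeCycle_isConj (σ := ⟨c, b1.mem_alternatingGroup⟩)
      (τ := ⟨d, c1.mem_alternatingGroup⟩) (by simp; omega) b1 c1)
    obtain ⟨g, h5, hg⟩ := conj_of_max σ.2 (congrArg Subtype.val e) b2 c2 b3 c3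
      (by omega) fun M d1 d2 => (a3 c1 M d1 d2).trans (by omega)
    refine ⟨⟨g, h5⟩, Subgroup.map_injective (alternatingGroup (Fin n)).subtype_injective ?_⟩
    rw [c5, hg, ← b5]
    exact cj_map_subtype ⟨g, h5⟩ N₁

end Cfsg.Agent.S2256
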