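import Cfsg.Statements.S2257
import Cfsg.Agent.H9.Sol2

set_option autoImplicit false
open Cfsg

namespace Cfsg.Agent.S2257

open H9.Sol2

/-- Let G = PSL_2(F) with F a field of order q = 2^p, p prime, and for x ∈ G call the solubilizer of x the set of y ∈ G such that x and y generate a solvable subgroup. Then the solubilizer of an involution has 3q(q − 1) elements; that of a non-identity element of order dividing q − 1 has 2q(q − 1) elements; and that of a non-identity element of order dividing q + 1 has 2(q + 1) elements. -/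
theorem result (p : ℕ) (hp : p.Prime) {F : Type*} [Field F] [Fintype F]
    (hF : Fintype.card F = 2 ^ p) (x : Matrix.ProjectiveSpecialLinearGroup (Fin 2) F) :
    (orderOf x = 2 → Nat.card {y : Matrix.ProjectiveSpecialLinearGroup (Fin 2) F // Group.IsSolvable ↥(Subgroup.closure ({x, y} : Set (Matrix.ProjectiveSpecialLinearGroup (Fin 2) F)))} = 3 * 2 ^ p * (2 ^ p - 1)) ∧
    (x ≠ 1 → orderOf x ∣ 2 ^ p - 1 → Nat.card {y : Matrix.ProjectiveSpecialLinearGroup (Fin 2) F // Group.IsSolvable ↥(Subgroup.closure ({x, y} : Set (Matrix.ProjectiveSpecialLinearGroup (Fin 2) F)))} = 2 * 2 ^ p * (2 ^ p - 1)) ∧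
    (x ≠ 1 → orderOf x ∣ 2 ^ p + 1 → Nat.card {y : Matrix.ProjectiveSpecialLinearGroup (Fin 2) F // Group.IsSolvable ↥(Subgroup.closure ({x, y} : Set (Matrix.ProjectiveSpecialLinearGroup (Fin 2) F)))} = 2 * (2 ^ p + 1)) := by
  have h := hyp_of hp hF (.inl rfl)
  have h2 : (2 : F) = 0 := by
    simpa using pow_eq_zero_iff hp.ne_zero |>.1 (show ((2 : ℕ) : F) ^ p = 0 by
      rw [← Nat.cast_pow, ← hF, FiniteField.cast_card_eq_zero])
  obtain ⟨k, hk⟩ : 2 ∣ 2 ^ p := dvd_pow_self 2 hp.ne_zero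
  have := Fintype.one_lt_card (α := F)
  have g : Nat.gcd 2 (Fintype.card F - 1) = 1 := (Nat.coprime_two_left).2 ⟨k - 1, by omega⟩
  have o : ∀ n, Odd n → x ≠ 1 → orderOf x ∣ n → x ^ 2 ≠ 1 := fun n hn h1 h3 h4 =>
    h1 (orderOf_eq_one_iff.1 (Nat.eq_one_of_dvd_coprimes (Nat.coprime_two_left.2 hn) (orderOf_dvd_of_pow_eq_one h4) h3))
  rw [mul_assoc, mul_assoc, ← hF]
  refine ⟨fun e => ?_, fun e1 e2 => ?_, fun e1 e2 => ?_⟩
  · rw [← count_par2 h h2 e, g, one_mul]
  · rw [← count_sub h (o _ ⟨k - 1, by omega⟩ e1 e2) (orderOf_dvd_iff_pow_eq_one.1 e2), g, one_mul]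
  · rw [← count_add h (o _ ⟨k, by omega⟩ e1 e2) (orderOf_dvd_iff_pow_eq_one.1 e2), g, one_mul]

end Cfsg.Agent.S2257
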