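import Cfsg.Statements.S2258
import Cfsg.Agent.H9.Sol2

set_option autoImplicit false
open Cfsg

namespace Cfsg.Agent.S2258

open H9.Sol2

/-- Let G = PSL_2(F) with F a field of order q = 3^p, p an odd prime, and for x ∈ G call the solubilizer of x the set of y ∈ G such that x and y generate a solvable subgroup. Then the solubilizer of an involution has q(q + 1) elements; that of an element of order 3 has q(q + 5)/2 elements; that of an element of order neither 1 nor 2 dividing q − 1 has q(q − 1) elements; and that of an element of order neither 1 nor 2 dividing q + 1 has q + 1 elements. -/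
theorem result (p : ℕ) (hp : p.Prime) (hodd : Odd p) {F : Type*} [Field F] [Fintype F]
    (hF : Fintype.card F = 3 ^ p) (x : Matrix.ProjectiveSpecialLinearGroup (Fin 2) F) :
    (orderOf x = 2 → Nat.card {y : Matrix.ProjectiveSpecialLinearGroup (Fin 2) F // Group.IsSolvable ↥(Subgroup.closure ({x, y} : Set (Matrix.ProjectiveSpecialLinearGroup (Fin 2) F)))} = 3 ^ p * (3 ^ p + 1)) ∧
    (orderOf x = 3 → 2 * Nat.card {y : Matrix.ProjectiveSpecialLinearGroup (Fin 2) F // Group.IsSolvable ↥(Subgroup.closure ({x, y} : Set (Matrix.ProjectiveSpecialLinearGroup (Fin 2) F)))} = 3 ^ p * (3 ^ p + 5)) ∧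
    (x ≠ 1 → orderOf x ≠ 2 → orderOf x ∣ 3 ^ p - 1 → Nat.card {y : Matrix.ProjectiveSpecialLinearGroup (Fin 2) F // Group.IsSolvable ↥(Subgroup.closure ({x, y} : Set (Matrix.ProjectiveSpecialLinearGroup (Fin 2) F)))} = 3 ^ p * (3 ^ p - 1)) ∧
    (x ≠ 1 → orderOf x ≠ 2 → orderOf x ∣ 3 ^ p + 1 → Nat.card {y : Matrix.ProjectiveSpecialLinearGroup (Fin 2) F // Group.IsSolvable ↥(Subgroup.closure ({x, y} : Set (Matrix.ProjectiveSpecialLinearGroup (Fin 2) F)))} = 3 ^ p + 1) := by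
  have h := hyp_of hp hF (.inr ⟨rfl, hodd⟩)
  have h3 : (3 : F) = 0 := by
    simpa using pow_eq_zero_iff hp.ne_zero |>.1 (show ((3 : ℕ) : F) ^ p = 0 by
      rw [← Nat.cast_pow, ← hF, FiniteField.cast_card_eq_zero])
  obtain ⟨k, hk⟩ : Odd (3 ^ p) := Odd.pow (by decide)
  have g : Nat.gcd 2 (Fintype.card F - 1) = 2 := Nat.gcd_eq_left ⟨k, by omega⟩
  have o : x ≠ 1 → orderOf x ≠ 2 → x ^ 2 ≠ 1 := fun h1 h2 h4 => h2 (orderOf_eq_prime h4 h1)
  have := h.four
  rw [← hF]
  refine ⟨fun e => ?_, fun e => ?_, fun e1 e2 e3 => ?_, fun e1 e2 e3 => ?_⟩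
  · exact Nat.eq_of_mul_eq_mul_left two_pos (g ▸ count_inv3 h h3 e :)
  · refine (g ▸ count_par3 h h3 e :).trans ?_
    rw [mul_comm 6, ← mul_add]
    congr 1
    omega
  · exact Nat.eq_of_mul_eq_mul_left two_pos (g ▸ count_sub h (o e1 e2) (orderOf_dvd_iff_pow_eq_one.1 e3) :)
  · exact Nat.eq_of_mul_eq_mul_left two_pos (g ▸ count_add h (o e1 e2) (orderOf_dvd_iff_pow_eq_one.1 e3) :)

end Cfsg.Agent.S2258
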