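import Cfsg.Statements.S2268
import Cfsg.Agent.H18.BG1

set_option autoImplicit false
open Cfsg

namespace Cfsg.Agent.S2268
open H18 Subgroup

/-- Let G be a finite group with an abelian Sylow p-subgroup P and let Q ≤ P. Then N_G(Q) = (N_G(Q) ∩ N_G(P))·C_G(Q), so that N_G(Q)/C_G(Q) is a homomorphic image of the subgroup (N_G(Q) ∩ N_G(P))/C_G(P) of N_G(P)/C_G(P); in particular the order of N_G(Q)/C_G(Q) divides the order of N_G(P)/C_G(P). -/
theorem result {G : Type*} [Group G] [Finite G] {p : ℕ} [Fact p.Prime]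
    (P : Sylow p G) (hP : IsMulCommutative (P : Subgroup G)) (Q : Subgroup G) (hQ : Q ≤ (P : Subgroup G)) :
    Subgroup.normalizer (Q : Set G) =
      (Subgroup.normalizer (Q : Set G) ⊓ Subgroup.normalizer ((P : Subgroup G) : Set G)) ⊔ Subgroup.centralizer (Q : Set G) ∧
    ((Subgroup.centralizer (Q : Set G)).subgroupOf (Subgroup.normalizer (Q : Set G))).index ∣ ((Subgroup.centralizer ((P : Subgroup G) : Set G)).subgroupOf (Subgroup.normalizer ((P : Subgroup G) : Set G))).index := by
  have hp : p.Prime := Fact.out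
  have hPa : Abel (P : Subgroup G) := abel_of_comm hP
  have hPC : (P : Subgroup G) ≤ C(Q) := cent_mono hPa le_rfl hQ
  have hS : Hall {p} (P : Subgroup G) C(Q) := (hall_sylow_top hp P).of_le hPC le_top
  have hF := frattini_arg hp (nml_C_N (H := Q)) hS
  refine ⟨by rw [sup_comm]; exact hF.symm, ?_⟩
  change (C(Q)).relIndex N(Q) ∣ (C((P : Subgroup G))).relIndex N((P : Subgroup G))
  have e : (C(Q)).relIndex N(Q) = (C(Q)).relIndex (N(Q) ⊓ N((P : Subgroup G))) := by
    conv_lhs => rw [← hF, sup_comm]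
    exact relIndex_sup_of_norm (inf_le_left.trans N_le_N_C)
  rw [e]
  exact (relIndex_dvd_left (C_anti hQ)).trans ((nml_C_N (H := (P : Subgroup G))).relIndex_dvd inf_le_right)

end Cfsg.Agent.S2268
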