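import Cfsg.Statements.S2270
import Cfsg.Agent.H18.Hall
import Mathlib.GroupTheory.Perm.Cycle.PossibleTypes

set_option autoImplicit false
open Cfsg

namespace Cfsg.Agent.S2270

open H18 Subgroup in
theorem even_aut {G : Type*} [Group G] [Finite G] {p : ℕ} [Fact p.Prime] (hp : p ≠ 2) (P : Sylow p G)
    (hP : IsMulCommutative P) {x : G} (o : orderOf x = p) (h : IsConj x x⁻¹) :
    2 ∣ (C((P : Subgroup G)).subgroupOf N((P : Subgroup G))).index := by
  have pp : p.Prime := Fact.out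
  wlog hx : x ∈ (P : Subgroup G) generalizing x
  · obtain ⟨g, -, e⟩ := sylow_le_cj pp (hall_sylow_top pp P) (PiElt.zpowers (x := x)
      (by rw [PiElt, o]; exact piNat_self pp)) le_top
    exact this (orderOf_conj.trans o) ((isConj_iff.2 ⟨g, rfl⟩).symm.trans (h.trans (isConj_iff.2 ⟨g, by group⟩)))
      (e (conj_mem_cj (mem_zpowers x)))
  obtain ⟨g, e⟩ := isConj_iff.1 h
  obtain ⟨n, hn, e'⟩ := P.conj_eq_normalizer_conj_of_mem x g⁻¹ hx (by rw [inv_inv, e]; exact inv_mem hx)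
  rw [inv_inv, e] at e'
  have := (nml_C_N (H := (P : Subgroup G))).subgroupOf_normal
  by_contra c
  obtain ⟨k, hk⟩ := Nat.odd_iff.2 (Nat.two_dvd_ne_zero.1 c)
  have h0 := pow_index_mem (C((P : Subgroup G)).subgroupOf N((P : Subgroup G))) ⟨n, hn⟩
  rw [hk] at h0
  have h1 : x * n ^ (2 * k + 1) = n ^ (2 * k + 1) * x := h0 x hx
  have e1 : SemiconjBy n x⁻¹ x := by rw [SemiconjBy, e']; group
  have h2 : Commute (n ^ 2) x := pow_two n ▸ e1.mul_left (by simpa using e1.inv_right)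
  rw [pow_succ, pow_mul, ← mul_assoc, ← (h2.pow_left k).eq, mul_assoc, mul_assoc, mul_right_inj, ← e1.eq, mul_right_inj,
    inv_eq_iff_mul_eq_one, ← pow_two] at h1
  exact hp ((Nat.prime_dvd_prime_iff_eq pp Nat.prime_two).1 (o ▸ orderOf_dvd_of_pow_eq_one h1))

/-- Let n ≥ 3, p an odd prime, and P an abelian Sylow p-subgroup of the symmetric group S_n (with p dividing n!, so that P ≠ 1). Then N(P)/C(P) has even order. -/
theorem result (n : ℕ) (hn : 3 ≤ n) {p : ℕ} [Fact p.Prime] (hp : p ≠ 2) (hpn : p ≤ n)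
    (P : Sylow p (Equiv.Perm (Fin n))) (hP : IsMulCommutative (P : Subgroup (Equiv.Perm (Fin n)))) :
    2 ∣ ((Subgroup.centralizer ((P : Subgroup (Equiv.Perm (Fin n))) : Set (Equiv.Perm (Fin n)))).subgroupOf (Subgroup.normalizer ((P : Subgroup (Equiv.Perm (Fin n))) : Set (Equiv.Perm (Fin n))))).index := by
  obtain ⟨x, hx⟩ := (Equiv.Perm.exists_with_cycleType_iff (Fin n) (m := {p})).2
    ⟨by simpa, by simpa using (Fact.out : p.Prime).two_le⟩
  exact even_aut hp P hP (x := x) (by simp [← Equiv.Perm.lcm_cycleType, hx])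
    (Equiv.Perm.isConj_iff_cycleType_eq.2 (Equiv.Perm.cycleType_inv x).symm)

end Cfsg.Agent.S2270
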