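import Cfsg.Statements.S2269
import Cfsg.Agent.S2270
import Cfsg.Agent.H21.Alt
import Cfsg.Agent.H3.HallTransfer
import Cfsg.Agent.H9.Dihedral

set_option autoImplicit false
open Cfsg

namespace Cfsg.Agent.S2269

open H18 Subgroup Equiv Equiv.Perm

theorem A5_pow : ∀ g : alternatingGroup (Fin 5), g ^ 4 = 1 → g ^ 2 = 1 := by decide +kernel

/-- Let n ≥ 5 and let P be an abelian Sylow p-subgroup of the alternating group A_n. Then N(P)/C(P) (taken in A_n) has even order, or P is cyclic, except when n = 5 and p = 2, where P is a four-group and N(P)/C(P) has order 3. -/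
theorem result (n : ℕ) (hn : 5 ≤ n) {p : ℕ} [Fact p.Prime]
    (P : Sylow p (alternatingGroup (Fin n))) (hP : IsMulCommutative (P : Subgroup (alternatingGroup (Fin n)))) :
    (¬ (n = 5 ∧ p = 2) → 2 ∣ ((Subgroup.centralizer ((P : Subgroup (alternatingGroup (Fin n))) : Set (alternatingGroup (Fin n)))).subgroupOf (Subgroup.normalizer ((P : Subgroup (alternatingGroup (Fin n))) : Set (alternatingGroup (Fin n))))).index ∨ IsCyclic (P : Subgroup (alternatingGroup (Fin n)))) ∧
    ((n = 5 ∧ p = 2) → ((Subgroup.centralizer ((P : Subgroup (alternatingGroup (Fin n))) : Set (alternatingGroup (Fin n)))).subgroupOf (Subgroup.normalizer ((P : Subgroup (alternatingGroup (Fin n))) : Set (alternatingGroup (Fin n))))).index = 3 ∧ IsKleinFour (P : Subgroup (alternatingGroup (Fin n)))) := by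
  have pp : p.Prime := Fact.out
  have : Nontrivial (Fin n) := Fin.nontrivial_iff_two_le.2 (by omega)
  refine ⟨fun h => ?_, ?_⟩
  · by_cases h2 : p = 2
    · subst h2
      obtain ⟨f, hf⟩ := H21.exists_altEmb (α := Fin 6) (β := Fin n) (by simp; omega)
      let x : alternatingGroup (Fin 6) := ⟨swap 0 1 * swap 2 3, mem_alternatingGroup.2 (by decide)⟩
      let y : alternatingGroup (Fin 6) := ⟨swap 0 2 * swap 4 5, mem_alternatingGroup.2 (by decide)⟩
      obtain ⟨Q, hQ⟩ := ((H9.isPGroup_closure_pair (x := x) (y := y) (by decide) (by decide) (k := 2)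
        (by decide +kernel)).map f).exists_le_sylow
      have k : ∀ a b : (Q : Subgroup (alternatingGroup (Fin n))), a * b = b * a := fun a b =>
        (Q.equiv P).injective (by rw [map_mul, hP.is_comm.comm, ← map_mul])
      have := k ⟨f x, hQ ⟨x, subset_closure (by simp), rfl⟩⟩ ⟨f y, hQ ⟨y, subset_closure (by simp), rfl⟩⟩
      exact absurd (hf ((map_mul ..).trans ((congrArg Subtype.val this).trans (map_mul ..).symm))) (by decide)
    refine or_iff_not_imp_right.2 fun c => ?_
    have l : 2 * p ≤ n := by
      by_contra l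
      obtain ⟨k, hk⟩ := P.isPGroup'.exists_card_eq
      refine c (isCyclic_of_card_dvd_prime (p := p) (hk ▸ (pow_dvd_pow p (not_lt.1 fun h => l ?_)).trans (pow_one p).dvd))
      have d : p ^ 2 ∣ n.factorial := (pow_dvd_pow p h).trans (hk ▸ (card_subgroup_dvd_card _).trans
        ((card_subgroup_dvd_card _).trans (by rw [Nat.card_perm, Nat.card_fin])))
      have := (pp.pow_dvd_factorial_iff (b := 2) (Nat.log_lt_of_lt_pow (by omega) (by have := pp.two_le; nlinarith))).1 d
      simpa [Nat.le_div_iff_mul_le pp.pos] using this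
    obtain ⟨x, hx⟩ := (exists_with_cycleType_iff (Fin n) (m := {p})).2 ⟨by simp; omega, by simpa using pp.two_le⟩
    have := pp.two_le
    refine Cfsg.Agent.S2270.even_aut h2 P hP (x := ⟨x, ?_⟩) (by rw [orderOf_mk, ← lcm_cycleType, hx]; simp)
      (alternatingGroup.isConj_of (isConj_iff_cycleType_eq.2 (cycleType_inv x).symm) ?_)
    · simp [sign_of_cycleType, hx, ((pp.odd_of_ne_two h2).add_one).neg_one_pow]
    · simp [← sum_cycleType, hx]
      omega
  · rintro ⟨rfl, rfl⟩
    have c : Nat.card (alternatingGroup (Fin 5)) = 60 := by rw [nat_card_alternatingGroup]; simp; rfl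
    have c4 : Nat.card (P : Subgroup (alternatingGroup (Fin 5))) = 4 := by
      rw [P.card_eq_multiplicity, c]
      decide +kernel
    have k : IsKleinFour (P : Subgroup (alternatingGroup (Fin 5))) := ⟨c4, by
      have := Finite.one_lt_card_iff_nontrivial.1 (c4 ▸ (by decide : 1 < 4))
      exact (Monoid.exponent_eq_prime_iff Nat.prime_two).2 fun g hg => orderOf_eq_prime
        (Subtype.ext (A5_pow _ (c4 ▸ pow_card_eq_one_of_mem g.2))) hg⟩
    refine ⟨((Nat.dvd_prime Nat.prime_three).1 (Nat.dvd_gcd (m := 15) (n := 24) ?_ ?_)).resolve_left fun e => ?_, k⟩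
    · have := (P : Subgroup (alternatingGroup (Fin 5))).card_mul_index
      rw [c, c4] at this
      exact (relIndex_dvd_left (abel_of_comm hP)).trans ((relIndex_dvd_index_of_le le_N).trans (dvd_of_eq (by omega)))
    · refine (relIndex_C_dvd_card_aut le_rfl).trans ((card_dvd_of_injective (MulAut.toPerm _) MulEquiv.toEquiv_injective).trans ?_)
      rw [Nat.card_perm, c4]
      rfl
    · have := H3.commutator_inf_abelian_sylow P
      rw [commutator_alternatingGroup_eq_top (by simp), top_inf_eq] at this
      simp [this.trans (comm_eq_bot_iff.2 (cent_symm (relIndex_eq_one_iff.1 e)))] at c4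

end Cfsg.Agent.S2269
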