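import Cfsg.Statements.S2279
import Cfsg.Agent.H11.RegU2

set_option autoImplicit false
open Cfsg

namespace Cfsg.Agent.S2279

/-- Let F be a finite field with q elements and n ≥ 4. Then SL_n(F) is generated by two regular unipotent elements (elements u with u − 1 nilpotent and (u − 1)^(n−1) ≠ 0); if q is prime, the two can be taken conjugate in SL_n(F). -/
theorem result {F : Type*} [Field F] [Fintype F] (n : ℕ) (hn : 4 ≤ n) :
    (∃ u v : Matrix.SpecialLinearGroup (Fin n) F, (IsNilpotent ((u : Matrix (Fin n) (Fin n) F) - 1) ∧ ((u : Matrix (Fin n) (Fin n) F) - 1) ^ (n - 1) ≠ 0) ∧ (IsNilpotent ((v : Matrix (Fin n) (Fin n) F) - 1) ∧ ((v : Matrix (Fin n) (Fin n) F) - 1) ^ (n - 1) ≠ 0) ∧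
      Subgroup.closure ({u, v} : Set (Matrix.SpecialLinearGroup (Fin n) F)) = ⊤) ∧
    ((Fintype.card F).Prime → ∃ u g : Matrix.SpecialLinearGroup (Fin n) F, (IsNilpotent ((u : Matrix (Fin n) (Fin n) F) - 1) ∧ ((u : Matrix (Fin n) (Fin n) F) - 1) ^ (n - 1) ≠ 0) ∧
      Subgroup.closure ({u, g * u * g⁻¹} : Set (Matrix.SpecialLinearGroup (Fin n) F)) = ⊤) := by
  obtain ⟨u, g, h, h'⟩ := H11.sl_two_conj (F := F) (n := n) (by omega)
  refine ⟨⟨u, _, h, ?_, h'⟩, fun _ => ⟨u, g, h, h'⟩⟩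
  have e : g.1 * (g⁻¹).1 = 1 := congrArg Subtype.val (mul_inv_cancel g)
  have e' : (g⁻¹).1 * g.1 = 1 := congrArg Subtype.val (inv_mul_cancel g)
  have k : ∀ j, ((g * u * g⁻¹).1 - 1) ^ j = g.1 * (u.1 - 1) ^ j * (g⁻¹).1 := fun j => by
    induction j with
    | zero => rw [pow_zero, pow_zero, mul_one, e]
    | succ j ih =>
      rw [pow_succ, ih, pow_succ, show (g * u * g⁻¹).1 - 1 = g.1 * (u.1 - 1) * (g⁻¹).1 by rw [mul_sub, sub_mul, mul_one, e]; rfl]
      simp only [mul_assoc, ← mul_assoc (g⁻¹).1, e', one_mul]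
  obtain ⟨⟨j, hj⟩, h2⟩ := h
  refine ⟨⟨j, by rw [k, hj, mul_zero, zero_mul]⟩, fun h => h2 ?_⟩
  have := congrArg (fun x => (g⁻¹).1 * x * g.1) (h.symm.trans (k (n - 1)))
  simp only [mul_zero, zero_mul] at this
  rw [this, mul_assoc, mul_assoc, e', mul_one, ← mul_assoc, e', one_mul]

end Cfsg.Agent.S2279
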