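import Cfsg.Statements.S2281
import Cfsg.Agent.H23.RU2
import Cfsg.Agent.H11.ThC

set_option autoImplicit false
open Cfsg

namespace Cfsg.Agent.S2281

open H11 H11.PForm H23.RU

/-- Let F be a finite field and n ≥ 2, excluding the case n = 2 with F of two elements (where the group is not quasisimple). Then the symplectic group Sp_2n(F) is generated by three conjugate regular unipotent elements: there are u ∈ Sp_2n(F) with u − 1 nilpotent and (u − 1)^(2n−1) ≠ 0, and g, h ∈ Sp_2n(F), such that u, g u g⁻¹ and h u h⁻¹ generate Sp_2n(F). -/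
theorem result {F : Type*} [Field F] [Fintype F] (n : ℕ) (hn : 2 ≤ n) (h22 : ¬ (n = 2 ∧ Fintype.card F = 2)) :
    ∃ u g h : Matrix.symplecticGroup (Fin n) F,
      IsNilpotent ((u : Matrix (Fin n ⊕ Fin n) (Fin n ⊕ Fin n) F) - 1) ∧
      ((u : Matrix (Fin n ⊕ Fin n) (Fin n ⊕ Fin n) F) - 1) ^ (2 * n - 1) ≠ 0 ∧
      Subgroup.closure ({u, g * u * g⁻¹, h * u * h⁻¹} : Set (Matrix.symplecticGroup (Fin n) F)) = ⊤ := by
  have hS := stdSymp_nondeg (F := F) n
  have hd := finrank_sum_fun (F := F) n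
  obtain ⟨u, g, y, hu, h⟩ := symp_three hS (by omega) fun h => exists_ne_zero_ne_one (by
    have := Fintype.one_lt_card (α := F)
    rw [Nat.card_eq_fintype_card]; omega)
  obtain ⟨u, rfl⟩ := (spEquiv n F).surjective u
  obtain ⟨g, rfl⟩ := (spEquiv n F).surjective g
  obtain ⟨y, rfl⟩ := (spEquiv n F).surjective y
  have h1 := hu.pow_ne
  have h2 := hu.unip
  rw [iE_spEquiv] at h1 h2
  refine ⟨u, g, y, unip_mE.1 h2, by rwa [hd, mE_sub_one_pow, Ne, mE_eq_zero] at h1, eq_top_iff.2 fun a _ => ?_⟩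
  have := h ((Subgroup.closure {u, g * u * g⁻¹, y * u * y⁻¹}).map (spEquiv n F).toMonoidHom) ⟨u, Subgroup.subset_closure (by simp), rfl⟩
    ⟨g * u * g⁻¹, Subgroup.subset_closure (by simp), by simp⟩ ⟨y * u * y⁻¹, Subgroup.subset_closure (by simp), by simp⟩
  obtain ⟨b, h1, h2⟩ := this (hS.symp_E_eq_top.ge (Subgroup.mem_top (spEquiv n F a)))
  rwa [← (spEquiv n F).injective h2]

end Cfsg.Agent.S2281
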