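import Cfsg.Statements.S2282
import Cfsg.Agent.H23.RU3

set_option autoImplicit false
open Cfsg

namespace Cfsg.Agent.S2282

open H11 H11.PForm H23.RU

/-- Let F be a field with q² elements, n ≥ 3 odd with (n, q) ≠ (3, 2), and SU_n(q) the special unitary group of the standard Hermitian form Σ u_i v_i^q. Then SU_n(q) is generated by three conjugate regular unipotent elements: there are u ∈ SU_n(q) with u − 1 nilpotent and (u − 1)^(n−1) ≠ 0, and g, h ∈ SU_n(q), such that u, g u g⁻¹ and h u h⁻¹ generate SU_n(q). -/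
theorem result {F : Type*} [Field F] [Fintype F] (q : ℕ) (hF : Fintype.card F = q ^ 2) (n : ℕ) (hn : 3 ≤ n) (hodd : Odd n) (h32 : ¬ (n = 3 ∧ q = 2)) :
    ∃ u g h : ↥(Cfsg.SU n F q), (IsNilpotent (((u : Matrix.SpecialLinearGroup (Fin n) F) : Matrix (Fin n) (Fin n) F) - 1) ∧ (((u : Matrix.SpecialLinearGroup (Fin n) F) : Matrix (Fin n) (Fin n) F) - 1) ^ (n - 1) ≠ 0) ∧
      Subgroup.closure ({u, g * u * g⁻¹, h * u * h⁻¹} : Set ↥(Cfsg.SU n F q)) = ⊤ := by
  obtain ⟨σ, h1, hσ, hne⟩ := exists_frob hF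
  have hF' : Nat.card F = q ^ 2 := by rw [Nat.card_eq_fintype_card, hF]
  rcases hn.eq_or_lt with rfl | hn
  · obtain ⟨u, hu, g, hg, hr, h⟩ := unit_two hne (stdUnit_nondeg hσ hne (Fin 3)) (by simp) hF' (by have := two_le_of_card_sq hF'; omega)
    obtain ⟨u, g, y, h2, h3, -⟩ := su_transfer hne h1 (by norm_num) hu hg hg hr fun K a b c _ => h K a b c
    exact ⟨u, g, y, h2, h3⟩
  · obtain ⟨u, hu, g, hg, y, hy, hr, h⟩ := unit_three hne (stdUnit_nondeg hσ hne (Fin n)) (by obtain ⟨k, rfl⟩ := hodd; simp; omega)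
    obtain ⟨u, g, y, h2, h3, -⟩ := su_transfer hne h1 (by omega) hu hg hy hr fun K _ => h K
    exact ⟨u, g, y, h2, h3⟩

end Cfsg.Agent.S2282
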