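import Cfsg.Statements.S2286
import Cfsg.Agent.H11.PSL2
import Cfsg.Agent.H10.SL

set_option autoImplicit false
open Cfsg

namespace Cfsg.Agent.S2286

/-- For every finite field F, SL_2(F) and PSL_2(F) have presentations with 3 generators and at most 9 relations; when F has characteristic 2, PSL_2(F) has a presentation with 3 generators and at most 5 relations. -/
theorem result {F : Type*} [Field F] [Fintype F] :
    (∃ rels : Finset (FreeGroup (Fin 3)), rels.card ≤ 9 ∧ Nonempty (PresentedGroup (↑rels : Set (FreeGroup (Fin 3))) ≃* Matrix.SpecialLinearGroup (Fin 2) F)) ∧ (∃ rels : Finset (FreeGroup (Fin 3)), rels.card ≤ 9 ∧ Nonempty (PresentedGroup (↑rels : Set (FreeGroup (Fin 3))) ≃* Matrix.ProjectiveSpecialLinearGroup (Fin 2) F)) ∧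
    (CharP F 2 → ∃ rels : Finset (FreeGroup (Fin 3)), rels.card ≤ 5 ∧ Nonempty (PresentedGroup (↑rels : Set (FreeGroup (Fin 3))) ≃* Matrix.ProjectiveSpecialLinearGroup (Fin 2) F)) := by
  obtain ⟨g, h1, h2⟩ := H11.exists_pres_sl2 (F := F)
  refine ⟨(h1.mono (by omega)).iso' h2, h1.iso_quot h2, fun _ => ?_⟩
  obtain ⟨g, h1, h2⟩ := H11.exists_pres_sl2_even (F := F)
  refine (h1.quot h2 (QuotientGroup.mk' _) [] ?_).iso' (H11.closure_range_comp h2 _ (QuotientGroup.mk'_surjective _))
  obtain ⟨n, -, hn⟩ := FiniteField.card F 2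
  rw [QuotientGroup.ker_mk', show {x | x ∈ ([] : List (Matrix.SpecialLinearGroup (Fin 2) F))} = ∅ by simp,
    Subgroup.normalClosure_empty, ← Subgroup.card_eq_one, H10.card_center_SL, Nat.card_eq_fintype_card, hn,
    Fintype.card_fin]
  exact (Nat.coprime_two_left.2 (Nat.Even.sub_odd Nat.one_le_two_pow (by simp [parity_simps]) odd_one))

end Cfsg.Agent.S2286
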