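import Cfsg.Statements.S2288
import Cfsg.Agent.H11.PSLn

set_option autoImplicit false
open Cfsg

namespace Cfsg.Agent.S2288

/-- For every finite field F and n ≥ 4: SL_n(F) has a presentation with 7 generators and at most 25 relations, and PSL_n(F) one with 7 generators and at most 26 relations; moreover SL_4(F) has one with 6 generators and at most 21 relations and SL_5(F) one with 6 generators and at most 22 relations. -/
theorem result {F : Type*} [Field F] [Fintype F] (n : ℕ) (hn : 4 ≤ n) :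
    (∃ rels : Finset (FreeGroup (Fin 7)), rels.card ≤ 25 ∧ Nonempty (PresentedGroup (↑rels : Set (FreeGroup (Fin 7))) ≃* Matrix.SpecialLinearGroup (Fin n) F)) ∧ (∃ rels : Finset (FreeGroup (Fin 7)), rels.card ≤ 26 ∧ Nonempty (PresentedGroup (↑rels : Set (FreeGroup (Fin 7))) ≃* Matrix.ProjectiveSpecialLinearGroup (Fin n) F)) ∧
    (∃ rels : Finset (FreeGroup (Fin 6)), rels.card ≤ 21 ∧ Nonempty (PresentedGroup (↑rels : Set (FreeGroup (Fin 6))) ≃* Matrix.SpecialLinearGroup (Fin 4) F)) ∧ (∃ rels : Finset (FreeGroup (Fin 6)), rels.card ≤ 22 ∧ Nonempty (PresentedGroup (↑rels : Set (FreeGroup (Fin 6))) ≃* Matrix.SpecialLinearGroup (Fin 5) F)) := by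
  have h : ∀ n, n = 4 ∨ n = 5 → ∃ g : Fin 6 → Matrix.SpecialLinearGroup (Fin n) F, H11.PrG g 21 ∧
      Subgroup.closure (Set.range g) = ⊤ := fun n hn => by
    obtain ⟨g, h1, h2⟩ := H11.exists_pres_sl45 (F := F) hn
    exact h1.pad h2 (m := 6) (by simp)
  obtain ⟨g, h1, h2⟩ := H11.exists_pres_sl (F := F) (n := n) (by omega)
  obtain ⟨g, h1, h2⟩ := h1.pad h2 (m := 7) (by simp)
  obtain ⟨g4, h3, h4⟩ := h 4 (by simp)
  obtain ⟨g5, h5, h6⟩ := h 5 (by simp)
  exact ⟨(h1.mono (by simp)).iso' h2, (h1.mono (r' := 25) (by simp)).iso_quot h2, h3.iso' h4, (h5.mono (by simp)).iso' h6⟩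

end Cfsg.Agent.S2288
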