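import Cfsg.Statements.S2296
import Cfsg.Agent.H11.PSp2

set_option autoImplicit false
open Cfsg

namespace Cfsg.Agent.S2296

/-- Let F be a finite field. Sp_2n(F) has a presentation with 10 generators and at most 58 relations for n ≥ 4, with 9 generators and at most 57 relations for n = 4 or 5, and with 8 generators and at most 52 relations for n = 3; in each case PSp_2n(F) has a presentation with the same number of generators and at most one more relation. -/
theorem result {F : Type*} [Field F] [Fintype F] (n : ℕ) :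
    (4 ≤ n → (∃ rels : Finset (FreeGroup (Fin 10)), rels.card ≤ 58 ∧ Nonempty (PresentedGroup (↑rels : Set (FreeGroup (Fin 10))) ≃* Matrix.symplecticGroup (Fin n) F)) ∧ (∃ rels : Finset (FreeGroup (Fin 10)), rels.card ≤ 59 ∧ Nonempty (PresentedGroup (↑rels : Set (FreeGroup (Fin 10))) ≃* Cfsg.PSp n F))) ∧
    ((n = 4 ∨ n = 5) → (∃ rels : Finset (FreeGroup (Fin 9)), rels.card ≤ 57 ∧ Nonempty (PresentedGroup (↑rels : Set (FreeGroup (Fin 9))) ≃* Matrix.symplecticGroup (Fin n) F)) ∧ (∃ rels : Finset (FreeGroup (Fin 9)), rels.card ≤ 58 ∧ Nonempty (PresentedGroup (↑rels : Set (FreeGroup (Fin 9))) ≃* Cfsg.PSp n F))) ∧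
    (n = 3 → (∃ rels : Finset (FreeGroup (Fin 8)), rels.card ≤ 52 ∧ Nonempty (PresentedGroup (↑rels : Set (FreeGroup (Fin 8))) ≃* Matrix.symplecticGroup (Fin n) F)) ∧ (∃ rels : Finset (FreeGroup (Fin 8)), rels.card ≤ 53 ∧ Nonempty (PresentedGroup (↑rels : Set (FreeGroup (Fin 8))) ≃* Cfsg.PSp n F))) := by
  have h : ∀ m r, 6 ≤ m → m + 39 ≤ r → 2 ≤ n → (∃ rels : Finset (FreeGroup (Fin m)), rels.card ≤ r ∧
      Nonempty (PresentedGroup (↑rels : Set (FreeGroup (Fin m))) ≃* Matrix.symplecticGroup (Fin n) F)) ∧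
      (∃ rels : Finset (FreeGroup (Fin m)), rels.card ≤ r + 1 ∧
      Nonempty (PresentedGroup (↑rels : Set (FreeGroup (Fin m))) ≃* Cfsg.PSp n F)) := fun m r hm hr hn => by
    have : NeZero n := ⟨by omega⟩
    obtain ⟨g, h1, h2⟩ := H11.exists_pres_sp (F := F) hn
    obtain ⟨g, h1, h2⟩ := h1.pad h2 (m := m) (by simpa)
    have := h1.mono (r' := r) (by simp; split_ifs <;> omega)
    exact ⟨this.iso' h2, this.iso_quot h2⟩
  exact ⟨fun _ => h _ _ (by omega) (by omega) (by omega), fun _ => h _ _ (by omega) (by omega) (by omega),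
    fun _ => h _ _ (by omega) (by omega) (by omega)⟩

end Cfsg.Agent.S2296
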