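import Cfsg.Statements.S2332
import Cfsg.Agent.H24.LSsl

set_option autoImplicit false
open Cfsg

namespace Cfsg.Agent.S2332

open H24 Matrix Module

/-- Smallest degree of a non-linear irreducible complex representation of SL_n over a finite field with q elements, for n ≥ 3 and (n, q) not one of (3, 2), (3, 4), (4, 2), (4, 3): every irreducible complex representation of SL_n(F) of degree at least 2 has degree at least (q^n − q)/(q − 1), and there is an irreducible complex representation of exactly that degree. -/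
theorem result {F : Type*} [Field F] [Fintype F] [DecidableEq F] (n : ℕ) (hn : 3 ≤ n)
    (hex : (n, Fintype.card F) ≠ (3, 2) ∧ (n, Fintype.card F) ≠ (3, 4) ∧ (n, Fintype.card F) ≠ (4, 2) ∧ (n, Fintype.card F) ≠ (4, 3)) :
    (∀ (k : ℕ) (ρ : Representation ℂ (Matrix.SpecialLinearGroup (Fin n) F) (Fin k → ℂ)), ρ.IsIrreducible → 2 ≤ k → (Fintype.card F ^ n - Fintype.card F) / (Fintype.card F - 1) ≤ k) ∧
    (∃ ρ : Representation ℂ (Matrix.SpecialLinearGroup (Fin n) F) (Fin ((Fintype.card F ^ n - Fintype.card F) / (Fintype.card F - 1)) → ℂ), ρ.IsIrreducible) := by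
  have hq : 2 ≤ Fintype.card F := Fintype.one_lt_card
  rw [← geo_sub_one_eq_div hq (by omega)]
  refine ⟨fun k ρ hρ hk => ?_, ?_⟩
  · simpa using SL_min_degree hn hex ρ (exists_ne_one_of_two_le ρ (by simpa using hk))
  · have := Fintype.ofFinite (Fˣ →* ℂˣ)
    have := Fintype.ofFinite (SpecialLinearGroup (Fin n) F)
    obtain ⟨χ, hχ, -, -, hd, -⟩ := exists_SL_weil (ι := Fin n) (F := F) (by simpa using hn)
    obtain ⟨d, ρ, hρ, e⟩ := hχ 1
    have h1 : χ 1 1 = d := by rw [← e, Representation.char_one]; simp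
    have h2 := congrArg (Nat.cast : ℕ → ℂ) (geo_mul (q := Fintype.card F) (by omega) n)
    push_cast [show 1 ≤ Fintype.card F by omega, Nat.one_le_pow _ _ (Fintype.card_pos (α := F))] at h2
    rw [Fintype.card_fin, ← h2, mul_comm, mul_left_inj' card_sub_one_ne_zero, h1] at hd
    have h3 : d + 1 = geo (Fintype.card F) n := by exact_mod_cast hd
    obtain rfl : d = geo (Fintype.card F) n - 1 := by omega
    exact ⟨ρ, hρ⟩

end Cfsg.Agent.S2332
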