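import Cfsg.Statements.S2333
import Cfsg.Agent.H24.SpEv

set_option autoImplicit false
open Cfsg

namespace Cfsg.Agent.S2333

open H24 H11 H11.PForm Module

/-- For a finite field F of even order q and n ≥ 2 with (n, q) ≠ (2, 2), every irreducible complex representation of the symplectic group Sp_{2n}(F) of degree at least 2 has degree at least (q^n − 1)(q^n − q)/(2(q + 1)). -/
theorem result {F : Type*} [Field F] [Fintype F] [DecidableEq F] (n : ℕ) (hn : 2 ≤ n) (heven : Even (Fintype.card F)) (hex : (n, Fintype.card F) ≠ (2, 2)) :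
    (∀ (k : ℕ) (ρ : Representation ℂ (Matrix.symplecticGroup (Fin n) F) (Fin k → ℂ)), ρ.IsIrreducible → 2 ≤ k → (Fintype.card F ^ n - 1) * (Fintype.card F ^ n - Fintype.card F) / (2 * (Fintype.card F + 1)) ≤ k) := by
  intro k ρ hρ hk
  have hS := stdSymp_nondeg (F := F) n
  let φ : (stdSymp n F).E ≃* Matrix.symplecticGroup (Fin n) F :=
    ((MulEquiv.subgroupCongr hS.symp_E_eq_top).trans Subgroup.topEquiv).trans (spEquiv n F).symm
  have h2 : (2 : F) = 0 := by
    by_contra h
    exact Nat.not_odd_iff_even.2 heven (two_ne_zero_iff_odd.1 h)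
  obtain ⟨x, hx⟩ := exists_ne_one_of_two_le ρ (by simpa using hk)
  have hq : 2 ≤ Fintype.card F := Fintype.one_lt_card
  have hp : commutator (stdSymp n F).Isom = ⊤ := hS.symp_commutator_eq_top (by
    rw [finrank_sum_fun]
    by_cases h : n = 2
    · refine Or.inr (Or.inl ⟨by omega, exists_ne_zero_ne_one ?_⟩)
      rw [Nat.card_eq_fintype_card]
      have : Fintype.card F ≠ 2 := fun e => hex (by rw [h, e])
      omega
    · exact Or.inl (by omega))
  have := symp_even_min (MonoidHom.comp ρ φ.toMonoidHom) hS h2 (finrank_sum_fun n) hn hp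
    ⟨φ.symm x, by simpa using hx⟩
  refine Nat.div_le_of_le_mul ?_
  simpa using this

end Cfsg.Agent.S2333
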