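import Cfsg.Statements.S2334
import Cfsg.Agent.H24.MinD2

set_option autoImplicit false
open Cfsg

namespace Cfsg.Agent.S2334

open H24 H11 H11.PForm Module

/-- For odd n ≥ 3 and a finite field F with q² elements, (n, q) ≠ (3, 2), every irreducible complex representation of the special unitary group SU_n(q) (the determinant-one isometries of the standard Hermitian form over F) of degree at least 2 has degree at least (q^n − q)/(q + 1). -/
theorem result {F : Type*} [Field F] [Fintype F] [DecidableEq F] (n q : ℕ) (hn : 3 ≤ n) (hodd : Odd n) (hF : Fintype.card F = q ^ 2) (hex : (n, q) ≠ (3, 2)) :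
    (∀ (k : ℕ) (ρ : Representation ℂ (Cfsg.SU n F q) (Fin k → ℂ)), ρ.IsIrreducible → 2 ≤ k → (q ^ n - q) / (q + 1) ≤ k) := by
  intro k ρ hρ hk
  obtain ⟨σ, hq, hσ, hne⟩ := exists_frob hF
  have hS := stdUnit_nondeg hσ hne (Fin n)
  obtain ⟨e, f, H⟩ := hS.unit_exists_hyp hne (by simp; omega)
  let φ : (stdUnit hσ hne (Fin n)).E ≃* Cfsg.SU n F q :=
    (MulEquiv.subgroupCongr (H.unit_SIsom_eq_E hne hS).symm).trans (suEquiv hσ hne hq n).symm
  let ρ' : (stdUnit hσ hne (Fin n)).E →* End ℂ (Fin k → ℂ) := MonoidHom.comp ρ φ.toMonoidHom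
  have h1 : ∃ g, ρ' g ≠ 1 := by
    obtain ⟨x, hx⟩ := exists_ne_one_of_two_le ρ (by simpa using hk)
    exact ⟨φ.symm x, by simpa [ρ'] using hx⟩
  obtain ⟨m, rfl⟩ := hodd
  have := unit_min hne ρ' (stdUnit_nondeg hσ hne _) hF (n := 2 * m + 1) (m := m) (by simp) hn
    (fun h => hex (by rw [h.1, h.2])) (by omega) (by omega) h1
  rw [Nat.add_sub_cancel_left, pow_one, Nat.sub_mul, one_mul, ← pow_succ] at this
  refine Nat.div_le_of_le_mul ?_
  simpa using this

end Cfsg.Agent.S2334
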