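import Cfsg.Statements.S2337
import Cfsg.Agent.H13.SzChar
import Cfsg.Agent.H13.SzModel

set_option autoImplicit false
open Cfsg

namespace Cfsg.Agent.S2337

/-- For the Suzuki group Sz(q), q = 2^(2m+1) with m ≥ 1 (realised inside Sp₄ over the field with q elements), every irreducible complex representation of degree at least 2 has degree at least 2^m·(q − 1). -/
theorem result {F : Type*} [Field F] [Fintype F] (m : ℕ) (hm : 1 ≤ m) (hF : Fintype.card F = 2 ^ (2 * m + 1)) :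
    (∀ (k : ℕ) (ρ : Representation ℂ (Cfsg.Lie.Sz F (2 ^ (m + 1))) (Fin k → ℂ)), ρ.IsIrreducible → 2 ≤ k → 2 ^ m * (2 ^ (2 * m + 1) - 1) ≤ k) := by
  intro k ρ hρ hk
  haveI : H13.Sz.IsSz F m := ⟨hm, hF⟩
  have h1 : IsIrrCharacter _ ρ.character := ⟨k, ρ, hρ, rfl⟩
  have h2 := H5.Cfsg.IsIrrCharacter.comp_equiv h1 (H13.Sz.lieEquiv F m)
  have h3 := (H13.Sz.degree_iff (F := F) k).1 ⟨_, h2, by simp [ρ.char_one]⟩
  rw [hF] at h3
  obtain ⟨n, rfl⟩ : ∃ n, m = n + 1 := ⟨m - 1, by omega⟩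
  have e1 : 2 ^ (2 * (n + 1) + 1) = 8 * (2 ^ n) ^ 2 := by ring
  have e2 : 2 ^ (n + 1 + 1) = 4 * 2 ^ n := by ring
  have e3 : 2 ^ (n + 1) = 2 * 2 ^ n := by ring
  rw [e1, e2, e3] at h3
  rw [e1, e3]
  have hp : 1 ≤ 2 ^ n := Nat.one_le_two_pow
  generalize 2 ^ n = a at *
  have hQ : 6 * a ≤ 8 * a ^ 2 := by nlinarith
  generalize 8 * a ^ 2 = Q at *
  obtain ⟨P, rfl⟩ : ∃ P, Q = P + 1 := ⟨Q - 1, by omega⟩
  simp only [Nat.add_sub_cancel] at *
  rcases h3 with h | h | h | h | h | h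
  · omega
  · nlinarith
  · omega
  · nlinarith
  · rw [h]; exact Nat.mul_le_mul_right _ (by omega)
  · rw [h]; exact Nat.mul_le_mul_right _ (by omega)

end Cfsg.Agent.S2337
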