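import Cfsg.Statements.S2339
import Cfsg.Agent.H12.MD2
import Cfsg.Agent.H12.MD3
import Cfsg.Agent.H24.LSsl
import Cfsg.Agent.H5.Central
import Cfsg.Agent.S1054
import Cfsg.Agent.S1065

set_option autoImplicit false
open Cfsg

namespace Cfsg.Agent.S2339
open H24 H12 H12.MD H12.StSys Cfsg.Lie H5 Module

/-- For the Chevalley group of type E₈ over a finite field with q elements, every irreducible complex representation of degree at least 2 has degree at least q(q¹² + 1)(q¹⁰ + 1)(q⁶ + 1). -/
theorem result {F : Type*} [Field F] [Fintype F] (k : ℕ) (ρ : Representation ℂ (Cfsg.Lie.chevE8.group F) (Fin k → ℂ)) (hρ : ρ.IsIrreducible) (hk : 2 ≤ k) :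
    Fintype.card F * (Fintype.card F ^ 12 + 1) * (Fintype.card F ^ 10 + 1) * (Fintype.card F ^ 6 + 1) ≤ k := by
  classical
  by_contra hlt
  have hs := (S1054.result (F := F) chevE8 (by simp)).1
  have hinj : ∀ g, ρ g = 1 → g = 1 := fun g hg => by
    rcases hs.eq_bot_or_eq_top_of_normal (MonoidHom.ker ρ) (MonoidHom.normal_ker _) with h | h
    · exact (Subgroup.eq_bot_iff_forall _).1 h g hg
    · obtain ⟨x, hx⟩ := exists_ne_one_of_two_le ρ (by simpa using hk)
      exact absurd ((Subgroup.eq_top_iff' _).1 h x) hx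
  have h5 := (isIrrCharacter_character ρ).degree_dvd_card (n := k) (by simp)
  obtain ⟨p, hp⟩ := CharP.exists F
  obtain ⟨f, pp, hf⟩ := FiniteField.card F p
  have q2 : 2 ≤ Fintype.card F := Fintype.one_lt_card
  have lo := lower (sysOf (grS chevE8 F) relE8) ρ (fun a ha h => by
    have := congrArg (fun g : chevE8.group F => (g : GL chevE8.Idx F).1) ((xN_lt _ ha 1).symm.trans (hinj _ h))
    exact one_ne_zero (xR_eq_one.1 this)) 120 chkE8
  rw [S1065.result rfl] at h5
  rw [show (List.range 120).map _ = thE8.map fun x => if x.1 = true ∧ Fintype.card F = 2 then 0 else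
    (Fintype.card F - 1) * Fintype.card F ^ x.2 by rw [← MD.lenE8, List.map_map]; rfl, finrank_fintype_fun_eq_card,
    Fintype.card_fin] at lo
  generalize Fintype.card F = q at *
  have e1 : q * (q ^ 12 + 1) * (q ^ 10 + 1) * (q ^ 6 + 1) = ([1, 7, 11, 13, 17, 19, 23, 29].map fun d => q ^ d).sum := by
    simp; ring
  replace h5 : k ∣ q ^ 120 * ([2, 8, 12, 14, 18, 20, 24, 30].map fun d => q ^ d - 1).prod := by
    simpa [mul_assoc] using h5
  have e2 : ∀ i ≤ 23, q ^ i ≤ q ^ 23 := fun i hi => Nat.pow_le_pow_right (by omega) hi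
  have e3 : 16 * q ^ 23 ≤ q ^ 27 := by
    rw [show q ^ 27 = q ^ 4 * q ^ 23 by ring]
    exact Nat.mul_le_mul_right _ (Nat.pow_le_pow_left q2 4)
  have e4 : q ^ 29 ≤ (q - 1) * (2 * q ^ 28) := by
    rw [show q ^ 29 = q * q ^ 28 by ring, ← mul_assoc]
    exact Nat.mul_le_mul_right _ (by omega)
  rw [e1] at hlt
  replace lo := (Nat.le_add_left _ _).trans (lo (by
    have := e2 1; have := e2 7; have := e2 11; have := e2 13; have := e2 17; have := e2 19
    simp only [List.map_cons, List.map_nil, List.sum_cons, List.sum_nil, Nat.reduceSub] at hlt ⊢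
    omega))
  obtain ⟨j, hj, h1⟩ : ∃ j, k + (j + 1) = ([1, 7, 11, 13, 17, 19, 23, 29].map fun d => q ^ d).sum ∧ j < 19 ∧ (q = 2 ∨ j < 8) := by
    refine ⟨([1, 7, 11, 13, 17, 19, 23, 29].map fun d => q ^ d).sum - (k + 1), by omega, ?_⟩
    by_cases h : q = 2
    · subst h
      have : (thE8.map fun x => if x.1 = true ∧ 2 = 2 then 0 else (2 - 1) * 2 ^ x.2).sum + 19 =
        ([1, 7, 11, 13, 17, 19, 23, 29].map fun d => 2 ^ d).sum := by decide +kernel
      omega
    · have : (thE8.map fun x => if x.1 = true ∧ q = 2 then 0 else (q - 1) * q ^ x.2).sum + 8 =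
        ([1, 7, 11, 13, 17, 19, 23, 29].map fun d => q ^ d).sum := by
        obtain ⟨r, rfl⟩ : ∃ r, q = r + 1 := ⟨q - 1, by omega⟩
        simp only [h, and_false, if_false, thE8, List.map_cons, List.map_nil, List.sum_cons, List.sum_nil, Nat.add_sub_cancel]
        ring
      omega
  by_cases hq : q < 100
  · refine sm8 q hq j h1.1 q2 h1.2 ?_
    rw [← hj, Nat.add_sub_cancel]
    exact Nat.mod_eq_zero_of_dvd h5
  · subst hf
    exact not_dvd (bz8 j (by omega)) pp (by omega) hj h5

end Cfsg.Agent.S2339
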