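import Cfsg.Statements.S2340
import Cfsg.Agent.H12.MD4
import Cfsg.Agent.H12.MD3
import Cfsg.Agent.H5.Central
import Cfsg.Agent.S1054
import Cfsg.Agent.S1063

set_option autoImplicit false
open Cfsg

namespace Cfsg.Agent.S2340
open H24 H12 H12.MD H12.StSys Cfsg.Lie H5 Module

/-- For the Chevalley group of type E₆ over a finite field with q elements (the group generated by the root elements), every irreducible complex representation of degree at least 2 has degree at least q(q⁶ + q³ + 1)(q⁴ + 1). -/
theorem result {F : Type*} [Field F] [Fintype F] :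
    (∀ (k : ℕ) (ρ : Representation ℂ (Cfsg.Lie.chevE6.group F) (Fin k → ℂ)), ρ.IsIrreducible → 2 ≤ k → Fintype.card F * (Fintype.card F ^ 6 + Fintype.card F ^ 3 + 1) * (Fintype.card F ^ 4 + 1) ≤ k) := by
  intro k ρ hρ hk
  classical
  by_contra hlt
  have hs := (S1054.result (F := F) chevE6 (by simp)).1
  have hinj : ∀ g, ρ g = 1 → g = 1 := fun g hg => by
    rcases hs.eq_bot_or_eq_top_of_normal (MonoidHom.ker ρ) (MonoidHom.normal_ker _) with h | h
    · exact (Subgroup.eq_bot_iff_forall _).1 h g hg
    · obtain ⟨x, hx⟩ := exists_ne_one_of_two_le ρ (by simpa using hk)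
      exact absurd ((Subgroup.eq_top_iff' _).1 h x) hx
  have h5 := ((isIrrCharacter_character ρ).degree_dvd_card (n := k) (by simp)).mul_left (Nat.gcd 3 (Fintype.card F - 1))
  obtain ⟨p, hp⟩ := CharP.exists F
  obtain ⟨f, pp, hf⟩ := FiniteField.card F p
  have q2 : 2 ≤ Fintype.card F := Fintype.one_lt_card
  have lo := lowerE6 (grS chevE6 F) ρ fun a ha h => by
    have := congrArg (fun g : chevE6.group F => (g : GL chevE6.Idx F).1) ((xN_lt _ ha 1).symm.trans (hinj _ h))
    exact one_ne_zero (xR_eq_one.1 this)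
  rw [S1063.result rfl] at h5
  rw [finrank_fintype_fun_eq_card, Fintype.card_fin] at lo
  generalize Fintype.card F = q at *
  have e1 : q * (q ^ 6 + q ^ 3 + 1) * (q ^ 4 + 1) = ([1, 4, 5, 7, 8, 11].map fun d => q ^ d).sum := by
    simp; ring
  replace h5 : k ∣ q ^ 36 * ([2, 5, 6, 8, 9, 12].map fun d => q ^ d - 1).prod := by
    simpa [mul_assoc] using h5
  have e2 : ∀ i, 2 * q ^ i ≤ q ^ (i + 1) := fun i => by rw [pow_succ']; exact Nat.mul_le_mul_right _ q2
  have e4 : q ^ 11 ≤ (q - 1) * (2 * q ^ 10) := by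
    rw [show q ^ 11 = q * q ^ 10 by ring, ← mul_assoc]
    exact Nat.mul_le_mul_right _ (by omega)
  rw [e1] at hlt
  replace lo := lo (by
    have := e2 1; have := e2 2; have := e2 3; have := e2 4; have := e2 5; have := e2 6; have := e2 7; have := e2 8
    simp only [List.map_cons, List.map_nil, List.sum_cons, List.sum_nil, Nat.reduceAdd] at *
    omega)
  have hj : k + (0 + 1) = ([1, 4, 5, 7, 8, 11].map fun d => q ^ d).sum := by omega
  by_cases hq : q < 900
  · have := sm6 q hq 0 (by omega) q2 (by omega) (by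
      rw [← hj, Nat.add_sub_cancel]
      exact Nat.mod_eq_zero_of_dvd h5)
    omega
  · subst hf
    exact not_dvd (bz6 0 (by omega)) pp (by omega) hj h5

end Cfsg.Agent.S2340
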