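import Cfsg.Statements.S2341
import Cfsg.Agent.H12.MD7
import Cfsg.Agent.H24.LSsl
import Cfsg.Agent.H5.Central
import Cfsg.Agent.S1066
import Cfsg.Agent.S1070

set_option autoImplicit false
open Cfsg

namespace Cfsg.Agent.S2341
open H24 H12 H12.MD H12.StSys Cfsg.Lie H5 Module

/-- For the twisted group ²E₆(q), realised over the field with q² elements (q a prime power), every irreducible complex representation of degree at least 2 has degree at least q(q⁶ − q³ + 1)(q⁴ + 1). -/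
theorem result {K : Type*} [Field K] [Fintype K] (q : ℕ) (hq : IsPrimePow q) (hK : Fintype.card K = q ^ 2) :
    (∀ (k : ℕ) (ρ : Representation ℂ (Cfsg.Lie.twistedE6 K q) (Fin k → ℂ)), ρ.IsIrreducible → 2 ≤ k → q * (q ^ 6 - q ^ 3 + 1) * (q ^ 4 + 1) ≤ k) := by
  intro k ρ hρ hk
  classical
  by_contra hlt
  obtain ⟨φ, hφ⟩ := exists_frob hq two_ne_zero hK
  have hs := (S1070.result hq hK).1
  have hinj : ∀ g, ρ g = 1 → g = 1 := fun g hg => by
    rcases hs.eq_bot_or_eq_top_of_normal (MonoidHom.ker ρ) (MonoidHom.normal_ker _) with h | h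
    · exact (Subgroup.eq_bot_iff_forall _).1 h g hg
    · obtain ⟨x, hx⟩ := exists_ne_one_of_two_le ρ (by simpa using hk)
      exact absurd ((Subgroup.eq_top_iff' _).1 h x) hx
  have h5 := ((isIrrCharacter_character ρ).degree_dvd_card (n := k) (by simp)).mul_left (Nat.gcd 3 (q + 1))
  have q2 := q_pos6 hφ hK
  have lo := lowerT hφ hK ρ hinj
  rw [S1066.result hq hK] at h5
  rw [finrank_fintype_fun_eq_card, Fintype.card_fin] at lo
  have q1 : 1 ≤ q := by omega
  have q3 : q ^ 3 ≤ q ^ 6 := Nat.pow_le_pow_right q1 (by omega)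
  zify [q1, q3, fun k => Nat.one_le_pow k q q1] at lo hlt h5
  have e5 : (k : ℤ) ∣ ev q MT := by
    convert h5 using 1
    simp only [MT, ev_mul, ev_add, ev_mono, ev]; ring
  have q2' : (2 : ℤ) ≤ q := by exact_mod_cast q2
  replace lo := lo (by
    have e2 : ∀ i, 2 * (q : ℤ) ^ i ≤ q ^ (i + 1) := fun i => by rw [pow_succ']; gcongr
    have e3 : ∀ i, (0 : ℤ) < q ^ i := fun i => by positivity
    have := e2 1; have := e2 4; have := e2 5; have := e2 6; have := e2 7; have := e3 4; have := e3 10; have := e3 2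
    have : 2 * (q : ℤ) ^ 10 ≤ q ^ 11 := e2 10
    simp only [Nat.reduceAdd] at *
    nlinarith)
  have e0 : ev q (PT 0) + 1 = q * (q ^ 6 - q ^ 3 + 1) * (q ^ 4 + 1) := by simp [PT, ev]; ring
  have e1 : ev q (PT 1) + 1 = ev q (PT 0) := by simp [PT, ev]; ring
  have e2 : ev q (PT 1) = (q - 1) * (q ^ 10 + q ^ 9 + q ^ 8 + q ^ 6 + q ^ 5 + 2 * q ^ 4 + q ^ 3 + q ^ 2 + q + 2) := by
    simp [PT, ev]; ring
  rw [← e0] at hlt
  rw [← e2] at lo
  rcases (by omega : (k : ℤ) = ev q (PT 0) ∨ (k : ℤ) = ev q (PT 1)) with h | h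
  exacts [not_dvdT q2 (by omega) (h ▸ e5), not_dvdT q2 (by omega) (h ▸ e5)]

end Cfsg.Agent.S2341
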