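import Cfsg.Statements.S2342
import Cfsg.Agent.H24.TriD
import Cfsg.Agent.H24.LSsl
import Cfsg.Agent.H5.Central
import Cfsg.Agent.S1067
import Cfsg.Agent.S1071

set_option autoImplicit false
open Cfsg

namespace Cfsg.Agent.S2342

open H24 H12 H12.StSys Cfsg.Lie H13 H5 Module

theorem arith {q n Z Y W Y0 W0 : ℕ} (hq : 2 ≤ q) (hc : Z ≤ W0 + q ^ 3 * Y0) (hD : Z + (q - 1) * q ^ 4 ≤ n)
    (p1 : q * Y0 + n ≤ q * Y + Z) (p2 : q * W0 + n ≤ q * W + Z) (cy : Y ≤ Z) (cw : W ≤ Z)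
    (h5 : n ∣ q ^ 12 * (q ^ 2 - 1) * (q ^ 6 - 1) * (q ^ 8 + q ^ 4 + 1)) : q * (q ^ 4 - q ^ 2 + 1) ≤ n := by
  have h1 : 1 ≤ q := by omega
  have h2 : q ^ 2 ≤ q ^ 4 := Nat.pow_le_pow_right h1 (by omega)
  obtain ⟨D, rfl⟩ : ∃ D, n = Z + D := ⟨n - Z, by omega⟩
  have a1 : q * Y0 + D ≤ q * Z := by nlinarith
  have a2 : q * W0 + D ≤ q * Z := by nlinarith
  have a3 : (q ^ 3 + 1) * D ≤ q ^ 4 * Z := by
    have := Nat.mul_le_mul_left q hc
    have := Nat.mul_le_mul_left (q ^ 3) a1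
    nlinarith
  have a4 : (q ^ 3 + 1) * (q - 1) ≤ Z := by
    refine Nat.le_of_mul_le_mul_left (le_trans (le_of_eq ?_) ((Nat.mul_le_mul_left (q ^ 3 + 1)
      (Nat.le_of_add_le_add_left hD)).trans a3)) (pow_pos h1 4)
    ring
  by_contra hlt
  have e : ((Z + D : ℕ) : ℤ) = (q - 1) * (q ^ 4 + q ^ 3 + 1) := by
    replace hD := Nat.le_of_add_le_add_left hD
    zify [h1, h2] at a4 hD hlt ⊢
    nlinarith
  zify [h1, fun k => Nat.one_le_pow k q h1] at h5 hq
  push_cast at e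
  rw [e, show (q : ℤ) ^ 12 * (q ^ 2 - 1) * (q ^ 6 - 1) * (q ^ 8 + q ^ 4 + 1) = (q - 1) * (q ^ 9 * ((q - 1) ^ 3 +
    (q ^ 4 + q ^ 3 + 1) * (1 - 3 * q + 3 * q ^ 2 - 3 * q ^ 3 + q ^ 4 + q ^ 7 - 2 * q ^ 8 + q ^ 9 + q ^ 14))) by ring,
    mul_dvd_mul_iff_left (by omega)] at h5
  have h6 : IsCoprime ((q : ℤ) ^ 4 + q ^ 3 + 1) ((q : ℤ) ^ 9) := IsCoprime.pow_right ⟨1, -((q : ℤ) ^ 3 + q ^ 2), by ring⟩
  have h7 := Int.le_of_dvd (pow_pos (show (0 : ℤ) < q - 1 by omega) 3) ((dvd_add_left (dvd_mul_right _ _)).1 (h6.dvd_of_dvd_mul_left h5))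
  have : (0 : ℤ) < q ^ 4 := by positivity
  nlinarith

/-- For the twisted group ³D₄(q), realised over the field with q³ elements (q a prime power), every irreducible complex representation of degree at least 2 has degree at least q(q⁴ − q² + 1). -/
theorem result {K : Type*} [Field K] [Fintype K] (q : ℕ) (hq : IsPrimePow q) (hK : Fintype.card K = q ^ 3) :
    (∀ (k : ℕ) (ρ : Representation ℂ (Cfsg.Lie.twistedD4 K q) (Fin k → ℂ)), ρ.IsIrreducible → 2 ≤ k → q * (q ^ 4 - q ^ 2 + 1) ≤ k) := by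
  intro n ρ hρ hn
  classical
  obtain ⟨φ, hφ⟩ := exists_frob hq three_ne_zero hK
  have h3 := phi3 hK hφ
  have hq2 := q_pos4 hK
  let S := adS chevD4 K
  let k := φ.eqLocusField (RingHom.id K)
  have hk : ∀ t : k, φ t = t := fun t => t.2
  have ck : Fintype.card k = q := by
    rw [← Nat.card_eq_fintype_card, ← card_fix (by omega) hK]
    exact Nat.card_congr (Equiv.subtypeEquivRight fun t => by
      change φ t = t ↔ t ^ q = t
      rw [hφ])
  let tr : K → k := fun x => ⟨x + φ x + φ (φ x), show φ _ = x + φ x + φ (φ x) by simp only [map_add, h3]; ring⟩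
  have htr : ∀ x, (tr x : K) = x + φ x + φ (φ x) := fun _ => rfl
  let nm : K → k := fun x => ⟨x * φ x * φ (φ x), show φ _ = x * φ x * φ (φ x) by simp only [map_mul, h3]; ring⟩
  have hnm : ∀ x, (nm x : K) = x * φ x * φ (φ x) := fun _ => rfl
  have tr_add : ∀ x y, tr (x + y) = tr x + tr y := fun x y => Subtype.ext (by simp [htr]; ring)
  have tr_mul : ∀ (c : k) x, tr (c * x) = c * tr x := fun c x => Subtype.ext (by simp [htr, hk]; ring)
  obtain ⟨x0, hx0⟩ := exists_tr_one hK hφ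
  replace hx0 : tr x0 = 1 := Subtype.ext hx0
  have tr_surj : ∀ u : K, u ≠ 0 → ∀ c : k, ∃ v, tr (u * v) = c := fun u hu c =>
    ⟨c * x0 / u, by rw [mul_div_cancel₀ _ hu, tr_mul, hx0, mul_one]⟩
  let G := twistedD4 K q
  obtain ⟨z, cz⟩ : ∃ z : k → G, ∀ t, (z t : GL chevD4.Idx K) = S.xN 23 t :=
    ⟨fun t => ⟨_, xN_mem4 hφ hK 23 (by decide +kernel) (hk t)⟩, fun _ => rfl⟩
  obtain ⟨y, cy⟩ : ∃ z : k → G, ∀ t, (z t : GL chevD4.Idx K) = S.xN 14 t :=
    ⟨fun t => ⟨_, xN_mem4 hφ hK 14 (by decide +kernel) (hk t)⟩, fun _ => rfl⟩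
  obtain ⟨w, cw⟩ : ∃ z : k → G, ∀ t, (z t : GL chevD4.Idx K) = S.xN 22 t :=
    ⟨fun t => ⟨_, xN_mem4 hφ hK 22 (by decide +kernel) (hk t)⟩, fun _ => rfl⟩
  obtain ⟨a, ca⟩ : ∃ a : K → G, ∀ s, (a s : GL chevD4.Idx K) = Ad S s (φ s) (φ (φ s)) :=
    ⟨fun s => ⟨_, Ad_mem hφ hK s⟩, fun _ => rfl⟩
  obtain ⟨T, cT⟩ : ∃ T : k × K × K × k → G, ∀ b, (T b : GL chevD4.Idx K) = Pd S b.1 b.2.1 (-φ b.2.1) (-φ (φ b.2.1)) *
      Rd S (-φ (φ b.2.2.1)) (-φ b.2.2.1) b.2.2.1 b.2.2.2 :=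
    ⟨fun b => ⟨_, mul_mem (Pd_mem hφ hK (hk b.1) b.2.1) (Rd_mem hφ hK (hk b.2.2.2) b.2.2.1)⟩, fun _ => rfl⟩
  have hz : ∀ s t, z (s + t) = z s * z t := fun s t => Subtype.ext (by simp [cz, xN_add])
  have hy : ∀ s t, y (s + t) = y s * y t := fun s t => Subtype.ext (by simp [cy, xN_add])
  have hw : ∀ s t, w (s + t) = w s * w t := fun s t => Subtype.ext (by simp [cw, xN_add])
  have zy : ∀ s t, Commute (z t) (y s) := fun s t => Subtype.ext (by
    simpa [cz, cy] using (z_comm S 14 (by simp) t s).eq)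
  have zw : ∀ s t, Commute (z t) (w s) := fun s t => Subtype.ext (by
    simpa [cz, cw] using (z_comm S 22 (by simp) t s).eq)
  have za : ∀ s t, Commute (z t) (a s) := fun s t => Subtype.ext (by simpa [cz, ca] using (z_Ad S _ _ _ _).eq)
  have zT : ∀ b t, Commute (z t) (T b) := fun b t => Subtype.ext (by
    simpa [cz, cT] using ((z_Pd S _ _ _ _ _).mul_right (z_Rd S _ _ _ _ _)).eq)
  let f : k × K × K × k → k × K × K × k → k := fun b c => tr (c.2.1 * b.2.2.1) - b.2.2.2 * c.1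
  have hT : ∀ b c, T b * T c = T (b + c) * z (f b c) := fun b c => Subtype.ext (by
    simp only [Subgroup.coe_mul, cT, cz, PR_mul]
    simp only [f, htr, Prod.fst_add, Prod.snd_add, map_add, _root_.neg_add, Subfield.coe_add, Subfield.coe_sub,
      Subfield.coe_mul, map_mul, neg_mul_neg]
    rw [sub_eq_add_neg])
  have hyw : ∀ c t, w t * y c = y c * w t * z (-1 * t * c) := fun c t => Subtype.ext (by
    simpa [Pd, Rd, cy, cw, cz] using Rd_Pd S t 0 0 0 c 0 0 0)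
  have hyw' : ∀ c t, y t * w c = w c * y t * z (1 * t * c) := fun c t => by
    rw [hyw, mul_assoc, ← hz]
    simp [mul_comm t c, show z 0 = 1 by simpa using hz 0 0]
  have hs := (S1071.result hq hK).1
  have hinj : ∀ g : G, ρ g = 1 → g = 1 := fun g hg => by
    rcases hs.eq_bot_or_eq_top_of_normal (MonoidHom.ker ρ) (MonoidHom.normal_ker _) with h | h
    · exact (Subgroup.eq_bot_iff_forall _).1 h g hg
    · obtain ⟨x, hx⟩ := exists_ne_one_of_two_le ρ (by simpa using hn)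
      exact absurd ((Subgroup.eq_top_iff' _).1 h x) hx
  let r (i : Fin 24) : Φ chevD4 := i
  have hr : ∀ (i : Fin 24) t, S.xN i t = S.x (r i) t := fun i t => xN_val S (r i) t
  have n14 : ∀ t : Kˣ, φ t = t → S.n (r 14) t ∈ G := fun t ht => n_mem4 hφ hK _ (by decide +kernel) ht
  have hD := heis_D ρ hz T zT (fun b c => f b c - f c b) (fun b c => by
      rw [hT, hT, add_comm c, mul_assoc, ← hz, add_sub_cancel]) (fun b b' hb c => by
      have e : ∀ x, f b x - f x b = f (b - b') x - f x (b - b') + (f b' x - f x b') := fun x => Subtype.ext (by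
        simp [f, htr]; ring)
      simp only [e, add_left_inj]
      obtain ⟨⟨t, u, v, t'⟩, hd⟩ : ∃ d, d = b - b' := ⟨_, rfl⟩
      have h0 : tr 0 = 0 := by simpa using tr_add 0 0
      rw [← hd]
      by_cases h1 : t = 0
      · by_cases h2 : t' = 0
        · by_cases h4 : u = 0
          · obtain ⟨x, hx⟩ := tr_surj v (fun h5 => sub_ne_zero.2 hb (by simp [← hd, h1, h2, h4, h5])) c
            exact ⟨(0, x, 0, 0), by simp [f, h0, ← hx, mul_comm]⟩
          · obtain ⟨x, hx⟩ := tr_surj u h4 (-c)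
            exact ⟨(0, 0, x, 0), by simp [f, h0, hx]⟩
        · exact ⟨(-c / t', 0, 0, 0), by simp [f, h0]; field_simp⟩
      · exact ⟨(0, 0, 0, c / t), by simp [f, h0, h1]⟩)
    (fun l hl => by
      have hl' : (l : K) ≠ 0 := fun h => hl (Subtype.ext h)
      refine ⟨(⟨S.h (r 14) (Units.mk0 l hl'), mul_mem (n14 _ (hk l)) (n14 _ (by simp))⟩ : G)⁻¹, fun t => ?_⟩
      rw [eq_inv_mul_iff_mul_eq, ← mul_assoc]
      have := S.h_conj_x (r 14) (r 23) (Units.mk0 l hl') t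
      rw [← pr_tab, show (tab chevD4).pr (r 14) (r 23) = 1 by rw [tabD4_eq]; decide +kernel, ← hr, ← hr] at this
      exact Subtype.ext (by simpa [cz] using this))
    ⟨1, fun h => one_ne_zero (xR_eq_one.1 (congrArg Units.val
      ((hr 23 1).symm.trans ((cz 1).symm.trans (congrArg Subtype.val (hinj _ h))))))⟩ (r := q ^ 4) (by simp [ck, hK]; ring_nf; rfl)
  have cj : ∀ i j : Fin 24, S.n (r i) 1 ∈ G → rf (r i) (r j) = r 23 → ∃ g : G, ∀ t : k, ∃ t' : k,
      S.xN 23 t * g = g * S.xN j t' := fun i j h1 h2 => ⟨⟨_, h1⟩, fun t => by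
    have e := S.n_conj_x' (r i) (r j) 1
    rw [h2, one_zpow, mul_one] at e
    rcases ηu_pm (F := K) (r i) (r j) with h | h <;> rw [h] at e
    · exact ⟨t, by rw [hr j, mul_inv_eq_iff_eq_mul.1 (e t)]; simp [← hr]⟩
    · exact ⟨-t, by rw [hr j, mul_inv_eq_iff_eq_mul.1 (e _)]; simp [← hr]⟩⟩
  have dy : finrank ℂ (fx ρ y) ≤ finrank ℂ (fx ρ z) := by
    obtain ⟨g, hg⟩ := cj 22 14 (n_mem4 hφ hK _ (by decide +kernel) (by simp))
      (rf_eq_of_tab (by rw [tabD4_eq]; decide +kernel))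
    exact Act.finrank_le_of_map (rep_inj' ρ g) fun v => fx_map ρ fun t => (hg t).imp fun _ h => Subtype.ext (by
      simpa [cz, cy] using h)
  have dw : finrank ℂ (fx ρ w) ≤ finrank ℂ (fx ρ z) := by
    obtain ⟨g, hg⟩ := cj 14 22 (n14 1 (by simp)) (rf_eq_of_tab (by rw [tabD4_eq]; decide +kernel))
    exact Act.finrank_le_of_map (rep_inj' ρ g) fun v => fx_map ρ fun t => (hg t).imp fun _ h => Subtype.ext (by
      simpa [cz, cw] using h)
  have p1 := heis_pair ρ hz hy zy zw one_ne_zero hyw'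
  have p2 := heis_pair ρ hz hw zw zy (neg_ne_zero.2 one_ne_zero) hyw
  obtain ⟨ψ, hψ⟩ := exists_addChar_complex k
  let E1 : Pairing K K ℂ := Pairing.ofBilin ψ (fun u v => tr (u * v)) (fun _ _ _ => by rw [add_mul, tr_add])
    (fun _ _ _ => by rw [mul_add, tr_add])
    (fun u h => by
      by_contra hu
      refine hψ (AddChar.ext _ _ fun c => ?_)
      obtain ⟨v, rfl⟩ := tr_surj u hu c
      exact h v)
    (fun u h => by
      by_contra hu
      refine hψ (AddChar.ext _ _ fun c => ?_)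
      obtain ⟨v, rfl⟩ := tr_surj u hu c
      rw [mul_comm]
      exact h v)
  let E := (mulPairing hψ).prod (E1.prod (E1.prod (mulPairing hψ)))
  have hE : ∀ b c, E.e b c = ψ (b.1 * c.1 + (tr (b.2.1 * c.2.1) + (tr (b.2.2.1 * c.2.2.1) + b.2.2.2 * c.2.2.2))) :=
    fun b c => by simp only [AddChar.map_add_eq_mul]; rfl
  have hc := cover_bound ρ E T zT (fun b c => ⟨_, hT b c⟩)
    (fun o : Option K => o.elim w fun s t => a s * y t * (a s)⁻¹) fun ⟨α, β, γ, δ⟩ => by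
      by_cases h0 : δ = 0
      · refine ⟨none, fun t => ⟨(0, 0, 0, t), 0, by simp [hE, h0, show tr 0 = 0 by simpa using tr_add 0 0], ?_⟩⟩
        exact Subtype.ext (by simp [cT, cw, cz, Pd, Rd])
      obtain ⟨s, hs⟩ := exists_cubic_root hK hφ (hk α) (hk δ) (fun h => h0 (Subtype.ext h)) β γ
      refine ⟨some s, fun t => ⟨(t, -(t * s), t * (φ s * φ (φ s)), -(t * nm s)), -(t * t * nm s), ?_, ?_⟩⟩
      · rw [hE, ← ψ.map_zero_eq_one]
        refine congrArg ψ (Subtype.ext ?_)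
        simp only [map_mul, h3] at hs
        simp [htr, hnm, hk, h3]
        linear_combination t * hs
      · refine mul_inv_eq_iff_eq_mul.2 (Subtype.ext ?_)
        simp only [Subgroup.coe_mul, ca, cy, cT, cz, Ad_x]
        simp [hk, h3, hnm, mul_comm (φ (φ s)) s, mul_comm (φ s) s]
  rw [Fintype.sum_option] at hc
  have h4 := Finset.sum_le_card_nsmul Finset.univ (fun s => finrank ℂ ↥(fx ρ (fun t => a s * y t * (a s)⁻¹) ⊓ fx ρ z))
    (finrank ℂ ↥(fx ρ y ⊓ fx ρ z)) fun s _ => Act.finrank_le_of_map (rep_inj' ρ (a s)⁻¹) fun v hv =>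
      ⟨fx_map ρ (fun t => ⟨t, by group⟩) hv.1, fx_map ρ (fun t => ⟨t, (za s t).inv_right⟩) hv.2⟩
  have h5 := (isIrrCharacter_character ρ).degree_dvd_card (n := n) (by simp)
  rw [S1067.result hq hK] at h5
  simp only [Option.elim, Finset.card_univ, hK, smul_eq_mul, ck, finrank_fintype_fun_eq_card, Fintype.card_fin] at hc h4 hD p1 p2
  replace hc := hc.trans (Nat.add_le_add_left h4 _)
  exact arith hq2 hc hD p1 p2 dy dw h5

end Cfsg.Agent.S2342
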