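import Cfsg.Statements.S2344
import Cfsg.Agent.H24.OP4

set_option autoImplicit false
open Cfsg

namespace Cfsg.Agent.S2344

open H24 H11 H11.PForm H5 Module

/-- the bound -/
def T (q : ℤ) : ℕ → ℤ
  | 0 => q ^ 4 + q ^ 2 + 1
  | k + 1 => T q k + q ^ (2 * k + 6)

theorem T_mul (q : ℤ) (k : ℕ) : (q ^ 2 - 1) * T q k = q ^ (2 * k + 6) - 1 := by
  induction k with
  | zero => simp only [T]; ring
  | succ k ih => simp only [T]; linear_combination ih

theorem T_le {q : ℤ} (hq : 2 ≤ q) (k : ℕ) : T q k ≤ 2 * (q ^ (2 * (k + 2)) - q ^ (k + 2)) := by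
  have a0 : 0 < q ^ 2 - 1 := by nlinarith
  refine le_of_mul_le_mul_left ?_ a0
  rw [T_mul]
  obtain ⟨x, hx⟩ : ∃ x, x = q ^ (k + 2) := ⟨_, rfl⟩
  have h1 : q ^ 2 ≤ x := hx ▸ pow_le_pow_right₀ (by omega) (by omega)
  rw [show q ^ (2 * k + 6) = q ^ 2 * x ^ 2 by rw [hx]; ring, show q ^ (2 * (k + 2)) = x ^ 2 by rw [hx]; ring, ← hx]
  have h2 : 4 ≤ q ^ 2 := by nlinarith
  have h3 : 0 ≤ x * ((q ^ 2 - 2) * (x - 4) + 2 * (q ^ 2 - 3)) :=
    mul_nonneg (by omega) (add_nonneg (mul_nonneg (by omega) (by omega)) (by omega))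
  nlinarith

theorem exists_sub {G M : Type*} [Group G] [Finite G] [AddCommGroup M] [Module ℂ M] [FiniteDimensional ℂ M]
    (ρ : G →* End ℂ M) {m : M} (m0 : m ≠ 0) (hm : ∀ g, ρ g m = m) (hN : ∃ g, ρ g ≠ 1) :
    ∃ p : Submodule ℂ M, finrank ℂ p < finrank ℂ M ∧ ∃ σ : G →* End ℂ p, ∃ g, σ g ≠ 1 := by
  have h0 : ∀ g, ∀ v ∈ ℂ ∙ m, ρ g v = v := fun g v hv => by
    obtain ⟨c, rfl⟩ := Submodule.mem_span_singleton.1 hv
    rw [map_smul, hm]
  obtain ⟨π, π1, π2, π3⟩ := exists_eqv_proj ρ ⊤ (ℂ ∙ m) fun g _ v hv => (h0 g v hv).symm ▸ hv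
  obtain ⟨g, hg⟩ := hN
  refine ⟨LinearMap.ker π, Submodule.finrank_lt fun h => m0 ?_, Representation.subrepresentation ρ _ fun g v hv => ?_, g,
    fun h => hg (LinearMap.ext fun v => ?_)⟩
  · rw [← π2 m (Submodule.mem_span_singleton_self m), LinearMap.ker_eq_top.1 h, LinearMap.zero_apply]
  · exact (π3 g trivial v).trans ((congrArg _ hv).trans (map_zero _))
  · have h1 : ρ g (v - π v) = v - π v :=
      congrArg Subtype.val (LinearMap.congr_fun h ⟨v - π v, by simp [π2 _ (π1 v)]⟩)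
    rwa [map_sub, h0 g _ (π1 v), sub_left_inj] at h1

universe u
variable {F : Type*} [Field F] [Fintype F]

theorem sph_odd {V : Type u} [AddCommGroup V] [Module F V] [FiniteDimensional F V] {S : PForm (orthP F) V} (hS : S.Nondeg)
    {m : ℕ} (hV : finrank F V = 2 * m + 1) : (sph S 0 : ℤ) = Fintype.card F ^ (2 * m) - 1 ∧
      ∀ c, (Fintype.card F ^ (2 * m) - Fintype.card F ^ m : ℤ) ≤ sph S c := by
  have h1 : (1 : ℤ) ≤ Fintype.card F ^ m := one_le_pow₀ (by exact_mod_cast Fintype.card_pos)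
  refine ⟨by simp [sph_eq, orth_cnt_odd 0 m hS hV], fun c => ?_⟩
  rw [sph_eq, orth_cnt_odd c m hS hV, Nat.card_eq_fintype_card]
  split_ifs
  · omega
  · obtain h | h := Int.units_eq_one_or (sqSign c * sqSign (-1 : F) ^ m * hS.disc) <;> rw [h] <;> simp <;> omega

theorem bound (hq : 3 < Fintype.card F) (k : ℕ) : ∀ {V : Type u} [AddCommGroup V] [Module F V] [FiniteDimensional F V]
    {S : PForm (orthP F) V} (_ : S.Nondeg) (_ : finrank F V = 2 * k + 7) {M : Type} [AddCommGroup M] [Module ℂ M]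
    [FiniteDimensional ℂ M] (ρ : S.E →* End ℂ M), (∃ g, ρ g ≠ 1) → T (Fintype.card F) k ≤ finrank ℂ M := by
  obtain ⟨ψ, hψ⟩ := exists_addChar_complex F
  induction k using Nat.strong_induction_on with
  | _ k ih =>
  intro V _ _ _ S hS hV M _ _ _ ρ hN
  by_contra hlt
  have hW : ∀ {e f} (H : S.IsHyp e f), finrank F (OW S e f) = 2 * (k + 2) + 1 := fun H => by
    have := OW_finrank H
    omega
  have sp : ∀ {e f} (H : S.IsHyp e f), _ := fun {e f} H =>
    sph_odd (S := S.restrict (OW S e f)) (hS.restrict_perp H.nondeg) (hW H)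
  have hs : ∀ e, S.q e = 0 → e ≠ 0 → Sph e ρ ψ 0 := fun e he h0 => by
    obtain ⟨f, H⟩ := hS.exists_isHyp ((orth_sing _ _).2 he) h0
    obtain ⟨c, hc⟩ := one_sph H ρ hψ hS (by omega) hN fun c => by
      have := T_le (q := Fintype.card F) (by omega) k
      have := (sp H).2 c
      zify
      omega
    by_contra h
    have c0 : c ≠ 0 := fun h' => h (h' ▸ hc)
    obtain ⟨w, hw⟩ := (hS.restrict_perp H.nondeg).orth_exists_q_eq (by have := H.finrank_perp; omega) c
    replace hw : S.q w = c := hw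
    have w0 : w ≠ 0 := fun h => c0 (by rw [← hw, h]; exact S.orth_q_zero)
    obtain ⟨s, s0, s1⟩ := exists_sq_ne_one (F := F) (by rw [Nat.card_eq_fintype_card]; omega)
    obtain ⟨g, hg⟩ := exists_E_adjust hS (by omega) (H.tor (Units.mk0 s⁻¹ (inv_ne_zero s0))) (X := {s⁻¹ • e, w.1}) fun a => by
      obtain ⟨y, y1, y2⟩ := exists_perp_q (hS.restrict_perp H.nondeg) (Or.inl (by have := H.finrank_perp; omega)) w0 a
      exact ⟨y, by simpa [OW_e y] using y1, y2⟩
    have g1 : g.1.1 e = s⁻¹ • e := (hg e (by simp)).trans (H.tor_e _)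
    have g2 : g.1.1 w = w := (hg w (by simp [H.tor_perp _ w.2])).trans (H.tor_perp _ w.2)
    have h1 := hc w (OW_e w) (OW_notMem H w0)
    have h2 := hc (s • w : OW S e f) (OW_e _) (OW_notMem H (smul_ne_zero s0 w0))
    rw [if_neg (by simpa [orth_q_smul, hw, c0] using s1)] at h2
    have h3 : finrank ℂ (OJ ρ ψ e w) ≤ finrank ℂ (OJ ρ ψ e (s • w : OW S e f)) :=
      Act.finrank_le_of_map (rep_inj' ρ g) fun m hm => by
        have := OJ_map g hm
        rwa [g1, g2, ← OJ_smul (by simp [orth_q_smul, he]) _ s0, smul_inv_smul₀ s0] at this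
    rw [if_pos hw] at h1
    omega
  obtain ⟨e, w, h⟩ := exists_tsp hS (by omega)
  obtain ⟨f, z, fr⟩ := h.exists_fr hS
  have h1 := (hs e h.1 h.ne).finrank_eq fr.H ρ hψ hS
  zify at h1
  rw [(sp fr.H).1] at h1
  obtain _ | k := k
  · have h2 := levi_le hS hψ hV hq hs fr
    zify at h2
    rw [(sph_odd (fr.nondeg hS) (m := 1) (by have := fr.finrank; omega)).1] at h2
    simp only [T] at hlt
    norm_num at h1 h2
    omega
  have : Finite V := Module.finite_of_finite F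
  have : Finite (S.restrict (OW S e f)).Isom :=
    Finite.of_injective (fun g (x : OW S e f) => g.1 x) fun _ _ h => isom_ext (congrFun h)
  obtain ⟨⟨m, m0, hm⟩, h2, -⟩ := levi_facts hS hψ hV hq hs fr
  obtain ⟨p, h3, σ, h4⟩ := exists_sub _ m0 hm h2
  have h5 := ih k (by omega) (hS.restrict_perp fr.H.nondeg) (hW fr.H) σ h4
  simp only [T] at hlt
  rw [show 2 * (k + 1 + 2) = 2 * k + 6 by ring] at h1
  omega

/-- For a finite field F of odd order q > 3 and n ≥ 3, every irreducible complex representation of degree at least 2 of Ω_{2n+1}(F) (the commutator subgroup of the isometry group of the quadratic form x₀² + x₁y₁ + ⋯ + x_ny_n) has degree at least (q^{2n} − 1)/(q² − 1). -/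
theorem result {F : Type*} [Field F] [Fintype F] (n : ℕ) (hn : 3 ≤ n) (hodd : Odd (Fintype.card F)) (h3 : 3 < Fintype.card F) :
    (∀ (k : ℕ) (ρ : Representation ℂ (Cfsg.Omega F (Cfsg.quadFormOdd n F)) (Fin k → ℂ)), ρ.IsIrreducible → 2 ≤ k → (Fintype.card F ^ (2 * n) - 1) / (Fintype.card F ^ 2 - 1) ≤ k) := by
  intro k ρ hρ hk
  obtain ⟨m, rfl⟩ : ∃ m, n = m + 3 := ⟨n - 3, by omega⟩
  have hS := sOdd_nondeg (m + 3) (two_ne_zero_iff_odd.2 hodd)
  have hV := finrank_odd_fun (F := F) (m + 3)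
  let e : Cfsg.Omega F (Cfsg.quadFormOdd (m + 3) F) ≃* (sOdd (m + 3) F).E :=
    (omegaEquiv (qOdd (m + 3) F)).trans
      (MulEquiv.subgroupCongr (hS.orth_commutator_eq_E (Or.inr (Or.inl (by omega))) (by omega)))
  obtain ⟨x, hx⟩ := exists_ne_one_of_two_le ρ (by simpa using hk)
  have h := bound h3 m hS hV (MonoidHom.comp ρ e.symm.toMonoidHom) ⟨e x, by simpa using hx⟩
  have h1 : 1 ≤ Fintype.card F := Fintype.card_pos
  have h2 : 1 ≤ Fintype.card F ^ 2 := Nat.one_le_pow _ _ h1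
  refine Nat.div_le_of_le_mul ?_
  zify [h2, Nat.one_le_pow (2 * (m + 3)) _ h1]
  exact (T_mul _ m).symm.le.trans (mul_le_mul_of_nonneg_left (by simpa using h) (sub_nonneg.2 (by exact_mod_cast h2)))

end Cfsg.Agent.S2344
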