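import Cfsg.Statements.S2345
import Cfsg.Agent.H24.OmP

set_option autoImplicit false
open Cfsg

namespace Cfsg.Agent.S2345

open H24 H11 H11.PForm H5 Module

theorem arith1 {q m d : ℕ} (hq : 4 ≤ q) (h : (d + 1) * (q ^ 2 - 1) ≤ (q ^ (m + 4) - 1) * (q ^ (m + 3) + q)) :
    d < 2 * (q ^ (m + 3) - 1) * q ^ (m + 2) := by
  have h1 : 1 ≤ q := by omega
  refine Nat.lt_of_succ_le (Nat.le_of_mul_le_mul_right (h.trans ?_) (c := q ^ 2 - 1)
    (Nat.sub_pos_of_lt (Nat.one_lt_pow two_ne_zero (by omega))))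
  obtain ⟨x, hx⟩ : ∃ x, x = q ^ (m + 2) := ⟨_, rfl⟩
  have h2 : q ^ 2 ≤ x := hx ▸ Nat.pow_le_pow_right h1 (by omega)
  have h3 : 1 ≤ q ^ 2 := Nat.one_le_pow _ _ h1
  rw [show q ^ (m + 4) = q ^ 2 * x by rw [hx]; ring, show q ^ (m + 3) = q * x by rw [hx]; ring, ← hx]
  have h4 : 1 ≤ q * x := by nlinarith
  have h5 : 1 ≤ q ^ 2 * x := by nlinarith
  zify [h3, h4, h5] at *
  have a1 : (16 : ℤ) ≤ q ^ 2 := by nlinarith
  have a2 : (q : ℤ) * q ^ 2 ≤ q * x := by nlinarith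
  have a3 : (16 : ℤ) * (q * x) ≤ q ^ 2 * (q * x) := mul_le_mul_of_nonneg_right a1 (by positivity)
  have a4 : (q : ℤ) ^ 3 + 2 * q ^ 2 + 2 * (q * x) ≤ q ^ 3 * x := by nlinarith
  nlinarith [mul_le_mul_of_nonneg_right a4 (show (0 : ℤ) ≤ x by positivity)]

theorem arith2 {q m d J R G : ℕ} (hq : 4 ≤ q) (h : (d + 1) * (q ^ 2 - 1) ≤ (q ^ (m + 4) - 1) * (q ^ (m + 3) + q))
    (h1 : J + R = d) (h2 : (q ^ (m + 4) - 1) * (q ^ (m + 3) - 1) ≤ (q ^ 2 - 1) * R) (h3 : G - 1 ≤ J)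
    (h4 : G * (q - 1) = q ^ (m + 4) - 1)
    (h5 : (d : ℤ) ∣ ((q : ℤ) ^ (m + 3 + 1) - 1) * (q ^ (m + 3) + 1) *
      (q ^ (2 * (m + 3)) + q ^ (m + 3 + 1) - q ^ (m + 3) - q) * q ^ (2 * (m + 2) + 1)) : False := by
  have h0 : 1 ≤ q := by omega
  replace h3 : G ≤ J + 1 := by omega
  zify [h0, fun k => Nat.one_le_pow k q h0] at h h1 h2 h3 h4 hq
  obtain ⟨x, hx⟩ : ∃ x : ℤ, x = q ^ (m + 3) := ⟨_, rfl⟩
  have hx' : (q : ℤ) ^ (m + 4) = q * x := by rw [hx]; ring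
  rw [hx', ← hx] at h h2
  rw [hx'] at h4
  have a0 : (0 : ℤ) < q ^ 2 - 1 := by nlinarith
  have e : (q ^ 2 - 1 : ℤ) * d = (x - 1) * (q * x + q ^ 2 + q - 1) := by
    have := mul_le_mul_of_nonneg_left h3 a0.le
    have e : (q ^ 2 - 1 : ℤ) * G = (q + 1) * (q * x - 1) := by rw [← h4]; ring
    apply le_antisymm <;> nlinarith
  have x1 : 1 < x := hx ▸ one_lt_pow₀ (by omega) (by omega)
  rw [show m + 3 + 1 = m + 4 from rfl, hx', mul_comm 2 (m + 3), pow_mul, ← hx] at h5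
  have h6 := mul_dvd_mul_left (q ^ 2 - 1 : ℤ) h5
  rw [e, show ∀ y : ℤ, (q ^ 2 - 1 : ℤ) * ((q * x - 1) * (x + 1) * (x ^ 2 + q * x - x - q) * y) =
    (x - 1) * ((q ^ 2 - 1) * (q * x - 1) * (x + 1) * (x + q) * y) from fun y => by ring,
    mul_dvd_mul_iff_left (by omega)] at h6
  have c : ∀ k, IsCoprime (q * x + q ^ 2 + q - 1 : ℤ) (q ^ k) := fun k => IsCoprime.pow_right ⟨-1, x + q + 1, by ring⟩
  have h7 := ((c _).dvd_of_dvd_mul_right h6).mul_left (q ^ 2)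
  obtain ⟨E, hE⟩ : ∃ E : ℤ, E = q * x + q ^ 2 + q - 1 := ⟨_, rfl⟩
  have h8 : (q : ℤ) ^ 2 * ((q ^ 2 - 1) * (q * x - 1) * (x + 1) * (x + q)) =
      (q ^ 2 - 1) * (E - q * (q + 1)) * (E - (q ^ 2 - 1)) * (E - (q - 1)) := by rw [hE]; ring
  rw [h8, ← hE, show ∀ a b c d : ℤ, a * (E - b) * (E - c) * (E - d) =
    E * (a * (E ^ 2 - (b + c + d) * E + b * c + b * d + c * d)) - a * b * c * d from fun a b c d => by ring,
    dvd_sub_right (dvd_mul_right _ _), show (q ^ 2 - 1 : ℤ) * (q * (q + 1)) * (q ^ 2 - 1) * (q - 1) =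
      (q ^ 2 - 1) ^ 3 * q ^ 1 by ring] at h7
  have h9 := (hE ▸ c 1).dvd_of_dvd_mul_right h7
  have q0 : (0 : ℤ) < q := by omega
  have qq : ∀ k, (4 : ℤ) * q ^ k ≤ q ^ (k + 1) := fun k => by
    rw [pow_succ']
    exact mul_le_mul_of_nonneg_right hq (by positivity)
  have q1 := qq 1
  have q2 := qq 2
  have q3 := qq 3
  have q4 := qq 4
  clear h5 h6 h7 h8 c e h h2 h4 qq
  obtain _ | _ | m := m
  · rw [show (q ^ 2 - 1 : ℤ) ^ 3 = E * (q ^ 2 - 4) + (-q ^ 3 + 8 * q ^ 2 + 4 * q - 5) by rw [hE, hx]; ring,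
      dvd_add_right (dvd_mul_right _ _)] at h9
    have := Int.eq_zero_of_abs_lt_dvd h9 (abs_lt.2 (by rw [hE, hx]; constructor <;> nlinarith))
    rcases le_or_gt (q : ℤ) 8 with h | h <;> nlinarith
  · rw [show (q ^ 2 - 1 : ℤ) ^ 3 = E * q - (3 * q ^ 4 + q ^ 3 - 2 * q ^ 2 - q + 1) by rw [hE, hx]; ring,
      dvd_sub_right (dvd_mul_right _ _)] at h9
    have := Int.le_of_dvd (by nlinarith) h9
    rw [hE, hx] at this
    nlinarith
  · have := Int.le_of_dvd (pow_pos a0 3) h9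
    have h10 : (q : ℤ) ^ 5 ≤ x := hx ▸ pow_le_pow_right₀ (by omega) (by omega)
    nlinarith

/-- For a finite field F with q > 3 elements and n ≥ 4, every irreducible complex representation of degree at least 2 of Ω⁺_{2n}(F) (the commutator subgroup of the isometry group of the hyperbolic quadratic form x₁y₁ + ⋯ + x_ny_n) has degree at least (q^n − 1)(q^{n−1} + q)/(q² − 1). -/
theorem result {F : Type*} [Field F] [Fintype F] (n : ℕ) (hn : 4 ≤ n) (h3 : 3 < Fintype.card F) :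
    (∀ (k : ℕ) (ρ : Representation ℂ (Cfsg.Omega F (Cfsg.quadFormPlus n F)) (Fin k → ℂ)), ρ.IsIrreducible → 2 ≤ k → (Fintype.card F ^ n - 1) * (Fintype.card F ^ (n - 1) + Fintype.card F) / (Fintype.card F ^ 2 - 1) ≤ k) := by
  intro k ρ hρ hk
  classical
  obtain ⟨m, rfl⟩ : ∃ m, n = m + 4 := ⟨n - 4, by omega⟩
  have hS := sPlus_nondeg (m + 4) F
  have hV := finrank_sum_fun (F := F) (m + 4)
  let e : Cfsg.Omega F (Cfsg.quadFormPlus (m + 4) F) ≃* (sPlus (m + 4) F).E := (omegaEquiv (qPlus (m + 4) F)).trans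
    (MulEquiv.subgroupCongr (hS.orth_commutator_eq_E (Or.inr (Or.inl (by omega))) (by omega)))
  let ρ' : (sPlus (m + 4) F).E →* End ℂ (Fin k → ℂ) := MonoidHom.comp ρ e.symm.toMonoidHom
  obtain ⟨x, hx⟩ := exists_ne_one_of_two_le ρ (by simpa using hk)
  have hN : ∃ g, ρ' g ≠ 1 := ⟨e x, by simpa [ρ'] using hx⟩
  obtain ⟨c, hc, hc'⟩ := exists_sq_ne_one (F := F) (by rw [Nat.card_eq_fintype_card]; omega)
  rw [sq] at hc'
  obtain ⟨ψ, hψ⟩ := exists_addChar_complex F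
  by_contra hlt
  have hd := (Nat.le_div_iff_mul_le (Nat.sub_pos_of_lt (Nat.one_lt_pow two_ne_zero (by omega)))).1 (not_le.1 hlt)
  have h4 : 3 ≤ m + 4 := by omega
  have : Finite (Fin (m + 4) ⊕ Fin (m + 4) → F) := inferInstance
  have : Finite (sPlus (m + 4) F).E := inferInstance
  have : Fintype ((Fin (m + 4) → F) →ₗ[F] (Fin (m + 4) → F) →ₗ[F] F) := by
    have : Finite ((Fin (m + 4) → F) →ₗ[F] (Fin (m + 4) → F) →ₗ[F] F) := Module.finite_of_finite F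
    exact Fintype.ofFinite _
  have i0 : LinearIndependent F ![(Pi.single 0 1 : Fin (m + 4) → F), Pi.single 1 1] :=
    LinearIndependent.pair_iff.2 fun s t h => ⟨by simpa using congrFun h 0, by simpa using congrFun h 1⟩
  have i1 : ∀ g : (sPlus (m + 4) F).Isom,
      LinearIndependent F ![g.1 (ιU _ F (Pi.single 0 1)), g.1 (ιU _ F (Pi.single 1 1))] := fun g =>
    LinearIndependent.pair_iff.2 fun s t h => by
      rw [← map_smul g.1, ← map_smul g.1, ← map_add, LinearEquiv.map_eq_zero_iff] at h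
      exact ⟨by simpa using congrFun h (.inl 0), by simpa using congrFun h (.inl 1)⟩
  have sm := fun g => (omS h4 g).small ρ' hψ (by simp) hc hc'
    ⟨_, _, ee_ne_one hS (by omega) ρ' hN (q_ιU g _) (q_ιU g _) (h_ιU g _ _) (i1 g)⟩ (by simpa using arith1 h3 hd)
  simp only [finrank_fintype_fun_eq_card, Fintype.card_fin] at sm
  obtain ⟨A, v, hv, hA⟩ := om_fixed h4 ρ' hψ hc hc' (sm 1).1 fun g => by
    have := (sm g).2.1
    have := (sm 1).2.1
    omega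
  let τ : Representation ℂ (Matrix.SpecialLinearGroup (Fin (m + 4)) F) ((omS h4 1).J ρ' ψ 0) :=
    Representation.subrepresentation (ρ'.comp (levS h4)) _ fun A v hv => ASys.J_map (levS_s h4 A) (fun _ _ => rfl) hv
  have h5 := SL_min_degree h4 (by simp; omega) τ ⟨A, fun h => hA (congrArg Subtype.val (LinearMap.congr_fun h ⟨v, hv⟩))⟩
  let I := {p : (Fin (m + 4) ⊕ Fin (m + 4) → F) × (Fin (m + 4) ⊕ Fin (m + 4) → F) // (sPlus (m + 4) F).q p.1 = 0 ∧
    (sPlus (m + 4) F).q p.2 = 0 ∧ (sPlus (m + 4) F).h p.1 p.2 = 0 ∧ LinearIndependent F ![p.1, p.2]}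
  have h6 := isIntegral_sum_family (I := I) (isIrrCharacter_character ρ) (fun p => e.symm (ee _ p.1.1 p.1.2 0)) fun g => by
    have key : ∀ (g : (sPlus (m + 4) F).Isom) (p : I), (sPlus (m + 4) F).q (g.1 p.1.1) = 0 ∧
        (sPlus (m + 4) F).q (g.1 p.1.2) = 0 ∧ (sPlus (m + 4) F).h (g.1 p.1.1) (g.1 p.1.2) = 0 ∧
        LinearIndependent F ![g.1 p.1.1, g.1 p.1.2] := fun g p => by
      simp only [← orth_sing, isom_sing, isom_h]
      refine ⟨(orth_sing _ _).2 p.2.1, (orth_sing _ _).2 p.2.2.1, p.2.2.2.1, LinearIndependent.pair_iff.2 fun s t h => ?_⟩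
      rw [← map_smul, ← map_smul, ← map_add, LinearEquiv.map_eq_zero_iff] at h
      exact LinearIndependent.pair_iff.1 p.2.2.2.2 s t h
    let t : (sPlus (m + 4) F).Isom → I → I := fun g p => ⟨(g.1 p.1.1, g.1 p.1.2), key g p⟩
    refine ⟨⟨t (e g).1, t (e g).1⁻¹, fun p => Subtype.ext (Prod.ext (isom_inv_apply_self _ _) (isom_inv_apply_self _ _)),
      fun p => Subtype.ext (Prod.ext (isom_apply_inv_self _ _) (isom_apply_inv_self _ _))⟩, fun p => ?_⟩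
    apply e.injective
    simp only [map_mul, map_inv, MulEquiv.apply_symm_apply]
    exact Subtype.ext (conj_eich _ _ _ _).symm
  have h7 : ∀ p : I, ρ.character (e.symm (ee _ p.1.1 p.1.2 0)) = k - Fintype.card F ^ (2 * (m + 2) + 1) := fun p => by
    obtain ⟨g, g1, g2⟩ := hS.witt_pair (i1 1) p.2.2.2.2 (by rw [p.2.1, q_ιU]; simp) (by rw [p.2.2.1, q_ιU]; simp)
      (by rw [p.2.2.2.1, h_ιU])
    rw [← g1, ← g2]
    exact (sm g).2.2.2 _ _ i0
  have h8 := card_tsPairs hS (n := m + 3) hV (sPlus_hasTS _ _)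
  simp only [h7, Finset.sum_const, Finset.card_univ, nsmul_eq_mul, Representation.char_one,
    finrank_fintype_fun_eq_card, Fintype.card_fin, ← Nat.card_eq_fintype_card (α := I)] at h6
  have h9 := int_dvd_of_isIntegral_div (a := Nat.card I * (k - Fintype.card F ^ (2 * (m + 2) + 1))) (b := k) (by omega)
    (by simpa using h6)
  rw [mul_sub, dvd_sub_right (dvd_mul_left _ _), h8] at h9
  exact arith2 h3 hd (sm 1).2.1 (sm 1).2.2.1 h5 (geo_mul (by omega) _) h9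

end Cfsg.Agent.S2345
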