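import Cfsg.Statements.S2346
import Cfsg.Agent.H24.OP2

set_option autoImplicit false
open Cfsg

namespace Cfsg.Agent.S2346

open H24 H11 H11.PForm H5 Module

/-- the bound -/
def T (q : ℤ) : ℕ → ℤ
  | 0 => q ^ 3 - q ^ 2 + q
  | k + 1 => T q k + (q ^ (k + 3) + 1) * (q ^ (k + 2) - 1) + 1

theorem T_mul (q : ℤ) (k : ℕ) : (q ^ 2 - 1) * T q k = (q ^ (k + 3) + 1) * (q ^ (k + 2) - q) := by
  induction k with
  | zero => simp only [T]; ring
  | succ k ih => simp only [T]; linear_combination ih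

theorem T_le {q : ℤ} (hq : 2 ≤ q) (k : ℕ) : T q (k + 1) ≤ 2 * ((q ^ (k + 3) + 1) * (q ^ (k + 2) - 1)) := by
  have a0 : 0 < q ^ 2 - 1 := by nlinarith
  refine le_of_mul_le_mul_left ?_ a0
  rw [T_mul]
  obtain ⟨x, hx⟩ : ∃ x, x = q ^ (k + 2) := ⟨_, rfl⟩
  have h1 : 1 < x := hx ▸ one_lt_pow₀ (by omega) (by omega)
  rw [show q ^ (k + 1 + 3) = q ^ 2 * x by rw [hx]; ring, show q ^ (k + 1 + 2) = q * x by rw [hx]; ring, ← hx]
  have h2 : 0 ≤ (x - 1) * (q * x * (q ^ 2 - 2) + (2 * q ^ 2 - q - 2)) :=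
    mul_nonneg (by omega) (add_nonneg (mul_nonneg (by nlinarith) (by nlinarith)) (by nlinarith))
  nlinarith

theorem arith {q d : ℤ} (hq : 2 ≤ q) {k : ℕ} (hd : d + 1 = T q (k + 1))
    (h : 3 * d ∣ (q ^ (k + 4) + 1) * (q ^ (k + 3) - 1) * ((q ^ (k + 3) + 1) * (q ^ (k + 3) - q)) *
      (d - q ^ (2 * k + 5))) : False := by
  by_cases c2 : q = 2 ∧ k = 1
  · obtain ⟨rfl, rfl⟩ := c2
    obtain rfl : d = 153 := by simp only [T] at hd; omega
    revert h
    decide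
  have h5 := (dvd_mul_left d 3).trans h
  rw [mul_sub, dvd_sub_right (dvd_mul_left _ _)] at h5
  have e := T_mul q (k + 1)
  obtain ⟨x, hx⟩ : ∃ x : ℤ, x = q ^ (k + 3) := ⟨_, rfl⟩
  have hx' : q ^ (k + 4) = q * x := by rw [hx]; ring
  rw [← hd, show k + 1 + 3 = k + 4 from rfl, show k + 1 + 2 = k + 3 from rfl, hx', ← hx] at e
  rw [hx', ← hx] at h5
  have a0 : (0 : ℤ) < q ^ 2 - 1 := by nlinarith
  have x1 : 1 < x := hx ▸ one_lt_pow₀ (by omega) (by omega)
  have h6 := mul_dvd_mul_left (q ^ 2 - 1 : ℤ) h5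
  rw [show (q ^ 2 - 1) * d = (x + 1) * (q * x - q ^ 2 - q + 1) by linear_combination e,
    show ∀ y : ℤ, (q ^ 2 - 1 : ℤ) * ((q * x + 1) * (x - 1) * ((x + 1) * (x - q)) * y) =
    (x + 1) * ((q ^ 2 - 1) * (q * x + 1) * (x - 1) * (x - q) * y) from fun y => by ring,
    mul_dvd_mul_iff_left (by omega)] at h6
  have c : ∀ k, IsCoprime (q * x - q ^ 2 - q + 1 : ℤ) (q ^ k) := fun k => IsCoprime.pow_right ⟨1, -x + q + 1, by ring⟩
  have h7 := ((c _).dvd_of_dvd_mul_right h6).mul_left (q ^ 2)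
  obtain ⟨E, hE⟩ : ∃ E : ℤ, E = q * x - q ^ 2 - q + 1 := ⟨_, rfl⟩
  have h8 : (q : ℤ) ^ 2 * ((q ^ 2 - 1) * (q * x + 1) * (x - 1) * (x - q)) =
      (q ^ 2 - 1) * (E + q * (q + 1)) * (E + (q ^ 2 - 1)) * (E + (q - 1)) := by rw [hE]; ring
  rw [h8, ← hE, show ∀ a b c d : ℤ, a * (E + b) * (E + c) * (E + d) =
    E * (a * (E ^ 2 + (b + c + d) * E + b * c + b * d + c * d)) + a * b * c * d from fun a b c d => by ring,
    dvd_add_right (dvd_mul_right _ _), show (q ^ 2 - 1 : ℤ) * (q * (q + 1)) * (q ^ 2 - 1) * (q - 1) =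
      (q ^ 2 - 1) ^ 3 * q ^ 1 by ring] at h7
  have h9 := (hE ▸ c 1).dvd_of_dvd_mul_right h7
  have q0 : (0 : ℤ) < q := by omega
  have qq : ∀ k, (2 : ℤ) * q ^ k ≤ q ^ (k + 1) := fun k => by
    rw [pow_succ']
    exact mul_le_mul_of_nonneg_right hq (by positivity)
  have q1 := qq 1
  have q2 := qq 2
  have q3 := qq 3
  clear h h5 h6 h7 h8 c e hd qq
  obtain _ | _ | k := k
  · replace h9 := (Dvd.intro_left (q - 1) (show (q - 1) * (q ^ 3 + q ^ 2 - 1) = E by rw [hE, hx]; ring)).trans h9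
    rw [show (q ^ 2 - 1 : ℤ) ^ 3 = (q ^ 3 + q ^ 2 - 1) * ((q - 1) * (q ^ 2 - 2)) + (q ^ 3 - 2 * q + 1) by ring,
      dvd_add_right (dvd_mul_right _ _)] at h9
    have := Int.le_of_dvd (by nlinarith) h9
    nlinarith
  · rw [show (q ^ 2 - 1 : ℤ) ^ 3 = E * q - (3 * q ^ 4 - q ^ 3 - 4 * q ^ 2 + q + 1) by rw [hE, hx]; ring,
      dvd_sub_right (dvd_mul_right _ _)] at h9
    have h2 : 0 < q ^ 2 := by positivity
    have := Int.le_of_dvd (by norm_num at q1 q2 q3; linarith) h9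
    have h3 : 3 * q ^ 4 ≤ q * q ^ 4 := mul_le_mul_of_nonneg_right (by omega) (by positivity)
    rw [hE, hx] at this
    norm_num at q1 q2 q3 this
    linarith
  · have := Int.le_of_dvd (pow_pos a0 3) h9
    have h10 : (q : ℤ) ^ 5 ≤ x := hx ▸ pow_le_pow_right₀ (by omega) (by omega)
    nlinarith

universe u
variable {F : Type*} [Field F] [Fintype F]

section
variable {V : Type u} [AddCommGroup V] [Module F V] [FiniteDimensional F V] {S : PForm (orthP F) V} (hS : S.Nondeg)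
include hS

open Classical in
theorem sph_minus {m : ℕ} (hV : finrank F V = 2 * (m + 1)) (hT : ¬ S.HasTS (m + 1)) (c : F) : (sph S c : ℤ) =
    (Fintype.card F ^ (m + 1) + 1) * (Fintype.card F ^ m - if c = 0 then 1 else 0) := by
  have h1 := orth_cnt_even c (m + 1) hS hV
  have hq : (0 : ℤ) < Fintype.card F := by exact_mod_cast Fintype.card_pos
  rw [if_neg hT, Nat.card_eq_fintype_card] at h1
  refine mul_left_cancel₀ hq.ne' ?_
  rw [sph_eq, mul_sub, h1]
  split_ifs <;> ring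

theorem step {k : ℕ} (hV : finrank F V = 2 * (k + 4)) (hT : ¬ S.HasTS (k + 4)) {M : Type} [AddCommGroup M] [Module ℂ M]
    [FiniteDimensional ℂ M] (ρ : Representation ℂ S.E M) [ρ.IsIrreducible] (hN : ∃ g, ρ g ≠ 1) {ψ : AddChar F ℂ}
    (hψ : ψ ≠ 1) (ih : k ≠ 0 → ∀ e f (H : S.IsHyp e f), (∃ g, orep H ρ ψ g ≠ 1) →
      T (Fintype.card F) k ≤ finrank ℂ (OJ ρ ψ e 0)) : T (Fintype.card F) (k + 1) ≤ finrank ℂ M := by
  classical
  by_contra hlt
  have hq : (2 : ℤ) ≤ Fintype.card F := by exact_mod_cast Fintype.one_lt_card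
  have hW : ∀ {e f} (H : S.IsHyp e f), finrank F (OW S e f) = 2 * (k + 2 + 1) := fun H => by
    have := OW_finrank H
    omega
  have sp : ∀ {e f} (H : S.IsHyp e f) c, _ := fun H =>
    sph_minus (hS.restrict_perp H.nondeg) (hW H) (mt (H.hasTS_iff hS _).2 hT)
  have p1 : (0 : ℤ) < Fintype.card F ^ (k + 2 + 1) + 1 := by positivity
  have hs : ∀ e, S.q e = 0 → e ≠ 0 → ∃ c, Sph e ρ ψ c := fun e he h0 => by
    obtain ⟨f, H⟩ := hS.exists_isHyp ((orth_sing _ _).2 he) h0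
    refine one_sph H ρ hψ hS (by omega) hN fun c => ?_
    have := T_le hq k
    zify
    rw [sp H]
    split_ifs <;> nlinarith
  have ts : ∀ {l : Submodule F V} {w : V}, S.TS l → finrank F l = k + 3 → w ∈ S.perp l → S.q w = 0 → w ∈ l :=
    fun {l w} h1 h2 h3 h4 => not_not.1 fun h => hT ⟨_, h1.sup_span ((orth_sing _ _).2 h4) h3, by
      rw [Submodule.finrank_sup_span_singleton h, h2]⟩
  obtain ⟨e, f, H, c, hc, h1, h2⟩ : ∃ e f, ∃ H : S.IsHyp e f, ∃ c, Sph e ρ ψ c ∧ (k = 0 → c = 0) ∧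
      ((∃ g, orep H ρ ψ g ≠ 1) → T (Fintype.card F) k ≤ finrank ℂ (OJ ρ ψ e 0)) := by
    by_cases hk : k = 0
    swap
    · obtain ⟨e, f, H⟩ := hS.orth_exists_hyp (by omega)
      obtain ⟨c, hc⟩ := hs e H.orth_q_e H.e_ne
      exact ⟨e, f, H, c, hc, fun h => absurd h hk, ih hk e f H⟩
    subst hk
    have hs0 : ∀ e, S.q e = 0 → e ≠ 0 → Sph e ρ ψ 0 := fun e he h0 => by
      obtain ⟨f, H⟩ := hS.exists_isHyp ((orth_sing _ _).2 he) h0
      obtain ⟨c, hc⟩ := hs e he h0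
      by_cases h : c = 0
      · exact h ▸ hc
      have h1 := hc.finrank_eq H ρ hψ hS
      zify at h1
      rw [sp H, if_neg h] at h1
      simp only [T] at hlt
      refine (hlt ?_).elim
      have := Int.natCast_nonneg (finrank ℂ (OJ ρ ψ e 0))
      norm_num at h1 ⊢
      nlinarith
    obtain ⟨a, b, hab⟩ := exists_tsp hS (by omega)
    obtain ⟨e₁, p1, q1, n1⟩ := exists_sing_perp hS hab.ts (by rw [hab.finrank]; omega)
    obtain ⟨a, b, hab, h1⟩ := nc ρ hψ hS (fun l => fx ρ fun p : l × S.perp l => xe S p.1 p.2)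
      (fun l g hg m => fx_map ρ fun p => ⟨(⟨_, (mem_stab.1 (inv_mem hg) _).1 p.1.2⟩,
        ⟨_, (mem_stab.1 (stab_le_stab_perp _ (inv_mem hg)) _).1 p.2.2⟩), by
          simpa using xe_conj g ((g.1⁻¹).1 p.1) ((g.1⁻¹).1 p.2)⟩)
      (fun a b h m hm => (mem_fx ρ).2 fun p => q_triv ρ hS (by omega) h
        (by simpa [h.2.1] using hs0 a h.1 h.ne b h.2.2.1 h.notMem) p.1.2 p.2.2 hm)
      (fun a b h m hm y hy x hx => (mem_fx ρ).1 hm (⟨y, hy⟩, ⟨x, hx⟩)) hs0 hab ((orth_sing _ _).1 q1) p1 n1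
      fun m _ e he w hw qe qw h1 h2 h3 => absurd (ts (hab.ts.sup_span ((orth_sing _ _).2 qe) he)
        (by rw [Submodule.finrank_sup_span_singleton h2, hab.finrank])
        (by rw [perp_sup]; exact ⟨hw, S.mem_perp_singleton.2 h1⟩) qw) h3
    obtain ⟨u, ⟨hu, hu'⟩, u0⟩ := Submodule.exists_mem_ne_zero_of_ne_bot h1
    obtain ⟨f, H⟩ := hS.exists_isHyp ((orth_sing _ _).2 hab.1) hab.ne
    refine ⟨a, f, H, 0, hs0 a hab.1 hab.ne, fun _ => rfl, fun hN' => ?_⟩
    let b' : OW S a f := ⟨_, sub_mem_OW H hab.2.2.1⟩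
    have hb : b'.1 ∈ Submodule.span F {a, b} := Submodule.mem_span_pair.2 ⟨-S.h f b, 1, by rw [one_smul, add_comm]⟩
    have hW' : (S.restrict (OW S a f)).Nondeg := hS.restrict_perp H.nondeg
    obtain ⟨f', H'⟩ := hW'.exists_isHyp (e := b') ((orth_sing _ _).2 (orth_ts_iff.1 hab.ts _ hb)) fun h =>
      hab.notMem (Submodule.mem_span_singleton.2 ⟨S.h f b, by
        simpa [b', add_neg_eq_zero, eq_comm (b := b)] using congrArg Subtype.val h⟩)
    obtain ⟨c, h2⟩ := exists_sph_le H' (orep H ρ ψ) hψ hW' (hW H).ge hN'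
    have h3 : 1 ≤ finrank ℂ (OJ (orep H ρ ψ) ψ b' 0) := one_le_finrank_of_ne_bot
      ((Submodule.ne_bot_iff _).2 ⟨⟨u, hu'⟩, mem_OJ_zero.2 fun x hx => Subtype.ext (by
        rw [orep_apply, oemb_xe]
        exact (mem_fx ρ).1 hu (⟨_, hb⟩, ⟨x, S.mem_perp_pair.2 ⟨OW_e x, by simpa [b', OW_e x] using hx⟩⟩)),
        fun h => u0 (congrArg Subtype.val h)⟩)
    have h4 := OW_finrank H'
    have h5 := sph_minus (m := 1) (hW'.restrict_perp H'.nondeg) (Nat.add_right_cancel (h4.trans (hW H)))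
      (mt (H'.hasTS_iff hW' _).2 (mt (H.hasTS_iff hS _).2 hT)) c
    replace h2 := (Nat.add_le_add_right h3 _).trans h2
    zify at h2
    erw [h5] at h2
    simp only [T]
    have := sq_nonneg (Fintype.card F : ℤ)
    split_ifs at h2 <;> norm_num at h2 <;> linarith
  obtain ⟨u, v, huv⟩ := exists_tsp (hS.restrict_perp H.nondeg) (by have := hW H; exact (by omega : 5 ≤ finrank F (OW S e f)))
  have huv' : TSP S u v := ⟨huv.1, huv.2.1, huv.2.2.1, LinearIndependent.pair_iff.2 fun s t h =>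
    LinearIndependent.pair_iff.1 huv.2.2.2 s t (Subtype.ext h)⟩
  have h3 := h2 (orep_ne_one ρ hψ hS H hc huv (trace_tsp ρ hψ hS hs huv') fun w qw w1 w2 => by
    have a1 := finrank_sup_le' (Submodule.span F {u.1, v.1}) e
    have a2 := finrank_sup_le' (Submodule.span F {u.1, v.1} ⊔ F ∙ e) w
    have m1 : e ∈ Submodule.span F {u.1, v.1} ⊔ F ∙ e := Submodule.mem_sup_right (Submodule.mem_span_singleton_self _)
    have m2 : u.1 ∈ Submodule.span F {u.1, v.1} ⊔ F ∙ e := Submodule.mem_sup_left (Submodule.subset_span (by simp))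
    have m3 : v.1 ∈ Submodule.span F {u.1, v.1} ⊔ F ∙ e := Submodule.mem_sup_left (Submodule.subset_span (by simp))
    rw [huv'.finrank] at a1
    by_cases hk : k = 0
    · refine ⟨_, by omega, m1, ts (huv'.ts.sup_span H.sing_e (S.mem_perp_pair.2 ⟨S.h_swap_zero (OW_e u),
        S.h_swap_zero (OW_e v)⟩)) ?_ ?_ (qw.trans (h1 hk)), m2, m3⟩
      · rw [Submodule.finrank_sup_span_singleton, huv'.finrank, hk]
        intro h
        have : S.h f e = 0 := (S.mem_perp_pair.1 (Submodule.span_le.2 (by simp [Set.insert_subset_iff]) h :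
          e ∈ OW S e f)).2
        simp [H.orth_h_fe] at this
      · rw [perp_sup]
        exact ⟨S.mem_perp_pair.2 ⟨w1, w2⟩, S.mem_perp_singleton.2 (OW_e w)⟩
    · exact ⟨_ ⊔ F ∙ w.1, by omega, Submodule.mem_sup_left m1, Submodule.mem_sup_right
        (Submodule.mem_span_singleton_self _), Submodule.mem_sup_left m2, Submodule.mem_sup_left m3⟩)
  have h4 := hc.finrank_eq H ρ hψ hS
  have h5 := tsp_dvd ρ (Q := Fintype.card F ^ (2 * k + 5)) fun u v h => by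
    rw [trace_tsp ρ hψ hS hs h, hV]
    simp [show 2 * (k + 4) - 3 = 2 * k + 5 by omega]
  have h6 := sph_minus hS (m := k + 3) hV hT 0
  zify at h4
  rw [sp H] at h4
  rw [sph_eq, if_pos rfl, sub_eq_iff_eq_add] at h6
  rw [card_tsp hS, h6, hV] at h5
  refine arith hq (k := k) (d := finrank ℂ M) ?_ (by
    convert h5 using 2
    rw [show 2 * (k + 4) - 2 = 2 * k + 6 by omega]
    ring)
  simp only [T] at hlt ⊢
  split_ifs at h4 <;> nlinarith
end

theorem bound (k : ℕ) : ∀ {V : Type u} [AddCommGroup V] [Module F V] [FiniteDimensional F V] {S : PForm (orthP F) V}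
    (_ : S.Nondeg) (_ : finrank F V = 2 * (k + 4)) (_ : ¬ S.HasTS (k + 4)) {M : Type} [AddCommGroup M] [Module ℂ M]
    [FiniteDimensional ℂ M] (ρ : S.E →* End ℂ M), (∃ g, ρ g ≠ 1) → T (Fintype.card F) (k + 1) ≤ finrank ℂ M := by
  obtain ⟨ψ, hψ⟩ := exists_addChar_complex F
  induction k using Nat.strong_induction_on with
  | _ k ih =>
  intro V _ _ _ S hS hV hT M _ _ _ ρ ⟨g, hg⟩
  have : Finite V := Module.finite_of_finite F
  have : Finite S.Isom := Finite.of_injective (fun g (x : V) => g.1 x) fun _ _ h => isom_ext (congrFun h)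
  have := Fintype.ofFinite S.E
  obtain ⟨U, hU, hU'⟩ := exists_irr_ne_one ρ hg
  refine (step hS hV hT U.toRepresentation ⟨g, hU'⟩ hψ fun hk e f H h => ?_).trans
    (Int.ofNat_le.2 U.toSubmodule.finrank_le)
  obtain ⟨k, rfl⟩ := Nat.exists_eq_succ_of_ne_zero hk
  have := H.finrank_perp
  exact ih k (by omega) (hS.restrict_perp H.nondeg) (by omega) (mt (H.hasTS_iff hS _).2 hT) _ h

/-- For a finite field F with q elements, n ≥ 4, and a, b ∈ F with z₁² + a z₁z₂ + b z₂² anisotropic, every irreducible complex representation of degree at least 2 of Ω⁻_{2n}(F) (the commutator subgroup of the isometry group of x₁y₁ + ⋯ + x_{n−1}y_{n−1} + z₁² + a z₁z₂ + b z₂²) has degree at least (q^n + 1)(q^{n−1} − q)/(q² − 1). -/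
theorem result {F : Type*} [Field F] [Fintype F] (n : ℕ) (hn : 4 ≤ n) (a b : F) (hab : ∀ z₁ z₂ : F, z₁ ^ 2 + a * z₁ * z₂ + b * z₂ ^ 2 = 0 → z₁ = 0 ∧ z₂ = 0) :
    (∀ (k : ℕ) (ρ : Representation ℂ (Cfsg.Omega F (Cfsg.quadFormMinus (n - 1) F a b)) (Fin k → ℂ)), ρ.IsIrreducible → 2 ≤ k → (Fintype.card F ^ n + 1) * (Fintype.card F ^ (n - 1) - Fintype.card F) / (Fintype.card F ^ 2 - 1) ≤ k) := by
  intro k ρ hρ hk
  obtain ⟨m, rfl⟩ : ∃ m, n = m + 4 := ⟨n - 4, by omega⟩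
  have hS := sMinus_nondeg (m + 4 - 1) hab
  have hV := finrank_minus_fun' (F := F) (m := m + 4) (by omega)
  let e : Cfsg.Omega F (Cfsg.quadFormMinus (m + 4 - 1) F a b) ≃* (sMinus (m + 4 - 1) F a b).E :=
    (omegaEquiv (qMinus (m + 4 - 1) F a b)).trans
      (MulEquiv.subgroupCongr (hS.orth_commutator_eq_E (Or.inr (Or.inl (by omega))) (by omega)))
  obtain ⟨x, hx⟩ := exists_ne_one_of_two_le ρ (by simpa using hk)
  have h := bound m hS hV (sMinus_not_hasTS' (by omega) hab) (MonoidHom.comp ρ e.symm.toMonoidHom) ⟨e x, by simpa using hx⟩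
  have h1 : 1 ≤ Fintype.card F := Fintype.card_pos
  have h2 : 1 ≤ Fintype.card F ^ 2 := Nat.one_le_pow _ _ h1
  refine Nat.div_le_of_le_mul ?_
  zify [h2, Nat.le_self_pow (show m + 4 - 1 ≠ 0 by omega) (Fintype.card F)]
  exact (T_mul _ (m + 1)).symm.le.trans (mul_le_mul_of_nonneg_left (by simpa using h) (sub_nonneg.2 (by exact_mod_cast h2)))

end Cfsg.Agent.S2346
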