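import Cfsg.Statements.S2347
import Cfsg.Agent.H24.Weil

set_option autoImplicit false
open Cfsg

namespace Cfsg.Agent.S2347

open H24 H11 H11.PForm Module

/-- Smallest degree of a non-linear irreducible complex representation of the symplectic group Sp_{2n} over a finite field of odd order q, n ≥ 2: every irreducible complex representation of degree at least 2 has degree at least (q^n − 1)/2, and there is an irreducible complex representation of exactly that degree (a Weil representation). -/
theorem result {F : Type*} [Field F] [Fintype F] [DecidableEq F] (n : ℕ) (hn : 2 ≤ n) (hodd : Odd (Fintype.card F)) :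
    (∀ (k : ℕ) (ρ : Representation ℂ (Matrix.symplecticGroup (Fin n) F) (Fin k → ℂ)), ρ.IsIrreducible → 2 ≤ k → (Fintype.card F ^ n - 1) / 2 ≤ k) ∧
    (∃ ρ : Representation ℂ (Matrix.symplecticGroup (Fin n) F) (Fin ((Fintype.card F ^ n - 1) / 2) → ℂ), ρ.IsIrreducible) := by
  have hS := stdSymp_nondeg (F := F) n
  let φ : (stdSymp n F).E ≃* Matrix.symplecticGroup (Fin n) F :=
    ((MulEquiv.subgroupCongr hS.symp_E_eq_top).trans Subgroup.topEquiv).trans (spEquiv n F).symm
  have hmin : ∀ (N : Type) [AddCommGroup N] [Module ℂ N] [FiniteDimensional ℂ N]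
      (τ : Matrix.symplecticGroup (Fin n) F →* End ℂ N), (∃ g, τ g ≠ 1) →
      (Fintype.card F ^ n - 1) / 2 ≤ finrank ℂ N := fun N _ _ _ τ ⟨x, hx⟩ =>
    symp_min (τ.comp φ.toMonoidHom) hS hodd (finrank_sum_fun n) ⟨φ.symm x, by simpa using hx⟩
  refine ⟨fun k ρ hρ hk => ?_, ?_⟩
  · simpa using hmin _ ρ (exists_ne_one_of_two_le ρ (by simpa using hk))
  · obtain ⟨ρ, g, hg⟩ := exists_weil hn hodd
    exact ⟨ρ.comp (spEquiv n F).toMonoidHom, irr_of_min _ ⟨(spEquiv n F).symm g, by simpa using hg⟩
      fun N _ _ _ τ h => by simpa using hmin N τ h⟩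

end Cfsg.Agent.S2347
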