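import Cfsg.Statements.S2352
import Cfsg.Agent.H21.Alt

set_option autoImplicit false
open Cfsg

namespace Cfsg.Agent.S2352


/-- A non-trivial law holds in only finitely many alternating groups: for every non-trivial element w of the free group on countably many generators there is N such that for all n ≥ N some substitution of elements of the alternating group of degree n into w is not the identity. -/
theorem result (w : FreeGroup ℕ) (hw : w ≠ 1) :
    ∃ N : ℕ, ∀ n : ℕ, N ≤ n → ∃ f : ℕ → alternatingGroup (Fin n), FreeGroup.lift f w ≠ 1 := by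
  classical
  obtain ⟨L, rfl⟩ : ∃ L, FreeGroup.mk L = w := ⟨_, FreeGroup.mk_toWord⟩
  let S : Finset (FreeGroup ℕ) := (L.tails.map FreeGroup.mk).toFinset
  have hS : ∀ M, M <:+ L → FreeGroup.mk M ∈ S := fun M h => List.mem_toFinset.2 (List.mem_map_of_mem ((List.mem_tails ..).2 h))
  have : ∀ a : ℕ, ∃ σ : Equiv.Perm S, ∀ x y : S, FreeGroup.of a * x = y → σ x = y := fun a => by
    obtain ⟨σ, h⟩ := Equiv.Perm.exists_extending_pair (α := {x : S // FreeGroup.of a * x ∈ S}) (·.1) (fun x => ⟨_, x.2⟩)
      Subtype.val_injective fun x y h => Subtype.ext (Subtype.ext (mul_left_cancel (congrArg Subtype.val h)))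
    exact ⟨σ, fun x y e => (h ⟨x, e ▸ y.2⟩).trans (Subtype.ext e)⟩
  choose σ hσ using this
  have k : ∀ M (h : M <:+ L), FreeGroup.lift σ (.mk M) ⟨_, hS _ List.nil_suffix⟩ = ⟨_, hS M h⟩ := fun M h => by
    induction M with
    | nil => rfl
    | cons a M ih =>
      have := ih ((List.suffix_cons a M).trans h)
      simp only [FreeGroup.lift_mk, List.map_cons, List.prod_cons, Equiv.Perm.mul_apply] at this ⊢
      rw [this]
      obtain ⟨a, _ | _⟩ := a
      · exact Equiv.Perm.inv_eq_iff_eq.2 (hσ a _ _ (mul_inv_cancel_left (FreeGroup.of a) (.mk M))).symm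
      · exact hσ a _ _ rfl
  refine ⟨Fintype.card (S ⊕ S), fun n hn => ?_⟩
  obtain ⟨f, hf⟩ := H21.exists_alt_hom (β := Fin n) ((Equiv.Perm.sumCongrHom S S).comp ((MonoidHom.id _).prod (.id _)))
    (Equiv.Perm.sumCongrHom_injective.comp fun _ _ h => congrArg Prod.fst h) (by simp) (by rwa [Fintype.card_fin])
  refine ⟨f ∘ σ, fun h => hw ?_⟩
  rw [← FreeGroup.lift_unique (f.comp (FreeGroup.lift σ)) (by simp), MonoidHom.comp_apply, map_eq_one_iff f hf] at h
  exact (congrArg Subtype.val (h ▸ k L List.suffix_rfl :)).symm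

end Cfsg.Agent.S2352
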