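import Cfsg.Statements.S2353
import Cfsg.Agent.H10.PSL2Sub

set_option autoImplicit false
open Cfsg

namespace Cfsg.Agent.S2353

open Polynomial Matrix
open scoped MatrixGroups

section
variable {F : Type*} [Field F]

noncomputable def V : List (F × F) → F[X] × F[X]
  | [] => (0, 1)
  | l :: L => (X ^ 2 * ((V L).2 - C l.2 * (V L).1) + (C l.1 * (V L).1 - (V L).2),
      X ^ 2 * (C l.1 * ((V L).2 - C l.2 * (V L).1)) + C l.2 * (C l.1 * (V L).1 - (V L).2))

theorem V_deg (L : List (F × F)) : (V L).1.natDegree ≤ 2 * L.length ∧ (V L).2.natDegree ≤ 2 * L.length := by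
  induction L with
  | nil => simp [V]
  | cons l L ih =>
    obtain ⟨h1, h2⟩ := ih
    have a1 : ((V L).2 - C l.2 * (V L).1).natDegree ≤ 2 * L.length :=
      (natDegree_sub_le _ _).trans (max_le h2 ((natDegree_C_mul_le _ _).trans h1))
    have a2 : (C l.1 * (V L).1 - (V L).2).natDegree ≤ 2 * L.length :=
      (natDegree_sub_le _ _).trans (max_le ((natDegree_C_mul_le _ _).trans h1) h2)
    have b : ∀ P : F[X], P.natDegree ≤ 2 * L.length → (X ^ 2 * P).natDegree ≤ 2 * (L.length + 1) := fun P hP =>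
      natDegree_mul_le.trans (by have := natDegree_X_pow_le (R := F) 2; omega)
    constructor
    · exact (natDegree_add_le _ _).trans (max_le (b _ a1) (a2.trans (by simp)))
    · exact (natDegree_add_le _ _).trans (max_le (b _ ((natDegree_C_mul_le _ _).trans a1))
        (((natDegree_C_mul_le _ _).trans a2).trans (by simp)))

theorem V_coeff (l : F × F) (L : List (F × F)) :
    (V (l :: L)).1.coeff (2 * (l :: L).length) =
      (V L).2.coeff (2 * L.length) - l.2 * (V L).1.coeff (2 * L.length) ∧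
    (V (l :: L)).2.coeff (2 * (l :: L).length) = l.1 * (V (l :: L)).1.coeff (2 * (l :: L).length) := by
  obtain ⟨h1, h2⟩ := V_deg L
  have a2 : (C l.1 * (V L).1 - (V L).2).natDegree ≤ 2 * L.length :=
    (natDegree_sub_le _ _).trans (max_le ((natDegree_C_mul_le _ _).trans h1) h2)
  have e : 2 * (l :: L).length = 2 * L.length + 2 := by simp; ring
  have z : (C l.1 * (V L).1 - (V L).2).coeff (2 * L.length + 2) = 0 :=
    coeff_eq_zero_of_natDegree_lt (by omega)
  simp only [V, e, coeff_add, coeff_X_pow_mul, z, coeff_C_mul, add_zero, mul_zero, coeff_sub, and_self]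

theorem V_top (L : List (F × F)) (hL : L.IsChain fun l l' => l'.1 ≠ l.2) (h0 : L ≠ []) :
    (V L).1.coeff (2 * L.length) ≠ 0 := by
  induction L with
  | nil => exact absurd rfl h0
  | cons l L ih =>
    rw [(V_coeff l L).1]
    cases L with
    | nil => simp [V]
    | cons l' L =>
      rw [List.isChain_cons_cons] at hL
      rw [(V_coeff l' L).2, ← sub_mul]
      exact mul_ne_zero (sub_ne_zero.2 hL.1) (ih hL.2 (by simp))

open Classical in
noncomputable def Xm (t : F) (l : F × F) : SL(2, F) :=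
  if h : l.1 ≠ l.2 ∧ t ≠ 0 then H10.slMk ((l.1 * t⁻¹ - l.2 * t) / (l.1 - l.2)) ((t - t⁻¹) / (l.1 - l.2))
    (l.1 * l.2 * (t⁻¹ - t) / (l.1 - l.2)) ((l.1 * t - l.2 * t⁻¹) / (l.1 - l.2)) (by
      have := sub_ne_zero.2 h.1
      have := h.2
      field_simp
      ring) else 1

theorem Xm_inv (t a c : F) : (Xm t (a, c))⁻¹ = Xm t (c, a) := by
  by_cases h : a ≠ c ∧ t ≠ 0
  · rw [inv_eq_iff_mul_eq_one, Xm, Xm, dif_pos h, dif_pos ⟨h.1.symm, h.2⟩, H10.slMk_mul, ← H10.slMk_one,
      H10.slMk_inj]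
    have := sub_ne_zero.2 h.1
    have := sub_ne_zero.2 h.1.symm
    have := h.2
    refine ⟨?_, ?_, ?_, ?_⟩ <;> (simp only []; field_simp; ring)
  · rw [Xm, Xm, dif_neg h, dif_neg fun h' => h ⟨h'.1.symm, h'.2⟩, inv_one]

theorem V_eval {t : F} (ht : t ≠ 0) (L : List (F × F)) (hL : ∀ l ∈ L, l.1 ≠ l.2) :
    ∃ s : F, s ≠ 0 ∧ (V L).1.eval t = s * (L.map (Xm t)).prod 0 1 ∧
      (V L).2.eval t = s * (L.map (Xm t)).prod 1 1 := by
  induction L with
  | nil => exact ⟨1, one_ne_zero, by simp [V], by simp [V]⟩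
  | cons l L ih =>
    obtain ⟨s, hs, h1, h2⟩ := ih fun l' h => hL l' (List.mem_cons_of_mem _ h)
    have hl := hL l (by simp)
    have := sub_ne_zero.2 hl
    refine ⟨s * t * (l.1 - l.2), mul_ne_zero (mul_ne_zero hs ht) this, ?_, ?_⟩ <;>
    · simp only [V, eval_add, eval_mul, eval_sub, eval_pow, eval_X, eval_C, h1, h2, List.map_cons,
        List.prod_cons, H10.SL2_coe_mul, Matrix.mul_apply, Fin.sum_univ_two, Xm, dif_pos (And.intro hl ht),
        H10.slMk_val, of_apply, cons_val', cons_val_zero, cons_val_one, cons_val_fin_one]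
      field_simp
      ring
end

/-- A non-trivial law holds in PSL_2 over only finitely many finite fields: for every non-trivial element w of the free group on countably many generators there is N such that over every finite field with at least N elements some substitution of elements of PSL_2 into w is not the identity. -/
theorem result (w : FreeGroup ℕ) (hw : w ≠ 1) :
    ∃ N : ℕ, ∀ (F : Type*) [Field F] [Fintype F], N ≤ Fintype.card F →
      ∃ f : ℕ → Matrix.ProjectiveSpecialLinearGroup (Fin 2) F, FreeGroup.lift f w ≠ 1 := by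
  classical
  obtain ⟨m, hm⟩ : ∃ m, ∀ x ∈ w.toWord, x.1 < m := by
    obtain ⟨m, hm⟩ := (Set.Finite.image Prod.fst (List.finite_toSet w.toWord)).bddAbove
    exact ⟨m + 1, fun x hx => Nat.lt_succ_of_le (hm ⟨x, hx, rfl⟩)⟩
  refine ⟨2 * m + 2 * w.toWord.length + 2, fun F _ _ hF => ?_⟩
  obtain ⟨e⟩ : Nonempty (Fin m × Bool ↪ F) := Function.Embedding.nonempty_of_card_le (by simp; omega)
  let α : ℕ × Bool → F := fun x => if h : x.1 < m then e (⟨x.1, h⟩, x.2) else 0
  have hα : ∀ x ∈ w.toWord, ∀ y ∈ w.toWord, α y = α (x.1, !x.2) → x.1 = y.1 ∧ x.2 ≠ y.2 := by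
    intro x hx y hy h
    simp only [α, dif_pos (hm x hx), dif_pos (hm y hy), EmbeddingLike.apply_eq_iff_eq, Prod.mk.injEq,
      Fin.mk.injEq] at h
    exact ⟨h.1.symm, by rw [h.2]; simp⟩
  let β : ℕ × Bool → F × F := fun x => (α x, α (x.1, !x.2))
  let L := w.toWord.map β
  have hL1 : ∀ l ∈ L, l.1 ≠ l.2 := by
    intro l hl
    obtain ⟨x, hx, rfl⟩ := List.mem_map.1 hl
    exact fun h => (hα x hx x hx h).2 rfl
  have hL2 : L.IsChain fun l l' => l'.1 ≠ l.2 := by
    rw [List.isChain_map]
    refine (FreeGroup.isReduced_toWord (x := w)).imp_of_mem_imp fun x y hx hy h h' => ?_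
    exact (hα x hx y hy h').2 (h (hα x hx y hy h').1)
  have hL0 : L ≠ [] := by simpa [L] using hw
  have h0 : (V L).1 ≠ 0 := fun h => V_top L hL2 hL0 (by rw [h, Polynomial.coeff_zero])
  have hlen : L.length = w.toWord.length := List.length_map _
  obtain ⟨t, ht⟩ : ∃ t : F, (Polynomial.X * (V L).1).eval t ≠ 0 := by
    by_contra hc
    push Not at hc
    refine mul_ne_zero Polynomial.X_ne_zero h0 (Polynomial.eq_zero_of_natDegree_lt_card_of_eval_eq_zero' _
      Finset.univ (fun t _ => hc t) ?_)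
    have h1 := (V_deg L).1
    have h2 := Polynomial.natDegree_mul_le (p := (Polynomial.X : Polynomial F)) (q := (V L).1)
    rw [Polynomial.natDegree_X] at h2
    rw [Finset.card_univ]
    omega
  rw [Polynomial.eval_mul, Polynomial.eval_X, mul_ne_zero_iff] at ht
  obtain ⟨s, -, h1, -⟩ := V_eval ht.1 L hL1
  refine ⟨fun i => H10.π F (Xm t (β (i, true))), fun h => ht.2 ?_⟩
  rw [← FreeGroup.mk_toWord (x := w), FreeGroup.lift_mk] at h
  have h2 : (w.toWord.map fun x => cond x.2 (H10.π F (Xm t (β (x.1, true)))) (H10.π F (Xm t (β (x.1, true))))⁻¹) =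
      (L.map (Xm t)).map (H10.π F) := by
    rw [List.map_map, List.map_map]
    refine List.map_congr_left fun x _ => ?_
    obtain ⟨i, _ | _⟩ := x
    · simp only [cond_false, ← map_inv, β, Xm_inv]; rfl
    · rfl
  rw [h2, ← map_list_prod, H10.π_eq_one_iff] at h
  rcases h with h | h <;> rw [h1, h] <;> simp

end Cfsg.Agent.S2353
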