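import Cfsg.Statements.S2354
import Cfsg.Agent.H13.SzModel

set_option autoImplicit false
open Cfsg

namespace Cfsg.Agent.S2354

section
open H13 H13.Sz Matrix Polynomial

variable {F : Type*} [Field F]

/-- the effect of `u(0,b) w` on polynomial vectors -/
noncomputable def step (r : ℕ) (b : F[X]) (z : Fin 4 → F[X]) : Fin 4 → F[X] :=
  ![b ^ r * z 0 + b * z 1 + z 3, b * z 0 + z 2, z 1, z 0]

/-- dominant vectors -/
def Dom (z : Fin 4 → F[X]) : Prop :=
  (z 1).degree < (z 0).degree ∧ (z 2).degree < (z 0).degree ∧ (z 3).degree < (z 0).degree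

theorem step_dom {r : ℕ} (hr : 2 ≤ r) {b : F[X]} (hb : 0 < b.natDegree) {z : Fin 4 → F[X]}
    (hz : Dom z) : Dom (step r b z) ∧
      (step r b z 0).natDegree = r * b.natDegree + (z 0).natDegree := by
  obtain ⟨h1, h2, h3⟩ := hz
  have hz0 : z 0 ≠ 0 := by
    intro h
    simp [h] at h1
  have hb0 : b ≠ 0 := by
    rintro rfl
    simp at hb
  have e0 : (b ^ r * z 0).degree = (r * b.natDegree + (z 0).natDegree : ℕ) := by
    rw [degree_eq_natDegree (mul_ne_zero (pow_ne_zero _ hb0) hz0),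
      natDegree_mul (pow_ne_zero _ hb0) hz0, natDegree_pow]
  have e1 : (b * z 0).degree = (b.natDegree + (z 0).natDegree : ℕ) := by
    rw [degree_eq_natDegree (mul_ne_zero hb0 hz0), natDegree_mul hb0 hz0]
  have l1 : (b * z 0).degree < (b ^ r * z 0).degree := by
    rw [e0, e1, Nat.cast_lt]
    nlinarith
  have l2 : (z 0).degree < (b * z 0).degree := by
    rw [e1, degree_eq_natDegree hz0, Nat.cast_lt]
    omega
  have l3 : (b * z 1).degree < (b * z 0).degree := by
    rw [degree_mul, degree_mul]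
    exact WithBot.add_lt_add_left (by simpa using hb0) h1
  have e2 : (step r b z 0).degree = (b ^ r * z 0).degree := by
    change (b ^ r * z 0 + b * z 1 + z 3).degree = _
    rw [add_assoc, degree_add_eq_left_of_degree_lt]
    exact (degree_add_le _ _).trans_lt (max_lt (l3.trans l1) (h3.trans (l2.trans l1)))
  refine ⟨⟨?_, ?_, ?_⟩, ?_⟩
  · rw [e2]
    exact (degree_add_le _ _).trans_lt (max_lt l1 (h2.trans (l2.trans l1)))
  · rw [e2]
    exact h1.trans (l2.trans l1)
  · rw [e2]
    exact l2.trans l1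
  · exact natDegree_eq_of_degree_eq_some (e2.trans e0)

variable [Fintype F] {m : ℕ} [hF : IsSz F m]

theorem step_eval (t : F) (b : F[X]) (z : Fin 4 → F[X]) :
    mat (u m 0 (b.eval t) * w F m) *ᵥ (fun i => (z i).eval t) =
      fun i => (step (2 ^ (m + 1)) b z i).eval t := by
  ext i
  fin_cases i <;>
    simp [step, uMat, nf, Cfsg.suzukiForm, mulVec, dotProduct, Fin.sum_univ_four, Matrix.mul_apply,
      th_apply]

/-- left exponent of a letter -/
def ea (l : ℕ × Bool) : ℕ := cond l.2 (2 * l.1 + 1) (2 * l.1 + 2)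
/-- right exponent of a letter -/
def eb (l : ℕ × Bool) : ℕ := cond l.2 (2 * l.1 + 2) (2 * l.1 + 1)

variable (m) in
/-- the substitution -/
def sub (t : F) (n : ℕ) : Cfsg.Sz F m := u m 0 (t ^ (2 * n + 1)) * w F m * u m 0 (t ^ (2 * n + 2))

theorem letter (t : F) (l : ℕ × Bool) : cond l.2 (sub m t l.1) (sub m t l.1)⁻¹ =
    u m 0 (t ^ ea l) * w F m * u m 0 (t ^ eb l) := by
  obtain ⟨n, _ | _⟩ := l
  · have hw : (w F m)⁻¹ = w F m := inv_eq_of_mul_eq_one_right w_mul_w
    simp [sub, ea, eb, u_inv, hw, mul_assoc]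
  · rfl

theorem main (l : ℕ × Bool) (L : List (ℕ × Bool)) (h : FreeGroup.IsReduced (l :: L)) :
    ∃ z : Fin 4 → F[X], Dom z ∧ (z 0).natDegree + 2 ^ (m + 1) * (2 * l.1 + 2) ≤
      2 * 2 ^ (m + 1) * ((l :: L).map fun x => 2 * x.1 + 2).sum ∧
      ∀ t : F, mat ((l :: L).map fun x => cond x.2 (sub m t x.1) (sub m t x.1)⁻¹).prod *ᵥ
        ![1, 0, 0, 0] = mat (u m 0 (t ^ ea l) * w F m) *ᵥ fun i => (z i).eval t := by
  induction L generalizing l with
  | nil =>
    refine ⟨![1, 0, 0, 0], by simp [Dom], by simp [Nat.mul_le_mul_right],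
      fun t => ?_⟩
    rw [List.map_singleton, List.prod_singleton, letter, mat_mul, ← mulVec_mulVec, mat_u, uMat_e0]
    congr 1
    ext i
    fin_cases i <;> simp
  | cons k L ih =>
    obtain ⟨h1, h2⟩ := FreeGroup.isReduced_cons_cons.mp h
    obtain ⟨z, hz, hd, ht⟩ := ih k h2
    have hne : eb l ≠ ea k := by
      obtain ⟨a, _ | _⟩ := l <;> obtain ⟨b, _ | _⟩ := k <;> simp [ea, eb] at h1 ⊢ <;> omega
    have hb : (X ^ eb l + X ^ ea k : F[X]).natDegree = max (eb l) (ea k) := by
      rcases lt_or_gt_of_ne hne with h3 | h3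
      · rw [natDegree_add_eq_right_of_natDegree_lt (by simpa using h3), natDegree_X_pow,
          max_eq_right h3.le]
      · rw [natDegree_add_eq_left_of_natDegree_lt (by simpa using h3), natDegree_X_pow,
          max_eq_left h3.le]
    have hb1 : eb l ≤ 2 * l.1 + 2 ∧ ea k ≤ 2 * k.1 + 2 ∧ 0 < eb l := by
      obtain ⟨a, _ | _⟩ := l <;> obtain ⟨b, _ | _⟩ := k <;> simp [ea, eb]
    obtain ⟨h3, h4⟩ := step_dom (r := 2 ^ (m + 1)) (b := X ^ eb l + X ^ ea k)
      (Nat.le_self_pow (by omega) 2) (by rw [hb]; omega) hz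
    refine ⟨_, h3, ?_, fun t => ?_⟩
    · rw [h4, hb, List.map_cons, List.sum_cons]
      have : max (eb l) (ea k) ≤ (2 * l.1 + 2) + (2 * k.1 + 2) := by omega
      have := Nat.mul_le_mul_left (2 ^ (m + 1)) this
      nlinarith
    · rw [List.map_cons, List.prod_cons, letter, mat_mul, ← mulVec_mulVec, ht, ← step_eval,
        mulVec_mulVec, mulVec_mulVec, ← mat_mul, ← mat_mul]
      congr 2
      simp only [mul_assoc]
      rw [← mul_assoc (u m 0 (t ^ eb l)), u_mul_u]
      simp

theorem exists_ne_one (w₀ : FreeGroup ℕ) (hw : w₀ ≠ 1)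
    (hm : 2 * (w₀.toWord.map fun x => 2 * x.1 + 2).sum ≤ m) :
    ∃ t : F, FreeGroup.lift (sub m t) w₀ ≠ 1 := by
  by_contra hcon
  push Not at hcon
  obtain ⟨l, L, hL⟩ := List.exists_cons_of_ne_nil (FreeGroup.toWord_eq_nil_iff.not.mpr hw)
  obtain ⟨z, hz, hd, ht⟩ := main (F := F) (m := m) l L (hL ▸ FreeGroup.isReduced_toWord)
  have hb1 : ea l ≤ 2 * l.1 + 2 ∧ 0 < ea l := by
    obtain ⟨a, _ | _⟩ := l <;> simp [ea]
  obtain ⟨-, h4⟩ := step_dom (r := 2 ^ (m + 1)) (b := (X ^ ea l : F[X]))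
    (Nat.le_self_pow (by omega) 2) (by simpa using hb1.2) hz
  rw [natDegree_X_pow] at h4
  have hpos : 0 < 2 ^ (m + 1) * ea l := Nat.mul_pos (by positivity) hb1.2
  have h5 : step (2 ^ (m + 1)) (X ^ ea l) z 0 - 1 = 0 := by
    apply eq_zero_of_natDegree_lt_card_of_eval_eq_zero _ Function.injective_id
    · intro t
      have h6 := ht t
      rw [← FreeGroup.lift_mk, ← hL, FreeGroup.mk_toWord, hcon, mat_one, one_mulVec,
        ← eval_X (x := t), ← eval_pow, eval_X, step_eval] at h6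
      have h7 := congrFun h6 0
      simp only [cons_val_zero] at h7
      simp [← h7]
    · rw [natDegree_sub_eq_left_of_natDegree_lt (by rw [h4, natDegree_one]; omega), h4, hF.card]
      rw [hL] at hm
      have h6 := Nat.mul_le_mul_left (2 ^ (m + 1)) hb1.1
      have h7 : m < 2 ^ m := Nat.lt_two_pow_self
      have h8 : 2 ^ (2 * m + 1) = 2 ^ (m + 1) * 2 ^ m := by ring
      have h9 : 0 < 2 ^ (m + 1) := by positivity
      rw [h8]
      nlinarith
  rw [sub_eq_zero] at h5
  rw [h5, natDegree_one] at h4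
  omega

end


/-- A non-trivial law holds in only finitely many Suzuki groups: for every non-trivial element w of the free group on countably many generators there is N such that for q = 2^(2m+1) with m ≥ N some substitution of elements of the Suzuki group over the field with q elements into w is not the identity. -/
theorem result (w : FreeGroup ℕ) (hw : w ≠ 1) :
    ∃ N : ℕ, ∀ (F : Type*) [Field F] [Fintype F] (m : ℕ), 1 ≤ m → N ≤ m →
      Fintype.card F = 2 ^ (2 * m + 1) →
      ∃ f : ℕ → ↥(Cfsg.Lie.Sz F (2 ^ (m + 1))), FreeGroup.lift f w ≠ 1 := by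
  refine ⟨2 * (w.toWord.map fun x => 2 * x.1 + 2).sum, fun F _ _ m hm hN hF => ?_⟩
  have : H13.Sz.IsSz F m := ⟨hm, hF⟩
  obtain ⟨t, ht⟩ := exists_ne_one (F := F) w hw hN
  refine ⟨fun n => H13.Sz.lieEquiv F m (sub m t n), fun h => ht ?_⟩
  apply (H13.Sz.lieEquiv F m).injective
  rw [map_one, ← h]
  exact FreeGroup.lift_unique ((H13.Sz.lieEquiv F m).toMonoidHom.comp (FreeGroup.lift (sub m t)))
    (fun n => by simp)

end Cfsg.Agent.S2354
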