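import Cfsg.Statements.S2356
import Cfsg.Agent.H19.SU3
import Cfsg.Agent.H11.Spin

set_option autoImplicit false
open Cfsg

namespace Cfsg.Agent.S2356

/-- Let q be odd, F the field with q² elements, S = SU_3(F) (determinant-one isometries of the standard Hermitian form) and t an involution of S. Then: exactly q(q−1) involutions other than t commute with t; exactly q(q−2)(q²−1) involutions do not commute with t but commute with some involution commuting with t; exactly (q+1)(q²−1) involutions x do not commute with t and admit no involution commuting with both t and x; and every involution can be reached from t in at most three steps, each step going to an involution that commutes with the previous one (the commuting involution graph is connected of diameter 3). -/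
theorem result {F : Type*} [Field F] [Fintype F] {q : ℕ} (hq : Odd q)
    (hF : Fintype.card F = q ^ 2) (t : ↥(Cfsg.SU 3 F q)) (ht : t ≠ 1) (ht2 : t * t = 1) :
    Nat.card {x : ↥(Cfsg.SU 3 F q) // x ≠ 1 ∧ x * x = 1 ∧ x ≠ t ∧ Commute t x} = q * (q - 1) ∧
    Nat.card {x : ↥(Cfsg.SU 3 F q) // x ≠ 1 ∧ x * x = 1 ∧ ¬ Commute t x ∧
        ∃ y : ↥(Cfsg.SU 3 F q), y ≠ 1 ∧ y * y = 1 ∧ Commute t y ∧ Commute y x} = q * (q - 2) * (q ^ 2 - 1) ∧
    Nat.card {x : ↥(Cfsg.SU 3 F q) // x ≠ 1 ∧ x * x = 1 ∧ ¬ Commute t x ∧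
        ∀ y : ↥(Cfsg.SU 3 F q), y ≠ 1 → y * y = 1 → ¬ (Commute t y ∧ Commute y x)} = (q + 1) * (q ^ 2 - 1) ∧
    ∀ x : ↥(Cfsg.SU 3 F q), x ≠ 1 → x * x = 1 →
      ∃ y z : ↥(Cfsg.SU 3 F q), y ≠ 1 ∧ y * y = 1 ∧ z ≠ 1 ∧ z * z = 1 ∧
        Commute t y ∧ Commute y z ∧ Commute z x := by
  obtain ⟨σ, hσq, hσ, hne⟩ := H11.exists_frob hF
  have h2 : (2 : F) ≠ 0 := H11.two_ne_zero_iff_odd.2 (hF ▸ hq.pow)
  rw [← Nat.card_eq_fintype_card] at hF
  have q2 := H11.two_le_of_card_sq hF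
  have ex := fun x : Cfsg.SU 3 F q => H19.SU3.exists_vec (hσ := hσ) (hne := hne) (x := x) h2 hσq
  obtain ⟨v, a⟩ := ex t ht ht2
  have c := H19.SU3.card_inv (hσ := hσ) (hne := hne) h2 hσq hF
  have c1 := H19.SU3.card_comm h2 hσq hF a
  have c2 := H19.SU3.card_far h2 hσq hF a
  refine ⟨c1, ?_, c2, fun x x1 x2 => (ex x x1 x2).elim fun w b => H19.SU3.path h2 hσq hF (by obtain ⟨k, rfl⟩ := hq; omega) a b⟩
  rw [H19.SU3.card_split _ (Commute t ·), H19.SU3.card_split _ (· = t), H19.SU3.card_split (fun x => _ ∧ ¬ Commute t x)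
    (fun x => ∃ y : Cfsg.SU 3 F q, y ≠ 1 ∧ y * y = 1 ∧ Commute t y ∧ Commute y x),
    Nat.card_eq_one_iff_exists.2 ⟨⟨t, ⟨⟨ht, ht2⟩, .refl _⟩, rfl⟩, fun x => Subtype.ext x.2.2⟩] at c
  simp only [and_assoc, not_exists, not_and, and_comm (a := Commute t _) (b := ¬ _ = t)] at c c1 c2 ⊢
  rw [c1, c2] at c
  have h1 : q ≤ q ^ 2 := Nat.le_self_pow two_ne_zero q
  have h3 : 1 ≤ q ^ 2 := Nat.one_le_pow _ _ hq.pos
  have h4 : 1 ≤ q := by omega
  zify [h1, h3, h4, q2] at c ⊢
  linear_combination c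

end Cfsg.Agent.S2356
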