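import Cfsg.Statements.S2357
import Cfsg.Agent.H13.ReeTori2

set_option autoImplicit false
open Cfsg

namespace Cfsg.Agent.S2357

open H13 H13.Ree

/-- Let R be the small Ree group over the field with q = 3^(2m+1) ≥ 27 elements and write φ for Euler's totient function. Then R has exactly q²(q²−q+1) involutions, (q²−1)(q³+1) elements of order 3, and q²(q−1)(q³+1) elements of order 6 and as many of order 9; for i > 2 dividing q−1 it has φ(i)q³(q³+1)/2 elements of order i; for i > 1 dividing (q+1)/4 it has φ(i)q³(q−1)(q²−q+1)/6 elements of order i and φ(i)q³(q−1)(q²−q+1)/2 elements of order 2i; and for i > 1 dividing q − 3^(m+1) + 1 (respectively q + 3^(m+1) + 1) it has φ(i)q³(q²−1)(q + 3^(m+1) + 1)/6 (respectively φ(i)q³(q²−1)(q − 3^(m+1) + 1)/6) elements of order i. -/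
theorem result {K : Type*} [Field K] [Fintype K] {m : ℕ} (hm : 1 ≤ m)
    (hK : Fintype.card K = 3 ^ (2 * m + 1)) :
    Nat.card {g : ↥(Cfsg.Lie.twistedG2 K (3 ^ m)) // orderOf g = 2} = (3 ^ (2 * m + 1)) ^ 2 * ((3 ^ (2 * m + 1)) ^ 2 - 3 ^ (2 * m + 1) + 1) ∧
    Nat.card {g : ↥(Cfsg.Lie.twistedG2 K (3 ^ m)) // orderOf g = 3} = ((3 ^ (2 * m + 1)) ^ 2 - 1) * ((3 ^ (2 * m + 1)) ^ 3 + 1) ∧
    Nat.card {g : ↥(Cfsg.Lie.twistedG2 K (3 ^ m)) // orderOf g = 6} = (3 ^ (2 * m + 1)) ^ 2 * (3 ^ (2 * m + 1) - 1) * ((3 ^ (2 * m + 1)) ^ 3 + 1) ∧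
    Nat.card {g : ↥(Cfsg.Lie.twistedG2 K (3 ^ m)) // orderOf g = 9} = (3 ^ (2 * m + 1)) ^ 2 * (3 ^ (2 * m + 1) - 1) * ((3 ^ (2 * m + 1)) ^ 3 + 1) ∧
    (∀ i : ℕ, 2 < i → i ∣ 3 ^ (2 * m + 1) - 1 →
      2 * Nat.card {g : ↥(Cfsg.Lie.twistedG2 K (3 ^ m)) // orderOf g = i} = Nat.totient i * (3 ^ (2 * m + 1)) ^ 3 * ((3 ^ (2 * m + 1)) ^ 3 + 1)) ∧
    (∀ i : ℕ, 1 < i → i ∣ (3 ^ (2 * m + 1) + 1) / 4 →
      6 * Nat.card {g : ↥(Cfsg.Lie.twistedG2 K (3 ^ m)) // orderOf g = i} =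
          Nat.totient i * (3 ^ (2 * m + 1)) ^ 3 * (3 ^ (2 * m + 1) - 1) * ((3 ^ (2 * m + 1)) ^ 2 - 3 ^ (2 * m + 1) + 1) ∧
        2 * Nat.card {g : ↥(Cfsg.Lie.twistedG2 K (3 ^ m)) // orderOf g = 2 * i} =
          Nat.totient i * (3 ^ (2 * m + 1)) ^ 3 * (3 ^ (2 * m + 1) - 1) * ((3 ^ (2 * m + 1)) ^ 2 - 3 ^ (2 * m + 1) + 1)) ∧
    (∀ i : ℕ, 1 < i → i ∣ 3 ^ (2 * m + 1) - 3 ^ (m + 1) + 1 →
      6 * Nat.card {g : ↥(Cfsg.Lie.twistedG2 K (3 ^ m)) // orderOf g = i} =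
        Nat.totient i * (3 ^ (2 * m + 1)) ^ 3 * ((3 ^ (2 * m + 1)) ^ 2 - 1) * (3 ^ (2 * m + 1) + 3 ^ (m + 1) + 1)) ∧
    (∀ i : ℕ, 1 < i → i ∣ 3 ^ (2 * m + 1) + 3 ^ (m + 1) + 1 →
      6 * Nat.card {g : ↥(Cfsg.Lie.twistedG2 K (3 ^ m)) // orderOf g = i} =
        Nat.totient i * (3 ^ (2 * m + 1)) ^ 3 * ((3 ^ (2 * m + 1)) ^ 2 - 1) * (3 ^ (2 * m + 1) - 3 ^ (m + 1) + 1)) := by
  haveI : H13.Ree.IsRee K m := ⟨hK⟩
  rw [← hK]
  obtain ⟨⟨A, F⟩, ⟨A', F'⟩, hn⟩ := exists_pkg_E (K := K) hm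
  have h27 := le_card (K := K) hm
  have e1 : Fintype.card K ^ 2 - Fintype.card K + 1 = nE K := by rw [nE, Nat.mul_sub_one, sq]
  have e2 : Fintype.card K ^ 2 - 1 = (Fintype.card K - 1) * (Fintype.card K + 1) := by
    rw [mul_comm, ← Nat.sq_sub_sq, one_pow]
  have e3 : ∀ i, Nat.card {g : R K m // orderOf g = i} = {g : R K m | orderOf g = i}.ncard := fun i =>
    Nat.card_coe_set_eq _
  simp only [e3, e1]
  refine ⟨card_invol, card_three, card_six, card_nine, fun i h1 h => ?_, fun i h1 h => ⟨?_, ?_⟩, fun i h1 h => ?_,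
    fun i h1 h => ?_⟩
  · rw [card_of_H (P := (· = i)) (by rintro _ rfl; exact ⟨h1, h⟩), ncard_orderOf_eq _ (by rwa [card_H]), mul_assoc]
  · obtain ⟨_, -, F⟩ := pkg_M (K := K) hm
    have := F.card_order h1 h
    rw [card_R'] at this
    apply Nat.eq_of_mul_eq_mul_right (Nat.succ_pos (Fintype.card K))
    linarith
  · rw [card_order_two_mul hm h1 h]; ring
  · have := F.card_order h1 h
    rw [card_R', hn] at this
    apply Nat.eq_of_mul_eq_mul_right (Nat.succ_pos (Fintype.card K - 3 ^ (m + 1)))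
    rw [e2]; linarith
  · have := F'.card_order h1 h
    rw [card_R', hn] at this
    apply Nat.eq_of_mul_eq_mul_right (Nat.succ_pos (Fintype.card K + 3 ^ (m + 1)))
    rw [e2]; linarith

end Cfsg.Agent.S2357
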