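import Cfsg.Statements.S2359
import Cfsg.Agent.H13.ReeTori2

set_option autoImplicit false
open Cfsg

namespace Cfsg.Agent.S2359

open H13 H13.Ree

/-- Let R be the small Ree group over the field with q = 3^(2m+1) ≥ 27 elements. If H is a cyclic subgroup of R of order (q−1)/2, then the centralizer of H in R is cyclic of order q−1, and every non-trivial subgroup of H has the same centralizer as H. If H is a cyclic subgroup of order (q+1)/4, then the centralizer of H is abelian of order q+1 with no element of order 4 (so it is the direct product of H and a group of order 4 whose non-identity elements all have order 2), and every non-trivial subgroup of H has the same centralizer as H. -/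
theorem result {K : Type*} [Field K] [Fintype K] {m : ℕ} (hm : 1 ≤ m)
    (hK : Fintype.card K = 3 ^ (2 * m + 1)) (H : Subgroup ↥(Cfsg.Lie.twistedG2 K (3 ^ m))) (hH : IsCyclic H) :
    (Nat.card H = (3 ^ (2 * m + 1) - 1) / 2 →
      IsCyclic ↥(Subgroup.centralizer (H : Set ↥(Cfsg.Lie.twistedG2 K (3 ^ m)))) ∧
        Nat.card ↥(Subgroup.centralizer (H : Set ↥(Cfsg.Lie.twistedG2 K (3 ^ m)))) = 3 ^ (2 * m + 1) - 1 ∧
        ∀ A : Subgroup ↥(Cfsg.Lie.twistedG2 K (3 ^ m)), A ≤ H → A ≠ ⊥ →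
          Subgroup.centralizer (A : Set ↥(Cfsg.Lie.twistedG2 K (3 ^ m))) = Subgroup.centralizer (H : Set ↥(Cfsg.Lie.twistedG2 K (3 ^ m)))) ∧
    (Nat.card H = (3 ^ (2 * m + 1) + 1) / 4 →
      IsMulCommutative ↥(Subgroup.centralizer (H : Set ↥(Cfsg.Lie.twistedG2 K (3 ^ m)))) ∧
        Nat.card ↥(Subgroup.centralizer (H : Set ↥(Cfsg.Lie.twistedG2 K (3 ^ m)))) = 3 ^ (2 * m + 1) + 1 ∧
        (∀ x ∈ Subgroup.centralizer (H : Set ↥(Cfsg.Lie.twistedG2 K (3 ^ m))), orderOf x ≠ 4) ∧
        ∀ A : Subgroup ↥(Cfsg.Lie.twistedG2 K (3 ^ m)), A ≤ H → A ≠ ⊥ →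
          Subgroup.centralizer (A : Set ↥(Cfsg.Lie.twistedG2 K (3 ^ m))) = Subgroup.centralizer (H : Set ↥(Cfsg.Lie.twistedG2 K (3 ^ m)))) := by
  haveI : H13.Ree.IsRee K m := ⟨hK⟩
  rw [← hK]
  have h27 := le_card (K := K) hm
  have h8 := card_mod_eight (K := K)
  refine ⟨fun h => ?_, fun h => ?_⟩
  · obtain ⟨_, -, F⟩ := pkg_H (K := K) hm
    obtain ⟨g, F⟩ := F.exists_of_card h
    rw [F.cent' le_rfl (fun e => by rw [e, Subgroup.card_bot] at h; omega)]
    exact ⟨isCyclic_of_surjective _ ((MulAut.conj g).toMonoidHom.subgroupMap_surjective _),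
      by rw [Subgroup.card_map_of_injective (MulAut.conj g).injective, card_H], fun A => F.cent'⟩
  · obtain ⟨_, -, F⟩ := pkg_M (K := K) hm
    obtain ⟨g, F⟩ := F.exists_of_card h
    rw [F.cent' le_rfl (fun e => by rw [e, Subgroup.card_bot] at h; omega)]
    refine ⟨⟨⟨?_⟩⟩, by rw [Subgroup.card_map_of_injective (MulAut.conj g).injective, card_M], ?_, fun A => F.cent'⟩
    · rintro ⟨_, x, hx, rfl⟩ ⟨_, y, hy, rfl⟩
      apply Subtype.ext
      simp only [Subgroup.coe_mul, ← map_mul, M_comm hx hy]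
    · rintro _ ⟨x, hx, rfl⟩ e
      have := orderOf_dvd_of_mem_M hx
      rw [← orderOf_conj' g, show orderOf (g * x * g⁻¹) = 4 from e] at this
      omega

end Cfsg.Agent.S2359
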