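import Cfsg.Statements.S2360
import Cfsg.Agent.H19.SU3
import Cfsg.Agent.H11.Spin

set_option autoImplicit false
open Cfsg

namespace Cfsg.Agent.S2360

/-- Let q be odd, F the field with q² elements and S = SU_3(F) (determinant-one isometries of the standard Hermitian form). Then all involutions of S are conjugate; there are exactly q²(q²−q+1) of them; the centralizer of an involution has order q(q+1)(q²−1), the order of the full unitary group of degree 2; and for two distinct commuting involutions t and x there is exactly one further involution commuting with both. -/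
theorem result {F : Type*} [Field F] [Fintype F] {q : ℕ} (hq : Odd q)
    (hF : Fintype.card F = q ^ 2) (t : ↥(Cfsg.SU 3 F q)) (ht : t ≠ 1) (ht2 : t * t = 1) :
    (∀ x : ↥(Cfsg.SU 3 F q), x ≠ 1 → x * x = 1 → ∃ g : ↥(Cfsg.SU 3 F q), g * t * g⁻¹ = x) ∧
    Nat.card {x : ↥(Cfsg.SU 3 F q) // x ≠ 1 ∧ x * x = 1} = q ^ 2 * (q ^ 2 - q + 1) ∧
    Nat.card ↥(Subgroup.centralizer ({t} : Set ↥(Cfsg.SU 3 F q))) = q * (q + 1) * (q ^ 2 - 1) ∧
    ∀ x : ↥(Cfsg.SU 3 F q), x ≠ 1 → x * x = 1 → x ≠ t → Commute t x →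
      Nat.card {y : ↥(Cfsg.SU 3 F q) // y ≠ 1 ∧ y * y = 1 ∧ y ≠ t ∧ y ≠ x ∧ Commute t y ∧ Commute x y} = 1 := by
  obtain ⟨σ, hσq, hσ, hne⟩ := H11.exists_frob hF
  have h2 : (2 : F) ≠ 0 := H11.two_ne_zero_iff_odd.2 (hF ▸ hq.pow)
  rw [← Nat.card_eq_fintype_card] at hF
  have ex := fun x : Cfsg.SU 3 F q => H19.SU3.exists_vec (hσ := hσ) (hne := hne) (x := x) h2 hσq
  obtain ⟨v, a⟩ := ex t ht ht2
  have c := H19.SU3.card_inv (hσ := hσ) (hne := hne) h2 hσq hF
  refine ⟨fun x x1 x2 => (ex x x1 x2).elim fun w b => isConj_iff.1 (H19.SU3.isConj hσq a b), c, ?_, fun x x1 x2 x3 x4 =>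
    (ex x x1 x2).elim fun w b => H19.SU3.card_third h2 hσq a b (((H19.SU3.comm_iff h2 a b).1 x4).resolve_left x3.symm)⟩
  have e := H19.SU3.card_cent t
  have g := (H11.stdUnit_nondeg hσ hne (Fin 3)).unit_card_SIsom hne hF (n := 3) (by simp) (by simp)
  rw [← Nat.card_congr (H11.suEquiv hσ hne hσq 3).toEquiv, ← e, Nat.card_congr (Equiv.subtypeEquivRight (q := fun x => x ≠ 1 ∧ x * x = 1)
    fun x => ⟨fun h => by
      obtain ⟨g, rfl⟩ := isConj_iff.1 h.symm
      exact ⟨by simpa using ht, by simp [mul_assoc, ← mul_assoc t, ht2]⟩, fun h => (ex x h.1 h.2).elim fun w b =>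
        H19.SU3.isConj hσq b a⟩), c, ← mul_assoc] at g
  refine Nat.eq_of_mul_eq_mul_left (by have := hq.pos; positivity) (g.trans ?_)
  have h1 : q ≤ q ^ 2 := Nat.le_self_pow two_ne_zero q
  have h3 : 1 ≤ q ^ 2 := Nat.one_le_pow _ _ hq.pos
  simp only [H11.guOrd, Finset.prod_range_succ]
  simp
  zify [h1, h3]
  ring

end Cfsg.Agent.S2360
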