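import Cfsg.Statements.S2387
import Cfsg.Agent.H11.ED2

set_option autoImplicit false
open scoped MatrixGroups
open Cfsg

namespace Cfsg.Agent.S2387

open Polynomial in
theorem card_monic {F : Type*} [Field F] [Finite F] {n : ℕ} (hn : 1 ≤ n) (S : F → Prop) :
    Nat.card {P : F[X] // P.Monic ∧ P.natDegree = n ∧ S (P.coeff 0)} =
      Nat.card {a // S a} * Nat.card F ^ (n - 1) := by
  obtain ⟨n, rfl⟩ : ∃ k, n = k + 1 := ⟨n - 1, by omega⟩
  have h1 : Nat.card (degreeLT F n) = Nat.card F ^ n := by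
    rw [Nat.card_congr (degreeLTEquiv F n).toEquiv, Nat.card_fun]; simp
  rw [Nat.add_sub_cancel, ← h1, ← Nat.card_prod]
  symm
  refine Nat.card_congr (Equiv.ofBijective (fun x => ⟨X ^ (n + 1) + X * x.2.1 + C x.1.1, ?_⟩) ⟨?_, ?_⟩)
  · have h : (X * x.2.1 + C x.1.1).degree < ((n + 1 : ℕ) : WithBot ℕ) := by
      refine (degree_add_le _ _).trans_lt (max_lt ?_ (degree_C_le.trans_lt (by exact_mod_cast hn)))
      rw [degree_mul, degree_X, add_comm, Nat.cast_add, Nat.cast_one]
      exact WithBot.add_lt_add_right (by simp) (mem_degreeLT.1 x.2.2)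
    rw [add_assoc]
    exact ⟨monic_X_pow_add h, natDegree_eq_of_degree_eq_some (by
      rw [degree_add_eq_left_of_degree_lt (by simpa using h), degree_X_pow]), by simpa using x.1.2⟩
  · rintro ⟨⟨a, ha⟩, P, hP⟩ ⟨⟨b, hb⟩, Q, hQ⟩ h
    have h := congr($h.1)
    obtain rfl : a = b := by simpa using congr(coeff $h 0)
    simp_all
  · rintro ⟨P, h2, h3, h4⟩
    refine ⟨(⟨_, h4⟩, ⟨(P - X ^ (n + 1)).divX, mem_degreeLT.2 ((degree_lt_iff_coeff_zero _ _).2
      fun m hm => ?_)⟩), Subtype.ext ?_⟩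
    · rw [coeff_divX, coeff_sub, coeff_X_pow]
      split_ifs with h
      · rw [h, ← h3, h2.coeff_natDegree, sub_self]
      · rw [coeff_eq_zero_of_natDegree_lt (by omega), sub_zero]
    · have := X_mul_divX_add (P - X ^ (n + 1))
      simp only [coeff_sub, coeff_X_pow, Nat.right_eq_add, Nat.add_eq_zero_iff, one_ne_zero,
        and_false, if_false, sub_zero] at this
      simp only [add_assoc, this, add_sub_cancel]

/-- In `GL_n(q)` with `n ≥ 1`, `q` a power of the prime `p`, the number of conjugacy classes of elements of order prime to `p` (diagonalisable over the algebraic closure; determined by the characteristic polynomial) is `(q - 1) q^(n-1)`. -/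
theorem result {F : Type*} [Field F] [Fintype F] {q : ℕ} (hq : Fintype.card F = q) (p : ℕ) [Fact p.Prime] [CharP F p] (n : ℕ) (hn : 1 ≤ n) :
    Nat.card {c : ConjClasses (GL (Fin n) F) // ∃ g : GL (Fin n) F, ConjClasses.mk g = c ∧ (orderOf g).Coprime p} = (q - 1) * q ^ (n - 1) := by
  rw [H11.card_classes _ (fun g : GL (Fin n) F => g.1.charpoly) fun g g' hg hg' =>
    H11.gl_isConj_iff.trans ⟨fun h => by simpa only [H11.charpoly_mE] using h.charpoly, fun h =>
      ((H11.gl_ss_iff p g).1 hg).sim_of_charpoly ((H11.gl_ss_iff p g').1 hg')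
        (by simpa only [H11.charpoly_mE])⟩]
  have := card_monic (F := F) hn (· ≠ 0)
  rw [← Nat.card_congr unitsEquivNeZero, Nat.card_units, Nat.card_eq_fintype_card (α := F), hq] at this
  rw [← this]
  refine Nat.card_congr (Equiv.subtypeEquivRight fun P => ⟨?_, fun ⟨h1, h2, h3⟩ => ?_⟩)
  · rintro ⟨g, -, rfl⟩
    exact ⟨Matrix.charpoly_monic _, by simp, by
      rw [← H11.charpoly_mE]; exact H11.isUnit_iff_charpoly.1 (H11.isUnit_mE_gl g)⟩
  · obtain ⟨f, h4, rfl⟩ := H11.exists_ss_charpoly (V := Fin n → F) h1 (by simpa)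
    obtain ⟨g, hg⟩ := H11.exists_gl_sim (ι := Fin n) (H11.isUnit_iff_charpoly.2 h3) (by simp)
    exact ⟨g, (H11.gl_ss_iff p g).2 (hg.symm.ss h4), by rw [← hg.charpoly, H11.charpoly_mE]⟩

end Cfsg.Agent.S2387
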