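import Cfsg.Statements.S2384
import Cfsg.Agent.H11.ED2
import Cfsg.Agent.S2387
import Cfsg.Agent.S2388

set_option autoImplicit false
open Cfsg

namespace Cfsg.Agent.S2384

/-- In `SL_n(q)`, `q` a power of the prime `p`, the number of conjugacy classes of elements of order prime to `p` (the semisimple classes) is `q^(n-1)`. -/
theorem result {F : Type*} [Field F] [Fintype F] {q : ℕ} (hq : Fintype.card F = q) (p : ℕ) [Fact p.Prime] [CharP F p] (n : ℕ) (hn : 1 ≤ n) :
    Nat.card {c : ConjClasses (Matrix.SpecialLinearGroup (Fin n) F) //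
      ∃ g : Matrix.SpecialLinearGroup (Fin n) F, ConjClasses.mk g = c ∧ (orderOf g).Coprime p} = q ^ (n - 1) := by
  rw [H11.card_classes _ (fun g : Matrix.SpecialLinearGroup (Fin n) F => g.1.charpoly)
    fun g g' hg hg' => ⟨fun h => by
      simpa only [H11.charpoly_mE] using (H11.sl_sim_of_isConj h).charpoly,
      Cfsg.Agent.S2388.result p n g g' hg hg'⟩]
  have := Cfsg.Agent.S2387.card_monic (F := F) hn (· = (-1) ^ n)
  rw [Nat.card_unique (α := {a // a = _}), one_mul, Nat.card_eq_fintype_card (α := F), hq] at this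
  rw [← this]
  refine Nat.card_congr (Equiv.subtypeEquivRight fun P => ⟨?_, fun ⟨h1, h2, h3⟩ => ?_⟩)
  · rintro ⟨g, -, rfl⟩
    refine ⟨Matrix.charpoly_monic _, by simp, ?_⟩
    have := Matrix.det_eq_sign_charpoly_coeff g.1
    rw [g.2, Fintype.card_fin] at this
    rcases neg_one_pow_eq_or F n with h | h <;> rw [h] at this ⊢
    · linear_combination -this
    · linear_combination this
  · obtain ⟨f, h4, rfl⟩ := H11.exists_ss_charpoly (V := Fin n → F) h1 (by simpa)
    obtain ⟨g, hg⟩ := H11.exists_sl_sim (ι := Fin n) (f := f) (by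
      rw [LinearMap.det_eq_sign_charpoly_coeff, h3]; simp [← mul_pow]) (by simp)
    exact ⟨g, (H11.sl_ss_iff p g).2 (hg.symm.ss h4), by rw [← hg.charpoly, H11.charpoly_mE]⟩

end Cfsg.Agent.S2384
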