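import Cfsg.Statements.S2390
import Cfsg.Agent.H11.JD2

set_option autoImplicit false
open Cfsg

namespace Cfsg.Agent.S2390

/-- In the special unitary group `SU_n(q)` (inside `SL_n` over the field with `q²` elements), `q` a power of the prime `p`, two elements of order prime to `p` with the same characteristic polynomial are conjugate in `SU_n(q)`. -/
theorem result {F : Type*} [Field F] [Fintype F] {q : ℕ} (hF : Fintype.card F = q ^ 2) (p : ℕ) [Fact p.Prime] [CharP F p] (n : ℕ)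
    (g h : ↥(Cfsg.SU n F q)) (hg : (orderOf g).Coprime p) (hh : (orderOf h).Coprime p)
    (hc : ((g : Matrix.SpecialLinearGroup (Fin n) F) : Matrix (Fin n) (Fin n) F).charpoly =
      ((h : Matrix.SpecialLinearGroup (Fin n) F) : Matrix (Fin n) (Fin n) F).charpoly) : IsConj g h := by
  rcases Nat.eq_zero_or_pos n with rfl | hn
  · rw [Subsingleton.elim g h]
  obtain ⟨σ, hq, hσ, hne⟩ := H11.exists_frob hF
  have hS := H11.stdUnit_nondeg hσ hne (Fin n)
  have h1 := (H11.sl_ss_iff p g.1).1 (by simpa using hg)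
  have h2 := h1.sim_of_charpoly ((H11.sl_ss_iff p h.1).1 (by simpa using hh))
    (by rw [H11.charpoly_mE, H11.charpoly_mE, hc])
  rw [← H11.iE_suEquiv hσ hne hq] at h1
  rw [← H11.iE_suEquiv hσ hne hq, ← H11.iE_suEquiv hσ hne hq] at h2
  rw [← H11.isConj_mulEquiv_iff (H11.suEquiv hσ hne hq n)]
  obtain ⟨k, hk⟩ := isConj_iff.1 (H11.PForm.isim_iff_isConj.1 (H11.PForm.unit_isim hne hS hS h2))
  have : Nonempty (Fin n) := ⟨⟨0, hn⟩⟩
  obtain ⟨P, hP⟩ := Multiset.exists_mem_of_ne_zero (H11.ED_ne_zero (H11.PForm.iE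
    (H11.suEquiv hσ hne hq n g).1))
  obtain ⟨x, hx⟩ := IsAlgClosed.exists_aeval_eq_zero (H11.AC F) P (Polynomial.degree_pos_of_irreducible (h1 P hP)).ne'
  obtain ⟨c, h4, h5⟩ := hS.unit_exists_det hne (x := (x, 1)) (Multiset.mem_bind.2 ⟨P, hP, by
    simpa using (H11.mem_jd (h1 P hP) (e := 0) (x := (x, 1))).2 ⟨hx, rfl⟩⟩) ⟨_, hS.det_mem_normOne k⟩
  refine isConj_iff.2 ⟨⟨k * c⁻¹, by simp [H11.PForm.SIsom, h5]⟩, Subtype.ext ?_⟩
  have := Subgroup.mem_centralizer_singleton_iff.1 (inv_mem h4)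
  push_cast
  rw [← hk, mul_assoc k, this]
  group

end Cfsg.Agent.S2390
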