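import Cfsg.Statements.S2386
import Cfsg.Agent.H11.Cls2
import Cfsg.Agent.S2390

set_option autoImplicit false
open Cfsg

namespace Cfsg.Agent.S2386

/-- In the special unitary group `SU_n(q)` (matrices of determinant one over the field with `q²` elements preserving the standard Hermitian form), `q` a power of the prime `p`, the number of conjugacy classes of elements of order prime to `p` is `q^(n-1)`. -/
theorem result {F : Type*} [Field F] [Fintype F] {q : ℕ} (hF : Fintype.card F = q ^ 2) (p : ℕ) [Fact p.Prime] [CharP F p] (n : ℕ) (hn : 1 ≤ n) :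
    Nat.card {c : ConjClasses ↥(Cfsg.SU n F q) // ∃ g : ↥(Cfsg.SU n F q), ConjClasses.mk g = c ∧ (orderOf g).Coprime p} = q ^ (n - 1) := by
  obtain ⟨σ, hq, hσ, hne⟩ := H11.exists_frob hF
  have hS := H11.stdUnit_nondeg hσ hne (Fin n)
  rw [H11.card_classes _ (fun g : Cfsg.SU n F q => g.1.1.charpoly) fun g g' hg hg' => ⟨fun h => by
      simpa [H11.charpoly_mE] using (H11.sl_sim_of_isConj ((Subgroup.subtype _).map_isConj h)).charpoly,
      Cfsg.Agent.S2390.result hF p n g g' hg hg'⟩]
  obtain ⟨n, rfl⟩ := Nat.exists_eq_add_of_le' hn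
  rw [Nat.add_sub_cancel, ← H11.card_dual_monic hσ hne (Nat.card_eq_fintype_card.trans hF) n
    (c := (-1) ^ (n + 1)) (by simp [← mul_pow])]
  refine Nat.card_congr (Equiv.subtypeEquivRight fun P => ⟨?_, fun ⟨h1, h2, h3, h4⟩ => ?_⟩)
  · rintro ⟨g, -, rfl⟩
    refine ⟨Matrix.charpoly_monic _, by simp, ?_, by
      simpa [H11.iE_suEquiv, H11.charpoly_mE] using (hS.dl (H11.suEquiv hσ hne hq _ g).1).charpoly hσ⟩
    have := Matrix.det_eq_sign_charpoly_coeff g.1.1
    rw [g.1.2, Fintype.card_fin] at this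
    rcases neg_one_pow_eq_or F (n + 1) with h | h <;> rw [h] at this ⊢
    · linear_combination -this
    · linear_combination this
  · obtain ⟨f, h5, rfl⟩ := H11.exists_ss_charpoly (V := Fin (n + 1) → F) h1 (by simpa)
    obtain ⟨T, hT, g, rfl⟩ := (h5.dl_of_charpoly hσ (H11.isUnit_iff_charpoly.2 (by simp [h3])) h4).unit_exists
      hσ hne
    obtain ⟨k, hk⟩ := (H11.PForm.unit_eqv hne _ hT hS rfl rfl).exists_isim g
    obtain ⟨l, hl⟩ := (H11.suEquiv hσ hne hq _).surjective ⟨k, Units.ext (by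
      rw [← H11.PForm.det_iE, ← hk.sim.det, LinearMap.det_eq_sign_charpoly_coeff, h3]; simp [← mul_pow])⟩
    have h6 := hk.sim
    rw [show k = _ from congrArg Subtype.val hl.symm, H11.iE_suEquiv] at h6
    exact ⟨l, by simpa using (H11.sl_ss_iff p l.1).2 (h6.ss h5), by rw [h6.charpoly, H11.charpoly_mE]⟩

end Cfsg.Agent.S2386
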