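import Cfsg.Statements.S2412
import Cfsg.Agent.H23.G2u
import Cfsg.Agent.S0303

set_option autoImplicit false
open Cfsg

namespace Cfsg.Agent.S2412

open H11 H23.G2

/-- The projective special unitary group `PSU_n(q)` with `n ≥ 3`, realised over the field with `q²` elements, `(n, q) ≠ (3, 2)`, is generated by two of its elements. -/
theorem result {F : Type*} [Field F] [Fintype F] {q : ℕ} (hq : IsPrimePow q) (hF : Fintype.card F = q ^ 2) (n : ℕ) (hn : 3 ≤ n) (h32 : n = 3 → q ≠ 2) :
    ∃ a b : Cfsg.PSU n F q, Subgroup.closure ({a, b} : Set (Cfsg.PSU n F q)) = ⊤ := by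
  by_cases h4 : n = 4
  · obtain ⟨p, k, hp, hk, rfl⟩ := (isPrimePow_nat_iff q).1 hq
    have : Fact p.Prime := ⟨hp⟩
    have := Fintype.ofFinite (GaloisField p k)
    obtain ⟨ζ, hζ⟩ := exists_aniso_poly (F := GaloisField p k)
    obtain ⟨e⟩ := S0303.result (F := GaloisField p k) (by rw [← Nat.card_eq_fintype_card, GaloisField.card p k hk.ne']) hF 1 ζ (aniso_of_poly hζ)
    rw [h4]
    refine gen2_of_surj e.toMonoidHom e.surjective ?_
    rw [← qMinus_coe]
    exact pomega_gen _ (orth_gen_minus (sMinus_nondeg _ (aniso_of_poly hζ)) le_rfl (by simp) (sMinus_not_hasTS _ (aniso_of_poly hζ)))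
  obtain ⟨σ, h1, hσ, hne⟩ := exists_frob hF
  have hS := stdUnit_nondeg hσ hne (Fin n)
  refine gen2_of_surj ((QuotientGroup.mk' _).comp (suEquiv hσ hne h1 n).symm.toMonoidHom)
    ((QuotientGroup.mk'_surjective _).comp (suEquiv hσ hne h1 n).symm.surjective) ?_
  rcases hn.eq_or_lt with rfl | hn
  · exact unit_gen_three hne hS (by simp) (by rw [Nat.card_eq_fintype_card, hF]) (h32 rfl)
  rcases Nat.even_or_odd' n with ⟨k, rfl | rfl⟩
  · exact unit_gen_even hne hS (j := 2 * (k - 2) + 1) (by omega) (odd_two_mul_add_one _) (by simp; omega)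
  · exact unit_gen_odd hne hS (j := 2 * (k - 1) + 1) (by omega) (odd_two_mul_add_one _) (by simp; omega)

end Cfsg.Agent.S2412
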