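import Cfsg.Statements.S2439
import Cfsg.Agent.H24.BlkZ

set_option autoImplicit false
open Cfsg

namespace Cfsg.Agent.S2439

open H24 H5 H7 Matrix
open scoped MatrixGroups

theorem three {α : Type*} {P : Set α → Prop} {A B C : Set α} (h3 : Nat.card {X // P X} = 3) (b : α → Set α) (h1 : ∀ a, P (b a) ∧ a ∈ b a)
    (h2 : ∀ X, P X → X.Nonempty ∧ (X ⊆ A ∨ X ⊆ B ∨ X ⊆ C)) (hA : A.Nonempty) (hB : B.Nonempty) (hC : C.Nonempty) (d1 : Disjoint A B)
    (d2 : Disjoint A C) (d3 : Disjoint B C) : P A := by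
  obtain ⟨a, ha⟩ := hA; obtain ⟨x, hx⟩ := hB; obtain ⟨y, hy⟩ := hC
  have k : ∀ {A B C : Set α} {X a}, P X → a ∈ X → a ∈ A → (X ⊆ A ∨ X ⊆ B ∨ X ⊆ C) → Disjoint A B → Disjoint A C → X ⊆ A :=
    fun _ h1 h2 h d1 d2 => h.elim id fun h => h.elim (fun h => (Set.disjoint_left.1 d1 h2 (h h1)).elim)
      fun h => (Set.disjoint_left.1 d2 h2 (h h1)).elim
  have sA := fun a ha => k (h1 a).1 (h1 a).2 ha (h2 _ (h1 a).1).2 d1 d2
  have sB := k (h1 x).1 (h1 x).2 hx (by have := (h2 _ (h1 x).1).2; tauto) d1.symm d3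
  have sC := k (h1 y).1 (h1 y).2 hy (by have := (h2 _ (h1 y).1).2; tauto) d2.symm d3.symm
  have ne : ∀ {A B : Set α} {a x}, b a ⊆ A → b x ⊆ B → Disjoint A B → b a ≠ b x := fun h h' d e =>
    Set.disjoint_left.1 d (h (h1 _).2) (h' (e ▸ (h1 _).2))
  suffices b a = A from this ▸ (h1 a).1
  refine (sA a ha).antisymm fun z hz => by_contra fun e => ?_
  have : Finite {X // P X} := Nat.finite_of_card_ne_zero (by omega)
  have := Nat.card_le_card_of_injective (fun i : Fin 4 => (⟨b (![a, z, x, y] i), (h1 _).1⟩ : {X // P X})) fun i j h => by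
    have n1 : b a ≠ b z := fun h => e (h ▸ (h1 z).2)
    have n2 := ne (sA a ha) sB d1; have n3 := ne (sA a ha) sC d2; have n4 := ne (sA z hz) sB d1; have n5 := ne (sA z hz) sC d2
    have n6 := ne sB sC d3
    have h' : b (![a, z, x, y] i) = b (![a, z, x, y] j) := congrArg Subtype.val h
    clear * - n1 n2 n3 n4 n5 n6 h'
    fin_cases i <;> fin_cases j <;> first | rfl | exact absurd h' ‹_› | exact absurd h'.symm ‹_›
  simp [h3] at this

/-- Let F be a finite field with q elements of odd characteristic p, and M a maximal ideal of the algebraic integers containing p. Then SL₂ over F has exactly three p-blocks relative to M: the irreducible character of degree q (the Steinberg character) alone; the other irreducible characters taking the same value at −1 as at 1 (the principal block); and the irreducible characters χ with χ(−1) = −χ(1). Every Sylow p-subgroup is a defect group of each of the last two blocks. -/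
theorem result {F : Type*} [Field F] [Fintype F] (p : ℕ) [Fact p.Prime] [CharP F p] (hp : p ≠ 2)
    (M : Ideal Cfsg.AlgInt) (hM : Cfsg.IsPModular p M) :
    (∀ B : Set (Cfsg.IrrCharacter (Matrix.SpecialLinearGroup (Fin 2) F)), Cfsg.IsPBlock M B ↔
      (B = {χ : Cfsg.IrrCharacter (Matrix.SpecialLinearGroup (Fin 2) F) | (χ : Matrix.SpecialLinearGroup (Fin 2) F → ℂ) 1 = (Fintype.card F : ℂ)} ∨
       B = {χ : Cfsg.IrrCharacter (Matrix.SpecialLinearGroup (Fin 2) F) | (χ : Matrix.SpecialLinearGroup (Fin 2) F → ℂ) (-1) = (χ : Matrix.SpecialLinearGroup (Fin 2) F → ℂ) 1 ∧ (χ : Matrix.SpecialLinearGroup (Fin 2) F → ℂ) 1 ≠ (Fintype.card F : ℂ)} ∨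
       B = {χ : Cfsg.IrrCharacter (Matrix.SpecialLinearGroup (Fin 2) F) | (χ : Matrix.SpecialLinearGroup (Fin 2) F → ℂ) (-1) = -(χ : Matrix.SpecialLinearGroup (Fin 2) F → ℂ) 1})) ∧
    Nat.card {B : Set (Cfsg.IrrCharacter (Matrix.SpecialLinearGroup (Fin 2) F)) // Cfsg.IsPBlock M B} = 3 ∧
    ∀ P : Sylow p (Matrix.SpecialLinearGroup (Fin 2) F),
      Cfsg.IsDefectGroup p M {χ : Cfsg.IrrCharacter (Matrix.SpecialLinearGroup (Fin 2) F) | (χ : Matrix.SpecialLinearGroup (Fin 2) F → ℂ) (-1) = (χ : Matrix.SpecialLinearGroup (Fin 2) F → ℂ) 1 ∧ (χ : Matrix.SpecialLinearGroup (Fin 2) F → ℂ) 1 ≠ (Fintype.card F : ℂ)} (P : Subgroup (Matrix.SpecialLinearGroup (Fin 2) F)) ∧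
      Cfsg.IsDefectGroup p M {χ : Cfsg.IrrCharacter (Matrix.SpecialLinearGroup (Fin 2) F) | (χ : Matrix.SpecialLinearGroup (Fin 2) F → ℂ) (-1) = -(χ : Matrix.SpecialLinearGroup (Fin 2) F → ℂ) 1} (P : Subgroup (Matrix.SpecialLinearGroup (Fin 2) F)) := by
  classical
  have : PM p M := ⟨hM⟩
  have := Fintype.ofFinite (GL (Fin 2) F)
  have hp' : p.Prime := Fact.out
  have h2 : (2 : F) ≠ 0 := fun h => hp ((Nat.prime_dvd_prime_iff_eq hp' Nat.prime_two).1 ((CharP.cast_eq_zero_iff F p 2).1 h))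
  have hq : (Fintype.card F - 1).gcd 2 = 2 := Nat.gcd_eq_right (by
    have := FiniteField.odd_card_of_char_ne_two (F := F) (by rwa [ringChar.eq F p]); omega)
  have h3 := card_blocks_SL F le_rfl p hM
  have h4 := card_full_SL F le_rfl p M
  rw [Nat.gcd_comm, hq] at h3 h4
  obtain ⟨w, hw⟩ := exists_ell_SL (F := F)
  have pm : ∀ χ : IrrCharacter SL(2, F), χ.1 (-1) = χ.1 1 ∨ χ.1 (-1) = -χ.1 1 := fun χ => by
    obtain ⟨l, hl, -⟩ := exists_centerHom χ.2.apply_one_ne_zero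
    let z : charCenter χ.1 := ⟨-1, χ.2.center_le_charCenter (Subgroup.mem_center_iff.2 (by simp))⟩
    have e : (l z : ℂ) * l z = 1 := by rw [← Units.val_mul, ← map_mul, show z * z = 1 from Subtype.ext (by simp [z])]; simp
    have := hl z 1
    rcases mul_self_eq_one_iff.1 e with e | e <;> simp_all [z]
  have cc : ∀ χ : IrrCharacter SL(2, F), centralChar χ.1 (-1) = χ.1 (-1) / χ.1 1 := fun χ => by
    rw [centralChar, Subgroup.centralizer_eq_top_iff_subset.2 (by simp [Subgroup.mem_center_iff])]; simp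
  have sb : ∀ B : Set (IrrCharacter SL(2, F)), IsPBlock M B → ∀ χ ∈ B, ∀ ψ ∈ B, χ.1 (-1) = χ.1 1 → ψ.1 (-1) = ψ.1 1 := fun B hB χ a ψ b e => (pm ψ).resolve_right fun e' => by
    have := red_centralChar_eq_of_mem hB a b (-1)
    rw [cc, cc, e, e', div_self χ.2.apply_one_ne_zero, neg_div, div_self ψ.2.apply_one_ne_zero, red_neg, red_one] at this
    have := eq_one_of_red_eq_one (M := M) (p := p) (z := -1) (n := 2) (fun h => hp ((Nat.prime_dvd_prime_iff_eq hp' Nat.prime_two).1 h))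
      (by simp) (by rw [red_neg, red_one, ← this])
    norm_num at this
  let st : IrrCharacter SL(2, F) := ⟨_, isIrr_StS⟩
  obtain ⟨A, hA⟩ : ∃ A, A = {χ : IrrCharacter SL(2, F) | χ.1 1 = (Fintype.card F : ℂ)} := ⟨_, rfl⟩
  obtain ⟨B, hB⟩ : ∃ B, B = {χ : IrrCharacter SL(2, F) | χ.1 (-1) = χ.1 1 ∧ χ.1 1 ≠ (Fintype.card F : ℂ)} := ⟨_, rfl⟩
  obtain ⟨C, hC⟩ : ∃ C, C = {χ : IrrCharacter SL(2, F) | χ.1 (-1) = -χ.1 1} := ⟨_, rfl⟩
  have a1 : A = {st} := hA ▸ Set.ext fun χ => ⟨fun h => Subtype.ext (eq_StS_of_degree hw χ.2 h), by rintro rfl; exact StS_one⟩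
  have a2 : st.1 (-1) = st.1 1 := (StS_scal ⟨by simp, by simp, by simp⟩).trans StS_one.symm
  have a3 : IsPBlock M A ∧ blockDefect p A = 0 := by
    obtain ⟨⟨X, x1, x2⟩, -⟩ := Nat.card_eq_one_iff_exists.1 (Cfsg.Agent.S4538.result (F := F) 2 le_rfl p M hM).1
    obtain ⟨χ, hχ⟩ := block_nonempty x1
    have e := (blockDefect_eq_zero_iff x1 hχ).1 x2
    obtain ⟨k, -, hk⟩ := FiniteField.card F p
    have h0 : p ∣ Fintype.card F := hk ▸ dvd_pow_self p k.ne_zero
    have h5 : p ∣ charDegree χ.1 := Nat.dvd_of_factorization_pos (by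
      rw [e]; exact (hp'.factorization_pos_of_dvd Nat.card_pos.ne' (H10.card_SL2 (F := F) ▸ (h0.mul_right _).mul_right _)).ne')
    have h1 : ¬ p ∣ Fintype.card F + 1 := fun h => hp'.not_dvd_one ((Nat.dvd_add_right h0).1 h)
    have h2 : ∀ n, n + 1 = Fintype.card F → ¬ p ∣ n := fun n e h => hp'.not_dvd_one ((Nat.dvd_add_right h).1 (e ▸ h0))
    obtain rfl : χ = st := by
      rcases irr_SL2_degree hw χ.2 χ.2.coe_charDegree.symm with a | a | a | a | a | a
      exacts [absurd (a.1 ▸ h5) hp'.not_dvd_one, Subtype.ext a.2, absurd (a.1 ▸ h5) h1, absurd h5 (h2 _ a.1),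
        absurd (a.1 ▸ h5.mul_left 2) h1, absurd (h5.mul_left 2) (h2 _ a.1)]
    rw [a1, ← (block_eq_singleton_iff x1 hχ).2 e]
    exact ⟨x1, x2⟩
  have nA : A.Nonempty := a1 ▸ Set.singleton_nonempty _
  have nB : B.Nonempty := hB ▸ ⟨⟨fun _ => 1, isIrrCharacter_one⟩, rfl, fun h => (Fintype.one_lt_card (α := F)).ne (Nat.cast_injective (R := ℂ) (Nat.cast_one.trans h))⟩
  have nC : C.Nonempty := hC ▸ by_contra fun h => neg_one_ne_one_SL h2 (eq_one_of_forall_irr fun χ => (pm χ).resolve_right fun e => h ⟨χ, e⟩)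
  have ne : ∀ χ : IrrCharacter SL(2, F), χ.1 (-1) = χ.1 1 → χ.1 (-1) ≠ -χ.1 1 := fun χ e e' => χ.2.apply_one_ne_zero (by
    linear_combination (e' - e) / 2)
  have d1 : Disjoint A B := hA ▸ hB ▸ Set.disjoint_left.2 fun χ a b => b.2 a
  have d2 : Disjoint A C := a1 ▸ hC ▸ Set.disjoint_singleton_left.2 (ne _ a2)
  have d3 : Disjoint B C := hB ▸ hC ▸ Set.disjoint_left.2 fun χ a b => ne _ a.1 b
  have k : ∀ X, IsPBlock M X → X.Nonempty ∧ (X ⊆ A ∨ X ⊆ B ∨ X ⊆ C) := fun X hX => ⟨block_nonempty hX, by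
    by_cases e : X = A
    · exact .inl e.le
    have := Set.disjoint_left.1 (block_disjoint hX a3.1 e)
    by_cases e' : ∃ χ ∈ X, χ.1 (-1) = χ.1 1
    · obtain ⟨χ, a, b⟩ := e'
      exact .inr (.inl (hB ▸ fun ψ c => ⟨sb X hX χ a ψ c b, fun d => this c (hA ▸ d)⟩))
    · exact .inr (.inr (hC ▸ fun ψ c => (pm ψ).resolve_left fun d => e' ⟨ψ, c, d⟩))⟩
  have b1 : ∀ χ : IrrCharacter SL(2, F), IsPBlock M (blockOf M χ.1) ∧ χ ∈ blockOf M χ.1 := fun χ => ⟨isPBlock_blockOf χ, mem_blockOf_self χ⟩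
  have pB := three h3 _ b1 (fun X hX => ⟨(k X hX).1, by have := (k X hX).2; tauto⟩) nB nA nC d1.symm d3 d2
  have pC := three h3 _ b1 (fun X hX => ⟨(k X hX).1, by have := (k X hX).2; tauto⟩) nC nA nB d2.symm d3.symm d1
  have df : ∀ X, IsPBlock M X → Disjoint A X → ∀ P : Sylow p SL(2, F), IsDefectGroup p M X P := fun X hX d P =>
    (isDefectGroup_sylow_iff hX P).2 (((Cfsg.Agent.S4538.result (F := F) 2 le_rfl p M hM).2 X hX).resolve_left fun e => by
      obtain ⟨Y, hY⟩ := Nat.card_eq_one_iff_exists.1 (Cfsg.Agent.S4538.result (F := F) 2 le_rfl p M hM).1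
      exact nA.ne_empty (disjoint_self.1 ((Subtype.mk.inj ((hY ⟨X, hX, e⟩).trans (hY ⟨A, a3⟩).symm)) ▸ d))).ge
  rw [← hA, ← hB, ← hC]
  refine ⟨fun X => ⟨fun hX => ?_, by rintro (rfl | rfl | rfl); exacts [a3.1, pB, pC]⟩, h3, fun P => ⟨df B pB d1 P, df C pC d2 P⟩⟩
  obtain ⟨⟨χ, a⟩, b⟩ := k X hX
  exact b.imp (fun c => block_eq_of_mem hX a3.1 a (c a)) (Or.imp (fun c => block_eq_of_mem hX pB a (c a)) fun c => block_eq_of_mem hX pC a (c a))

end Cfsg.Agent.S2439
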