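import Cfsg.Statements.S2444
import Cfsg.Agent.H19.Cm4

set_option autoImplicit false
open Cfsg

namespace Cfsg.Agent.S2444

/-- In the special linear group SL(n,F) over a finite field F, with n ≥ 2 and (n, |F|) not (2,2) or (2,3), every element is a commutator a·b·a⁻¹·b⁻¹ of two elements of SL(n,F). -/
theorem result {F : Type*} [Field F] [Fintype F] (n : ℕ) (hn : 2 ≤ n) (hex : n = 2 → 4 ≤ Fintype.card F) :
    ∀ g : Matrix.SpecialLinearGroup (Fin n) F, ∃ a b : Matrix.SpecialLinearGroup (Fin n) F, g = a * b * a⁻¹ * b⁻¹ := by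
  have tr {K : Type} [Field K] (e : K ≃+* F) (H : ∀ g : Matrix.SpecialLinearGroup (Fin n) K, ∃ a b, g = a * b * a⁻¹ * b⁻¹)
      (g : Matrix.SpecialLinearGroup (Fin n) F) : ∃ a b, g = a * b * a⁻¹ * b⁻¹ := by
    obtain ⟨a, b, h⟩ := H (Matrix.SpecialLinearGroup.map (e.symm : F →+* K) g)
    refine ⟨Matrix.SpecialLinearGroup.map (e : K →+* F) a, Matrix.SpecialLinearGroup.map (e : K →+* F) b, ?_⟩
    rw [← map_inv, ← map_inv, ← map_mul, ← map_mul, ← map_mul, ← h]
    ext; simp
  obtain h | h | h : Fintype.card F = 2 ∨ Fintype.card F = 3 ∨ 4 ≤ Fintype.card F := by have := Fintype.one_lt_card (α := F); omega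
  · exact tr (ZMod.ringEquivOfPrime F Nat.prime_two h) fun g => H19.Cm.sl_comm g fun s o _ d => H19.Cm.main2 o fun e => by
      simp [e, H19.Cm.deg_qd] at d; omega
  · exact tr (ZMod.ringEquivOfPrime F Nat.prime_three h) fun g => H19.Cm.sl_comm g fun s o e d =>
      (H19.Cm.main3 o e fun e => by simp [e] at d; omega).2.2 (by omega)
  classical
  refine fun g => H19.Cm.sl_comm g fun s o e _ => H19.Cm.main4 (fun x y => ?_) o e
  obtain ⟨ρ, -, h⟩ := Finset.exists_mem_notMem_of_card_lt_card (s := {0, x, y}) (t := Finset.univ) (Finset.card_le_three.trans_lt h)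
  exact ⟨ρ, by simpa [not_or] using h⟩

end Cfsg.Agent.S2444
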