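import Cfsg.Statements.S2450
import Cfsg.Agent.H9.L2

set_option autoImplicit false
open Cfsg

namespace Cfsg.Agent.S2450

open Matrix H24 Polynomial
open scoped MatrixGroups

theorem exists_ne {F : Type*} [Field F] {g : SL(2, F)} (h : ¬ IsScal (g : M2 F)) :
    ∃ c : SL(2, F), ((c * g * c⁻¹ : SL(2, F)) : M2 F) 1 0 ≠ 0 := by
  by_contra hc
  push Not at hc
  obtain ⟨w, hw⟩ : ∃ w : SL(2, F), (w : M2 F) = !![0, -1; 1, 0] := ⟨⟨_, by simp⟩, rfl⟩
  obtain ⟨u, hu⟩ : ∃ w : SL(2, F), (w : M2 F) = !![1, 0; 1, 1] := ⟨⟨_, by simp⟩, rfl⟩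
  have h1 := hc 1
  have h2 := hc w
  have h3 := hc u
  rw [coe_mul_SL, coe_mul_SL, coe_inv_SL] at h2 h3
  simp [hw, hu, Matrix.mul_apply, trace_fin_two, vecMul, dotProduct] at h1 h2 h3
  exact h ⟨h2, h1, by grind⟩

theorem quad {F : Type*} [Field F] [Fintype F] (h4 : 4 ≤ Fintype.card F) {A B f : F} (hA : A ≠ 0) :
    ∃ x : F, (f + B * x - A * x ^ 2) ^ 2 ≠ f ^ 2 := by
  by_contra hc
  push Not at hc
  by_cases h2 : (2 : F) = 0
  · have := eq_zero_of_natDegree_lt_card_of_eval_eq_zero (C B * X - C A * X ^ 2) Function.injective_id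
      (fun x => by
        have : (B * x - A * x ^ 2) ^ 2 = 0 := by linear_combination hc x - (f * (B * x - A * x ^ 2)) * h2
        simpa using this) (lt_of_le_of_lt (by compute_degree) (by omega : 2 < _))
    have := congrArg (coeff · 2) this
    simp [coeff_X] at this
    exact hA this
  · obtain ⟨k, hk⟩ := odd_of_two_ne_zero h2
    have := eq_zero_of_natDegree_lt_card_of_eval_eq_zero
      (C (A ^ 2) * X ^ 4 - C (2 * A * B) * X ^ 3 + C (B ^ 2 - 2 * f * A) * X ^ 2 + C (2 * f * B) * X)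
      Function.injective_id (fun x => by
        simp only [eval_add, eval_sub, eval_mul, eval_C, eval_pow, eval_X, id]
        linear_combination hc x) (lt_of_le_of_lt (by compute_degree) (by omega : 4 < _))
    have := congrArg (coeff · 4) this
    simp only [coeff_add, coeff_sub, coeff_C_mul, coeff_X_pow, coeff_X] at this
    simp at this
    exact hA this

/-- The Arad–Herzog conjecture for PSL(2,q): let F be a finite field with q ≥ 4 elements. For any two non-identity elements a, b of PSL(2,F), the set of products of a conjugate of a with a conjugate of b is not a single conjugacy class. -/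
theorem result {F : Type*} [Field F] [Fintype F] (h4 : 4 ≤ Fintype.card F)
    (a b : Matrix.ProjectiveSpecialLinearGroup (Fin 2) F) (ha : a ≠ 1) (hb : b ≠ 1) (c : Matrix.ProjectiveSpecialLinearGroup (Fin 2) F) :
    {g : Matrix.ProjectiveSpecialLinearGroup (Fin 2) F | ∃ u v : Matrix.ProjectiveSpecialLinearGroup (Fin 2) F, g = (u * a * u⁻¹) * (v * b * v⁻¹)} ≠ {g | IsConj c g} := by
  obtain ⟨a, rfl⟩ := H10.π_surjective a
  obtain ⟨b, rfl⟩ := H10.π_surjective b
  obtain ⟨c, rfl⟩ := H10.π_surjective c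
  intro h
  obtain ⟨r, hr⟩ := exists_ne (H9.L2.not_isScal_of_ne_one ha)
  obtain ⟨s, hs⟩ := exists_ne (H9.L2.not_isScal_of_ne_one hb)
  have k : ∀ u : SL(2, F), ((r * a * r⁻¹ * (u * (s * b * s⁻¹) * u⁻¹) : SL(2, F)) : M2 F).trace ^ 2 =
      (c : M2 F).trace ^ 2 := fun u => (H9.L2.tr_sq ((Set.ext_iff.1 h _).1
    ⟨H10.π F r, H10.π F (u * s), by simp [mul_assoc]⟩)).symm
  generalize r * a * r⁻¹ = a' at hr k
  generalize s * b * s⁻¹ = b' at hs k
  obtain ⟨x, hx⟩ := quad h4 (f := ((a' * b' : SL(2, F)) : M2 F).trace)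
    (B := a'.1 0 0 * b'.1 1 0 + a'.1 1 0 * (b'.1 1 1 - b'.1 0 0) - a'.1 1 1 * b'.1 1 0) (mul_ne_zero hr hs)
  obtain ⟨u, hu⟩ : ∃ w : SL(2, F), (w : M2 F) = !![1, x; 0, 1] := ⟨⟨_, by simp⟩, rfl⟩
  have k1 := k 1
  rw [one_mul, inv_one, mul_one] at k1
  apply hx
  rw [k1, ← k u, coe_mul_SL, coe_mul_SL, coe_mul_SL, coe_mul_SL, coe_inv_SL, hu]
  congr 1
  simp [Matrix.mul_apply, trace_fin_two, vecMul, dotProduct]
  ring

end Cfsg.Agent.S2450
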