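import Cfsg.Statements.S2455
import Cfsg.Agent.H9.L2

set_option autoImplicit false
open Cfsg

namespace Cfsg.Agent.S2455

/-- A strong covering result in the direction of Thompson's conjecture (non-identity elements) for PSL(2,q), q odd: let F be a finite field of odd characteristic p with at least 5 elements and let x ∈ PSL(2,F) have order greater than 2 and not divisible by p (so x is not unipotent). Then every non-identity element of PSL(2,F) is a product of two conjugates of x. -/
theorem result {F : Type*} [Field F] [Fintype F] (p : ℕ) [Fact p.Prime] [CharP F p] (hp : p ≠ 2) (h5 : 5 ≤ Fintype.card F)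
    (x : Matrix.ProjectiveSpecialLinearGroup (Fin 2) F) (hx2 : 2 < orderOf x) (hxp : ¬ p ∣ orderOf x) : ∀ g : Matrix.ProjectiveSpecialLinearGroup (Fin 2) F, g ≠ 1 → ∃ u v : Matrix.ProjectiveSpecialLinearGroup (Fin 2) F, g = (u * x * u⁻¹) * (v * x * v⁻¹) := by
  obtain ⟨x, rfl⟩ := H10.π_surjective x
  intro g hg
  obtain ⟨g, rfl⟩ := H10.π_surjective g
  have h2 : (2 : F) ≠ 0 := fun h =>
    hp ((Nat.prime_dvd_prime_iff_eq Fact.out Nat.prime_two).1 ((CharP.cast_eq_zero_iff F p 2).1 h))
  have hr : H24.RS x := by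
    by_contra h
    rcases (Nat.dvd_prime Fact.out).1 (orderOf_dvd_of_pow_eq_one (H9.L2.pow_char_of_not_rs p h)) with k | k
    · omega
    · exact hxp k.symm.dvd
  have t0 : (x : H24.M2 F).trace ≠ 0 := fun h =>
    absurd (Nat.le_of_dvd two_pos (orderOf_dvd_of_pow_eq_one (H9.L2.sq_of_trace_zero h))) (by omega)
  have hg' := H9.L2.not_isScal_of_ne_one hg
  generalize ht : (x : H24.M2 F).trace = t at t0
  generalize hs : (g : H24.M2 F).trace = s
  by_cases h4 : s ^ 2 = 2 ^ 2
  · rcases sq_eq_sq_iff_eq_or_eq_neg.1 h4 with k | k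
    · exact H9.L2.prod_class hr hg' (r := -t) (a := 1 / (2 * t)) (b := 1 / (2 * t)) (by simp [ht])
        (by rw [ht, hs, k]; field_simp; ring)
    · exact H9.L2.prod_class hr hg' (r := t) (a := 1 / (2 * t)) (b := -(1 / (2 * t))) (by simp [ht])
        (by rw [ht, hs, k]; field_simp; ring)
  · have s2 : 2 + s ≠ 0 := fun k => h4 (by linear_combination (s - 2) * k)
    obtain ⟨a, b, h⟩ := H24.exists_form_eq h2 (t := -s) (d := 1)
      (fun k => h4 (by linear_combination k)) (t ^ 2 / (2 + s) - 1)
    exact H9.L2.prod_class hr hg' (r := t) (a := a + t / (2 + s)) (b := b - t / (2 + s)) (by simp [ht])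
      (by rw [ht, hs]; field_simp at h ⊢; linear_combination (2 + s) * h)

end Cfsg.Agent.S2455
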