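import Cfsg.Statements.S2456
import Cfsg.Agent.H9.L2

set_option autoImplicit false
open Cfsg

namespace Cfsg.Agent.S2456

/-- A strong covering result in the direction of Thompson's conjecture (non-identity elements) for PSL(2,q), q even: let F be a finite field of characteristic 2 with q ≥ 4 elements and let x ∈ PSL(2,F) have order greater than 2 and not dividing q + 1. Then every non-identity element of PSL(2,F) is a product of two conjugates of x. -/
theorem result {F : Type*} [Field F] [Fintype F] [CharP F 2] (h4 : 4 ≤ Fintype.card F)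
    (x : Matrix.ProjectiveSpecialLinearGroup (Fin 2) F) (hx2 : 2 < orderOf x) (hxq : ¬ orderOf x ∣ Fintype.card F + 1) : ∀ g : Matrix.ProjectiveSpecialLinearGroup (Fin 2) F, g ≠ 1 → ∃ u v : Matrix.ProjectiveSpecialLinearGroup (Fin 2) F, g = (u * x * u⁻¹) * (v * x * v⁻¹) := by
  obtain ⟨x, rfl⟩ := H10.π_surjective x
  intro g hg
  obtain ⟨g, rfl⟩ := H10.π_surjective g
  have h2 : (2 : F) = 0 := CharP.ofNat_eq_zero F 2
  have : Fact (Nat.Prime 2) := ⟨Nat.prime_two⟩
  have hr : H24.RS x := by
    by_contra h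
    exact absurd (Nat.le_of_dvd two_pos (orderOf_dvd_of_pow_eq_one (H9.L2.pow_char_of_not_rs 2 h)))
      (by omega)
  have hg' := H9.L2.not_isScal_of_ne_one hg
  rcases hr.cases with ⟨-, h⟩ | ⟨⟨a, b, -, h1, h3⟩, -⟩
  · exact absurd ((orderOf_map_dvd _ x).trans (h ▸ Subgroup.orderOf_dvd_natCard _ (H24.self_mem_C2 x))) hxq
  generalize ht : (x : H24.M2 F).trace = t at h1
  generalize hs : (g : H24.M2 F).trace = s
  by_cases s0 : s = 0
  · exact H9.L2.prod_class hr hg' (r := t) (a := a) (b := 0) (by simp [ht]) (by rw [ht, hs]; grind)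
  · obtain ⟨c, hc⟩ := H24.isSquare_of_two_eq_zero h2 (t ^ 2 / s + 1)
    exact H9.L2.prod_class hr hg' (r := t) (a := c + t / s) (b := t / s) (by simp [ht])
      (by rw [ht, hs]; field_simp at hc ⊢; grind)

end Cfsg.Agent.S2456
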