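import Cfsg.Statements.S2457
import Cfsg.Agent.H13.SzChar
import Cfsg.Agent.H13.SzModel
import Cfsg.Agent.H5.FS

set_option autoImplicit false
open Cfsg

namespace Cfsg.Agent.S2457

section
open H5 H13 H13.Sz
open scoped ComplexConjugate

variable {F : Type*} [Field F] [Fintype F] {m : ℕ} [hF : IsSz F m]

/-- the summand -/
noncomputable def Ph (x g : Cfsg.Sz F m) (χ : Cfsg.Sz F m → ℂ) : ℂ :=
  conj (χ x) * conj (χ x) * χ g / χ 1

theorem ne_zero_of {z E : ℂ} {a b : ℝ} (h : z = a + E) (hE : ‖E‖ ≤ b) (hab : b < a) : z ≠ 0 := by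
  intro h0
  have : E = -a := by linear_combination h0 - h
  rw [this, norm_neg, Complex.norm_real, Real.norm_eq_abs] at hE
  linarith [le_abs_self a]

theorem tsum_le {ι : Type*} (s : Finset ι) (χ : ι → Cfsg.Sz F m → ℂ) (x g : Cfsg.Sz F m) {A B d : ℝ}
    (hd : 0 < d) (h1 : ∀ i ∈ s, χ i 1 = d) (ha : ∑ i ∈ s, χ i x * conj (χ i x) = A)
    (hb : ∀ i ∈ s, ‖χ i g‖ ≤ B) : ‖∑ i ∈ s, Ph x g (χ i)‖ ≤ A * B / d := by
  have ha' : ∑ i ∈ s, ‖χ i x‖ ^ 2 = A := by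
    simp only [Complex.mul_conj, Complex.normSq_eq_norm_sq] at ha
    exact_mod_cast ha
  refine (norm_sum_le _ _).trans ?_
  rw [← ha', Finset.sum_mul, Finset.sum_div]
  refine Finset.sum_le_sum fun i hi => ?_
  rw [Ph, h1 i hi, norm_div, norm_mul, norm_mul, Complex.norm_conj, Complex.norm_real,
    Real.norm_of_nonneg hd.le, ← sq]
  gcongr
  exact hb i hi

theorem bounds {g : Cfsg.Sz F m} (hg : g ≠ 1) : ‖stX F m g‖ ≤ 1 ∧ ‖W1 F m g + W2 F m g‖ ≤ 2 * 2 ^ m ∧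
    (∀ θ ∈ nt (H F m), ‖XL θ.1 g‖ ≤ 2) ∧ ∀ θ ∈ nt (T2 F m), ‖ZL θ.1 g‖ ≤ 2 * 2 ^ m + 1 := by
  have h2 : (2 : ℝ) ≤ 2 ^ m := by
    simpa using pow_le_pow_right₀ (one_le_two (α := ℝ)) hF.hm
  have vX := fun θ : IrrCharacter (H F m) => vals_XL (isTorus_H.irr_one θ.2)
  have vZ := fun θ : IrrCharacter (T2 F m) => vals_ZL (ell_t2.isTorus.irr_one θ.2)
  refine classes (P := fun g => ‖stX F m g‖ ≤ 1 ∧ ‖W1 F m g + W2 F m g‖ ≤ 2 * 2 ^ m ∧
    (∀ θ ∈ nt (H F m), ‖XL θ.1 g‖ ≤ 2) ∧ ∀ θ ∈ nt (T2 F m), ‖ZL θ.1 g‖ ≤ 2 * 2 ^ m + 1)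
    ?_ ?_ ?_ ?_ ?_ ?_ ?_ hg
  · rintro x y hxy ⟨a, b, c, d⟩
    refine ⟨?_, ?_, fun θ hθ => ?_, fun θ hθ => ?_⟩
    · rwa [← irr_stX.isClassFunction.eq_of_isConj hxy]
    · rwa [← irr_W1.isClassFunction.eq_of_isConj hxy, ← irr_W2.isClassFunction.eq_of_isConj hxy]
    · rw [← (irr_XL θ.2 (ne_of_mem_nt hθ)).isClassFunction.eq_of_isConj hxy]; exact c θ hθ
    · rw [← (irr_ZL θ.2 (ne_of_mem_nt hθ)).isClassFunction.eq_of_isConj hxy]; exact d θ hθ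
  · refine ⟨by simp [vals_stX.i], ?_, fun θ _ => by simp [(vX θ).i], fun θ _ => ?_⟩
    · rw [vals_W1.i, vals_W2.i, ← two_mul]; simp
    · rw [(vZ θ).i, ← neg_add', norm_neg]
      exact (norm_add_le _ _).trans (by simp)
  · exact ⟨by simp [vals_stX.y], by simp [vals_W1.y, vals_W2.y], fun θ _ => by simp [(vX θ).y],
      fun θ _ => by simp [(vZ θ).y]⟩
  · exact ⟨by simp [vals_stX.y'], by simp [vals_W1.y', vals_W2.y'], fun θ _ => by simp [(vX θ).y'],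
      fun θ _ => by simp [(vZ θ).y']⟩
  · intro s hs
    have h1 := (tor_h (m := m) hs).1
    have h0 := h_mem_H (m := m) s
    refine ⟨by simp [vals_stX.onH _ h0 h1], by simp [vals_W1.onH _ h0 h1, vals_W2.onH _ h0 h1],
      fun θ _ => ?_, fun θ _ => by simp [(vZ θ).onH _ h0 h1]; positivity⟩
    rw [(vX θ).onH _ h0 h1]
    exact_mod_cast isTorus_H.norm_ind_le θ.2 h0 h1
  · intro t h0 h1
    refine ⟨by simp [vals_stX.on1 _ h0 h1], ?_, fun θ _ => by simp [(vX θ).on1 _ h0 h1],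
      fun θ _ => by simp [(vZ θ).on1 _ h0 h1]; positivity⟩
    simp only [vals_W1.on1 _ h0 h1, vals_W2.on1 _ h0 h1, Pi.one_apply]
    refine (norm_add_le _ _).trans ?_
    rw [norm_one]; linarith
  · intro t h0 h1
    refine ⟨by simp [vals_stX.on2 _ h0 h1], ?_, fun θ _ => by simp [(vX θ).on2 _ h0 h1],
      fun θ _ => ?_⟩
    · simp only [vals_W1.on2 _ h0 h1, vals_W2.on2 _ h0 h1, Pi.neg_apply, Pi.one_apply]
      refine (norm_add_le _ _).trans ?_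
      rw [norm_neg, norm_one]; linarith
    · rw [(vZ θ).on2 _ h0 h1, Pi.neg_apply, norm_neg]
      have := ell_t2.isTorus.norm_ind_le θ.2 h0 h1
      push_cast at this
      linarith

theorem sum_zero {ι : Type*} (s : Finset ι) (f : ι → ℂ) (h : ∀ i, f i = 0) : ∑ i ∈ s, f i = 0 :=
  Finset.sum_eq_zero fun i _ => h i

theorem case_H {g : Cfsg.Sz F m} {s : Fˣ} (hs : s ≠ 1) (hg : g ≠ 1) :
    ∑ χ : IrrCharacter (Cfsg.Sz F m), Ph (h m s) g χ ≠ 0 := by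
  have h2 : (2 : ℝ) ≤ 2 ^ m := by
    simpa using pow_le_pow_right₀ (one_le_two (α := ℝ)) hF.hm
  have vX := fun θ : IrrCharacter (H F m) => vals_XL (isTorus_H.irr_one θ.2)
  have vY := fun θ : IrrCharacter (T1 F m) => vals_YL (ell_t1.isTorus.irr_one θ.2)
  have vZ := fun θ : IrrCharacter (T2 F m) => vals_ZL (ell_t2.isTorus.irr_one θ.2)
  obtain ⟨b1, b2, b3, b4⟩ := bounds hg
  have hx := h_mem_H (m := m) s
  have h1 := (tor_h (m := m) hs).1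
  have hc := sum_irr_mul_conj_of_isConj (IsConj.refl (h m s))
  rw [centralizer_h hs, cast_card_H, sum_irr (fun χ => χ (h m s) * conj (χ (h m s))),
    sum_zero (nt (T1 F m)) _ fun θ => by simp [(vY θ).onH _ hx h1],
    sum_zero (nt (T2 F m)) _ fun θ => by simp [(vZ θ).onH _ hx h1],
    vals_stX.onH _ hx h1, vals_W1.onH _ hx h1, vals_W2.onH _ hx h1] at hc
  have hX := tsum_le (nt (H F m)) (fun θ => XL θ.1) (h m s) g (d := (2 * (2 ^ m) ^ 2) ^ 2 + 1)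
    (A := 2 * (2 * (2 ^ m) ^ 2 - 3)) (by positivity)
    (fun θ _ => by rw [(vX θ).one, cast_card]; push_cast; rfl)
    (by rw [cast_card] at hc; simp at hc; push_cast; linear_combination 2 * hc) b3
  rw [sum_irr (Ph (h m s) g), sum_zero (nt (T1 F m)) _ fun θ => by simp [Ph, (vY θ).onH _ hx h1],
    sum_zero (nt (T2 F m)) _ fun θ => by simp [Ph, (vZ θ).onH _ hx h1]]
  refine ne_zero_of (a := 1) (E := stX F m g / (2 * (2 ^ m) ^ 2) ^ 2 +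
    1 / 2 * ∑ θ ∈ nt (H F m), Ph (h m s) g (XL θ.1)) (b := 1 / (2 * (2 ^ m) ^ 2) ^ 2 +
      1 / 2 * (2 * (2 * (2 ^ m) ^ 2 - 3) * 2 / ((2 * (2 ^ m) ^ 2) ^ 2 + 1))) ?_ ?_ ?_
  · simp only [Ph, vals_stX.onH _ hx h1, vals_W1.onH _ hx h1, vals_W2.onH _ hx h1, vals_stX.one,
      cast_card]
    simp
    ring
  · refine (norm_add_le _ _).trans (add_le_add ?_ ?_)
    · rw [norm_div]
      simp only [norm_pow, norm_mul, Complex.norm_ofNat]
      gcongr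
    · rw [norm_mul]
      simp only [norm_div, norm_one, Complex.norm_ofNat]
      gcongr
  · generalize (2 : ℝ) ^ m = r at *
    have h8 : 8 ≤ 2 * r ^ 2 := by nlinarith
    generalize 2 * r ^ 2 = q at *
    have : 1 / q ^ 2 ≤ 1 / 64 := by gcongr; nlinarith
    have : 2 * (q - 3) * 2 / (q ^ 2 + 1) ≤ 1 := by
      rw [div_le_one (by positivity)]; nlinarith
    linarith

theorem case_T2 {x g : Cfsg.Sz F m} (hx : x ∈ T2 F m) (h1 : x ≠ 1) (hg : g ≠ 1) :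
    ∑ χ : IrrCharacter (Cfsg.Sz F m), Ph x g χ ≠ 0 := by
  have h2 : (2 : ℝ) ≤ 2 ^ m := by
    simpa using pow_le_pow_right₀ (one_le_two (α := ℝ)) hF.hm
  have h8 : (8 : ℝ) ≤ 2 * (2 ^ m) ^ 2 := by nlinarith
  have vX := fun θ : IrrCharacter (H F m) => vals_XL (isTorus_H.irr_one θ.2)
  have vY := fun θ : IrrCharacter (T1 F m) => vals_YL (ell_t1.isTorus.irr_one θ.2)
  have vZ := fun θ : IrrCharacter (T2 F m) => vals_ZL (ell_t2.isTorus.irr_one θ.2)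
  obtain ⟨b1, b2, b3, b4⟩ := bounds hg
  have hc := sum_irr_mul_conj_of_isConj (IsConj.refl x)
  rw [ell_t2.tor.centralizer_eq hx h1, cast_card_T2, sum_irr (fun χ => χ x * conj (χ x)),
    sum_zero (nt (T1 F m)) _ fun θ => by simp [(vY θ).on2 _ hx h1],
    sum_zero (nt (H F m)) _ fun θ => by simp [(vX θ).on2 _ hx h1],
    vals_stX.on2 _ hx h1, vals_W1.on2 _ hx h1, vals_W2.on2 _ hx h1] at hc
  have hZ := tsum_le (nt (T2 F m)) (fun θ => ZL θ.1) x g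
    (d := (2 * (2 ^ m) ^ 2 + 2 * 2 ^ m + 1) * (2 * (2 ^ m) ^ 2 - 1))
    (A := 4 * (2 * (2 ^ m) ^ 2 - 2 * 2 ^ m - 3)) (mul_pos (by positivity) (by linarith))
    (fun θ _ => by rw [(vZ θ).one, cast_card]; push_cast; rfl)
    (by rw [cast_card] at hc; simp at hc; push_cast; linear_combination 4 * hc) b4
  rw [sum_irr (Ph x g), sum_zero (nt (T1 F m)) _ fun θ => by simp [Ph, (vY θ).on2 _ hx h1],
    sum_zero (nt (H F m)) _ fun θ => by simp [Ph, (vX θ).on2 _ hx h1]]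
  refine ne_zero_of (a := 1) (E := stX F m g / (2 * (2 ^ m) ^ 2) ^ 2 +
    (W1 F m g + W2 F m g) / ((2 ^ m * (2 * (2 ^ m) ^ 2 - 1) : ℝ) : ℂ) +
    1 / 4 * ∑ θ ∈ nt (T2 F m), Ph x g (ZL θ.1)) (b := 1 / (2 * (2 ^ m) ^ 2) ^ 2 +
      2 * 2 ^ m / (2 ^ m * (2 * (2 ^ m) ^ 2 - 1)) +
      1 / 4 * (4 * (2 * (2 ^ m) ^ 2 - 2 * 2 ^ m - 3) * (2 * 2 ^ m + 1) /
        ((2 * (2 ^ m) ^ 2 + 2 * 2 ^ m + 1) * (2 * (2 ^ m) ^ 2 - 1)))) ?_ ?_ ?_
  · simp only [Ph, vals_stX.on2 _ hx h1, vals_W1.on2 _ hx h1, vals_W2.on2 _ hx h1, vals_stX.one,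
      vals_W1.one, vals_W2.one, cast_card]
    simp
    ring
  · refine (norm_add_le _ _).trans (add_le_add ((norm_add_le _ _).trans (add_le_add ?_ ?_)) ?_)
    · rw [norm_div]
      simp only [norm_pow, norm_mul, Complex.norm_ofNat]
      gcongr
    · have : (0 : ℝ) < 2 ^ m * (2 * (2 ^ m) ^ 2 - 1) := mul_pos (by positivity) (by linarith)
      rw [norm_div, Complex.norm_real, Real.norm_of_nonneg this.le]
      gcongr
    · rw [norm_mul]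
      simp only [norm_div, norm_one, Complex.norm_ofNat]
      gcongr
  · generalize (2 : ℝ) ^ m = r at *
    have e1 : 1 / (2 * r ^ 2) ^ 2 ≤ 1 / 64 := by gcongr; nlinarith
    have e2 : 2 * r / (r * (2 * r ^ 2 - 1)) ≤ 2 / 7 := by
      rw [div_le_div_iff₀ (mul_pos (by linarith) (by linarith)) (by norm_num)]
      nlinarith
    have e3 : 4 * (2 * r ^ 2 - 2 * r - 3) * (2 * r + 1) / ((2 * r ^ 2 + 2 * r + 1) * (2 * r ^ 2 - 1)) ≤ 2 := by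
      rw [div_le_iff₀ (mul_pos (by positivity) (by linarith))]
      nlinarith [sq_nonneg (r ^ 2 - 2 * r), sq_nonneg (r - 2)]
    linarith

theorem Ph_conj {x x' g g' : Cfsg.Sz F m} (hx : IsConj x x') (hg : IsConj g g') :
    ∑ χ : IrrCharacter (Cfsg.Sz F m), Ph x g χ = ∑ χ : IrrCharacter (Cfsg.Sz F m), Ph x' g' χ :=
  Finset.sum_congr rfl fun χ _ => by
    rw [Ph, Ph, χ.2.isClassFunction.eq_of_isConj hx, χ.2.isClassFunction.eq_of_isConj hg]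

theorem ne_zero_of_pos {z : ℂ} {a : ℝ} (h : z = a) (ha : 0 < a) : z ≠ 0 := by
  rw [h]; exact_mod_cast ha.ne'

theorem case_T1 {x g : Cfsg.Sz F m} (hx : x ∈ T1 F m) (h1 : x ≠ 1) (hg : g ≠ 1) :
    ∑ χ : IrrCharacter (Cfsg.Sz F m), Ph x g χ ≠ 0 := by
  have h2 : (2 : ℝ) ≤ 2 ^ m := by
    simpa using pow_le_pow_right₀ (one_le_two (α := ℝ)) hF.hm
  have h8 : (8 : ℝ) ≤ 2 * (2 ^ m) ^ 2 := by nlinarith
  have vX := fun θ : IrrCharacter (H F m) => vals_XL (isTorus_H.irr_one θ.2)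
  have vY := fun θ : IrrCharacter (T1 F m) => vals_YL (ell_t1.isTorus.irr_one θ.2)
  have vZ := fun θ : IrrCharacter (T2 F m) => vals_ZL (ell_t2.isTorus.irr_one θ.2)
  have hinv : IsConj x x⁻¹ := by
    obtain ⟨c, hc, h4, hc2⟩ := (ell_t1 (F := F)).exists_order_four
    exact isConj_iff.2 ⟨c * c, ell_t1.tor.inverts hc2 (by rw [← h4, pow_succ, pow_three]; group)
      (mul_mem hc hc) hx⟩
  have hc := sum_irr_mul_conj_of_isConj (IsConj.refl x)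
  rw [ell_t1.tor.centralizer_eq hx h1, cast_card_T1, sum_irr (fun χ => χ x * conj (χ x)),
    sum_zero (nt (T2 F m)) _ fun θ => by simp [(vZ θ).on1 _ hx h1],
    sum_zero (nt (H F m)) _ fun θ => by simp [(vX θ).on1 _ hx h1],
    vals_stX.on1 _ hx h1, vals_W1.on1 _ hx h1, vals_W2.on1 _ hx h1] at hc
  have hA : ∑ θ ∈ nt (T1 F m), YL θ.1 x * conj (YL θ.1 x) =
      (4 * (2 * (2 ^ m) ^ 2 + 2 * 2 ^ m - 3) : ℝ) := by
    rw [cast_card] at hc; simp at hc; push_cast; linear_combination 4 * hc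
  have hd : (0 : ℝ) < (2 * (2 ^ m) ^ 2 - 2 * 2 ^ m + 1) * (2 * (2 ^ m) ^ 2 - 1) :=
    mul_pos (by nlinarith) (by linarith)
  have hd1 : ∀ θ ∈ nt (T1 F m), YL θ.1 1 =
      ((2 * (2 ^ m) ^ 2 - 2 * 2 ^ m + 1) * (2 * (2 ^ m) ^ 2 - 1) : ℝ) := fun θ _ => by
    rw [(vY θ).one, cast_card]; push_cast; rfl
  have hY : ∀ {g : Cfsg.Sz F m} {c : ℝ}, (∀ θ ∈ nt (T1 F m), YL θ.1 g = c) →
      ∑ θ ∈ nt (T1 F m), Ph x g (YL θ.1) = (4 * (2 * (2 ^ m) ^ 2 + 2 * 2 ^ m - 3) * c /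
        ((2 * (2 ^ m) ^ 2 - 2 * 2 ^ m + 1) * (2 * (2 ^ m) ^ 2 - 1)) : ℝ) := fun {g c} hg => by
    rw [Complex.ofReal_div, Complex.ofReal_mul, ← hA, Finset.sum_mul, Finset.sum_div]
    refine Finset.sum_congr rfl fun θ hθ => ?_
    have hi := irr_YL θ.2 (ne_of_mem_nt hθ)
    have : conj (YL θ.1 x) = YL θ.1 x := by
      rw [← hi.isCharacter.apply_inv, ← hi.isClassFunction.eq_of_isConj hinv]
    rw [Ph, hg θ hθ, hd1 θ hθ, this]
  have hS : ∀ g, ∑ χ : IrrCharacter (Cfsg.Sz F m), Ph x g χ =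
      1 + stX F m g / (2 * (2 ^ m) ^ 2) ^ 2 + (W1 F m g + W2 F m g) / (2 ^ m * (2 * (2 ^ m) ^ 2 - 1)) +
        1 / 4 * ∑ θ ∈ nt (T1 F m), Ph x g (YL θ.1) := fun g => by
    rw [sum_irr (Ph x g), sum_zero (nt (T2 F m)) _ fun θ => by simp [Ph, (vZ θ).on1 _ hx h1],
      sum_zero (nt (H F m)) _ fun θ => by simp [Ph, (vX θ).on1 _ hx h1]]
    simp only [Ph, vals_stX.on1 _ hx h1, vals_W1.on1 _ hx h1, vals_W2.on1 _ hx h1, vals_stX.one,
      vals_W1.one, vals_W2.one, cast_card]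
    simp
    ring
  have hy : (0 : ℝ) < 1 + 1 / 4 * (4 * (2 * (2 ^ m) ^ 2 + 2 * 2 ^ m - 3) * (-1) /
        ((2 * (2 ^ m) ^ 2 - 2 * 2 ^ m + 1) * (2 * (2 ^ m) ^ 2 - 1))) := by
    generalize (2 : ℝ) ^ m = r at *
    have : -2 ≤ 4 * (2 * r ^ 2 + 2 * r - 3) * (-1) / ((2 * r ^ 2 - 2 * r + 1) * (2 * r ^ 2 - 1)) := by
      rw [le_div_iff₀ hd]
      nlinarith [sq_nonneg (r ^ 2 - 2 * r), sq_nonneg (r - 2)]
    linarith
  refine classes (P := fun g => ∑ χ : IrrCharacter (Cfsg.Sz F m), Ph x g χ ≠ 0)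
    (fun a b hab h => by rwa [← Ph_conj (IsConj.refl x) hab]) ?_ ?_ ?_ ?_ ?_ ?_ hg
  · rw [hS, hY (c := 2 * 2 ^ m - 1) fun θ _ => by rw [(vY θ).i]; push_cast; rfl, vals_stX.i,
      vals_W1.i, vals_W2.i]
    refine ne_zero_of_pos (a := 1 + -(2 * 2 ^ m) / (2 ^ m * (2 * (2 ^ m) ^ 2 - 1)) + 1 / 4 *
      (4 * (2 * (2 ^ m) ^ 2 + 2 * 2 ^ m - 3) * (2 * 2 ^ m - 1) /
        ((2 * (2 ^ m) ^ 2 - 2 * 2 ^ m + 1) * (2 * (2 ^ m) ^ 2 - 1)))) (by push_cast; ring) ?_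
    generalize (2 : ℝ) ^ m = r at *
    have e2 : -(2 / 7) ≤ -(2 * r) / (r * (2 * r ^ 2 - 1)) := by
      rw [neg_div, neg_le_neg_iff, div_le_div_iff₀ (mul_pos (by linarith) (by linarith)) (by norm_num)]
      nlinarith
    have : 0 ≤ 4 * (2 * r ^ 2 + 2 * r - 3) * (2 * r - 1) / ((2 * r ^ 2 - 2 * r + 1) * (2 * r ^ 2 - 1)) :=
      div_nonneg (mul_nonneg (by linarith) (by linarith)) hd.le
    linarith
  · rw [hS, hY (c := -1) fun θ _ => by rw [(vY θ).y]; push_cast; rfl, vals_stX.y,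
      vals_W1.y, vals_W2.y]
    exact ne_zero_of_pos (by push_cast; ring) hy
  · rw [hS, hY (c := -1) fun θ _ => by rw [(vY θ).y']; push_cast; rfl, vals_stX.y',
      vals_W1.y', vals_W2.y']
    exact ne_zero_of_pos (by push_cast; ring) hy
  · intro s hs
    have h0 := h_mem_H (m := m) s
    have h3 := (tor_h (m := m) hs).1
    rw [hS, hY (c := 0) fun θ _ => by rw [(vY θ).onH _ h0 h3]; simp, vals_stX.onH _ h0 h3,
      vals_W1.onH _ h0 h3, vals_W2.onH _ h0 h3]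
    exact ne_zero_of_pos (a := 1 + 1 / (2 * (2 ^ m) ^ 2) ^ 2) (by simp) (by positivity)
  · intro t h0 h3
    have hb := tsum_le (nt (T1 F m)) (fun θ => YL θ.1) x t (B := 4) hd hd1 hA fun θ _ => by
      rw [(vY θ).on1 _ h0 h3, Pi.neg_apply, norm_neg]
      exact_mod_cast ell_t1.isTorus.norm_ind_le θ.2 h0 h3
    rw [hS, vals_stX.on1 _ h0 h3, vals_W1.on1 _ h0 h3, vals_W2.on1 _ h0 h3]
    refine ne_zero_of (a := 1 + -1 / (2 * (2 ^ m) ^ 2) ^ 2 + 2 / (2 ^ m * (2 * (2 ^ m) ^ 2 - 1)))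
      (E := 1 / 4 * ∑ θ ∈ nt (T1 F m), Ph x t (YL θ.1))
      (b := 1 / 4 * (4 * (2 * (2 ^ m) ^ 2 + 2 * 2 ^ m - 3) * 4 /
        ((2 * (2 ^ m) ^ 2 - 2 * 2 ^ m + 1) * (2 * (2 ^ m) ^ 2 - 1)))) (by simp; norm_num) ?_ ?_
    · rw [norm_mul]
      simp only [norm_div, norm_one, Complex.norm_ofNat]
      gcongr
    · rcases Nat.lt_or_ge 1 m with hm | hm
      · have h4 : (4 : ℝ) ≤ 2 ^ m := by
          have := pow_le_pow_right₀ (one_le_two (α := ℝ)) (show 2 ≤ m from hm)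
          linarith
        generalize (2 : ℝ) ^ m = r at *
        have e1 : -(1 / 64) ≤ -1 / (2 * r ^ 2) ^ 2 := by
          rw [neg_div, neg_le_neg_iff]; gcongr; nlinarith
        have e2 : 0 ≤ 2 / (r * (2 * r ^ 2 - 1)) := div_nonneg (by norm_num) (mul_nonneg (by linarith) (by linarith))
        have : 4 * (2 * r ^ 2 + 2 * r - 3) * 4 / ((2 * r ^ 2 - 2 * r + 1) * (2 * r ^ 2 - 1)) ≤ 2 := by
          rw [div_le_iff₀ hd]
          nlinarith [sq_nonneg (r ^ 2 - 4 * r), sq_nonneg (r - 4)]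
        linarith
      · obtain rfl : m = 1 := le_antisymm hm hF.hm
        norm_num
  · intro t h0 h3
    rw [hS, hY (c := 0) fun θ _ => by rw [(vY θ).on2 _ h0 h3]; simp, vals_stX.on2 _ h0 h3,
      vals_W1.on2 _ h0 h3, vals_W2.on2 _ h0 h3]
    refine ne_zero_of_pos (a := 1 + -1 / (2 * (2 ^ m) ^ 2) ^ 2 + -2 / (2 ^ m * (2 * (2 ^ m) ^ 2 - 1)))
      (by simp; ring) ?_
    generalize (2 : ℝ) ^ m = r at *
    have e1 : -(1 / 64) ≤ -1 / (2 * r ^ 2) ^ 2 := by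
      rw [neg_div, neg_le_neg_iff]; gcongr; nlinarith
    have e2 : -(2 / 7) ≤ -2 / (r * (2 * r ^ 2 - 1)) := by
      rw [neg_div, neg_le_neg_iff]; gcongr; nlinarith
    linarith

theorem case_y {x g : Cfsg.Sz F m} (hx : x = u m 1 0 ∨ x = u m 1 1) (hg : g ≠ 1) :
    ∑ χ : IrrCharacter (Cfsg.Sz F m), Ph x g χ ≠ 0 := by
  have h2 : (2 : ℝ) ≤ 2 ^ m := by
    simpa using pow_le_pow_right₀ (one_le_two (α := ℝ)) hF.hm
  have h8 : (8 : ℝ) ≤ 2 * (2 ^ m) ^ 2 := by nlinarith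
  have vX := fun θ : IrrCharacter (H F m) => vals_XL (isTorus_H.irr_one θ.2)
  have vY := fun θ : IrrCharacter (T1 F m) => vals_YL (ell_t1.isTorus.irr_one θ.2)
  have vZ := fun θ : IrrCharacter (T2 F m) => vals_ZL (ell_t2.isTorus.irr_one θ.2)
  have hS : ∀ g, ∑ χ : IrrCharacter (Cfsg.Sz F m), Ph x g χ =
      1 - (2 ^ m) ^ 2 * (W1 F m g + W2 F m g) / (2 ^ m * (2 * (2 ^ m) ^ 2 - 1)) +
        1 / 2 * (∑ θ ∈ nt (H F m), XL θ.1 g) / ((2 * (2 ^ m) ^ 2) ^ 2 + 1) +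
        1 / 4 * (∑ θ ∈ nt (T1 F m), YL θ.1 g) / ((2 * (2 ^ m) ^ 2 - 2 * 2 ^ m + 1) * (2 * (2 ^ m) ^ 2 - 1)) +
        1 / 4 * (∑ θ ∈ nt (T2 F m), ZL θ.1 g) / ((2 * (2 ^ m) ^ 2 + 2 * 2 ^ m + 1) * (2 * (2 ^ m) ^ 2 - 1)) :=
    fun g => by
    have hc := cW_mul_self (F := F) (m := m)
    rw [sum_irr (Ph x g)]
    simp only [mul_div_assoc, Finset.sum_div]
    rcases hx with rfl | rfl
    · simp only [Ph, (vX _).y, (vY _).y, (vZ _).y, (vX _).one, (vY _).one, (vZ _).one, vals_stX.y,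
        vals_W1.y, vals_W2.y, vals_W1.one, vals_W2.one, cast_card, map_neg, conj_cW, map_one, map_zero,
        neg_mul_neg, hc, one_mul, neg_neg]
      ring
    · simp only [Ph, (vX _).y', (vY _).y', (vZ _).y', (vX _).one, (vY _).one, (vZ _).one, vals_stX.y',
        vals_W1.y', vals_W2.y', vals_W1.one, vals_W2.one, cast_card, map_neg, conj_cW, map_one, map_zero,
        neg_mul_neg, hc, one_mul, neg_neg]
      ring
  have hd : (0 : ℝ) < (2 * (2 ^ m) ^ 2 - 2 * 2 ^ m + 1) * (2 * (2 ^ m) ^ 2 - 1) :=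
    mul_pos (by nlinarith) (by linarith)
  have hd' : (0 : ℝ) < (2 * (2 ^ m) ^ 2 + 2 * 2 ^ m + 1) * (2 * (2 ^ m) ^ 2 - 1) :=
    mul_pos (by nlinarith) (by linarith)
  have hd2 : (0 : ℝ) < 2 ^ m * (2 * (2 ^ m) ^ 2 - 1) := mul_pos (by linarith) (by linarith)
  have key : ∀ {g : Cfsg.Sz F m} {a b c d : ℝ}, W1 F m g + W2 F m g = a → ∑ θ ∈ nt (H F m), XL θ.1 g = b →
      ∑ θ ∈ nt (T1 F m), YL θ.1 g = c → ∑ θ ∈ nt (T2 F m), ZL θ.1 g = d →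
      0 < 1 - (2 ^ m) ^ 2 * a / (2 ^ m * (2 * (2 ^ m) ^ 2 - 1)) + 1 / 2 * b / ((2 * (2 ^ m) ^ 2) ^ 2 + 1) +
        1 / 4 * c / ((2 * (2 ^ m) ^ 2 - 2 * 2 ^ m + 1) * (2 * (2 ^ m) ^ 2 - 1)) +
        1 / 4 * d / ((2 * (2 ^ m) ^ 2 + 2 * 2 ^ m + 1) * (2 * (2 ^ m) ^ 2 - 1)) →
      ∑ χ : IrrCharacter (Cfsg.Sz F m), Ph x g χ ≠ 0 := fun {g a b c d} ha hb hc hd h0 => by
    rw [hS, ha, hb, hc, hd]
    exact ne_zero_of_pos (by push_cast; rfl) h0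
  have hy : (0 : ℝ) < 1 - (2 ^ m) ^ 2 * 0 / (2 ^ m * (2 * (2 ^ m) ^ 2 - 1)) +
      1 / 2 * (2 * (2 ^ m) ^ 2 - 2) / ((2 * (2 ^ m) ^ 2) ^ 2 + 1) +
        1 / 4 * -(2 * (2 ^ m) ^ 2 + 2 * 2 ^ m) / ((2 * (2 ^ m) ^ 2 - 2 * 2 ^ m + 1) * (2 * (2 ^ m) ^ 2 - 1)) +
        1 / 4 * -(2 * (2 ^ m) ^ 2 - 2 * 2 ^ m) / ((2 * (2 ^ m) ^ 2 + 2 * 2 ^ m + 1) * (2 * (2 ^ m) ^ 2 - 1)) := by
    generalize (2 : ℝ) ^ m = r at *
    have e1 : 0 ≤ 1 / 2 * (2 * r ^ 2 - 2) / ((2 * r ^ 2) ^ 2 + 1) := div_nonneg (by linarith) (by positivity)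
    have e2 : -(1 / 4) ≤ 1 / 4 * -(2 * r ^ 2 + 2 * r) / ((2 * r ^ 2 - 2 * r + 1) * (2 * r ^ 2 - 1)) := by
      rw [le_div_iff₀ hd]
      nlinarith [sq_nonneg (r ^ 2 - 2 * r), sq_nonneg (r - 2)]
    have e3 : -(1 / 4) ≤ 1 / 4 * -(2 * r ^ 2 - 2 * r) / ((2 * r ^ 2 + 2 * r + 1) * (2 * r ^ 2 - 1)) := by
      rw [le_div_iff₀ hd']
      nlinarith [sq_nonneg (r ^ 2 - 2 * r), sq_nonneg (r - 2)]
    simp only [mul_zero, zero_div]
    linarith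
  refine classes (P := fun g => ∑ χ : IrrCharacter (Cfsg.Sz F m), Ph x g χ ≠ 0)
    (fun a b hab h => by rwa [← Ph_conj (IsConj.refl x) hab]) ?_ ?_ ?_ ?_ ?_ ?_ hg
  · refine key (a := -(2 * 2 ^ m)) (b := 2 * (2 ^ m) ^ 2 - 2)
      (c := (2 * (2 ^ m) ^ 2 + 2 * 2 ^ m) * (2 * 2 ^ m - 1))
      (d := (2 * (2 ^ m) ^ 2 - 2 * 2 ^ m) * (-(2 * 2 ^ m) - 1))
      (by rw [vals_W1.i, vals_W2.i]; push_cast; ring) (by rw [vals_SX.i, cast_card]; push_cast; ring)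
      (by rw [vals_SY.i, cast_card]; push_cast; ring) (by rw [vals_SZ.i, cast_card]; push_cast; ring) ?_
    generalize (2 : ℝ) ^ m = r at *
    have e0 : r ^ 2 * -(2 * r) / (r * (2 * r ^ 2 - 1)) ≤ 0 :=
      div_nonpos_of_nonpos_of_nonneg (by nlinarith) hd2.le
    have e1 : 0 ≤ 1 / 2 * (2 * r ^ 2 - 2) / ((2 * r ^ 2) ^ 2 + 1) := div_nonneg (by linarith) (by positivity)
    have e2 : 0 ≤ 1 / 4 * ((2 * r ^ 2 + 2 * r) * (2 * r - 1)) / ((2 * r ^ 2 - 2 * r + 1) * (2 * r ^ 2 - 1)) :=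
      div_nonneg (mul_nonneg (by norm_num) (mul_nonneg (by linarith) (by linarith))) hd.le
    have e3 : -(1 / 2) ≤ 1 / 4 * ((2 * r ^ 2 - 2 * r) * (-(2 * r) - 1)) /
        ((2 * r ^ 2 + 2 * r + 1) * (2 * r ^ 2 - 1)) := by
      rw [le_div_iff₀ hd']
      nlinarith [sq_nonneg (r ^ 2 - 2 * r), sq_nonneg (r - 2)]
    linarith
  · exact key (by rw [vals_W1.y, vals_W2.y]; simp) (by rw [vals_SX.y, cast_card]; push_cast; ring)
      (by rw [vals_SY.y, cast_card]; push_cast; ring) (by rw [vals_SZ.y, cast_card]; push_cast; ring) hy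
  · exact key (by rw [vals_W1.y', vals_W2.y']; simp) (by rw [vals_SX.y', cast_card]; push_cast; ring)
      (by rw [vals_SY.y', cast_card]; push_cast; ring) (by rw [vals_SZ.y', cast_card]; push_cast; ring) hy
  · intro s hs
    have h0 := h_mem_H (m := m) s
    have h3 := (tor_h (m := m) hs).1
    refine key (a := 0) (b := -2) (c := 0) (d := 0) (by simp [vals_W1.onH _ h0 h3, vals_W2.onH _ h0 h3])
      (by simpa using vals_SX.onH _ h0 h3) (by simpa using vals_SY.onH _ h0 h3)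
      (by simpa using vals_SZ.onH _ h0 h3) ?_
    generalize (2 : ℝ) ^ m = r at *
    have : -(1 / 2) ≤ 1 / 2 * -2 / ((2 * r ^ 2) ^ 2 + 1) := by
      rw [le_div_iff₀ (by positivity)]; nlinarith
    simp only [mul_zero, zero_div]
    linarith
  · intro t h0 h3
    refine key (a := 2) (b := 0) (c := 4) (d := 0)
      (by simp [vals_W1.on1 _ h0 h3, vals_W2.on1 _ h0 h3]; norm_num)
      (by simpa using vals_SX.on1 _ h0 h3) (by simpa using vals_SY.on1 _ h0 h3)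
      (by simpa using vals_SZ.on1 _ h0 h3) ?_
    generalize (2 : ℝ) ^ m = r at *
    have e1 : r ^ 2 * 2 / (r * (2 * r ^ 2 - 1)) ≤ 4 / 7 := by
      rw [div_le_div_iff₀ hd2 (by norm_num)]; nlinarith [mul_nonneg (sub_nonneg.2 h2) (sq_nonneg r)]
    have e2 : 0 ≤ 1 / 4 * 4 / ((2 * r ^ 2 - 2 * r + 1) * (2 * r ^ 2 - 1)) := div_nonneg (by norm_num) hd.le
    simp only [mul_zero, zero_div]
    linarith
  · intro t h0 h3
    refine key (a := -2) (b := 0) (c := 0) (d := 4)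
      (by simp [vals_W1.on2 _ h0 h3, vals_W2.on2 _ h0 h3]; norm_num)
      (by simpa using vals_SX.on2 _ h0 h3) (by simpa using vals_SY.on2 _ h0 h3)
      (by simpa using vals_SZ.on2 _ h0 h3) ?_
    generalize (2 : ℝ) ^ m = r at *
    have e0 : r ^ 2 * -2 / (r * (2 * r ^ 2 - 1)) ≤ 0 :=
      div_nonpos_of_nonpos_of_nonneg (by nlinarith) hd2.le
    have e2 : 0 ≤ 1 / 4 * 4 / ((2 * r ^ 2 + 2 * r + 1) * (2 * r ^ 2 - 1)) := div_nonneg (by norm_num) hd'.le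
    simp only [mul_zero, zero_div]
    linarith

theorem main {x g : Cfsg.Sz F m} (hx : 2 < orderOf x) (hg : g ≠ 1) :
    ∃ a b : Cfsg.Sz F m, g = a * x * a⁻¹ * (b * x * b⁻¹) := by
  have h1 : x ≠ 1 := by rintro rfl; simp at hx
  have h2 : ∑ χ : IrrCharacter (Cfsg.Sz F m), Ph x g χ ≠ 0 :=
    classes (P := fun x => 2 < orderOf x → ∑ χ : IrrCharacter (Cfsg.Sz F m), Ph x g χ ≠ 0)
      (fun a b hab h hb => by
        obtain ⟨c, rfl⟩ := isConj_iff.1 hab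
        rw [← Ph_conj hab (IsConj.refl g)]
        exact h (by rwa [← MulAut.conj_apply, MulEquiv.orderOf_eq] at hb))
      (fun h => by rw [orderOf_u_zero one_ne_zero] at h; omega) (fun _ => case_y (Or.inl rfl) hg)
      (fun _ => case_y (Or.inr rfl) hg) (fun s hs _ => case_H hs hg) (fun t h0 h3 _ => case_T1 h0 h3 hg)
      (fun t h0 h3 _ => case_T2 h0 h3 hg) h1 hx
  have h3 := card_conj_mul_eq x x g
  have h4 : Nat.card {p : Cfsg.Sz F m × Cfsg.Sz F m // p.1 * x * p.1⁻¹ * (p.2 * x * p.2⁻¹) = g} ≠ 0 := by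
    intro h0
    rw [h0, Nat.cast_zero] at h3
    exact mul_ne_zero card_ne_zero_complex h2 h3.symm
  obtain ⟨⟨p, hp⟩⟩ := (Nat.card_ne_zero.1 h4).1
  exact ⟨p.1, p.2, hp.symm⟩

end

/-- A strong covering result in the direction of Thompson's conjecture (non-identity elements) for the Suzuki groups: let q = 2^(2m+1) ≥ 8, F the field with q elements and Sz(q) the Suzuki group over F. For every element x of Sz(q) of order greater than 2, every non-identity element of Sz(q) is a product of two conjugates of x. -/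
theorem result {F : Type*} [Field F] [Fintype F] (m : ℕ) (hm : 1 ≤ m) (hF : Fintype.card F = 2 ^ (2 * m + 1))
    (x : Cfsg.Lie.Sz F (2 ^ (m + 1))) (hx2 : 2 < orderOf x) : ∀ g : Cfsg.Lie.Sz F (2 ^ (m + 1)), g ≠ 1 → ∃ u v : Cfsg.Lie.Sz F (2 ^ (m + 1)), g = (u * x * u⁻¹) * (v * x * v⁻¹) := by
  haveI : H13.Sz.IsSz F m := ⟨hm, hF⟩
  intro g hg
  let e := H13.Sz.lieEquiv F m
  obtain ⟨a, b, h⟩ := main (x := e.symm x) (g := e.symm g) (by rwa [MulEquiv.orderOf_eq])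
    (by simpa using hg)
  exact ⟨e a, e b, by simpa using congrArg e h⟩

end Cfsg.Agent.S2457
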