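import Cfsg.Statements.S2459
import Cfsg.Agent.H23.FSL
import Cfsg.Agent.H11.Symp

set_option autoImplicit false
open Cfsg

namespace Cfsg.Agent.S2459

open Matrix
open scoped MatrixGroups

def Two {G : Type*} [Group G] (x g : G) : Prop := ∃ u v : G, g = (u * x * u⁻¹) * (v * x * v⁻¹)

theorem Two.of_conj {G : Type*} [Group G] {x g : G} (P : G) (h : Two x (P⁻¹ * g * P)) : Two x g := by
  obtain ⟨u, v, h⟩ := h
  exact ⟨P * u, P * v, by
    calc g = P * (P⁻¹ * g * P) * P⁻¹ := by group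
      _ = _ := by rw [h]; group⟩

variable {F : Type*} [Field F]

theorem nf (A : SL(3, F)) (hA : A ∉ Subgroup.center SL(3, F)) : ∃ P : SL(3, F), ∃ b c e f h i : F,
    (P⁻¹ * A * P).1 = !![1, b, c; 1, e, f; 0, h, i] := by
  obtain ⟨v, k, hv⟩ : ∃ v : Fin 3 → F, ∃ k, crossProduct v (A.1 *ᵥ v - v) k ≠ 0 := by
    by_contra hn
    push Not at hn
    apply hA
    have h1 := hn ![1, 0, 0] 1
    have h2 := hn ![1, 0, 0] 2
    have h3 := hn ![0, 1, 0] 0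
    have h4 := hn ![0, 1, 0] 2
    have h5 := hn ![0, 0, 1] 0
    have h6 := hn ![0, 0, 1] 1
    have h7 := hn ![1, 1, 0] 2
    have h8 := hn ![0, 1, 1] 0
    simp [cross_apply, vecHead, vecTail] at h1 h2 h3 h4 h5 h6 h7 h8
    simp [mulVec, dotProduct, Fin.sum_univ_three] at h1 h2 h3 h4 h5 h6 h7 h8
    have e : A.1 = scalar (Fin 3) (A.1 0 0) := by
      ext i j
      fin_cases i <;> fin_cases j <;> simp [h1, h2, h3, h4, h5, h6]
      · linear_combination h7 - h2 + h4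
      · linear_combination h7 - h2 + h4 + h8 - h3 + h5
    refine Subgroup.mem_center_iff.2 fun g => Subtype.ext ?_
    change g.1 * A.1 = A.1 * g.1
    rw [e]; exact (scalar_commute _ (fun _ => Commute.all _ _) _).symm
  set w := A.1 *ᵥ v - v with hw
  let z : Fin 3 → F := Pi.single k (crossProduct v w k)⁻¹
  let P : SL(3, F) := ⟨(Matrix.of ![v, w, z])ᵀ, by
    rw [det_transpose]
    refine (triple_product_eq_det v w z).symm.trans ?_
    rw [triple_product_permutation, triple_product_permutation, single_dotProduct, inv_mul_cancel₀ hv]⟩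
  have h1 : P.1 *ᵥ ![1, 0, 0] = v := by ext i; simp [P, mulVec, dotProduct, Fin.sum_univ_three]
  have h2 : P.1 *ᵥ ![1, 1, 0] = v + w := by ext i; simp [P, mulVec, dotProduct, Fin.sum_univ_three]
  have h3 : (P⁻¹ * A * P).1 *ᵥ ![1, 0, 0] = ![1, 1, 0] := by
    rw [H23.FS.sl_mul, H23.FS.sl_mul, h1, show A.1 *ᵥ v = v + w by simp [hw], ← h2, H23.FS.sl_inv]
  have a0 := congrFun h3 0
  have a1 := congrFun h3 1
  have a2 := congrFun h3 2
  simp only [mulVec, dotProduct, Fin.sum_univ_three, cons_val_zero, cons_val_one, cons_val_two, mul_one, mul_zero,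
    add_zero, head_cons, tail_cons] at a0 a1 a2
  exact ⟨P, _, _, _, _, _, _, (eta_fin_three _).trans (by rw [a0, a1, a2])⟩

def dA (a : F) (ha : a ≠ 0) : SL(3, F) := ⟨!![a, 0, 0; 0, 1, 0; 0, 0, a⁻¹], by simp [det_fin_three, ha]⟩

def xF (F : Type*) [Field F] : SL(3, F) := ⟨!![1, 0, 0; 0, 0, -1; 0, 1, 0], by simp [det_fin_three]⟩

theorem two_of_minor {a : F} (ha : a ≠ 0) (ha2 : a ^ 2 ≠ 1) (A : SL(3, F)) (h1 : A.1 0 0 = 1)
    (h2 : A.1 1 1 - A.1 0 1 * A.1 1 0 = 1) :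
    Two (dA a ha) A := by
  have h3 := A.2
  rw [det_fin_three, h1] at h3
  have a1 : a - 1 ≠ 0 := fun h => ha2 (by rw [sub_eq_zero.1 h, one_pow])
  have a2 : a + 1 ≠ 0 := fun h => ha2 (by rw [eq_neg_of_add_eq_zero_left h]; ring)
  obtain ⟨l, hl⟩ : ∃ l, A.1 2 1 = l + A.1 2 0 * A.1 0 1 := ⟨_, (sub_add_cancel _ _).symm⟩
  obtain ⟨u, hu⟩ : ∃ u, A.1 1 2 = u + A.1 1 0 * A.1 0 2 := ⟨_, (sub_add_cancel _ _).symm⟩
  have h4 : A.1 1 1 = 1 + A.1 0 1 * A.1 1 0 := by linear_combination h2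
  have h5 : A.1 2 2 = 1 + A.1 2 0 * A.1 0 2 + l * u := by rw [hl, hu, h4] at h3; linear_combination h3
  generalize hb : A.1 0 1 = b at *
  generalize hc : A.1 0 2 = c at *
  generalize hd : A.1 1 0 = d at *
  generalize hg : A.1 2 0 = g at *
  have e : A.1 = !![1, b, c; d, 1 + b * d, u + d * c; g, l + g * b, 1 + g * c + l * u] := by
    rw [eta_fin_three A.1, h1, hb, hc, hd, hg, h4, h5, hl, hu]
  let Q : SL(3, F) := ⟨!![1, 0, 0; d * a / (a - 1), 1, 0;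
    (g * a + l * (d * a / (a - 1))) * a / ((a - 1) * (a + 1)), l * a / (a - 1), 1], by simp [det_fin_three]⟩
  let R : SL(3, F) := ⟨!![(c + b * (u / (a - 1))) / ((a - 1) * (a + 1)), -(b / (a - 1)), 1; u / (a - 1), -1, 0; 1, 0, 0],
    by simp [det_fin_three]⟩
  let L : SL(3, F) := ⟨!![a, 0, 0; d * a, 1, 0; g * a, l, a⁻¹], by simp [det_fin_three, ha]⟩
  let U : SL(3, F) := ⟨!![a⁻¹, a⁻¹ * b, a⁻¹ * c; 0, 1, u; 0, 0, a], by simp [det_fin_three, ha]⟩
  refine ⟨Q, R, ?_⟩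
  rw [mul_inv_eq_of_eq_mul (a := Q * dA a ha) (c := L) (Subtype.ext (Eq.symm ?_)),
    mul_inv_eq_of_eq_mul (a := R * dA a ha) (c := U) (Subtype.ext (Eq.symm ?_))]
  · refine Subtype.ext (e.trans ?_)
    change _ = L.1 * U.1
    ext i j
    fin_cases i <;> fin_cases j <;> simp [L, U, mul_apply, Fin.sum_univ_three] <;> field_simp <;> ring
  · change U.1 * R.1 = R.1 * !![a, 0, 0; 0, 1, 0; 0, 0, a⁻¹]
    ext i j
    fin_cases i <;> fin_cases j <;> simp [R, U, mul_apply, Fin.sum_univ_three] <;> field_simp <;> ring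
  · change L.1 * Q.1 = Q.1 * !![a, 0, 0; 0, 1, 0; 0, 0, a⁻¹]
    ext i j
    fin_cases i <;> fin_cases j <;> simp [L, Q, mul_apply, Fin.sum_univ_three] <;> field_simp <;> ring

theorem two_big {a : F} (ha : a ≠ 0) (ha2 : a ^ 2 ≠ 1) (A : SL(3, F)) {b c e f h i : F}
    (hA : A.1 = !![1, b, c; 1, e, f; 0, h, i]) :
    Two (dA a ha) A := by
  have h3 := A.2
  rw [hA, det_fin_three] at h3
  simp at h3
  obtain ⟨s, t, hst⟩ : ∃ s t : F, t * (h * s - h * t + (e - b)) - (-i * s + i * t + (c - f)) ≠ 0 := by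
    by_contra hn
    push Not at hn
    have a1 := hn 0 0
    have a2 := hn 1 0
    have a3 := hn 0 1
    have a4 := hn 1 1
    have b1 : i = 0 := by linear_combination a2 - a1
    have b2 : h = 0 := by linear_combination a4 - a3 - b1
    rw [b1, b2] at h3
    simp at h3
  obtain ⟨r, hr⟩ : ∃ r, r * (t * (h * s - h * t + (e - b)) - (-i * s + i * t + (c - f))) =
      1 - (h * s - h * t + (e - b)) := ⟨_, div_mul_cancel₀ _ hst⟩
  let P : SL(3, F) := ⟨!![1, r * s, s; 0, 1 + r * t, t; 0, r, 1], by simp [det_fin_three]; ring⟩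
  have e1 : (P⁻¹ * A * P).1 = !![1, 0, -s; 0, 1, -t; 0, -r, 1 + r * t] * !![1, b, c; 1, e, f; 0, h, i] *
      !![1, r * s, s; 0, 1 + r * t, t; 0, r, 1] := by
    rw [← hA]
    change adjugate P.1 * A.1 * P.1 = _
    congr 2
    ext i j
    fin_cases i <;> fin_cases j <;> simp [P, adjugate_fin_three] <;> ring
  refine Two.of_conj P (two_of_minor ha ha2 _ ?_ ?_) <;> rw [e1] <;> simp [mul_apply, Fin.sum_univ_three]
  linear_combination hr

def dg (n k : ℕ) : ZMod 3 := ((n / 3 ^ k % 3 : ℕ) : ZMod 3)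

def mt (n : ℕ) : Matrix (Fin 3) (Fin 3) (ZMod 3) := !![dg n 0, dg n 1, dg n 2; dg n 3, dg n 4, dg n 5; dg n 6, dg n 7, dg n 8]

def m3 (A B : Matrix (Fin 3) (Fin 3) (ZMod 3)) : Matrix (Fin 3) (Fin 3) (ZMod 3) :=
  !![A 0 0 * B 0 0 + A 0 1 * B 1 0 + A 0 2 * B 2 0, A 0 0 * B 0 1 + A 0 1 * B 1 1 + A 0 2 * B 2 1,
      A 0 0 * B 0 2 + A 0 1 * B 1 2 + A 0 2 * B 2 2;
    A 1 0 * B 0 0 + A 1 1 * B 1 0 + A 1 2 * B 2 0, A 1 0 * B 0 1 + A 1 1 * B 1 1 + A 1 2 * B 2 1,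
      A 1 0 * B 0 2 + A 1 1 * B 1 2 + A 1 2 * B 2 2;
    A 2 0 * B 0 0 + A 2 1 * B 1 0 + A 2 2 * B 2 0, A 2 0 * B 0 1 + A 2 1 * B 1 1 + A 2 2 * B 2 1,
      A 2 0 * B 0 2 + A 2 1 * B 1 2 + A 2 2 * B 2 2]

theorem m3_eq (A B : Matrix (Fin 3) (Fin 3) (ZMod 3)) : m3 A B = A * B := by
  ext i j
  fin_cases i <;> fin_cases j <;> simp [m3, mul_apply, Fin.sum_univ_three]

def d3 (A : Matrix (Fin 3) (Fin 3) (ZMod 3)) : ZMod 3 :=
  A 0 0 * A 1 1 * A 2 2 - A 0 0 * A 1 2 * A 2 1 - A 0 1 * A 1 0 * A 2 2 + A 0 1 * A 1 2 * A 2 0 +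
    A 0 2 * A 1 0 * A 2 1 - A 0 2 * A 1 1 * A 2 0

def a3 (A : Matrix (Fin 3) (Fin 3) (ZMod 3)) : Matrix (Fin 3) (Fin 3) (ZMod 3) :=
  !![A 1 1 * A 2 2 - A 1 2 * A 2 1, -(A 0 1 * A 2 2) + A 0 2 * A 2 1, A 0 1 * A 1 2 - A 0 2 * A 1 1;
    -(A 1 0 * A 2 2) + A 1 2 * A 2 0, A 0 0 * A 2 2 - A 0 2 * A 2 0, -(A 0 0 * A 1 2) + A 0 2 * A 1 0;
    A 1 0 * A 2 1 - A 1 1 * A 2 0, -(A 0 0 * A 2 1) + A 0 1 * A 2 0, A 0 0 * A 1 1 - A 0 1 * A 1 0]

def tab : List ℕ := [0, 0, 0, 0, 0, 0, 0, 0, 0, 0, 0, 0, 0, 0, 0, 362643327, 362645514, 362641140, 0, 0, 0, 123556113, 123553926, 123551739, 0, 0, 0, 0, 93712986, 0, 0, 265981599, 0, 0, 363704049, 0, 0, 262211913, 0, 0, 0, 262214100, 262216287, 0, 0, 0, 180953928, 0, 180956115, 0, 0, 0, 0, 180958302, 0, 0, 106312501, 0, 0, 293088654, 0, 0, 358403652, 0, 0, 333954261, 0, 333952074, 0, 333949887, 0, 0, 0, 0, 281405025, 281402838, 0, 0, 0, 281407212, 0, 0, 0, 0,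 317545443, 317527947, 317536695, 0, 0, 0, 0, 0, 0, 0, 0, 0, 0, 0, 0, 0, 0, 0, 0, 0, 0, 207469116, 207471303, 207466929, 0, 99590967, 0, 99593154, 0, 0, 0, 0, 99595341, 0, 179300556, 0, 0, 179302743, 0, 0, 179304930, 0, 0, 321724557, 0, 0, 0, 321720183, 321722370, 0, 0, 0, 0, 194183091, 194180904, 0, 0, 0, 194185278, 0, 0, 0, 80962101, 0, 0, 80959914, 0, 0, 80957727, 0, 0, 212308947, 0, 212313321, 0, 212311134, 0, 0, 0, 0, 0, 0, 0, 0, 127753209, 127744461, 127761957, 0, 0, 0, 60859197, 60857010, 60854823, 0, 0, 0, 0, 0, 0, 0, 0, 0, 0, 0, 0, 0, 303716799, 0, 0, 0, 303718986, 303721173, 0, 0, 0, 294677928, 0, 294680115, 0, 0, 0, 0, 294675741, 0, 47037357, 0, 0, 47039544, 0, 0, 47041731, 0, 0, 0, 76270986, 0, 76268799, 0, 76266612, 0, 0, 0, 0, 274435056, 274439430, 0, 0, 0, 274437243, 0, 0, 0, 123475194, 0, 0, 123473007, 0, 0, 123477381, 0, 0, 137902050, 0, 0, 281403513, 0, 0, 37466991, 0, 0,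 352010133, 0, 352007946, 0, 352005759, 0, 0, 0, 0, 179283060, 179280873, 0, 0, 0, 179285247, 0, 0, 0, 0, 0, 0, 0, 0, 0, 0, 0, 0, 0, 0, 0, 0, 194163408, 194165595, 194161221, 0, 0, 0, 365827599, 365825412, 365823225, 0, 0, 0, 0, 35253801, 0, 0, 121347243, 0, 0, 78300522, 0, 0, 36316683, 0, 0, 0, 36318870, 36321057, 0, 0, 0, 35785242, 0, 35787429, 0, 0, 0, 0, 35789616, 0, 0, 274487787, 274496535, 0, 0, 0, 274485600, 0, 0, 0, 353604456, 0, 0, 353602269, 0, 0, 353600082, 0, 0, 121428162, 0, 121425975, 0, 121430349, 0, 0, 0, 0, 0, 171333315, 171331128, 171328941, 0, 0, 0, 0, 0, 0, 0, 0, 0, 0, 0, 0, 0, 0, 0, 0, 0, 0, 298400202, 298395828, 298398015, 0, 36336366, 0, 36338553, 0, 0, 0, 0, 36340740, 0, 35804925, 0, 0, 35807112, 0, 0, 35809299, 0, 0, 35273484, 0, 0, 0, 35275671, 35277858, 0, 0, 0, 0, 342991188, 0, 342980253, 0, 342989001, 0, 0, 0, 0, 363708396, 363706209, 0, 0, 0, 363704022, 0, 0, 0,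 180877383, 0, 0, 180875196, 0, 0, 180879570, 0, 0, 0, 0, 0, 0, 361121175, 361123362, 361118988, 0, 0, 0, 317470842, 317468655, 317473029, 0, 0, 0, 0, 0, 0, 0, 0, 0, 0, 0, 0, 0, 18857862, 0, 0, 0, 18860049, 18862236, 0, 0, 0, 17794980, 0, 17797167, 0, 0, 0, 0, 17799354, 0, 18326421, 0, 0, 18328608, 0, 0, 18330795, 0, 0, 46979712, 0, 0, 333951291, 0, 0, 190455660, 0, 0, 371146383, 0, 0, 0, 371148570, 371144196, 0, 0, 0, 120898908, 0, 120894534, 0, 0, 0, 0, 120896721, 0, 0, 179282277, 0, 0, 107545032, 0, 0, 294066243, 0, 0, 84179178, 0, 84183552, 0, 84181365, 0, 0, 0, 0, 235692351, 235696725, 0, 0, 0, 235694538, 0, 0, 0, 0, 0, 0, 0, 0, 0, 0, 0, 0, 0, 0, 0, 0, 141572619, 141568245, 141570432, 0, 0, 0, 350492355, 350490168, 350494542, 0, 0, 0, 0, 360576855, 0, 360587790, 0, 0, 0, 0, 360585603, 0, 365842908, 0, 0, 365845095, 0, 0, 365847282, 0, 0, 126224253, 0, 0, 0, 126226440, 126222066, 0, 0,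 0, 0, 329162544, 329160357, 0, 0, 0, 329164731, 0, 0, 0, 152713197, 0, 0, 152711010, 0, 0, 152708823, 0, 0, 379664748, 0, 379662561, 0, 379660374, 0, 0, 0, 0, 0, 352029816, 352027629, 352025442, 0, 0, 0, 0, 0, 0, 0, 0, 0, 0, 0, 0, 0, 0, 0, 0, 0, 0, 77237640, 77239827, 77242014, 0, 170795556, 0, 0, 0, 170806491, 170797743, 0, 0, 0, 360526311, 0, 360521937, 0, 0, 0, 0, 360524124, 0, 118775331, 0, 0, 118777518, 0, 0, 118779705, 0, 0, 0, 289365705, 0, 289363518, 0, 289361331, 0, 0, 0, 0, 103897170, 103894983, 0, 0, 0, 103899357, 0, 0, 0, 281326293, 0, 0, 281324106, 0, 0, 281328480, 0, 0, 0, 0, 0, 0, 90611145, 90613332, 90608958, 0, 0, 0, 120815802, 120820176, 120817989, 0, 0, 0, 0, 0, 0, 0, 0, 0, 0, 0, 0]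

def x3 : Matrix (Fin 3) (Fin 3) (ZMod 3) := !![1, 0, 0; 0, 0, -1; 0, 1, 0]

def ok (A : Matrix (Fin 3) (Fin 3) (ZMod 3)) (n : ℕ) : Prop :=
  d3 (mt n) = 1 ∧ d3 (mt (n / 19683)) = 1 ∧
    A = m3 (m3 (m3 (mt n) x3) (a3 (mt n))) (m3 (m3 (mt (n / 19683)) x3) (a3 (mt (n / 19683))))

instance (A : Matrix (Fin 3) (Fin 3) (ZMod 3)) (n : ℕ) : Decidable (ok A n) := by unfold ok; infer_instance

theorem chk : ∀ b c e f h i : ZMod 3, d3 !![1, b, c; 1, e, f; 0, h, i] = 1 → ok !![1, b, c; 1, e, f; 0, h, i]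
    (tab.getD (b.val * 243 + c.val * 81 + e.val * 27 + f.val * 9 + h.val * 3 + i.val) 0) := by
  decide +kernel

theorem two_three (φ : ZMod 3 ≃+* F) (A : SL(3, F)) {b c e f h i : F} (hA : A.1 = !![1, b, c; 1, e, f; 0, h, i]) :
    Two (xF F) A := by
  obtain ⟨b, rfl⟩ := φ.surjective b
  obtain ⟨c, rfl⟩ := φ.surjective c
  obtain ⟨e, rfl⟩ := φ.surjective e
  obtain ⟨f, rfl⟩ := φ.surjective f
  obtain ⟨h, rfl⟩ := φ.surjective h
  obtain ⟨i, rfl⟩ := φ.surjective i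
  have e1 : A.1 = φ.toRingHom.mapMatrix !![1, b, c; 1, e, f; 0, h, i] := by
    rw [hA]; ext i j; fin_cases i <;> fin_cases j <;> simp
  have e2 : d3 !![1, b, c; 1, e, f; 0, h, i] = 1 := by
    have := A.2
    rw [e1, ← RingHom.map_det] at this
    exact (det_fin_three _).symm.trans (φ.injective (this.trans (map_one φ).symm))
  obtain ⟨h1, h2, h3⟩ := chk b c e f h i e2
  let u : SL(3, ZMod 3) := ⟨_, (det_fin_three _).trans h1⟩
  let v : SL(3, ZMod 3) := ⟨_, (det_fin_three _).trans h2⟩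
  let x : SL(3, ZMod 3) := ⟨x3, by simp [x3, det_fin_three]⟩
  have e3 : SpecialLinearGroup.map φ.toRingHom x = xF F := by
    refine Subtype.ext ?_
    change φ.toRingHom.mapMatrix x3 = !![1, 0, 0; 0, 0, -1; 0, 1, 0]
    ext i j; fin_cases i <;> fin_cases j <;> simp [x3]
  refine ⟨SpecialLinearGroup.map φ.toRingHom u, SpecialLinearGroup.map φ.toRingHom v, ?_⟩
  rw [← e3, ← map_inv, ← map_inv, ← map_mul, ← map_mul, ← map_mul, ← map_mul, ← map_mul]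
  refine Subtype.ext (e1.trans (congrArg φ.toRingHom.mapMatrix (h3.trans ?_)))
  simp only [m3_eq]
  change _ = u.1 * x3 * adjugate u.1 * (v.1 * x3 * adjugate v.1)
  rw [adjugate_fin_three, adjugate_fin_three]
  rfl

/-- A form of Thompson's conjecture for PSL(3,q), q > 2 (covering the non-identity elements), with a semisimple class: for F a finite field of characteristic p with more than 2 elements there is an element x of PSL(3,F) of order prime to p such that every non-identity element of PSL(3,F) is a product of two conjugates of x. -/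
theorem result {F : Type*} [Field F] [Fintype F] (p : ℕ) [Fact p.Prime] [CharP F p] (h3 : 3 ≤ Fintype.card F) :
    ∃ x : Matrix.ProjectiveSpecialLinearGroup (Fin 3) F, ¬ p ∣ orderOf x ∧ ∀ g : Matrix.ProjectiveSpecialLinearGroup (Fin 3) F, g ≠ 1 → ∃ u v : Matrix.ProjectiveSpecialLinearGroup (Fin 3) F, g = (u * x * u⁻¹) * (v * x * v⁻¹) := by
  have key : ∀ x : SL(3, F), ∀ n, x ^ n = 1 → ¬ p ∣ n → (∀ (A : SL(3, F)) (b c e f h i : F),
      A.1 = !![1, b, c; 1, e, f; 0, h, i] → Two x A) →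
      ∃ x : Matrix.ProjectiveSpecialLinearGroup (Fin 3) F, ¬ p ∣ orderOf x ∧ ∀ g, g ≠ 1 → Two x g := by
    intro x n hn hp h
    refine ⟨QuotientGroup.mk x, fun hd => hp (hd.trans (orderOf_dvd_of_pow_eq_one ?_)), fun g hg => ?_⟩
    · rw [← QuotientGroup.mk_pow, hn, QuotientGroup.mk_one]
    · obtain ⟨A, rfl⟩ := QuotientGroup.mk_surjective g
      obtain ⟨P, b, c, e, f, h', i, hP⟩ := nf A fun hA => hg ((QuotientGroup.eq_one_iff A).2 hA)
      obtain ⟨u, v, huv⟩ := Two.of_conj P (h _ _ _ _ _ _ _ hP)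
      exact ⟨u, v, by rw [huv]; rfl⟩
  obtain ⟨n, hp, hn⟩ := FiniteField.card F p
  rcases h3.eq_or_lt with h | h
  · have : Fact (Nat.Prime 3) := ⟨Nat.prime_three⟩
    have hp3 : p = 3 := (Nat.prime_dvd_prime_iff_eq hp Nat.prime_three).1 (by rw [h, hn]; exact dvd_pow_self p n.ne_zero)
    subst hp3
    refine key (xF F) 4 (Subtype.ext ?_) (by decide) fun A b c e f h' i hA =>
      two_three (ZMod.ringEquivOfPrime F Nat.prime_three h.symm) A hA
    change (!![1, 0, 0; 0, 0, -1; 0, 1, 0] : Matrix (Fin 3) (Fin 3) F) ^ 4 = 1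
    simp [pow_succ, one_fin_three]
  · obtain ⟨a, ha, ha2⟩ := H11.exists_sq_ne_one (F := F) (by rw [Nat.card_eq_fintype_card]; omega)
    refine key (dA a ha) (Fintype.card F - 1) (Subtype.ext ?_) (fun hd => ?_) fun A b c e f h' i hA => two_big ha ha2 A hA
    · change (!![a, 0, 0; 0, 1, 0; 0, 0, a⁻¹] : Matrix (Fin 3) (Fin 3) F) ^ _ = 1
      have : (!![a, 0, 0; 0, 1, 0; 0, 0, a⁻¹] : Matrix (Fin 3) (Fin 3) F) = diagonal ![a, 1, a⁻¹] := by
        ext i j; fin_cases i <;> fin_cases j <;> simp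
      rw [this, diagonal_pow, ← diagonal_one]
      congr 1
      ext i; fin_cases i <;> simp [FiniteField.pow_card_sub_one_eq_one a ha]
    · rw [hn] at hd
      exact hp.one_lt.ne' (Nat.dvd_one.1 ((Nat.dvd_sub_iff_right (Nat.one_le_pow _ _ hp.pos) (dvd_pow_self p n.ne_zero)).1 hd))

end Cfsg.Agent.S2459
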