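import Cfsg.Statements.S2466
import Cfsg.Agent.H16.AltSpec

set_option autoImplicit false
open Cfsg

namespace Cfsg.Agent.S2466


/-- Adjacency of odd primes in the prime graph of the alternating groups: let r ≠ s be odd primes at most n. The alternating group of degree n has an element of order r·s if and only if r + s ≤ n. -/
theorem result (n r s : ℕ) (hr : r.Prime) (hs : s.Prime) (hr2 : r ≠ 2) (hs2 : s ≠ 2) (hrs : r ≠ s) (hrn : r ≤ n) (hsn : s ≤ n) :
    (r * s ∈ Set.range (orderOf : alternatingGroup (Fin n) → ℕ)) ↔ r + s ≤ n := by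
  rw [H16.alt_spec]
  constructor
  · rintro ⟨c, h1, h2, -, e⟩
    obtain ⟨a, ha, ra⟩ := H16.exists_dvd_of_lcm hr (e ▸ dvd_mul_right r s)
    obtain ⟨b, hb, sb⟩ := H16.exists_dvd_of_lcm hs (e ▸ dvd_mul_left s r)
    have := Nat.le_of_dvd (by have := h2 a ha; omega) ra
    by_cases ab : b = a
    · have := Nat.le_of_dvd (by have := h2 a ha; omega)
        (((Nat.coprime_primes hr hs).2 hrs).mul_dvd_of_dvd_of_dvd ra (ab ▸ sb))
      exact (Nat.add_le_mul hr.two_le hs.two_le).trans (this.trans ((Multiset.single_le_sum (by simp) a ha).trans h1))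
    · obtain ⟨c, rfl⟩ := Multiset.exists_cons_of_mem ha
      have := Nat.le_of_dvd (by have := h2 b hb; omega) sb
      have := Multiset.single_le_sum (by simp) b ((Multiset.mem_cons.1 hb).resolve_left ab)
      rw [Multiset.sum_cons] at h1
      omega
  · refine fun h => ⟨{r, s}, by simpa, by simp [hr.two_le, hs.two_le], ?_, ?_⟩
    · simpa [parity_simps] using (hr.odd_of_ne_two hr2).add_odd (hs.odd_of_ne_two hs2)
    · simpa [lcm_eq_nat_lcm] using ((Nat.coprime_primes hr hs).2 hrs).lcm_eq_mul

end Cfsg.Agent.S2466
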