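import Cfsg.Statements.S2467
import Cfsg.Agent.H16.AltSpec

set_option autoImplicit false
open Cfsg

namespace Cfsg.Agent.S2467


/-- Adjacency of 2 and an odd prime in the prime graph of the alternating groups: let r be an odd prime at most n, with n ≥ 4. The alternating group of degree n has an element of order 2r if and only if r + 4 ≤ n. -/
theorem result (n r : ℕ) (hn : 4 ≤ n) (hr : r.Prime) (hr2 : r ≠ 2) (hrn : r ≤ n) :
    (2 * r ∈ Set.range (orderOf : alternatingGroup (Fin n) → ℕ)) ↔ r + 4 ≤ n := by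
  rw [H16.alt_spec]
  have := hr.two_le
  obtain ⟨t, ht⟩ := hr.odd_of_ne_two hr2
  constructor
  · rintro ⟨c, h1, h2, h3, e⟩
    obtain ⟨a, ha, ra⟩ := H16.exists_dvd_of_lcm hr (e ▸ dvd_mul_left r 2)
    obtain ⟨b, hb, sb⟩ := H16.exists_dvd_of_lcm Nat.prime_two (e ▸ dvd_mul_right 2 r)
    have d : ∀ a ∈ c, a = 2 ∨ a = r ∨ a = 2 * r := fun a ha => by
      obtain ⟨x, y, hx, hy, rfl⟩ := (Nat.dvd_mul).1 (e ▸ Multiset.dvd_lcm ha)
      have := h2 _ ha
      rcases (Nat.dvd_prime Nat.prime_two).1 hx with rfl | rfl <;> rcases (Nat.dvd_prime hr).1 hy with rfl | rfl <;> omega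
    have e : c = Multiset.replicate (c.count 2) 2 + Multiset.replicate (c.count r) r +
        Multiset.replicate (c.count (2 * r)) (2 * r) := Multiset.ext.2 fun x => by
      simp only [Multiset.count_add, Multiset.count_replicate]
      by_cases hx : x ∈ c
      · rcases d x hx with rfl | rfl | rfl <;> split_ifs <;> omega
      · have := Multiset.count_eq_zero.2 hx
        split_ifs <;> subst_vars <;> omega
    have ha' : 0 < c.count r ∨ 0 < c.count (2 * r) := by
      rcases d a ha with rfl | rfl | rfl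
      exacts [absurd (Nat.le_of_dvd two_pos ra) (by omega), .inl (Multiset.count_pos.2 ha), .inr (Multiset.count_pos.2 ha)]
    have hb' : 0 < c.count 2 ∨ 0 < c.count (2 * r) := by
      rcases d b hb with rfl | rfl | rfl
      exacts [.inl (Multiset.count_pos.2 hb), by omega, .inr (Multiset.count_pos.2 hb)]
    rw [e] at h1 h3
    generalize c.count 2 = i, c.count r = j, c.count (2 * r) = k at *
    simp only [Multiset.sum_add, Multiset.sum_replicate, Multiset.card_add, Multiset.card_replicate, smul_eq_mul] at h1 h3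
    obtain ⟨u, hu⟩ := h3
    have : j * r = 2 * (j * t) + j := by rw [ht]; ring
    have : k * (2 * r) = 2 * (k * r) := by ring
    have : 0 < j → r ≤ j * r := fun h => Nat.le_mul_of_pos_left r h
    have : 0 < k → r ≤ k * r := fun h => Nat.le_mul_of_pos_left r h
    have : 2 ≤ k → 2 * r ≤ k * r := fun h => Nat.mul_le_mul_right r h
    omega
  · refine fun h => ⟨{2, 2, r}, by simp; omega, by simpa, ⟨t + 4, by simp; omega⟩, ?_⟩
    have := ((Nat.coprime_primes Nat.prime_two hr).2 hr2.symm).lcm_eq_mul
    simp [lcm_eq_nat_lcm, this, Nat.lcm_eq_right (dvd_mul_right 2 r)]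

end Cfsg.Agent.S2467
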