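import Cfsg.Statements.S2474
import Cfsg.Agent.H11.ThE

set_option autoImplicit false
open Cfsg

namespace Cfsg.Agent.S2474

/-- For q odd and n ≥ 3 the simple groups PΩ(2n+1,q) and PSp(2n,q) (which have the same order but different sets of element orders) have the same prime graph: for all distinct primes r, s, one of them has an element of order r·s if and only if the other does. -/
theorem result {F : Type*} [Field F] [Fintype F] (hodd : Odd (Fintype.card F)) (n : ℕ) (hn : 3 ≤ n) (r s : ℕ) (hr : r.Prime) (hs : s.Prime) (hrs : r ≠ s) :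
    (r * s ∈ Set.range (orderOf : Cfsg.POmega F (Cfsg.quadFormOdd n F) → ℕ)) ↔ (r * s ∈ Set.range (orderOf : Cfsg.PSp n F → ℕ)) := by
  have h2 : (2 : F) ≠ 0 := mt (H11.two_eq_zero_iff_pow le_rfl).1 (by grind [Nat.card_eq_fintype_card])
  obtain ⟨p, _⟩ := CharP.exists F
  have := Fact.mk (CharP.char_is_prime F p)
  have hS := H11.stdSymp_nondeg (F := F) n
  have hT := H11.sOdd_nondeg n h2
  have hV : Module.finrank F (Fin n ⊕ Fin n → F) = 2 * n := by simp [two_mul]
  have hW := H11.finrank_odd_fun (F := F) n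
  refine (H11.mem_range_orderOf_equiv (H11.pomegaEquiv (H11.qOdd n F))).trans ?_
  rw [H11.mem_range_orderOf_equiv (H11.centerQuotCongr (H11.spEquiv n F)),
    H11.PForm.exists_orderOf_pomega hT hW (by omega)]
  wlog hs2 : s ≠ 2 generalizing r s
  · rw [mul_comm]; exact this s r hs hr hrs.symm (by omega)
  by_cases hr2 : r = 2
  · subst hr2
    by_cases h : s = p
    · obtain ⟨h3, h4⟩ := H11.PForm.two_char_symp_orth p hS hT hV hW h2 hn
      exact iff_of_true (h ▸ h4) (h ▸ h3)
    · exact (H11.PForm.two_symp_iff_orth hS hT hV hW h2 hs hs2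
        (H11.natCast_ne_zero_of_prime p hs h)).symm
  have ho := (hr.odd_of_ne_two hr2).mul (hs.odd_of_ne_two hs2)
  obtain ⟨M, h3, h4⟩ : ∃ M : ℕ, (M : F) ≠ 0 ∧ r * s ∣ p * M := by
    by_cases h : r = p
    · exact ⟨s, H11.natCast_ne_zero_of_prime p hs (by omega), h ▸ dvd_rfl⟩
    by_cases h' : s = p
    · exact ⟨r, H11.natCast_ne_zero_of_prime p hr h, by rw [h', mul_comm]⟩
    · exact ⟨r * s, by simp [H11.natCast_ne_zero_of_prime p hr h,
        H11.natCast_ne_zero_of_prime p hs h'], dvd_mul_left _ _⟩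
  rw [H11.exists_orderOf_quot_iff _ (m := 2) (fun z hz => (hS.symp_center.1 hz).elim (by simp [·])
    (· ▸ H11.PForm.neg1_sq)) ho.coprime_two_right, H11.PForm.odd_symp_iff_orth p hS hT hV hW h3 h4 ho]
  exact exists_congr fun g => and_iff_right_of_imp fun h => hT.mem_comm_of_odd h2 (h ▸ ho)

end Cfsg.Agent.S2474
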