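import Cfsg.Statements.S2479
import Cfsg.Agent.H11.Cls2
import Cfsg.Agent.S2384

set_option autoImplicit false
open Cfsg

namespace Cfsg.Agent.S2479

/-- The number of conjugacy classes of SL(n,q): for F a finite field with q elements, the number k of conjugacy classes of SL(n,F) satisfies q^(n−1) < k and k ≤ (5/2)·q^(n−1) for n ≥ 2, and k ≤ q^(n−1) + 3q^(n−2) for n ≥ 3. -/
theorem result {F : Type*} [Field F] [Fintype F] (n : ℕ) (hn : 2 ≤ n) :
    Fintype.card F ^ (n - 1) < Nat.card (ConjClasses (Matrix.SpecialLinearGroup (Fin n) F)) ∧ 2 * Nat.card (ConjClasses (Matrix.SpecialLinearGroup (Fin n) F)) ≤ 5 * Fintype.card F ^ (n - 1) ∧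
      (3 ≤ n → Nat.card (ConjClasses (Matrix.SpecialLinearGroup (Fin n) F)) ≤ Fintype.card F ^ (n - 1) + 3 * Fintype.card F ^ (n - 2)) := by
  obtain ⟨p, hp⟩ := CharP.exists F
  have := Fact.mk (CharP.char_is_prime F p)
  obtain ⟨g, hg⟩ := H11.sl_reg (F := F) (zero_lt_two.trans_le hn)
  refine ⟨(Cfsg.Agent.S2384.result rfl p n (by omega)).ge.trans_lt (Finite.card_subtype_lt
    (x := .mk g) fun ⟨k, h1, h2⟩ => ((H11.sl_sim_of_isConj (ConjClasses.mk_eq_mk_iff_isConj.1
      h1)).symm.reg hg).not_coprime p (by simpa) (by rwa [H11.orderOf_mE_sl])), ?_⟩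
  have h := H11.sl_classes_le (F := F) one_pos (zero_lt_two.trans_le hn) (one_mul n).symm .one
    (p := fun _ => True) fun g _ => by simpa using H11.Sim.refl _
  obtain ⟨w, hw⟩ := Nat.exists_eq_add_of_lt (Fintype.one_lt_card (α := F))
  rw [H11.card_classes_true, Nat.card_eq_fintype_card (α := F)] at h
  rw [hw] at h ⊢
  rw [Nat.add_sub_cancel, Nat.cast_add_one] at h
  have h0 : 0 < 1 + w := by omega
  have h1 : (0 : ℝ) < (1 + w : ℕ) := by exact_mod_cast h0
  refine ⟨?_, fun h3 => ?_⟩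
  · have := (mul_le_mul_of_nonneg_left h zero_le_two).trans (H11.Kb_gl' h0 (zero_lt_two.trans_le hn))
    rw [mul_left_comm] at this
    exact_mod_cast le_of_mul_le_mul_left this h1
  · obtain ⟨n, rfl⟩ := Nat.exists_eq_add_of_le' h3
    exact_mod_cast le_of_mul_le_mul_left (h.trans (H11.Kb_gl h0 n)) h1

end Cfsg.Agent.S2479
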