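import Cfsg.Statements.S2480
import Cfsg.Agent.H11.Cls2
import Cfsg.Agent.S2479

set_option autoImplicit false
open Cfsg

namespace Cfsg.Agent.S2480

/-- The number of conjugacy classes of PSL(n,q): for F a finite field with q elements, n ≥ 2 and d = gcd(n, q − 1), the number k of conjugacy classes of PSL(n,F) satisfies q^(n−1) ≤ d·k ≤ q^(n−1) + 5q^(n−2). -/
theorem result {F : Type*} [Field F] [Fintype F] (n : ℕ) (hn : 2 ≤ n) :
    Fintype.card F ^ (n - 1) ≤ Nat.gcd n (Fintype.card F - 1) * Nat.card (ConjClasses (Matrix.ProjectiveSpecialLinearGroup (Fin n) F)) ∧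
      Nat.gcd n (Fintype.card F - 1) * Nat.card (ConjClasses (Matrix.ProjectiveSpecialLinearGroup (Fin n) F)) ≤ Fintype.card F ^ (n - 1) + 5 * Fintype.card F ^ (n - 2) := by
  classical
  have := Fintype.ofFinite (Subgroup.center (Matrix.SpecialLinearGroup (Fin n) F))
  have : NeZero n := ⟨by omega⟩
  have h1 := H10.card_center_SL (ι := Fin n) (F := F)
  obtain ⟨h2, -, h3⟩ := Cfsg.Agent.S2479.result (F := F) n hn
  have h4 := H11.sl_fix_le (F := F) (zero_lt_two.trans_le hn)
  have h5 := H11.sl_classes_le (F := F) one_pos (zero_lt_two.trans_le hn) (one_mul n).symm .one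
    (p := fun _ => True) fun g _ => by simpa using H11.Sim.refl _
  rw [Fintype.card_fin, Nat.card_eq_fintype_card (α := F)] at h1
  rw [← h1]
  erw [H11.card_center_mul_classes]
  rw [← Finset.add_sum_erase _ _ (Finset.mem_univ 1)]
  simp only [OneMemClass.coe_one, one_mul, IsConj.refl, H11.card_classes_true] at h5 ⊢
  refine ⟨h2.le.trans (Nat.le_add_right _ _), ?_⟩
  obtain ⟨w, hw⟩ := Nat.exists_eq_add_of_lt (Fintype.one_lt_card (α := F))
  rw [Nat.card_eq_fintype_card (α := F)] at h4 h5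
  rw [hw] at h1 h3 h4 h5 ⊢
  rw [Nat.add_sub_cancel] at h1
  rw [Nat.add_sub_cancel, Nat.cast_add_one] at h4 h5
  have h0 : 0 < 1 + w := by omega
  have h6 : (0 : ℝ) < (1 + w : ℕ) := by exact_mod_cast h0
  have h7 := Nat.gcd_le_left (1 + w) (zero_lt_two.trans_le hn)
  have h8 := Nat.gcd_le_right n h0
  have h9 := fun b h => Finset.sum_le_card_nsmul (Finset.univ.erase 1) (fun z : Subgroup.center
    (Matrix.SpecialLinearGroup (Fin n) F) => 2 * Nat.card {C // ∃ g, ConjClasses.mk g = C ∧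
      IsConj (z.1 * g) g}) b h
  simp only [← Finset.mul_sum, Finset.card_erase_of_mem (Finset.mem_univ _), Finset.card_univ,
    ← Nat.card_eq_fintype_card, h1, smul_eq_mul] at h9
  obtain rfl | hn := hn.eq_or_lt
  · have := h9 2 fun z hz => by
      obtain ⟨m, e1, e2, e3⟩ := h4 z (Finset.ne_of_mem_erase hz)
      obtain rfl : m = 1 := by omega
      have := le_of_mul_le_mul_left ((e3.trans (H11.Kb_gl_two h0).1).trans_eq (mul_one _).symm) h6
      exact Nat.mul_le_mul_left 2 (by exact_mod_cast this)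
    have h10 := le_of_mul_le_mul_left (h5.trans (H11.Kb_gl_two h0).2.1) h6
    norm_cast at h10
    rw [pow_one, pow_zero]
    omega
  obtain ⟨k, rfl⟩ := Nat.exists_eq_add_of_le' (show 3 ≤ n from hn)
  have := h9 (5 * (1 + w + 1) ^ ((k + 3) / 2 - 1)) fun z hz => by
    obtain ⟨m, e1, e2, e3⟩ := h4 z (Finset.ne_of_mem_erase hz)
    have := (mul_le_mul_of_nonneg_left e3 zero_le_two).trans (H11.Kb_gl' h0 e1)
    rw [mul_left_comm] at this
    have := le_of_mul_le_mul_left this h6
    norm_cast at this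
    exact this.trans (by gcongr <;> omega)
  have h10 : (Nat.gcd (k + 3) (1 + w) - 1) * (5 * (1 + w + 1) ^ ((k + 3) / 2 - 1)) ≤
      4 * (1 + w + 1) ^ (k + 1) := by
    generalize Nat.gcd (k + 3) (1 + w) = d at h7 h8
    obtain _ | _ | k := k
    · simp; omega
    · norm_num
      nlinarith [show (d - 1) * 5 ≤ 4 * (1 + w + 1) by omega]
    · have : (1 + w + 1) ^ ((k + 1 + 1 + 3) / 2 - 1) ≤ (1 + w + 1) ^ (k + 1) := by gcongr <;> omega
      calc _ ≤ w * (5 * (1 + w + 1) ^ (k + 1)) := by gcongr; omega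
        _ = 5 * w * (1 + w + 1) ^ (k + 1) := by ring
        _ ≤ 4 * (1 + w + 1) ^ 2 * (1 + w + 1) ^ (k + 1) := by gcongr ?_ * _; nlinarith
        _ = _ := by ring
  have := h3 hn
  simp only [show k + 3 - 2 = k + 1 from rfl] at this ⊢
  omega

end Cfsg.Agent.S2480
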