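import Cfsg.Statements.S2481
import Cfsg.Agent.H11.Cls2
import Cfsg.Agent.S2386

set_option autoImplicit false
open Cfsg

namespace Cfsg.Agent.S2481

/-- The number of conjugacy classes of SU(n,q): for n ≥ 2, q a prime power and F the field with q² elements, the number k of conjugacy classes of SU(n,q) (the determinant-one isometries of the standard Hermitian form on F^n) satisfies q^(n−1) ≤ k ≤ 8.26·q^(n−1). -/
theorem result {F : Type*} [Field F] [Fintype F] (n q : ℕ) (hn : 2 ≤ n) (hF : Fintype.card F = q ^ 2) :
    q ^ (n - 1) ≤ Nat.card (ConjClasses (Cfsg.SU n F q)) ∧ 100 * Nat.card (ConjClasses (Cfsg.SU n F q)) ≤ 826 * q ^ (n - 1) := by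
  obtain ⟨p, hp⟩ := CharP.exists F
  have := Fact.mk (CharP.char_is_prime F p)
  refine ⟨(Cfsg.Agent.S2386.result hF p n (by omega)).ge.trans (Finite.card_subtype_le _), ?_⟩
  obtain ⟨σ, hq, hσ, hne⟩ := H11.exists_frob hF
  have h := (H11.stdUnit_nondeg hσ hne (Fin n)).unit_classes_le hne (Nat.card_eq_fintype_card.trans hF)
    (by simp; omega)
  rw [← H11.card_classes_true, ← H11.card_classes_equiv (H11.suEquiv hσ hne hq n) (p := fun _ => True)
    (by simp), H11.card_classes_true, Module.finrank_fin_fun] at h
  have h1 : 2 ≤ q := by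
    have := Fintype.one_lt_card (α := F)
    by_contra h; interval_cases q <;> omega
  have := (mul_le_mul_of_nonneg_left h (by norm_num)).trans (H11.Kb_gu h1 (zero_lt_two.trans_le hn))
  rw [mul_left_comm, Nat.cast_add_one] at this
  exact_mod_cast le_of_mul_le_mul_left this (by positivity)

end Cfsg.Agent.S2481
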