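import Cfsg.Statements.S2482
import Cfsg.Agent.H11.Cls4

set_option autoImplicit false
open Cfsg

namespace Cfsg.Agent.S2482

/-- The number of conjugacy classes of Sp(2n,q), q odd: for F a finite field of odd order q and n ≥ 1, the number k of conjugacy classes of Sp(2n,F) satisfies q^n ≤ k ≤ 10.8·q^n. -/
theorem result {F : Type*} [Field F] [Fintype F] (hodd : Odd (Fintype.card F)) (n : ℕ) (hn : 1 ≤ n) :
    Fintype.card F ^ n ≤ Nat.card (ConjClasses (Matrix.symplecticGroup (Fin n) F)) ∧ 5 * Nat.card (ConjClasses (Matrix.symplecticGroup (Fin n) F)) ≤ 54 * Fintype.card F ^ n := by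
  have hS := H11.stdSymp_nondeg (F := F) n
  have := H11.PForm.finite_isom (S := H11.stdSymp n F)
  have h := H11.symp_classes_le (H11.two_ne_zero_iff_odd.2 hodd) hS
  rw [← H11.card_classes_true, H11.card_classes_equiv (H11.spEquiv n F) (q := fun _ => True) (by simp),
    H11.card_classes_true, ← Nat.card_eq_fintype_card]
  refine ⟨H11.symp_ss_card hS (n := n) (by simp [two_mul]) ▸
    Nat.card_le_card_of_injective _ Subtype.val_injective, Nat.cast_le (α := ℝ).1 ?_⟩
  simp [H11.ww, ← two_mul] at h ⊢
  linarith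

end Cfsg.Agent.S2482
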