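import Cfsg.Statements.S2485
import Cfsg.Agent.H9.L2

set_option autoImplicit false
open scoped Pointwise
open Cfsg

namespace Cfsg.Agent.S2485

open H24 Subgroup Matrix

variable {F : Type*} [Field F]

/-- the stabiliser of the line through `τ` -/
def D (τ : M2 F) : Subgroup (GL (Fin 2) F) where
  carrier := {g | g.1 * τ = τ * g.1 ∨ g.1 * τ = -(τ * g.1)}
  one_mem' := .inl (by simp)
  mul_mem' {a b} ha hb := by
    change (a.1 * b.1) * τ = τ * (a.1 * b.1) ∨ (a.1 * b.1) * τ = -(τ * (a.1 * b.1))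
    rw [Matrix.mul_assoc]
    rcases ha with ha | ha <;> rcases hb with hb | hb <;>
      simp [hb, ← Matrix.mul_assoc, ha]
  inv_mem' {a} ha := by
    have k : ∀ x : M2 F, a.1 * τ = x * a.1 → a⁻¹.1 * x = τ * a⁻¹.1 := fun x h => by
      calc a⁻¹.1 * x = a⁻¹.1 * (x * a.1) * a⁻¹.1 := by simp [Matrix.mul_assoc]
        _ = τ * a⁻¹.1 := by rw [← h]; simp [← Matrix.mul_assoc]
    rcases ha with ha | ha
    · exact .inl (k _ ha)
    · exact .inr (by rw [← k (-τ) (by rw [ha, Matrix.neg_mul]), Matrix.mul_neg, neg_neg])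

theorem ell_of (hs : ∀ c : F, c ^ 2 ≠ -1) {τ : M2 F} (h : τ * τ = -1) : Ell τ := by
  rw [ell_iff]
  intro c v hv e
  have : (c ^ 2 + 1) • v = 0 := by
    have t1 : τ *ᵥ (τ *ᵥ v) = -v := by rw [mulVec_mulVec, h, neg_mulVec, one_mulVec]
    rw [e, mulVec_smul, e] at t1
    rw [add_smul, pow_two, mul_smul, t1]; simp
  exact hs c (eq_neg_of_add_eq_zero_left ((smul_eq_zero.1 this).resolve_right hv))

theorem inter (hs : ∀ c : F, c ^ 2 ≠ -1) {σ τ : GL (Fin 2) F} (h1 : σ.1 * σ.1 = -1) (h2 : τ.1 * τ.1 = -1) :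
    ∃ g ∈ D σ.1, g ∈ D τ.1 ∧ g ∉ center (GL (Fin 2) F) := by
  have e1 := ell_of hs h1
  by_cases h : σ.1 * τ.1 = τ.1 * σ.1
  · exact ⟨σ, .inl rfl, .inl h, fun k => e1.not_isScal ((mem_center_GL_iff _).1 k)⟩
  have a1 : (σ.1 * τ.1 - τ.1 * σ.1) * σ.1 = -(σ.1 * (σ.1 * τ.1 - τ.1 * σ.1)) := by
    rw [Matrix.sub_mul, Matrix.mul_sub, Matrix.mul_assoc τ.1, ← Matrix.mul_assoc σ.1 σ.1, h1]
    simp [Matrix.mul_assoc]
  have a2 : (σ.1 * τ.1 - τ.1 * σ.1) * τ.1 = -(τ.1 * (σ.1 * τ.1 - τ.1 * σ.1)) := by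
    rw [Matrix.sub_mul, Matrix.mul_sub, Matrix.mul_assoc σ.1, ← Matrix.mul_assoc τ.1 τ.1, h2]
    simp [Matrix.mul_assoc, sub_eq_add_neg]
  have n0 := sub_ne_zero.2 h
  generalize σ.1 * τ.1 - τ.1 * σ.1 = m at a1 a2 n0
  have d : m.det ≠ 0 := fun d => by
    obtain ⟨v, hv, e⟩ := exists_mulVec_eq_zero_iff.2 d
    have e' : m *ᵥ (σ.1 *ᵥ v) = 0 := by rw [mulVec_mulVec, a1, neg_mulVec, ← mulVec_mulVec, e]; simp
    have : m * cyc σ.1 v = 0 := by
      ext i j
      have := congrFun e i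
      have := congrFun e' i
      fin_cases j <;> simp_all [cyc, Matrix.mul_apply, mulVec, dotProduct]
    have u : (cyc σ.1 v).det ≠ 0 := fun k => by
      obtain ⟨w, hw, e⟩ := exists_mulVec_eq_zero_iff.2 k
      have e2 : w 0 • v + w 1 • σ.1 *ᵥ v = 0 := by
        ext i
        have := congrFun e i
        fin_cases i <;> simpa [cyc, mulVec, dotProduct, mul_comm] using this
      by_cases w1 : w 1 = 0
      · rw [w1, zero_smul, add_zero, smul_eq_zero, or_iff_left hv] at e2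
        exact hw (by ext i; fin_cases i <;> assumption)
      · refine (ell_iff _).1 e1 (-(w 0 / w 1)) v hv (smul_right_injective _ w1 ?_)
        simp only [smul_smul]
        rw [show w 1 * -(w 0 / w 1) = -w 0 by field_simp, neg_smul]
        exact eq_neg_of_add_eq_zero_right e2
    exact n0 (by rw [← mul_nonsing_inv_cancel_right _ m u.isUnit, this, Matrix.zero_mul])
  refine ⟨GeneralLinearGroup.mkOfDetNeZero m d, .inr a1, .inr a2, fun k => ?_⟩
  have c : m * σ.1 = σ.1 * m := ((mem_center_GL_iff _).1 k).commute _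
  rw [a1] at c
  have two : (2 : F) ≠ 0 := fun t => hs 1 (by linear_combination t)
  have : σ.1 * m = 0 := by
    have : (2 : F) • (σ.1 * m) = 0 := by rw [two_smul]; nth_rw 1 [← c]; simp
    exact (smul_eq_zero.1 this).resolve_left two
  exact n0 (by simpa using congrArg (σ⁻¹.1 * ·) this)

/-- Let q = 2^k − 1 ≥ 7 be a prime and let G = PGL(2,q), the general linear group of degree 2 over the field with q elements modulo its centre. Then any two Sylow 2-subgroups of G have a non-trivial intersection: for a Sylow 2-subgroup H and every x ∈ G, H ∩ H^x ≠ 1. -/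
theorem result {q k : ℕ} [Fact q.Prime] (hk : q + 1 = 2 ^ k) (hq : 7 ≤ q)
    (H : Sylow 2 (GL (Fin 2) (ZMod q) ⧸ Subgroup.center (GL (Fin 2) (ZMod q))))
    (x : GL (Fin 2) (ZMod q) ⧸ Subgroup.center (GL (Fin 2) (ZMod q))) :
    (H : Subgroup (GL (Fin 2) (ZMod q) ⧸ Subgroup.center (GL (Fin 2) (ZMod q)))) ⊓ MulAut.conj x • (H : Subgroup _) ≠ ⊥ := by
  have h4 : q % 4 = 3 := by
    obtain ⟨j, rfl⟩ : ∃ j, k = j + 2 := ⟨k - 2, by
      rcases k with _ | _ | k <;> omega⟩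
    rw [pow_add] at hk
    omega
  have hs : ∀ c : ZMod q, c ^ 2 ≠ -1 := fun c e => ZMod.mod_four_ne_three_of_sq_eq_neg_one e h4
  let f := QuotientGroup.mk' (center (GL (Fin 2) (ZMod q)))
  let τ : GL (Fin 2) (ZMod q) := compGL 0 1
  have tt : τ.1 * τ.1 = -1 := by
    ext i j; fin_cases i <;> fin_cases j <;> simp [τ, compGL, H24.comp]
  have cz : Nat.card (center (GL (Fin 2) (ZMod q))) = q - 1 := by
    have : center (GL (Fin 2) (ZMod q)) = scGL.range := le_antisymm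
      (fun g hg => (((mem_center_GL_iff _).1 hg).exists_scGL).imp fun _ => Eq.symm)
      (by rintro _ ⟨a, rfl⟩; exact scGL_mem_center a)
    rw [this, ← Nat.card_congr (MonoidHom.ofInjective scGL_injective).toEquiv, Nat.card_units, Nat.card_zmod]
  have c1 := H10.card_ker_mul_card_map f (C := centralizer {τ}) (by
    rw [QuotientGroup.ker_mk']; exact center_le_centralizer _)
  rw [QuotientGroup.ker_mk', cz, card_cent_GL_ell (ell_of hs tt), ZMod.card,
    show q ^ 2 - 1 = (q - 1) * (q + 1) by rw [mul_comm, ← Nat.sq_sub_sq], hk,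
    Nat.mul_right_inj (by omega)] at c1
  have p2 : IsPGroup 2 ((D τ.1).map f) := by
    rintro ⟨_, g, hg, rfl⟩
    refine ⟨k + 1, Subtype.ext ?_⟩
    have : g ^ 2 ∈ centralizer {τ} := mem_cent_GL.2 (by
      rw [pow_two, Units.val_mul, Matrix.mul_assoc]
      rcases hg with h | h <;> simp [h, ← Matrix.mul_assoc])
    have := pow_card_eq_one' (x := (⟨_, mem_map_of_mem f this⟩ : (centralizer {τ}).map f))
    rw [c1] at this
    simpa [pow_succ', pow_mul] using congrArg Subtype.val this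
  obtain ⟨P, hP⟩ := p2.exists_le_sylow
  have key : ∀ Q : Sylow 2 (GL (Fin 2) (ZMod q) ⧸ center (GL (Fin 2) (ZMod q))), ∃ σ : GL (Fin 2) (ZMod q),
      σ.1 * σ.1 = -1 ∧ ∀ g ∈ D σ.1, f g ∈ (Q : Subgroup _) := fun Q => by
    obtain ⟨c, rfl⟩ := MulAction.exists_smul_eq (GL (Fin 2) (ZMod q) ⧸ center (GL (Fin 2) (ZMod q))) P Q
    obtain ⟨c, rfl⟩ := QuotientGroup.mk'_surjective _ c
    refine ⟨c * τ * c⁻¹, ?_, fun g hg => ?_⟩
    · rw [← Units.val_mul, show c * τ * c⁻¹ * (c * τ * c⁻¹) = c * (τ * τ) * c⁻¹ by group]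
      simp [tt]
    · rw [Sylow.coe_subgroup_smul, mem_pointwise_smul_iff_inv_smul_mem]
      refine hP ⟨c⁻¹ * g * c, hg.imp (fun h => ?_) fun h => ?_, by simp [f]⟩
      · simpa [Matrix.mul_assoc] using congrArg (fun x => c⁻¹.1 * x * c.1) h
      · simpa [Matrix.mul_assoc] using congrArg (fun x => c⁻¹.1 * x * c.1) h
  obtain ⟨σ, a1, a2⟩ := key H
  obtain ⟨ρ, b1, b2⟩ := key (x • H)
  obtain ⟨g, g1, g2, g3⟩ := inter hs a1 b1
  intro e
  have : f g ∈ (⊥ : Subgroup _) := e ▸ ⟨a2 g g1, b2 g g2⟩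
  exact g3 ((QuotientGroup.eq_one_iff g).1 this)

end Cfsg.Agent.S2485
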