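import Cfsg.Statements.S2486
import Cfsg.Agent.H9.Pn1

set_option autoImplicit false
open scoped Pointwise
open Cfsg

namespace Cfsg.Agent.S2486

open Subgroup Matrix Equiv H9.Pn

theorem cell {n : ℕ} {F : Type*} [Field F] (g : GL (Fin n) F) (h : ∀ b ∈ Tri id, g⁻¹ * b * g ∈ Tri id → b = 1) :
    ∃ b ∈ Tri id, ∃ c ∈ Tri id, g = b * pm F Fin.revPerm⁻¹ * c := by
  obtain ⟨σ, b, c, hb, hc, e⟩ := bruhat g
  obtain rfl := eq_mul_inv_of_mul_eq e
  refine ⟨b, hb, _, inv_mem hc, ?_⟩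
  rw [eq_inv_of_mul_eq_one_right ((Perm.monotone_iff (Fin.revPerm * σ)).1 fun i j hij => ?_)]
  by_contra! hl
  have hl : σ i < σ j := by simpa using hl
  let t := GeneralLinearGroup.mkOfDetNeZero (transvection (σ i) (σ j) (1 : F)) (by simp [det_transvection_of_ne _ _ hl.ne])
  have ht : t ∈ Tri id := blockTriangular_transvection (b := id) hl.le (1 : F)
  have h2 : (pm F σ)⁻¹ * t * pm F σ ∈ Tri id := fun k l (e : l < k) => by
    rw [pm_conj]
    by_cases e' : i = k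
    · subst e'; simp [t, transvection, e.ne', (e.trans_le hij).ne']
    · simp [t, transvection, e.ne', e']
  have := h _ (mul_mem (mul_mem hb ht) (inv_mem hb)) (by
    simpa [mul_assoc] using mul_mem (mul_mem hc h2) (inv_mem hc))
  have := congrArg (fun x : GL (Fin n) F => x.1 (σ i) (σ j)) (conj_eq_one_iff.1 this)
  simp [t, transvection, hl.ne] at this

/-- Let n ≥ 4 and let G be a finite group with a normal subgroup N of index 2 isomorphic to SL(n,2) and with trivial centralizer in G (so G is the extension of the simple group L_n(2) by its inverse-transpose automorphism, its full automorphism group). Then any two Sylow 2-subgroups of G have a non-trivial intersection: for a Sylow 2-subgroup H and every x ∈ G, H ∩ H^x ≠ 1. -/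
theorem result {G : Type*} [Group G] [Finite G] {n : ℕ} (hn : 4 ≤ n) (N : Subgroup G) [N.Normal]
    (e : N ≃* Matrix.SpecialLinearGroup (Fin n) (ZMod 2)) (hidx : N.index = 2)
    (hC : Subgroup.centralizer (N : Set G) = ⊥)
    (H : Sylow 2 G) (x : G) :
    (H : Subgroup G) ⊓ MulAut.conj x • (H : Subgroup G) ≠ ⊥ := by
  let ρ : N →* GL (Fin n) (ZMod 2) := SpecialLinearGroup.toGL.comp e.toMonoidHom
  have ri : Function.Injective ρ := SpecialLinearGroup.toGL_injective.comp e.injective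
  have u1 : ∀ a : ZMod 2, a ≠ 0 → a = 1 := by decide
  have rs : Function.Surjective ρ := fun g => ⟨e.symm ⟨g.1, u1 _ g.det_ne_zero⟩, Units.ext (congrArg Subtype.val (e.apply_symm_apply _))⟩
  obtain ⟨Q, hQ⟩ := (((uni_pg.to_le (H := Tri id) fun g hg => ⟨hg, fun i =>
    u1 _ (dg_ne Function.injective_id hg i)⟩).comap_of_injective ρ ri).map N.subtype).exists_le_sylow
  have hQ : ∀ b : N, ρ b ∈ Tri id → b.1 ∈ (Q : Subgroup G) := fun b hb => hQ ⟨b, hb, rfl⟩
  obtain ⟨h, hh, hN⟩ : ∃ h ∈ (Q : Subgroup G), h ∉ N := by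
    by_contra! h
    exact Q.not_dvd_index (hidx.symm.dvd.trans (index_dvd_of_le h))
  obtain ⟨y, rfl⟩ := MulAction.exists_smul_eq G Q H
  intro h0
  have h1 : ∀ t ∈ (Q : Subgroup G), (y⁻¹ * x * y)⁻¹ * t * (y⁻¹ * x * y) ∈ (Q : Subgroup G) → t = 1 := fun t a b =>
    conj_eq_one_iff.1 (mem_bot.1 (h0.le ⟨smul_mem_pointwise_smul t (MulAut.conj y) _ a,
      mem_pointwise_smul_iff_inv_smul_mem.2 (mem_pointwise_smul_iff_inv_smul_mem.2 (by simpa [mul_assoc] using b))⟩))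
  generalize y⁻¹ * x * y = z at h1
  obtain ⟨z, h1⟩ : ∃ z : N, ∀ t ∈ (Q : Subgroup G), z.1⁻¹ * t * z ∈ (Q : Subgroup G) → t = 1 := by
    by_cases hz : z ∈ N
    · exact ⟨⟨z, hz⟩, h1⟩
    · exact ⟨⟨z * h, (mul_mem_iff_of_index_two hidx).2 (iff_of_false hz hN)⟩, fun t a b => h1 t a (by
        simpa [mul_assoc] using mul_mem (mul_mem hh b) (inv_mem hh))⟩
  have key : ∀ z : N, (∀ t ∈ (Q : Subgroup G), z.1⁻¹ * t * z ∈ (Q : Subgroup G) → t = 1) →
      ∃ b c : N, b.1 ∈ (Q : Subgroup G) ∧ c.1 ∈ (Q : Subgroup G) ∧ ρ z = ρ b * pm _ Fin.revPerm⁻¹ * ρ c := fun z hz => by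
    obtain ⟨b, hb, c, hc, e⟩ := cell (ρ z) fun t a b => by
      obtain ⟨t, rfl⟩ := rs t
      rw [show t = 1 from Subtype.ext (hz t (hQ t a) (hQ (z⁻¹ * t * z) (by simpa using b))), map_one]
    obtain ⟨b, rfl⟩ := rs b
    obtain ⟨c, rfl⟩ := rs c
    exact ⟨b, c, hQ b hb, hQ c hc, e⟩
  obtain ⟨b, c, hb, hc, e1⟩ := key z h1
  obtain ⟨b', c', hb', hc', e2⟩ := key ⟨_, ‹N.Normal›.conj_mem _ z.2 h⟩ fun t a b =>
    conj_eq_one_iff.1 (h1 (h⁻¹ * t * h⁻¹⁻¹) (mul_mem (mul_mem (inv_mem hh) a) (inv_mem (inv_mem hh))) (by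
      simpa [mul_assoc] using mul_mem (mul_mem (inv_mem hh) b) hh))
  have e3 : h * z * h⁻¹ = b' * b⁻¹ * z * c⁻¹ * c' := congrArg Subtype.val (ri (a₂ := b' * b⁻¹ * z * c⁻¹ * c')
    (e2.trans (by simp [e1, mul_assoc])))
  have := h1 (b * b'⁻¹ * h) (mul_mem (mul_mem hb (inv_mem hb')) hh) (by
    rw [show z.1⁻¹ * (b * b'⁻¹ * h) * z = z.1⁻¹ * (b * b'⁻¹) * (h * z * h⁻¹) * h by group, e3]
    simpa [mul_assoc] using mul_mem (mul_mem (inv_mem hc) hc') hh)
  exact hN (eq_inv_of_mul_eq_one_right this ▸ (b * b'⁻¹)⁻¹.2)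

end Cfsg.Agent.S2486
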