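import Cfsg.Statements.S2487
import Cfsg.Agent.H11.Std

set_option autoImplicit false
open scoped Pointwise
open Cfsg

namespace Cfsg.Agent.S2487

open Subgroup H11 H11.PForm Module

theorem key {F V : Type*} [Field F] [Finite F] (hF : Nat.card F = 2) [AddCommGroup V] [Module F V] [FiniteDimensional F V]
    {S : PForm (orthP F) V} (hS : S.Nondeg) {k : ℕ} (hV : finrank F V = 2 * (k + 1)) (h : S.HasTS (k + 1)) (P : Sylow 2 S.Isom) :
    ∃ W : Submodule F V, finrank F W = k ∧ S.fix W ≤ P := by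
  have := Module.finite_of_finite F (M := V)
  have : Finite S.Isom := Finite.of_injective (fun g : S.Isom => (g.1 : V → V)) fun _ _ e => isom_ext (congrFun e)
  obtain ⟨W, hW, hk⟩ := h.mono k.le_succ
  obtain ⟨X, h1, h2, h3, h4⟩ := exists_card_fix_TS k hS hW hk
  have hX : finrank F X = 2 * 1 := by omega
  have ts : (S.restrict X).HasTS 1 := by
    by_contra e
    obtain ⟨M, hM, e'⟩ := h
    have := TS.finrank_le_of_maximal hS hW (fun x hx hs => by
      rw [← (hW.perp_eq_sup hS h1 h2 (hk ▸ h3)).2] at hx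
      obtain ⟨w, hw, y, hy, rfl⟩ := Submodule.mem_sup.1 hx
      have := not_hasTS_one_iff.1 e ⟨y, hy⟩ (by
        simpa [orth_sing, orth_q_add, (orth_sing S w).1 (hW.sing w hw), h2 hy w hw] using hs)
      simpa [show y = 0 from congrArg Subtype.val this]) hM
    omega
  rw [h1.orth_card_plus le_rfl hX ts, hX, hF, show Nat.card (orthP F).Λ = 1 by simp [orthP]] at h4
  have p2 : IsPGroup 2 (S.fix W) := .of_card (n := k * (2 * 1) + k.choose 2 + 1) (by simpa [pow_succ] using h4)
  obtain ⟨Q, hQ⟩ := p2.exists_le_sylow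
  obtain ⟨g, rfl⟩ := MulAction.exists_smul_eq S.Isom Q P
  refine ⟨W.map (g.1 : V →ₗ[F] V), (LinearEquiv.finrank_map_eq _ _).trans hk, fun a ha => ?_⟩
  exact mem_pointwise_smul_iff_inv_smul_mem.2 (hQ fun x hx => by simpa using congrArg g⁻¹.1 (ha _ ⟨x, hx, rfl⟩))

/-- Let m ≥ 4 and let G be the full isometry group of the hyperbolic quadratic form x₁y₁ + ⋯ + x_m y_m on the 2m-dimensional space over the field with 2 elements (the orthogonal group O⁺(2m,2), which contains Ω⁺(2m,2) with index 2). Then any two Sylow 2-subgroups of G have a non-trivial intersection: for a Sylow 2-subgroup H and every x ∈ G, H ∩ H^x ≠ 1. -/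
theorem result {F : Type*} [Field F] [Fintype F] (hF : Fintype.card F = 2) {m : ℕ} (hm : 4 ≤ m)
    (H : Sylow 2 (Cfsg.isometryGroup F (Cfsg.quadFormPlus m F)))
    (x : Cfsg.isometryGroup F (Cfsg.quadFormPlus m F)) :
    (H : Subgroup (Cfsg.isometryGroup F (Cfsg.quadFormPlus m F))) ⊓ MulAut.conj x • (H : Subgroup _) ≠ ⊥ := by
  have hF := Nat.card_eq_fintype_card.trans hF
  obtain ⟨k, rfl⟩ := Nat.exists_eq_add_one_of_ne_zero (show m ≠ 0 by omega)
  let e := orthEquiv (qPlus (k + 1) F)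
  have hS := sPlus_nondeg (k + 1) F
  have hV : finrank F (Fin (k + 1) ⊕ Fin (k + 1) → F) = 2 * (k + 1) := by simp [two_mul]
  have : Finite (Cfsg.isometryGroup F (Cfsg.quadFormPlus (k + 1) F)) := Subtype.finite
  obtain ⟨W, w1, w2⟩ := key hF hS hV (sPlus_hasTS _ F) (H.mapSurjective (f := e.toMonoidHom) e.surjective)
  obtain ⟨W', w1', w2'⟩ := key hF hS hV (sPlus_hasTS _ F) ((x • H).mapSurjective (f := e.toMonoidHom) e.surjective)
  obtain ⟨g, hg, g1⟩ : ∃ g ∈ (sPlus (k + 1) F).fix (W ⊔ W'), g ≠ 1 := by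
    have d := hS.finrank_perp (W ⊔ W')
    have := Submodule.finrank_add_le_finrank_add_finrank W W'
    by_cases h : ∀ v ∈ (sPlus (k + 1) F).perp (W ⊔ W'), (sPlus (k + 1) F).q v = 0
    · obtain ⟨f, hf⟩ := exists_linearIndependent_of_le_finrank (show 2 ≤ finrank F ((sPlus (k + 1) F).perp (W ⊔ W')) by omega)
      have hf := hf.map' _ (Submodule.ker_subtype _)
      have c : (sPlus (k + 1) F).ECond (f 0) (f 1) ((sPlus (k + 1) F).q (f 1)) := .of_q ((orth_sing _ _).2 (h _ (f 0).2)) (by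
        simpa only [orth_q_add, h _ (f 0).2, h _ (f 1).2, zero_add] using h _ (add_mem (f 0).2 (f 1).2))
      refine ⟨(sPlus (k + 1) F).eich _ _ _, fun y hy => eich_apply_of_perp_perp (u := (f 0).1) (v := (f 1).1) (a := (sPlus (k + 1) F).q (f 1))
        (h_swap_zero _ ((f 0).2 y hy)) (h_swap_zero _ ((f 1).2 y hy)), fun e => ?_⟩
      obtain ⟨y, hy⟩ := hS.exists_forall_h_eq hf ![1, 0]
      have := eich_apply c y
      rw [e, show (sPlus (k + 1) F).h (f 0) y = 1 from hy 0, show (sPlus (k + 1) F).h (f 1) y = 0 from hy 1, h _ (f 1).2] at this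
      exact hf.ne_zero 1 (by simpa using this)
    · push Not at h
      obtain ⟨v, hv, h⟩ := h
      exact ⟨_, fun y hy => refl_apply_of_perp (h_swap_zero _ (hv y hy)), hS.refl_ne_one h⟩
  obtain ⟨g, rfl⟩ := e.surjective g
  exact fun h => g1 (e.map_eq_one_iff.2 (mem_bot.1 (h.le ⟨(mem_map_iff_mem e.injective).1 (w2 (mem_fix_sup.1 hg).1),
    (mem_map_iff_mem e.injective).1 (w2' (mem_fix_sup.1 hg).2)⟩)))

end Cfsg.Agent.S2487
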