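import Cfsg.Statements.S2488
import Cfsg.Agent.H9.MaxClass
import Mathlib.GroupTheory.SpecificGroups.Alternating

set_option autoImplicit false
open scoped Pointwise
open Cfsg

namespace Cfsg.Agent.S2488

open Equiv Perm Subgroup

def z0 : Perm (Fin 6) := swap 0 1 * swap 2 3

theorem a1 : ∀ z : Perm (Fin 6), z * z = 1 → z ≠ 1 → sign z = 1 → ∃ g : Perm (Fin 6), g * z = z0 * g := by
  decide +kernel

theorem a2 : (Finset.univ.filter fun w : Perm (Fin 6) => w * z0 = z0 * w ∧ sign w = 1).card = 8 := by decide +kernel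

theorem a3 : ∀ b : Bool, (Finset.univ.filter fun w : Perm (Fin 6) =>
    w * w = 1 ∧ w ≠ 1 ∧ sign w = 1 ∧ decide ((z0 * w) ^ 3 = 1) = b).card < 32 := by decide +kernel

/-- Let G be a finite group with a normal subgroup N of index 4 isomorphic to the alternating group of degree 6 and with trivial centralizer in G (so G is the full automorphism group of A₆). Then any two Sylow 2-subgroups of G have a non-trivial intersection: for a Sylow 2-subgroup H and every x ∈ G, H ∩ H^x ≠ 1. -/
theorem result {G : Type*} [Group G] [Finite G] (N : Subgroup G) [N.Normal]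
    (e : N ≃* alternatingGroup (Fin 6)) (hidx : N.index = 4)
    (hC : Subgroup.centralizer (N : Set G) = ⊥)
    (H : Sylow 2 G) (x : G) :
    (H : Subgroup G) ⊓ MulAut.conj x • (H : Subgroup G) ≠ ⊥ := by
  classical
  intro h0
  have cN : Nat.card N = 360 := by rw [Nat.card_congr e.toEquiv, nat_card_alternatingGroup]; simp [Nat.factorial]
  have cH : Nat.card H = 32 := by
    rw [H.card_eq_multiplicity, ← N.card_mul_index, cN, hidx]; decide +kernel
  obtain ⟨z, zN, zH, z1, z2⟩ : ∃ z ∈ N, (H : Subgroup G) ≤ centralizer {z} ∧ z ≠ 1 ∧ z * z = 1 := by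
    obtain ⟨⟨z, zH⟩, zN, zZ, o⟩ := H9.exists_central_involution H.isPGroup' (N.subgroupOf H) fun hb => by
      have := N.relIndex_dvd_index_of_normal H
      rw [relIndex, hb, index_bot, cH, hidx] at this
      omega
    rw [orderOf_mk] at o
    exact ⟨z, zN, fun y hy => mem_centralizer_singleton_iff.2 (congrArg Subtype.val (mem_center_iff.1 zZ ⟨y, hy⟩)),
      fun h => by simp [h] at o, by rw [← sq, ← o, pow_orderOf_eq_one]⟩
  obtain ⟨g, hg⟩ := a1 (e ⟨z, zN⟩) (by rw [← Subgroup.coe_mul, ← map_mul]; simp [z2]) (by simpa using z1) (e _).2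
  let f : N →* Perm (Fin 6) := (MulAut.conj g).toMonoidHom.comp ((alternatingGroup _).subtype.comp e.toMonoidHom)
  have fi : Function.Injective f := (MulAut.conj g).injective.comp (Subtype.val_injective.comp e.injective)
  have fs : ∀ y, sign (f y) = 1 := fun y => by
    simpa [f, mul_right_comm, Int.units_mul_self] using mem_alternatingGroup.1 (e y).2
  have fz : f ⟨z, zN⟩ = z0 := mul_inv_eq_iff_eq_mul.2 hg
  have hc : centralizer {z} = (H : Subgroup G) := by
    refine (eq_of_le_of_card_ge zH ?_).symm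
    rw [cH, ← (N.subgroupOf (centralizer {z})).index_mul_card]
    refine (Nat.mul_le_mul (Nat.le_of_dvd (hidx ▸ four_pos) (N.relIndex_dvd_index_of_normal _)) (?_ : _ ≤ 8)).trans
      (by rw [hidx])
    rw [← a2, ← Nat.card_eq_finsetCard]
    refine Nat.card_le_card_of_injective (fun y => ⟨f ⟨y.1.1, y.2⟩, Finset.mem_filter.2 ⟨Finset.mem_univ _, ?_, fs _⟩⟩)
      fun a b h => Subtype.ext (Subtype.ext (Subtype.mk.inj (fi (congrArg Subtype.val h))))
    rw [← fz, ← map_mul, ← map_mul]
    exact congrArg f (Subtype.ext (mem_centralizer_singleton_iff.1 y.1.2))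
  have m : ∀ y : G, y * z * y⁻¹ ∈ N := ‹N.Normal›.conj_mem z zN
  refine (a3 (decide ((z * (x * z * x⁻¹)) ^ 3 = 1))).not_ge ?_
  rw [← cH, ← Nat.card_eq_finsetCard]
  refine Nat.card_le_card_of_injective (fun h : H => ⟨f ⟨_, m (h * x)⟩, Finset.mem_filter.2 ⟨Finset.mem_univ _,
    ?_, ?_, fs _, ?_⟩⟩) fun a b h => ?_
  · rw [← map_mul, ← map_one f]
    exact congrArg f (Subtype.ext (by simp [← mul_assoc, mul_assoc _ z z, z2]))
  · rw [← map_one f, fi.ne_iff]
    simpa only [ne_eq, Subtype.ext_iff, Subgroup.coe_one, conj_eq_one_iff] using z1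
  · rw [← fz, ← map_mul, ← map_pow, ← map_one f, decide_eq_decide, fi.eq_iff, Subtype.ext_iff]
    have := mem_centralizer_singleton_iff.1 (zH h.2)
    rw [← (MulAut.conj h.1).injective.eq_iff (a := _ ^ 3), map_pow, map_one]
    refine iff_of_eq (congrArg (· ^ 3 = 1) ?_)
    simp [← mul_assoc, this]
  · have h := congrArg Subtype.val (fi (congrArg Subtype.val h))
    have : (b : G)⁻¹ * a ∈ (H : Subgroup G) ⊓ MulAut.conj x • (H : Subgroup G) := by
      refine ⟨(b⁻¹ * a).2, mem_pointwise_smul_iff_inv_smul_mem.2 (hc.le ?_)⟩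
      rw [mem_centralizer_singleton_iff]
      calc _ = x⁻¹ * b⁻¹ * (a * x * z * (a * x)⁻¹) * a * x := by simp; group
        _ = _ := by rw [show (a : G) * x * z * _ = _ from h]; simp; group
    rw [h0, mem_bot, inv_mul_eq_one] at this
    exact Subtype.ext this.symm

end Cfsg.Agent.S2488
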