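import Cfsg.Statements.S2490
import Cfsg.Agent.H2.IdP

set_option autoImplicit false
open Cfsg

namespace Cfsg.Agent.S2490

/-- Let G be a finite group of order 7920 = 2⁴·3²·5·11 (the order of the smallest Mathieu group) and suppose its prime graph (vertices the prime divisors of the order, distinct p, q joined when there is an element of order pq) is disconnected: the prime divisors split into two non-empty parts with no element of order pq for p in one part and q in the other. Then G is simple. -/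
theorem result {G : Type*} [Group G] [Finite G] (hord : Nat.card G = 7920)
    (hdisc : (∃ A : Set ℕ, (∃ a ∈ A, a.Prime ∧ a ∣ Nat.card G) ∧ (∃ b ∉ A, b.Prime ∧ b ∣ Nat.card G) ∧
      ∀ a ∈ A, ∀ b ∉ A, a.Prime → b.Prime → a ∣ Nat.card G → b ∣ Nat.card G → ¬ ∃ g : G, orderOf g = a * b)) :
    IsSimpleGroup G := by
  obtain ⟨A, ⟨a, ha, ap, ad⟩, ⟨b, hb, bp, bd⟩, h⟩ := hdisc
  have h' : ∀ a ∈ A, ∀ b ∉ A, a.Prime → b.Prime → ∀ g : G, orderOf g ≠ a * b := fun a ha b hb ap bp g e =>
    h a ha b hb ap bp ((Dvd.intro _ e.symm).trans (orderOf_dvd_natCard g))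
      ((Dvd.intro_left _ e.symm).trans (orderOf_dvd_natCard g)) ⟨g, e⟩
  by_cases h11 : 11 ∈ A
  · exact H2.M11.disc hord h11 hb bp (hord ▸ bd) h'
  · exact H2.M11.disc hord (A := Aᶜ) h11 (not_not.2 ha) ap (hord ▸ ad) fun a ha b hb ap bp g e =>
      h' b (not_not.1 hb) a ha bp ap g (e.trans (mul_comm ..))

end Cfsg.Agent.S2490
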