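import Cfsg.Statements.S2493
import Cfsg.Agent.H16.AltM
import Cfsg.Agent.H23.Spec

set_option autoImplicit false
open Cfsg

namespace Cfsg.Agent.S2493

section
open Equiv Equiv.Perm Subgroup H11

variable {Ω : Type*} [Fintype Ω] [DecidableEq Ω]

/-- `x = s t` with involutions supported on the support of `x` -/
def Dec (x s t : Perm Ω) : Prop :=
  s * s = 1 ∧ t * t = 1 ∧ x = s * t ∧ s.support ⊆ x.support ∧ t.support ⊆ x.support

omit [Fintype Ω] in
theorem dsw {s : Perm Ω} {p q : Ω} (hp : s p = p) (hq : s q = q) : s.Disjoint (swap p q) := fun x => by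
  by_cases h : x = p
  · exact .inl (h ▸ hp)
  by_cases h' : x = q
  · exact .inl (h' ▸ hq)
  · exact .inr (swap_apply_of_ne_of_ne h h')

omit [Fintype Ω] [DecidableEq Ω] in
theorem inv2 {s u : Perm Ω} (hs : s * s = 1) (hu : u * u = 1) (h : s.Disjoint u) : s * u * (s * u) = 1 := by
  rw [h.commute.symm.mul_mul_mul_comm, hs, hu, one_mul]

theorem Dec.inv {x s t : Perm Ω} (h : Dec x⁻¹ s t) : Dec x t s := by
  obtain ⟨h1, h2, h3, h4, h5⟩ := h
  rw [support_inv] at h4 h5
  exact ⟨h2, h1, by rw [← inv_inj, h3, mul_inv_rev, inv_eq_of_mul_eq_one_right h1, inv_eq_of_mul_eq_one_right h2], h5, h4⟩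

theorem cyc (m : ℕ) : ∀ c : Perm Ω, c.IsCycle → c.support.card = m → ∀ p, c p ≠ p →
    ∃ s t, Dec c s t ∧ s p = p ∧ t.support.card = s.support.card + if sign c = 1 then 0 else 2 := by
  induction m with
  | zero => intro c hc h; have := hc.two_le_card_support; omega
  | succ m ih =>
    intro c hc h p hp
    have hp' : c⁻¹ p ≠ p := fun e => hp (inv_eq_iff_eq.1 e).symm
    by_cases h2 : c (c p) = p
    · have e := hc.eq_swap_of_apply_apply_eq_self hp h2
      generalize c p = q at e hp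
      subst e
      exact ⟨1, swap p q, ⟨by simp, by simp, by simp, by simp, subset_rfl⟩, rfl, by
        simp [sign_swap hp.symm, card_support_swap hp.symm]⟩
    have h3 : c⁻¹ (c⁻¹ p) ≠ p := fun e => h2 (by conv_lhs => rw [← e]; simp)
    have h4 := (support_swap_mul_eq _ _ h3).trans (Finset.sdiff_singleton_eq_erase _ _)
    have h5 : c⁻¹ p ∈ c⁻¹.support.erase p := Finset.mem_erase.2 ⟨hp', apply_mem_support.2 (mem_support.2 hp')⟩
    obtain ⟨s, t, ⟨a1, a2, a3, a4, a5⟩, a6, a7⟩ := ih _ (hc.inv.swap_mul hp' h3)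
      (by rw [h4, Finset.card_erase_of_mem (mem_support.2 hp'), support_inv, h]; rfl) (c⁻¹ p) (mem_support.1 (h4 ▸ h5))
    rw [h4] at a4 a5
    have b1 : s p = p := notMem_support.1 fun k => Finset.notMem_erase _ _ (a4 k)
    have b2 := dsw b1 a6
    refine ⟨t, swap p (c⁻¹ p) * s, Dec.inv ⟨inv2 (by simp) a1 b2.symm, a2, by rw [mul_assoc, ← a3, swap_mul_self_mul],
      ?_, a5.trans (Finset.erase_subset _ _)⟩, notMem_support.1 fun k => Finset.notMem_erase _ _ (a5 k), ?_⟩
    · rw [b2.symm.support_mul, support_swap hp'.symm]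
      exact Finset.union_subset (Finset.insert_subset (mem_support.2 hp') (Finset.singleton_subset_iff.2
        (Finset.erase_subset _ _ h5))) (a4.trans (Finset.erase_subset _ _))
    · rw [b2.symm.card_support_mul, card_support_swap hp'.symm, a7, map_mul, sign_swap hp'.symm, sign_inv]
      rcases Int.units_eq_one_or (sign c) with e | e <;> simp [e, add_comm]

theorem dec (x : Perm Ω) : ∃ s t, Dec x s t ∧ (x ≠ 1 → ∃ p, x p ≠ p ∧ (s p = p ∨ t p = p)) ∧
    t.support.card = s.support.card + if sign x = 1 then 0 else 2 := by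
  induction x using cycle_induction_on with
  | base_one => exact ⟨1, 1, ⟨by simp, by simp, by simp, by simp, by simp⟩, by simp, by simp⟩
  | base_cycles c hc =>
    obtain ⟨p, hp, -⟩ := id hc
    obtain ⟨s, t, h1, h2, h3⟩ := cyc _ c hc rfl p hp
    exact ⟨s, t, h1, fun _ => ⟨p, hp, .inl h2⟩, h3⟩
  | induction_disjoint c y hd hc _ ih =>
    obtain ⟨s2, t2, ⟨a1, a2, a3, a4, a5⟩, -, a6⟩ := ih
    obtain ⟨p, hp, -⟩ := id hc
    have hy : p ∉ y.support := notMem_support.2 ((hd p).resolve_left hp)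
    have key : ∀ s t, Dec c s t → (s p = p ∨ t p = p) → t.support.card + t2.support.card =
        s.support.card + s2.support.card + (if sign (c * y) = 1 then 0 else 2) → ∃ s t, Dec (c * y) s t ∧
        (c * y ≠ 1 → ∃ p, (c * y) p ≠ p ∧ (s p = p ∨ t p = p)) ∧
        t.support.card = s.support.card + if sign (c * y) = 1 then 0 else 2 := fun s t ⟨b1, b2, b3, b4, b5⟩ b6 b7 => by
      refine ⟨s * s2, t * t2, ⟨inv2 b1 a1 (hd.mono b4 a4), inv2 b2 a2 (hd.mono b5 a5), ?_, ?_, ?_⟩,
        fun _ => ⟨p, by rwa [mul_apply, notMem_support.1 hy], ?_⟩, ?_⟩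
      · rw [(hd.mono b5 a4).commute.symm.mul_mul_mul_comm, ← a3, ← b3]
      · rw [hd.support_mul, (hd.mono b4 a4).support_mul]; exact Finset.union_subset_union b4 a4
      · rw [hd.support_mul, (hd.mono b5 a5).support_mul]; exact Finset.union_subset_union b5 a5
      · rwa [mul_apply, mul_apply, notMem_support.1 fun k => hy (a4 k), notMem_support.1 fun k => hy (a5 k)]
      · rw [(hd.mono b4 a4).card_support_mul, (hd.mono b5 a5).card_support_mul, b7]
    by_cases e : sign y = 1
    · obtain ⟨s, t, h1, h2, h3⟩ := cyc _ c hc rfl p hp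
      exact key s t h1 (.inl h2) (by rw [map_mul, e, mul_one, h3, a6, if_pos e]; omega)
    · obtain ⟨s, t, h1, h2, h3⟩ := cyc _ c⁻¹ hc.inv rfl p fun e => hp (inv_eq_iff_eq.1 e).symm
      refine key t s h1.inv (.inr h2) ?_
      rw [map_mul, h3, a6, if_neg e, sign_inv, (Int.units_eq_one_or _).resolve_left e]
      rcases Int.units_eq_one_or (sign c) with e | e <;> simp [e] <;> omega

/-- two cycles of length two -/
def Good (A : Perm Ω) : Prop := ∃ i k, A i ≠ i ∧ A (A i) = i ∧ A k ≠ k ∧ A (A k) = k ∧ k ≠ i ∧ k ≠ A i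

theorem good {s u : Perm Ω} (hs : s * s = 1) (h : 2 < s.support.card) (hd : s.Disjoint u) : Good (s * u) := by
  obtain ⟨i, hi⟩ := Finset.card_pos.1 (by omega : 0 < s.support.card)
  obtain ⟨k, hk, hk'⟩ := Finset.exists_mem_notMem_of_card_lt_card (Finset.card_le_two.trans_lt h : Finset.card {i, s i} < _)
  have e : ∀ j ∈ s.support, (s * u) j = s j := fun j hj => by
    rw [mul_apply, (hd j).resolve_left (mem_support.1 hj)]
  have e2 : ∀ j, s (s j) = j := fun j => by rw [← mul_apply, hs, one_apply]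
  simp only [Finset.mem_insert, Finset.mem_singleton, not_or] at hk'
  exact ⟨i, k, by rw [e i hi]; exact mem_support.1 hi, by rw [e i hi, e _ (apply_mem_support.2 hi), e2],
    by rw [e k hk]; exact mem_support.1 hk, by rw [e k hk, e _ (apply_mem_support.2 hk), e2], hk'.1,
    by rw [e i hi]; exact hk'.2⟩

theorem ctype {s : Perm Ω} (hs : s * s = 1) : ∃ N, s.support.card = 2 * N ∧ s.cycleType = Multiset.replicate N 2 ∧
    sign s = (-1) ^ N := by
  have := Fact.mk Nat.prime_two
  have h := cycleType_of_pow_prime_eq_one (p := 2) (by rw [sq, hs])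
  refine ⟨_, by rw [← sum_cycleType, h]; simp [mul_comm], h, ?_⟩
  rw [sign_of_cycleType, h]
  simp [pow_add, pow_mul]

theorem ctype2 {s t : Perm Ω} (hs : s * s = 1) (ht : t * t = 1) (h : t.support.card = s.support.card) :
    s.cycleType = t.cycleType := by
  obtain ⟨N, h1, h2, -⟩ := ctype hs
  obtain ⟨M, h3, h4, -⟩ := ctype ht
  rw [h2, h4, show N = M by omega]

theorem tri {s : Perm Ω} (hs : s * s = 1) {p q : Ω} (hp : s p = p) (hq : s q ≠ q) : ∃ r u : Perm Ω, r * r = 1 ∧
    r.Disjoint u ∧ u.IsThreeCycle ∧ s * swap p q = r * u ∧ s.support.card = r.support.card + 2 := by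
  have e2 : ∀ j, s (s j) = j := fun j => by rw [← mul_apply, hs, one_apply]
  have h1 : q ≠ p := fun e => hq (e ▸ hp)
  have h2 : s q ≠ p := fun e => h1 (by rw [← e2 q, e, hp])
  have a1 : (s * swap q (s q)) q = q := by simp [e2]
  have a2 : (s * swap q (s q)) (s q) = s q := by simp
  have a3 : (s * swap q (s q)) p = p := by rw [mul_apply, swap_apply_of_ne_of_ne h1.symm h2.symm, hp]
  refine ⟨s * swap q (s q), swap q (s q) * swap q p, ?_, (dsw a1 a2).mul_right (dsw a1 a3),
    isThreeCycle_swap_mul_swap_same hq.symm h1 h2, by rw [← mul_assoc, mul_swap_mul_self, swap_comm], ?_⟩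
  · nth_rw 2 [mul_swap_eq_swap_mul]
    rw [e2, swap_comm (s q) q, ← mul_assoc, mul_swap_mul_self, hs]
  · rw [← card_support_swap hq.symm, ← (dsw a1 a2).card_support_mul, mul_swap_mul_self]

theorem perm_main (h5 : 5 ≤ Fintype.card Ω) (x : Perm Ω) (hx : sign x = 1) :
    ∃ A B : Perm Ω, sign A = 1 ∧ Good A ∧ A.cycleType = B.cycleType ∧ x = A * B := by
  obtain ⟨s, t, ⟨a1, a2, a3, a4, a5⟩, a6, a7⟩ := dec x
  rw [if_pos hx, add_zero] at a7
  obtain ⟨N, b1, b2, b3⟩ := ctype a1
  rcases Nat.even_or_odd N with e | e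
  · by_cases h : N = 0
    · obtain ⟨A, hA⟩ := (exists_with_cycleType_iff Ω (m := {2, 2})).2 ⟨by simp; omega, by simp⟩
      rw [b1, h] at a7
      rw [h] at b1
      refine ⟨A, A⁻¹, by rw [sign_of_cycleType, hA]; rfl, mul_one A ▸ good ?_ (by rw [← sum_cycleType, hA]; decide)
        (disjoint_one_right _), (cycleType_inv _).symm, ?_⟩
      · rw [← sq, ← pow_orderOf_eq_one A, ← lcm_cycleType, hA]; rfl
      · rw [a3, card_support_eq_zero.1 a7, card_support_eq_zero.1 b1]; simp
    · exact ⟨s, t, by rw [b3, e.neg_one_pow], mul_one s ▸ good a1 (by obtain ⟨k, rfl⟩ := e; omega)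
        (disjoint_one_right _), ctype2 a1 a2 a7, a3⟩
  rw [e.neg_one_pow] at b3
  have hne : s.support ≠ t.support := fun k => by
    obtain ⟨p, h1, h2⟩ := a6 fun k => by
      rw [k, support_one, Finset.subset_empty, support_eq_empty_iff] at a4
      simp [a4] at b3
    have : s p = p ↔ t p = p := by rw [← notMem_support, ← notMem_support, k]
    exact h1 (by rw [a3, mul_apply, h2.elim this.1 id, h2.elim id this.2])
  obtain ⟨q, q1, q2⟩ := Finset.not_subset.1 fun k => hne (Finset.eq_of_subset_of_card_le k a7.le)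
  obtain ⟨p, p1, p2⟩ := Finset.not_subset.1 fun k => hne (Finset.eq_of_subset_of_card_le k a7.ge).symm
  have hpq : p ≠ q := fun k => p2 (k ▸ q1)
  by_cases h : N = 1
  · subst h
    by_cases k : s.Disjoint t
    · obtain ⟨a, b, ab, rfl⟩ := card_support_eq_two.1 b1
      obtain ⟨c, d, cd, rfl⟩ := card_support_eq_two.1 (a7.trans b1)
      rw [disjoint_iff_disjoint_support, support_swap ab, support_swap cd] at k
      simp only [Finset.disjoint_insert_left, Finset.mem_insert, Finset.mem_singleton, not_or,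
        Finset.disjoint_singleton_left] at k
      obtain ⟨⟨ac, ad⟩, bc, bd⟩ := k
      have d1 : (swap a c).Disjoint (swap b d) :=
        dsw (swap_apply_of_ne_of_ne ab.symm bc) (swap_apply_of_ne_of_ne (Ne.symm ad) cd.symm)
      have d2 : (swap a d).Disjoint (swap b c) :=
        dsw (swap_apply_of_ne_of_ne ab.symm bd) (swap_apply_of_ne_of_ne (Ne.symm ac) cd)
      have i1 := inv2 (swap_mul_self _ _) (swap_mul_self _ _) d1
      have c1 := d1.card_support_mul
      have c2 := d2.card_support_mul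
      rw [card_support_swap ac, card_support_swap bd] at c1
      rw [card_support_swap ad, card_support_swap bc] at c2
      refine ⟨swap a c * swap b d, swap a d * swap b c, by simp [sign_swap ac, sign_swap bd],
        mul_one (swap a c * swap b d) ▸ good i1 (by omega) (disjoint_one_right _),
        ctype2 i1 (inv2 (swap_mul_self _ _) (swap_mul_self _ _) d2) (by omega), ?_⟩
      rw [a3]
      ext y
      simp only [mul_apply, swap_apply_def]
      grind
    · rw [disjoint_iff_disjoint_support, Finset.not_disjoint_iff_nonempty_inter, ← Finset.card_pos] at k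
      have c1 := Finset.card_union_add_card_inter s.support t.support
      obtain ⟨u, hu, v, hv, uv⟩ := Finset.one_lt_card.1
        (show 1 < (s.support ∪ t.support)ᶜ.card by rw [Finset.card_compl]; omega)
      simp only [Finset.mem_compl, Finset.mem_union, not_or, notMem_support] at hu hv
      have d1 := dsw hu.1 hv.1
      have d2 := (dsw hu.2 hv.2).symm
      have i1 := inv2 a1 (swap_mul_self _ _) d1
      have c1 := d1.card_support_mul
      have c2 := d2.card_support_mul
      rw [card_support_swap uv] at c1 c2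
      exact ⟨s * swap u v, swap u v * t, by simp [b3, sign_swap uv],
        mul_one (s * swap u v) ▸ good i1 (by omega) (disjoint_one_right _),
        ctype2 i1 (inv2 (swap_mul_self _ _) a2 d2) (by omega), by rw [← mul_assoc, mul_swap_mul_self, a3]⟩
  obtain ⟨r, u, c1, c2, c3, c4, c5⟩ := tri a1 (notMem_support.1 p2) (mem_support.1 q1)
  obtain ⟨r', u', d1, d2, d3, d4, d5⟩ := tri a2 (notMem_support.1 q2) (mem_support.1 p1)
  refine ⟨s * swap p q, swap p q * t, by simp [b3, sign_swap hpq], c4 ▸ good c1 (by obtain ⟨k, rfl⟩ := e; omega) c2, ?_,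
    by rw [← mul_assoc, mul_swap_mul_self, a3]⟩
  rw [← cycleType_inv (swap p q * t), mul_inv_rev, swap_inv, inv_eq_of_mul_eq_one_right a2, c4, swap_comm, d4,
    c2.cycleType_mul, d2.cycleType_mul, c3.cycleType, d3.cycleType, ctype2 c1 d1 (by omega)]

variable {Γ : Type*} [Group Γ] (f : Γ →* Perm Ω) (hr : f.range = alternatingGroup Ω) (hc : f.ker ≤ center Γ)
  (h2 : ∀ z ∈ f.ker, z * z = 1)
include hc h2

theorem comm3 {c r : Γ} (h : (f r).IsThreeCycle) (e : Commute (f c) (f r)) : Commute c r := by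
  have k : c * r * c⁻¹ * r⁻¹ ∈ f.ker := by
    rw [MonoidHom.mem_ker, map_mul, map_mul, map_mul, e.eq, map_inv, map_inv]; group
  have k3 : r ^ 3 ∈ f.ker := by rw [MonoidHom.mem_ker, map_pow, ← h.orderOf, pow_orderOf_eq_one]
  have e1 : (c * r * c⁻¹ * r⁻¹ * r) ^ 3 = r ^ 3 := by
    rw [inv_mul_cancel_right, conj_pow, mem_center_iff.1 (hc k3), mul_inv_cancel_right]
  rw [Commute.mul_pow (mem_center_iff.1 (hc k) r).symm, mul_eq_right, pow_three, h2 _ k, mul_one] at e1
  exact commutatorElement_eq_one_iff_commute.1 e1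

include hr

theorem commD {c r : Γ} (e : (f r).Disjoint (f c)) : Commute c r := by
  obtain ⟨t, ht⟩ := (Perm.mem_range_ofSubtype_iff (p := (· ∈ (f c).supportᶜ)) (g := f r)).2 fun x hx =>
    Finset.mem_compl.2 (Finset.disjoint_left.1 (disjoint_iff_disjoint_support.1 e) hx)
  have h1 : t ∈ closure {σ : Perm {x // x ∈ (f c).supportᶜ} | σ.IsThreeCycle} := by
    rw [closure_three_cycles_eq_alternating, mem_alternatingGroup, ← sign_ofSubtype, ht]
    exact hr.le ⟨r, rfl⟩
  clear e
  induction h1 using closure_induction generalizing r with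
  | mem t h =>
    refine comm3 f hc h2 (by rw [← ht, IsThreeCycle, cycleType_ofSubtype]; exact h) (Disjoint.commute fun x => ?_)
    by_cases k : x ∈ (f c).supportᶜ
    · exact .inl (notMem_support.1 (Finset.mem_compl.1 k))
    · exact .inr (ht ▸ ofSubtype_apply_of_not_mem _ k)
  | one => exact mem_center_iff.1 (hc (by rw [MonoidHom.mem_ker, ← ht, map_one])) c
  | mul t u h _ i1 i2 =>
    rw [closure_three_cycles_eq_alternating] at h
    obtain ⟨a, ha⟩ := hr.ge (show ofSubtype t ∈ alternatingGroup Ω by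
      rw [mem_alternatingGroup, sign_ofSubtype]; exact h)
    rw [← mul_inv_cancel_left a r]
    exact (i1 ha.symm).mul_right (i2 (by rw [map_mul, map_inv, ha, ← ht, map_mul, inv_mul_cancel_left]))
  | inv t _ i => simpa using (i (r := r⁻¹) (by rw [map_inv, ← ht, map_inv, inv_inv])).inv_right

theorem sq_ne (hd : commutator Γ = ⊤) {z : Γ} (hz : z ∈ f.ker) (hz1 : z ≠ 1)
    {α β : Ω} {p : ℕ → Ω} {k : ℕ} (P : Pts α β p k) (all : ∀ t, t ≠ α → t ≠ β → ∃ i < k, p i = t)
    {g : Γ} (hg : (f g).cycleType = {2, 2}) : g * g ≠ 1 := fun h => by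
  have key : ∀ w, (f w).cycleType = {2, 2} → w * w = 1 := fun w hw => by
    obtain ⟨σ, hσ⟩ := isConj_iff.1 (H23.isConj_alt (g := ⟨f g, hr.le ⟨g, rfl⟩⟩) (h := ⟨f w, hr.le ⟨w, rfl⟩⟩)
      (isConj_iff_cycleType_eq.2 (hg.trans hw.symm)) fun k =>
        absurd ((centralizer_le_alternating_iff.1 k).1 2 (by simp [hg])) (by decide))
    obtain ⟨b, hb⟩ := hr.ge σ.2
    have k : (b * g * b⁻¹)⁻¹ * w ∈ f.ker := by
      rw [MonoidHom.mem_ker, map_mul, map_inv, map_mul, map_mul, map_inv, hb, inv_mul_eq_one]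
      exact congrArg Subtype.val hσ
    rw [← mul_inv_cancel_left (b * g * b⁻¹) w, Commute.mul_mul_mul_comm (mem_center_iff.1 (hc k) _).symm, h2 _ k,
      mul_one, conj_mul, h, mul_one, mul_inv_cancel]
  have T : ∀ i < k, IsThreeCycle (cy α β (p i)) := fun i hi => H16.cy_three P.ab (P.a i hi) (P.b i hi)
  have ex : ∀ i < k, ∃ y, y ^ 3 = 1 ∧ f y = cy α β (p i) := fun i hi => by
    obtain ⟨w, hw⟩ := hr.ge (T i hi).mem_alternatingGroup
    have T3 : cy α β (p i) ^ 3 = 1 := by rw [← (T i hi).orderOf, pow_orderOf_eq_one]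
    have := h2 (w ^ 3) (by rw [MonoidHom.mem_ker, map_pow, hw, T3])
    refine ⟨w ^ 4, ?_, by rw [map_pow, hw, pow_succ, T3, one_mul]⟩
    rw [show (w ^ 4) ^ 3 = (w ^ 3 * w ^ 3) ^ 2 by group, this, one_pow]
  choose! y hy hf using ex
  have hC : Car y k := by
    refine ⟨fun i hi => by rw [inv_eq_iff_mul_eq_one, ← pow_three, hy i hi], fun i hi j hj h => ?_⟩
    rw [eq_inv_iff_mul_eq_one, mul_assoc]
    refine key _ ?_
    rw [map_mul, hf i hi, hf j hj]
    have a1 := P.ab; have a2 := P.a i hi; have a3 := P.a j hj; have a4 := P.b i hi; have a5 := P.b j hj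
    have a6 : p i ≠ p j := fun e => h (P.inj i hi j hj e)
    have d : (swap α (p j)).Disjoint (swap β (p i)) :=
      dsw (swap_apply_of_ne_of_ne a1.symm a5.symm) (swap_apply_of_ne_of_ne a2 a6)
    have : cy α β (p i) * cy α β (p j) = swap α (p j) * swap β (p i) := by
      ext y
      simp only [cy, mul_apply, swap_apply_def]
      grind
    rw [this, d.cycleType_mul, (isSwap_iff_cycleType.1 (swap_isSwap_iff.2 a3.symm)),
      (isSwap_iff_cycleType.1 (swap_isSwap_iff.2 a4.symm))]
    rfl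
  refine hz1 (hC.inj P f hf ((H16.commutator_le_of_central hc fun g => ?_) (hd.ge trivial)) hz)
  have : f g ∈ (W y k).map f := by
    rw [map_W f hf]
    exact mem_W_cy P (mem_alternatingGroup.1 (hr.le ⟨g, rfl⟩)) fun t h1 h2 h3 =>
      let ⟨i, hi, e⟩ := all t h1 h2; absurd e (h3 i hi)
  obtain ⟨w, hw, e⟩ := this
  exact ⟨w, hw, by simp [MonoidHom.mem_ker, e]⟩

theorem main (h5 : 5 ≤ Fintype.card Ω) {z : Γ} (hz : ∀ w ∈ f.ker, w ≠ 1 → w = z)
    (hs : ∀ g, (f g).cycleType = {2, 2} → g * g ≠ 1) (g : Γ) : ∃ a b : Γ, a * b * a⁻¹ * b⁻¹ = g := by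
  obtain ⟨A, B, h1, ⟨i, k, a1, a2, a3, a4, a5, a6⟩, h3, h4⟩ := perm_main h5 (f g) (hr.le ⟨g, rfl⟩)
  have a7 : A k ≠ i := fun e => a6 (by rw [← e, a4])
  have a8 : A k ≠ A i := A.injective.ne a5
  obtain ⟨σ, h5, h6⟩ : ∃ σ, sign σ = 1 ∧ σ * A⁻¹ * σ⁻¹ = B := by
    obtain ⟨σ, e⟩ := isConj_iff.1 (isConj_iff_cycleType_eq.2 ((cycleType_inv A).trans h3))
    rcases Int.units_eq_one_or (sign σ) with k | k
    · exact ⟨σ, k, e⟩
    · have : Commute (swap i (A i)) A := by
        rw [Commute, SemiconjBy, mul_swap_eq_swap_mul, a2, swap_comm]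
      refine ⟨σ * swap i (A i), by simp [k, sign_swap a1.symm], ?_⟩
      rw [mul_assoc σ, this.inv_right.eq, mul_inv_rev, ← e]; group
  obtain ⟨a, rfl⟩ := hr.ge (mem_alternatingGroup.2 h1)
  obtain ⟨b, rfl⟩ := hr.ge (mem_alternatingGroup.2 h5)
  have k1 : (a * b * a⁻¹ * b⁻¹)⁻¹ * g ∈ f.ker := by
    rw [MonoidHom.mem_ker, map_mul, h4, ← h6]; simp [mul_assoc]
  by_cases k2 : (a * b * a⁻¹ * b⁻¹)⁻¹ * g = 1
  · exact ⟨a, b, inv_mul_eq_one.1 k2⟩
  generalize hj : f a i = j at *
  generalize hl : f a k = l at *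
  have dt : ∀ {i j k l : Ω}, i ≠ j → k ≠ l → k ≠ i → k ≠ j → l ≠ i → l ≠ j →
      (swap i j * swap k l).cycleType = {2, 2} := fun h1 h2 h3 h4 h5 h6 => by
    rw [(dsw (swap_apply_of_ne_of_ne h3 h4) (swap_apply_of_ne_of_ne h5 h6)).cycleType_mul,
      (isSwap_iff_cycleType.1 (swap_isSwap_iff.2 h1)), (isSwap_iff_cycleType.1 (swap_isSwap_iff.2 h2))]
    rfl
  obtain ⟨u, hu⟩ := hr.ge (show swap i j * swap k l ∈ alternatingGroup Ω by
    simp [mem_alternatingGroup, sign_swap a1.symm, sign_swap a3.symm])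
  obtain ⟨c, hc'⟩ := hr.ge (show swap i k * swap j l ∈ alternatingGroup Ω by
    simp [mem_alternatingGroup, sign_swap a5.symm, sign_swap a8.symm])
  have u2 : f u * f u = 1 := hu ▸ inv2 (swap_mul_self _ _) (swap_mul_self _ _)
    (dsw (swap_apply_of_ne_of_ne a5 a6) (swap_apply_of_ne_of_ne a7 a8))
  have c2 : f c * f c = 1 := hc' ▸ inv2 (swap_mul_self _ _) (swap_mul_self _ _)
    (dsw (swap_apply_of_ne_of_ne a1 a6.symm) (swap_apply_of_ne_of_ne a7 a3))
  have m1 : Commute c (u * a) := commD f hr hc h2 (by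
    rw [map_mul, hu, hc']
    refine (dsw ?_ ?_).mul_right (dsw ?_ ?_) <;>
      simp [hj, hl, a2, a4, swap_apply_of_ne_of_ne, a5, a6, a7, a8, a5.symm, a6.symm, a7.symm, a8.symm])
  have e1 : f c * f u = swap i l * swap j k := by
    rw [hu, hc']
    ext y
    simp only [mul_apply, swap_apply_def]
    grind
  have e2 : f u * f c = swap i l * swap j k := by
    rw [hu, hc']
    ext y
    simp only [mul_apply, swap_apply_def]
    grind
  have m2 : ¬ Commute c a := fun h => by
    have h' : Commute c u := by simpa using m1.mul_right h.inv_right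
    refine hs (c * u) (by rw [map_mul, e1]; exact dt a7.symm a6.symm a1 a8.symm a5 a3.symm) ?_
    have k := (map_mul f c c).trans c2
    rw [h'.symm.mul_mul_mul_comm, hz _ ((map_mul f u u).trans u2) (hs u (hu ▸ dt a1.symm a3.symm a5 a6 a7 a8)),
      ← hz _ k (hs c (hc' ▸ dt a5.symm a8.symm a1 a6.symm a7 a3)), h2 _ k]
  have k3 : a * (c * a⁻¹ * c⁻¹) ∈ f.ker := by
    have : Commute (f c) (f a) := by
      have := (Commute.inv_right (e1.trans e2.symm)).mul_right (m1.map f)
      simpa using this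
    rw [MonoidHom.mem_ker, map_mul, map_mul, map_mul, map_inv, map_inv, this.inv_right.eq]; group
  have k4 := (hz _ k3 fun e => m2 (by
    rw [← mul_assoc, ← mul_assoc] at e; exact (commutatorElement_eq_one_iff_commute.1 e).symm)).trans (hz _ k1 k2).symm
  refine ⟨a, b * c, ?_⟩
  calc a * (b * c) * a⁻¹ * (b * c)⁻¹ = a * b * a⁻¹ * ((a * (c * a⁻¹ * c⁻¹)) * b⁻¹) := by group
    _ = a * b * a⁻¹ * (b⁻¹ * (a * (c * a⁻¹ * c⁻¹))) := by rw [mem_center_iff.1 (hc k3)]
    _ = g := by rw [k4]; group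

end


/-- Let n ≥ 5 and let G be a finite perfect group whose centre has order 2 with G/Z(G) isomorphic to the alternating group of degree n (the double cover of the alternating group). Then every element of G is a commutator. -/
theorem result {G : Type*} [Group G] [Finite G] (hperf : commutator G = ⊤) {n : ℕ} (hn : 5 ≤ n)
    (hZ : Nat.card (Subgroup.center G) = 2) (e : G ⧸ Subgroup.center G ≃* alternatingGroup (Fin n))
    (g : G) :
    ∃ a b : G, a * b * a⁻¹ * b⁻¹ = g := by
  let f : G →* Equiv.Perm (Fin n) :=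
    (alternatingGroup (Fin n)).subtype.comp (e.toMonoidHom.comp (QuotientGroup.mk' (Subgroup.center G)))
  have hk : f.ker = Subgroup.center G := by ext x; simp [f, MonoidHom.mem_ker]
  have hr : f.range = alternatingGroup (Fin n) := by
    rw [MonoidHom.range_comp, MonoidHom.range_eq_top.2 (e.surjective.comp (QuotientGroup.mk'_surjective _)),
      ← MonoidHom.range_eq_map, Subgroup.range_subtype]
  rw [← hk] at hZ
  have h2 : ∀ z ∈ f.ker, z * z = 1 := fun z hz => by
    rw [← sq, ← hZ]; exact congrArg Subtype.val (pow_card_eq_one' (x := (⟨z, hz⟩ : f.ker)))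
  obtain ⟨z, hz, hz'⟩ := (Nat.card_eq_two_iff' (1 : f.ker)).1 hZ
  obtain ⟨k, rfl⟩ : ∃ k, n = k + 2 := ⟨n - 2, by omega⟩
  obtain ⟨α, β, p, P, all⟩ := H11.pts_fin k
  exact main f hr hk.le h2 (by simpa using hn) (z := z)
    (fun w hw h => congrArg Subtype.val (hz' ⟨w, hw⟩ fun e => h (congrArg Subtype.val e)))
    (fun g hg => sq_ne f hr hk.le h2 hperf z.2 (fun e => hz (Subtype.ext e)) P all hg) g

end Cfsg.Agent.S2493
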