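import Cfsg.Statements.S2495
import Cfsg.Agent.H11.Spec2
import Cfsg.Agent.H26.Zsig

set_option autoImplicit false
open Cfsg

namespace Cfsg.Agent.S2495

/-- Let q be an odd prime power, n ≥ 4 even, and L = PSL(n,q). Then L has an element of order q^(n/2) + 1 if and only if the 2-part of n exceeds the 2-part of q − 1. -/
theorem result {F : Type*} [Field F] [Fintype F] {q : ℕ} (hF : Fintype.card F = q) (hodd : Odd q)
    {n : ℕ} (hn : 4 ≤ n) (heven : Even n) :
    (∃ g : Matrix.ProjectiveSpecialLinearGroup (Fin n) F, orderOf g = q ^ (n / 2) + 1) ↔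
      padicValNat 2 (q - 1) < padicValNat 2 n := by
  obtain ⟨p, _⟩ := CharP.exists F
  have := Fact.mk (CharP.char_is_prime F p)
  obtain ⟨m, rfl⟩ := heven.two_dvd
  subst hF
  obtain ⟨r, hr, h⟩ := H26.zsigmondy_orderOf (n := 2 * m) (Fintype.one_lt_card (α := F)) (by omega)
    (by grind) (by omega)
  have h1 := H11.lu_psl (F := F) (ι := Fin (2 * m)) p
  rw [Fintype.card_fin] at h1
  exact h1.half (H11.char_dvd_card p) (by simpa) (by omega) (by
    simp [abs_of_nonneg (by positivity : (0 : ℤ) ≤ Fintype.card F ^ m + 1)])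
    (by rw [H11.cast_card_pred, abs_of_nonneg (by simp; exact Fintype.card_pos)]) hr (by simpa)

end Cfsg.Agent.S2495
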