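import Cfsg.Statements.S2496
import Cfsg.Agent.H11.Spec2
import Cfsg.Agent.H26.Zsig

set_option autoImplicit false
open Cfsg

namespace Cfsg.Agent.S2496

/-- Let q be an odd prime power, n ≥ 4 even, and U = PSU(n,q) (realised over the field with q² elements). Then U has an element of order q^(n/2) + (−1)^(n/2) — that is, q^(n/2) + 1 when n/2 is even and q^(n/2) − 1 when n/2 is odd — if and only if the 2-part of n exceeds the 2-part of q + 1. -/
theorem result {F : Type*} [Field F] [Fintype F] {q : ℕ} (hF : Fintype.card F = q ^ 2) (hodd : Odd q)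
    {n : ℕ} (hn : 4 ≤ n) (heven : Even n) :
    (∃ g : Cfsg.PSU n F q, orderOf g = if Even (n / 2) then q ^ (n / 2) + 1 else q ^ (n / 2) - 1) ↔
      padicValNat 2 (q + 1) < padicValNat 2 n := by
  obtain ⟨p, _⟩ := CharP.exists F
  have := Fact.mk (CharP.char_is_prime F p)
  obtain ⟨m, rfl⟩ := heven.two_dvd
  have hq := H11.two_le_of_card_sq (Nat.card_eq_fintype_card.trans hF)
  have h0 := Nat.one_le_pow m q (by omega)
  obtain ⟨r, hr, h⟩ : ∃ r : ℕ, r.Prime ∧ orderOf ((-(q : ℤ) : ℤ) : ZMod r) = 2 * m := by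
    rcases m.even_or_odd with hm | hm
    · obtain ⟨r, hr, h⟩ := H26.zsigmondy_orderOf (n := 2 * m) hq (by omega) (by grind) (by omega)
      obtain ⟨k, rfl⟩ := hm.two_dvd
      refine ⟨r, hr, ?_⟩
      have h1 := orderOf_pow_of_dvd (x := (q : ZMod r)) two_ne_zero (h ▸ dvd_mul_right _ _)
      have h2 := orderOf_pow' (x := -(q : ZMod r)) two_ne_zero
      rw [neg_sq, h1, h] at h2
      push_cast
      have := Nat.div_mul_cancel (Nat.gcd_dvd_left (orderOf (-(q : ZMod r))) 2)
      rcases (Nat.dvd_prime Nat.prime_two).1 (Nat.gcd_dvd_right (orderOf (-(q : ZMod r))) 2) with h | h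
      · have := Nat.coprime_two_right.1 h
        grind
      · grind
    · obtain ⟨r, hr, h⟩ := H26.zsigmondy_orderOf (n := m) hq (by omega) (by grind) (by grind)
      have := Fact.mk hr
      have := Fact.mk (hr.two_le.lt_of_ne (by
        rintro rfl; have := h ▸ ZMod.orderOf_dvd_card_sub_one (a := (q : ZMod 2)) (by
          rintro h'; simp [h'] at h; omega); simp at this; omega))
      refine ⟨r, hr, ?_⟩
      push_cast
      rw [← neg_one_mul, (Commute.all _ _).orderOf_mul_eq_mul_orderOf_of_coprime (by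
        simpa [h, orderOf_neg_one, ringChar.eq (ZMod r) r, this.out.ne']), h]
      simp [orderOf_neg_one, ringChar.eq (ZMod r) r, this.out.ne']
  refine (H11.lu_psu hF _ p (by omega)).half (H11.char_dvd_q p hF) (by simpa) (by omega) ?_
    (by rw [← neg_add', abs_neg, abs_of_nonneg (by positivity)]; simp) hr h
  rw [Nat.mul_div_cancel_left _ two_pos]
  split_ifs with h
  · rw [h.neg_pow, abs_of_nonneg (by positivity)]; simp
  · rw [(Nat.not_even_iff_odd.1 h).neg_pow, ← abs_neg, abs_of_nonneg (by simpa using by exact_mod_cast h0)]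
    simp [h0, sub_eq_neg_add]

end Cfsg.Agent.S2496
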