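import Cfsg.Statements.S2497
import Cfsg.Agent.H13.CitJ
import Cfsg.Agent.S0254

set_option autoImplicit false
open Cfsg

namespace Cfsg.Agent.S2497

/-- Let G be a finite non-abelian simple group in which every non-identity element has prime-power order. Then G is isomorphic to one of: the alternating group of degree 6, PSL(2,q) for q ∈ {4, 7, 8, 17}, PSL(3,4), or the Suzuki group over the field with 8 or with 32 elements. -/
theorem result {G : Type*} [Group G] [Finite G] [IsSimpleGroup G] (hG : ¬ IsMulCommutative G)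
    (h : ∀ g : G, g ≠ 1 → IsPrimePow (orderOf g)) :
    Nonempty (G ≃* alternatingGroup (Fin 6)) ∨
    (∃ (F : Type) (_ : Field F) (_ : Fintype F), Fintype.card F ∈ ({4, 7, 8, 17} : Finset ℕ) ∧
      Nonempty (G ≃* Matrix.ProjectiveSpecialLinearGroup (Fin 2) F)) ∨
    (∃ (F : Type) (_ : Field F) (_ : Fintype F), Fintype.card F = 4 ∧
      Nonempty (G ≃* Matrix.ProjectiveSpecialLinearGroup (Fin 3) F)) ∨
    (∃ (F : Type) (_ : Field F) (_ : Fintype F),
      (Fintype.card F = 8 ∧ Nonempty (G ≃* ↥(Cfsg.Lie.Sz F 4))) ∨ (Fintype.card F = 32 ∧ Nonempty (G ≃* ↥(Cfsg.Lie.Sz F 8)))) := by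
  have hs := H13.not_solv_of_simple (G := G) (by
    by_contra! c; exact hG ⟨⟨c⟩⟩)
  have h' : ∀ n, Odd n → n ≠ 1 → H13.Sp G n → IsPrimePow n := fun n _ h1 hn => H13.eppo_sp h hn h1
  obtain (⟨F, _, _, ⟨k, hk, hF⟩, ⟨e⟩⟩ | ⟨F, _, _, m, hm, hF, ⟨e⟩⟩) | hf | hl := (H13.cit_of_eppo h).classify_simple hs
  · obtain rfl | rfl := H13.eppo_psl_even h' hk hF e <;> exact Or.inr (Or.inl ⟨F, inferInstance, inferInstance, by simp [hF], ⟨e⟩⟩)
  · obtain rfl | rfl := H13.eppo_sz h' hm hF e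
    exacts [Or.inr (Or.inr (Or.inr ⟨F, _, _, Or.inl ⟨hF, ⟨e⟩⟩⟩)), Or.inr (Or.inr (Or.inr ⟨F, _, _, Or.inr ⟨hF, ⟨e⟩⟩⟩))]
  · obtain ⟨F, _, _, hF | hF | hF, ⟨e⟩⟩ := hf.eppo h'
    exacts [Or.inr (Or.inl ⟨F, inferInstance, inferInstance, by simp [hF], ⟨e⟩⟩), Or.inl ((S0254.result hF).map e.trans),
      Or.inr (Or.inl ⟨F, inferInstance, inferInstance, by simp [hF], ⟨e⟩⟩)]
  · exact Or.inr (Or.inr (Or.inl hl))

end Cfsg.Agent.S2497
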