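import Cfsg.Statements.S2503
import Cfsg.Agent.H9.L2

set_option autoImplicit false
open Cfsg

namespace Cfsg.Agent.S2503

open H24 Subgroup
open scoped MatrixGroups

/-- Let F be a finite field with q = 2^t ≥ 4 elements and L = PSL(2,F). Then L has a cyclic subgroup A of order q + 1 and an elementary abelian 2-subgroup B of order q such that L = ABA: every element of L is a product a·b·a' with a, a' ∈ A and b ∈ B. -/
theorem result {F : Type*} [Field F] [Fintype F]
    (h2 : 2 ∣ Fintype.card F) (h4 : 4 ≤ Fintype.card F) :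
    ∃ A B : Subgroup (Matrix.ProjectiveSpecialLinearGroup (Fin 2) F),
      IsCyclic A ∧ Nat.card A = Fintype.card F + 1 ∧ IsMulCommutative B ∧ (∀ b ∈ B, b * b = 1) ∧
        Nat.card B = Fintype.card F ∧
        ∀ g : Matrix.ProjectiveSpecialLinearGroup (Fin 2) F, ∃ a ∈ A, ∃ b ∈ B, ∃ c ∈ A, g = a * b * c := by
  have two : (2 : F) = 0 := by
    by_contra h
    exact (odd_of_two_ne_zero h).not_two_dvd_nat h2
  have inj : Function.Injective (H10.π F) := (injective_iff_map_eq_one _).2 fun g hg =>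
    ((H10.π_eq_one_iff g).1 hg).elim id fun e => e.trans (Subtype.ext (by
      ext i j
      simp only [Matrix.SpecialLinearGroup.coe_neg, Matrix.neg_apply]
      linear_combination (-((1 : SL(2, F)).1 i j)) * two))
  obtain ⟨c, hc, -⟩ := H10.exists_ell_SL2 (F := F)
  generalize ht : (c : M2 F).trace = t at *
  have hw : Ell (compSL t : M2 F) := hc.of_trace_det (ht.trans (trace_comp t 1).symm) (c.2.trans (compSL t).2.symm)
  let f : Multiplicative F →* SL(2, F) := MonoidHom.mk' (fun x => upSL 1 x.toAdd (by simp)) fun x y =>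
    Subtype.ext (by rw [coe_mul_SL]; simp [upSL, add_comm])
  have fi : Function.Injective f := fun x y e => congrFun (congrFun (congrArg Subtype.val e) 0) 1
  have := isCyclic_cent_SL_ell hw
  refine ⟨(C2 (compSL t)).map (H10.π F), ((H10.π F).comp f).range,
    isCyclic_of_surjective _ ((H10.π F).subgroupMap_surjective _),
    by rw [card_map_of_injective inj, card_cent_SL_ell hw], inferInstance, ?_, ?_, fun g => ?_⟩
  · rintro _ ⟨x, rfl⟩
    rw [← map_mul, show x * x = 1 from Multiplicative.toAdd.injective (by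
      rw [toAdd_mul, toAdd_one]; linear_combination x.toAdd * two), map_one]
  · rw [← Nat.card_congr (MonoidHom.ofInjective (f := (H10.π F).comp f) (inj.comp fi)).toEquiv]; simp
  obtain ⟨g, rfl⟩ := H10.π_surjective g
  have mk : ∀ x y : F, x ^ 2 + t * x * y + y ^ 2 = 1 → ∃ a ∈ C2 (compSL t),
      (a : M2 F) = !![x, -y; y, x + t * y] := fun x y h =>
    ⟨⟨!![x, -y; y, x + t * y], by simp; linear_combination h⟩, mem_cent_SL.2 (by
      simp [compSL, H24.comp]; ring_nf; simp), rfl⟩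
  have d := g.2
  rw [Matrix.det_fin_two] at d
  obtain ⟨x, y, h1, h3⟩ : ∃ x y : F, x ^ 2 + t * x * y + y ^ 2 = 1 ∧
      (g.1 0 0 * x + g.1 0 1 * y) ^ 2 + t * (g.1 0 0 * x + g.1 0 1 * y) * (g.1 1 0 * x + g.1 1 1 * y) +
        (g.1 1 0 * x + g.1 1 1 * y) ^ 2 = 1 := by
    obtain ⟨α, hα⟩ := isSquare_of_two_eq_zero two (g.1 0 0 ^ 2 + t * g.1 0 0 * g.1 1 0 + g.1 1 0 ^ 2 + 1)
    obtain ⟨β, hβ⟩ := isSquare_of_two_eq_zero two (g.1 0 1 ^ 2 + t * g.1 0 1 * g.1 1 1 + g.1 1 1 ^ 2 + 1)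
    by_cases a0 : α = 0
    · exact ⟨1, 0, by simp, by grind⟩
    · have := hw.det_lin_ne_zero (x := β) (y := α) (.inr a0)
      rw [show (compSL t : M2 F).trace = t from trace_comp t 1, (compSL t).2] at this
      obtain ⟨r, hr⟩ := isSquare_of_two_eq_zero two (β ^ 2 + t * β * α + 1 * α ^ 2)
      have r0 : r ≠ 0 := by rintro rfl; exact this (by simpa using hr)
      obtain ⟨s, hs⟩ : ∃ s, s * r = 1 := ⟨r⁻¹, inv_mul_cancel₀ r0⟩
      exact ⟨s * β, s * α, by grind, by grind⟩
  obtain ⟨a, a1, a2⟩ := mk _ _ h3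
  obtain ⟨b, b1, b2⟩ := mk _ _ h1
  refine ⟨_, mem_map_of_mem _ a1, H10.π F (a⁻¹ * g * b), ⟨Multiplicative.ofAdd ((a⁻¹ * g * b).1 0 1),
    congrArg (H10.π F) (Subtype.ext ?_)⟩, _, mem_map_of_mem _ (inv_mem b1), by simp [mul_assoc]⟩
  have e := (a⁻¹ * g * b).2
  have e0 : (a⁻¹ * g * b).1 0 0 = 1 := by
    rw [coe_mul_SL, coe_mul_SL, coe_inv_SL, a2, b2]
    simp [Matrix.mul_apply, Matrix.trace_fin_two]; grind
  have e1 : (a⁻¹ * g * b).1 1 0 = 0 := by
    rw [coe_mul_SL, coe_mul_SL, coe_inv_SL, a2, b2]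
    simp [Matrix.mul_apply, Matrix.trace_fin_two]; grind
  rw [Matrix.det_fin_two, e0, e1] at e
  generalize a⁻¹ * g * b = k at e e0 e1
  change !![1, k.1 0 1; 0, 1] = k.1
  ext i j; fin_cases i <;> fin_cases j <;> simp [e0, e1]
  simpa using e.symm

end Cfsg.Agent.S2503
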