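import Cfsg.Statements.S2504
import Cfsg.Agent.H2.AbPerm

set_option autoImplicit false
open Cfsg

open H2.AP

namespace Cfsg.Agent.S2504

/-- The largest order of an abelian subgroup of the alternating group of degree n is 3^k when n = 3k, 4·3^(k−1) when n = 3k + 1, and 16·3^(k−2) when n = 3k + 2, for every k ≥ 2 (so for all degrees n ≥ 6). -/
theorem result (k : ℕ) (hk : 2 ≤ k) :
    IsGreatest {c : ℕ | ∃ A : Subgroup (alternatingGroup (Fin (3 * k))), IsMulCommutative A ∧ Nat.card A = c} (3 ^ k) ∧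
    IsGreatest {c : ℕ | ∃ A : Subgroup (alternatingGroup (Fin (3 * k + 1))), IsMulCommutative A ∧ Nat.card A = c}
      (4 * 3 ^ (k - 1)) ∧
    IsGreatest {c : ℕ | ∃ A : Subgroup (alternatingGroup (Fin (3 * k + 2))), IsMulCommutative A ∧ Nat.card A = c}
      (16 * 3 ^ (k - 2)) := by
  obtain ⟨k, rfl⟩ := Nat.exists_eq_add_of_le' hk
  have h : ∀ {n c}, Q True n c → g n = c → IsGreatest {c : ℕ | ∃ A : Subgroup (alternatingGroup (Fin n)),
      IsMulCommutative A ∧ Nat.card A = c} c := fun h e =>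
    ⟨h.alt, fun _ ⟨B, _, h⟩ => h ▸ e ▸ by simpa using le_g B⟩
  refine ⟨h (by simpa using Q0.three (k + 2)) ?_, h (Q4.three (k + 1)) ?_, h ((Q4.add Q4).three k) (g_three k 2)⟩
  · rw [pow_add, mul_comm (3 ^ k)]; exact g_three k 0
  · rw [show k + 2 - 1 = k + 1 from rfl, pow_succ', ← mul_assoc]; exact g_three k 1

end Cfsg.Agent.S2504
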