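import Cfsg.Statements.S2505
import Cfsg.Agent.H2.AbPerm

set_option autoImplicit false
open Cfsg

open H2.AP

namespace Cfsg.Agent.S2505

/-- The largest order of an abelian subgroup of the symmetric group of degree n is 3^k when n = 3k, 4·3^(k−1) when n = 3k + 1, and 2·3^k when n = 3k + 2, for every k ≥ 1. -/
theorem result (k : ℕ) (hk : 1 ≤ k) :
    IsGreatest {c : ℕ | ∃ A : Subgroup (Equiv.Perm (Fin (3 * k))), IsMulCommutative A ∧ Nat.card A = c} (3 ^ k) ∧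
    IsGreatest {c : ℕ | ∃ A : Subgroup (Equiv.Perm (Fin (3 * k + 1))), IsMulCommutative A ∧ Nat.card A = c}
      (4 * 3 ^ (k - 1)) ∧
    IsGreatest {c : ℕ | ∃ A : Subgroup (Equiv.Perm (Fin (3 * k + 2))), IsMulCommutative A ∧ Nat.card A = c}
      (2 * 3 ^ k) := by
  obtain ⟨k, rfl⟩ := Nat.exists_eq_add_of_le' hk
  have h : ∀ {n c}, Q False n c → f n = c → IsGreatest {c : ℕ | ∃ A : Subgroup (Equiv.Perm (Fin n)),
      IsMulCommutative A ∧ Nat.card A = c} c := fun ⟨A, h1, h2, _⟩ e =>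
    ⟨⟨A, h1, h2⟩, fun _ ⟨B, _, h⟩ => h ▸ e ▸ by simpa using le_f B⟩
  refine ⟨h (by simpa using Q0.three (k + 1)) ?_, h (Q4.three k) (f_three k 2), h (Q2.three _) (f_three _ 0)⟩
  rw [pow_succ']; exact f_three k 1

end Cfsg.Agent.S2505
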