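import Cfsg.Statements.S2506
import Cfsg.Agent.H23.Dec

set_option autoImplicit false
open scoped Pointwise
open Cfsg

namespace Cfsg.Agent.S2506

open H23 H18 Equiv Equiv.Perm Subgroup MulAction
open scoped Pointwise

section
open Multiset

def P (n : ℕ) (t : Multiset ℕ) : Prop := t.sum = n ∧ ∀ x ∈ t, x ≠ 0 ∧ x ≠ 2

def Mx (n : ℕ) (s : Multiset ℕ) : Prop := P n s ∧ ∀ t, P n t → t.prod ≤ s.prod

variable {n : ℕ} {s t : Multiset ℕ}

theorem exists_P (h : 3 ≤ s.sum) (h0 : ∀ x ∈ s, x ≠ 0) : ∃ t, P s.sum t ∧ s.prod < 2 * t.prod := by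
  induction hk : s.card using Nat.strong_induction_on generalizing s with
  | _ k ih =>
  by_cases e : 2 ∈ s
  · obtain ⟨s, rfl⟩ := exists_cons_of_mem e
    by_cases d : 2 ∈ s
    · obtain ⟨s, rfl⟩ := exists_cons_of_mem d
      simp only [sum_cons, prod_cons, card_cons, forall_mem_cons] at *
      simpa [← add_assoc, ← mul_assoc] using ih _ (by simp; omega) (s := 4 ::ₘ s) (by simp; omega) (by simpa using h0.2.2) rfl
    obtain ⟨a, ha⟩ := exists_mem_of_ne_zero (s := s) (by rintro rfl; simp at h)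
    obtain ⟨s, rfl⟩ := exists_cons_of_mem ha
    simp only [forall_mem_cons] at h0
    simp only [mem_cons, not_or] at d
    have := Multiset.prod_pos fun x hx => Nat.pos_of_ne_zero (h0.2.2 x hx)
    exact ⟨(a + 2) ::ₘ s, ⟨by simp; omega, forall_mem_cons.2 ⟨by omega, fun x hx => ⟨h0.2.2 x hx, fun f => d.2 (f ▸ hx)⟩⟩⟩,
      by simp; nlinarith⟩
  · have := Multiset.prod_pos fun x hx => Nat.pos_of_ne_zero (h0 x hx)
    exact ⟨s, ⟨rfl, fun x hx => ⟨h0 x hx, fun f => e (f ▸ hx)⟩⟩, by omega⟩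

theorem exists_Mx (h : 3 ≤ n) : ∃ s, Mx n s := by
  obtain ⟨s, a, b⟩ := Nat.sSup_mem (s := prod '' {t | P n t}) ⟨_, {n}, ⟨by simp, by simp; omega⟩, rfl⟩ ⟨n ^ n, by
    rintro _ ⟨t, a, rfl⟩
    refine (prod_le_pow_card t n fun x hx => a.1 ▸ le_sum_of_mem hx).trans (Nat.pow_le_pow_right (by omega) ?_)
    simpa [a.1] using card_nsmul_le_sum (s := t) (a := 1) fun x hx => Nat.pos_of_ne_zero (a.2 x hx).1⟩
  refine ⟨s, a, fun t c => b ▸ le_csSup ⟨n ^ n, ?_⟩ ⟨t, c, rfl⟩⟩
  rintro _ ⟨t, a, rfl⟩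
  refine (prod_le_pow_card t n fun x hx => a.1 ▸ le_sum_of_mem hx).trans (Nat.pow_le_pow_right (by omega) ?_)
  simpa [a.1] using card_nsmul_le_sum (s := t) (a := 1) fun x hx => Nat.pos_of_ne_zero (a.2 x hx).1

theorem Mx.imp (h : Mx n s) {u : Multiset ℕ} (v : Multiset ℕ) (h1 : u ≤ s) (h2 : P u.sum v) : v.prod ≤ u.prod := by
  obtain ⟨r, rfl⟩ := Multiset.le_iff_exists_add.1 h1
  have := h.2 (v + r) ⟨by simp [h2.1, ← h.1.1], fun x hx => (mem_add.1 hx).elim (h2.2 x) fun e => h.1.2 x (mem_add.2 (Or.inr e))⟩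
  rw [prod_add, prod_add] at this
  exact Nat.le_of_mul_le_mul_right this (Multiset.prod_pos fun x hx => Nat.pos_of_ne_zero (h.1.2 x (mem_add.2 (Or.inr hx))).1)

theorem Mx.cases (h : Mx n s) (h3 : 3 ≤ n) : s = {5} ∨ (∀ x ∈ s, x = 3 ∨ x = 4) ∧ s.count 4 ≤ 2 := by
  have a1 : ∀ x ∈ s, x ≤ 5 := fun x hx => by_contra fun e => by
    have := h.imp {3, x - 3} (singleton_le.2 hx) ⟨by simp; omega, by simp; omega⟩
    simp at this; omega
  have a2 : ∀ a ∈ s, ∀ b ∈ s.erase a, {a, b} ≤ s := fun a c b d => cons_erase c ▸ cons_le_cons _ (singleton_le.2 d)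
  have a3 : 1 ∉ s := fun e => by
    by_cases d : ∀ x ∈ s, x = 1
    · have f := eq_replicate_card.2 d
      have := h.imp {3} (u := replicate 3 1) (f ▸ (replicate_le_replicate _).2 (by simpa [← h.1.1, f ▸ sum_replicate _ 1] using h3))
        ⟨rfl, by simp⟩
      simp at this
    obtain ⟨x, d1, d2⟩ := not_forall₂ .. |>.1 d |>.imp fun _ => id
    have := h.1.2 x d1
    have := h.imp {x + 1} (a2 1 e x ((mem_erase_of_ne d2).2 d1)) ⟨by simp; omega, by simp; omega⟩
    simp at this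
  have a4 : ∀ x ∈ s, x = 3 ∨ x = 4 ∨ x = 5 := fun x hx => by
    have := a1 x hx
    have := h.1.2 x hx
    have : x ≠ 1 := fun e => a3 (e ▸ hx)
    omega
  by_cases e : 5 ∈ s
  · refine Or.inl (cons_erase e ▸ congrArg _ (eq_zero_of_forall_notMem fun x hx => ?_))
    rcases a4 x (mem_of_mem_erase hx) with rfl | rfl | rfl
    · exact absurd (h.imp {4, 4} (a2 5 e _ hx) ⟨rfl, by simp⟩) (by decide)
    · exact absurd (h.imp {3, 3, 3} (a2 5 e _ hx) ⟨rfl, by simp⟩) (by decide)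
    · exact absurd (h.imp {3, 3, 4} (a2 5 e _ hx) ⟨rfl, by simp⟩) (by decide)
  refine Or.inr ⟨fun x hx => (or_assoc.2 (a4 x hx)).resolve_right fun d => e (d ▸ hx), by_contra fun d => ?_⟩
  exact absurd (h.imp {3, 3, 3, 3} (le_count_iff_replicate_le.1 (not_le.1 d)) ⟨rfl, by simp⟩) (by decide)

theorem eq_rep (h : ∀ x ∈ s, x = 3 ∨ x = 4) : s = replicate (s.count 3) 3 + replicate (s.count 4) 4 := ext.2 fun a => by
  by_cases e : a = 3
  · simp [e, count_replicate]
  by_cases d : a = 4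
  · simp [d, count_replicate]
  simp [count_replicate, Ne.symm e, Ne.symm d, show a ∉ s from fun f => (h a f).elim e d]

theorem Mx.eq (h : Mx n s) (h' : Mx n t) (h3 : 3 ≤ n) (h5 : n ≠ 5) : s = t := by
  obtain ⟨a, b⟩ := (h.cases h3).resolve_left fun e => h5 (by simp [← h.1.1, e])
  obtain ⟨c, d⟩ := (h'.cases h3).resolve_left fun e => h5 (by simp [← h'.1.1, e])
  have e := h.1.1.trans h'.1.1.symm
  rw [eq_rep a, eq_rep c] at e ⊢
  simp only [sum_add, sum_replicate, smul_eq_mul] at e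
  rw [show s.count 3 = t.count 3 by omega, show s.count 4 = t.count 4 by omega]
end

def Ex (n m : ℕ) : Prop := ∃ H ≤ alternatingGroup (Fin n), IsMulCommutative H ∧ Nat.card H = m

theorem Ex.mul {a b x y : ℕ} (h : Ex a x) (h' : Ex b y) : Ex (a + b) (x * y) := by
  obtain ⟨H, a1, a2, rfl⟩ := h
  obtain ⟨K, b1, b2, rfl⟩ := h'
  haveI : IsMulCommutative (H.prod K) := .of_setLike_mul_comm fun _ c _ d =>
    Prod.ext (setLike_mul_comm (s := H) c.1 d.1) (setLike_mul_comm (s := K) c.2 d.2)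
  refine ⟨((H.prod K).map (sumCongrHom _ _)).map finSumFinEquiv.permCongrHom.toMonoidHom, ?_, inferInstance, ?_⟩
  · rintro _ ⟨_, ⟨g, c, rfl⟩, rfl⟩
    simp [mem_alternatingGroup.1 (a1 c.1), mem_alternatingGroup.1 (b1 c.2)]
  · rw [card_map_of_injective (MulEquiv.injective _), card_map_of_injective sumCongrHom_injective,
      Nat.card_congr (H.prodEquiv K).toEquiv, Nat.card_prod]

theorem ex_base {n p k : ℕ} (hp : p.Prime) (hk : k = 1 ∨ k = 2) (h2 : 2 ≤ n) (h : p ^ k ∣ n.factorial / 2) : Ex n (p ^ k) := by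
  haveI : Nontrivial (Fin n) := Fin.nontrivial_iff_two_le.2 h2
  haveI := Fact.mk hp
  obtain ⟨H, a, b⟩ := exists_sub_card_pow (H := alternatingGroup (Fin n)) hp (by rwa [nat_card_alternatingGroup, Nat.card_fin])
  refine ⟨H, a, ?_, b⟩
  rcases hk with rfl | rfl
  exacts [(isCyclic_of_prime_card (by simpa using b)).isMulCommutative, IsPGroup.isMulCommutative_of_card_eq_prime_sq b]

theorem ex_of {s : Multiset ℕ} (h : ∀ x ∈ s, x = 3 ∨ x = 4 ∨ x = 5) : Ex s.sum s.prod := by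
  induction s using Multiset.induction_on with
  | empty => exact ⟨⊥, bot_le, inferInstance, card_bot⟩
  | cons a s ih =>
    rw [Multiset.sum_cons, Multiset.prod_cons]
    refine Ex.mul ?_ (ih fun x hx => h x (Multiset.mem_cons_of_mem hx))
    rcases h a (by simp) with rfl | rfl | rfl
    exacts [ex_base Nat.prime_three (Or.inl rfl) (by omega) (by decide), ex_base Nat.prime_two (Or.inr rfl) (by omega) (by decide),
      ex_base Nat.prime_five (Or.inl rfl) (by omega) (by decide)]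

section
variable {Ω : Type*} [Fintype Ω] [DecidableEq Ω] {A B : Subgroup (Perm Ω)} {g b : Perm Ω} {x : Ω}

/-- the product of the transitive constituents -/
def hat (A : Subgroup (Perm Ω)) : Subgroup (Perm Ω) where
  carrier := {g | ∀ x, ∃ a ∈ A, ∀ y ∈ orbit A x, g y = a y}
  one_mem' := fun _ => ⟨1, one_mem _, fun _ _ => rfl⟩
  mul_mem' := fun h1 h2 x => (h1 x).elim fun a ha => (h2 x).elim fun b hb => ⟨a * b, mul_mem ha.1 hb.1, fun z hz => by
    rw [Perm.mul_apply, hb.2 z hz, ha.2 _ (inv_orbit x b hb.1 z hz), Perm.mul_apply]⟩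
  inv_mem' := fun h1 x => (h1 x).elim fun a ha => ⟨a⁻¹, inv_mem ha.1, fun z hz => by
    rw [Perm.inv_eq_iff_eq, ha.2 _ (inv_orbit x _ (inv_mem ha.1) z hz)]; simp⟩

open Classical in
noncomputable def sz (A : Subgroup (Perm Ω)) : Multiset ℕ :=
  Finset.univ.val.map fun ω : orbitRel.Quotient A Ω => ω.orbit.ncard

theorem mem_sz {k : ℕ} : k ∈ sz A ↔ ∃ x : Ω, (orbit A x).ncard = k := by
  simp [sz, Quotient.exists]

theorem sum_sz : (sz A).sum = Fintype.card Ω := by
  classical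
  rw [Fintype.card_congr (selfEquivSigmaOrbits' A Ω), Fintype.card_sigma]
  simp only [← Nat.card_eq_fintype_card, Nat.card_coe_set_eq]; rfl

variable [hA : IsMulCommutative A]

theorem agree {a : Perm Ω} (ha : a ∈ A) (hb : b ∈ A) (h : a x = b x) {y : Ω} (hy : y ∈ orbit A x) : a y = b y := by
  obtain ⟨c, rfl⟩ := hy
  exact (congrArg (· x) (setLike_mul_comm ha c.2)).trans ((congrArg c.1 h).trans (congrArg (· x) (setLike_mul_comm c.2 hb)))

theorem comm_hat : IsMulCommutative (hat A) := .of_setLike_mul_comm fun g h1 k h2 => Equiv.ext fun x => by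
  obtain ⟨a, b1, b2⟩ := h1 x
  obtain ⟨c, c1, c2⟩ := h2 x
  rw [Perm.mul_apply, Perm.mul_apply, b2 x (mem_orbit_self x), c2 x (mem_orbit_self x), b2 (c x) ⟨⟨c, c1⟩, rfl⟩, c2 (a x) ⟨⟨a, b1⟩, rfl⟩]
  exact congrArg (· x) (setLike_mul_comm b1 c1)

theorem card_hat : Nat.card (hat A) ≤ (sz A).prod := by
  classical
  have h : ∀ (g : hat A) (ω : orbitRel.Quotient A Ω), g.1 ω.out ∈ orbit A ω.out := fun g ω =>
    (g.2 ω.out).elim fun a ha => ⟨⟨a, ha.1⟩, (ha.2 _ (mem_orbit_self _)).symm⟩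
  refine (Nat.card_le_card_of_injective (fun g ω => (⟨_, h g ω⟩ : orbit A ω.out)) fun g k e => Subtype.ext (Equiv.ext fun x => ?_)).trans
    (by simp only [sz, Nat.card_pi, orbitRel.Quotient.orbit_eq_orbit_out _ Quotient.out_eq', Nat.card_coe_set_eq]; rfl)
  obtain ⟨a, b1, b2⟩ := g.2 (⟦x⟧ : orbitRel.Quotient A Ω).out
  obtain ⟨c, c1, c2⟩ := k.2 (⟦x⟧ : orbitRel.Quotient A Ω).out
  have d : x ∈ orbit A (⟦x⟧ : orbitRel.Quotient A Ω).out := (orbitRel A Ω).symm (Quotient.mk_out x)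
  rw [b2 x d, c2 x d]
  exact agree b1 c1 ((b2 _ (mem_orbit_self _)).symm.trans ((congrArg Subtype.val (congrFun e _)).trans (c2 _ (mem_orbit_self _)))) d

theorem exists_res (hg : g ∈ A) (h : g x ≠ x) :
    ∃ r ∈ hat A, (r.support : Set Ω) = orbit A x ∧ ∀ y ∈ orbit A x, r y = g y := by
  classical
  have h5 : ∀ z, g z ∈ orbit A x ↔ z ∈ orbit A x := fun z =>
    ⟨fun e => by simpa using inv_orbit x _ (inv_mem hg) _ e, inv_orbit x g hg z⟩
  have a := fun z => ofSubtype_subtypePerm_of_mem h5 (a := z)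
  have b := fun z => ofSubtype_apply_of_not_mem (g.subtypePerm h5) (a := z)
  refine ⟨_, fun y => ?_, Set.ext fun y => ⟨fun e => by_contra fun d => mem_support.1 e (b y d), fun e => mem_support.2 fun d =>
    h (agree hg (one_mem _) ((a y e).symm.trans d) ((orbitRel A Ω).symm e))⟩, a⟩
  by_cases e : y ∈ orbit A x
  · exact ⟨g, hg, fun z d => a z ((orbitRel A Ω).trans d e)⟩
  · exact ⟨1, one_mem _, fun z d => b z fun f => e ((orbitRel A Ω).trans ((orbitRel A Ω).symm d) f)⟩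

theorem struct {t : Multiset ℕ} (h3 : 3 ≤ Fintype.card Ω) (h1 : A ≤ alternatingGroup Ω) (ht : Mx (Fintype.card Ω) t)
    (h2 : t.prod ≤ Nat.card A) (h : ∀ C ≤ alternatingGroup Ω, IsMulCommutative C → Nat.card C ≤ Nat.card A) :
    hat A = A ∧ Mx (Fintype.card Ω) (sz A) ∧ Nat.card A = (sz A).prod := by
  have a0 : A ≤ hat A := fun a c _ => ⟨a, c, fun _ _ => rfl⟩
  have a1 : ∀ k ∈ sz A, k ≠ 0 := fun k e => by
    obtain ⟨x, rfl⟩ := mem_sz.1 e
    exact Set.ncard_ne_zero_of_mem (mem_orbit_self x)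
  haveI := comm_hat (A := A)
  have a2 : hat A ⊓ alternatingGroup Ω = A := (eq_of_le_of_card_ge (le_inf a0 h1) (h _ inf_le_right
    (.of_setLike_mul_comm fun _ c _ d => setLike_mul_comm (s := hat A) c.1 d.1))).symm
  have a3 := card_hat (A := A)
  have a4 : hat A ≤ alternatingGroup Ω := by_contra fun e => by
    obtain ⟨u, b1, b2⟩ := exists_P (sum_sz (A := A) ▸ h3) a1
    have := ht.2 u (sum_sz (A := A) ▸ b1)
    have b3 := card_mul_relIndex' (A := alternatingGroup Ω) (B := hat A)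
    have b4 := mt relIndex_eq_one.1 e
    have b5 : (alternatingGroup Ω).relIndex (hat A) ≠ 0 := index_ne_zero_of_finite
    rw [inf_comm, a2] at b3
    have := Nat.mul_le_mul_left (Nat.card A) (show 2 ≤ (alternatingGroup Ω).relIndex (hat A) by omega)
    omega
  rw [inf_eq_left.2 a4] at a2
  have a5 : P (Fintype.card Ω) (sz A) := ⟨sum_sz, fun k e => ⟨a1 k e, by
    rintro rfl
    obtain ⟨x, d⟩ := mem_sz.1 e
    obtain ⟨_, ⟨g, rfl⟩, f⟩ := Set.exists_ne_of_one_lt_ncard (s := orbit A x) (by omega) x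
    obtain ⟨r, c1, c2, -⟩ := exists_res g.2 f
    simpa [(card_support_eq_two.1 (by rw [← Set.ncard_coe_finset, c2, d])).sign_eq] using mem_alternatingGroup.1 (a4 c1)⟩⟩
  have := ht.2 _ a5
  rw [a2] at a3
  exact ⟨a2, ⟨a5, fun u c => (ht.2 u c).trans (by omega)⟩, by omega⟩

theorem sq_eq (h1 : hat A ≤ alternatingGroup Ω) (hg : g ∈ A) (h4 : (orbit A x).ncard = 4) : g (g x) = x := by
  by_cases e : g x = x
  · rw [e, e]
  obtain ⟨r, c1, c2, c3⟩ := exists_res hg e
  have a1 : r.cycleType.sum = 4 := by rw [sum_cycleType, ← Set.ncard_coe_finset, c2, h4]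
  have a2 := (neg_one_pow_eq_one_iff_even (R := ℤˣ) (by decide)).1 ((sign_of_cycleType r).symm.trans (h1 c1))
  have a3 := Multiset.card_nsmul_le_sum fun a => two_le_of_mem_cycleType (σ := r) (n := a)
  have a4 : r.cycleType.card ≠ 0 := fun d => by simp [Multiset.card_eq_zero.1 d] at a1
  obtain ⟨u, v, a5⟩ := Multiset.card_eq_two.1 (show r.cycleType.card = 2 by rw [a1, Nat.even_iff, smul_eq_mul] at *; omega)
  have a6 := two_le_of_mem_cycleType (σ := r) (n := u) (by simp [a5])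
  have a7 := two_le_of_mem_cycleType (σ := r) (n := v) (by simp [a5])
  simp [a5] at a1
  have a8 : r ^ 2 = 1 := by rw [← orderOf_dvd_iff_pow_eq_one, ← lcm_cycleType, a5, show u = 2 by omega, show v = 2 by omega]; decide
  rw [← c3 (g x) ⟨⟨g, hg⟩, rfl⟩, ← c3 x (mem_orbit_self x)]
  exact congrArg (· x) ((sq r).symm.trans a8)

omit hA in
theorem eqOn {O : Set Ω} (h : O.ncard = 3 ∨ O.ncard = 4) (g1 : ∀ u ∈ O, g u ∈ O ∧ g u ≠ u ∧ (O.ncard = 4 → g (g u) = u))
    (b1 : ∀ u ∈ O, b u ∈ O ∧ b u ≠ u ∧ (O.ncard = 4 → b (b u) = u)) (hx : x ∈ O) (e : g x = b x) {u : Ω} (hu : u ∈ O) :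
    g u = b u := by
  have key : ∀ l : List Ω, l.Nodup → (∀ y ∈ l, y ∈ O) → l.length ≤ O.ncard := fun l c d => by
    rw [← List.toFinset_card_of_nodup c, ← Set.ncard_coe_finset]
    exact Set.ncard_le_ncard fun y f => d y (by simpa using f)
  have k2 : ∀ {g : Perm Ω}, (∀ u ∈ O, g u ∈ O ∧ g u ≠ u ∧ (O.ncard = 4 → g (g u) = u)) → O.ncard = 3 → g (g x) ≠ x :=
    fun {g} g1 c d => by
    obtain ⟨z, d1, d2, d3⟩ := exists_third_mem c.ge x (g x)
    have := key [x, g x, z, g z] (by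
      simp [(g1 x hx).2.1.symm, d2.symm, d3.symm, (g1 z d1).2.1.symm, show x ≠ g z from fun f => d3 (g.injective (f ▸ d.symm))])
      (by simp [g1, hx, d1])
    simp at this; omega
  by_contra d
  have c1 : u ≠ x := fun f => d (f ▸ e)
  have c2 : g u ≠ g x := g.injective.ne c1
  have c3 : b u ≠ g x := e ▸ b.injective.ne c1
  by_cases f : u = g x
  · rcases h with h | h
    · have := key [x, u, g u, b u] (by
        simp [c1.symm, d, (g1 u hu).2.1.symm, (b1 u hu).2.1.symm, show x ≠ g u from f ▸ (k2 g1 h).symm,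
          show x ≠ b u from (f.trans e) ▸ (k2 b1 h).symm]) (by simp [g1, b1, hx, hu])
      simp at this; omega
    · exact d (by rw [f, (g1 x hx).2.2 h, e, (b1 x hx).2.2 h])
  have c4 := key [u, g x, g u, b u] (by simp [f, d, c1.symm, c3.symm, (g1 u hu).2.1.symm, (b1 u hu).2.1.symm]) (by simp [g1, b1, hx, hu])
  have c5 : O.ncard = 4 := by simp at c4; omega
  have := key [x, u, g x, g u, b u] (by
    simp [f, d, c1.symm, c3.symm, (g1 u hu).2.1.symm, (b1 u hu).2.1.symm, (g1 x hx).2.1.symm,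
      show x ≠ g u from fun k => f (by rw [k, (g1 u hu).2.2 c5]), show x ≠ b u from fun k => f (by rw [e, k, (b1 u hu).2.2 c5])])
    (by simp [g1, b1, hx, hu])
  simp at this; omega

omit hA in
theorem exists_perm (h : sz A = sz B) : ∃ σ : Perm Ω, ∀ x y, y ∈ orbit A x ↔ σ y ∈ orbit B (σ x) := by
  classical
  let e : orbitRel.Quotient A Ω ≃ orbitRel.Quotient B Ω := Equiv.ofFiberEquiv (f := fun ω => ω.orbit.ncard)
    (g := fun ω => ω.orbit.ncard) fun k => Fintype.equivOfCardEq (by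
      have := congrArg (Multiset.count k) h
      simp only [sz, Multiset.count_map, Fintype.card_subtype, eq_comm (a := k)] at this ⊢
      exact this)
  have he : ∀ ω, (e ω).orbit.ncard = ω.orbit.ncard := fun ω => Equiv.ofFiberEquiv_map (g := fun ω : orbitRel.Quotient B Ω =>
    ω.orbit.ncard) _ ω
  let σ : Perm Ω := Equiv.ofFiberEquiv (f := fun x => e ⟦x⟧) (g := fun x => (⟦x⟧ : orbitRel.Quotient B Ω)) fun ω =>
    (Finite.card_eq.1 (by
      obtain ⟨ω, rfl⟩ := e.surjective ω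
      simp only [e.injective.eq_iff, ← orbitRel.Quotient.mem_orbit]
      exact (he ω).symm)).some
  have hσ : ∀ x, (⟦σ x⟧ : orbitRel.Quotient B Ω) = e ⟦x⟧ := Equiv.ofFiberEquiv_map _
  exact ⟨σ, fun x y => by rw [← orbitRel_apply, ← orbitRel_apply, ← Quotient.eq, ← Quotient.eq, hσ, hσ, e.injective.eq_iff]⟩

theorem conj_le [IsMulCommutative B] (h1 : hat A ≤ alternatingGroup Ω) (h2 : hat B ≤ alternatingGroup Ω)
    (h3 : ∀ k ∈ sz B, k = 3 ∨ k = 4) {σ : Perm Ω} (h : ∀ x y, y ∈ orbit A x ↔ σ y ∈ orbit B (σ x)) : cj σ A ≤ hat B := by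
  rintro _ ⟨g, hg, rfl⟩ x
  obtain ⟨x, rfl⟩ := σ.surjective x
  obtain ⟨b, e⟩ := (h x (g x)).1 ⟨⟨g, hg⟩, rfl⟩
  refine ⟨b, b.2, fun y hy => ?_⟩
  have c : ∀ x, (orbit A x).ncard = (orbit B (σ x)).ncard := fun x =>
    Set.ncard_congr (fun y _ => σ y) (fun y => (h x y).1) (fun _ _ _ _ d => σ.injective d) fun z d =>
      ⟨σ.symm z, (h x _).2 (by simpa), by simp⟩
  by_cases d : g x = x
  · obtain ⟨y, rfl⟩ := σ.surjective y
    simp [agree hg (one_mem _) d ((h x y).2 hy), agree b.2 (one_mem _) (e.trans (congrArg σ d)) hy]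
  refine eqOn (h3 _ (mem_sz.2 ⟨σ x, rfl⟩)) (fun u hu => ?_) (fun u hu => ⟨inv_orbit _ _ b.2 u hu, fun f => d (σ.injective
    (e.symm.trans (agree b.2 (one_mem _) f ((orbitRel B Ω).symm hu)))), fun f => sq_eq h2 b.2 (by rwa [orbit_eq_iff.2 hu])⟩)
    (mem_orbit_self _) (by simpa [Subgroup.smul_def] using e.symm) hy
  obtain ⟨u, rfl⟩ := σ.surjective u
  have f := (h x u).2 hu
  simpa using ⟨(h x _).1 (inv_orbit _ _ hg u f), fun k => d (agree hg (one_mem _) k ((orbitRel A Ω).symm f)),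
    fun k => sq_eq h1 hg (by rwa [orbit_eq_iff.2 f, c])⟩
end

/-- In the alternating group of any degree, any two abelian subgroups of the largest possible order (among abelian subgroups) are conjugate. -/
theorem result (n : ℕ)
    (A B : Subgroup (alternatingGroup (Fin n))) (hA : IsMulCommutative A) (hB : IsMulCommutative B)
    (hAmax : ∀ C : Subgroup (alternatingGroup (Fin n)), IsMulCommutative C → Nat.card C ≤ Nat.card A)
    (hBmax : ∀ C : Subgroup (alternatingGroup (Fin n)), IsMulCommutative C → Nat.card C ≤ Nat.card B) :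
    ∃ g : alternatingGroup (Fin n), B = MulAut.conj g • A := by
  by_cases h3 : n < 3
  · haveI : Subsingleton (alternatingGroup (Fin n)) := by
      rw [← Finite.card_le_one_iff_subsingleton]
      interval_cases n <;> simp <;> decide
    exact ⟨1, Subsingleton.elim _ _⟩
  suffices h : ∃ g ∈ alternatingGroup (Fin n), B.map (alternatingGroup _).subtype = cj g (A.map (alternatingGroup _).subtype) from
    h.elim fun g c => ⟨⟨g, c.1⟩, map_injective (Subgroup.subtype_injective _) (c.2.trans (cj_map_subtype ⟨g, c.1⟩ A))⟩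
  have key : ∀ A : Subgroup (alternatingGroup (Fin n)), (∀ C : Subgroup (alternatingGroup (Fin n)), IsMulCommutative C →
      Nat.card C ≤ Nat.card A) → ∀ C ≤ alternatingGroup (Fin n), IsMulCommutative C →
      Nat.card C ≤ Nat.card (A.map (alternatingGroup _).subtype) := fun A h C c d => by
    rw [card_map_of_injective (Subgroup.subtype_injective _), ← Nat.card_congr (subgroupOfEquivOfLe c).toEquiv]
    exact h _ inferInstance
  have a1 := key A hAmax
  have a2 := key B hBmax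
  have a3 := map_subtype_le A
  have a4 := map_subtype_le B
  haveI : IsMulCommutative (A.map (alternatingGroup _).subtype) := inferInstance
  haveI : IsMulCommutative (B.map (alternatingGroup _).subtype) := inferInstance
  generalize A.map (alternatingGroup _).subtype = A, B.map (alternatingGroup _).subtype = B at *
  obtain ⟨t, ht⟩ := exists_Mx (not_lt.1 h3)
  obtain ⟨C, b1, b2, b3⟩ := ht.1.1 ▸ ex_of (s := t) fun x hx => (ht.cases (not_lt.1 h3)).elim (fun e => by simp_all)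
    fun e => by have := e.1 x hx; omega
  obtain ⟨c1, c2, c3⟩ := struct (by simp; omega) a3 (by simpa using ht) (b3 ▸ a1 C b1 b2) a1
  obtain ⟨d1, d2, d3⟩ := struct (by simp; omega) a4 (by simpa using ht) (b3 ▸ a2 C b1 b2) a2
  rw [Fintype.card_fin] at c2 d2
  by_cases h5 : n = 5
  · subst h5
    have e : ∀ {A : Subgroup (Perm (Fin 5))}, A ≤ alternatingGroup _ → Mx 5 (sz A) → Nat.card A = (sz A).prod →
        Hall {5} A (alternatingGroup _) := fun {A} c d f => by
      have i : sz A = {5} := (d.cases (by omega)).resolve_right fun k => by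
        have := d.1.1
        rw [eq_rep k.1] at this
        simp at this; omega
      rw [i] at f
      exact hall_of_card_mul (n := 12) c (piGrp_of_prime Nat.prime_five f) ((piNat_compl_iff Nat.prime_five).2 (by decide))
        (by rw [f, nat_card_alternatingGroup, Nat.card_fin]; rfl)
    exact sylow_conj Nat.prime_five (e a3 c2 c3) (e a4 d2 d3)
  have e1 := c2.eq d2 (not_lt.1 h3) h5
  have e2 := ((d2.cases (not_lt.1 h3)).resolve_left fun e => h5 (by simp [← d2.1.1, e])).1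
  obtain ⟨σ, f1, f2⟩ : ∃ σ ∈ alternatingGroup (Fin n), ∀ x y, y ∈ orbit A x ↔ σ y ∈ orbit B (σ x) := by
    obtain ⟨σ, f⟩ := exists_perm e1
    rcases Int.units_eq_one_or (sign σ) with i | i
    · exact ⟨σ, i, f⟩
    obtain ⟨u⟩ : Nonempty (Fin n) := ⟨⟨0, by omega⟩⟩
    obtain ⟨v, j, k⟩ := Set.exists_ne_of_one_lt_ncard (s := orbit A u) (by have := e2 _ (e1 ▸ mem_sz.2 ⟨u, rfl⟩); omega) u
    have l : ∀ x, orbit A (swap v u x) = orbit A x := fun x => by
      rw [swap_apply_def]; split_ifs with h1 h2 <;> simp [*, orbit_eq_iff.2 j]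
    exact ⟨σ * swap v u, by simp [i, k], fun x y => by
      rw [Perm.mul_apply, Perm.mul_apply, ← f, ← orbit_eq_iff, ← orbit_eq_iff, l, l]⟩
  exact ⟨σ, f1, (eq_of_le_of_card_ge ((conj_le (c1.le.trans a3) (d1.le.trans a4) e2 f2).trans d1.le) (by rw [card_cj, c3, d3, e1])).symm⟩

end Cfsg.Agent.S2506
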