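import Cfsg.Statements.S2509
import Cfsg.Agent.H9.Pn8

set_option autoImplicit false
open Cfsg

namespace Cfsg.Agent.S2509

open H9.Pn H17 Matrix Subgroup

theorem fac {F : Type*} [Field F] [Fintype F] (hodd : Odd (Fintype.card F)) {m k : ℕ} (hm : m = 2 ^ k) :
    ∃ (ι : Type) (_ : Fintype ι) (_ : DecidableEq ι) (S : Subgroup (GL ι F)) (ρ : symplecticGroup (Fin m) F →* GL ι F),
      Function.Injective ρ ∧ Ok ρ.range S := by
  have h2 : (2 : F) ≠ 0 := fun e => hodd.not_two_dvd_nat (prime_dvd_char_iff_dvd_card 2 |>.1 (by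
    simpa using (ringChar.spec F 2).1 (by exact_mod_cast e) |> fun d => by
      rcases (Nat.dvd_prime Nat.prime_two).1 d with e | e
      · exact absurd e CharP.ringChar_ne_one
      · simp [e]))
  obtain ⟨Q, h3, h4, h5⟩ := dim2 h2
  obtain ⟨ι, α, _, _, _, _, J, B, C, Δ, S, h6, h⟩ := exists_md h2 h3 h4 k
  obtain ⟨e, he⟩ := h.ex
  let f := Fintype.equivFinOfCardEq (h6.trans hm.symm)
  obtain ⟨ρ, h7, h8⟩ := sp_rho (J := J) (e.trans (f.sumCongr f)) fun i j => by
    rw [he, Equiv.trans_apply, Equiv.trans_apply]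
    rcases e i with a | a <;> rcases e j with b | b <;> simp [Matrix.J, one_apply]
  exact ⟨ι, _, _, S, ρ, h7, h8 ▸ h.ok h2 h3 h5⟩

/-- Let G be a finite direct product of groups PSp_{2m_i}(F_i) (the symplectic group on a 2m_i-dimensional space modulo its centre), where each m_i is a power of 2 (m_i = 1, giving PSL₂, is allowed), each F_i is a finite field of odd order, and each factor PSp_{2m_i}(F_i) is a simple group. Then every subgroup H of G of odd index is pronormal in G: for every g ∈ G the subgroups H and gHg⁻¹ are conjugate by an element of the subgroup they generate. -/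
theorem result {t : ℕ}
    (m : Fin t → ℕ) (F : Fin t → Type*) [∀ i, Field (F i)] [∀ i, Fintype (F i)]
    (hm : ∀ i, ∃ k : ℕ, m i = 2 ^ k) (hodd : ∀ i, Odd (Fintype.card (F i)))
    (hs : ∀ i, IsSimpleGroup (Cfsg.PSp (m i) (F i)))
    (H : Subgroup (Π i, Cfsg.PSp (m i) (F i))) (hH : Odd H.index) : Cfsg.IsPronormal H := by
  choose k hk using hm
  choose ι _ _ S ρ h1 h2 using fun i => fac (hodd i) (hk i)
  let f := Pi.monoidHom fun i => (ρ i).comp (Pi.evalMonoidHom (fun i => symplecticGroup (Fin (m i)) (F i)) i)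
  have h3 : SP 2 (⊤ : Subgroup (∀ i, symplecticGroup (Fin (m i)) (F i))) := .of_map f (by
    rw [(f.ker_eq_bot_iff).2 fun x y e => funext fun i => h1 i (congrFun e i)]; exact IsPGroup.of_bot) le_top (by
    convert Ok.pi h2
    exact le_antisymm (by rintro _ ⟨x, -, rfl⟩ i _; exact ⟨x i, rfl⟩) fun y hy => by
      choose x hx using fun i => hy i trivial
      exact ⟨x, trivial, funext hx⟩)
  have h4 := h3.map (Pi.monoidHom fun i => (QuotientGroup.mk' (center (symplecticGroup (Fin (m i)) (F i)))).comp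
    (Pi.evalMonoidHom (fun i => symplecticGroup (Fin (m i)) (F i)) i))
  rw [map_top_of_surjective _ fun y => by
    choose x hx using fun i => QuotientGroup.mk'_surjective _ (y i)
    exact ⟨x, funext hx⟩] at h4
  obtain ⟨T, hT⟩ := exists_isSyl 2 H
  exact pn_top_iff.1 (h4 T H (hT.trans le_top (by simpa using hH.not_two_dvd_nat)) hT.le le_top)

end Cfsg.Agent.S2509
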