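import Cfsg.Statements.S2512
import Cfsg.Agent.H11.Shp2

set_option autoImplicit false
open Cfsg

namespace Cfsg.Agent.S2512

open H11 PForm in
theorem spl {F : Type*} [Field F] [Finite F] {n a b : ℕ} (h : n = a + b) (hb : 0 < b) (x : (stdSymp a F).Isom) {y : (stdSymp b F).Isom}
    (o : Odd (orderOf y)) : ∃ g : Cfsg.PSp n F, orderOf g = (orderOf x).lcm (orderOf y) := by
  obtain ⟨g, hg⟩ := symp_spl (stdSymp_nondeg n) (h ▸ finrank_sum_fun n) x y
  exact ⟨(centerQuotCongr (spEquiv n F)).symm g, by rw [MulEquiv.orderOf_eq, hg.symp_orderOf (stdSymp_nondeg n) o (by simpa)]⟩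

open H11 PForm in
theorem half {F : Type*} [Field F] [Finite F] {n : ℕ} (hn : 0 < n) (b : Bool) : ∃ g : Cfsg.PSp n F, tO (Nat.card F) (n, b) ∣ 2 * orderOf g := by
  obtain ⟨x : (stdSymp n F).Isom, hx⟩ := symp_tor1 (F := F) (l := (n, b)) hn
  refine ⟨(centerQuotCongr (spEquiv n F)).symm x, ?_⟩
  rw [MulEquiv.orderOf_eq, ← hx, orderOf_dvd_iff_pow_eq_one, pow_mul']
  rcases (stdSymp_nondeg n).symp_center.1 ((QuotientGroup.eq_one_iff (x ^ _)).1
    (pow_orderOf_eq_one (QuotientGroup.mk (s := Subgroup.center _) x))) with h | h <;> simp [h, neg1_sq]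

/-- Let F be a finite field of odd order q = p^a, n ≥ 2 (with q ≥ 3 automatic), and L = PSp(2n, F). Then for every m the direct product L × L × L × (ℤ/2)^m has the same set of element orders as L × L × L; and if 2n − 1 is not a power of p, then already L × L × (ℤ/2)^m has the same set of element orders as L × L. -/
theorem result {F : Type*} [Field F] [Fintype F] (p a n m : ℕ) (hp : p.Prime) (ha : 1 ≤ a) (hF : Fintype.card F = p ^ a) (hodd : Odd (Fintype.card F))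
    (hn : 2 ≤ n) :
    Set.range (orderOf : Cfsg.PSp n F × Cfsg.PSp n F × Cfsg.PSp n F × Multiplicative (Fin m → ZMod 2) → ℕ) = Set.range (orderOf : Cfsg.PSp n F × Cfsg.PSp n F × Cfsg.PSp n F → ℕ) ∧
    ((¬ ∃ j : ℕ, 2 * n - 1 = p ^ j) →
      Set.range (orderOf : Cfsg.PSp n F × Cfsg.PSp n F × Multiplicative (Fin m → ZMod 2) → ℕ) = Set.range (orderOf : Cfsg.PSp n F × Cfsg.PSp n F → ℕ)) := by
  have := Fact.mk hp
  have := charP_of_card_eq_prime_pow hF
  have h2 := H11.two_ne_zero_iff_odd.2 hodd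
  have po : Odd p := (Nat.odd_pow_iff (by omega)).1 (hF ▸ hodd)
  rw [← Nat.card_eq_fintype_card] at hodd
  obtain ⟨b, hb⟩ : ∃ b, 4 ∣ H11.tO (Nat.card F) (n, b) := by
    have := Nat.odd_iff.1 (hodd.pow (n := n))
    by_cases h : Nat.card F ^ n % 4 = 1
    exacts [⟨true, show _ ∣ _ ^ n - 1 by omega⟩, ⟨false, show _ ∣ _ ^ n + 1 by omega⟩]
  obtain ⟨u, hu⟩ := half (F := F) (n := n) (by omega) b
  obtain ⟨g₀, h₀⟩ := half (F := F) (n := n) (by omega) (!b)
  have R := fun k => H11.exists_reg0 p (H11.symp_reg (H11.stdSymp_nondeg (F := F) k))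
  simp only [H11.finrank_sum_fun] at R
  obtain ⟨r, j, r1, r2⟩ := R n
  obtain ⟨g₁, h₁⟩ := (H11.psp_iff (F := F) p (n := n) (.inr (po.pow (n := j)))).2 (r1 ▸ H11.finrank_sum_fun (F := F) n ▸
    (H11.stdSymp_nondeg n).shp p (.inr (r1 ▸ po.pow)))
  have u2 : 2 ∣ orderOf u := by have := hb.trans hu; omega
  refine H11.absorb m (g₀ := g₀) (g₁ := g₁) u2 fun g => ?_
  rcases (orderOf g).even_or_odd with o | o
  · exact .inl ⟨g, o.two_dvd, dvd_rfl⟩
  obtain ⟨L, c, a1, a2, a3⟩ := (H11.psp_iff p (.inr o)).1 ⟨g, rfl⟩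
  rcases L.empty_or_exists_mem with rfl | ⟨l, hl⟩
  · obtain ⟨y, i, y1, y2⟩ := R (n - 1)
    obtain ⟨g', e⟩ := spl (show n = 1 + (n - 1) by omega) (by omega) (H11.stdSymp 1 F).neg1 (y1 ▸ po.pow : Odd (orderOf y))
    have := y2 _ (orderOf_pos g').ne' (e ▸ Nat.dvd_lcm_right _ _)
    by_cases h : c ≤ ordProj[p] (orderOf g')
    · exact .inl ⟨g', by rw [e, H11.PForm.orderOf_neg1 h2 (by simp)]; exact Nat.dvd_lcm_left _ _, a3 _ (orderOf_pos g').ne' (by simp) h⟩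
    have := Nat.odd_iff.1 (po.pow (n := (orderOf g').factorization p))
    simp at a2
    exact .inr (.inr ⟨⟨(orderOf g').factorization p, by omega⟩, a3 _ (orderOf_pos _).ne' (by simp) (a2 ▸ r2 _ (orderOf_pos _).ne' (by rw [h₁, r1]))⟩)
  have T := fun {L : Multiset (ℕ × Bool)} {l} (hl : l ∈ L) {x} (h : ∀ l ∈ L, H11.tO (Nat.card F) l ∣ x) (y : ℕ) =>
    ((H11.two_dvd_tO hodd l).trans (h l hl)).trans (Nat.dvd_lcm_left x y)
  rcases c.eq_zero_or_pos with rfl | c0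
  swap
  · obtain ⟨x, x1, -⟩ := H11.symp_tor (F := F) a1
    obtain ⟨y, i, y1, y2⟩ := R (n - H11.sL L)
    obtain ⟨g', e⟩ := spl (show n = H11.sL L + (n - H11.sL L) by omega) (by omega) x (y1 ▸ po.pow : Odd (orderOf y))
    exact .inl ⟨g', e ▸ T hl x1 _, a3 _ (orderOf_pos g').ne' (fun l hl => (x1 l hl).trans (e ▸ Nat.dvd_lcm_left _ _))
      (le_trans (by omega) (y2 _ (orderOf_pos g').ne' (e ▸ Nat.dvd_lcm_right _ _)))⟩
  obtain ⟨L, rfl⟩ := Multiset.exists_cons_of_mem hl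
  have l0 := a1 l hl
  have t0 := H11.tO_pos (Finite.one_lt_card (α := F)) l0
  rcases L.empty_or_exists_mem with rfl | ⟨l', hl'⟩
  · have := a3 _ t0.ne' (by simp) (by simp)
    obtain ⟨k, b'⟩ := l
    obtain rfl : k = n := by simpa [H11.sL] using a2
    by_cases h : b' = b
    · exact .inl ⟨u, u2, o.coprime_two_right.dvd_of_dvd_mul_left (this.trans (h ▸ hu))⟩
    · exact .inr (.inl (o.coprime_two_right.dvd_of_dvd_mul_left (this.trans (Bool.eq_not.2 h ▸ h₀))))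
  obtain ⟨x, x1, -⟩ := H11.symp_tor (F := F) (L := L) fun l h => a1 l (by simp [h])
  obtain ⟨y, y1⟩ := H11.symp_tor1 (F := F) l0
  obtain ⟨v, d, d1, d2⟩ := Nat.exists_eq_two_pow_mul_odd t0.ne'
  have y2 : orderOf (y ^ 2 ^ v) = d := by rw [orderOf_pow' _ (by simp), y1, d2]; simp
  obtain ⟨g', e⟩ := spl (show n = H11.sL L + l.1 by simp at a2; omega) l0 x (y2 ▸ d1 : Odd (orderOf (y ^ 2 ^ v)))
  refine .inl ⟨g', e ▸ T hl' x1 _, (o.coprime_two_right.pow_right v).dvd_of_dvd_mul_left (a3 _ (by simp [(orderOf_pos g').ne'])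
    (Multiset.forall_mem_cons.2 ⟨?_, fun l hl => ((x1 l hl).trans (e ▸ Nat.dvd_lcm_left _ _)).mul_left _⟩) (by simp))⟩
  rw [d2, e, y2]; exact mul_dvd_mul_left _ (Nat.dvd_lcm_right _ _)

end Cfsg.Agent.S2512
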