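import Cfsg.Statements.S2513
import Cfsg.Agent.H11.Spec

set_option autoImplicit false
open Cfsg

namespace Cfsg.Agent.S2513

/-- Let F be the field with two elements, n ≥ 2, L = PSL(n, F) and k₀ = ⌊(n + 3)/2⌋. Then for every k ≥ k₀ the direct product of k copies of L has the same set of element orders as the direct product of k₀ copies of L. -/
theorem result {F : Type*} [Field F] [Fintype F] (hF : Fintype.card F = 2) (n k : ℕ) (hn : 2 ≤ n) (hk : (n + 3) / 2 ≤ k) :
    Set.range (orderOf : (Fin k → Matrix.ProjectiveSpecialLinearGroup (Fin n) F) → ℕ) = Set.range (orderOf : (Fin ((n + 3) / 2) → Matrix.ProjectiveSpecialLinearGroup (Fin n) F) → ℕ) := by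
  have := charP_of_card_eq_prime (p := 2) hF
  have h := H11.lu_psl (F := F) (ι := Fin n) 2
  rw [Nat.card_eq_fintype_card, hF, Fintype.card_fin] at h
  obtain ⟨u, hu⟩ := h.ex' _ (H11.adm_one' (by omega : 0 < n)) (by simp) (by simp)
  have h1 : ∀ i : ℕ, ∃ g : Matrix.ProjectiveSpecialLinearGroup (Fin n) F,
      i ≤ (n - 1) / 2 → 2 ^ (n - i) - 1 ∣ orderOf g := fun i => by
    by_cases hi : i ≤ (n - 1) / 2
    swap
    · exact ⟨1, by simp [hi]⟩
    obtain ⟨z, a1, a2, a3, a4⟩ := H11.exists_orb_od (K := H11.AC F) (dvd_refl ((2 : ℕ) : ℤ))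
      (N := 2 ^ (n - i) - 1) (d := n - i) (by simp) (by omega)
    exact (h.mem (a3.add (H11.adm_one i one_pos)) (by simp; omega) (by
      simpa using a4 (by simpa using isCoprime_one_right)) fun m _ h => Int.natCast_dvd_natCast.1
        (((a2 _).1 (h.of_orb a1 (by omega) (le_add_right le_rfl))).trans (dvd_of_eq (by simp)))).imp fun g hg _ => hg.symm.dvd
  choose g hg using h1
  obtain ⟨w, h2, h3⟩ : ∃ w : Fin ((n + 3) / 2) → Matrix.ProjectiveSpecialLinearGroup (Fin n) F,
      orderOf u ∣ orderOf w ∧ ∀ i ≤ (n - 1) / 2, orderOf (g i) ∣ orderOf w :=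
    ⟨fun i => if i.1 ≤ (n - 1) / 2 then g i else u, by
      simpa [show ¬ (n + 1) / 2 ≤ (n - 1) / 2 by omega] using orderOf_apply_dvd_orderOf (x := fun
        i : Fin ((n + 3) / 2) => if i.1 ≤ (n - 1) / 2 then g i else u) ⟨(n + 1) / 2, by omega⟩,
      fun i hi => by simpa [hi] using orderOf_apply_dvd_orderOf (x := fun
        i : Fin ((n + 3) / 2) => if i.1 ≤ (n - 1) / 2 then g i else u) ⟨i, by omega⟩⟩
  refine Set.Subset.antisymm ?_ ?_
  · rintro _ ⟨a, rfl⟩
    refine H11.mem_range_of_dvd (g := w) (orderOf_dvd_of_pow_eq_one (funext fun i => ?_))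
    obtain ⟨J, b1, b2, -, b3⟩ := h.ex (a i)
    refine orderOf_dvd_iff_pow_eq_one.1 ((b3 _ (orderOf_pos w).ne').2 ⟨1, fun x hx => ⟨?_,
      (b2 ▸ H11.le_dm hx).trans (((hu _ (orderOf_pos w).ne').1 h2).le (x := (1, n)) (by simp))⟩⟩)
    obtain ⟨b4, b5⟩ := b1.ne x hx
    obtain ⟨d, b6, b7, -, J', rfl, -⟩ := b1.exists_orb hx
    have b8 : d ≤ n := by simp at b2; nlinarith
    have b9 := Nat.mod_lt n b6
    have b10 := Nat.mod_add_div n d
    obtain ⟨c, hc⟩ := ((Nat.sub_one_dvd_pow_sub_one _ (n / d)).trans (dvd_of_eq (by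
      rw [← pow_mul, show n - n % d = d * (n / d) by omega]))).trans ((hg (n % d) (by
        have := Nat.mul_le_mul_left d (Nat.div_pos b8 b6); omega)).trans (h3 _ (by
          have := Nat.mul_le_mul_left d (Nat.div_pos b8 b6); omega)))
    rw [hc, pow_mul, ← zpow_natCast x.1, Nat.cast_pred (by positivity), Nat.cast_pow,
      (H11.pow_fix b4).1 b7, one_pow]
  · rintro _ ⟨a, rfl⟩
    exact ⟨_, orderOf_injective (MonoidHom.mk' (fun (a : Fin ((n + 3) / 2) → _) (i : Fin k) =>
      if h : i.1 < (n + 3) / 2 then a ⟨i, h⟩ else 1) fun a b => by ext; simp; split_ifs <;> simp)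
      (fun a b h => funext fun i => by simpa using congrFun h (i.castLE hk)) a⟩

end Cfsg.Agent.S2513
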