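import Cfsg.Statements.S2514
import Cfsg.Agent.H11.Spec

set_option autoImplicit false
open Cfsg

namespace Cfsg.Agent.S2514

theorem mx {X : Type*} [Group X] [Finite X] (x : X) : ∃ n, (n ∈ Set.range (orderOf : X → ℕ) ∧
    ∀ m ∈ Set.range (orderOf : X → ℕ), n ∣ m → m = n) ∧ orderOf x ∣ n := by
  obtain ⟨y, h1, h2⟩ := Set.exists_max_image {y : X | orderOf x ∣ orderOf y} orderOf (Set.toFinite _)
    ⟨x, dvd_rfl⟩
  exact ⟨_, ⟨⟨y, rfl⟩, by
    rintro _ ⟨z, rfl⟩ h; exact (h2 z (h1.trans h)).antisymm (Nat.le_of_dvd (orderOf_pos z) h)⟩, h1⟩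

/-- For a finite group X write μ(X) for the set of element orders of X that are maximal under divisibility. Let G and H be finite groups and k ≥ 1 such that μ(H) ⊆ μ(G) and μ(G) has fewer than k elements outside μ(H). Then the direct product of k copies of G has the same set of element orders as the direct product of k − 1 copies of G with H. -/
theorem result {G H : Type*} [Group G] [Finite G] [Group H] [Finite H] (k : ℕ) (hk : 1 ≤ k)
    (hsub : {n : ℕ | n ∈ Set.range (orderOf : H → ℕ) ∧ ∀ m ∈ Set.range (orderOf : H → ℕ), n ∣ m → m = n} ⊆ {n : ℕ | n ∈ Set.range (orderOf : G → ℕ) ∧ ∀ m ∈ Set.range (orderOf : G → ℕ), n ∣ m → m = n})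
    (hfew : ({n : ℕ | n ∈ Set.range (orderOf : G → ℕ) ∧ ∀ m ∈ Set.range (orderOf : G → ℕ), n ∣ m → m = n} \ {n : ℕ | n ∈ Set.range (orderOf : H → ℕ) ∧ ∀ m ∈ Set.range (orderOf : H → ℕ), n ∣ m → m = n}).ncard < k) :
    Set.range (orderOf : (Fin k → G) → ℕ) = Set.range (orderOf : (Fin (k - 1) → G) × H → ℕ) := by
  classical
  obtain ⟨k, rfl⟩ := Nat.exists_eq_add_one_of_ne_zero (Nat.ne_of_gt hk)
  refine Set.Subset.antisymm ?_ ?_
  · rintro _ ⟨a, rfl⟩
    choose n h1 h2 using fun i => mx (a i)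
    choose g hg using fun i => (h1 i).1
    obtain ⟨i, hi⟩ : ∃ i, (∃ h : H, orderOf h = n i) ∨ ∃ j ≠ i, n j = n i := by
      by_contra! h
      refine hfew.not_ge ?_
      exact le_trans (by simp) (Set.ncard_le_ncard_of_injOn (s := Set.univ) n (fun i _ => ⟨h1 i,
        fun h' => h'.1.elim (h i).1⟩) (fun i _ j _ e => by by_contra h'; exact (h j).2 i h' e)
          ((Set.finite_range _).subset fun _ h => h.1.1))
    have h3 : ∀ h : H, ∀ j ≠ i, n j ∣ orderOf ((fun j => g (i.succAbove j), h) : (Fin k → G) × H) :=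
      fun h j hj => by
        obtain ⟨j, rfl⟩ := Fin.exists_succAbove_eq hj
        exact hg _ ▸ (orderOf_apply_dvd_orderOf (x := fun j => g (i.succAbove j)) j).trans
          orderOf_fst_dvd_orderOf
    obtain ⟨h, h4⟩ : ∃ h : H, n i ∣ orderOf ((fun j => g (i.succAbove j), h) : (Fin k → G) × H) :=
      hi.elim (fun ⟨h, e⟩ => ⟨h, e ▸ orderOf_snd_dvd_orderOf (x := (_, h))⟩)
        fun ⟨j, h, e⟩ => ⟨1, e ▸ h3 1 j h⟩
    exact H11.mem_range_of_dvd (orderOf_dvd_of_pow_eq_one (funext fun j =>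
      orderOf_dvd_iff_pow_eq_one.1 ((h2 j).trans (if h' : j = i then h' ▸ h4 else h3 h j h'))))
  · rintro _ ⟨⟨a, h⟩, rfl⟩
    obtain ⟨n, h1, h2⟩ := mx h
    obtain ⟨g, rfl⟩ := (hsub h1).1
    refine H11.mem_range_of_dvd (g := Fin.cons g a) (orderOf_dvd_of_pow_eq_one (Prod.ext
      (funext fun j => orderOf_dvd_iff_pow_eq_one.1 ?_) (orderOf_dvd_iff_pow_eq_one.1 (h2.trans ?_))))
    · exact orderOf_apply_dvd_orderOf (x := (Fin.cons g a : Fin (k + 1) → G)) j.succ
    · exact orderOf_apply_dvd_orderOf (x := (Fin.cons g a : Fin (k + 1) → G)) 0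

end Cfsg.Agent.S2514
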