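import Cfsg.Statements.S2517
import Cfsg.Agent.H11.Shp4

set_option autoImplicit false
open Cfsg

namespace Cfsg.Agent.S2517

/-- Let F be a finite field of odd order q, let Ω₉ be the simple orthogonal group PΩ(9, F), and let Ω₈⁻ be the commutator subgroup of the isometry group of a minus-type non-singular quadratic form on V = F⁸ (the simple group PΩ⁻(8, F), acting on its natural module V). Then Ω₉ and the semidirect product V ⋊ Ω₈⁻ have exactly the same set of element orders. -/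
theorem result {F : Type*} [Field F] [Fintype F] (hF : Odd (Fintype.card F)) (a b : F)
    (hab : ∀ z₁ z₂ : F, z₁ ^ 2 + a * z₁ * z₂ + b * z₂ ^ 2 = 0 → z₁ = 0 ∧ z₂ = 0) :
    Set.range (orderOf : Cfsg.POmega F (Cfsg.quadFormOdd 4 F) → ℕ) =
      Set.range (orderOf :
        (Multiplicative (((Fin 3 ⊕ Fin 3) ⊕ Fin 2) → F)) ⋊[
          (MulAutMultiplicative (((Fin 3 ⊕ Fin 3) ⊕ Fin 2) → F)).symm.toMonoidHom.comp
           ((DistribMulAction.toAddAut (LinearMap.GeneralLinearGroup F (((Fin 3 ⊕ Fin 3) ⊕ Fin 2) → F))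
              (((Fin 3 ⊕ Fin 3) ⊕ Fin 2) → F)).comp
            (Matrix.GeneralLinearGroup.toLin.toMonoidHom.comp
              ((Cfsg.isometryGroup F (Cfsg.quadFormMinus 3 F a b)).subtype.comp
                (Cfsg.Omega F (Cfsg.quadFormMinus 3 F a b)).subtype)))]
          ↥(Cfsg.Omega F (Cfsg.quadFormMinus 3 F a b)) → ℕ) := by
  obtain ⟨p, _⟩ := CharP.exists F
  have := Fact.mk (CharP.char_is_prime F p)
  have h2 := H11.two_ne_zero_iff_odd.2 hF
  have hS := H11.sMinus_nondeg 3 hab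
  have hT := H11.sOdd_nondeg 4 h2
  have : Finite (Cfsg.Omega F (H11.qMinus 3 F a b)) := .of_equiv _ (H11.omegaEquiv (H11.qMinus 3 F a b)).symm.toEquiv
  have := fun φ => Finite.of_equiv _ (SemidirectProduct.equivProd (N := Multiplicative (((Fin 3 ⊕ Fin 3) ⊕ Fin 2) → F))
    (G := Cfsg.Omega F (H11.qMinus 3 F a b)) (φ := φ)).symm
  ext N
  refine Iff.trans ?_ (H11.ext_iff p hS (H11.PForm.notO4_of_two_ne h2) fun m =>
    (H11.mem_range_sd p (fun g => H11.PForm.iE (H11.omegaEquiv (H11.qMinus 3 F a b) g).1)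
    (fun _ _ => rfl) m).trans ((H11.omegaEquiv (H11.qMinus 3 F a b)).toEquiv.exists_congr fun g => by
      simp [H11.PForm.iE_pow, MulEquiv.orderOf_eq])).symm
  rw [H11.ext_iff_nine h2 p hS hT (H11.finrank_minus_fun 3) (H11.sMinus_not_hasTS 3 hab) (H11.finrank_odd_fun 4)]
  refine (H11.mem_range_orderOf_equiv (H11.pomegaEquiv (H11.qOdd 4 F))).trans ?_
  rw [H11.PForm.exists_orderOf_pomega hT (H11.finrank_odd_fun 4) (by simp)]
  refine ⟨fun ⟨g, a, b⟩ => ⟨g, a, b.symm.dvd⟩, fun ⟨g, a, b⟩ => ?_⟩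
  obtain ⟨k, e⟩ := H11.mem_range_of_dvd (k := N) (g := (⟨g, a⟩ : commutator _)) (by rwa [Subgroup.orderOf_mk])
  exact ⟨k, k.2, (Subgroup.orderOf_coe k).trans e⟩

end Cfsg.Agent.S2517
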