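import Cfsg.Statements.S2518
import Cfsg.Agent.H12.SpG2
import Cfsg.Agent.S1059

set_option autoImplicit false
open Cfsg

namespace Cfsg.Agent.S2518
open H12 H13 Cfsg.Lie

/-- Let F₃ be the field with 3 elements and F₁₃ the field with 13 elements. The Chevalley group G₂(F₃) and PSL(2, F₁₃) have the same prime graph: the same prime divisors of their orders, and for distinct primes r, s an element of order rs in one iff in the other. -/
theorem result {F : Type*} [Field F] [Fintype F] (hF : Fintype.card F = 3) {E : Type*} [Field E] [Fintype E] (hE : Fintype.card E = 13) :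
    ((∀ r : ℕ, r.Prime → (r ∣ Nat.card ↥(Cfsg.Lie.chevG2.group F) ↔ r ∣ Nat.card (Matrix.ProjectiveSpecialLinearGroup (Fin 2) E))) ∧
      (∀ r s : ℕ, r.Prime → s.Prime → r ≠ s → ((∃ x : ↥(Cfsg.Lie.chevG2.group F), orderOf x = r * s) ↔ (∃ y : (Matrix.ProjectiveSpecialLinearGroup (Fin 2) E), orderOf y = r * s)))) := by
  have h3 := Fact.mk Nat.prime_three
  have h13 : Fact (Nat.Prime 13) := ⟨by norm_num⟩
  have : CharP F 3 := charP_of_card_eq_prime_pow (f := 1) hF
  have : CharP E 13 := charP_of_card_eq_prime_pow (f := 1) hE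
  refine ⟨fun r hr => ?_, fun r s hr hs hrs => ?_⟩
  · have := H10.card_PSL2 (F := E)
    rw [hE] at this
    rw [S1059.result hF, show Nat.card (Matrix.ProjectiveSpecialLinearGroup (Fin 2) E) = 1092 by norm_num at this; omega]
    exact ⟨fun h => (hr.dvd_of_dvd_pow (n := 6) (h.trans (by norm_num))), fun h => h.trans (by norm_num)⟩
  have key : ∀ N ∈ [8, 13, 7, 6, 12, 9], r * s ∣ N → r * s ∣ 6 := fun N hN h => by
    have h0 := (show ∀ N ∈ [8, 13, 7, 6, 12, 9], 0 < N ∧ N < 14 by decide) N hN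
    exact (show ∀ N ∈ [8, 13, 7, 6, 12, 9], ∀ r < 14, ∀ s < 14, r.Prime → s.Prime → r ≠ s → r * s ∣ N → r * s ∣ 6 by decide +kernel) N hN
      r ((Nat.le_of_dvd h0.1 ((dvd_mul_right r s).trans h)).trans_lt h0.2) s ((Nat.le_of_dvd h0.1 ((dvd_mul_left s r).trans h)).trans_lt h0.2) hr hs hrs h
  refine Iff.trans (b := r * s ∣ 6) ⟨?_, fun h => ?_⟩ ⟨fun h => ?_, ?_⟩
  · rintro ⟨x, e⟩
    have := spec_G2 3 hF x
    rw [e] at this
    rcases this with h | h | h | h | h | h | h | h
    exacts [key _ (by simp) h, key _ (by simp) h, key _ (by simp) h, h, key _ (by simp) h, h.2, (h.1 rfl).elim, key _ (by simp) (h 2 (by simp))]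
  · obtain ⟨x, e⟩ := (G2_orders 3 hF).2.2.2.1
    exact exists_of_dvd_orderOf (x := x) (by rwa [e])
  · classical obtain ⟨-, c, -, e, -⟩ := H10.exists_dihedral_split (F := E) (by omega)
    exact exists_of_dvd_orderOf (x := c) (by rwa [e, hE])
  · rintro ⟨x, e⟩
    have := H10.orderOf_PSL2_dvd 13 (H10.ι_mem x)
    rw [orderOf_injective _ H10.ι_injective x, e, hE] at this
    exact this.elim (key _ (by simp)) fun h => h.elim (key _ (by simp)) id

end Cfsg.Agent.S2518
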