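import Cfsg.Statements.S2519
import Cfsg.Agent.H12.SpG2

set_option autoImplicit false
open Cfsg

namespace Cfsg.Agent.S2519
open H12 H13 Cfsg.Lie

/-- Let F be a finite field of odd order q = p^a ≥ 5. The element orders of the Chevalley group G₂(F) that are maximal under divisibility are exactly p(q + 1), p(q − 1), q² − 1, q² + q + 1, q² − q + 1, together with p² when p is 3 or 5. -/
theorem result {F : Type*} [Field F] [Fintype F] (p a : ℕ) (hp : p.Prime) (hp2 : p ≠ 2) (ha : 1 ≤ a) (hF : Fintype.card F = p ^ a) (hq5 : 5 ≤ Fintype.card F) :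
    {n : ℕ | n ∈ Set.range (orderOf : ↥(Cfsg.Lie.chevG2.group F) → ℕ) ∧ ∀ m ∈ Set.range (orderOf : ↥(Cfsg.Lie.chevG2.group F) → ℕ), n ∣ m → m = n} =
      ({p * (p ^ a + 1), p * (p ^ a - 1), p ^ (2 * a) - 1, p ^ (2 * a) + p ^ a + 1, p ^ (2 * a) - p ^ a + 1} : Set ℕ) ∪
        (if p = 3 ∨ p = 5 then ({p ^ 2} : Set ℕ) else ∅) := by
  have := Fact.mk hp
  have : CharP F p := charP_of_card_eq_prime_pow hF
  have h1 : p ∣ p ^ a := dvd_pow_self p (by omega)
  have h2 : Odd (p ^ a) := (hp.odd_of_ne_two hp2).pow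
  rw [hF] at hq5
  rw [pow_mul']
  generalize p ^ a = q at *
  obtain ⟨o1, o2, o3, o4, o5⟩ := G2_orders p hF
  set M := ({p * (q + 1), p * (q - 1), q ^ 2 - 1, q ^ 2 + q + 1, q ^ 2 - q + 1} : Set ℕ) ∪ (if p = 3 ∨ p = 5 then ({p ^ 2} : Set ℕ) else ∅) with hM
  have hm : ∀ n, n ∈ M ↔ n = p * (q + 1) ∨ n = p * (q - 1) ∨ n = q ^ 2 - 1 ∨ n = q ^ 2 + q + 1 ∨ n = q ^ 2 - q + 1 ∨ (p = 3 ∨ p = 5) ∧ n = p ^ 2 :=
    fun n => by simp [hM, or_assoc]
  have k1 : ∀ n ∈ M, n ∈ Set.range (orderOf : chevG2.group F → ℕ) := fun n hn => by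
    rcases (hm n).1 hn with rfl | rfl | rfl | rfl | rfl | ⟨h, rfl⟩
    iterate 5 assumption
    rcases h with rfl | rfl
    exacts [G2_9, G2_25]
  have p3 : 3 ≤ p := by have := hp.two_le; omega
  have k2 : ∀ x : chevG2.group F, ∃ n ∈ M, orderOf x ∣ n := fun x => by
    simp only [hm, or_and_right (a := _ = _ * _), or_and_right (a := _ = _ - _), or_and_right (a := _ = _ + _), exists_or, exists_eq_left, and_assoc, exists_and_left]
    rcases spec_G2 p hF x with h | h | h | h | h | h | h | h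
    iterate 5 simp [h]
    · exact .inr (.inl (h.2.trans (mul_dvd_mul_left p (Nat.Odd.sub_odd h2 odd_one).two_dvd)))
    · have h3 := h.2 1 (by simpa using p3)
      rw [pow_one] at h3
      have h4 : ¬ 3 ∣ q := fun e => by
        obtain ⟨n, -, e'⟩ := FiniteField.card F p
        exact h.1 ((Nat.prime_dvd_prime_iff_eq Nat.prime_three hp).1 (Nat.prime_three.dvd_of_dvd_pow (e' ▸ hF ▸ e))).symm
      exact (show 3 ∣ q + 1 ∨ 3 ∣ q - 1 by omega).elim (fun e => .inl (h3.trans (mul_dvd_mul_left p e))) fun e => .inr (.inl (h3.trans (mul_dvd_mul_left p e)))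
    · by_cases e : p = 3 ∨ p = 5
      · iterate 5 right
        exact ⟨e, h 2 (by nlinarith)⟩
      · refine .inl ((h 1 ?_).trans (by simp))
        obtain ⟨t, rfl⟩ := hp.odd_of_ne_two hp2; rw [pow_one]; omega
  have k3 : ∀ n ∈ M, ∀ m ∈ M, n ∣ m → n = m := fun n hn m hm' h => antichain_G2 hp h1 hq5 h (by rw [hm] at hn; tauto) (by rw [hm] at hm'; tauto)
  ext n
  refine ⟨fun ⟨⟨x, e⟩, h⟩ => ?_, fun h => ⟨k1 n h, ?_⟩⟩
  · obtain ⟨m, h1, h2⟩ := k2 x
    exact h m (k1 m h1) (e ▸ h2) ▸ h1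
  · rintro _ ⟨x, rfl⟩ e
    obtain ⟨m, h1, h2⟩ := k2 x
    exact Nat.dvd_antisymm (k3 n h m h1 (e.trans h2) ▸ h2) e

end Cfsg.Agent.S2519
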