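import Cfsg.Statements.S2520
import Cfsg.Agent.H12.SpG2

set_option autoImplicit false
open Cfsg

namespace Cfsg.Agent.S2520
open H12 H13 Cfsg.Lie

/-- Let F be a finite field with q = 2^a ≥ 4 elements and G₂(F) the Chevalley group of type G₂ over it. Every element order of G₂(F) maximal under divisibility lies in the set {8, 12, 2(q + 1), 2(q − 1), q² − 1, q² + q + 1, q² − q + 1}, and every member of that set is an element order of G₂(F). -/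
theorem result {F : Type*} [Field F] [Fintype F] (a : ℕ) (ha : 2 ≤ a) (hF : Fintype.card F = 2 ^ a) :
    {n : ℕ | n ∈ Set.range (orderOf : ↥(Cfsg.Lie.chevG2.group F) → ℕ) ∧ ∀ m ∈ Set.range (orderOf : ↥(Cfsg.Lie.chevG2.group F) → ℕ), n ∣ m → m = n} ⊆ ({8, 12, 2 * (2 ^ a + 1), 2 * (2 ^ a - 1), 2 ^ (2 * a) - 1, 2 ^ (2 * a) + 2 ^ a + 1, 2 ^ (2 * a) - 2 ^ a + 1} : Set ℕ) ∧
    ({8, 12, 2 * (2 ^ a + 1), 2 * (2 ^ a - 1), 2 ^ (2 * a) - 1, 2 ^ (2 * a) + 2 ^ a + 1, 2 ^ (2 * a) - 2 ^ a + 1} : Set ℕ) ⊆ Set.range (orderOf : ↥(Cfsg.Lie.chevG2.group F) → ℕ) := by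
  have : CharP F 2 := charP_of_card_eq_prime_pow hF
  rw [pow_mul']
  generalize 2 ^ a = q at *
  obtain ⟨o1, o2, o3, o4, o5⟩ := G2_orders 2 hF
  have k1 : ({8, 12, 2 * (q + 1), 2 * (q - 1), q ^ 2 - 1, q ^ 2 + q + 1, q ^ 2 - q + 1} : Set ℕ) ⊆ Set.range (orderOf : chevG2.group F → ℕ) := by
    rintro _ (rfl | rfl | rfl | rfl | rfl | rfl | rfl)
    exacts [G2_8, G2_12, o5, o4, o1, o2, o3]
  refine ⟨fun n ⟨⟨x, e⟩, h⟩ => ?_, k1⟩
  have k : ∀ m ∈ ({8, 12, 2 * (q + 1), 2 * (q - 1), q ^ 2 - 1, q ^ 2 + q + 1, q ^ 2 - q + 1} : Set ℕ), orderOf x ∣ m → _ := fun m hm e' =>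
    h m (k1 hm) (e ▸ e') ▸ hm
  rcases spec_G2 2 hF x with h | h | h | h | h | h | h | h
  exacts [k _ (by simp) h, k _ (by simp) h, k _ (by simp) h, k _ (by simp) h, k _ (by simp) h, (h.1 rfl).elim, k _ (by simp) (h.2 2 (by simp)),
    k _ (by simp) (h 3 (by simp))]

end Cfsg.Agent.S2520
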