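import Cfsg.Statements.S2521
import Cfsg.Agent.H18.BG1
import Cfsg.Agent.H22.Misc2

set_option autoImplicit false
open Cfsg

namespace Cfsg.Agent.S2521
open H18 Subgroup

/-- Let B be a finite group that is the semidirect product of a nilpotent normal subgroup U by an abelian subgroup T (U ∩ T = 1, UT = B), and let t ∈ T have centralizer exactly T. Then every element of the coset tU is conjugate to t in B: for each u ∈ U there is b ∈ B with b t b⁻¹ = t u. -/
theorem result {B : Type*} [Group B] [Finite B] (U T : Subgroup B) [U.Normal] (hU : Group.IsNilpotent ↥U) (hT : IsMulCommutative ↥T)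
    (hcompl : Subgroup.IsComplement' U T) (t : B) (ht : t ∈ T) (hreg : Subgroup.centralizer ({t} : Set B) = T) (u : B) (hu : u ∈ U) :
    ∃ b : B, b * t * b⁻¹ = t * u := by
  have hf : ∀ k ∈ U, t * k = k * t → k = 1 := by
    intro k hk e
    have h1 : k ∈ T := by rw [← hreg]; exact mem_C1.2 e.symm
    have h2 : k ∈ U ⊓ T := ⟨hk, h1⟩
    rw [hcompl.disjoint.eq_bot] at h2
    exact mem_bot.1 h2
  have hn : t ∈ N(U) := (norm_of_normal (H := ⊤) (K := U)) trivial
  obtain ⟨c, -, hc⟩ := H22.exists_conj_eq_of_fpf hn hf (conj_mem_N hn hu)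
  exact ⟨c, by rw [hc]; group⟩

end Cfsg.Agent.S2521
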