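import Cfsg.Statements.S2522
import Cfsg.Agent.H17.Lev
import Cfsg.Agent.H11.Rg

set_option autoImplicit false
open Cfsg

namespace Cfsg.Agent.S2522

open Module H17.Lev H11

theorem reg {K V : Type*} [Field K] [AddCommGroup V] [Module K V] [FiniteDimensional K V] {a : End K V} (h : Rg a)
    (h0 : 0 < finrank K V) : Reg a := by
  obtain ⟨w, hw⟩ := h.2
  have h1 : finrank K (LinearMap.ker (a - 1)) ≤ 1 := (Submodule.finrank_mono (t := Submodule.span K {w}) fun v hv => by
    obtain ⟨c, rfl⟩ := hw v (by simpa [sub_eq_zero] using hv)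
    exact Submodule.smul_mem _ _ (Submodule.mem_span_singleton_self w)).trans (finrank_span_le_card _ |>.trans (by simp))
  have h2 := (a - 1).finrank_range_add_finrank_ker
  have h3 : finrank K (LinearMap.ker (a - 1)) ≠ 0 := fun h' => by
    have := finrank_pos_iff.1 h0
    exact h.1.not_isUnit ((LinearMap.isUnit_iff_ker_eq_bot _).2 (Submodule.finrank_eq_zero.1 h'))
  exact reg_of_rank h.1 h0 (by omega)

theorem rg {K V : Type*} [Field K] [AddCommGroup V] [Module K V] [FiniteDimensional K V] {a : End K V} (h : Reg a) : Rg a := by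
  have h1 := h.rank
  have h2 := (a - 1).finrank_range_add_finrank_ker
  obtain ⟨w, hw⟩ := finrank_le_one_iff.1 (show finrank K (LinearMap.ker (a - 1)) ≤ 1 by omega)
  exact ⟨h.unip, w, fun v hv => (hw ⟨v, by simpa [sub_eq_zero] using hv⟩).imp fun c hc => (congrArg Subtype.val hc).symm⟩

/-- Let K be a field with at least four elements (finite or infinite), n ≥ 3, and J ∈ GL(n, K) the regular unipotent matrix (ones on the diagonal and the superdiagonal, zeros elsewhere). Then every non-scalar g ∈ GL(n, K) with det g = 1 is a product of two GL(n, K)-conjugates of J. -/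
theorem result {K : Type*} [Field K] (hK : 4 ≤ Cardinal.mk K) (n : ℕ) (hn : 3 ≤ n) (J g : GL (Fin n) K)
    (hJ : ∀ i j : Fin n, (J : Matrix (Fin n) (Fin n) K) i j = if i = j then 1 else if j.val = i.val + 1 then 1 else 0)
    (hg : ¬ ∃ c : K, (g : Matrix (Fin n) (Fin n) K) = c • (1 : Matrix (Fin n) (Fin n) K))
    (hdet : (g : Matrix (Fin n) (Fin n) K).det = 1) :
    ∃ x y : GL (Fin n) K, g = (x * J * x⁻¹) * (y * J * y⁻¹) := by
  have big : Big K := fun a b c => by
    obtain ⟨t, ht⟩ := Cardinal.exists_notMem_of_length_lt [a, b, c] (lt_of_lt_of_le (by simp; norm_num) hK)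
    exact ⟨t, by simpa using ht⟩
  have hV : finrank K (Fin n → K) = n := by simp
  have hd := (det_mE _).trans hdet
  have hs : ∀ c : K, mE g.1 - 1 ≠ c • 1 := fun c h => hg ⟨c + 1, mE_inj.1 (by rw [mE_smul, mE_one, add_smul, ← h]; simp)⟩
  obtain ⟨a, b, h1, h2, h3⟩ : ∃ a b, a * b = mE g.1 ∧ Rg a ∧ Rg b := by
    by_cases hR : R1 (mE g.1 - 1)
    · refine transv big hd hR (fun h => hs 0 (by simp [h])) fun S hS => ?_
      obtain ⟨f, h1, h2⟩ := exists_JT (F := K) (V := S) (μ := {finrank K S}) (by simpa) (by simp)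
      exact ⟨f, rg ⟨h1, h2⟩⟩
    · obtain ⟨a, b, h1, h2, h3, -⟩ := main big n _ hV hd (fun _ => ⟨hs, hR⟩) (fun _ => 1)
        (fun h => one_ne_zero (congrFun h ⟨0, by omega⟩)) (LinearMap.proj ⟨0, by omega⟩)
        fun h => one_ne_zero (LinearMap.congr_fun h fun _ => 1)
      exact ⟨a, b, h1, h2, h3⟩
  have hJ' : ∀ (v : Fin n → K) i, (mE J.1 - 1) v i = if h : i.val + 1 < n then v ⟨i + 1, h⟩ else 0 := fun v i => by
    have : ∀ j, J.1 i j * v j = (if i = j then v j else 0) + if j.val = i.val + 1 then v j else 0 := fun j => by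
      rw [hJ]; split_ifs with h1 h2 <;> first | omega | simp
    simp only [LinearMap.sub_apply, Pi.sub_apply, mE_apply, Matrix.mulVec, dotProduct, this, Finset.sum_add_distrib,
      Finset.sum_ite_eq, Finset.mem_univ, if_true, End.one_apply, add_sub_cancel_left]
    split_ifs with h
    · rw [Finset.sum_eq_single ⟨i + 1, h⟩ (fun j _ hj => if_neg fun e => hj (Fin.ext e)) (by simp), if_pos rfl]
    · exact Finset.sum_eq_zero fun j _ => if_neg (by omega)
  have hJr : Rg (mE J.1) := by
    refine ⟨⟨n, LinearMap.ext fun v => funext fun i => ?_⟩, Pi.single ⟨0, by omega⟩ 1, fun v hv => ⟨v ⟨0, by omega⟩, funext fun i => ?_⟩⟩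
    · have : ∀ (k : ℕ) (i : Fin n), n ≤ i + k → ((mE J.1 - 1) ^ k) v i = 0 := fun k => by
        induction k with
        | zero => intro i hi; omega
        | succ k ih =>
          intro i hi
          rw [pow_succ', End.mul_apply, hJ']
          split_ifs with h
          · exact ih _ (by simp; omega)
          · rfl
      exact this n i (by omega)
    · obtain ⟨_ | i, hi⟩ := i
      · simp
      · have := hJ' v ⟨i, by omega⟩
        rw [dif_pos hi, LinearMap.sub_apply, hv] at this
        simpa [Pi.single_apply] using this.symm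
  have key : ∀ a, Rg a → ∃ x : GL (Fin n) K, mE (x * J * x⁻¹).1 = a := fun a ha => by
    obtain ⟨A, rfl⟩ := mE_surj a
    have h0 : 0 < finrank K (Fin n → K) := by omega
    have hA : A.det ≠ 0 := by rw [← det_mE, (reg ha h0).unip.det]; exact one_ne_zero
    obtain ⟨x, hx⟩ := isConj_iff.1 ((gl_isConj_iff (B := Matrix.GeneralLinearGroup.mkOfDetNeZero A hA)).2
      ((reg hJr h0).sim (reg ha h0) rfl))
    exact ⟨x, by rw [hx]; rfl⟩
  obtain ⟨x, rfl⟩ := key a h2
  obtain ⟨y, rfl⟩ := key b h3
  exact ⟨x, y, Units.ext (mE_inj.1 (by rw [← h1, ← mE_mul]; rfl))⟩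

end Cfsg.Agent.S2522
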