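import Cfsg.Statements.S2524
import Cfsg.Agent.H24.Wc2
import Cfsg.Agent.H24.Wc3

set_option autoImplicit false
open Cfsg

namespace Cfsg.Agent.S2524

open H24 H11 H11.PForm H5 Module Finset

/-- Let F be a finite field of odd order q and G = Sp(2n, F) with n ≥ 2. Then G has exactly four irreducible complex characters of degree (q^n + 1)/2 or (q^n − 1)/2 (two of each), and every other non-principal irreducible character has degree at least (q^n − 1)(q^n − q)/(2(q + 1)). -/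
theorem result {F : Type*} [Field F] [Fintype F] (hodd : Odd (Fintype.card F)) (n : ℕ) (hn : 2 ≤ n) :
    Nat.card {χ : Cfsg.IrrCharacter ↥(Matrix.symplecticGroup (Fin n) F) // (χ : ↥(Matrix.symplecticGroup (Fin n) F) → ℂ) 1 = (((Fintype.card F) ^ n + 1 : ℕ) : ℂ) / 2} = 2 ∧
    Nat.card {χ : Cfsg.IrrCharacter ↥(Matrix.symplecticGroup (Fin n) F) // (χ : ↥(Matrix.symplecticGroup (Fin n) F) → ℂ) 1 = (((Fintype.card F) ^ n - 1 : ℕ) : ℂ) / 2} = 2 ∧
    ∀ χ : Cfsg.IrrCharacter ↥(Matrix.symplecticGroup (Fin n) F),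
      (χ : ↥(Matrix.symplecticGroup (Fin n) F) → ℂ) 1 ≠ 1 →
      (χ : ↥(Matrix.symplecticGroup (Fin n) F) → ℂ) 1 ≠ (((Fintype.card F) ^ n + 1 : ℕ) : ℂ) / 2 →
      (χ : ↥(Matrix.symplecticGroup (Fin n) F) → ℂ) 1 ≠ (((Fintype.card F) ^ n - 1 : ℕ) : ℂ) / 2 →
      (((Fintype.card F) ^ n - 1 : ℕ) : ℝ) * (((Fintype.card F) ^ n - Fintype.card F : ℕ) : ℝ) / (2 * ((Fintype.card F : ℕ) + 1 : ℝ)) ≤ ‖(χ : ↥(Matrix.symplecticGroup (Fin n) F) → ℂ) 1‖ := by
  classical
  have hS := stdSymp_nondeg (F := F) n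
  let φ : (stdSymp n F).E ≃* Matrix.symplecticGroup (Fin n) F :=
    ((MulEquiv.subgroupCongr hS.symp_E_eq_top).trans Subgroup.topEquiv).trans (spEquiv n F).symm
  obtain ⟨ψ, hψ⟩ := exists_addChar_complex F
  have h2 := two_ne_zero_of_odd_card hodd
  have h3 : 3 ≤ Fintype.card F := by
    have := Fintype.one_lt_card (α := F)
    obtain ⟨k, hk⟩ := hodd
    omega
  have h9 : Fintype.card F * Fintype.card F ≤ Fintype.card F ^ n := by
    rw [← sq]
    exact Nat.pow_le_pow_right (by omega) hn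
  have hV : finrank F (Fin n ⊕ Fin n → F) = 2 * n := finrank_sum_fun n
  have hc : ∀ c : F, c ≠ 0 → ψ.mulShift c ≠ 1 := fun c hc => AddChar.IsPrimitive.of_ne_one hψ hc
  choose! χ h1 h4 using fun c (c0 : c ≠ 0) => weil_pkg (hc c c0) h2 hS (schr_zero _) (schr_mul _) (by simp [← pow_mul, mul_two])
    (by rw [wtr_mul, ← wtr_one (ψ.mulShift c)]; simp) (trace_parity _ h2) (sum_schr _ (hc c c0)) (by omega)
    (by simp only [finrank_fintype_fun_eq_card, Fintype.card_fun, Fintype.card_fin]; nlinarith)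
  simp only [finrank_fintype_fun_eq_card, Fintype.card_fun, Fintype.card_fin] at h1
  obtain ⟨γ, γ0, hγ⟩ := H11.exists_not_isSquare h2
  have cl : ∀ θ : IrrCharacter (Matrix.symplecticGroup (Fin n) F), θ.1 1 ≠ 1 →
      (∃ c ε, (c = 1 ∨ c = γ) ∧ ε * ε = 1 ∧ θ.1 = fun g => χ c ε (φ.symm g)) ∨ ∃ k : ℕ, θ.1 1 = k ∧
      (Fintype.card F ^ n - 1) * (Fintype.card F ^ n - Fintype.card F) ≤ 2 * (Fintype.card F + 1) * k := fun θ hθ => by
    obtain ⟨k, ρ, hρ, e⟩ := θ.2.comp_equiv φ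
    have e1 : θ.1 1 = k := by simpa using (congrFun e 1).symm
    have hk : 2 ≤ k := by
      have := ((H5.isIrreducible_iff ρ).1 hρ).1
      have := finrank_pos (R := ℂ) (M := Fin k → ℂ)
      have : k ≠ 1 := fun h => hθ (by simp [e1, h])
      simp at *
      omega
    obtain ⟨v, a, m, a0, m0, hm⟩ := exists_ZW ρ hψ hS (exists_ne_one_of_two_le ρ (by simpa using hk))
    obtain ⟨c, hc', c0, s, hs⟩ : ∃ c, (c = 1 ∨ c = γ) ∧ c ≠ 0 ∧ ∃ s, c = s ^ 2 * a := by
      by_cases h : IsSquare a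
      · obtain ⟨s, -, hs⟩ := exists_sq_mul_of_sqSign_eq a0 one_ne_zero ((sqSign_eq_one_iff.2 h).trans sqSign_one.symm)
        exact ⟨1, Or.inl rfl, one_ne_zero, s, hs⟩
      · obtain ⟨s, -, hs⟩ := exists_sq_mul_of_sqSign_eq a0 γ0 ((sqSign_eq_neg_one_iff.2 h).trans (sqSign_eq_neg_one_iff.2 hγ).symm)
        exact ⟨γ, Or.inr rfl, γ0, s, hs⟩
    by_cases hR : RkOne ρ (ψ.mulShift c)
    · have h5 : ∀ ε, ρ.character = χ c ε → θ.1 = fun g => χ c ε (φ.symm g) := fun ε h => funext fun g => by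
        simp [← h, e]
      obtain h | h := h4 c c0 k ρ hρ hR (s • v) m m0 fun t => by simpa [← hs, mul_comm] using ZW_smul hm s t
      exacts [Or.inl ⟨c, 1, hc', by ring, h5 _ h⟩, Or.inl ⟨c, -1, hc', by ring, h5 _ h⟩]
    · exact Or.inr ⟨k, e1, by simpa using sp_big (hc c c0) h2 hS hV hR⟩
  have c0 : ∀ {c}, c = 1 ∨ c = γ → c ≠ 0 := by rintro _ (rfl | rfl) <;> simp [*]
  have cnt : ∀ (ε : ℂ) (D : ℕ), ε * ε = 1 → (D : ℂ) = (Fintype.card F ^ n : ℕ) + ε → D ≤ Fintype.card F ^ n + 1 → D ≠ 2 →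
      Nat.card {χ : IrrCharacter (Matrix.symplecticGroup (Fin n) F) // χ.1 1 = D / 2} = 2 := fun ε D hε hD hD' hD2 => by
    let X : ∀ c, c = 1 ∨ c = γ → {χ : IrrCharacter (Matrix.symplecticGroup (Fin n) F) // χ.1 1 = D / 2} := fun c hc =>
      ⟨⟨_, (h1 c (c0 hc) ε hε).1.comp_equiv φ.symm⟩, by
        simp only [map_one]
        linear_combination (h1 c (c0 hc) ε hε).2.1 / 2 - hD / 2⟩
    refine Nat.card_eq_two_iff.2 ⟨X 1 (Or.inl rfl), X γ (Or.inr rfl), fun h => ?_, Set.eq_univ_of_forall fun θ => ?_⟩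
    · obtain ⟨v, hv⟩ := (h1 1 one_ne_zero ε hε).2.2.2
      refine hv (Eq.trans (sum_congr rfl fun t _ => ?_) ((h1 γ γ0 ε hε).2.2.1 v γ⁻¹ (by simpa using hγ)))
      have := congrFun (congrArg (·.1.1) h) (φ (tv _ v t))
      simp only [X, MulEquiv.symm_apply_apply] at this
      simp [this, mul_left_comm γ, γ0]
    · obtain ⟨c, ε', hc, h5, h6⟩ | ⟨k, h5, h6⟩ := cl θ.1 fun h => hD2 (by
        have : (D : ℂ) = (2 : ℕ) := by push_cast; linear_combination 2 * h - 2 * θ.2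
        exact_mod_cast this)
      · have h7 := θ.2
        rw [h6] at h7
        obtain rfl : ε' = ε := by
          simp only [map_one] at h7
          linear_combination 2 * h7 + hD - (h1 c (c0 hc) ε' h5).2.1
        obtain rfl | rfl := hc
        exacts [Or.inl (Subtype.ext (Subtype.ext h6)), Or.inr (Subtype.ext (Subtype.ext h6))]
      · have h7 : 2 * k = D := by
          have : ((2 * k : ℕ) : ℂ) = D := by push_cast; linear_combination 2 * θ.2 - 2 * h5
          exact_mod_cast this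
        exfalso
        generalize Fintype.card F ^ n = Q at *
        generalize Fintype.card F = q at *
        obtain ⟨r, rfl⟩ : ∃ r, Q = r + q + q + 3 := ⟨Q - q - q - 3, by
          have : 3 * q ≤ q * q := Nat.mul_le_mul_right _ h3
          omega⟩
        rw [show r + q + q + 3 - 1 = r + q + q + 2 by omega, show r + q + q + 3 - q = r + q + 3 by omega] at h6
        nlinarith
  have h5 : 1 ≤ Fintype.card F ^ n := by nlinarith
  refine ⟨cnt 1 _ (by ring) (by simp) le_rfl (by nlinarith), cnt (-1) _ (by ring) (by rw [Nat.cast_sub h5]; ring) (by omega)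
    (by have : 9 ≤ Fintype.card F ^ n := by nlinarith
        omega), fun θ a b d => ?_⟩
  obtain ⟨c, ε, hc, h5, h6⟩ | ⟨k, h5, h6⟩ := cl θ a
  · have h7 := (h1 c (c0 hc) ε h5).2.1
    rw [h6] at b d
    simp only [map_one] at b d
    obtain rfl | rfl := mul_self_eq_one_iff.1 h5
    · exact (b (by push_cast at h7 ⊢; linear_combination h7 / 2)).elim
    · exact (d (by rw [Nat.cast_sub ‹_›]; linear_combination h7 / 2)).elim
  · rw [h5, Complex.norm_natCast, div_le_iff₀' (by positivity)]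
    exact_mod_cast h6

end Cfsg.Agent.S2524
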