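import Cfsg.Statements.S2525
import Cfsg.Agent.H12.SpF4

set_option autoImplicit false
open Cfsg

namespace Cfsg.Agent.S2525
open H12 H13 Cfsg.Lie

/-- Let F be a finite field with q = 2^n elements and G = F₄(F). For an odd prime r let e(r, q) be the multiplicative order of q modulo r. Two distinct primes r, s dividing the order of G are non-adjacent in the prime graph of G (no element of order rs) if and only if, up to swapping r and s, either r = 2 and e(s, q) ∈ {8, 12}, or r, s are both odd with k = e(r, q) < l = e(s, q) and one of: l ∈ {8, 12}; l = 6 and k ∈ {3, 4}; l = 4 and k = 3. -/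
theorem result {F : Type*} [Field F] [Fintype F] (n : ℕ) (hn : 1 ≤ n) (hF : Fintype.card F = 2 ^ n)
    (r s : ℕ) (hr : r.Prime) (hs : s.Prime) (hrs : r ≠ s) (hrG : r ∣ Nat.card ↥(Cfsg.Lie.chevF4.group F)) (hsG : s ∣ Nat.card ↥(Cfsg.Lie.chevF4.group F)) :
    (¬ ∃ x : ↥(Cfsg.Lie.chevF4.group F), orderOf x = r * s) ↔
      ((r = 2 ∧ orderOf ((Fintype.card F : ℕ) : ZMod s) ∈ ({8, 12} : Finset ℕ)) ∨ (s = 2 ∧ orderOf ((Fintype.card F : ℕ) : ZMod r) ∈ ({8, 12} : Finset ℕ)) ∨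
       (r ≠ 2 ∧ s ≠ 2 ∧
         ((orderOf ((Fintype.card F : ℕ) : ZMod r) < orderOf ((Fintype.card F : ℕ) : ZMod s) ∧ (orderOf ((Fintype.card F : ℕ) : ZMod s) ∈ ({8, 12} : Finset ℕ) ∨ (orderOf ((Fintype.card F : ℕ) : ZMod s) = 6 ∧ orderOf ((Fintype.card F : ℕ) : ZMod r) ∈ ({3, 4} : Finset ℕ)) ∨ (orderOf ((Fintype.card F : ℕ) : ZMod s) = 4 ∧ orderOf ((Fintype.card F : ℕ) : ZMod r) = 3))) ∨
          (orderOf ((Fintype.card F : ℕ) : ZMod s) < orderOf ((Fintype.card F : ℕ) : ZMod r) ∧ (orderOf ((Fintype.card F : ℕ) : ZMod r) ∈ ({8, 12} : Finset ℕ) ∨ (orderOf ((Fintype.card F : ℕ) : ZMod r) = 6 ∧ orderOf ((Fintype.card F : ℕ) : ZMod s) ∈ ({3, 4} : Finset ℕ)) ∨ (orderOf ((Fintype.card F : ℕ) : ZMod r) = 4 ∧ orderOf ((Fintype.card F : ℕ) : ZMod s) = 3)))))) := by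
  have := charP_of_card_eq_prime_pow hF
  have := Fact.mk hr
  have := Fact.mk hs
  have k : ∀ t : ℕ, t.Prime → t ≠ 2 → ¬ t ∣ Fintype.card F := fun t ht h e =>
    h ((Nat.prime_dvd_prime_iff_eq ht Nat.prime_two).1 (ht.dvd_of_dvd_pow (hF ▸ e)))
  obtain rfl | r2 := eq_or_ne r 2
  · rw [F4_two rfl hrs.symm (F4_ord rfl (k s hs hrs.symm) hsG)]; simp [hrs.symm, or_iff_not_imp_left]
  obtain rfl | s2 := eq_or_ne s 2
  · rw [mul_comm, F4_two rfl r2 (F4_ord rfl (k r hr r2) hrG)]; simp [r2, or_iff_not_imp_left]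
  obtain ⟨a1, a2, a3, a4, a5⟩ := f4_ord r2 (Fintype.card F : ZMod r)
  obtain ⟨b1, b2, b3, b4, b5⟩ := f4_ord s2 (Fintype.card F : ZMod s)
  rw [F4_odd rfl hrs r2 s2]
  simp only [or_and_right, exists_or, exists_eq_left, dvd_cast_iff]
  push_cast
  rw [a1, a2, a3, a4, a5, b1, b2, b3, b4, b5]
  simp only [r2, s2, false_and, false_or, ne_eq, not_false_eq_true, true_and]
  have h1 := F4_ord rfl (k r hr r2) hrG
  have h2 := F4_ord rfl (k s hs s2) hsG
  generalize orderOf (Fintype.card F : ZMod r) = a at h1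
  generalize orderOf (Fintype.card F : ZMod s) = b at h2
  revert a b
  decide

end Cfsg.Agent.S2525
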