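import Cfsg.Statements.S2556
import Cfsg.Agent.H17.SzAut
import Cfsg.Agent.H13.SzModel
import Cfsg.Agent.H13.SzLocal

set_option autoImplicit false
open Cfsg

namespace Cfsg.Agent.S2556

open H13.Sz

/-- Let S be a Sylow 2-subgroup of the Suzuki group Sz(q), q = 2ⁿ with n = 2m + 1 ≥ 3 (realised as 4 × 4 matrices over the field with q elements). Then the largest normal 2-subgroup of the automorphism group of S is elementary abelian of order 2^(n²), and the automorphism group of S has order 2^(n²) · n · (q − 1). -/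
theorem result {S : Type*} [Group S] [Finite S] (m : ℕ) (hm : 1 ≤ m)
    {F : Type*} [Field F] [Fintype F] (hF : Fintype.card F = 2 ^ (2 * m + 1))
    (P : Sylow 2 ↥(Cfsg.Lie.Sz F (2 ^ (m + 1)))) (hS : Nonempty (S ≃* ↥(P : Subgroup ↥(Cfsg.Lie.Sz F (2 ^ (m + 1)))))) :
    Cfsg.IsElementaryAbelian 2 (Cfsg.pCore 2 (MulAut S)) ∧ Nat.card ↥(Cfsg.pCore 2 (MulAut S)) = 2 ^ ((2 * m + 1) ^ 2) ∧
      Nat.card (MulAut S) = 2 ^ ((2 * m + 1) ^ 2) * ((2 * m + 1) * (2 ^ (2 * m + 1) - 1)) := by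
  have : IsSz F m := ⟨hm, hF⟩
  obtain ⟨φ⟩ := hS
  let e := lieEquiv F m
  have : Finite (Cfsg.Lie.Sz F (2 ^ (m + 1))) := Finite.of_equiv _ e.toEquiv
  let ψ : S ≃* U F m := φ.trans ((P.equiv (Sylow.mapSurjective (f := e.toMonoidHom) e.surjective (sylowU F m))).trans
    ((U F m).equivMapOfInjective _ e.injective).symm)
  choose f z hf using fun x : S => (ψ x).2
  have sur : ∀ a b, ∃ x, f x = a ∧ z x = b := fun a b =>
    ⟨ψ.symm ⟨_, u_mem_U a b⟩, u_inj.1 ((hf _).symm.trans (by simp))⟩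
  have mu : ∀ x y, f (x * y) = f x + f y ∧ z (x * y) = z x + z y + th m (f x) * f y := fun x y =>
    u_inj.1 (by rw [← hf, ← u_mul_u, ← hf, ← hf, map_mul]; rfl)
  let σ : F ≃+* F := .ofBijective (th m) ⟨th_injective, th_surjective⟩
  have inj : ∀ x y, f x = f y → z x = z y → x = y := fun x y e1 e2 =>
    ψ.injective (Subtype.ext (by rw [hf, hf, e1, e2]))
  have h : H17.CD σ (fun _ => True) f z := ⟨fun x y => (mu x y).1, fun x y => (mu x y).2, inj,
    fun a => (sur a 0).imp fun _ h => h.1, fun t _ => sur 0 t, fun a ha => by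
      obtain ⟨c, hc⟩ := Finite.surjective_of_injective (f := fun x : F => x * th m x) (fun x y e => by
        by_cases y0 : y = 0
        · simpa [y0] using e
        · exact (div_eq_one_iff_eq y0).1 (eq_one_of_mul_th (m := m) (by
            rw [map_div₀, div_mul_div_comm, show x * th m x = _ from e, div_self (by simpa using y0)]))) (z a)
      obtain ⟨x, rfl, -⟩ := sur c 0
      exact ⟨x, inj _ _ (by rw [(mu _ _).1, ha, CharTwo.add_self_eq_zero])
        (by rw [(mu _ _).2, CharTwo.add_self_eq_zero, zero_add, mul_comm]; exact hc)⟩, fun _ _ _ _ => sur _ _,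
    fun _ => trivial⟩
  obtain ⟨h1, h2, h3⟩ := h.aut (q := 2 ^ (2 * m + 1)) hF (by
    rw [← hF, ← Nat.card_eq_fintype_card]
    exact Nat.card_eq_of_bijective (fun a => z a.1) ⟨fun a b e => Subtype.ext (inj _ _ (a.2.trans b.2.symm) e), fun t =>
      let ⟨x, e1, e2⟩ := sur 0 t; ⟨⟨x, e1⟩, e2⟩⟩) (H17.semi_sz fun h => by
    obtain ⟨g, hg⟩ := IsCyclic.exists_ofOrder_eq_natCard (α := Fˣ)
    have e : (g : F) ^ 4 = g := by
      have : th m (th m (th m (th m (g : F)))) = g := RingEquiv.congr_fun h g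
      rwa [th_th, th_th, ← pow_mul] at this
    have := Nat.le_of_dvd three_pos (orderOf_dvd_of_pow_eq_one (show g ^ 3 = 1 from Units.ext (mul_right_cancel₀ g.ne_zero
      (by rw [Units.val_pow_eq_pow_val, ← pow_succ, e, Units.val_one, one_mul]))))
    rw [hg, Nat.card_units, Nat.card_eq_fintype_card, hF] at this
    have := Nat.pow_le_pow_right two_pos (show 3 ≤ 2 * m + 1 by omega)
    omega)
  have e : (2 ^ (2 * m + 1)) ^ (2 * m + 1) = 2 ^ ((2 * m + 1) ^ 2) := by rw [← pow_mul, sq]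
  exact ⟨h1, h2.trans e, by rw [h3, e]⟩

end Cfsg.Agent.S2556
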