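import Cfsg.Statements.S2557
import Cfsg.Agent.H11.Two2

set_option autoImplicit false
open Cfsg

namespace Cfsg.Agent.S2557

/-- The number of conjugacy classes of Sp(2n,q), q even: for F a finite field of even order q and n ≥ 1, the number k of conjugacy classes of Sp(2n,F) satisfies q^n ≤ k ≤ 15.2·q^n. -/
theorem result {F : Type*} [Field F] [Fintype F] (heven : Even (Fintype.card F)) (n : ℕ) (hn : 1 ≤ n) :
    Fintype.card F ^ n ≤ Nat.card (ConjClasses (Matrix.symplecticGroup (Fin n) F)) ∧
      5 * Nat.card (ConjClasses (Matrix.symplecticGroup (Fin n) F)) ≤ 76 * Fintype.card F ^ n := by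
  have hS := H11.stdSymp_nondeg (F := F) n
  have := H11.PForm.finite_isom (S := H11.stdSymp n F)
  have : CharP F 2 := ringChar.of_eq (FiniteField.even_card_iff_char_two.2 (Nat.even_iff.1 heven))
  rw [← H11.card_classes_true, H11.card_classes_equiv (H11.spEquiv n F) (q := fun _ => True) (by simp),
    H11.card_classes_true, ← Nat.card_eq_fintype_card]
  exact ⟨H11.symp_ss_card hS (n := n) (by simp [two_mul]) ▸
    Nat.card_le_card_of_injective _ Subtype.val_injective, H11.symp_two_classes hS (by simp [two_mul])⟩

end Cfsg.Agent.S2557
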