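import Cfsg.Statements.S2558
import Cfsg.Agent.H11.Zas

set_option autoImplicit false
open Cfsg

namespace Cfsg.Agent.S2558

theorem aux {F : Type*} {ι : Type} [Field F] [Fintype F] [Fintype ι] [DecidableEq ι] (hodd : Odd (Fintype.card F))
    {n : ℕ} (hn : 2 ≤ n) (hι : Fintype.card ι = 2 * n) (Q : QuadraticForm F (ι → F))
    (hS : (H11.orthS Q).Nondeg) :
    Fintype.card F ^ n ≤ 2 * Nat.card (ConjClasses ↥(Cfsg.isometryGroup F Q)) ∧
      2 * Nat.card (ConjClasses ↥(Cfsg.isometryGroup F Q)) ≤ 19 * Fintype.card F ^ n := by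
  have h2 := H11.two_ne_zero_iff_odd.2 hodd
  have h := H11.orth_classes_le h2 hS
  rw [← H11.card_classes_true, H11.card_classes_equiv (H11.orthEquiv Q) (q := fun _ => True) (by simp),
    H11.card_classes_true, ← Nat.card_eq_fintype_card]
  refine ⟨H11.orth_even_le h2 hS hn (by simp [hι]), Nat.cast_le (α := ℝ).1 ?_⟩
  simp [H11.ww, hι] at h ⊢
  have : (0 : ℝ) ≤ (Fintype.card F : ℝ) ^ n := by positivity
  linarith

/-- The number of conjugacy classes of the full orthogonal groups O⁺(2n,q) and O⁻(2n,q), q odd, 2n ≥ 4: for F a finite field of odd order q and n ≥ 2, the number k of conjugacy classes of the isometry group of the hyperbolic quadratic form Σ xᵢyᵢ on F^{2n}, and likewise of the elliptic form Σ xᵢyᵢ + (z₁² + a z₁z₂ + b z₂²) with anisotropic binary part, satisfies q^n/2 ≤ k ≤ 9.5·q^n. -/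
theorem result {F : Type*} [Field F] [Fintype F] (hodd : Odd (Fintype.card F)) (n : ℕ) (hn : 2 ≤ n) (a b : F) (hab : ∀ z₁ z₂ : F, z₁ ^ 2 + a * z₁ * z₂ + b * z₂ ^ 2 = 0 → z₁ = 0 ∧ z₂ = 0) :
    (Fintype.card F ^ n ≤ 2 * Nat.card (ConjClasses ↥(Cfsg.isometryGroup F (Cfsg.quadFormPlus n F))) ∧
      2 * Nat.card (ConjClasses ↥(Cfsg.isometryGroup F (Cfsg.quadFormPlus n F))) ≤ 19 * Fintype.card F ^ n) ∧
    (Fintype.card F ^ n ≤ 2 * Nat.card (ConjClasses ↥(Cfsg.isometryGroup F (Cfsg.quadFormMinus (n - 1) F a b))) ∧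
      2 * Nat.card (ConjClasses ↥(Cfsg.isometryGroup F (Cfsg.quadFormMinus (n - 1) F a b))) ≤ 19 * Fintype.card F ^ n) := by
  exact ⟨aux hodd hn (by simp [two_mul]) (H11.qPlus n F) (H11.sPlus_nondeg n F),
    aux hodd hn (by simp; omega) (H11.qMinus (n - 1) F a b) (H11.sMinus_nondeg _ hab)⟩

end Cfsg.Agent.S2558
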