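import Cfsg.Statements.S2559
import Cfsg.Agent.H11.Two3

set_option autoImplicit false
open Cfsg

namespace Cfsg.Agent.S2559

theorem aux {F : Type*} {ι : Type} [Field F] [Fintype F] [Fintype ι] [DecidableEq ι] (heven : Even (Fintype.card F))
    {n : ℕ} (hn : 2 ≤ n) (hι : Fintype.card ι = 2 * n) (Q : QuadraticForm F (ι → F))
    (hS : (H11.orthS Q).Nondeg) :
    Fintype.card F ^ n ≤ 2 * Nat.card (ConjClasses ↥(Cfsg.isometryGroup F Q)) ∧
      Nat.card (ConjClasses ↥(Cfsg.isometryGroup F Q)) ≤ 15 * Fintype.card F ^ n := by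
  have : CharP F 2 := ringChar.of_eq (FiniteField.even_card_iff_char_two.2 (Nat.even_iff.1 heven))
  rw [← H11.card_classes_true, H11.card_classes_equiv (H11.orthEquiv Q) (q := fun _ => True) (by simp),
    H11.card_classes_true, ← Nat.card_eq_fintype_card]
  exact ⟨H11.orth_two_ge hS hn (by simp [hι]), H11.orth_two_le hS (by simp [hι])⟩

/-- The number of conjugacy classes of the full orthogonal groups O⁺(2n,q) and O⁻(2n,q), q even, 2n ≥ 4: for F a finite field of even order q and n ≥ 2, the number k of conjugacy classes of the isometry group of the hyperbolic quadratic form Σ xᵢyᵢ on F^{2n}, and likewise of the elliptic form Σ xᵢyᵢ + (z₁² + a z₁z₂ + b z₂²) with anisotropic binary part, satisfies q^n/2 ≤ k ≤ 15·q^n. -/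
theorem result {F : Type*} [Field F] [Fintype F] (heven : Even (Fintype.card F)) (n : ℕ) (hn : 2 ≤ n) (a b : F) (hab : ∀ z₁ z₂ : F, z₁ ^ 2 + a * z₁ * z₂ + b * z₂ ^ 2 = 0 → z₁ = 0 ∧ z₂ = 0) :
    (Fintype.card F ^ n ≤ 2 * Nat.card (ConjClasses ↥(Cfsg.isometryGroup F (Cfsg.quadFormPlus n F))) ∧
      Nat.card (ConjClasses ↥(Cfsg.isometryGroup F (Cfsg.quadFormPlus n F))) ≤ 15 * Fintype.card F ^ n) ∧
    (Fintype.card F ^ n ≤ 2 * Nat.card (ConjClasses ↥(Cfsg.isometryGroup F (Cfsg.quadFormMinus (n - 1) F a b))) ∧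
      Nat.card (ConjClasses ↥(Cfsg.isometryGroup F (Cfsg.quadFormMinus (n - 1) F a b))) ≤ 15 * Fintype.card F ^ n) := by
  exact ⟨aux heven hn (by simp [two_mul]) (H11.qPlus n F) (H11.sPlus_nondeg n F),
    aux heven hn (by simp; omega) (H11.qMinus (n - 1) F a b) (H11.sMinus_nondeg _ hab)⟩

end Cfsg.Agent.S2559
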