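import Cfsg.Statements.S2560
import Cfsg.Agent.H11.Om

set_option autoImplicit false
open Cfsg

namespace Cfsg.Agent.S2560

/-- The number of conjugacy classes of Ω(2n+1,q), q odd, n ≥ 2: for F a finite field of odd order q, the number k of conjugacy classes of the commutator subgroup of the isometry group of the quadratic form x₀² + Σ xᵢyᵢ on F^{2n+1} satisfies q^n/2 ≤ k ≤ 7.3·q^n. -/
theorem result {F : Type*} [Field F] [Fintype F] (hodd : Odd (Fintype.card F)) (n : ℕ) (hn : 2 ≤ n) :
    Fintype.card F ^ n ≤ 2 * Nat.card (ConjClasses ↥(Cfsg.Omega F (Cfsg.quadFormOdd n F))) ∧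
      10 * Nat.card (ConjClasses ↥(Cfsg.Omega F (Cfsg.quadFormOdd n F))) ≤ 73 * Fintype.card F ^ n := by
  have := H11.card_classes_equiv (H11.omegaEquiv (H11.qOdd n F)) (p := fun _ => True) (q := fun _ => True) (by simp)
  rw [H11.card_classes_true, H11.card_classes_true, H11.qOdd_coe] at this
  rw [this, ← Nat.card_eq_fintype_card]
  exact H11.omega_odd_classes (H11.two_ne_zero_iff_odd.2 hodd) (H11.sOdd_nondeg n (H11.two_ne_zero_iff_odd.2 hodd))
    (by omega) (by simp [two_mul, add_comm])

end Cfsg.Agent.S2560
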