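import Cfsg.Statements.S2687
import Cfsg.Agent.H25.LB2
import Cfsg.Agent.S0280
import Cfsg.Agent.S0144
-- import your own Cfsg.Agent.* helpers here

set_option autoImplicit false
open Cfsg

namespace Cfsg.Agent.S2687

/-- A criterion for the failure of local balance in almost simple groups with unitary socle. Let F be a finite field of characteristic r with q² elements and K = PSU_n(q) (n ≥ 3, the central quotient of the determinant-one isometries of the standard Hermitian form) simple. Let A be a group of automorphisms of K containing all inner automorphisms, and β ∈ A an automorphism of prime order p ≠ r that is not inner-diagonal (not induced by conjugation by a matrix of the general unitary group). Then the largest normal subgroup of C_A(β) of order prime to p is nontrivial if and only if β is the composite of an inner-diagonal automorphism with the automorphism induced by a field automorphism of F applied entrywise and p does not divide the number of fixed points of β on K. -/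
theorem result
    (F : Type*) [Field F] [Fintype F] (r : ℕ) [Fact r.Prime] [CharP F r] (q : ℕ) (hF : Fintype.card F = q ^ 2)
    (n : ℕ) (hn : 3 ≤ n) (hK : IsSimpleGroup (Cfsg.PSU n F q))
    (𝒢 : Subgroup (MulAut (Cfsg.PSU n F q))) (hinn : ∀ k : Cfsg.PSU n F q, MulAut.conj k ∈ 𝒢)
    (p : ℕ) [Fact p.Prime] (hpr : p ≠ r) (β : MulAut (Cfsg.PSU n F q)) (hβ : β ∈ 𝒢) (hord : orderOf β = p)
    (hnot : ¬ Cfsg.IsInnerDiagonalAutPSU β) :
    Cfsg.pPrimeCore p ↥(𝒢 ⊓ Subgroup.centralizer {β}) ≠ ⊥ ↔
      ((∃ γ φ : MulAut (Cfsg.PSU n F q), Cfsg.IsInnerDiagonalAutPSU γ ∧ (∃ σ : F ≃+* F, Cfsg.IsFieldAutPSUOf σ φ) ∧ β = φ.trans γ) ∧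
        Nat.Coprime p (Nat.card ↥(MonoidHom.eqLocus β.toMonoidHom (MonoidHom.id (Cfsg.PSU n F q))))) := by
  have hF' : Nat.card F = q ^ 2 := Nat.card_eq_fintype_card.trans hF
  obtain ⟨σ, hq, hσ, hne⟩ := H11.exists_frob hF
  obtain ⟨τ, rfl⟩ : ∃ τ : F ≃+* F, (τ : F →+* F) = σ := ⟨.ofBijective σ (Function.Involutive.bijective hσ), rfl⟩
  have h0 := (H25.suCtx hσ hne hq hn).inn_ne_bot (H25.suCtx_hE hσ hne hq hn) (by simpa)
  have h4 : n = 3 → Nat.card F ≠ 4 := by
    rintro rfl h4
    obtain rfl : q = 2 := by nlinarith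
    have h5 := S0280.result hF 3 (by omega)
    have := (H25.suCtx hσ hne hq hn).finite
    have := S0144.result (G := PSU 3 F 2) 2 3 3 2 Nat.prime_two Nat.prime_three (by
      simp [Finset.prod_range_succ, Nat.even_iff] at h5; omega)
    refine h0 (eq_bot_iff.2 ?_)
    rintro _ ⟨k, rfl⟩
    ext x
    simp [IsSimpleGroup.comm_iff_isSolvable.2 this k x]
  refine (H25.lb_PSU hpr (hσ := hσ) hne hq hn hF' h4 hord hnot).row h0 (Or.inl ?_) 𝒢 hinn
  obtain ⟨y, rfl⟩ := H25.suPhi_surj hσ hne hq hn h4 β
  have hy := H25.su_rat hσ hne (n := n) y.1.right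
  exact ⟨_, _, (H25.su_inndiag_iff hσ hne hq hn _).2 ⟨⟨_, H25.left_mem_GS y hy⟩, rfl⟩,
    ⟨_, (H25.su_std_iff hσ hne hq hn _ _).2 rfl⟩, (congrArg _ (H25.eq_gsI_mul y hy)).trans (map_mul _ _ _)⟩

end Cfsg.Agent.S2687
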