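import Cfsg.Statements.S2792
import Cfsg.Agent.H16.HW

set_option autoImplicit false
open Cfsg

namespace Cfsg.Agent.S2792

open H18 Subgroup

/-- Let S be a Sylow p-subgroup of the finite group G and W a subgroup of S weakly closed in S with respect to G. If S ∩ G' ≠ S ∩ (N_G(W))', then there are x ∈ S, z ∈ W and a maximal subgroup W₀ of W such that the iterated commutator [x, z; p−1] (with [x, z] = x⁻¹z⁻¹xz and [x, z; i+1] = [[x, z; i], z]) lies in W₀ but not in the Frattini subgroup of W₀; in particular [x, z; p−1] ≠ 1. -/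
theorem result {G : Type*} [Group G] [Finite G] {p : ℕ} [Fact p.Prime] (S : Sylow p G) (W : Subgroup G) (hW : Cfsg.IsWeaklyClosed W (S : Subgroup G)) (h : (S : Subgroup G) ⊓ commutator G ≠ (S : Subgroup G) ⊓ ⁅Subgroup.normalizer (W : Set G), Subgroup.normalizer (W : Set G)⁆) : ∃ x ∈ (S : Subgroup G), ∃ z ∈ W, ∃ W₀ : Subgroup ↥W, IsCoatom W₀ ∧ (fun y : G => y⁻¹ * z⁻¹ * y * z)^[p - 1] x ∈ W₀.map W.subtype ∧ (fun y : G => y⁻¹ * z⁻¹ * y * z)^[p - 1] x ∉ ((frattini ↥W₀).map W₀.subtype).map W.subtype := by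
  have hp : p.Prime := Fact.out
  have SN : (S : Subgroup G) ≤ N(W) := fun g hg => mem_N_iff_cj.2 (hW.2 g (cj_le_of_mem hW.1 hg))
  have c : (pResidual p N(W)).map N(W).subtype ≠ pResidual p G ⊓ N(W) := fun c => h (le_antisymm (fun g hg => ⟨hg.1, by
    have e := H3.pResidual_sup_eq_top (p := p) fun d => S.not_dvd_index (d.trans (index_dvd_of_le SN))
    have : commutator G ≤ pResidual p G ⊔ ⁅N(W), N(W)⁆ := by
      rw [_root_.commutator_def, ← e]
      have n : ∀ K : Subgroup G, K ≤ N(W) → K ≤ N(pResidual p G ⊔ ⁅N(W), N(W)⁆) := fun K hK =>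
        norm_sup norm_of_normal (hK.trans norm_comm_left)
      have n' : pResidual p G ≤ N(pResidual p G ⊔ ⁅N(W), N(W)⁆) := le_norm le_sup_left
      exact comm_sup_le ((commutator_le_left ..).trans le_sup_left) (comm_sup_le' ((commutator_le_right ..).trans
        le_sup_left) le_sup_right n' (n _ le_rfl)) n' (n _ le_rfl)
    obtain ⟨o, ho, n, hn, rfl⟩ := (mem_sup_of_norm' norm_of_normal).1 (this hg.2)
    obtain ⟨o, ho', rfl⟩ := c.ge ⟨ho, (N(W).mul_mem_cancel_right (der_le hn)).1 (SN hg.1)⟩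
    rw [← map_subtype_commutator] at hn ⊢
    obtain ⟨n, hn, rfl⟩ := hn
    refine ⟨o * n, (Abelianization.ker_of _).le ?_, rfl⟩
    have h1 := H3.coprime_orderOf_map_of_mem_pResidual Abelianization.of ho'
    have h2 : Abelianization.of (o * n) = Abelianization.of o := by
      rw [map_mul, show Abelianization.of n = 1 from (Abelianization.ker_of _).ge hn, mul_one]
    obtain ⟨k, hk⟩ := S.isPGroup' ⟨_, hg.1⟩
    have h3 : (o * n) ^ p ^ k = 1 := Subtype.ext (congrArg (S : Subgroup G).subtype hk :)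
    exact orderOf_eq_one_iff.1 (((h2 ▸ h1 :).pow_right k).eq_one_of_dvd
      (orderOf_dvd_of_pow_eq_one (by rw [← map_pow, h3, map_one])))⟩)
    (inf_le_inf_left _ (commutator_mono le_top le_top)))
  obtain ⟨x, hx, z, hz, W₀, h1, h2, θ, m, e⟩ := H16.hall_wielandt S hW c
  refine ⟨x, hx, z, hz, W₀.subgroupOf W, H3.isCoatom_of_index_eq_prime h2, by rwa [map_subgroupOf_eq_of_le h1], ?_⟩
  rintro ⟨_, ⟨y, hy, rfl⟩, e'⟩
  let f := θ.comp (subgroupOfEquivOfLe h1).toMonoidHom
  have pg : Nat.card (Multiplicative (ZMod p)) = p := (Nat.card_congr Multiplicative.toAdd).trans (Nat.card_zmod p)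
  refine e ((congrArg θ (Subtype.ext e'.symm)).trans (show y ∈ f.ker from ?_))
  have := card_subgroup_dvd_card f.range
  rw [pg, ← index_ker] at this
  rcases (Nat.dvd_prime hp).1 this with c | c
  · exact (index_eq_one.1 c).ge trivial
  · exact frattini_le_coatom (H3.isCoatom_of_index_eq_prime c) hy

end Cfsg.Agent.S2792
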