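import Cfsg.Statements.S2807
import Cfsg.Agent.H27.Yosh

set_option autoImplicit false
open Cfsg

namespace Cfsg.Agent.S2807

open H20 H27 Subgroup

/-- Let S be a Sylow p-subgroup of the finite group G. If S ∩ G' ≠ S ∩ (N_G(S))' (derived subgroups), then the wreath product Z_p ≀ Z_p — realised as a Sylow p-subgroup of the symmetric group of degree p² — is a homomorphic image of S. -/
theorem result {G : Type*} [Group G] [Finite G] {p : ℕ} [Fact p.Prime] (S : Sylow p G) (h : (S : Subgroup G) ⊓ commutator G ≠ (S : Subgroup G) ⊓ ⁅Subgroup.normalizer ((S : Subgroup G) : Set G), Subgroup.normalizer ((S : Subgroup G) : Set G)⁆) : ∃ (P : Sylow p (Equiv.Perm (Fin (p ^ 2)))) (f : ↥(S : Subgroup G) →* ↥(P : Subgroup (Equiv.Perm (Fin (p ^ 2))))), Function.Surjective f := by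
  have hS := syl_top S
  have hN := hS.mono le_normalizer le_top
  refine yoshida hS.pgroup (hS.sat (hSH := le_top)) (hN.sat (hSH := le_normalizer)) (fun P σ hσ => ?_)
    (fun σ hσ => ?_) (by rwa [foc_group hS, foc_group hN])
  · obtain ⟨h1, h2, g, -, e⟩ := mor_sub_iff.1 hσ
    exact mor_sub_iff.2 ⟨h1, h2, g, trivial, e⟩
  · obtain ⟨h1, h2, g, -, e⟩ := mor_sub_iff.1 hσ
    exact mor_sub_iff.2 ⟨h1, h2, g, normalizer_of_eqOn (hσ.stab h2) e, e⟩

end Cfsg.Agent.S2807
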