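import Cfsg.Statements.S2896
import Cfsg.Agent.H17.FStar

set_option autoImplicit false
open Cfsg

namespace Cfsg.Agent.S2896

/-- Let p be a prime dividing the order of the finite group G, S a Sylow p-subgroup of G and X a subgroup of S. (i) If some nontrivial element z of the centre of X has F*(C_G(z)) = O_p(C_G(z)), then F*(N_G(X)) = O_p(N_G(X)). (ii) G has parabolic characteristic p if and only if F*(C_G(z)) = O_p(C_G(z)) for every nontrivial z ∈ Ω₁(Z(S)). (iii) If F*(C_G(z)) = O_p(C_G(z)) for every element z of S of order p, then G has local characteristic p. -/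
theorem result {G : Type*} [Group G] [Finite G] {p : ℕ} [Fact p.Prime] (hdiv : p ∣ Nat.card G) (S : Sylow p G) (X : Subgroup G) (hX : X ≤ (S : Subgroup G)) : (∀ z : G, z ≠ 1 → z ∈ X → (∀ x ∈ X, x * z = z * x) → Cfsg.generalizedFittingSubgroup ↥(Subgroup.centralizer ({z} : Set G)) = Cfsg.pCore p ↥(Subgroup.centralizer ({z} : Set G)) → Cfsg.generalizedFittingSubgroup ↥(Subgroup.normalizer (X : Set G)) = Cfsg.pCore p ↥(Subgroup.normalizer (X : Set G))) ∧ (Cfsg.IsOfParabolicCharacteristic p G ↔ ∀ z : G, z ≠ 1 → z ∈ Cfsg.omegaOne p ((S : Subgroup G) ⊓ Subgroup.centralizer ((S : Subgroup G) : Set G)) → Cfsg.generalizedFittingSubgroup ↥(Subgroup.centralizer ({z} : Set G)) = Cfsg.pCore p ↥(Subgroup.centralizer ({z} : Set G))) ∧ ((∀ z : G, z ∈ (S : Subgroup G) → orderOf z = p → Cfsg.generalizedFittingSubgroup ↥(Subgroup.centralizer ({z} : Set G)) = Cfsg.pCore p ↥(Subgroup.centralizer ({z} : Set G))) → Cfsg.IsOfLocalCharacteristic p G) := by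
  have key : ∀ T : Subgroup G, IsPGroup p T → ∀ z ∈ T, H17.CharP p (Subgroup.centralizer {z}) →
      H17.CharP p (Subgroup.normalizer (T : Set G)) := fun T hT z hz h =>
    (H17.charP_normalizer_iff hT).mpr (h.centralizer_of_mem hT hz)
  have key2 : ∀ g z : G, H17.CharP p (Subgroup.centralizer {g⁻¹ * z * g}) →
      H17.CharP p (Subgroup.centralizer {z}) := fun g z h => by
    have := h.cj g
    rwa [H17.cj_centralizer_singleton, show g * (g⁻¹ * z * g) * g⁻¹ = z by group] at this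
  have hS := H17.isSyl_sylow S
  refine ⟨fun z _ hz _ h => H17.gfit_eq_oP_iff.mpr (key X (S.isPGroup'.to_le hX) z hz (H17.gfit_eq_oP_iff.mp h)),
    ⟨fun h z hz1 hz => ?_, fun h R hR hR1 ⟨T, hT⟩ => ?_⟩, fun h => ⟨hdiv, fun T hT hT1 => ?_⟩⟩
  · have hz' : z ∈ (S : Subgroup G) ⊓ Subgroup.centralizer ((S : Subgroup G) : Set G) :=
      (Subgroup.closure_le _).mpr (fun x hx => hx.1) hz
    have hR : IsPGroup p (Subgroup.zpowers z) := S.isPGroup'.to_le (Subgroup.zpowers_le.mpr hz'.1)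
    have h1 := H17.charP_iff_sub.mpr (h _ hR (by rwa [Ne, Subgroup.zpowers_eq_bot]) ⟨S,
      H17.le_normalizer_of_le_centralizer (Subgroup.le_centralizer_iff.mp (Subgroup.zpowers_le.mpr hz'.2))⟩)
    rw [H17.gfit_eq_oP_iff, H17.centralizer_singleton_eq_zpowers]
    exact (H17.charP_normalizer_iff hR).mp h1
  · obtain ⟨z, hz, hz2⟩ := H17.exists_orderOf_of_ne_bot hR.to_inf_left
      (H17.inf_centralizer_ne_bot hR T.isPGroup' hT hR1)
    obtain ⟨g, -, hg⟩ := hS.exists_cj_eq (H17.isSyl_sylow T)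
    have hRT : R ≤ T := le_sup_right.trans ((H17.isSyl_sylow T).eq_of_le
      (H17.isPGroup_sup hT T.isPGroup' hR) le_sup_left le_top).le
    refine H17.charP_iff_sub.mp (key R hR z hz.1 (key2 g z (H17.gfit_eq_oP_iff.mp (h _ (fun e => ?_)
      (Subgroup.subset_closure ⟨H17.mem_cj.mp ?_, ?_⟩)))))
    · have : z = 1 := by simpa [mul_assoc, inv_mul_eq_one] using e
      rw [this, orderOf_one] at hz2
      exact (Fact.out : p.Prime).one_lt.ne hz2
    · rw [H17.cj_inf, H17.cj_centralizer, hg]; exact ⟨hRT hz.1, hz.2⟩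
    · have : (g⁻¹ * z * g) ^ p = g⁻¹ * z ^ p * g := by simpa using (conj_pow (a := g⁻¹) (b := z) (i := p))
      rw [this, ← hz2, pow_orderOf_eq_one]; group
  · obtain ⟨z, hz, hz2⟩ := H17.exists_orderOf_of_ne_bot hT hT1
    obtain ⟨g, -, hg⟩ := hS.exists_le_cj hT le_top
    refine H17.charP_iff_sub.mp (key T hT z hz (key2 g z (H17.gfit_eq_oP_iff.mp (h _ (H17.mem_cj.mp (hg hz)) ?_))))
    rw [← hz2]; simpa using (MulAut.conj g⁻¹).orderOf_eq z

end Cfsg.Agent.S2896
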