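import Cfsg.Statements.S2898
import Cfsg.Agent.H26.Loc

set_option autoImplicit false
open Cfsg

namespace Cfsg.Agent.S2898

open H26 Subgroup
open scoped Pointwise commutatorElement

/-- Let G be a finite group of even order with parabolic characteristic 2. If the centre of G ⧸ O(G) is trivial, then O(G) = 1. -/
theorem result {G : Type*} [Group G] [Finite G] (h2 : 2 ∣ Nat.card G) (hG : Cfsg.IsOfParabolicCharacteristic 2 G) [hN : (Cfsg.oddCore G).Normal] (hZ : Subgroup.center (G ⧸ Cfsg.oddCore G) = ⊥) : Cfsg.oddCore G = ⊥ := by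
  obtain ⟨S, hS⟩ := exists_isSyl 2 (⊤ : Subgroup G)
  have hG' := parCharOf_top.2 hG
  have hc := H1.coprime_card_pPrimeCore 2 G
  set O := Cfsg.pPrimeCore 2 G
  have hn : ∀ K : Subgroup G, K ≤ 𝐍 O := fun K => by rw [normalizer_eq_top]; exact le_top
  have key : ∀ z ∈ S ⊓ 𝐂 S, z ≠ 1 → O ⊓ centralizer {z} = ⊥ := fun z hz h1 =>
    (hG'.centralizer_elt hS hz h1).eq_bot_of_coprime (inf_le_inf_right _ le_top)
      (le_normalizer_inf (hn _) (inf_le_right.trans le_normalizer)) (hc.coprime_dvd_left (card_dvd_of_le inf_le_left))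
  by_cases hd : 2 ∣ Nat.card (𝐂 O)
  · have h1 := hS.inf_of_normal (le_normalizer_centralizer (hn _)) le_top
    obtain ⟨⟨z, hz⟩, hz1⟩ := ne_bot_iff_exists_ne_one.1 (inf_centralizer_ne_bot hS.isP.to_inf_left hS.isP
      (le_normalizer_inf le_normalizer (le_normalizer_centralizer (hn _))) (h1.ne_bot hd))
    rw [← key z ⟨hz.1.1, hz.2⟩ (by simpa using hz1), eq_comm, inf_eq_left]
    exact fun y hy => mem_centralizer_singleton_iff.2 (hz.1.2 y hy)
  · exfalso
    have : (𝐂 O).Normal := normal_of_top_le_normalizer (le_normalizer_centralizer (hn _))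
    have h1 : 𝐂 O ≤ O := H1.le_pPrimeCore ((Nat.Prime.coprime_iff_not_dvd Nat.prime_two).2 hd).symm
    obtain ⟨z, hz, hz1, hz2⟩ := exists_mem_pow_eq_one hS.isP.to_inf_left
      (center_ne_bot hS.isP (hS.ne_bot (by simpa using h2)))
    have inv : ∀ x ∈ O, z * x * z⁻¹ = x⁻¹ := fun x hx => inverts_of_fpf (by rw [← sq, hz2]) (hn ⊤ (mem_top z))
      (fun y hy h => (key z hz hz1).le ⟨hy, mem_centralizer_singleton_iff.2 (by
        calc y * z = (z * y * z⁻¹) * z := by rw [h]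
          _ = _ := by group)⟩) hx
    have h3 : (z : G ⧸ O) ∈ center (G ⧸ O) := by
      rw [mem_center_iff]
      rintro ⟨g⟩
      refine QuotientGroup.eq.2 (h1 fun x hx => ?_)
      have e1 := inv _ (conj_mem_of_mem_normalizer (hn ⊤ (mem_top (g * z))) hx)
      have e2 := inv x hx
      calc x * ((g * z)⁻¹ * (z * g)) = (g * z)⁻¹ * (z * (z⁻¹ * ((g * z) * x * (g * z)⁻¹)⁻¹⁻¹ * z) * g) := by group
        _ = (g * z)⁻¹ * (z * (z⁻¹ * (z * ((g * z) * x * (g * z)⁻¹) * z⁻¹)⁻¹ * z) * g) := by rw [e1]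
        _ = (g * z)⁻¹ * (z * (g * (z * x * z⁻¹)⁻¹)) := by group
        _ = _ := by rw [e2]; group
    rw [hZ, mem_bot, QuotientGroup.eq_one_iff] at h3
    exact hz1 (eq_one_of_mem_isPGroup hS.isP hz.1 (hc.coprime_dvd_left (orderOf_dvd_card_of_mem h3)))

end Cfsg.Agent.S2898
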