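import Cfsg.Statements.S2905
import Cfsg.Agent.H26.Loc

set_option autoImplicit false
open Cfsg

namespace Cfsg.Agent.S2905

open H26 Subgroup
open scoped Pointwise commutatorElement

/-- Let P be a finite p-minimal group (a Sylow p-subgroup S is not normal and lies in a unique maximal subgroup M of P) and let F be the normal core of M. Then: every subnormal subgroup N of P contained in M satisfies N ∩ S ≤ O_p(P); if O^p(P) has a normal Sylow p-subgroup then the order of P has at most two prime divisors; every normal subgroup N of P either contains O^p(P) or is contained in F; and O^p(P)F ⧸ F is a minimal normal subgroup of P ⧸ F. -/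
theorem result {P : Type*} [Group P] [Finite P] {p : ℕ} [Fact p.Prime] (hP : Cfsg.IsPMinimal p P) (S : Sylow p P) (M : Subgroup P) (hM : IsCoatom M) (hSM : (S : Subgroup P) ≤ M) [hF : M.normalCore.Normal] : (∀ N : Subgroup P, N.IsSubnormal → N ≤ M → N ⊓ (S : Subgroup P) ≤ Cfsg.pCore p P) ∧ ((∀ T : Sylow p ↥(Cfsg.pResidual p P), (T : Subgroup ↥(Cfsg.pResidual p P)).Normal) → (Nat.card P).primeFactors.card ≤ 2) ∧ (∀ N : Subgroup P, N.Normal → Cfsg.pResidual p P ≤ N ∨ N ≤ M.normalCore) ∧ (∀ N : Subgroup P, N.Normal → M.normalCore ≤ N → N ≤ Cfsg.pResidual p P ⊔ M.normalCore → N = M.normalCore ∨ N = Cfsg.pResidual p P ⊔ M.normalCore) ∧ M.normalCore < Cfsg.pResidual p P ⊔ M.normalCore := by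
  have hS := isSyl_top S
  have hU := umax_of_existsUnique (hP S).2 hM hSM
  have hn : ∀ (K N : Subgroup P) [N.Normal], K ≤ 𝐍 N := fun K N _ => by rw [normalizer_eq_top]; exact le_top
  have h3 : ∀ N : Subgroup P, N.Normal → Cfsg.pResidual p P ≤ N ∨ N ≤ M.normalCore := fun N _ =>
    (hU.le_or_pResidualOf_le hS le_top (hn _ N)).symm.imp (fun h => by rwa [pResidualOf_top] at h) normal_le_normalCore.2
  have h5 : ¬ pResidualOf p ⊤ ≤ M := fun h => hU.lt.not_ge (hS.le_of_pResidualOf_le h hSM)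
  refine ⟨fun N hN hNM => ?_, fun hT => ?_, h3, fun N hN h1 h2 => (h3 N hN).symm.imp (fun h => le_antisymm h h1)
    fun h => le_antisymm h2 (sup_le h h1), right_lt_sup.2 fun h => h5 (by rw [pResidualOf_top]; exact h.trans M.normalCore_le)⟩
  · obtain ⟨K, h1, h2, h4, h6⟩ := exists_maximal_ge (Q := fun K => H2.SubnIn K ⊤) hNM (subnIn_top_of_isSubnormal hN)
    have h7 : M ≤ 𝐍 K := le_normalizer_iff_cj.2 fun m hm => le_sup_right.trans (h6 _ le_sup_left
      (sup_le h2 (cj_le_of_mem h2 hm)) (h4.sup (subnIn_cj_of_mem_normalizer h4 (hn ⊤ ⊤ (mem_top m))))).le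
    obtain ⟨L, h8, h9, h10⟩ := h4.exists_lt (h2.trans_lt hU.lt).ne
    have h11 : ⊤ ≤ 𝐍 K := (hU.eq_of_not_le (hSM.trans h7) le_top fun h => h8.ne' (h6 L h8.le (h9.trans h) h10)).ge
    have := normal_of_top_le_normalizer (hU.le_normalizer_inf hS h2 h11)
    exact (le_inf inf_le_right (inf_le_left.trans h1)).trans (le_pCore hS.isP.to_inf_left)
  · set R := pResidualOf p (⊤ : Subgroup P) with hR
    have hRn : ⊤ ≤ 𝐍 R := le_normalizer_pResidualOf p ⊤
    obtain ⟨T, hT'⟩ := exists_isSyl p R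
    have hTn : ⊤ ≤ 𝐍 T := by
      have h1 : IsSyl p T (Cfsg.pResidual p P) := by rwa [hR, pResidualOf_top] at hT'
      have h2 := normal_iff_le_normalizer_map_subtype.1 (hT h1.sylow)
      rw [h1.map_sylow, ← pResidualOf_top] at h2
      rw [← hT'.pCoreOf_eq h2]
      exact le_normalizer_pCoreOf_of_le hRn
    by_contra hcon
    refine h5 (relIndex_eq_one.1 (Nat.eq_one_iff_not_exists_prime_dvd.2 fun q hq hd => ?_))
    have := Fact.mk hq
    by_cases hqp : q = p
    · subst hqp
      exact hT'.not_dvd_relIndex_of_le ((hS.le_of_le_normalizer hT'.isP le_top (le_top.trans hTn)).trans hSM) hd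
    obtain ⟨Q, hQ⟩ := exists_isSyl q R
    obtain ⟨W, hW⟩ := exists_isSyl p (𝐍 (T ⊔ Q))
    have h1 : T ≤ W := hW.le_of_le_normalizer hT'.isP (le_sup_left.trans le_normalizer) (le_top.trans hTn)
    have h2 := hW.sup hT' (le_top.trans hRn) (by rw [sup_eq_left.2 h1]; exact hW.isP)
    rw [sup_eq_left.2 h1, top_le_iff.1 (show ⊤ ≤ 𝐍 (T ⊔ Q) ⊔ R from (hQ.frattini le_top hRn).ge.trans (sup_le le_sup_right
      ((le_normalizer_sup (le_top.trans hTn) inf_le_right).trans le_sup_left)))] at h2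
    obtain ⟨g, -, hg⟩ := h2.exists_cj_eq hS
    have hQ' := hQ.cj_of_mem_normalizer (hRn (mem_top g))
    have h4 : (S : Subgroup P) ≤ 𝐍 (T ⊔ cj g Q) := by
      rw [← hg, ← cj_eq_iff.2 (hTn (mem_top g)), ← cj_sup, ← cj_normalizer]; exact cj_mono g hW.le
    rcases hU.eq_or_le (le_sup_left : (S : Subgroup P) ≤ (S : Subgroup P) ⊔ (T ⊔ cj g Q)) le_top with h | h
    · refine hcon ((Finset.card_le_card (t := {p, q}) fun r hr => ?_).trans Finset.card_le_two)
      obtain ⟨hr1, hr2, -⟩ := Nat.mem_primeFactors.1 hr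
      have e1 := card_sup_mul_card_inf h4
      have e2 := card_sup_mul_card_inf (H := cj g Q) (le_top.trans hTn)
      rw [h, card_top] at e1
      rw [sup_comm] at e2
      have := Fact.mk hr1
      have aux : ∀ {s : ℕ} {X : Subgroup P}, s.Prime → IsPGroup s X → r ∣ Nat.card X → r = s := fun {s X} hs h1 h2 => by
        have := Fact.mk hs
        obtain ⟨n, hn⟩ := IsPGroup.iff_card.1 h1
        exact (Nat.prime_dvd_prime_iff_eq hr1 hs).1 (hr1.dvd_of_dvd_pow (hn ▸ h2))
      simp only [Finset.mem_insert, Finset.mem_singleton]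
      rcases hr1.dvd_mul.1 (e1 ▸ hr2.mul_right _) with h | h
      · exact Or.inl (aux Fact.out hS.isP h)
      · exact (hr1.dvd_mul.1 (e2 ▸ h.mul_right _)).symm.imp (aux Fact.out hT'.isP) (aux hq hQ'.isP)
    · exact hQ'.not_dvd_relIndex_of_le (le_sup_right.trans (le_sup_right.trans h)) hd

end Cfsg.Agent.S2905
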