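import Cfsg.Statements.S2907
import Cfsg.Agent.H18.Pi

set_option autoImplicit false
open Cfsg

namespace Cfsg.Agent.S2907

open H18 Subgroup

/-- Let X be a finite semi-extraspecial p-group and x an element of X outside the centre. Then the index of C_X(x) in X equals the order of Z(X), and the commutators [x, y], y ∈ X, form exactly the centre Z(X). -/
theorem result {X : Type*} [Group X] [Finite X] {p : ℕ} [Fact p.Prime] (hX : Cfsg.IsSemiExtraspecial p X) (x : X) (hx : x ∉ Subgroup.center X) : (Subgroup.centralizer ({x} : Set X)).index = Nat.card ↥(Subgroup.center X) ∧ {z : X | ∃ y : X, z = x * y * x⁻¹ * y⁻¹} = (Subgroup.center X : Set X) := by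
  obtain ⟨⟨-, -, hd⟩, h⟩ := hX
  have hc : ∀ y : X, x * y * x⁻¹ * y⁻¹ ∈ center X := fun y =>
    hd ▸ commutator_mem_commutator (mem_top x) (mem_top y)
  let φ : X →* X := MonoidHom.mk' (fun y => x * y * x⁻¹ * y⁻¹) fun a b => by
    have := mem_center_iff.mp (hc b) a⁻¹
    calc x * (a * b) * x⁻¹ * (a * b)⁻¹ = x * a * x⁻¹ * ((x * b * x⁻¹ * b⁻¹) * a⁻¹) := by group
      _ = _ := by rw [← this]; group
  have hk : φ.ker = centralizer {x} := by
    ext y
    rw [MonoidHom.mem_ker, mem_centralizer_singleton_iff]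
    change x * y * x⁻¹ * y⁻¹ = 1 ↔ _
    rw [mul_inv_eq_one, mul_inv_eq_iff_eq_mul, eq_comm]
  have hle : φ.range ≤ center X := by
    rintro _ ⟨y, rfl⟩
    exact hc y
  have hr : φ.range = center X := by
    by_contra hne
    obtain ⟨W, hW, hle'⟩ := (eq_top_or_exists_le_coatom (φ.range.subgroupOf (center X))).resolve_left
      fun e => hne (le_antisymm hle (subgroupOf_eq_top.mp e))
    have e : (W.map (center X).subtype).subgroupOf (center X) = W :=
      comap_map_eq_self_of_injective (center X).subtype_injective W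
    obtain ⟨_, -, hp⟩ := h (W.map (center X).subtype) (map_subtype_le W) (e.symm ▸ hW)
    set Y := W.map (center X).subtype
    have h1 : (center X).map (QuotientGroup.mk' Y) ≤ center (X ⧸ Y) := by
      rintro _ ⟨z, hz, rfl⟩
      rw [mem_center_iff]
      intro g
      obtain ⟨g, rfl⟩ := QuotientGroup.mk'_surjective Y g
      rw [← map_mul, ← map_mul, mem_center_iff.mp hz g]
    have h2 := eq_of_prime (hp ▸ Fact.out) h1 fun e' => hW.1 (by
      rw [Subgroup.map_eq_bot_iff, QuotientGroup.ker_mk'] at e'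
      rw [← e, subgroupOf_eq_top]
      exact e')
    have h3 : QuotientGroup.mk' Y x ∈ center (X ⧸ Y) := by
      rw [mem_center_iff]
      intro g
      obtain ⟨g, rfl⟩ := QuotientGroup.mk'_surjective Y g
      rw [eq_comm, ← mul_inv_eq_iff_eq_mul, ← mul_inv_eq_one, ← map_inv, ← map_inv, ← map_mul,
        ← map_mul, ← map_mul]
      exact (QuotientGroup.eq_one_iff _).mpr ⟨⟨_, hc g⟩, hle' ⟨g, rfl⟩, rfl⟩
    rw [← h2, ← mem_comap, comap_map_eq, QuotientGroup.ker_mk', sup_eq_left.mpr (map_subtype_le W)] at h3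
    exact hx h3
  refine ⟨by rw [← hk, index_ker, hr], ?_⟩
  rw [← hr]
  ext z
  exact ⟨fun ⟨y, e⟩ => ⟨y, e.symm⟩, fun ⟨y, e⟩ => ⟨y, e.symm⟩⟩

end Cfsg.Agent.S2907
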