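import Cfsg.Statements.S2908
import Cfsg.Agent.H26.Loc

set_option autoImplicit false
open Cfsg

namespace Cfsg.Agent.S2908

open H26 Subgroup
open scoped Pointwise commutatorElement

/-- Let P be a p-subgroup of a finite group, normalized by a p-subgroup A and by a subgroup B of order prime to p that commutes elementwise with A. If [P, B] ≤ [P, A], then B centralizes P. -/
theorem result {G : Type*} [Group G] [Finite G] {p : ℕ} [Fact p.Prime] (P A B : Subgroup G) (hP : IsPGroup p ↥P) (hA : IsPGroup p ↥A) (hB : ¬ p ∣ Nat.card ↥B) (hnA : A ≤ Subgroup.normalizer (P : Set G)) (hnB : B ≤ Subgroup.normalizer (P : Set G)) (hAB : ⁅A, B⁆ = ⊥) (hcomm : ⁅P, B⁆ ≤ ⁅P, A⁆) : ⁅P, B⁆ = ⊥ := by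
  by_contra hne
  have hQ : ⁅P, B⁆ ≤ P := commutator_le_of_le_normalizer hnB
  have hc : (Nat.card B).Coprime p := ((Nat.Prime.coprime_iff_not_dvd Fact.out).2 hB).symm
  have hA' : A ≤ 𝐍 B := le_normalizer_of_le_centralizer (commutator_eq_bot_iff_le_centralizer.1 hAB)
  have hB' : B ≤ 𝐍 A := le_normalizer_of_le_centralizer (commutator_eq_bot_iff'.1 hAB)
  have h1 : P ⊔ A ≤ 𝐍 ⁅P, B⁆ := sup_le (le_normalizer_commutator_left _ _) (le_normalizer_commutator hnA hA')
  have hlt := H1.commutator_lt_of_isPGroup (isPGroup_sup' hP hA hnA) (hP.to_le hQ) h1 hne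
  have h2 : P ⊔ A ≤ 𝐍 ⁅⁅P, B⁆, P ⊔ A⁆ := le_normalizer_commutator_right _ _
  have h3 : ⁅⁅P, A⁆, B⁆ ≤ ⁅⁅P, B⁆, P ⊔ A⁆ := H4.three_subgroups (le_sup_left.trans h2) (le_sup_right.trans h2)
    (le_normalizer_commutator (le_normalizer_commutator_right _ _) (le_normalizer_sup hnB hB'))
    (by rw [hAB, commutator_bot_left]; exact bot_le) (by rw [commutator_comm B P]; exact commutator_mono le_rfl le_sup_right)
  refine hlt.not_ge (le_trans ?_ h3)
  conv_lhs => rw [← commutator_commutator_eq_of_pResidualOf_eq (hP.to_le hQ) (pResidualOf_eq_self_of_coprime hc)]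
  exact commutator_mono hcomm le_rfl

end Cfsg.Agent.S2908
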