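import Cfsg.Statements.S2909
import Cfsg.Agent.H26.Loc
import Cfsg.Agent.S2908

set_option autoImplicit false
open Cfsg

namespace Cfsg.Agent.S2909

open H26 Subgroup
open scoped Pointwise commutatorElement

/-- Let p be a prime, E a normal p-subgroup of the finite group G, and U a non-cyclic elementary abelian p-subgroup of G such that either C_E(U) = C_E(u) for every nontrivial u ∈ U, or [E, U] = [E, ⟨u⟩] for every nontrivial u ∈ U. If R is a subgroup of order prime to p normalized by U, then [R, U] centralizes E. -/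
theorem result {G : Type*} [Group G] [Finite G] {p : ℕ} [Fact p.Prime] (E : Subgroup G) [E.Normal] (hE : IsPGroup p ↥E) (U : Subgroup G) (hU : Cfsg.IsElementaryAbelian p U) (hnc : ¬ IsCyclic ↥U) (hcond : (∀ u ∈ U, u ≠ 1 → E ⊓ Subgroup.centralizer (U : Set G) = E ⊓ Subgroup.centralizer ({u} : Set G)) ∨ (∀ u ∈ U, u ≠ 1 → ⁅E, U⁆ = ⁅E, Subgroup.zpowers u⁆)) (R : Subgroup G) (hR : ¬ p ∣ Nat.card ↥R) (hRU : U ≤ Subgroup.normalizer (R : Set G)) : ⁅R, U⁆ ≤ Subgroup.centralizer (E : Set G) := by
  have hc : (Nat.card R).Coprime p := ((Nat.Prime.coprime_iff_not_dvd Fact.out).2 hR).symm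
  have hUp := elemAb_isPGroup hU
  have hn : ∀ K : Subgroup G, K ≤ 𝐍 E := fun K => by rw [normalizer_eq_top]; exact le_top
  refine (H4.le_commStab_iff.1 (le_of_cocyclic (H := H4.commStab (U : Set G) (𝐂 E)) (elemAb_le_centralizer hU) hRU
    (H1.IsPGroup.coprime_card hUp hc) ?_)).2
  rintro B hB ⟨a, ha, he⟩
  obtain ⟨⟨u, hu⟩, hu1⟩ := ne_bot_iff_exists_ne_one.1 (show B ≠ ⊥ by
    rintro rfl
    rw [bot_sup_eq] at he
    exact hnc (he ▸ inferInstance))
  replace hu1 : u ≠ 1 := fun h => hu1 (Subtype.ext h)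
  refine (inf_le_inf_left R (centralizer_anti (zpowers_le.2 hu))).trans
    (H4.le_commStab_iff.2 ⟨le_normalizer_centralizer (hn _), ?_⟩)
  have hz : zpowers u ≤ U := zpowers_le.2 (hB hu)
  have hUu : U ≤ 𝐂 (zpowers u) := (elemAb_le_centralizer hU).trans (centralizer_anti hz)
  set K := R ⊓ 𝐂 (zpowers u)
  have h1 : ⁅K, U⁆ ≤ K := commutator_le_of_le_normalizer
    (le_normalizer_inf hRU (hUu.trans le_normalizer))
  have h2 : (Nat.card ↥⁅K, U⁆).Coprime p := hc.coprime_dvd_left (card_dvd_of_le (h1.trans inf_le_left))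
  have hK : K ≤ 𝐍 (zpowers u) := le_normalizer_of_le_centralizer inf_le_right
  rcases hcond with h | h
  · refine thompson_AxB hE (hUp.to_le hz) (pResidualOf_eq_self_of_coprime h2) (hn _) (hn _) (h1.trans inf_le_right) ?_
    refine (commutator_mono le_rfl ?_).trans (commutator_le_of_le_normalizer'
      (le_normalizer_centralizer (le_normalizer_inf (hn _) (le_normalizer_centralizer hK))))
    rw [centralizer_zpowers, ← h u (hB hu) hu1]
    exact le_centralizer_iff.1 inf_le_right
  · refine commutator_eq_bot_iff'.1 (S2908.result E (zpowers u) _ hE (hUp.to_le hz)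
      ((Nat.Prime.coprime_iff_not_dvd Fact.out).1 h2.symm) (hn _) (hn _)
      (commutator_eq_bot_iff'.2 (h1.trans inf_le_right)) ?_)
    have h3 : K ≤ 𝐍 ⁅E, zpowers u⁆ := le_normalizer_commutator (hn _) hK
    rw [commutator_comm]
    refine H4.three_subgroups h3 (le_normalizer_commutator (hn _) (le_normalizer_of_le_centralizer hUu))
      (le_normalizer_commutator_left _ _) ?_ ?_
    · rw [commutator_comm U, h u (hB hu) hu1]; exact commutator_le_of_le_normalizer h3
    · rw [← h u (hB hu) hu1]; exact commutator_mono (commutator_le_of_le_normalizer (hn _)) le_rfl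

end Cfsg.Agent.S2909
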