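import Cfsg.Statements.S2910
import Cfsg.Agent.H26.Loc
import Cfsg.Agent.H3.Frobenius
import Cfsg.Agent.H4.Sec

set_option autoImplicit false
open Cfsg

namespace Cfsg.Agent.S2910

open H26 Subgroup
open scoped Pointwise commutatorElement

/-- Let p be an odd prime dividing the order of the finite group G and P a Sylow p-subgroup of G. If Ω₁(P) (generated by the elements of order dividing p) is contained in the centre of G, then G has a normal p-complement. In particular, if G is quasisimple then Ω₁(P) is not central in G. -/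
theorem result {G : Type*} [Group G] [Finite G] {p : ℕ} [Fact p.Prime] (hp : p ≠ 2) (hdiv : p ∣ Nat.card G) (P : Sylow p G) (hZ : Cfsg.omegaOne p (P : Subgroup G) ≤ Subgroup.center G) : Cfsg.HasNormalPComplement p G ∧ ¬ Cfsg.IsQuasisimple G := by
  have h : Cfsg.HasNormalPComplement p G := (H3.frobenius_iff P).2 fun Q hQ g hg hc =>
    H4.mem_centralizer_of_omega hp (P.isPGroup'.to_le hQ) hc hg fun x hx hxp =>
      (mem_center_iff.1 (hZ (mem_omegaOne (hQ hx) hxp)) g)
  refine ⟨h, fun ⟨h1, _⟩ => H3.hasNormalPComplement_iff_not_dvd_card_pResidual.1 h ?_⟩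
  have : Cfsg.pResidual p G = ⊤ := by
    rw [← pResidualOf_top]
    exact H4.pResidualOf_eq_of_perfect h1.commutator_eq_top
  rw [this]; simpa using hdiv

end Cfsg.Agent.S2910
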