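import Cfsg.Statements.S2912
import Cfsg.Agent.H21.Extra
import Cfsg.Agent.H23.FT1
import Cfsg.Agent.H3.HallTransfer
import Cfsg.Agent.H18.BG1

set_option autoImplicit false
open Cfsg

namespace Cfsg.Agent.S2912

open H18 H21 H23 Subgroup
open scoped commutatorElement

variable {G : Type*} [Group G] [Finite G] {p r n : ℕ} {Q A : Subgroup G}

theorem pow_le (hp : p.Prime) (h : ES p Q) (hA : Abel A) (hc : (Nat.card A).Coprime (Nat.card Q)) (hn : Q ≤ N(A))
    (h0 : A ⊓ C(Z(Q)) = ⊥) {x y : G} (hx : x ∈ Q) (hy : y ∈ Q) (e : ⁅y, x⁆ ≠ 1) :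
    Nat.card (A ⊓ C1(x) : Subgroup G) ^ p ≤ Nat.card A := by
  have hz := h.comm_mem hy hx
  have ho := h.orderOf_eq hp hz e
  have e1 : y * x * y⁻¹ = ⁅y, x⁆ * x := by rw [commutatorElement_def]; group
  generalize ⁅y, x⁆ = z at *
  have zc : ∀ g ∈ Q, Commute g z := fun g hg => mem_C.1 hz.2 g hg
  have hu : ∀ i : ℕ, z ^ i * x ∈ Q := fun i => mul_mem (pow_mem hz.1 i) hx
  have e2 : ∀ i : ℕ, y ^ i * x * (y ^ i)⁻¹ = z ^ i * x := fun i => by
    induction i with
    | zero => simp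
    | succ i ih =>
      calc _ = y * (y ^ i * x * (y ^ i)⁻¹) * y⁻¹ := by group
        _ = y * z ^ i * y⁻¹ * (y * x * y⁻¹) := by rw [ih]; group
        _ = _ := by rw [e1, ((zc y hy).pow_right i).eq]; group
  have c : ∀ i : ℕ, Nat.card (A ⊓ C1(z ^ i * x) : Subgroup G) = Nat.card (A ⊓ C1(x) : Subgroup G) := fun i => by
    rw [← e2, ← cj_C1, ← card_cj (g := y ^ i) (H := A ⊓ C1(x)), cj_inf, cj_eq_self (hn (pow_mem hy i))]
  have cop : ∀ i : ℕ, ∀ B ≤ A, (Nat.card B).Coprime (Nat.card (zpowers (z ^ i * x))) := fun i B hB =>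
    coprime_mono hc hB (zpowers_le.2 (hu i))
  have key : ∀ i j : ℕ, i < j → j < p → A ⊓ C1(z ^ i * x) ≤ ⁅A, zpowers (z ^ j * x)⁆ := fun i j hij hj => by
    rw [← coprime_comm_eq (K := A ⊓ C1(z ^ i * x)) (A := zpowers (z ^ j * x)) _ (cop j _ inf_le_left)
      (hA.mono inf_le_left).solv]
    · exact comm_mono inf_le_left le_rfl
    · rw [C_zpowers, eq_bot_iff, ← h0, ← C1_eq_of_prime (h.card ▸ hp) (pow_mem hz (j - i))
        (pow_ne_one_of_lt_orderOf (by omega) (by omega))]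
      rintro a ⟨⟨a1, a2⟩, a3⟩
      refine ⟨a1, mem_C1_comm.1 ?_⟩
      have := mul_mem (mem_C1_comm.1 a3) (inv_mem (mem_C1_comm.1 a2))
      rwa [mul_inv_rev, mul_assoc, mul_inv_cancel_left, ← pow_sub _ hij.le] at this
    · refine norm_inf ((zpowers_le.2 (hu j)).trans hn) (norm_C1 (zpowers_le.2 (mem_C1.2 ?_)))
      exact ((((Commute.refl z).pow_pow j i).mul_right ((zc x hx).symm.pow_left j)).mul_left
        (((zc x hx).pow_right i).mul_right (Commute.refl x))).eq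
  have ind : ∀ k ≤ p, ∃ B ≤ A, Nat.card B = Nat.card (A ⊓ C1(x) : Subgroup G) ^ k ∧
      ∀ j, k ≤ j → j < p → B ≤ ⁅A, zpowers (z ^ j * x)⁆ := fun k hk => by
    induction k with
    | zero => exact ⟨⊥, bot_le, by simp, fun _ _ _ => bot_le⟩
    | succ k ih =>
      obtain ⟨B, b1, b2, b3⟩ := ih (by omega)
      refine ⟨B ⊔ (A ⊓ C1(z ^ k * x)), sup_le b1 inf_le_left, ?_, fun j h1 h2 =>
        sup_le (b3 j (by omega) h2) (key k j h1 h2)⟩
      rw [card_sup_of_cent (cent_mono hA b1 inf_le_left), b2, c, pow_succ]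
      rw [eq_bot_iff, ← coprime_abel_cent_TI ((zpowers_le.2 (hu k)).trans hn) (cop k A le_rfl) hA, C_zpowers]
      exact inf_le_inf (b3 k le_rfl hk) inf_le_right
  obtain ⟨B, b1, b2, -⟩ := ind p le_rfl
  exact b2 ▸ card_le b1

theorem exists_elt (hp : p.Prime) (h : ES p Q) {w : ℕ} (hc : Nat.card Q = p ^ (2 * (w + 1) + 1)) (h2 : p ≠ 2 ∨ w ≠ 0) :
    ∃ x ∈ Q, x ∉ C(Q) ∧ x ^ p = 1 := by
  by_contra! H
  have : ¬ Abel Q := by rw [h.abel_iff_card hp hc]; omega
  obtain ⟨x, hx, hx'⟩ := SetLike.not_le_iff_exists.1 this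
  obtain ⟨z, hz, z1⟩ := h.exists_gen hp
  obtain ⟨y, hy, e⟩ := h.exists_comm_eq hp hz hx hx'
  have key : ∀ c ∈ Q, c ∉ C(Q) → ∀ d ∈ Q, Commute c d → ¬ Commute x d →
      (∀ i : ℤ, (x * c ^ i) ^ p = x ^ p * (c ^ i) ^ p) → False := fun c hc hc' d hd h1 h2 h3 => by
    obtain ⟨i, hi⟩ := (h.zpowers_eq hp (h.pow_mem hc) (H c hc hc')).ge (inv_mem (h.pow_mem hx))
    refine H _ (mul_mem hx (zpow_mem hc i)) (fun m => h2 ?_) ?_
    · have := (show Commute d _ from mem_C.1 m d hd).mul_right (h1.symm.zpow_right i).inv_right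
      simpa using this.symm
    · rw [h3, ← zpow_natCast (c ^ i), ← zpow_mul, mul_comm i, zpow_mul, zpow_natCast, show (c ^ p) ^ i = _ from hi,
        mul_inv_cancel]
  have e' : ⁅x, y⁆ ≠ 1 := e ▸ z1
  have xy : ¬ Commute x y := fun m => e' (commutatorElement_eq_one_iff_commute.2 m)
  rcases h2 with h2 | h2
  · refine key y hy (fun m => xy (mem_C.1 m x hx)) y hy (Commute.refl y) xy fun i => ?_
    have hi := zpow_mem hy i
    obtain ⟨k, hk⟩ := (hp.dvd_choose_self two_ne_zero (lt_of_le_of_ne hp.two_le h2.symm))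
    rw [mul_pow_class_two (h.commute hi hx hx) (h.commute hi hx hi), hk, pow_mul, h.pow_Z (h.comm_mem hi hx), one_pow,
      mul_one]
  · have : ¬ Abel (Q ⊓ C1(x) ⊓ C1(y)) := by
      rw [(h.pair_es hp hx hy e').abel_iff_card hp (h.pair_card' hp hx hy e' hc)]; exact h2
    obtain ⟨c, hc, hc'⟩ := SetLike.not_le_iff_exists.1 this
    exact key c hc.1.1 (fun m => hc' (C_anti (inf_le_left.trans inf_le_left) m)) y hy (mem_C1.1 hc.2) xy fun i =>
      ((show Commute c x from mem_C1.1 hc.1.2).symm.zpow_right i).mul_pow p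

theorem es_bound (hp : p.Prime) (hr : r.Prime) (hpr : p ≠ r) (hmin : ∀ k : ℕ, 1 ≤ k → p ∣ r ^ k - 1 → n ≤ k) (w : ℕ) :
    ∀ {Q A : Subgroup G}, ES p Q → Nat.card Q = p ^ (2 * w + 1) → Abel A → PiGrp {r} A → Q ≤ N(A) →
      A ⊓ C(Z(Q)) = ⊥ → A ≠ ⊥ → r ^ (n * p ^ w) ≤ Nat.card A := by
  induction w with
  | zero =>
    intro Q A h hc hA hr' hn h0 h1
    obtain ⟨k, hk⟩ := hr'.card_eq_pow
    have : Fact p.Prime := ⟨hp⟩
    have h2 := H3.card_modEq_card_inf_centralizer (Q := A) ((h.pi hp).of_le inf_le_left : PiGrp {p} Z(Q)).isPGroup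
      (inf_le_left.trans hn)
    rw [h0, card_bot, hk] at h2
    have h3 := one_lt_card h1
    rw [hk] at h3 ⊢
    refine Nat.pow_le_pow_right hr.pos (by
      simpa using hmin k (by rcases k with _ | k <;> simp at h3 ⊢) ((Nat.modEq_iff_dvd' h3.le).1 h2.symm))
  | succ w ih =>
    intro Q A h hc hA hr' hn h0 h1
    have cop : (Nat.card A).Coprime (Nat.card Q) := hr'.coprime ((h.pi hp).p'_of_ne hpr)
    have na : ¬ Abel Q := by rw [h.abel_iff_card hp hc]; omega
    by_cases h2 : p ≠ 2 ∨ w ≠ 0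
    · obtain ⟨x, hx, hx', xp⟩ := exists_elt hp h hc h2
      have hX : zpowers x ⊔ Z(Q) ≤ Q := sup_le (zpowers_le.2 hx) inf_le_left
      have hc1 : zpowers x ≤ C(Z(Q)) := (zpowers_le.2 hx).trans Z_cent
      have hp' : ∀ u ∈ zpowers x ⊔ Z(Q), u ^ p = 1 := fun u hu => by
        obtain ⟨_, ⟨i, rfl⟩, b, hb, rfl⟩ := (mem_sup_of_cent hc1).1 hu
        rw [Commute.mul_pow (mem_C.1 hb.2 _ (zpow_mem hx i)), h.pow_Z hb, mul_one, ← zpow_natCast, ← zpow_mul, mul_comm,
          zpow_mul, zpow_natCast, xp, one_zpow]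
      obtain ⟨u, hu, u1, hu'⟩ : ∃ u ∈ zpowers x ⊔ Z(Q), u ≠ 1 ∧ A ⊓ C1(u) ≠ ⊥ := by
        by_contra! H
        refine h1 (eq_bot_iff.2 (coprime_abelian_gen_cent1 (abel_zpowers.sup abel_Z hc1) (fun m => ?_) (hX.trans hn)
          (coprime_mono cop.symm hX le_rfl) fun a ha a1 => (H a ha a1).le))
        obtain ⟨g, hg⟩ := cyc_iff.1 m
        have h3 := orderOf_dvd_of_pow_eq_one (hp' g (hg ▸ mem_zpowers g))
        rw [← card_zpowers', hg, ← h.card] at h3
        exact hx' ((eq_of_card_ge le_sup_right (Nat.le_of_dvd card_pos' h3)).ge (mem_sup_left (mem_zpowers x))).2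
      have huQ := hX hu
      have hu2 : u ∉ C(Q) := fun m => hu' (by rw [C1_eq_of_prime (h.card ▸ hp) (X := Z(Q)) ⟨huQ, m⟩ u1, h0])
      obtain ⟨z, hz, z1⟩ := h.exists_gen hp
      obtain ⟨y, hy, e⟩ := h.exists_comm_eq hp hz huQ hu2
      have e' : ⁅u, y⁆ ≠ 1 := e ▸ z1
      refine le_trans ?_ (pow_le hp h hA cop hn h0 huQ hy (by rwa [← commutatorElement_inv, Ne, inv_eq_one]))
      rw [pow_succ, ← mul_assoc, pow_mul]
      refine Nat.pow_le_pow_left (ih (h.pair_es hp huQ hy e') (h.pair_card' hp huQ hy e' hc) (hA.mono inf_le_left)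
        hr'.inf_left (norm_inf ((inf_le_left.trans inf_le_left).trans hn) (norm_C1 (inf_le_left.trans inf_le_right)))
        ?_ hu') p
      rw [h.pair_Z hp huQ hy e', eq_bot_iff, ← h0]
      exact inf_le_inf_right _ inf_le_left
    push Not at h2
    obtain ⟨rfl, rfl⟩ := h2
    have h3 := hmin 1 le_rfl (by have := hr.eq_two_or_odd; rw [pow_one]; omega)
    obtain ⟨k, hk⟩ := hr'.card_eq_pow
    rw [hk]
    refine Nat.pow_le_pow_right hr.pos ?_
    have h4 := one_lt_card h1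
    have : k ≠ 1 := fun e => h1 (by
      rw [← h0, ← h.der_eq hp na, eq_comm, inf_eq_left]
      exact cent_symm ((cyc_of_prime (by rw [hk, e, pow_one]; exact hr)).der_cent hn))
    rcases k with _ | _ | k
    · simp [hk] at h4
    · omega
    · omega

/-- Let p and r be distinct primes, let E be an extraspecial subgroup of order p^(2w+1) of a finite group, and let A be an elementary abelian r-subgroup normalized by E on which E acts faithfully (C_E(A) = 1). If n ≥ 1 is least with p dividing rⁿ − 1 (the smallest dimension of a faithful representation of a group of order p over the field with r elements), then the order of A is at least r^(n·p^w). -/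
theorem result {G : Type*} [Group G] [Finite G] {p r : ℕ} [Fact p.Prime] [hr : Fact r.Prime] (hpr : p ≠ r) (E A : Subgroup G) (w : ℕ) (hE : Cfsg.IsExtraspecial p ↥E) (hEcard : Nat.card ↥E = p ^ (2 * w + 1)) (hA : Cfsg.IsElementaryAbelian r A) (hnorm : E ≤ Subgroup.normalizer (A : Set G)) (hfaith : E ⊓ Subgroup.centralizer (A : Set G) = ⊥) (n : ℕ) (hn : 1 ≤ n) (hdiv : p ∣ r ^ n - 1) (hmin : ∀ k : ℕ, 1 ≤ k → p ∣ r ^ k - 1 → n ≤ k) : r ^ (n * p ^ w) ≤ Nat.card ↥A := by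
  have hp : p.Prime := Fact.out
  obtain ⟨h, -⟩ := (isExtraspecial_iff hp).1 hE
  have ha : Abel A := abel_of_comm hA.1
  have hr' : PiGrp {r} A := piGrp_of_elt fun x hx => piElt_of_pow_eq_one hr.out (hA.2 x hx)
  have cop : (Nat.card A).Coprime (Nat.card (Z(E) : Subgroup G)) :=
    hr'.coprime (((h.pi hp).of_le inf_le_left).p'_of_ne hpr)
  have hn' : Z(E) ≤ N(A) := inf_le_left.trans hnorm
  have hB := comm_le_left hn'
  refine (es_bound hp hr.out hpr hmin w h hEcard (ha.mono hB) (hr'.of_le hB) (norm_comm hnorm (norm_Z le_N))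
    (coprime_abel_cent_TI hn' cop ha) fun e => h.Z_ne_bot hp ?_).trans (card_le hB)
  rw [eq_bot_iff, ← hfaith]
  exact le_inf inf_le_left (cent_symm (comm_eq_bot_iff.1 e))

end Cfsg.Agent.S2912
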