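import Cfsg.Statements.S2916
import Cfsg.Agent.H22.GL23
import Cfsg.Agent.H2.IdM

set_option autoImplicit false
open Cfsg

namespace Cfsg.Agent.S2916

/-- Let G be a finite group with O²(G) = G (no proper normal subgroup of 2-power index), and let t be an involution of G whose centralizer C_G(t) is isomorphic to GL₂(3). Then G is isomorphic to PSL₃(3) or to the Mathieu group M₁₁. -/
theorem result {G : Type*} [Group G] [Finite G] (hO : Cfsg.pResidual 2 G = ⊤) (t : G) (ht : orderOf t = 2) (hC : Nonempty (↥(Subgroup.centralizer ({t} : Set G)) ≃* GL (Fin 2) (ZMod 3))) : (∃ (F : Type) (_ : Field F) (_ : Fintype F), Fintype.card F = 3 ∧ Nonempty (G ≃* Matrix.ProjectiveSpecialLinearGroup (Fin 3) F)) ∨ Cfsg.Spor.IsoM11 G := by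
  obtain ⟨e⟩ := hC
  obtain ⟨_, c⟩ := H22.gl23 (fun H j => by
    have := Subgroup.normal_of_index_eq_two j
    rw [top_le_iff.1 (hO.ge.trans (H3.pResidual_le_of_index_eq_pow H (k := 1) j))] at j
    simp at j) ht e
  exact (H2.id_gl23 c).imp_left fun h => ⟨ZMod 3, inferInstance, inferInstance, rfl, h⟩

end Cfsg.Agent.S2916
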