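import Cfsg.Statements.S2924
import Cfsg.Agent.H22.Misc1
import Cfsg.Agent.H17.Local
import Cfsg.Agent.H18.BG1
import Cfsg.Agent.H3.PG
import Cfsg.Agent.S0217

set_option autoImplicit false
open Cfsg

namespace Cfsg.Agent.S2924

open H18 Subgroup
open scoped commutatorElement

theorem key {X : Type*} [Group X] [Finite X] {a : X} {H K D : Subgroup X} (ha : a * a = 1) (hK : K ⊴ H)
    (haH : a ∈ H) (hD : D ≤ O[{2}ᶜ](C1(a))) (hDH : D ≤ H) : D ≤ C(O[{2}](K)) := by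
  have hT := (hK.pcore (π := {2})).norm
  have hc : C(zpowers a) = C1(a) := C_zpowers
  refine PxQ (P := zpowers a) (piElt_of_pow_eq_one Nat.prime_two (by rwa [sq])).zpowers (pcore_pi.of_le hD) pcore_pi
    (cent_symm (hc ▸ hD.trans pcore_le)) (zpowers_le.2 (hT haH)) (hDH.trans hT) ?_
  rw [hc, ← comm_eq_bot_iff, eq_bot_iff, ← PiGrp.inf_eq_bot (π := {2}) (A := O[{2}](K)) pcore_pi
    (pcore_pi (H := C1(a)))]
  exact le_inf ((comm_mono inf_le_left le_rfl).trans (comm_le_left (hDH.trans hT)))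
    ((comm_mono le_rfl hD).trans (comm_le_right (inf_le_right.trans pcore_nml.norm)))

/-- Let X be a finite group and Y an elementary abelian 2-subgroup of X of order at least 8 such that C_X(x) has no components (E(C_X(x)) = 1) for every nontrivial x ∈ Y, and F*(C_X(z)) = O₂(C_X(z)) for some nontrivial z ∈ Y. Then the subgroup generated by the cores O(C_X(y)), y ∈ Y nontrivial, has odd order and is normalized by N_X(Y). -/
theorem result {X : Type*} [Group X] [Finite X] (Y : Subgroup X) (hY : Cfsg.IsElementaryAbelian 2 Y) (h8 : 8 ≤ Nat.card ↥Y) (hE : ∀ x ∈ Y, x ≠ 1 → Cfsg.layer ↥(Subgroup.centralizer ({x} : Set X)) = ⊥) (hz : ∃ z ∈ Y, z ≠ 1 ∧ Cfsg.generalizedFittingSubgroup ↥(Subgroup.centralizer ({z} : Set X)) = Cfsg.pCore 2 ↥(Subgroup.centralizer ({z} : Set X))) : Odd (Nat.card ↥(⨆ y : {y : X // y ∈ Y ∧ y ≠ 1}, (Cfsg.oddCore ↥(Subgroup.centralizer ({(y : X)} : Set X))).map (Subgroup.centralizer ({(y : X)} : Set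 X)).subtype)) ∧ Subgroup.normalizer (Y : Set X) ≤ Subgroup.normalizer ((⨆ y : {y : X // y ∈ Y ∧ y ≠ 1}, (Cfsg.oddCore ↥(Subgroup.centralizer ({(y : X)} : Set X))).map (Subgroup.centralizer ({(y : X)} : Set X)).subtype : Subgroup X) : Set X) := by
  have hp := Nat.prime_two
  obtain ⟨z, hzY, hz1, hz⟩ := hz
  have hA := H3.elem_iff.2 hY
  have h2 : ∀ a ∈ Y, a * a = 1 := fun a ha => by rw [← sq, hA.pow a ha]
  have hc : ∀ a ∈ Y, ∀ b ∈ Y, a ∈ C1(b) := fun a ha b hb => mem_C1.2 (mem_C.1 (hA.abel ha) b hb).symm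
  have e : ∀ y : X, (oddCore C1(y)).map (C1(y)).subtype = O[{2}ᶜ](C1(y)) := fun y => pPrimeCore_map hp
  simp only [e]
  have inv : ∀ a ∈ Y, ∀ x ∈ O[{2}ᶜ](C1(a)), z * x * z⁻¹ = x⁻¹ := by
    intro a ha
    refine H22.inverts_of_fpf (h2 z hzY) (pcore_nml.norm (hc z hzY a ha)) fun x hx hxz => ?_
    have h1 : O[{2}ᶜ](C1(a)) ⊓ C1(z) ≤ O[{2}](C1(z)) := by
      have := H17.gfit_eq_oP_iff.1 hz
      rw [H17.CharP, H17.oP, pCore_map hp] at this
      exact (le_inf inf_le_right (key (h2 a ha) Nml.rfl (hc a ha z hzY) inf_le_left inf_le_right)).trans this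
    exact eq_one_of_eq_bot (PiGrp.eq_bot (pcore_pi.of_le h1) pcore_pi.inf_left) ⟨hx, mem_C1.2 (mul_inv_eq_iff_eq_mul.1 hxz).symm⟩
  have ab : ∀ a ∈ Y, Abel O[{2}ᶜ](C1(a)) := fun a ha => cent_iff.2 (H22.comm_of_inverts (inv a ha))
  refine ⟨Nat.not_even_iff_odd.1 fun h => (S0217.result Y (fun a ha b hb => mem_C1.1 (hc a ha b hb)) hA.pow h8
    (fun y => O[{2}ᶜ](C1(y))) (fun _ _ _ => pcore_le) (fun _ _ _ => (piNat_compl_iff hp).1 pcore_pi)
    (fun a ha _ b hb x hx => conj_mem pcore_nml.norm (hc b hb a ha) hx) (fun a ha _ => (ab a ha).solv)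
    fun a ha _ b hb hb1 => ?_).1 h.two_dvd, fun g hg => mem_N_of_cj_le ?_⟩
  · set D := O[{2}ᶜ](C1(a)) ⊓ C1(b)
    set K := C1(b) ⊓ C(O[{2}ᶜ](C1(b)))
    have hK : K ⊴ C1(b) := pcore_nml.cent
    have hDK : D ≤ K := fun d hd => ⟨hd.2, by
      have h1 : d * d ∈ C(O[{2}ᶜ](C1(b))) := mem_C.2 fun o ho => by
        have e1 := inv b hb o ho
        have e2 := inv b hb _ (conj_mem pcore_nml.norm hd.2 ho)
        have e3 := inv a ha d hd.1
        have e4 : d⁻¹ * o⁻¹ * d = d * o⁻¹ * d⁻¹ := by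
          calc _ = (z * d * z⁻¹) * (z * o * z⁻¹) * (z * d * z⁻¹)⁻¹ := by rw [e1, e3, inv_inv]
            _ = z * (d * o * d⁻¹) * z⁻¹ := by group
            _ = _ := by rw [e2]; group
        calc _ = o * d * (d * o⁻¹ * d⁻¹) * d * o := by group
          _ = o * d * (d⁻¹ * o⁻¹ * d) * d * o := by rw [e4]
          _ = _ := by group
      obtain ⟨k, hk⟩ := exists_pow_eq_self_of_coprime (x := d) (n := 2)
        ((piNat_compl_iff_coprime hp).1 (pcore_pi.elt hd.1)).symm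
      rw [← hk, sq]; exact pow_mem h1 k⟩
    have hl : H17.lay K = ⊥ := eq_bot_iff.2 ((H17.Subn.step hK.le hK.norm .refl).lay_le_lay.trans
      (by rw [← map_bot (C1(b)).subtype, ← hE b hb hb1]; exact le_rfl))
    have h1 : D ≤ F(K) := (le_inf hDK (cent_symm ?_)).trans (H17.centralizer_fit_le_of_lay_eq_bot hl)
    · exact (le_pcore_of_le_fit h1 pcore_pi.inf_left).trans hK.pcore_le_pcore
    refine fit_le_of_pcores fun p hp' _ => ?_
    by_cases e : p = 2
    · exact e ▸ cent_symm (key (h2 a ha) hK (hc a ha b hb) inf_le_left inf_le_right)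
    · refine cent_symm ((hDK.trans inf_le_right).trans (C_anti (hK.pcore_le_pcore.trans (pcore_sub ?_))))
      rintro _ rfl; exact e
  · rw [cj_iSup]
    refine iSup_le fun y => ?_
    rw [cj_pcore, cj_C1]
    exact le_iSup_of_le (⟨_, conj_mem_N hg y.2.1, fun h => y.2.2 (conj_eq_one_iff'.1 h)⟩ : {y : X // y ∈ Y ∧ y ≠ 1})
      le_rfl

end Cfsg.Agent.S2924
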