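import Cfsg.Statements.S2925
import Cfsg.Agent.H17.FStar

set_option autoImplicit false
open Cfsg

namespace Cfsg.Agent.S2925

/-- Let K be a component of the finite group X and T a Sylow 2-subgroup of X. If some abelian normal subgroup Y of T does not normalize K, then K ⧸ Z(K) has abelian Sylow 2-subgroups. -/
theorem result {X : Type*} [Group X] [Finite X] (K : Subgroup X) (hK : Cfsg.IsComponent K) (T : Sylow 2 X) (Y : Subgroup X) (hYT : Y ≤ (T : Subgroup X)) (hYn : (Y.subgroupOf (T : Subgroup X)).Normal) (hYab : IsMulCommutative ↥Y) (hnot : ¬ Y ≤ Subgroup.normalizer (K : Set X)) (P : Sylow 2 (↥K ⧸ Subgroup.center ↥K)) : IsMulCommutative ↥(P : Subgroup (↥K ⧸ Subgroup.center ↥K)) := by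
  have hK' := H17.isComp_top_iff.mpr hK
  obtain ⟨y, hy, hyK⟩ := SetLike.not_le_iff_exists.mp hnot
  have hc : ⁅K, H17.cj y K⁆ = ⊥ := (hK'.eq_or_commutator (hK'.cj_of_mem_normalizer
    (H17.mem_normalizer_of_normal y ⊤))).resolve_left fun e => hyK (H17.mem_normalizer_iff_cj.mpr e.symm)
  have hTY := (Subgroup.normal_subgroupOf_iff_le_normalizer hYT).mp hYn
  have hS := (((H17.isSyl_sylow T).inf_subn hK'.subn).subgroupOf le_rfl).map (QuotientGroup.mk' (Subgroup.center K))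
  rw [Subgroup.subgroupOf_self, H17.map_mk'_top] at hS
  obtain ⟨g, -, hg⟩ := hS.exists_cj_eq (H17.isSyl_sylow P)
  rw [← hg, ← Subgroup.le_centralizer_iff_isMulCommutative, ← H17.cj_centralizer]
  refine H17.cj_mono g ?_
  rintro _ ⟨⟨a, haK⟩, ha, rfl⟩ _ ⟨⟨b, hbK⟩, hb, rfl⟩
  rw [← map_mul, ← map_mul, QuotientGroup.mk'_apply, QuotientGroup.mk'_apply, QuotientGroup.eq,
    Subgroup.mem_center_iff]
  have hm : ∀ t ∈ (T : Subgroup X), t * (y * t⁻¹ * y⁻¹) ∈ Y := fun t ht => by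
    have := mul_mem ((Subgroup.mem_normalizer_iff.mp (hTY ht) y).mp hy) (inv_mem hy)
    rwa [show t * y * t⁻¹ * y⁻¹ = t * (y * t⁻¹ * y⁻¹) by group] at this
  have h1 := H4.comm_of hYab (hm a ha.1) (hm b hb.1)
  have hcm : ∀ k ∈ K, ∀ l ∈ K, y * l * y⁻¹ * k = k * (y * l * y⁻¹) := fun k hk l hl =>
    H17.le_centralizer_of_commutator_eq_bot hc hk _ (H17.conj_mem_cj hl)
  have h2 : (b * a)⁻¹ * (a * b) = y * ((b⁻¹ * a⁻¹) * (a⁻¹ * b⁻¹)⁻¹) * y⁻¹ := by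
    have e1 : a * (y * a⁻¹ * y⁻¹) * (b * (y * b⁻¹ * y⁻¹)) = a * b * (y * (a⁻¹ * b⁻¹) * y⁻¹) := by
      rw [mul_assoc a, ← mul_assoc _ b, hcm b hbK _ (inv_mem haK)]; group
    have e2 : b * (y * b⁻¹ * y⁻¹) * (a * (y * a⁻¹ * y⁻¹)) = b * a * (y * (b⁻¹ * a⁻¹) * y⁻¹) := by
      rw [mul_assoc b, ← mul_assoc _ a, hcm a haK _ (inv_mem hbK)]; group
    rw [e1, e2] at h1
    calc (b * a)⁻¹ * (a * b) = (b * a)⁻¹ * (a * b * (y * (a⁻¹ * b⁻¹) * y⁻¹)) * (y * (a⁻¹ * b⁻¹) * y⁻¹)⁻¹ := by group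
      _ = _ := by rw [h1]; group
  intro k
  refine Subtype.ext ?_
  simp only [Subgroup.coe_mul, Subgroup.coe_inv]
  rw [h2]
  exact (hcm k k.2 _ (mul_mem (mul_mem (inv_mem hbK) (inv_mem haK))
    (inv_mem (mul_mem (inv_mem haK) (inv_mem hbK))))).symm

end Cfsg.Agent.S2925
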