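import Cfsg.Statements.S2928
import Cfsg.Agent.H23.QS

set_option autoImplicit false
open Cfsg

namespace Cfsg.Agent.S2928

open H23 Equiv Equiv.Perm Subgroup

/-- Let n ≥ 8 and let H be a subgroup of the symmetric group of degree n whose generalized Fitting subgroup F*(H) is quasisimple. If H contains a Sylow 2-subgroup of the alternating group of degree n, then F*(H) is isomorphic to an alternating group of degree m for some m ∈ {n − 3, n − 2, n − 1, n}. -/
theorem result (n : ℕ) (hn : 8 ≤ n) (H : Subgroup (Equiv.Perm (Fin n))) (hF : Cfsg.IsQuasisimple ↥(Cfsg.generalizedFittingSubgroup ↥H)) (hS : ∃ P : Sylow 2 ↥(alternatingGroup (Fin n)), ((P : Subgroup ↥(alternatingGroup (Fin n))).map (alternatingGroup (Fin n)).subtype) ≤ H) : ∃ m : ℕ, (m = n - 3 ∨ m = n - 2 ∨ m = n - 1 ∨ m = n) ∧ Nonempty (↥(Cfsg.generalizedFittingSubgroup ↥H) ≃* ↥(alternatingGroup (Fin m))) := by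
  obtain ⟨L, hL, ⟨e⟩⟩ := QS.of hF
  obtain ⟨P, hP⟩ := hS
  obtain ⟨w, a, b, c⟩ := exists_Ew Nat.prime_two (H18.hall_map_sylow Nat.prime_two P)
  rw [Fintype.card_fin] at b
  have a1 : ∀ x, w (w x) = x := fun x => congrArg (· x) ((sq w).symm.trans a)
  have a2 : ∀ x, swap x (w x) ∈ Ew w := fun x => ⟨mul_inv_eq_iff_eq_mul.1 (by rw [← swap_apply_apply, a1, swap_comm]) |>.symm,
    fun y => by rw [swap_apply_def]; split_ifs with h1 h2 <;> simp [*, SameCycle.rfl]⟩
  have d : Prs H w := ⟨a1, fun x y h1 h2 => hP (c ⟨mul_mem (a2 x) (a2 y), Wr.swap_swap_mem h1.symm h2.symm⟩)⟩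
  obtain ⟨t, f, g⟩ := hL.three d (by omega) (or_iff_not_imp_right.2 fun h => hP (c ⟨⟨Commute.refl _, fun x => by simp [SameCycle.rfl]⟩, by
    have h1 := sum_cycleType w
    have h2 := cycleType_of_pow_prime_eq_one a
    rw [h2, Multiset.sum_replicate, smul_eq_mul] at h1
    refine mem_alternatingGroup.2 ?_
    rw [sign_of_cycleType, sum_cycleType, show w.support.card = 8 by omega, show w.cycleType.card = 4 by omega]
    decide⟩)) (by simp; omega)
  obtain ⟨O, ⟨i⟩, j, k⟩ := hL.alt f g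
  refine ⟨_, ?_, ⟨e.trans i⟩⟩
  have l : (w.support \ O : Set (Fin n)).ncard ≤ 2 := by
    by_contra! m
    obtain ⟨x, m1, -⟩ := exists_third_mem m ⟨0, by omega⟩ ⟨0, by omega⟩
    obtain ⟨y, m2, m3, m4⟩ := exists_third_mem m x (w x)
    have m5 : ∀ x, x ∉ O → w x ≠ x → w x ∉ O := fun x n1 n2 n3 => by
      obtain ⟨y, n4, n5, n6⟩ := exists_third_mem m x (w x)
      refine n1 ?_
      simpa [swap_apply_of_ne_of_ne (Ne.symm n6) (w.injective.ne (Ne.symm n5))] using j _ (d.2 x y n2 (by simpa using n4.1)) _ n3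
    have m6 : w x ≠ x := by simpa using m1.1
    have m7 : w y ≠ y := by simpa using m2.1
    obtain ⟨u, n1, n2⟩ := k _ (d.2 x y m6 m7) fun h => m6 (by
      simpa [swap_apply_of_ne_of_ne (Ne.symm m3) fun d => m4 (by rw [d, a1] : y = w x)] using congrArg (· x) h)
    refine n2 ?_
    rw [Perm.mul_apply, swap_apply_of_ne_of_ne (x := u), swap_apply_of_ne_of_ne] <;> rintro rfl
    exacts [m1.2 n1, m5 x m1.2 m6 n1, m2.2 n1, m5 y m2.2 m7 n1]
  have := ncard_le O
  have := Set.ncard_le_ncard_sdiff_add_ncard (w.support : Set (Fin n)) (t := O)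
  rw [Set.ncard_coe_finset, Fintype.card_fin] at *
  omega

end Cfsg.Agent.S2928
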