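import Cfsg.Statements.S2929
import Cfsg.Agent.H23.QS

set_option autoImplicit false
open Cfsg

namespace Cfsg.Agent.S2929

open H23 Equiv Equiv.Perm Subgroup

/-- Let n ≥ 5 and let H be a subgroup of the symmetric group of degree n whose generalized Fitting subgroup F*(H) is quasisimple. If H contains a Sylow 3-subgroup of the symmetric group, then F*(H) is isomorphic to an alternating group of degree m for some m ∈ {n − 2, n − 1, n}. -/
theorem result (n : ℕ) (hn : 5 ≤ n) (H : Subgroup (Equiv.Perm (Fin n))) (hF : Cfsg.IsQuasisimple ↥(Cfsg.generalizedFittingSubgroup ↥H)) (hS : ∃ P : Sylow 3 (Equiv.Perm (Fin n)), (P : Subgroup (Equiv.Perm (Fin n))) ≤ H) : ∃ m : ℕ, (m = n - 2 ∨ m = n - 1 ∨ m = n) ∧ Nonempty (↥(Cfsg.generalizedFittingSubgroup ↥H) ≃* ↥(alternatingGroup (Fin m))) := by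
  obtain ⟨L, hL, ⟨e⟩⟩ := QS.of hF
  obtain ⟨P, hP⟩ := hS
  obtain ⟨w, a, b, c⟩ := exists_Ew Nat.prime_three (H18.hall_sylow_top Nat.prime_three P)
  have d : ∀ x, w.cycleOf x ∈ H := fun x => hP (c ⟨cycleOf_mem_Ew x, trivial⟩)
  rw [Fintype.card_fin] at b
  obtain ⟨x, hx, -⟩ := Finset.exists_mem_notMem_of_card_lt_card (s := ∅) (t := w.support) (by rw [Finset.card_empty]; omega)
  rw [mem_support] at hx
  have f := isCycle_cycleOf w hx
  obtain ⟨O, ⟨i⟩, j, k⟩ := hL.alt (d x) (card_support_eq_three_iff.1 (f.orderOf.symm.trans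
    (orderOf_eq_prime (pow_of_mem_Ew a (cycleOf_mem_Ew x)) f.ne_one)))
  refine ⟨_, ?_, ⟨e.trans i⟩⟩
  have l := Set.ncard_le_ncard (s := w.support) (t := O) fun y hy => by
    have m := isCycle_cycleOf w (mem_support.1 hy)
    obtain ⟨u, m1, m2⟩ := k _ (d y) m.ne_one
    obtain ⟨r, m3⟩ := m.sameCycle m2 (y := y) (by simpa using hy)
    exact m3 ▸ j _ (zpow_mem (d y) r) u m1
  have := ncard_le O
  rw [Set.ncard_coe_finset] at l
  rw [Fintype.card_fin] at this
  omega

end Cfsg.Agent.S2929
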