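import Cfsg.Statements.S2930
import Cfsg.Agent.H23.Wr5

set_option autoImplicit false
open Cfsg

namespace Cfsg.Agent.S2930

open H23.Wr H18 Subgroup

/-- Let X be a finite 3-minimal group (a Sylow 3-subgroup is not normal and lies in a unique maximal subgroup) whose generalized Fitting subgroup is isomorphic to an alternating group of degree n ≥ 5. Then X = F*(X), and n = 6, n = 9, or n = 3ᵃ + 1 for some a ≥ 2. -/
theorem result {X : Type*} [Group X] [Finite X] (hX : Cfsg.IsPMinimal 3 X) (n : ℕ) (hn : 5 ≤ n) (hF : Nonempty (↥(Cfsg.generalizedFittingSubgroup X) ≃* ↥(alternatingGroup (Fin n)))) : Cfsg.generalizedFittingSubgroup X = ⊤ ∧ (n = 6 ∨ n = 9 ∨ ∃ a : ℕ, 2 ≤ a ∧ n = 3 ^ a + 1) := by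
  obtain ⟨e⟩ := hF
  obtain ⟨S⟩ : Nonempty (Sylow 3 X) := inferInstance
  obtain ⟨h1, h2⟩ := hX S
  have h3 : Cfsg.generalizedFittingSubgroup X = ⊤ := by_contra fun h => by
    obtain ⟨M, -, hu⟩ := h2
    have a1 : (S : Subgroup X) ≤ Cfsg.generalizedFittingSubgroup X := fun x hx => by
      obtain ⟨k, hk⟩ := IsPGroup.iff_orderOf.1 S.2 ⟨x, hx⟩
      obtain ⟨m, hm⟩ := exists_pow_eq_self_of_coprime (x := x) (n := 4) (by
        rw [← Subgroup.orderOf_mk x hx, hk]; exact Nat.Coprime.pow 2 k (by norm_num : Nat.Coprime 2 3))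
      exact hm ▸ pow_mem (pow_four_mem (by simp; omega) (H17.centralizer_generalizedFittingSubgroup_le X) e x) m
    obtain ⟨K, a2, a3⟩ := (eq_top_or_exists_le_coatom _).resolve_left h
    obtain ⟨L, a4, a5⟩ := (eq_top_or_exists_le_coatom N((S : Subgroup X))).resolve_left fun e =>
      h1 (norm_top_iff.1 e.ge)
    have := frattini_arg Nat.prime_three nml_top ((hall_sylow_top Nat.prime_three S).of_le a1 le_top)
    exact a2.1 (eq_top_iff.2 (this ▸ sup_le a3 (inf_le_right.trans
      (hu K ⟨a2, a1.trans a3⟩ ▸ hu L ⟨a4, le_N.trans a5⟩ ▸ a5))))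
  refine ⟨h3, by_contra fun h => ?_⟩
  push Not at h
  refine not_uniq_alt (topEquiv.symm.trans ((MulEquiv.subgroupCongr h3.symm).trans e)) (two_three (S.2.map _)
    (by simpa using hn) (by simpa using h.1) (by simpa using h.2.1) fun a ha => ?_) h2
  rw [Fintype.card_fin] at ha
  rcases a with _ | _ | a
  · omega
  · omega
  · exact h.2.2 _ (by omega) ha

end Cfsg.Agent.S2930
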