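import Cfsg.Statements.S2931
import Cfsg.Agent.H16.Cay
import Cfsg.Agent.H15.StdS43
import Cfsg.Agent.H15.StdGO6m2
import Cfsg.Agent.H15.StdSym8
import Cfsg.Agent.H15.StdAlt8

set_option autoImplicit false
open Cfsg

namespace Cfsg.Agent.S2931

open H14 H15 H16

def Ea : List (List ℕ) :=
  [[0], [2], [4], [2, 0], [4, 0], [4, 2], [0, 4], [2, 4], [4, 2, 0], [0, 4, 0], [2, 4, 0], [0, 4, 2], [2, 4, 2], [2,
  0, 4], [4, 0, 4], [4, 2, 4], [0, 4, 2, 0], [2, 4, 2, 0], [2, 0, 4, 0], [4, 0, 4, 0], [4, 2, 4, 0], [2, 0, 4, 2],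
  [4, 0, 4, 2], [4, 2, 4, 2], [4, 2, 0, 4], [2, 4, 0, 4], [0, 4, 2, 4], [2, 0, 4, 2, 0], [4, 0, 4, 2, 0], [4, 2, 4,
  2, 0], [4, 2, 0, 4, 0], [2, 4, 0, 4, 0], [0, 4, 2, 4, 0], [4, 2, 0, 4, 2], [2, 4, 0, 4, 2], [0, 4, 2, 4, 2], [0, 4,
  2, 0, 4], [2, 4, 2, 0, 4], [4, 2, 4, 0, 4], [4, 0, 4, 2, 4], [4, 2, 0, 4, 2, 0], [2, 4, 0, 4, 2, 0], [0, 4, 2, 4,
  2, 0], [0, 4, 2, 0, 4, 0], [2, 4, 2, 0, 4, 0], [4, 2, 4, 0, 4, 0], [4, 0, 4, 2, 4, 0], [4, 2, 4, 0, 4, 2], [4, 0,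
  4, 2, 4, 2], [4, 0, 4, 2, 0, 4], [4, 2, 4, 2, 0, 4], [0, 4, 2, 4, 0, 4], [2, 4, 0, 4, 2, 4], [4, 2, 4, 0, 4, 2, 0],
  [4, 0, 4, 2, 4, 2, 0], [4, 0, 4, 2, 0, 4, 0], [4, 2, 4, 2, 0, 4, 0], [0, 4, 2, 4, 0, 4, 0], [2, 4, 0, 4, 2, 4, 0],
  [4, 0, 4, 2, 4, 0, 4], [4, 2, 4, 0, 4, 2, 4], [4, 0, 4, 2, 4, 0, 4, 0], [4, 2, 4, 0, 4, 2, 4, 0]]

def Ta : List (List ℕ) :=
  [[1, 2, 3], [0, 4, 5], [4, 0, 6], [7, 8, 0], [2, 1, 9], [10, 11, 1], [12, 13, 2], [3, 14, 15], [14, 3, 16], [17,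
  18, 4], [5, 19, 20], [19, 5, 21], [6, 22, 23], [22, 6, 24], [8, 7, 25], [20, 26, 7], [27, 24, 8], [9, 28, 29], [28,
  9, 30], [11, 10, 31], [15, 32, 10], [33, 30, 11], [13, 12, 34], [29, 35, 12], [36, 16, 13], [37, 38, 14], [32, 15,
  39], [16, 36, 40], [18, 17, 41], [23, 42, 17], [43, 21, 18], [44, 45, 19], [26, 20, 46], [21, 43, 47], [45, 44,
  22], [42, 23, 48], [24, 27, 49], [25, 41, 50], [41, 25, 51], [52, 51, 26], [50, 53, 27], [38, 37, 28], [35, 29,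
  54], [30, 33, 55], [31, 34, 56], [34, 31, 57], [58, 57, 32], [56, 59, 33], [59, 56, 35], [57, 58, 36], [40, 54,
  37], [55, 39, 38], [39, 55, 60], [54, 40, 61], [53, 50, 42], [51, 52, 43], [47, 48, 44], [49, 46, 45], [46, 49,
  62], [48, 47, 63], [62, 63, 52], [63, 62, 53], [60, 61, 58], [61, 60, 59]]

def Es : List (List ℕ) :=
  [[0], [2], [4], [2, 0], [4, 0], [4, 2], [0, 4], [2, 4], [4, 2, 0], [0, 4, 0], [2, 4, 0], [0, 4, 2], [2, 4, 2], [2,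
  0, 4], [4, 0, 4], [4, 2, 4], [0, 4, 2, 0], [2, 4, 2, 0], [2, 0, 4, 0], [4, 0, 4, 0], [4, 2, 4, 0], [2, 0, 4, 2],
  [4, 0, 4, 2], [4, 2, 4, 2], [4, 2, 0, 4], [2, 4, 0, 4], [0, 4, 2, 4], [2, 0, 4, 2, 0], [4, 0, 4, 2, 0], [4, 2, 4,
  2, 0], [4, 2, 0, 4, 0], [2, 4, 0, 4, 0], [0, 4, 2, 4, 0], [4, 2, 0, 4, 2], [2, 4, 0, 4, 2], [0, 4, 2, 4, 2], [0, 4,
  2, 0, 4], [2, 4, 2, 0, 4], [4, 2, 4, 0, 4], [4, 0, 4, 2, 4], [4, 2, 0, 4, 2, 0], [2, 4, 0, 4, 2, 0], [0, 4, 2, 4,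
  2, 0], [0, 4, 2, 0, 4, 0], [2, 4, 2, 0, 4, 0], [4, 2, 4, 0, 4, 0], [4, 0, 4, 2, 4, 0], [0, 4, 2, 0, 4, 2], [2, 4,
  2, 0, 4, 2], [4, 2, 4, 0, 4, 2], [4, 0, 4, 2, 4, 2], [2, 0, 4, 2, 0, 4], [4, 0, 4, 2, 0, 4], [4, 2, 4, 2, 0, 4],
  [0, 4, 2, 4, 0, 4], [2, 4, 0, 4, 2, 4], [0, 4, 2, 0, 4, 2, 0], [2, 4, 2, 0, 4, 2, 0], [4, 2, 4, 0, 4, 2, 0], [4, 0,
  4, 2, 4, 2, 0], [2, 0, 4, 2, 0, 4, 0], [4, 0, 4, 2, 0, 4, 0], [4, 2, 4, 2, 0, 4, 0], [0, 4, 2, 4, 0, 4, 0], [2, 4,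
  0, 4, 2, 4, 0], [2, 0, 4, 2, 0, 4, 2], [4, 0, 4, 2, 0, 4, 2], [4, 2, 4, 2, 0, 4, 2], [0, 4, 2, 4, 0, 4, 2], [2, 4,
  0, 4, 2, 4, 2], [4, 2, 0, 4, 2, 0, 4], [2, 4, 0, 4, 2, 0, 4], [0, 4, 2, 4, 2, 0, 4], [4, 0, 4, 2, 4, 0, 4], [4, 2,
  4, 0, 4, 2, 4], [2, 0, 4, 2, 0, 4, 2, 0], [4, 0, 4, 2, 0, 4, 2, 0], [4, 2, 4, 2, 0, 4, 2, 0], [0, 4, 2, 4, 0, 4, 2,
  0], [2, 4, 0, 4, 2, 4, 2, 0], [4, 2, 0, 4, 2, 0, 4, 0], [2, 4, 0, 4, 2, 0, 4, 0], [0, 4, 2, 4, 2, 0, 4, 0], [4, 0,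
  4, 2, 4, 0, 4, 0], [4, 2, 4, 0, 4, 2, 4, 0], [4, 2, 0, 4, 2, 0, 4, 2], [2, 4, 0, 4, 2, 0, 4, 2], [0, 4, 2, 4, 2, 0,
  4, 2], [4, 0, 4, 2, 4, 0, 4, 2], [4, 2, 4, 0, 4, 2, 4, 2], [0, 4, 2, 0, 4, 2, 0, 4], [2, 4, 2, 0, 4, 2, 0, 4], [4,
  2, 4, 0, 4, 2, 0, 4], [4, 0, 4, 2, 4, 2, 0, 4], [4, 2, 0, 4, 2, 0, 4, 2, 0], [2, 4, 0, 4, 2, 0, 4, 2, 0], [0, 4, 2,
  4, 2, 0, 4, 2, 0], [4, 0, 4, 2, 4, 0, 4, 2, 0], [4, 2, 4, 0, 4, 2, 4, 2, 0], [0, 4, 2, 0, 4, 2, 0, 4, 0], [2, 4, 2,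
  0, 4, 2, 0, 4, 0], [4, 2, 4, 0, 4, 2, 0, 4, 0], [4, 0, 4, 2, 4, 2, 0, 4, 0], [0, 4, 2, 0, 4, 2, 0, 4, 2], [2, 4, 2,
  0, 4, 2, 0, 4, 2], [4, 2, 4, 0, 4, 2, 0, 4, 2], [4, 0, 4, 2, 4, 2, 0, 4, 2], [2, 0, 4, 2, 0, 4, 2, 0, 4], [4, 0, 4,
  2, 0, 4, 2, 0, 4], [4, 2, 4, 2, 0, 4, 2, 0, 4], [0, 4, 2, 0, 4, 2, 0, 4, 2, 0], [2, 4, 2, 0, 4, 2, 0, 4, 2, 0], [4,
  2, 4, 0, 4, 2, 0, 4, 2, 0], [4, 0, 4, 2, 4, 2, 0, 4, 2, 0], [2, 0, 4, 2, 0, 4, 2, 0, 4, 0], [4, 0, 4, 2, 0, 4, 2,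
  0, 4, 0], [4, 2, 4, 2, 0, 4, 2, 0, 4, 0], [2, 0, 4, 2, 0, 4, 2, 0, 4, 2], [4, 0, 4, 2, 0, 4, 2, 0, 4, 2], [4, 2, 4,
  2, 0, 4, 2, 0, 4, 2], [4, 2, 0, 4, 2, 0, 4, 2, 0, 4], [2, 0, 4, 2, 0, 4, 2, 0, 4, 2, 0], [4, 0, 4, 2, 0, 4, 2, 0,
  4, 2, 0], [4, 2, 4, 2, 0, 4, 2, 0, 4, 2, 0], [4, 2, 0, 4, 2, 0, 4, 2, 0, 4, 0], [4, 2, 0, 4, 2, 0, 4, 2, 0, 4, 2],
  [4, 2, 0, 4, 2, 0, 4, 2, 0, 4, 2, 0]]

def Ts : List (List ℕ) :=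
  [[1, 2, 3], [0, 4, 5], [4, 0, 6], [7, 8, 0], [2, 1, 9], [10, 11, 1], [12, 13, 2], [3, 14, 15], [14, 3, 16], [17,
  18, 4], [5, 19, 20], [19, 5, 21], [6, 22, 23], [22, 6, 24], [8, 7, 25], [20, 26, 7], [27, 24, 8], [9, 28, 29], [28,
  9, 30], [11, 10, 31], [15, 32, 10], [33, 30, 11], [13, 12, 34], [29, 35, 12], [36, 16, 13], [37, 38, 14], [32, 15,
  39], [16, 36, 40], [18, 17, 41], [23, 42, 17], [43, 21, 18], [44, 45, 19], [26, 20, 46], [21, 43, 47], [48, 49,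
  22], [42, 23, 50], [24, 27, 51], [25, 52, 53], [52, 25, 54], [55, 54, 26], [53, 56, 27], [57, 58, 28], [35, 29,
  59], [30, 33, 60], [31, 61, 62], [61, 31, 63], [64, 63, 32], [62, 65, 33], [34, 66, 67], [66, 34, 68], [69, 68,
  35], [67, 70, 36], [38, 37, 71], [40, 72, 37], [73, 39, 38], [39, 73, 74], [72, 40, 75], [41, 76, 77], [76, 41,
  78], [79, 78, 42], [77, 80, 43], [45, 44, 81], [47, 82, 44], [83, 46, 45], [46, 83, 84], [82, 47, 85], [49, 48,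
  86], [51, 87, 48], [88, 50, 49], [50, 88, 89], [87, 51, 90], [91, 92, 52], [56, 53, 93], [54, 55, 94], [84, 89,
  55], [85, 90, 56], [58, 57, 95], [60, 96, 57], [97, 59, 58], [59, 97, 98], [96, 60, 99], [100, 101, 61], [65, 62,
  102], [63, 64, 103], [74, 98, 64], [75, 99, 65], [104, 105, 66], [70, 67, 106], [68, 69, 107], [98, 74, 69], [99,
  75, 70], [71, 108, 109], [108, 71, 110], [102, 110, 72], [109, 107, 73], [111, 112, 76], [80, 77, 113], [78, 79,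
  114], [89, 84, 79], [90, 85, 80], [81, 115, 116], [115, 81, 117], [93, 117, 82], [116, 114, 83], [86, 118, 119],
  [118, 86, 120], [113, 120, 87], [119, 94, 88], [92, 91, 121], [94, 119, 91], [117, 93, 92], [95, 122, 123], [122,
  95, 124], [106, 124, 96], [123, 103, 97], [101, 100, 125], [103, 123, 100], [110, 102, 101], [105, 104, 126], [107,
  109, 104], [124, 106, 105], [125, 126, 108], [112, 111, 127], [114, 116, 111], [120, 113, 112], [121, 127, 115],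
  [127, 121, 118], [126, 125, 122]]

theorem c1 : cayChk 8 8 3 StdAlt8.nets [0, 1, 2, 3, 4, 5] [[0, 2], [0, 19, 13], [4, 18, 12]] 3 ([] :: Ea) Ta = true := by
  decide +kernel
theorem c2 : cayChk 40 8 6 StdS43.nets [0, 1, 2, 4] [[4, 8], [5, 17, 9, 16], [12, 17]] 3 ([] :: Ea) Ta = true := by
  decide +kernel
theorem c3 : cayChk 8 8 3 StdSym8.nets [0, 1, 2, 3, 4, 5, 6] [[6], [2, 10], [0, 4, 8, 12]] 3 ([] :: Es) Ts = true := by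
  decide +kernel
theorem c4 : cayChk 36 8 6 StdGO6m2.nets [0, 1, 2, 3, 4] [[0], [6, 8], [2, 4]] 3 ([] :: Es) Ts = true := by
  decide +kernel

/-- The Sylow 2-subgroups of the alternating group of degree 8 and of PSp₄(3) are isomorphic, and so are the Sylow 2-subgroups of the symmetric group of degree 8 and of the full isometry group of a non-degenerate quadratic form of minus type in dimension 6 over the field with 2 elements. -/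
theorem result (F : Type) [Field F] [Fintype F] (hF : Fintype.card F = 3) (K : Type) [Field K] [Fintype K] (hK : Fintype.card K = 2) (a b : K) (hab : ∀ z₁ z₂ : K, z₁ ^ 2 + a * z₁ * z₂ + b * z₂ ^ 2 = 0 → z₁ = 0 ∧ z₂ = 0) (P : Sylow 2 ↥(alternatingGroup (Fin 8))) (Q : Sylow 2 (Cfsg.PSp 2 F)) (P' : Sylow 2 (Equiv.Perm (Fin 8))) (Q' : Sylow 2 ↥(Cfsg.isometryGroup K (Cfsg.quadFormMinus 2 K a b))) : Nonempty (↥(P : Subgroup ↥(alternatingGroup (Fin 8))) ≃* ↥(Q : Subgroup (Cfsg.PSp 2 F))) ∧ Nonempty (↥(P' : Subgroup (Equiv.Perm (Fin 8))) ≃* ↥(Q' : Subgroup ↥(Cfsg.isometryGroup K (Cfsg.quadFormMinus 2 K a b)))) := by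
  have h2 : ∀ x : K, x = 0 ∨ x = 1 := fun x => by
    by_contra! h
    have := Fintype.two_lt_card_iff.2 ⟨x, 0, 1, h.1, h.2, zero_ne_one⟩
    omega
  have h0 : (2 : K) = 0 := by exact_mod_cast cast_eq_zero_of_card (F := K) (p := 2) (k := 1) hK
  obtain rfl : b = 1 := (h2 b).resolve_left fun e => one_ne_zero (hab 0 1 (by simp [e])).2
  obtain rfl : a = 1 := (h2 a).resolve_left fun e => one_ne_zero (hab 1 1 (by rw [e]; linear_combination h0)).2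
  obtain ⟨S1⟩ := StdAlt8.std
  obtain ⟨S2⟩ := StdS43.std hF
  obtain ⟨S3⟩ := StdSym8.std
  obtain ⟨r, hr⟩ := ar_2 (F := K) hK
  obtain ⟨S4, -⟩ := StdGO6m2.core hr (mem_minus' hr.1 r.v_one r.v_one (L := StdGO6m2.As) (by decide +kernel)) _ hq_id
    (bd_go_minus hK hab (by decide +kernel))
  have := S2.finite
  have := S4.finite
  have d1 := cay_of_chk (base_of_fix S1.M S1.top (StdAlt8.fixw0 _ (StdAlt8.rels_of_all S1.rels))) c1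
  have d2 := cay_of_chk (base_of_fix S2.M S2.top (StdS43.fixw0 _ (StdS43.rels_of_all S2.rels))) c2
  have d3 := cay_of_chk (base_of_fix S3.M S3.top (StdSym8.fixw0 _ (StdSym8.rels_of_all S3.rels))) c3
  have d4 := cay_of_chk (base_of_fix S4.M S4.top (StdGO6m2.fixw0 _ (StdGO6m2.rels_of_all S4.rels))) c4
  obtain ⟨e1, -⟩ := cay_iso d1 d2
  obtain ⟨e2, -⟩ := cay_iso d3 d4
  exact ⟨sylow_iso (m := 6) e1 (d1.2.trans (by decide +kernel)) (by rw [S1.card]; decide +kernel) (by rw [S2.card]; decide +kernel) P Q,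
    sylow_iso (m := 7) e2 (d3.2.trans (by decide +kernel)) (by rw [S3.card]; decide +kernel) (by rw [S4.card]; decide +kernel) P' Q'⟩

end Cfsg.Agent.S2931
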