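import Cfsg.Statements.S2937
import Cfsg.Agent.H24.PMin2
import Cfsg.Agent.H24.ExT
import Cfsg.Agent.H24.ExU
import Cfsg.Agent.H15.TitsS

set_option autoImplicit false
open Cfsg

namespace Cfsg.Agent.S2937

open H24 Subgroup

theorem red {X : Type*} [Group X] [Finite X] {p : ℕ} [Fact p.Prime] (hX : IsPMinimal p X) (K : Subgroup X) [K.Normal] {Q₁ Q₂ : Prop}
    (h : PMn p K Q₁ Q₂) (U : Sylow p K) (hn : normalizer ((U : Subgroup K) : Set K) ≠ ⊤) :
    IsCoatom (normalizer (((U : Subgroup K).map K.subtype : Subgroup X) : Set X)) ∧ (Q₁ ∨ p = 2 ∧ K ≠ ⊤ ∧ Q₂) := by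
  obtain ⟨S, hS⟩ := U.exists_comap_subtype_eq
  obtain ⟨-, M, ⟨h1, h2⟩, h3⟩ := hX S
  set N := normalizer (((U : Subgroup K).map K.subtype : Subgroup X) : Set X)
  have m : ∀ {x : K}, x ∈ U ↔ (x : X) ∈ S := fun {x} => (SetLike.ext_iff.1 hS x).symm
  have le : ∀ Z : Subgroup X, Z ≠ ⊤ → (S : Subgroup X) ≤ Z → Z ≤ M := fun Z a b => by
    obtain ⟨M', c, d⟩ := (eq_top_or_exists_le_coatom Z).resolve_left a
    exact h3 M' ⟨c, b.trans d⟩ ▸ d
  have n0 : ∀ x : K, (x : X) ∈ N ↔ x ∈ normalizer ((U : Subgroup K) : Set K) := fun x =>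
    ⟨fun hx => mem_normalizer_fintype fun y hy => (mem_map_iff_mem K.subtype_injective).1 ((mem_normalizer_iff.1 hx _).1 ⟨y, hy, rfl⟩),
      fun hx => le_normalizer_map K.subtype ⟨x, hx, rfl⟩⟩
  have n1 : (S : Subgroup X) ≤ N := fun s hs => mem_normalizer_fintype (by
    rintro _ ⟨y, hy, rfl⟩
    exact ⟨MulAut.conjNormal s y, m.2 (mul_mem (mul_mem hs (m.1 hy)) (inv_mem hs)), rfl⟩)
  have n2 := le N (fun e => hn (eq_top_iff.2 fun x _ => (n0 x).1 (e.ge (mem_top _)))) n1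
  have n3 : ¬ K ≤ M := fun e => h1.1 (eq_top_iff.2 ((U.normalizer_sup_eq_top).ge.trans (sup_le n2 e)))
  have n4 : K ⊔ S = ⊤ := by_contra fun e => n3 (le_sup_left.trans (le _ e le_sup_right))
  obtain ⟨a, b⟩ := h U ((S : Subgroup X).map MulAut.conjNormal) (S.2.map _) (by
      rintro _ ⟨s, hs, rfl⟩ u hu; exact m.2 (mul_mem (mul_mem hs (m.1 hu)) (inv_mem hs))) (M.subgroupOf K)
    (fun e => n3 (subgroupOf_eq_top.1 e)) (by
      rintro _ ⟨s, hs, rfl⟩ u hu; exact M.mul_mem (M.mul_mem (h2 hs) hu) (M.inv_mem (h2 hs))) fun Z c1 c2 c3 => by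
    refine map_le_iff_le_comap.1 (le_sup_left.trans (le (Z.map K.subtype ⊔ S) (fun e => c1 (eq_top_iff.2 fun x _ => ?_)) le_sup_right))
    have := (coe_mul_of_right_le_normalizer_left (Z.map K.subtype) S fun s hs => mem_normalizer_fintype (by
      rintro _ ⟨y, hy, rfl⟩; exact ⟨_, c3 _ ⟨s, hs, rfl⟩ y hy, rfl⟩)).le (e.ge (mem_top (x : X)))
    obtain ⟨_, ⟨z, hz, rfl⟩, s, hs, e⟩ := this
    have : z⁻¹ * x ∈ U := m.2 (by rw [coe_mul, ← e]; simpa using hs)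
    simpa using mul_mem hz (c2 this)
  refine ⟨(le_antisymm n2 fun x hx => ?_) ▸ h1, b.imp id fun ⟨b1, b2, Z, b3, _, ⟨s, b4, rfl⟩, y, b5, b6⟩ => ⟨b1, fun e => b6 ?_, b2⟩⟩
  · obtain ⟨k, hk, s, hs, rfl⟩ := (normal_mul K S).le (n4.ge (mem_top x))
    exact mul_mem ((n0 ⟨k, hk⟩).2 (a ((M.mul_mem_cancel_right (h2 hs)).1 hx))) (n1 hs)
  · have : (⟨s, e.ge (mem_top s)⟩ : K) ∈ Z := b3 (m.2 b4)
    exact mul_mem (mul_mem this b5) (inv_mem this)

theorem am {K T : Type*} [Group K] [Finite K] [Group T] (a : Nonempty (Am T)) (h : IsSimpleGroup T) (e : K ≃* T) (Q₁ Q₂ : Prop) :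
    PMn 2 K Q₁ Q₂ ∧ OvP 2 K ∧ IsSimpleGroup K ∧ ¬ IsMulCommutative K :=
  have := Finite.of_equiv _ e.toEquiv
  ⟨a.some.pm.of_equiv e, a.some.ovP.of_equiv e, e.isSimpleGroup, fun c => a.some.n1 fun x _ y _ => e.symm.injective (by
    rw [map_mul, map_mul, c.is_comm.comm])⟩
theorem fam {K : Type*} [Group K] [Finite K] {p : ℕ} [Fact p.Prime] (hK : IsChevSimple p K) : PMn p K (IsLieRankOneChar p K)
    ((∃ (F : Type) (_ : Field F) (_ : Fintype F) (_ : CharP F 2), Nonempty (K ≃* Matrix.ProjectiveSpecialLinearGroup (Fin 3) F)) ∨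
      (∃ (F : Type) (_ : Field F) (_ : Fintype F) (_ : CharP F 2), 4 ≤ Fintype.card F ∧ Nonempty (K ≃* PSp 2 F)) ∨
      Nonempty (K ≃* alternatingGroup (Fin 6))) ∧ OvP p K ∧ IsSimpleGroup K ∧ ¬ IsMulCommutative K := by
  rcases hK with h | ⟨rfl, ⟨⟨e⟩⟩ | ⟨F, _, _, hF, ⟨e⟩⟩ | ⟨⟨e⟩⟩⟩ | ⟨rfl, F, _, _, hF, ⟨e⟩⟩
  · have := (lie_lp h).simple
    refine ⟨(lie_pm h).mono id (.imp id Or.inl), (lie_lp h).ov, this, fun c => ?_⟩
    obtain ⟨x, hx⟩ := exists_ne (1 : K)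
    exact hx ((lie_lp h).nc x fun g => c.is_comm.comm g x)
  · have := e.isSimpleGroup
    exact ⟨(A6.pm (Or.inr (Or.inr ⟨e⟩))).of_equiv e, A6.ovP.of_equiv e, this,
      H10.not_comm_of_simple_of_not_prime (by rw [Nat.card_congr e.toEquiv, A6.card]; norm_num)⟩
  · obtain ⟨q, _⟩ := CharP.exists F
    exact am (U33.am hF) (isGA_PSU (p := q) F hF le_rfl (by simp)).1 e _ _
  · exact am Tits.am H15.StdTits.tits_simple e _ _
  · have := Matrix.ProjectiveSpecialLinearGroup.rank_two_simple (F := F) (by rw [Nat.card_eq_fintype_card, hF]; norm_num)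
    have := e.isSimpleGroup
    have c := H10.card_PSL2 (F := F)
    exact ⟨((ovN_L28 hF).pm (Or.inr (Or.inr (Or.inr ⟨rfl, Or.inr ⟨F, _, _, hF, ⟨e⟩⟩⟩)))).of_equiv e, (ovN_L28 hF).ovP.of_equiv e, this,
      H10.not_comm_of_simple_of_not_prime (by
        rw [Nat.card_congr e.toEquiv, show Nat.card (Matrix.ProjectiveSpecialLinearGroup (Fin 2) F) = 504 by rw [hF] at c; norm_num at c; exact c]; norm_num)⟩

/-- Let X be a finite p-minimal group whose generalized Fitting subgroup K = F*(X) is a simple group of Lie type in characteristic p, and let U be a Sylow p-subgroup of K. Then N_X(U) is a maximal subgroup of X, and either K has Lie rank one (K ≅ PSL₂(pᵉ), PSU₃(pᵉ), a Suzuki group for p = 2, or a Ree group or PSL₂(8) for p = 3), or p = 2, K ≠ X and K is isomorphic to PSL₃(2ᵉ) or to PSp₄(2ᵉ) (e ≥ 2) or to the alternating group of degree 6. -/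
theorem result {X : Type*} [Group X] [Finite X] {p : ℕ} [Fact p.Prime] (hX : Cfsg.IsPMinimal p X) (hK : Cfsg.IsChevSimple p ↥(Cfsg.generalizedFittingSubgroup X)) (U : Sylow p ↥(Cfsg.generalizedFittingSubgroup X)) : IsCoatom (Subgroup.normalizer (((U : Subgroup ↥(Cfsg.generalizedFittingSubgroup X)).map (Cfsg.generalizedFittingSubgroup X).subtype : Subgroup X) : Set X)) ∧ (Cfsg.IsLieRankOneChar p ↥(Cfsg.generalizedFittingSubgroup X) ∨ (p = 2 ∧ Cfsg.generalizedFittingSubgroup X ≠ ⊤ ∧ ((∃ (F : Type) (_ : Field F) (_ : Fintype F) (_ : CharP F 2), Nonempty (↥(Cfsg.generalizedFittingSubgroup X) ≃* Matrix.ProjectiveSpecialLinearGroup (Fin 3) F)) ∨ (∃ (F : Type) (_ : Field F) (_ : Fintype F) (_ : CharP F 2), 4 ≤ Fintype.card F ∧ Nonempty (↥(Cfsg.generalizedFittingSubgroup X) ≃* Cfsg.PSp 2 F)) ∨ Nonempty (↥(Cfsg.generalizedFittingSubgroup X) ≃* ↥(alternatingGroup (Fin 6)))))) := by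
  obtain ⟨h1, h2, h3, h4⟩ := fam hK
  refine red hX _ h1 U fun b => ?_
  generalize generalizedFittingSubgroup X = K at U b h2 h3 h4
  have a : (U : Subgroup K) ≠ ⊥ := fun e => bot_ne_top (h2 ⊥ (e ▸ U.not_dvd_index) fun Q _ c _ => le_bot_iff.1 c)
  rcases (normalizer_eq_top_iff.1 b).eq_bot_or_eq_top with e | e
  · exact a e
  · obtain ⟨z, -, a2, a3⟩ := H17.exists_orderOf_center U.2 a
    rcases (inferInstance : (center K).Normal).eq_bot_or_eq_top with c | c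
    · rw [mem_bot.1 (c.le (mem_center_iff.2 fun g => a2 g (e.ge (mem_top g)))), orderOf_one] at a3
      exact (Fact.out : p.Prime).one_lt.ne a3
    · exact h4 ⟨⟨fun x y => mem_center_iff.1 (c.ge (mem_top y)) x⟩⟩

end Cfsg.Agent.S2937
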