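import Cfsg.Statements.S2939
import Cfsg.Agent.H26.Loc

set_option autoImplicit false
open Cfsg

namespace Cfsg.Agent.S2939

open H26 Subgroup
open scoped Pointwise commutatorElement

/-- Let p be a prime dividing the order of the finite group G and 𝓕 a family of subgroups of G closed under conjugation, with conjugates taken as X^g = g⁻¹Xg. Then 𝓕 controls Sylow p-intersections in G (any two distinct Sylow p-subgroups S and T with S ∩ T ≠ 1 are joined by a chain S = S₀, S₁, …, Sₙ = T of Sylow p-subgroups where, for each i, some member Xᵢ of 𝓕 meets both S_{i-1} and Sᵢ in Sylow p-subgroups of Xᵢ, satisfies S ∩ T ≤ Sᵢ ∩ Xᵢ, and contains an element xᵢ with Sᵢ^{xᵢ} = S_{i-1}) if and only if 𝓕 strongly controls p-fusion in G (whenever A is a subset of a Sylow p-subgroup S, A contains an element other than 1, and A^g ⊆ S, the element g factorises as g = y₁⋯yₙy with y ∈ N_G(S) and each yᵢ in a member Yᵢ of 𝓕 that meets S in a Sylow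 p-subgroup of Yᵢ, with A^{y₁⋯yᵢ} ⊆ S ∩ Yᵢ for each i). -/
theorem result {G : Type*} [Group G] [Finite G] {p : ℕ} [Fact p.Prime] (hdiv : p ∣ Nat.card G) (𝓕 : Set (Subgroup G)) (h𝓕 : Cfsg.IsNormalSet 𝓕) : Cfsg.ControlsSylowIntersections p 𝓕 ↔ Cfsg.FamilyStronglyControlsFusion p 𝓕 := by
  rw [← ctrl_top_iff]
  have hcr : ∀ (g : G) (A : Set G) (K : Subgroup G), Cfsg.conjRight g A ⊆ K ↔ A ⊆ cj g K := fun g A K =>
    ⟨fun h a ha => mem_cj.2 (h ⟨a, ha, rfl⟩), by rintro h _ ⟨a, ha, rfl⟩; exact mem_cj.1 (h ha)⟩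
  have hpp : ∀ (n : ℕ) (y : Fin n → G) (i : Fin n), ((List.ofFn y).take (i.val + 1)).prod = Fin.partialProd y i.succ :=
    fun n y i => rfl
  have hpl : ∀ (n : ℕ) (y : Fin n → G), (List.ofFn y).prod = Fin.partialProd y (Fin.last n) := fun n y => by
    rw [Fin.partialProd, Fin.val_last, List.take_of_length_le (by simp)]
  constructor
  · rintro h S A g hA ⟨a, ha, ha1⟩ hg
    have hS := isSyl_top S
    have hD : A ⊆ ((S : Subgroup G) ⊓ cj g (S : Subgroup G) : Subgroup G) := fun x hx => ⟨hA hx, (hcr g A S).1 hg hx⟩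
    have h1 := h _ _ hS (hS.cj_of_mem (mem_top g)) fun h => ha1 (h.le (hD ha))
    let r : G → G → Prop := fun k k' => ∃ Y ∈ Cfsg.sylowMembers p 𝓕 (S : Subgroup G), ∃ y ∈ Y, k' = k * y ∧
      Cfsg.conjRight k' A ⊆ (S : Set G) ∩ Y
    have h2 : ∀ Q, Conn p 𝓕 ((S : Subgroup G) ⊓ cj g (S : Subgroup G)) S Q →
        ∃ k, cj k (S : Subgroup G) = Q ∧ Relation.ReflTransGen r 1 k := by
      intro Q hQ
      induction hQ with
      | refl => exact ⟨1, cj_one _, .refl⟩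
      | tail _ h ih =>
        obtain ⟨k, rfl, hk⟩ := ih
        obtain ⟨X, hX, a, -, ⟨x, hx, rfl⟩, b⟩ := h
        refine ⟨x * k, cj_mul _ _ _, hk.tail ⟨cj k⁻¹ X,
          mem_sylowMembers.2 ⟨h𝓕 X hX k, by simpa only [cj_inf, cj_inv_cj] using a.cj k⁻¹⟩, _, conj_mem_cj k⁻¹ hx,
          by group, (hcr _ A (S ⊓ cj k⁻¹ X)).2 (hD.trans ?_)⟩⟩
        rw [cj_inf, ← cj_mul (x * k), mul_inv_cancel_right, cj_eq_of_mem hx, cj_mul]
        exact b
    obtain ⟨k, hk, hr⟩ := h2 _ h1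
    obtain ⟨n, c, h0, hl, hc⟩ := reflTransGen_iff_fin.1 hr
    choose Y hY y hy hc hc' using hc
    have h3 : ∀ i, Fin.partialProd y i = c i := fun i => by
      induction i using Fin.induction with
      | zero => rw [h0, Fin.partialProd_zero]
      | succ i ih => rw [Fin.partialProd_succ, ih, hc]
    refine ⟨n, Y, y, k⁻¹ * g, cj_eq_iff.1 (by rw [cj_mul, ← hk, cj_inv_cj]), fun i => ⟨hY i, hy i⟩,
      by rw [hpl, h3, hl, mul_inv_cancel_left], fun i => by rw [hpp, h3]; exact hc' i⟩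
  · intro h P Q hP hQ hne
    obtain ⟨g, -, rfl⟩ := hP.exists_cj_eq hQ
    obtain ⟨⟨a, ha⟩, ha1⟩ := ne_bot_iff_exists_ne_one.1 hne
    obtain ⟨n, Y, y, y₀, h0, h1, h2, h3⟩ := h hP.toSylow (P ⊓ cj g P : Subgroup G) g (fun x hx => hx.1)
      ⟨a, ha, fun h => ha1 (Subtype.ext h)⟩ ((hcr _ _ P).2 fun x hx => hx.2)
    refine reflTransGen_iff_fin.2 ⟨n, fun i => cj (Fin.partialProd y i) P, by simp only [Fin.partialProd_zero, cj_one],
      by simp only [h2, hpl, cj_mul]; rw [(cj_eq_iff (H := P)).2 h0], fun i => ?_⟩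
    obtain ⟨h4, h5⟩ := mem_sylowMembers.1 (h1 i).1
    have h6 : cj (Fin.partialProd y i.succ) (Y i) = cj (Fin.partialProd y i.castSucc) (Y i) := by
      rw [Fin.partialProd_succ, cj_mul, cj_eq_of_mem (h1 i).2]
    refine ⟨cj (Fin.partialProd y i.castSucc) (Y i), by simpa [Cfsg.subgroupConjRight] using h𝓕 _ h4 (Fin.partialProd y i.castSucc)⁻¹,
      by rw [← cj_inf]; exact h5.cj _, by rw [← h6, ← cj_inf]; exact h5.cj _,
      ⟨_, conj_mem_cj _ (h1 i).2, by simp only [← cj_mul, Fin.partialProd_succ, inv_mul_cancel_right]⟩, ?_⟩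
    rw [← h6, ← cj_inf, ← hpp]
    exact (hcr _ _ (P ⊓ Y i)).1 (h3 i)

end Cfsg.Agent.S2939
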