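import Cfsg.Statements.S2955
import Cfsg.Agent.H26.Loc

set_option autoImplicit false
open Cfsg

namespace Cfsg.Agent.S2955

open H26 Subgroup
open scoped Pointwise commutatorElement

/-- Let p be a prime dividing the order of the finite group G and 𝓕 a conjugation-closed family of subgroups that controls Sylow p-intersections in G. Suppose the Sylow p-subgroups of G are chain-connected: any two of them are joined by a chain of Sylow p-subgroups, consecutive ones distinct with nontrivial intersection, all containing the intersection of the two ends (equivalently, the graph on the Sylow p-subgroups whose edges are the distinct pairs meeting nontrivially is connected). Then for every Sylow p-subgroup S, G is generated by N_G(S) together with the members of 𝓕 that meet S in a Sylow p-subgroup of themselves. -/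
theorem result {G : Type*} [Group G] [Finite G] (p : ℕ) [Fact p.Prime] (hdiv : p ∣ Nat.card G)
    (𝓕 : Set (Subgroup G)) (h𝓕 : Cfsg.IsNormalSet 𝓕) (hc : Cfsg.ControlsSylowIntersections p 𝓕)
    (hconn : Cfsg.IsSylowChainConnected p G) (S : Sylow p G) :
    (⨆ X ∈ Cfsg.sylowMembers p 𝓕 (S : Subgroup G), X) ⊔ Subgroup.normalizer ((S : Subgroup G) : Set G) = ⊤ := by
  set K := (⨆ X ∈ Cfsg.sylowMembers p 𝓕 (S : Subgroup G), X) ⊔ 𝐍 (S : Subgroup G)
  have h1 : ∀ D P Q : Subgroup G, Conn p 𝓕 D P Q → (∃ k ∈ K, cj k (S : Subgroup G) = P) → ∃ k ∈ K, cj k (S : Subgroup G) = Q := by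
    intro D P Q h hP
    induction h with
    | refl => exact hP
    | tail _ h ih =>
      obtain ⟨k, hk, rfl⟩ := ih
      obtain ⟨X, hX, a, -, ⟨x, hx, rfl⟩, -⟩ := h
      have h2 : cj k⁻¹ X ≤ K := le_trans (le_iSup₂ (f := fun X (_ : X ∈ Cfsg.sylowMembers p 𝓕 (S : Subgroup G)) => X) _
        (mem_sylowMembers.2 ⟨h𝓕 X hX k, by simpa only [cj_inf, cj_inv_cj] using a.cj k⁻¹⟩)) le_sup_left
      refine ⟨x * k, ?_, cj_mul _ _ _⟩
      simpa [mul_assoc] using K.mul_mem hk (h2 (conj_mem_cj k⁻¹ hx))
  have h2 : ∀ T : Sylow p G, ∃ k ∈ K, cj k (S : Subgroup G) = T := fun T => by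
    induction isSylowChainConnected_iff.1 hconn S T with
    | refl => exact ⟨1, K.one_mem, cj_one _⟩
    | tail _ h ih => exact h1 _ _ _ (ctrl_top_iff.2 hc _ _ (isSyl_top _) (isSyl_top _) h) ih
  refine eq_top_iff.2 fun g _ => ?_
  obtain ⟨k, hk, he⟩ := h2 (g • S)
  have : k⁻¹ * g ∈ K := mem_sup_right (cj_eq_iff.1 (by rw [cj_mul, ← coe_smul_sylow, ← he, cj_inv_cj]))
  simpa using K.mul_mem hk this

end Cfsg.Agent.S2955
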