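import Cfsg.Statements.S2956
import Cfsg.Agent.H26.Loc

set_option autoImplicit false
open Cfsg

namespace Cfsg.Agent.S2956

open H26 Subgroup
open scoped Pointwise commutatorElement

/-- Let p be a prime dividing the order of the finite group G, and f an assignment to every p-subgroup P of a set f(P) of subgroups of P, each normalized by N_G(P), compatible with conjugation, such that for P ≠ 1 the members of f(P) are nontrivial. Let 𝓕 be the family of the normalizers N_G(F) of the members F of f(S) over the Sylow p-subgroups S of G, and 𝓕' the family of the maximal p-local subgroups M of G that are singular for f (the corresponding family of normalizers inside M does not control Sylow p-intersections in M). Then 𝓕 ∪ 𝓕' controls Sylow p-intersections in G. -/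
theorem result {G : Type*} [Group G] [Finite G] (p : ℕ) [Fact p.Prime] (hdiv : p ∣ Nat.card G)
    (f : Subgroup G → Set (Subgroup G)) (hf : Cfsg.IsNormalizerFunctor p f)
    (hf1 : ∀ P : Subgroup G, IsPGroup p ↥P → P ≠ ⊥ → ∀ F ∈ f P, F ≠ ⊥)
    (𝓕 𝓕' : Set (Subgroup G)) (h𝓕 : 𝓕 = Cfsg.functorFamily p f ⊤)
    (h𝓕' : 𝓕' = {M | Cfsg.IsMaximalPLocal p M ∧ ¬ Cfsg.IsFunctorRegular p f M}) :
    Cfsg.ControlsSylowIntersections p (𝓕 ∪ 𝓕') := by
  rw [← ctrl_top_iff]
  suffices h : ∀ D ≤ (⊤ : Subgroup G), D ≠ ⊥ → ∀ P Q, IsSyl p P ⊤ → IsSyl p Q ⊤ → D ≤ P → D ≤ Q → Conn p (𝓕 ∪ 𝓕') D P Q from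
    fun P Q hP hQ hne => h _ le_top hne P Q hP hQ inf_le_left inf_le_right
  intro D hD
  refine subgroup_card_induction_down (Q := fun D => D ≠ ⊥ → ∀ P Q, IsSyl p P ⊤ → IsSyl p Q ⊤ → D ≤ P → D ≤ Q →
    Conn p (𝓕 ∪ 𝓕') D P Q) D hD fun D _ ih hD1 => ?_
  have ih' : ∀ P Q, IsSyl p P ⊤ → IsSyl p Q ⊤ → D < P ⊓ Q → Conn p (𝓕 ∪ 𝓕') D P Q := fun P Q hP hQ h =>
    (ih _ h le_top (ne_bot_of_gt h) P Q hP hQ inf_le_left inf_le_right).mono subset_rfl h.le
  -- inner induction on the order of a Sylow subgroup of a p-local subgroup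
  have key : ∀ (n : ℕ) (M R : Subgroup G), Cfsg.IsPLocal p M → IsSyl p R M → Nat.card G ≤ Nat.card R + n →
      ∀ P Q, IsSyl p P ⊤ → IsSyl p Q ⊤ → D < P ⊓ M → D < Q ⊓ M → Conn p (𝓕 ∪ 𝓕') D P Q := by
    intro n
    induction n using Nat.strong_induction_on with
    | _ n ihn =>
    intro M₀ R₀ hM₀ hR₀ hn P Q hP hQ hDP hDQ
    obtain ⟨M, h1, -, hM, hmax⟩ := exists_maximal_ge (Q := Cfsg.IsPLocal p) (le_top : M₀ ≤ ⊤) hM₀
    replace hDP := hDP.trans_le (inf_le_inf_left _ h1)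
    replace hDQ := hDQ.trans_le (inf_le_inf_left _ h1)
    obtain ⟨A, hA, hA'⟩ := exists_isSyl_ge (H := M) hP.isP.to_inf_left (inf_le_right (a := P))
    obtain ⟨B, hB, hB'⟩ := exists_isSyl_ge (H := M) hQ.isP.to_inf_left (inf_le_right (a := Q))
    obtain ⟨U, hU, hU'⟩ := exists_isSyl_ge hA.isP (le_top (a := A))
    have hDA := hDP.trans_le hA'
    have hDB := hDQ.trans_le hB'
    refine (ih' P U hP hU (hDP.trans_le (le_inf inf_le_left (hA'.trans hU')))).trans ?_
    suffices ∃ V, IsSyl p V ⊤ ∧ B ≤ V ∧ Conn p (𝓕 ∪ 𝓕') D U V by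
      obtain ⟨V, hV, h2, h3⟩ := this
      exact h3.trans (ih' V Q hV hQ (hDQ.trans_le (le_inf (hB'.trans h2) inf_le_left)))
    by_cases hreg : Cfsg.IsFunctorRegular p f M
    · have h2 := (isFunctorRegular_iff.1 hreg A B hA hB (ne_bot_of_le_ne_bot hD1 (le_inf hDA.le hDB.le))).mono subset_rfl
        (le_inf hDA.le hDB.le)
      clear hB' hDB hB
      induction h2 with
      | refl => exact ⟨U, hU, hU', .refl⟩
      | @tail B C h2 h3 ih2 =>
        have hB := Conn.isSyl h2 (fun X hX => by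
          obtain ⟨P, -, F, -, rfl⟩ := mem_functorFamily.1 hX; exact inf_le_left) hA
        obtain ⟨V, hV, hBV, h4⟩ := ih2
        obtain ⟨X, hX, a, b, ⟨x, hx, rfl⟩, c⟩ := h3
        obtain ⟨R, hR, F, hF, rfl⟩ := mem_functorFamily.1 hX
        obtain ⟨hFR, hNF⟩ := (hf R hR.isP).1 F hF
        have hRX : R ≤ M ⊓ 𝐍 F := le_inf hR.le (le_normalizer.trans hNF)
        have h5 : B ≤ 𝐍 F := ((hR.of_parabolic hRX inf_le_left a).eq_of_le hB.isP inf_le_left hB.le).le.trans
          (inf_le_right.trans inf_le_right)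
        have h6 : cj x B ≤ 𝐍 F := cj_le_of_mem h5 hx.2
        have hlt : ∀ B', IsSyl p B' M → D ≤ B' → D < B' := fun B' h h' => lt_of_le_of_ne h' fun he => by
          have := card_lt_of_lt hDA
          rw [hA.card_eq h, ← he] at this
          exact lt_irrefl _ this
        have hDB : D ≤ B := by
          rcases h2.cases_tail with rfl | ⟨_, -, _, -, -, -, -, h⟩
          · exact hDA.le
          · exact h.trans inf_le_left
        refine ⟨cj x V, hV.cj_of_mem (mem_top x), cj_mono x hBV, h4.trans ?_⟩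
        by_cases hR' : IsSyl p R ⊤
        · have hB2 := hR'.of_parabolic hR.le le_top hB
          obtain rfl : V = B := hB2.eq_of_le hV.isP hBV le_top
          refine .single ⟨⊤ ⊓ 𝐍 F, Or.inl (h𝓕 ▸ mem_functorFamily.2 ⟨R, hR', F, hF, rfl⟩), ?_, ?_,
            ⟨x, ⟨mem_top x, hx.2⟩, rfl⟩, c.trans (inf_le_inf_left _ (inf_le_inf_right _ le_top))⟩
          · rw [top_inf_eq, inf_eq_left.2 h5]; exact hV.mono h5 le_top
          · rw [top_inf_eq, inf_eq_left.2 h6]; exact (hV.cj_of_mem (mem_top x)).mono h6 le_top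
        · obtain ⟨W, hW, hW'⟩ := exists_isSyl_ge hR.isP (le_normalizer.trans hNF)
          have h7 : R < W := lt_of_le_of_ne hW' fun he => hR' (isSyl_of_normalizer
            ((he ▸ hW : IsSyl p R (𝐍 F)).mono (le_inf le_top le_normalizer) (inf_le_right.trans hNF)))
          have h8 := card_lt_of_lt h7
          have h9 := hR.card_le hR₀.isP (hR₀.le.trans h1)
          have h10 : Nat.card W ≤ Nat.card G := card_le_card_group W
          have hR1 : R ≠ ⊥ := hR.ne_bot (hA.dvd_card (ne_bot_of_gt hDA))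
          exact ihn (n - 1) (by omega) (𝐍 F) W ⟨F, hR.isP.to_le hFR, hf1 R hR.isP hR1 F hF, rfl⟩ hW (by omega) _ _ hV
            (hV.cj_of_mem (mem_top x)) ((hlt B hB hDB).trans_le (le_inf hBV h5))
            ((hlt _ (hB.cj_of_mem hx.1) (c.trans inf_le_left)).trans_le (le_inf (cj_mono x hBV) h6))
    · obtain ⟨x, hx, rfl⟩ := hA.exists_cj_eq hB
      have h2 : U ⊓ M = A := hA.eq_of_le hU.isP.to_inf_left (le_inf hU' hA.le) inf_le_right
      refine ⟨cj x U, hU.cj_of_mem (mem_top x), cj_mono x hU', .single ⟨M,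
        Or.inr (h𝓕' ▸ ⟨⟨hM, fun N h3 h4 => hmax N h4 le_top h3⟩, hreg⟩), h2 ▸ hA, ?_, ⟨x, hx, rfl⟩,
        hDB.le.trans (le_inf (cj_mono x hU') hB.le)⟩⟩
      rw [← cj_eq_of_mem hx, ← cj_inf, h2, cj_eq_of_mem hx]; exact hB
  intro P Q hP hQ hDP hDQ
  rcases hDP.lt_or_eq with hDP' | rfl
  · rcases hDQ.lt_or_eq with hDQ' | rfl
    · obtain ⟨R, hR⟩ := exists_isSyl p (𝐍 D)
      exact key (Nat.card G) (𝐍 D) R ⟨D, hP.isP.to_le hDP, hD1, rfl⟩ hR (by omega) P Q hP hQ
        (lt_inf_normalizer hP.isP hDP') (lt_inf_normalizer hQ.isP hDQ')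
    · rw [hQ.eq_of_le hP.isP hDP le_top]
  · rw [hP.eq_of_le hQ.isP hDQ le_top]

end Cfsg.Agent.S2956
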