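import Cfsg.Statements.S2957
import Cfsg.Agent.H26.Loc

set_option autoImplicit false
open Cfsg

namespace Cfsg.Agent.S2957

open H26 Subgroup
open scoped Pointwise commutatorElement

/-- Let p be a prime dividing the order of the finite group G, f an equivariant assignment of a set of subgroups f(P) of P to every p-subgroup P, each normalized by N_G(P), and S a Sylow p-subgroup. If G = G₁G₂ for subgroups G₁, G₂ both containing S and both regular for f (in each Gᵢ, the family of normalizers in Gᵢ of the members of f(P), P a Sylow p-subgroup of Gᵢ, controls Sylow p-intersections), then G itself is regular for f. -/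
theorem result {G : Type*} [Group G] [Finite G] (p : ℕ) [Fact p.Prime] (hdiv : p ∣ Nat.card G)
    (f : Subgroup G → Set (Subgroup G)) (hf : Cfsg.IsNormalizerFunctor p f) (S : Sylow p G)
    (G₁ G₂ : Subgroup G) (h₁ : (S : Subgroup G) ≤ G₁) (h₂ : (S : Subgroup G) ≤ G₂)
    (hprod : ∀ g : G, ∃ g₁ ∈ G₁, ∃ g₂ ∈ G₂, g = g₁ * g₂)
    (hr₁ : Cfsg.IsFunctorRegular p f G₁) (hr₂ : Cfsg.IsFunctorRegular p f G₂) :
    Cfsg.IsFunctorRegular p f ⊤ := by
  rw [isFunctorRegular_iff] at *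
  have hcj : ∀ (M : Subgroup G) (g : G), Ctrl p (Cfsg.functorFamily p f M) M →
      Ctrl p (Cfsg.functorFamily p f (cj g M)) (cj g M) := by
    intro M g h P Q hP hQ hne
    refine ((ctrl_map_iff (conj_injective' g)).2 h P Q hP hQ hne).mono ?_ le_rfl
    rintro _ ⟨X, hX, rfl⟩
    obtain ⟨P, hP, F, hF, rfl⟩ := mem_functorFamily.1 hX
    exact mem_functorFamily.2 ⟨_, hP.cj g, cj g F, by rw [(hf P hP.isP).2 g]; exact ⟨F, hF, rfl⟩,
      by simp only [cj_inf, cj_normalizer]⟩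
  have hlift : ∀ (M T : Subgroup G), IsSyl p T ⊤ → T ≤ M → Ctrl p (Cfsg.functorFamily p f M) M → ∀ P Q, IsSyl p P M →
      IsSyl p Q M → P ⊓ Q ≠ ⊥ → Conn p (Cfsg.functorFamily p f ⊤) (P ⊓ Q) P Q := by
    intro M T hT hTM h P Q hP hQ hne
    have h1 := h P Q hP hQ hne
    generalize P ⊓ Q = D at h1
    clear hQ hne
    induction h1 with
    | refl => exact .refl
    | @tail A B h1 h2 ih =>
      have hA := Conn.isSyl h1 (fun X hX => by
        obtain ⟨P, -, F, -, rfl⟩ := mem_functorFamily.1 hX; exact inf_le_left) hP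
      obtain ⟨X, hX, a, b, ⟨x, hx, rfl⟩, c⟩ := h2
      obtain ⟨R, hR, F, hF, rfl⟩ := mem_functorFamily.1 hX
      have hRX : R ≤ M ⊓ 𝐍 F := le_inf hR.le (le_normalizer.trans ((hf R hR.isP).1 F hF).2)
      have h3 : A ≤ 𝐍 F := ((hR.of_parabolic hRX inf_le_left a).eq_of_le hA.isP inf_le_left hA.le).le.trans
        (inf_le_right.trans inf_le_right)
      have h4 : cj x A ≤ 𝐍 F := cj_le_of_mem h3 hx.2
      have hA' := hT.of_parabolic hTM le_top hA
      refine ih.tail ⟨⊤ ⊓ 𝐍 F, mem_functorFamily.2 ⟨R, hT.of_parabolic hTM le_top hR, F, hF, rfl⟩, ?_, ?_,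
        ⟨x, ⟨mem_top x, hx.2⟩, rfl⟩, c.trans (inf_le_inf_left _ (inf_le_inf_right _ le_top))⟩
      · rw [top_inf_eq, inf_eq_left.2 h3]; exact hA'.mono h3 le_top
      · rw [top_inf_eq, inf_eq_left.2 h4]; exact (hA'.cj_of_mem (mem_top x)).mono h4 le_top
  intro P Q hP hQ hne
  have hS := isSyl_top S
  obtain ⟨k, -, rfl⟩ := hS.exists_cj_eq hP
  obtain ⟨g, -, rfl⟩ := hS.exists_cj_eq hQ
  obtain ⟨a, ha, b, hb, he⟩ := hprod (k⁻¹ * g)
  have h3 : cj (k * a) (S : Subgroup G) ≤ cj k G₁ ⊓ cj g G₂ :=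
    le_inf (by rw [cj_mul]; exact cj_mono k (cj_le_of_mem h₁ ha))
      (by rw [← mul_inv_cancel_left k g, he, ← mul_assoc, cj_mul (k * a) b, cj_eq_of_mem hb]; exact cj_mono _ h₂)
  obtain ⟨U, hU, hle⟩ := exists_isSyl_ge (Q := cj k (S : Subgroup G) ⊓ cj g (S : Subgroup G)) (H := cj k G₁ ⊓ cj g G₂)
    hP.isP.to_inf_left (inf_le_inf (cj_mono _ h₁) (cj_mono _ h₂))
  have hU' := (hS.cj_of_mem (mem_top _)).of_parabolic h3 le_top hU
  have h4 := le_inf inf_le_left hle
  have h5 := le_inf hle inf_le_right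
  exact ((hlift _ _ hP (cj_mono k h₁) (hcj _ k hr₁) _ _ (hP.mono (cj_mono k h₁) le_top)
    (hU'.mono (hU.le.trans inf_le_left) le_top) (ne_bot_of_le_ne_bot hne h4)).mono subset_rfl h4).trans
    ((hlift _ _ hQ (cj_mono g h₂) (hcj _ g hr₂) _ _ (hU'.mono (hU.le.trans inf_le_right) le_top)
    (hQ.mono (cj_mono g h₂) le_top) (ne_bot_of_le_ne_bot hne h5)).mono subset_rfl h5)

end Cfsg.Agent.S2957
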