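import Cfsg.Statements.S2958
import Cfsg.Agent.H26.Conj

set_option autoImplicit false
open Cfsg

namespace Cfsg.Agent.S2958

open H26 Subgroup
open scoped Pointwise commutatorElement

/-- Let X, A, B be subgroups of a group G such that G is generated by the conjugates of X and every conjugate of X is contained in A or in B. Then A = G or B = G. -/
theorem result {G : Type*} [Group G] (X A B : Subgroup G) (hgen : (⨆ g : G, X.map (MulAut.conj g).toMonoidHom) = ⊤) (hcover : ∀ g : G, X.map (MulAut.conj g).toMonoidHom ≤ A ∨ X.map (MulAut.conj g).toMonoidHom ≤ B) : A = ⊤ ∨ B = ⊤ := by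
  by_contra hcon
  push Not at hcon
  let N : Subgroup G := ⨆ g : {g : G // ¬ cj g X ≤ B}, cj (g : G) X
  have hNA : N ≤ A := iSup_le fun g => (hcover g).resolve_right g.2
  have hB : B ≤ 𝐍 N := le_normalizer_iff_cj.2 fun b hb => by
    rw [cj_iSup]
    refine iSup_le fun g => ?_
    rw [← cj_mul]
    refine le_iSup (fun g : {g : G // ¬ cj g X ≤ B} => cj (g : G) X) ⟨b * g, fun h => g.2 ?_⟩
    exact cj_le_cj_iff.1 ((cj_mul b g X).ge.trans (h.trans (cj_eq_of_mem hb).ge))
  have hn : ⊤ ≤ 𝐍 N := hgen.ge.trans (iSup_le fun g => by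
    by_cases h : cj g X ≤ B
    · exact h.trans hB
    · exact (le_iSup (fun g : {g : G // ¬ cj g X ≤ B} => cj (g : G) X) ⟨g, h⟩).trans le_normalizer)
  obtain ⟨g, hg⟩ : ∃ g, ¬ cj g X ≤ B := by
    by_contra h
    push Not at h
    exact hcon.2 (top_le_iff.1 (hgen.ge.trans (iSup_le h)))
  refine hcon.1 (top_le_iff.1 (hgen.ge.trans (iSup_le fun k => le_trans ?_ hNA)))
  have := cj_le_of_mem_normalizer (le_iSup (fun g : {g : G // ¬ cj g X ≤ B} => cj (g : G) X) ⟨g, hg⟩)
    (hn (mem_top (k * g⁻¹)))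
  rwa [← cj_mul, inv_mul_cancel_right] at this

end Cfsg.Agent.S2958
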