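import Cfsg.Statements.S2963


set_option autoImplicit false
open Cfsg

namespace Cfsg.Agent.S2963

open MulAction Equiv Equiv.Perm
open scoped Pointwise

/-- Let n be odd. If the symmetric group of degree n is a minimal parabolic group for the prime 2, that is, a Sylow 2-subgroup is not normal and lies in exactly one maximal subgroup, then n = 2^m + 1 for some natural number m. -/
theorem result (n : ℕ) (hn : Odd n) (h : Cfsg.IsPMinimal 2 (Equiv.Perm (Fin n))) : ∃ m : ℕ, n = 2 ^ m + 1 := by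
  have : Fact (Nat.Prime 2) := ⟨Nat.prime_two⟩
  obtain ⟨S⟩ : Nonempty (Sylow 2 (Perm (Fin n))) := inferInstance
  obtain ⟨h1, M, ⟨hM, -⟩, hu⟩ := h S
  have key : ∀ T : Subgroup (Perm (Fin n)), T ≠ ⊤ → (S : Subgroup _) ≤ T → T ≤ M := fun T hT h =>
    let ⟨N, a, b⟩ := (eq_top_or_exists_le_coatom T).resolve_left hT
    hu N ⟨a, h.trans b⟩ ▸ b
  obtain ⟨a, ha⟩ := S.2.nonempty_fixed_point_of_prime_not_dvd_card (Fin n) (by
    rw [Nat.card_fin, ← even_iff_two_dvd]; exact Nat.not_even_iff_odd.2 hn)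
  obtain ⟨c, hc⟩ : ∃ c, c ≠ a := by
    by_contra! h
    have : Subsingleton (Fin n) := ⟨fun x y => (h x).trans (h y).symm⟩
    exact h1 ⟨fun x hx g => by rwa [Subsingleton.elim (g * x * g⁻¹) x]⟩
  have haO : a ∉ orbit S c := fun ⟨s, hs⟩ => hc (by
    rw [← inv_smul_smul s c, show s • c = a from hs]; exact ha _)
  by_cases hb : ∀ b, b ≠ a → b ∈ orbit S c
  · obtain ⟨m, hm⟩ := S.2.card_orbit c
    refine ⟨m, ?_⟩
    have : orbit S c = {a}ᶜ := Set.ext fun b => ⟨fun h e => haO (e ▸ h), hb b⟩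
    rw [this, Nat.card_coe_set_eq] at hm
    have := Set.ncard_add_ncard_compl ({a} : Set (Fin n))
    rw [Set.ncard_singleton, Nat.card_fin] at this
    omega
  push Not at hb
  obtain ⟨b, hb, hbO⟩ := hb
  have h2 : stabilizer (Perm (Fin n)) a ≤ M := key _ (fun e => hc (by
    have : swap a c ∈ stabilizer (Perm (Fin n)) a := e ▸ Subgroup.mem_top _
    simpa using this)) fun s hs => ha ⟨s, hs⟩
  have h3 : stabilizer (Perm (Fin n)) (orbit S c) ≤ M := key _ (fun e => haO (by
    have : swap a c ∈ stabilizer (Perm (Fin n)) (orbit S c) := e ▸ Subgroup.mem_top _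
    simpa using (mem_stabilizer_set.1 this c).2 (mem_orbit_self c))) fun s hs => smul_orbit (⟨s, hs⟩ : S) c
  have h4 : swap a b ∈ M := h3 (mem_stabilizer_set.2 fun x => by
    rw [Perm.smul_def, swap_apply_def]
    split_ifs with e e'
    · simp [e, haO, hbO]
    · simp [e', haO, hbO]
    · rfl)
  refine absurd (eq_top_iff.2 fun σ _ => ?_) hM.1
  have h5 : swap a (σ a) ∈ M := by
    by_cases e : σ a = a
    · rw [e, swap_self]; exact one_mem M
    · have : swap b (σ a) ∈ M := h2 (swap_apply_of_ne_of_ne hb.symm (Ne.symm e))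
      have := mul_mem (mul_mem this h4) (inv_mem this)
      rwa [← swap_apply_apply, swap_apply_left, swap_apply_of_ne_of_ne hb.symm (Ne.symm e)] at this
  simpa using mul_mem h5 (h2 (show swap a (σ a) * σ ∈ stabilizer _ a by simp))

end Cfsg.Agent.S2963
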