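import Cfsg.Statements.S2998
import Cfsg.Agent.H26.Loc

set_option autoImplicit false
open Cfsg

namespace Cfsg.Agent.S2998

open H26 Subgroup
open scoped Pointwise commutatorElement

/-- Let G be a finite group, p a prime, P a Sylow p-subgroup of G and x ∈ P an element such that N_G(R) ≤ C_G(x) for every nontrivial subgroup R of P. Then P ≤ C_G(x); every G-conjugate of x lying in P equals x (so g ∈ C_G(x) whenever g x g⁻¹ ∈ P); and for every normal subgroup N of G, the image of x in G ⧸ N has the same property with respect to the image of P: the normalizer of every nontrivial subgroup of the image of P centralizes the image of x. -/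
theorem result {G : Type*} [Group G] [Finite G] {p : ℕ} [Fact p.Prime] (P : Sylow p G) (x : G) (hxP : x ∈ (P : Subgroup G)) (hlc : ∀ R : Subgroup G, R ≤ (P : Subgroup G) → R ≠ ⊥ → Subgroup.normalizer (R : Set G) ≤ Subgroup.centralizer ({x} : Set G)) : (P : Subgroup G) ≤ Subgroup.centralizer ({x} : Set G) ∧ (∀ g : G, g * x * g⁻¹ ∈ (P : Subgroup G) → g * x * g⁻¹ = x) ∧ ∀ (N : Subgroup G) [N.Normal], ∀ R : Subgroup (G ⧸ N), R ≤ (P : Subgroup G).map (QuotientGroup.mk' N) → R ≠ ⊥ → Subgroup.normalizer (R : Set (G ⧸ N)) ≤ Subgroup.centralizer ({(QuotientGroup.mk x : G ⧸ N)} : Set (G ⧸ N)) := by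
  have hS := isSyl_top P
  have h1 : (P : Subgroup G) ≤ centralizer {x} := by
    by_cases h : (P : Subgroup G) = ⊥
    · rw [h]; exact bot_le
    · exact le_normalizer.trans (hlc _ le_rfl h)
  refine ⟨h1, fun g hg => ?_, fun N _ R hR hR1 => ?_⟩
  · by_cases hx : x = 1
    · simp [hx]
    have : g ∈ centralizer {x} := by
      by_cases h : centralizer {x} = (⊤ : Subgroup G)
      · rw [h]; trivial
      · exact (spe_of_isSyl (lt_top_iff_ne_top.2 h) hS (fun h => hx (h.le hxP))
          fun Q h2 h3 => inf_le_right.trans (hlc Q h2 h3)).mem_of_le (mem_top g) (hS.isP.to_le (zpowers_le.2 hxP))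
          (by simpa using hx) ((zpowers_le.2 hxP).trans h1) (by rw [cj_zpowers]; exact zpowers_le.2 (h1 hg))
    rw [mem_centralizer_singleton_iff.1 this, mul_inv_cancel_right]
  · rintro ⟨g⟩ hg
    set f := QuotientGroup.mk' N
    have h2 : ((P : Subgroup G) ⊓ R.comap f).map f = R := map_inf_comap f hR
    have h4 : ((P : Subgroup G) ⊓ R.comap f) ⊔ N = R.comap f := by
      conv_rhs => rw [← h2, comap_map_eq, QuotientGroup.ker_mk']
    have hn : ∀ K : Subgroup G, K ≤ 𝐍 N := fun K => by rw [normalizer_eq_top]; exact le_top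
    have h3 : IsSyl p ((P : Subgroup G) ⊓ R.comap f) (R.comap f) := by
      conv_rhs => rw [← h4]
      refine isSyl_sup_of_inf hS.isP.to_inf_left (hn _) ?_
      rw [inf_assoc, inf_eq_right.2 (le_sup_right.trans h4.le)]
      exact hS.inf_of_normal (hn _) le_top
    have h5 : g ∈ 𝐍 (R.comap f) := le_normalizer_comap (H := zpowers g) f
      (by rw [MonoidHom.map_zpowers]; exact zpowers_le.2 hg) (mem_zpowers g)
    obtain ⟨k, hk, h6⟩ := h3.frattini_mem h5
    obtain ⟨a, ha, n, hn', rfl⟩ := (mem_sup_of_le_normalizer (hn _)).1 (h4.ge hk)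
    have h7 := hlc _ inf_le_left (fun h => hR1 (by rw [← h2, h, Subgroup.map_bot]))
    have h8 : n * g ∈ centralizer {x} := by
      have := mul_mem (inv_mem (h7 (le_normalizer ha))) (h7 h6)
      simpa [mul_assoc] using this
    have h9 := congrArg f (mem_centralizer_singleton_iff.1 h8)
    rw [map_mul, map_mul, map_mul, map_mul, (QuotientGroup.eq_one_iff n).2 hn' |> (show f n = 1 from ·), one_mul] at h9
    exact mem_centralizer_singleton_iff.2 h9

end Cfsg.Agent.S2998
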