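import Cfsg.Statements.S2999
import Cfsg.Agent.H26.FF1

set_option autoImplicit false
open Cfsg

namespace Cfsg.Agent.S2999

open H26 Subgroup
open scoped Pointwise commutatorElement

/-- Let p be a prime and let P and V be subgroups of a finite group with V elementary abelian, P normalizing V and acting faithfully on it (P ∩ C(V) = 1). Suppose P is p-minimal (a Sylow p-subgroup T of P is not normal and lies in a unique maximal subgroup M of P) and A ≤ T is an elementary abelian subgroup such that: |V/C_V(A)| ≤ |A| while |A₀|·|C_V(A₀)| < |A|·|C_V(A)| for every nontrivial proper subgroup A₀ of A; [C_V(T), P] ≠ 1; and P = ⟨A, xAx⁻¹⟩ for every x ∈ P outside M. Then, with q = |A|, there is a field F with q elements such that P ≅ SL₂(F), C_V(A) = [V, A]·C_V(P), and P acts on V/C_V(P) as SL₂(F) on its natural two-dimensional module. -/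
theorem result {G : Type*} [Group G] [Finite G] {p : ℕ} [Fact p.Prime] (V P : Subgroup G) (hV : Cfsg.IsElementaryAbelian p V) (hPV : P ≤ Subgroup.normalizer (V : Set G)) (hfaith : P ⊓ Subgroup.centralizer (V : Set G) = ⊥) (hmin : Cfsg.IsPMinimal p ↥P) (T : Sylow p ↥P) (M : Subgroup ↥P) (hM : IsCoatom M) (hTM : (T : Subgroup ↥P) ≤ M) (A : Subgroup G) (hAT : A ≤ ((T : Subgroup ↥P).map P.subtype)) (hAel : Cfsg.IsElementaryAbelian p A) (hi : Nat.card ↥V ≤ Nat.card ↥A * Nat.card ↥(V ⊓ Subgroup.centralizer ((A : Subgroup G) : Set G)) ∧ ∀ A₀ : Subgroup G, A₀ ≤ A → A₀ ≠ ⊥ → A₀ ≠ A → Nat.card ↥A₀ * Nat.card ↥(V ⊓ Subgroup.centralizer ((A₀ : Subgroup G) : Set G)) < Nat.card ↥A * Nat.card ↥(V ⊓ Subgroup.centralizer ((A : Subgroup G) : Set G))) (hii : ⁅(V ⊓ Subgroup.centralizer ((((T : Subgroup ↥P).map P.subtype) : Subgroup G) : Set G)), P⁆ ≠ ⊥) (hiii : ∀ x : ↥P, x ∉ M → A ⊔ A.map (MulAut.conj (x : G)).toMonoidHom = P) : ∃ (F : Type) (_ : Field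 F) (_ : Fintype F), Fintype.card F = Nat.card ↥A ∧ Nonempty (↥P ≃* Matrix.SpecialLinearGroup (Fin 2) F) ∧ (V ⊓ Subgroup.centralizer ((A : Subgroup G) : Set G)) = ⁅V, A⁆ ⊔ (V ⊓ Subgroup.centralizer ((P : Subgroup G) : Set G)) ∧ Cfsg.ActsAsSL2OnSection F ⊤ P V (V ⊓ Subgroup.centralizer ((P : Subgroup G) : Set G)) := by
  obtain ⟨hu, -⟩ := umax_of_coatom hmin T hM hTM
  have hS := isSyl_map_subtype T
  set S := (T : Subgroup P).map P.subtype
  have g : ∀ x ∈ P, x ∉ M.map P.subtype → A ⊔ cj x A = P := fun x hx h0 => hiii ⟨x, hx⟩ fun k => h0 ⟨_, k, rfl⟩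
  have n := mt commutator_eq_bot_iff'.2 hii
  obtain ⟨h, h1⟩ := core_of_min hV hPV hfaith hS hu hAT hAel hi.1 hi.2 (fun x hx h0 => (g x hx h0).ge.trans le_sup_left) n
  obtain ⟨x, hx, h0⟩ := SetLike.exists_of_lt hu.lt
  obtain ⟨F, _, _, c, ρ, ψ, k⟩ := h.pair hV.1 inf_le_left h1 hi.1 hx h0 hPV
  rw [g x hx h0] at k
  have hp := H4.isPGroup_of_isElementaryAbelian hV
  have hK : k.K = ⊥ := eq_bot_iff.2 (hfaith ▸ le_inf k.K_le (le_centralizer_iff.1 (((k.irred inf_le_left
    (le_normalizer_inf hPV (le_normalizer_centralizer k.nmK))).resolve_left fun e => n (le_centralizer_iff.1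
      ((inf_le_inf_left _ (centralizer_anti (hS.le_of_le_normalizer (k.isPGroup_K hp.to_inf_left
        (le_centralizer_iff.1 inf_le_right) hfaith) k.K_le (hS.le.trans k.nmK)))).trans (e.trans inf_le_right)))).trans
          (sup_le inf_le_right (inf_le_right.trans (centralizer_anti k.K_le))))))
  have := k.charP hp
  obtain ⟨ρ, ψ, s⟩ := k.exists_std (k.isSyl hK (H4.isPGroup_of_isElementaryAbelian hAel) h.AL
    (Nat.card_eq_fintype_card.trans c).le)
  have q : ⁅V, A⁆ ⊔ V ⊓ 𝐂 P ≤ V ⊓ 𝐂 A := sup_le ((h.quadV hV.1 inf_le_left h1 hi.1 hx h0).trans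
    (inf_le_inf_right _ inf_le_left)) (inf_le_inf_left _ (centralizer_anti h.AL))
  exact ⟨F, inferInstance, inferInstance, c, k.nonempty_equiv (k.eq_one hK), le_antisymm
    ((s.ln_eq (s.ln_le_comm'.trans (q.trans inf_le_right))).ge.trans s.ln_le_comm') q, k.acts⟩

end Cfsg.Agent.S2999
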