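import Cfsg.Statements.S3003
import Cfsg.Agent.H26.Large
import Cfsg.Agent.H26.Gen

set_option autoImplicit false
open Cfsg

namespace Cfsg.Agent.S3003

open H26 Subgroup
open scoped Pointwise commutatorElement

/-- Let G be a finite group, p a prime and Q a large p-subgroup of G: C_G(Q) ≤ Q and N_G(U) ≤ N_G(Q) for every nontrivial subgroup U of C_G(Q). Let Q ≤ G₁ ≤ G, let R be a subgroup of order prime to p normalized by G₁, and let U ≤ G₁ be a p-subgroup. If U contains a nontrivial element which is G₁-conjugate to an element of Z(Q), then C_R(U) = 1. In particular, if U is elementary abelian of order at least p² and every maximal subgroup of U contains a nontrivial element G₁-conjugate into Z(Q), then R = 1. -/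
theorem result {G : Type*} [Group G] [Finite G] {p : ℕ} [Fact p.Prime] (Q : Subgroup G) (hQp : IsPGroup p ↥Q) (hlarge : Cfsg.IsLarge Q) (G₁ : Subgroup G) (hQG : Q ≤ G₁) (R : Subgroup G) (hR : (Nat.card ↥R).Coprime p) (hGR : G₁ ≤ Subgroup.normalizer (R : Set G)) (U : Subgroup G) (hUG : U ≤ G₁) (hUp : IsPGroup p ↥U) : ((∃ x ∈ U, x ≠ 1 ∧ ∃ g ∈ G₁, g * x * g⁻¹ ∈ Q ⊓ Subgroup.centralizer (Q : Set G)) → R ⊓ Subgroup.centralizer (U : Set G) = ⊥) ∧ (Cfsg.IsElementaryAbelian p U → p ^ 2 ≤ Nat.card ↥U → (∀ U₀ : Subgroup G, U₀ ≤ U → IsCoatom (U₀.subgroupOf U) → ∃ x ∈ U₀, x ≠ 1 ∧ ∃ g ∈ G₁, g * x * g⁻¹ ∈ Q ⊓ Subgroup.centralizer (Q : Set G)) → R = ⊥) := by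
  have key : ∀ U : Subgroup G, (∃ x ∈ U, x ≠ 1 ∧ ∃ g ∈ G₁, g * x * g⁻¹ ∈ Q ⊓ 𝐂 Q) → R ⊓ 𝐂 U = ⊥ := by
    rintro U ⟨x, hx, hx1, g, hg, hz⟩
    have h1 : R ⊓ 𝐂 (zpowers (g * x * g⁻¹)) ≤ 𝐍 Q := inf_le_right.trans ((centralizer_le_normalizer _).trans
      (hlarge.2 _ (zpowers_le.2 hz.2) (by simpa [mul_inv_eq_one] using hx1)))
    have h2 : Q ≤ 𝐍 (R ⊓ 𝐂 (zpowers (g * x * g⁻¹))) := le_normalizer_inf (hQG.trans hGR)
      (le_normalizer_centralizer (le_normalizer_of_le_centralizer (le_centralizer_iff.1 (zpowers_le.2 hz.2))))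
    have h3 := inf_eq_bot_of_coprime hQp hR
    have h4 : ⁅Q, R ⊓ 𝐂 (zpowers (g * x * g⁻¹))⁆ = ⊥ :=
      le_bot_iff.1 ((commutator_le_inf_of_le_normalizer h2 h1).trans ((inf_le_inf_left Q inf_le_left).trans h3.le))
    have h5 : R ⊓ 𝐂 (zpowers (g * x * g⁻¹)) = ⊥ :=
      le_bot_iff.1 ((le_inf ((commutator_eq_bot_iff'.1 h4).trans hlarge.1) inf_le_left).trans h3.le)
    rw [← cj_zpowers, ← cj_centralizer, ← cj_eq_iff.2 (hGR hg), ← cj_inf, cj_eq_bot_iff] at h5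
    exact le_bot_iff.1 ((inf_le_inf_left R (centralizer_anti (zpowers_le.2 hx))).trans h5.le)
  refine ⟨key U, fun h1 h2 h3 => le_bot_iff.1 (le_of_hyperplanes h1 (fun h4 => ?_) (hUG.trans hGR) hR fun B h4 h5 => ?_)⟩
  · rw [h4, card_bot] at h2
    exact (Nat.one_lt_pow two_ne_zero (Fact.out : p.Prime).one_lt).not_ge h2
  · exact (key B (h3 B h4.le ((isCoatom_subgroupOf_iff h4.le).2 ⟨h4, h5⟩))).le

end Cfsg.Agent.S3003
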