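import Cfsg.Statements.S3008
import Cfsg.Agent.H4.CL

set_option autoImplicit false
open Cfsg

namespace Cfsg.Agent.S3008

open Subgroup H26 H4


/-- Let P be a finite p-group, with J(P) generated by its abelian subgroups of largest order and J̃(P) = C_P(Z(J(P))); call R ≤ P centrally large if |R|·|Z(R)| is as large as possible, and let P_MCL be generated by the minimal centrally large subgroups. Then: for every centrally large Q, Q·J(P) ⊇ J̃(P); some minimal centrally large subgroup of P is normalized by both J(P) and P_MCL; if P = J(P) and d(P)² = |P|·|Z(P)|, where d(P) is the largest order of an abelian subgroup, then every minimal centrally large subgroup of P is abelian; and if every minimal centrally large subgroup is abelian then J̃(P) = J(P). -/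
theorem result {p : ℕ} [Fact p.Prime] (P : Type*) [Group P] [Finite P] (hP : IsPGroup p P) : (∀ Q : Subgroup P, Cfsg.IsCentrallyLarge Q → Subgroup.centralizer ((Cfsg.thompsonSubgroupA P ⊓ Subgroup.centralizer (Cfsg.thompsonSubgroupA P : Set P) : Subgroup P) : Set P) ≤ Q ⊔ Cfsg.thompsonSubgroupA P) ∧ (∃ Q : Subgroup P, Cfsg.IsMinimalCentrallyLarge Q ∧ Cfsg.thompsonSubgroupA P ≤ Subgroup.normalizer (Q : Set P) ∧ Cfsg.minimalCentrallyLargeJoin P ≤ Subgroup.normalizer (Q : Set P)) ∧ (Cfsg.thompsonSubgroupA P = ⊤ → (∀ A ∈ Cfsg.maxAbelianSubgroups P, Nat.card ↥A ^ 2 = Nat.card P * Nat.card ↥(Subgroup.center P)) → ∀ Q : Subgroup P, Cfsg.IsMinimalCentrallyLarge Q → IsMulCommutative ↥Q) ∧ ((∀ Q : Subgroup P, Cfsg.IsMinimalCentrallyLarge Q → IsMulCommutative ↥Q) → Subgroup.centralizer ((Cfsg.thompsonSubgroupA P ⊓ Subgroup.centralizer (Cfsg.thompsonSubgroupA P : Set P) : Subgroup P) : Set P) = Cfsg.thompsonSubgroupA P) := by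
  have := hP.isNilpotent
  refine ⟨fun Q hQ => (cl_sup_thompsonA hQ).2, exists_mcl_normalized, fun hJ h Q hQ => ?_, fun h => ?_⟩
  · obtain ⟨A, hA⟩ := exists_maxAb (G := P)
    obtain ⟨R, hR⟩ := exists_cl (G := P)
    have h1 := (cl_iff.1 (cl_sup_thompsonA hR).1).1
    rw [hJ, sup_top_eq, IsCentralizerLarge, centralizer_top', card_top, ← h A hA, sq] at h1
    obtain ⟨T, h2, hT⟩ := exists_mcl_le (cl_of_comm le_rfl (comm_le_centralizer hA.1) h1.ge).1
    rw [← commutator_self_eq_bot_iff, mcl_der hQ hT, commutator_self_eq_bot_iff]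
    exact comm_mono hA.1 h2
  · obtain ⟨Q, hQ⟩ := exists_mcl (G := P)
    exact le_antisymm ((cl_sup_thompsonA hQ.1).2.trans (sup_le (le_thompsonA (maxAb_of_cl hQ.1 (h Q hQ))) le_rfl))
      (le_centralizer_iff.1 inf_le_right)

end Cfsg.Agent.S3008
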