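import Cfsg.Statements.S3012
import Cfsg.Agent.H26.Loc

set_option autoImplicit false
open Cfsg

namespace Cfsg.Agent.S3012

open H26 Subgroup
open scoped Pointwise commutatorElement

/-- Let G be a finite group, V a nontrivial elementary abelian 2-subgroup of G satisfying the Sidki pair condition (every odd-order element inverted by an element of V commutes with a nontrivial element of V), and K a normal subgroup of G with V ∩ K = 1. Then the image of V in G/K satisfies the Sidki pair condition in G/K. -/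
theorem result {G : Type*} [Group G] [Finite G] (V K : Subgroup G) [K.Normal] (hV : Cfsg.IsElementaryAbelian 2 V) (hV1 : V ≠ ⊥) (hS : Cfsg.IsSidkiPair V) (hVK : V ⊓ K = ⊥) : Cfsg.IsSidkiPair (V.map (QuotientGroup.mk' K)) := by
  rintro ⟨h⟩ _ ⟨v, hv, rfl⟩ ho hinv
  set f := QuotientGroup.mk' K
  change Odd (orderOf (f h)) at ho
  change f v * f h * (f v)⁻¹ = (f h)⁻¹ at hinv
  change ∃ w ∈ V.map f, w ≠ 1 ∧ w * f h = f h * w
  have hv2 : v * v = 1 := by rw [← sq]; exact hV.2 v hv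
  have h1 : v * (h * (v * h⁻¹ * v⁻¹)) * v⁻¹ = (h * (v * h⁻¹ * v⁻¹))⁻¹ := by
    calc _ = v * h * v⁻¹ * (v * v) * h⁻¹ * (v * v)⁻¹ := by group
      _ = _ := by rw [hv2]; group
  obtain ⟨k, hk⟩ := exists_pow_coprime (p := 2) (isOfFinOrder_of_finite (h * (v * h⁻¹ * v⁻¹)))
  obtain ⟨w, hw, hw1, hc⟩ := hS _ v hv (Nat.coprime_two_right.1 hk) (by rw [← conj_pow, h1, inv_pow])
  refine ⟨f w, mem_map_of_mem f hw, fun h => hw1 (hVK.le ⟨hw, (QuotientGroup.eq_one_iff w).1 h⟩), ?_⟩
  have h2 : f (h * (v * h⁻¹ * v⁻¹)) = f h ^ 2 := by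
    rw [map_mul, map_mul, map_mul, map_inv, map_inv, sq, ← inv_inv (f v * (f h)⁻¹ * (f v)⁻¹), ← conj_inv, inv_inv, hinv, inv_inv]
  refine (mem_centralizer_singleton_iff.1 (mem_of_pow_mem_coprime_orderOf (H := centralizer {f w}) (a := 2 * 2 ^ k)
    (by rw [← pow_succ']; exact (Nat.coprime_two_right.2 ho).pow_right _) ?_)).symm
  rw [mem_centralizer_singleton_iff, pow_mul, ← h2, ← map_pow, ← map_mul, ← map_mul, hc]

end Cfsg.Agent.S3012
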