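import Cfsg.Statements.S3013
import Cfsg.Agent.H26.Loc

set_option autoImplicit false
open Cfsg

namespace Cfsg.Agent.S3013

open H26 Subgroup
open scoped Pointwise commutatorElement

/-- Let G be a finite group and V a nontrivial elementary abelian 2-subgroup of G satisfying the Sidki pair condition. Let v ∈ V and let x be an element of odd order inverted by v, and put C = C_G(v) ∩ C_G(x), the centralizer of the dihedral subgroup generated by v and x. Then C ∩ V is nontrivial and satisfies the Sidki pair condition inside C: every odd-order element of C inverted by an element of C ∩ V commutes with a nontrivial element of C ∩ V. -/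
theorem result {G : Type*} [Group G] [Finite G] (V : Subgroup G) (hV : Cfsg.IsElementaryAbelian 2 V) (hV1 : V ≠ ⊥) (hS : Cfsg.IsSidkiPair V) (v x : G) (hv : v ∈ V) (hx : Odd (orderOf x)) (hinv : v * x * v⁻¹ = x⁻¹) (C : Subgroup G) (hC : C = Subgroup.centralizer ({v} : Set G) ⊓ Subgroup.centralizer ({x} : Set G)) : C ⊓ V ≠ ⊥ ∧ Cfsg.IsSidkiPair ((C ⊓ V).subgroupOf C) := by
  subst hC
  have hVc : ∀ w ∈ V, ∀ u ∈ V, w * u = u * w := fun w hw u hu => (elemAb_le_centralizer hV hu w hw)
  have sq : ∀ {y w : G}, Odd (orderOf y) → y ^ 2 * w = w * y ^ 2 → y * w = w * y := fun {y w} h1 h2 =>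
    mem_centralizer_singleton_iff.1 (mem_of_pow_mem_coprime_orderOf (H := centralizer {w}) (Nat.coprime_two_right.2 h1)
      (mem_centralizer_singleton_iff.2 h2))
  constructor
  · obtain ⟨w, hw, hw1, hc⟩ := hS x v hv hx hinv
    exact fun h => hw1 (h.le ⟨⟨mem_centralizer_singleton_iff.2 (hVc w hw v hv), mem_centralizer_singleton_iff.2 hc⟩, hw⟩)
  · rintro ⟨h, hh⟩ ⟨u, hu⟩ huV ho hi
    replace huV : u ∈ V := huV.2
    rw [orderOf_mk] at ho
    replace hi : u * h * u⁻¹ = h⁻¹ := congrArg Subtype.val hi
    have h1 := mem_centralizer_singleton_iff.1 hh.1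
    have h2 : Commute h x := mem_centralizer_singleton_iff.1 hh.2
    have h3 := mem_centralizer_singleton_iff.1 hu.2
    have h4 : v * (h * x) * v⁻¹ = h * x⁻¹ := by rw [← hinv, ← mul_assoc, ← h1]; group
    obtain ⟨w, hw, hw1, hc⟩ := hS (h * x) (u * v) (V.mul_mem huV hv)
      ((ho.mul hx).of_dvd_nat h2.orderOf_mul_dvd_mul_orderOf) (by
        calc u * v * (h * x) * (u * v)⁻¹ = u * (v * (h * x) * v⁻¹) * u⁻¹ := by group
          _ = (u * h * u⁻¹) * (u * x * u⁻¹)⁻¹ := by rw [h4]; group
          _ = _ := by rw [hi, h3, mul_inv_cancel_right, ← mul_inv_rev, h2.eq])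
    have h5 : Commute w (h * x⁻¹) := by
      rw [← h4]
      exact ((show Commute w v from hVc w hw v hv).mul_right hc).mul_right (show Commute w v from hVc w hw v hv).inv_right
    have h6 : x * w = w * x := sq hx (by
      have := (h5.inv_right.mul_right hc).symm
      rwa [show (h * x⁻¹)⁻¹ * (h * x) = x ^ 2 by rw [pow_two]; group] at this)
    have hwC : w ∈ centralizer {v} ⊓ centralizer {x} :=
      ⟨mem_centralizer_singleton_iff.2 (hVc w hw v hv), mem_centralizer_singleton_iff.2 h6.symm⟩
    refine ⟨⟨w, hwC⟩, ⟨hwC, hw⟩, fun h => hw1 (congrArg Subtype.val h), Subtype.ext ?_⟩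
    have := (show Commute w (h * x) from hc).mul_right (show Commute w x from h6.symm).inv_right
    simpa using this.eq

end Cfsg.Agent.S3013
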