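import Cfsg.Statements.S3014
import Cfsg.Agent.H26.Transfer

set_option autoImplicit false
open Cfsg

namespace Cfsg.Agent.S3014

open H26 Subgroup
open scoped Pointwise commutatorElement

/-- Let G be a finite group and H ≤ M ≤ G subgroups such that for every g ∈ G the subgroup generated by H and g H g⁻¹ meets M exactly in H. If H is a maximal subgroup of M and M is a maximal subgroup of G, then the normal closure of H in G meets M exactly in H. -/
theorem result {G : Type*} [Group G] [Finite G] (H M : Subgroup G) (hHM : H ≤ M) (hcl : ∀ g : G, (H ⊔ H.map (MulAut.conj g).toMonoidHom) ⊓ M = H) (hmaxH : IsCoatom (H.subgroupOf M)) (hmaxM : IsCoatom M) : Subgroup.normalClosure (H : Set G) ⊓ M = H := by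
  obtain ⟨hlt, hmax⟩ := (isCoatom_subgroupOf_iff hHM).1 hmaxH
  have hn : M ≤ 𝐍 H := le_normalizer_iff_cj.2 fun m hm =>
    (le_inf le_sup_right (cj_le_of_mem hHM hm)).trans (hcl m).le
  by_cases h : ∀ g, g ∉ M → M ⊓ cj g M ≤ H
  · have hc : ⁅M, M⁆ ≤ H := by
      obtain ⟨x, hx, hx'⟩ := SetLike.exists_of_lt hlt
      have he : H ⊔ zpowers x = M := (hmax _ le_sup_left (sup_le hHM (zpowers_le.2 hx))).resolve_left
        fun h => hx' (h.le (mem_sup_right (mem_zpowers x)))
      have h1 : ⁅H, M⁆ ≤ H := commutator_le_of_le_normalizer hn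
      have h2 : zpowers x ≤ 𝐍 H := (zpowers_le.2 hx).trans hn
      conv_lhs => rw [← he]
      refine H4.commutator_sup_le (he ▸ h1) (H4.commutator_sup_le' (commutator_le_of_le_normalizer' h2) ?_ le_normalizer h2)
        le_normalizer h2
      rw [commutator_eq_bot_iff_le_centralizer.2 (isMulCommutative_iff'.1 inferInstance)]; exact bot_le
    obtain ⟨N, hN, h1, -⟩ := exists_normal_inf_eq hHM hc h
    exact le_antisymm ((inf_le_inf_right M (normalClosure_le_normal (show H ≤ N from h1.ge.trans inf_le_left))).trans h1.le)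
      (le_inf le_normalClosure hHM)
  · push Not at h
    obtain ⟨g, hg, hD⟩ := h
    have he : H ⊔ (M ⊓ cj g M) = M := (hmax _ le_sup_left (sup_le hHM inf_le_left)).resolve_left
      fun h => hD (le_sup_right.trans h.le)
    have h1 : M ≤ 𝐍 (H ⊔ cj g H) := he.ge.trans (sup_le (le_sup_left.trans le_normalizer)
      (le_normalizer_sup (inf_le_left.trans hn) (inf_le_right.trans (by rw [← cj_normalizer]; exact cj_mono g hn))))
    by_cases hL : H ⊔ cj g H ≤ M
    · have h2 : g ∈ 𝐍 H := mem_normalizer_of_cj_le ((le_inf le_sup_right (le_sup_right.trans hL)).trans (hcl g).le)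
      have : H.Normal := normalizer_eq_top_iff.1 (hmaxM.2 _ (lt_of_le_of_ne hn fun h => hg (h ▸ h2)))
      rw [normalClosure_eq_self, inf_eq_left.2 hHM]
    · have : (H ⊔ cj g H).Normal := normalizer_eq_top_iff.1 (hmaxM.2 _ (lt_of_le_of_ne h1 fun h => hL (h ▸ le_normalizer)))
      exact le_antisymm ((inf_le_inf_right M (normalClosure_le_normal (show H ≤ H ⊔ cj g H from le_sup_left))).trans (hcl g).le)
        (le_inf le_normalClosure hHM)

end Cfsg.Agent.S3014
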