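import Cfsg.Statements.S3015
import Cfsg.Agent.H26.Transfer
import Cfsg.Agent.S3014

set_option autoImplicit false
open Cfsg

namespace Cfsg.Agent.S3015

open H26 Subgroup
open scoped Pointwise commutatorElement

/-- Let G be a finite non-abelian simple group, M a maximal subgroup of G and H a normal subgroup of M of prime index in M. Then G is generated by H together with one of its conjugates. -/
theorem result {G : Type*} [Group G] [Finite G] [IsSimpleGroup G] (hG : ¬ IsMulCommutative G) (M H : Subgroup G) (hmaxM : IsCoatom M) (hHM : H ≤ M) (hHn : (H.subgroupOf M).Normal) (hidx : (H.relIndex M).Prime) : ∃ g : G, H ⊔ H.map (MulAut.conj g).toMonoidHom = ⊤ := by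
  by_contra hcon
  push Not at hcon
  have hn : M ≤ 𝐍 H := (normal_subgroupOf_iff_le_normalizer hHM).1 hHn
  have hne : H ≠ M := by rintro rfl; simp at hidx; exact Nat.not_prime_one hidx
  have hmax : ∀ X, H ≤ X → X ≤ M → X = H ∨ X = M := by
    intro X h1 h2
    have := relIndex_mul_relIndex H X M h1 h2
    rcases (Nat.dvd_prime hidx).1 (Dvd.intro _ this) with h | h
    · exact Or.inl (le_antisymm (relIndex_eq_one.1 h) h1)
    · rw [h] at this
      exact Or.inr (le_antisymm h2 (relIndex_eq_one.1 (by simpa [hidx.ne_zero] using this)))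
  have hN : ∀ L : Subgroup G, L ≠ ⊥ → L ≠ ⊤ → M ≤ 𝐍 L → 𝐍 L = M := fun L h1 h2 h3 => by
    by_contra h
    have := normalizer_eq_top_iff.1 (hmaxM.2 _ (lt_of_le_of_ne h3 (Ne.symm h)))
    exact (this.eq_bot_or_eq_top).elim h1 h2
  have hM1 : M ≠ ⊥ := fun h => hne (le_antisymm hHM (h.le.trans bot_le))
  have hNM := hN M hM1 hmaxM.1 le_normalizer
  by_cases hH : H = ⊥
  · subst hH
    have hc : Nat.card M = (⊥ : Subgroup G).relIndex M := by simp
    have : Fact (Nat.card M).Prime := ⟨hc ▸ hidx⟩
    have : IsCyclic M := isCyclic_of_prime_card (p := Nat.card M) rfl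
    obtain ⟨N, h1, h2, h3⟩ := exists_normal_inf_eq (M := M) (K := ⊥) bot_le
      (commutator_eq_bot_iff_le_centralizer.2 (isMulCommutative_iff'.1 inferInstance)).le fun g hg =>
        ((hmax _ bot_le inf_le_left).resolve_right fun h => hg (hNM.le (cj_eq_iff.1
          (eq_of_le_of_card_ge (inf_eq_left.1 h) (card_cj _ _).le).symm))).le
    rcases h1.eq_bot_or_eq_top with rfl | rfl
    · refine hG ⟨⟨fun a b => ?_⟩⟩
      exact (commutator_eq_bot_iff_le_centralizer.1 (le_bot_iff.1 h3) (mem_top b) a (mem_top a))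
    · exact hM1 (by simpa using h2)
  have hNH := hN H hH (fun h => hmaxM.1 (top_le_iff.1 (h ▸ hHM))) hn
  have hcl : ∀ g : G, (H ⊔ cj g H) ⊓ M = H := by
    intro g
    refine (hmax _ (le_inf le_sup_left hHM) inf_le_right).resolve_right fun h => ?_
    have h1 : H ⊔ cj g H = M := by
      by_contra h'
      exact hcon g (hmaxM.2 _ (lt_of_le_of_ne (inf_eq_right.1 h) (Ne.symm h')))
    have hg : g ∉ M := fun hg => hne (by rw [← h1, cj_eq_iff.2 (hn hg), sup_idem])
    have h2 : ¬ cj g M ≤ M := fun h => hg (hNM.le (mem_normalizer_of_cj_le h))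
    obtain ⟨m, hm, hm'⟩ := SetLike.not_le_iff_exists.1 h2
    have h3 : cj m (cj g H) = cj g H := cj_eq_iff.2 (by rwa [← cj_normalizer, hNH])
    have h4 : cj g H ≤ 𝐍 (H ⊔ cj m H) := le_normalizer_sup (le_sup_right.trans (h1.le.trans hn))
      (by rw [← cj_normalizer, ← h3]; exact cj_mono m (le_sup_right.trans (h1.le.trans hn)))
    have h5 := hN (H ⊔ cj m H) (fun h => hH (le_bot_iff.1 (le_sup_left.trans h.le))) (hcon m)
      (h1.ge.trans (sup_le (le_sup_left.trans le_normalizer) h4))
    refine hm' (hNM.le (mem_normalizer_of_cj_le ?_))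
    conv_lhs => rw [← h1, cj_sup, h3]
    exact h5 ▸ sup_le (le_sup_right.trans le_normalizer) h4
  have := S3014.result H M hHM hcl ((isCoatom_subgroupOf_iff hHM).2 ⟨lt_of_le_of_ne hHM hne, hmax⟩) hmaxM
  rcases (normalClosure_normal (s := (H : Set G))).eq_bot_or_eq_top with h | h
  · exact hH (le_bot_iff.1 (h ▸ le_normalClosure))
  · exact hne (by rw [← this, h, top_inf_eq])

end Cfsg.Agent.S3015
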