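import Cfsg.Statements.S3017
import Cfsg.Agent.H21.ExtCl2

set_option autoImplicit false
open Cfsg

namespace Cfsg.Agent.S3017

open H18 H1 H21 Subgroup

/-- Let G be a finite group and H an abelian 2-subgroup of G that is extremely closed (for every g, the subgroup generated by H and g H g⁻¹ meets N_G(H) exactly in H). Then G = N_G(H) O(G), where O(G) is the largest normal subgroup of odd order. For H of order 2 this is Glauberman's Z*-statement. -/
theorem result {G : Type*} [Group G] [Finite G] (H : Subgroup G) (hH2 : IsPGroup 2 H) (hHab : IsMulCommutative H) (hcl : Cfsg.IsExtremelyClosed H) : Subgroup.normalizer (H : Set G) ⊔ Cfsg.oddCore G = ⊤ := by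
  have h2 : PiGrp {2} H := piGrp_of_isPGroup Nat.prime_two hH2
  have hA : Abel H := abel_of_comm hHab
  have h : OC H := ⟨hA, h2, fun g => by
    have e : (H ⊔ cj g H) ⊓ N(H) = H := hcl g
    have hS : Hall {2} H (H ⊔ cj g H) := sylow_of_max Nat.prime_two le_sup_left h2 fun Q hQ h1 h3 =>
      (hQ.nil.eq_of_norm_le h1 ((inf_le_inf_right _ h3).trans e.le)).ge
    have hB := Burnside_normal_complement Nat.prime_two hS (e.le.trans hA)
    obtain ⟨k, hk, e'⟩ := sylow_conj Nat.prime_two hS (hS.of_card le_sup_right card_cj)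
    have hn : H ≤ N(O[{2}ᶜ](H ⊔ cj g H)) := le_sup_left.trans pcore_nml.norm
    rw [← hS.sup_compl hB, sup_comm] at hk
    obtain ⟨o, ho, w, hw, rfl⟩ := (mem_sup_of_norm' hn).1 hk
    exact ⟨_, pcore_pi, hn, o, ho, by rw [e', cj_mul, cj_eq_self_of_mem hw]⟩⟩
  have := h.N_sup h.le_O2
  rwa [← pPrimeCore_eq Nat.prime_two] at this

end Cfsg.Agent.S3017
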