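import Cfsg.Statements.S3020
import Cfsg.Agent.H26.Loc
import Cfsg.Agent.H3.Frobenius

set_option autoImplicit false
open Cfsg

namespace Cfsg.Agent.S3020

open H26 Subgroup
open scoped Pointwise commutatorElement

/-- Let G be a finite group, p a prime and H an abelian p-subgroup of G that is extremely closed (for every g, the subgroup generated by H and g H g⁻¹ meets N_G(H) exactly in H). Then for every g ∈ G, the subgroup T generated by H and g H g⁻¹ is the product of H with O_{p'}(T), and H meets O_{p'}(T) trivially; that is, O_{p'}(T) is a normal p-complement of H in T. -/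
theorem result {G : Type*} [Group G] [Finite G] {p : ℕ} [Fact p.Prime] (H : Subgroup G) (hHp : IsPGroup p H) (hHab : IsMulCommutative H) (hcl : Cfsg.IsExtremelyClosed H) (g : G) (T : Subgroup G) (hT : T = H ⊔ H.map (MulAut.conj g).toMonoidHom) : H ⊔ (Cfsg.pPrimeCore p ↥T).map T.subtype = T ∧ H ⊓ (Cfsg.pPrimeCore p ↥T).map T.subtype = ⊥ := by
  have hHT : H ≤ T := hT ▸ le_sup_left
  have h1 : T ⊓ 𝐍 H = H := hT ▸ hcl g
  have hS : IsSyl p H T := isSyl_of_normalizer (by rw [h1]; exact isSyl_self hHp)
  have h2 : Cfsg.HasNormalPComplement p T := H3.burnside_hasNormalPComplement hS.sylow (by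
    change 𝐍 (hS.sylow : Subgroup T) ≤ 𝐂 (hS.sylow : Subgroup T)
    rw [← map_subtype_le_map_subtype, map_subtype_normalizer, map_subtype_centralizer, hS.map_sylow, h1]
    exact le_inf hHT (isMulCommutative_iff'.1 hHab))
  have h3 : pResidualOf p T ≤ (Cfsg.pPrimeCore p T).map T.subtype := map_mono (H1.le_pPrimeCore
    ((Nat.Prime.coprime_iff_not_dvd Fact.out).2 (H3.hasNormalPComplement_iff_not_dvd_card_pResidual.1 h2)).symm)
  exact ⟨le_antisymm (sup_le hHT (map_subtype_le _)) (hS.le_of_pResidualOf_le (h3.trans le_sup_right) le_sup_left),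
    inf_eq_bot_of_coprime hHp (H1.coprime_card_map_pPrimeCore p T)⟩

end Cfsg.Agent.S3020
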