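import Cfsg.Statements.S3025
import Cfsg.Agent.H9.Hv2
import Cfsg.Agent.H3.BG4a

set_option autoImplicit false
open Cfsg

namespace Cfsg.Agent.S3025

open H18 H9 Subgroup

/-- Let F be a finite group and H a nontrivial subgroup of F that is contained in every nontrivial subgroup of F which H normalizes. Then F has a nontrivial normal subgroup N contained in every nontrivial normal subgroup of F (a unique minimal normal subgroup), N is simple, and one of the following holds: C_F(N) = 1; or H = N has prime order p, C_F(N) is cyclic of order a power of p, and F/C_F(N) is cyclic of order dividing p − 1; or H = N has order 2, N is central in F, and F is a generalized quaternion group. -/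
theorem result {F : Type*} [Group F] [Finite F] (H : Subgroup F) (hH : H ≠ ⊥)
    (hmin : ∀ R : Subgroup F, R ≠ ⊥ → H ≤ Subgroup.normalizer (R : Set F) → H ≤ R) :
    ∃ N : Subgroup F, N.Normal ∧ N ≠ ⊥ ∧ (∀ M : Subgroup F, M.Normal → M ≠ ⊥ → N ≤ M) ∧ IsSimpleGroup ↥N ∧
      (Subgroup.centralizer (N : Set F) = ⊥ ∨
       (H = N ∧ (Nat.card N).Prime ∧ IsCyclic ↥(Subgroup.centralizer (N : Set F)) ∧
          (∃ k : ℕ, 1 ≤ k ∧ Nat.card ↥(Subgroup.centralizer (N : Set F)) = Nat.card N ^ k) ∧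
          (∃ g : F, Subgroup.centralizer (N : Set F) ⊔ Subgroup.zpowers g = ⊤) ∧
          (Subgroup.centralizer (N : Set F)).index ∣ Nat.card N - 1) ∨
       (H = N ∧ Nat.card N = 2 ∧ Subgroup.centralizer (N : Set F) = ⊤ ∧
          ∃ k : ℕ, 1 ≤ k ∧ Nonempty (F ≃* QuaternionGroup (2 ^ k)))) := by
  have h1 : ∀ M : Subgroup F, M.Normal → M ≠ ⊥ → normalClosure (H : Set F) ≤ M := fun M _ hM =>
    normalClosure_le_normal (hmin M hM norm_of_normal)
  have hle : H ≤ normalClosure (H : Set F) := le_normalClosure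
  have hN : (normalClosure (H : Set F)).Normal := inferInstance
  generalize normalClosure (H : Set F) = N at h1 hle hN
  have N1 : N ≠ ⊥ := fun e => hH (le_bot_iff.1 (e ▸ hle))
  have h2 : ∀ K, K ⊴ N → K ≠ ⊥ → N ≤ K := fun K hK K1 => by
    refine (h1 _ (normalCore_normal K) fun e => hH (le_bot_iff.1 (le_trans (b := K.normalCore) (fun x hx g => ?_) e.le))).trans
      (normalCore_le K)
    have := (hK.cj g⁻¹).norm
    rw [cj_eq_self (norm_of_normal (mem_top g⁻¹))] at this
    simpa [mem_cj] using hmin (cj g⁻¹ K) (by simpa using K1) (hle.trans this) hx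
  have : Nontrivial N := (nontrivial_iff_ne_bot N).2 N1
  have hs : IsSimpleGroup N := ⟨fun K hK => or_iff_not_imp_left.2 fun e => eq_top_iff.2 fun x _ => by
    obtain ⟨y, hy, e'⟩ := h2 _ (nml_map_subtype (X := K)) (by rwa [Ne, map_eq_bot_iff_of_injective _ N.subtype_injective]) x.2
    exact Subtype.ext e' ▸ hy⟩
  refine ⟨N, hN, N1, h1, hs, or_iff_not_imp_left.2 fun C1 => ?_⟩
  have hA : Abel N := h1 _ inferInstance C1
  have := hA.comm
  have hp : (Nat.card N).Prime := Group.is_simple_iff_prime_card.1 hs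
  obtain rfl : H = N := eq_of_prime hp hle hH
  have h3 : ∀ X ≤ C(H), (Nat.card X).Prime → X = H := fun X hX h =>
    (eq_of_prime h (hmin X (ne_bot_of_prime h) (cent_norm (cent_symm hX))) hH).symm
  have h4 : PiGrp {Nat.card H} C(H) := fun q hq hd => by
    obtain ⟨X, hX, e⟩ := cauchy_sub hq hd
    rw [← e, h3 X hX (e ▸ hq)]; rfl
  have h5 := prime_relIndex_C_dvd hp rfl (A := ⊤) norm_of_normal
  rw [relIndex_top_right] at h5
  obtain ⟨k, hk⟩ := h4.card_eq_pow
  have hk1 : 1 ≤ k := Nat.pos_of_ne_zero fun e => C1 (card_eq_one.1 (by rw [hk, e, pow_zero]))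
  by_cases h6 : Nat.card H = 2
  · have hC : C(H) = ⊤ := index_eq_one.1 (Nat.dvd_one.1 (by simpa [h6] using h5))
    rcases isCyclic_or_qData (P := C(H)) (h6 ▸ h4.isPGroup) fun v hv w hw ov ow => inv_unique_zpowers (mem_zpowers v)
      (by rw [h3 _ (zpowers_le.2 hv) (by rw [Nat.card_zpowers, ov]; exact Nat.prime_two),
        ← h3 _ (zpowers_le.2 hw) (by rw [Nat.card_zpowers, ow]; exact Nat.prime_two)]; exact mem_zpowers w) ov ow with
      hc | ⟨n, x, y, hq⟩
    · exact Or.inl ⟨rfl, hp, hc, ⟨k, hk1, hk⟩, ⟨1, by rw [hC, top_sup_eq]⟩, h5⟩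
    · obtain ⟨e⟩ := hq.nonempty_equiv
      exact Or.inr ⟨rfl, h6, hC, n + 1, by omega, ⟨(topEquiv.symm.trans (MulEquiv.subgroupCongr hC.symm)).trans e⟩⟩
  refine Or.inl ⟨rfl, hp, H3.odd_pgroup_rank1_cyclic hp h4 (hk ▸ (hp.odd_of_ne_two h6).pow)
    (not_lt.1 fun e => ?_), ⟨k, hk1, hk⟩, ?_, h5⟩
  · obtain ⟨A, hA⟩ := exists_pelem_of_lt hp e
    obtain ⟨Y, h7, h8, h9⟩ := hA.exists_other hp rfl
    exact h9 (h3 Y (h7.trans hA.le) (h8 ▸ hp))
  · obtain ⟨x, hx⟩ := ((cyc_of_prime hp).cyc_mim_actf (A := ⊤) hp h6 (piGrp_of_prime hp rfl)).gen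
    obtain ⟨g, -, hg, rfl⟩ := mem_mim.1 (hx.le (mem_zpowers x))
    have := (mim_le_mim_iff norm_of_normal (zpowers_le.2 hg)).1 (hx.ge.trans (mim_zpowers hg).ge)
    exact ⟨g, by rwa [mker_actf, sup_comm, top_le_iff] at this⟩

end Cfsg.Agent.S3025
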