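import Cfsg.Statements.S3027
import Cfsg.Agent.H18.Pi

set_option autoImplicit false
open Cfsg

namespace Cfsg.Agent.S3027

open Subgroup
open scoped Pointwise commutatorElement

open H18 in
theorem least {G : Type*} [Group G] [Finite G] {D M : Subgroup G} [D.Normal]
    (hp : ⁅(⊤ : Subgroup G), (⊤ : Subgroup G)⁆ ⊔ D = ⊤) (h : M ⊔ D = ⊤) :
    ∃ N, N ⊴ M ∧ N ⊔ D = ⊤ ∧ N(M) ≤ N(N) ∧ ∀ K, K ⊴ M → K ⊔ D = ⊤ → N ≤ K := by
  have e : ∀ N : Subgroup G, N ⊔ D = ⊤ ↔ N.map (QuotientGroup.mk' D) = ⊤ := fun N => by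
    rw [← (comap_injective (QuotientGroup.mk'_surjective D)).eq_iff, comap_top, comap_map_eq, QuotientGroup.ker_mk']
  obtain ⟨N, ⟨h1, h2⟩, h3⟩ := exists_minimal_of_wellFoundedLT (fun N => N ⊴ M ∧ N ⊔ D = ⊤) ⟨M, .rfl, h⟩
  have k : ∀ K, K ⊴ M → K ⊔ D = ⊤ → N ≤ K := fun K k1 k2 => by
    refine (h3 (y := N ⊓ K) ⟨⟨inf_le_left.trans h1.le, norm_inf h1.norm k1.norm⟩, top_le_iff.1 (le_trans (Eq.ge ?_)
      (sup_le_sup_right (le_inf (comm_le_left (k1.le.trans h1.norm)) (comm_le_right (h1.le.trans k1.norm))) D))⟩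
      inf_le_left).trans inf_le_right
    rw [e, map_commutator] at hp ⊢
    rw [map_top_of_surjective _ (QuotientGroup.mk'_surjective D)] at hp
    rwa [(e _).1 h2, (e _).1 k2]
  refine ⟨N, h1, h2, fun g hg => mem_N_iff_cj.2 (eq_of_card_ge (k _ ?_ ?_) card_cj.le).symm, k⟩
  · exact cj_eq_self hg ▸ h1.cj g
  · rw [← cj_eq_self (norm_of_normal (K := D) (mem_top g)), ← cj_sup, h2, cj_top]

/-- Let G be a finite group and D a normal subgroup of G such that G/D is perfect (that is, G = G′D). Then among the subnormal subgroups B of G with BD = G there is a least one, and it is normal in G. -/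
theorem result {G : Type*} [Group G] [Finite G] (D : Subgroup G) [D.Normal] (hperf : ⁅(⊤ : Subgroup G), (⊤ : Subgroup G)⁆ ⊔ D = ⊤) :
    ∃ B : Subgroup G, B.Normal ∧ B ⊔ D = ⊤ ∧ ∀ B' : Subgroup G, B'.IsSubnormal → B' ⊔ D = ⊤ → B ≤ B' := by
  obtain ⟨B, h1, h2, -, h3⟩ := least hperf (top_sup_eq D)
  have : ∀ K : Subgroup G, K.IsSubnormal → ∀ N, H18.Nml N K → N ⊔ D = ⊤ → B ≤ N := fun K hK => by
    induction hK with
    | top => exact h3
    | step H K l _ n ih =>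
      intro N k1 k2
      obtain ⟨L, l1, l2, l3, l4⟩ := least hperf (top_le_iff.1 (k2.ge.trans (sup_le_sup_right k1.le D)))
      exact (ih L ⟨l1.le.trans l, ((normal_subgroupOf_iff_le_normalizer l).1 n).trans l3⟩ l2).trans (l4 N k1 k2)
  exact ⟨B, h1.normal, h2, fun K hK => this K hK K .rfl⟩

end Cfsg.Agent.S3027
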