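import Cfsg.Statements.S3043
import Cfsg.Agent.H3.AMS2

set_option autoImplicit false
open Cfsg

namespace Cfsg.Agent.S3043

/-- Let M be a nontrivial subgroup of a finite group G meeting each of its other conjugates trivially, with N_G(M) = M · C_{N_G(M)}(z) for some involution z ∈ N_G(M), and with C_G(x) of odd order for every nontrivial x ∈ M. Then one of the following holds: M is normal in G; the number of involutions of G is at most |G : M|; G is isomorphic to PGL₂(F) or to PSL₂(F) for a finite field F with |F| = |M|, M is an elementary abelian p-group for the characteristic p of F, and |F| ≡ 1 (mod 4) in the PSL₂ case; G is isomorphic to PSL₂(F) with |F| = 2^e, e > 1, and M is cyclic of order 2^e + 1; or for some d ≥ 1, G has an elementary abelian normal subgroup of order 2^{2d} complemented by N_G(M), and N_G(M) is dihedral of order 2(2^d + 1). -/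
theorem result {G : Type*} [Group G] [Finite G] (M : Subgroup G) (hM1 : M ≠ ⊥)
    (hTI : ∀ g : G, M ⊓ M.map (MulAut.conj g).toMonoidHom ≠ ⊥ → M.map (MulAut.conj g).toMonoidHom = M)
    (z : G) (hz : orderOf z = 2) (hzN : z ∈ Subgroup.normalizer (M : Set G))
    (hfac : M ⊔ (Subgroup.normalizer (M : Set G) ⊓ Subgroup.centralizer ({z} : Set G)) = Subgroup.normalizer (M : Set G))
    (hodd : ∀ x ∈ M, x ≠ 1 → Odd (Nat.card ↥(Subgroup.centralizer ({x} : Set G)))) :
    M.Normal ∨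
    Nat.card {g : G // orderOf g = 2} ≤ M.index ∨
    (∃ (F : Type) (_ : Field F) (_ : Fintype F) (p : ℕ) (_ : Fact p.Prime) (_ : CharP F p), Fintype.card F = Nat.card M ∧ Cfsg.IsElementaryAbelian p M ∧
        (Nonempty (G ≃* (GL (Fin 2) F ⧸ Subgroup.center (GL (Fin 2) F))) ∨
         (Fintype.card F % 4 = 1 ∧ Nonempty (G ≃* Matrix.ProjectiveSpecialLinearGroup (Fin 2) F)))) ∨
    (∃ (F : Type) (_ : Field F) (_ : Fintype F) (e : ℕ), 1 < e ∧ Fintype.card F = 2 ^ e ∧ IsCyclic ↥M ∧ Nat.card M = 2 ^ e + 1 ∧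
        Nonempty (G ≃* Matrix.ProjectiveSpecialLinearGroup (Fin 2) F)) ∨
    (∃ (d : ℕ) (E : Subgroup G), 1 ≤ d ∧ E.Normal ∧ Cfsg.IsElementaryAbelian 2 E ∧ Nat.card E = 2 ^ (2 * d) ∧
        E ⊓ Subgroup.normalizer (M : Set G) = ⊥ ∧ E ⊔ Subgroup.normalizer (M : Set G) = ⊤ ∧
        Nonempty (↥(Subgroup.normalizer (M : Set G)) ≃* DihedralGroup (2 ^ d + 1))) := by
  have h : H3.AMS M z := by
    obtain ⟨z2, z1⟩ := H9.orderOf_eq_two.1 hz
    refine ⟨hM1, fun {g x} hx x1 m => ?_, z2, z1, hzN, fun g hg => ?_, hodd⟩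
    · have e := hTI g fun e => H23.conj_ne_one (g := g) x1 ((Subgroup.eq_bot_iff_forall _).1 e _ ⟨m, x, hx, rfl⟩)
      exact H18.mem_N_of_finite fun b hb => e ▸ ⟨b, hb, rfl⟩
    · rw [← hfac] at hg
      obtain ⟨x, hx, c, hc, rfl⟩ := (H18.mem_sup_of_norm' inf_le_left).1 hg
      have e : x * c * z * (x * c)⁻¹ * z = x * (z * x⁻¹ * z⁻¹) := by
        rw [H9.inv_eq_of_mul_self z2, mul_assoc x c, H18.mem_C1.1 hc.2]; group
      rw [e]; exact mul_mem hx (H18.conj_mem_N hzN (inv_mem hx))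
  by_cases hn : M.Normal
  · exact Or.inl hn
  by_cases hI : Nat.card {g : G // orderOf g = 2} ≤ M.index
  · exact Or.inr (Or.inl hI)
  refine Or.inr (Or.inr ?_)
  have S := h.star hI
  obtain ⟨g, hg⟩ : ∃ g, g ∉ Subgroup.normalizer (M : Set G) := by
    by_contra! e
    exact hn (H18.norm_top_iff.1 fun g _ => e g)
  obtain ⟨u, x, u2, hx, rfl⟩ := S g hg
  have hu : u ∉ Subgroup.normalizer (M : Set G) := fun c => hg (mul_mem c (H18.le_N hx))
  obtain ⟨t, ht, t2, t1, c⟩ := h.d2 S u2 hu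
  by_cases hA : ∀ g, g ∉ Subgroup.normalizer (M : Set G) → g * t = t * g → u * g ∈ Subgroup.normalizer (M : Set G)
  · exact Or.inl (h.caseA S ht t2 t1 hu c hA)
  push Not at hA
  obtain ⟨g, hg, c', hug⟩ := hA
  have B := h.mkB S ht t2 t1 hu c hg c' hug
  obtain ⟨d, k, d0, hk, c1, c2, c3, c4 | c4⟩ := B.cases
  · exact Or.inr (Or.inr (B.one d0 hk c2 c3 c4.1 c4.2))
  · exact Or.inr (Or.inl (B.two d0 hk c1 c3 c4.1 c4.2))

end Cfsg.Agent.S3043
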