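import Cfsg.Statements.S3044
import Cfsg.Agent.H27.Iso
import Mathlib

set_option autoImplicit false
open Cfsg

namespace Cfsg.Agent.S3044

open H26 H27 Subgroup

/-- Let G be a finite group, p a prime, S a Sylow p-subgroup of G and P a p-minimal subgroup of G containing S (S is not normal in P and lies in exactly one maximal subgroup of P). Let L be the subgroup generated by N_G(S) and all p-minimal subgroups of G containing S other than P, and suppose P is isolated: O_p(L) is not contained in O_p(P). Put Y for the normal closure of O^p(P) in G. Then G = YL; P is again isolated in the subgroup YS (the subgroup L₀ generated by N_{YS}(S) and the p-minimal subgroups of YS containing S other than P has O_p(L₀) not contained in O_p(P)); and either Y = O^p(P), or p divides |Y/O_p(Y)|, Y/O_p(Y) is generated by its components (a central product of quasisimple groups), and S permutes these components transitively by conjugation. -/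
theorem result {G : Type*} [Group G] [Finite G] {p : ℕ} [Fact p.Prime] (S : Sylow p G) (P : Subgroup G) (hSP : (S : Subgroup G) ≤ P) (hPmin : Cfsg.IsPMinimal p ↥P)
    (L Y : Subgroup G)
    (hL : L = Subgroup.normalizer ((S : Subgroup G) : Set G) ⊔ ⨆ P' : {P' : Subgroup G // (S : Subgroup G) ≤ P' ∧ Cfsg.IsPMinimal p ↥P' ∧ P' ≠ P}, (P' : Subgroup G))
    (hiso : ¬ (Cfsg.pCore p ↥L).map L.subtype ≤ (Cfsg.pCore p ↥P).map P.subtype)
    (hY : Y = Subgroup.normalClosure (((Cfsg.pResidual p ↥P).map P.subtype : Subgroup G) : Set G)) :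
    Y ⊔ L = ⊤ ∧
    ¬ (Cfsg.pCore p ↥((Subgroup.normalizer ((S : Subgroup G) : Set G) ⊓ (Y ⊔ (S : Subgroup G))) ⊔
          ⨆ P' : {P' : Subgroup G // (S : Subgroup G) ≤ P' ∧ P' ≤ Y ⊔ (S : Subgroup G) ∧ Cfsg.IsPMinimal p ↥P' ∧ P' ≠ P}, (P' : Subgroup G))).map
        (Subgroup.subtype _) ≤ (Cfsg.pCore p ↥P).map P.subtype ∧
    ((Cfsg.pResidual p ↥P).map P.subtype = Y ∨
     ∃ _ : (Cfsg.pCore p ↥Y).Normal,
       p ∣ Nat.card (↥Y ⧸ Cfsg.pCore p ↥Y) ∧ Cfsg.layer (↥Y ⧸ Cfsg.pCore p ↥Y) = ⊤ ∧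
       ∀ K₁ K₂ : Subgroup (↥Y ⧸ Cfsg.pCore p ↥Y), Cfsg.IsComponent K₁ → Cfsg.IsComponent K₂ →
         ∃ s ∈ (S : Subgroup G), ((K₂.comap (QuotientGroup.mk' (Cfsg.pCore p ↥Y))).map Y.subtype) = (((K₁.comap (QuotientGroup.mk' (Cfsg.pCore p ↥Y))).map Y.subtype)).map (MulAut.conj s).toMonoidHom) := by
  have h : IsoP.Isol p (S : Subgroup G) L (H17.oUp p P) (H17.oP p L) := IsoP.isol_of S hSP hPmin hL hiso
  rw [H17.map_pResidual] at hY ⊢
  have : Y.Normal := hY ▸ normalClosure_normal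
  have hRY : H17.oUp p P ≤ Y := hY ▸ le_normalClosure
  refine ⟨top_le_iff.1 (h.top_le.trans (sup_le le_sup_right (hRY.trans le_sup_left))), fun e => hiso (le_trans ?_ e), ?_⟩
  · refine H17.le_oP (h.QS.trans ((le_inf le_normalizer le_sup_right).trans le_sup_left)) (le_trans ?_ h.LQ) h.pQ
    rw [hL]
    refine sup_le_sup inf_le_left (iSup_le fun P' => ?_)
    exact le_iSup (fun P' : {P' : Subgroup G // (S : Subgroup G) ≤ P' ∧ Cfsg.IsPMinimal p ↥P' ∧ P' ≠ P} =>
      (P' : Subgroup G)) ⟨P', P'.2.1, P'.2.2.2⟩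
  by_cases hf : (H17.oUp p P).map (QuotientGroup.mk' (pCore p G)) ≤ H17.fit ⊤
  · exact Or.inl (hY ▸ h.eq_of_bar (h.bar.fit_case IsoP.Isol.bar_O hf).1)
  obtain ⟨h1, h2, h3⟩ := h.bar.lay_case IsoP.Isol.bar_O hf
  rw [← IsoP.Isol.bar_Y, ← hY, ← IsoP.psi_top] at h1 h2 h3
  have hi := IsoP.psi_inj p Y
  refine Or.inr ⟨inferInstance, ?_, ?_, fun K₁ K₂ a b => ?_⟩
  · rwa [card_map_of_injective hi, card_top] at h2
  · rw [← H17.map_lay_eq_of_injective _ hi] at h1
    rw [← H17.lay_top, map_injective hi h1]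
  · have hc : ∀ K : Subgroup (↥Y ⧸ Cfsg.pCore p ↥Y), IsComponent K →
        H17.IsComp (K.map (IsoP.psi p Y)) ((⊤ : Subgroup _).map (IsoP.psi p Y)) := fun K hK =>
      ((H17.isComp_top_iff.2 hK).map _).resolve_left fun e =>
        (H17.isComp_top_iff.2 hK).ne_bot ((map_eq_bot_iff_of_injective _ hi).1 e)
    obtain ⟨_, ⟨s, hs, rfl⟩, e⟩ := h3 _ _ (hc K₁ a) (hc K₂ b)
    refine ⟨s, hs, ?_⟩
    rw [IsoP.psi_comap, IsoP.psi_comap, e, ← IsoP.cj_comap]
    exact ((H17.cj_inf s _ Y).trans (by rw [H17.cj_eq_of_normal s Y])).symm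

end Cfsg.Agent.S3044
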