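import Cfsg.Statements.S3045
import Cfsg.Agent.H27.Iso
import Mathlib

set_option autoImplicit false
open Cfsg

namespace Cfsg.Agent.S3045

open H26 H27 Subgroup

/-- Let G be a finite group, p a prime, S a Sylow p-subgroup of G and P a p-minimal subgroup of G containing S. Let L be the subgroup generated by N_G(S) and all p-minimal subgroups of G containing S other than P, and suppose O_p(L) is not contained in O_p(P). Put Y for the normal closure of O^p(P) in G. Then O^p(P) is contained in the preimage in G of F*(G/O_p(G)); and if Y is solvable, then Y = O^p(P) and Y/O_p(Y) is a t-group of nilpotency class at most 2 for some prime t ≠ p. -/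
theorem result {G : Type*} [Group G] [Finite G] {p : ℕ} [Fact p.Prime] (S : Sylow p G) (P : Subgroup G) (hSP : (S : Subgroup G) ≤ P) (hPmin : Cfsg.IsPMinimal p ↥P)
    (L Y : Subgroup G)
    (hL : L = Subgroup.normalizer ((S : Subgroup G) : Set G) ⊔ ⨆ P' : {P' : Subgroup G // (S : Subgroup G) ≤ P' ∧ Cfsg.IsPMinimal p ↥P' ∧ P' ≠ P}, (P' : Subgroup G))
    (hiso : ¬ (Cfsg.pCore p ↥L).map L.subtype ≤ (Cfsg.pCore p ↥P).map P.subtype)
    (hY : Y = Subgroup.normalClosure (((Cfsg.pResidual p ↥P).map P.subtype : Subgroup G) : Set G)) [hn : (Cfsg.pCore p G).Normal] :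
    (Cfsg.pResidual p ↥P).map P.subtype ≤ (Cfsg.generalizedFittingSubgroup (G ⧸ Cfsg.pCore p G)).comap (QuotientGroup.mk' (Cfsg.pCore p G)) ∧
    (Group.IsSolvable ↥Y → (Cfsg.pResidual p ↥P).map P.subtype = Y ∧
       ∃ _ : (Cfsg.pCore p ↥Y).Normal, ∃ t : ℕ, t.Prime ∧ t ≠ p ∧ IsPGroup t (↥Y ⧸ Cfsg.pCore p ↥Y) ∧
         ∃ _ : Group.IsNilpotent (↥Y ⧸ Cfsg.pCore p ↥Y), Group.nilpotencyClass (↥Y ⧸ Cfsg.pCore p ↥Y) ≤ 2) := by
  have h : IsoP.Isol p (S : Subgroup G) L (H17.oUp p P) (H17.oP p L) := IsoP.isol_of S hSP hPmin hL hiso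
  rw [H17.map_pResidual] at hY ⊢
  have : Y.Normal := hY ▸ normalClosure_normal
  refine ⟨map_le_iff_le_comap.1 ((h.bar.le_gfit IsoP.Isol.bar_O).trans H17.gfit_top.le), fun hs => ?_⟩
  have hi := IsoP.psi_inj p Y
  by_cases hf : (H17.oUp p P).map (QuotientGroup.mk' (pCore p G)) ≤ H17.fit ⊤
  · obtain ⟨h1, t, ht, htp, h2, h3⟩ := h.bar.fit_case IsoP.Isol.bar_O hf
    have e := (h.eq_of_bar h1).trans hY.symm
    rw [e, ← IsoP.psi_top] at h2 h3
    rw [← map_commutator, ← map_commutator, map_eq_bot_iff_of_injective _ hi] at h3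
    have h4 : (⊤ : Subgroup (↥Y ⧸ Cfsg.pCore p ↥Y)).lowerCentralSeries 2 = ⊥ := h3
    have h5 : Group.IsNilpotent (↥Y ⧸ Cfsg.pCore p ↥Y) := Subgroup.nilpotent_iff_lowerCentralSeries.2 ⟨2, h4⟩
    exact ⟨e, inferInstance, t, ht, htp, ((H17.isPGroup_map_injective_iff hi).1 h2).of_equiv topEquiv, h5,
      Subgroup.lowerCentralSeries_eq_bot_iff_nilpotencyClass_le.1 h4⟩
  · obtain ⟨h1, -⟩ := h.bar.lay_case IsoP.Isol.bar_O hf
    rw [← IsoP.Isol.bar_Y, ← hY, H17.lay_eq_bot_of_solvable (H17.solvable_map _ hs)] at h1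
    exact (h.bar.ne (le_bot_iff.1 ((map_mono (hY ▸ le_normalClosure)).trans h1.ge))).elim

end Cfsg.Agent.S3045
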