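import Cfsg.Statements.S3048
import Cfsg.Agent.H18.BG1
import Cfsg.Agent.H17.Comp

set_option autoImplicit false
universe u
open Cfsg

namespace Cfsg.Agent.S3048

open H18 Subgroup

def Wit {G : Type u} [Group G] (X H : Subgroup G) : Prop :=
  ∃ x ∈ X, ∃ h ∈ H, PiElt {2}ᶜ h ∧ x * h * x⁻¹ = h⁻¹ ∧ ∀ w ∈ X, w * h = h * w → w = 1

def Mi (n : ℕ) : Prop := ∀ (H : Type u) [Group H] [Finite H] (W : Subgroup H), Nat.card H < n → IsElementaryAbelian 2 W →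
  W ≠ ⊥ → IsSidkiPair W → W ⊓ pCore 2 H ≠ ⊥

variable {G : Type u} [Group G] [Finite G] {V X H K A : Subgroup G} {n : ℕ}

theorem odd_iff {m : ℕ} : PiNat {2}ᶜ m ↔ Odd m := by
  rw [piNat_compl_iff Nat.prime_two, ← even_iff_two_dvd, Nat.not_even_iff_odd]

theorem wit (m : Mi.{u} n) (c : Nat.card H < n) (l : X ≤ H) (a : Abel X) (e : ∀ x ∈ X, x ^ 2 = 1)
    (o : X ⊓ O[{2}](H) = ⊥) : Wit X H := by
  by_cases b : X = ⊥
  · exact ⟨1, one_mem _, 1, one_mem _, .one, by simp, fun w hw _ => b.le hw⟩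
  by_contra nw
  refine m H (X.subgroupOf H) c ⟨abel_iff.1 (cent_iff.2 fun x hx y hy => Subtype.ext (comm_of_cent a hx hy)),
    fun x hx => Subtype.ext (e x hx)⟩ (fun h => b (by rw [← map_subgroupOf_eq_of_le l, h, Subgroup.map_bot])) (fun h v hv od i => ?_)
    (eq_bot_iff.2 fun x hx => Subtype.ext (o.le ⟨hx.1, pCore_map (H := H) Nat.prime_two ▸ ⟨x, hx.2, rfl⟩⟩))
  by_contra! f
  exact nw ⟨v, hv, h, h.2, odd_iff.2 (by rwa [orderOf_coe]), congrArg Subtype.val i, fun w hw cw => by_contra fun w1 =>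
    f ⟨w, l hw⟩ hw (fun q => w1 (congrArg Subtype.val q)) (Subtype.ext cw)⟩

theorem lift {B N : Subgroup G} (hN : ∀ g, g ∈ N(N)) {x : G} (xn : x ∈ N(B)) (x2 : x ^ 2 = 1) {z : Coset N} (hz : z ∈ B ⫽ N)
    (o : PiElt {2}ᶜ z) (i : cs N x * z * (cs N x)⁻¹ = z⁻¹) :
    ∃ h ∈ B, PiElt {2}ᶜ h ∧ x * h * x⁻¹ = h⁻¹ ∧ cs N h = z := by
  obtain ⟨r, hr⟩ := odd_iff.1 o
  obtain ⟨k, hk, -, e⟩ := mem_mim.1 (pow_mem hz (r + 1))
  have xx : x⁻¹ = x := inv_eq_of_mul_eq_one_right (by rw [← sq, x2])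
  obtain ⟨j, hj⟩ := piPart_mem_zpowers (π := {2}ᶜ) (x := x * k⁻¹ * x⁻¹ * k)
  refine ⟨_, piPart_mem (mul_mem (conj_mem_N xn (inv_mem hk)) hk), piElt_piPart, ?_, ?_⟩
  · rw [← hj, ← conj_zpow, ← inv_zpow]
    congr 1
    calc _ = x * x⁻¹⁻¹ * k⁻¹ * (x⁻¹ * k * x⁻¹) := by group
      _ = _ := by rw [inv_inv]; nth_rw 2 [← xx]; nth_rw 2 [xx]; group
  · rw [mfun_piPart (hN _), mfun_mul (hN _) (hN _), mfun_conj (hN _) (hN _), mfun_inv (hN _), e, ← inv_pow, ← conj_pow,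
      ← conj_inv, i, inv_inv, ← pow_add, show r + 1 + (r + 1) = orderOf z + 1 by omega, pow_succ, pow_orderOf_eq_one, one_mul,
      piPart_eq_self o]

theorem two (e : ∀ x ∈ X, x ^ 2 = 1) : PiGrp {2} X := piGrp_of_elt fun x hx => piElt_of_pow_eq_one Nat.prime_two (e x hx)

theorem wit2 (m : Mi.{u} (Nat.card G)) (a : Abel X) (e : ∀ x ∈ X, x ^ 2 = 1) (hn : X ≤ N(K)) (o : O[{2}](K) = ⊥)
    (t : X ⊔ K ≠ ⊤) (c : X ⊓ C(K) = ⊥) : Wit X K := by
  have nK := nml_sup_right hn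
  obtain ⟨x, hx, h, hh, o, r⟩ := wit m ((card_lt t.lt_top).trans_eq card_top) le_sup_left a e (eq_bot_iff.2 (c ▸ inf_le_inf_left _
    (cent_of_inf_eq_bot (pcore_le.trans nK.norm) (nK.le.trans pcore_nml.norm) (by rw [inf_comm, ← nK.pcore_eq_inf, o]))))
  exact ⟨x, hx, h, o.mem_of_nml hh nK (by rw [relIndex_sup_of_norm hn]; exact (two e).relIndex.compl_compl), o, r⟩

theorem oddn (o : O[{2}](K) = ⊥) (h : Nil K) : PiGrp {2}ᶜ K := (o ▸ h.pcore_hall (π := {2})).compl_of_eq_bot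

theorem top (m : Mi.{u} (Nat.card G)) (s : ¬ Wit V ⊤) (a : Abel V) (e : ∀ x ∈ V, x ^ 2 = 1) (o : O[{2}]((⊤ : Subgroup G)) = ⊥)
    (nA : A ⊴ ⊤) (A1 : A ≠ ⊥) : V ⊔ A = ⊤ := by
  by_contra ne
  have nB : C(A) ⊴ ⊤ := ⟨le_top, norm_C nA.norm⟩
  have oo {K : Subgroup G} (h : K ⊴ ⊤) : O[{2}](K) = ⊥ := eq_bot_iff.2 (o ▸ h.pcore_le_pcore)
  have nN := nA.Z
  have hN (g : G) : g ∈ N(Z(A)) := nN.norm (mem_top g)
  have oN := oddn (oo nN) abel_Z.nil
  have nNB : Z(A) ⊴ C(A) := nN.of_le inf_le_right le_top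
  have vN (v) (hv : v ∈ V) (h : cs Z(A) v = 1) : v = 1 := ((two e).elt hv).eq_one' (oN.elt ((cs_eq_one_iff (hN v)).1 h))
  obtain ⟨_, hw', z, hz, oz, iz, cz⟩ : Wit ((V ⊓ C(A)) ⫽ Z(A)) (C(A) ⫽ Z(A)) := by
    refine wit m ?_ (mim_mono inf_le_right) (a.mono inf_le_left).mim ?_ (eq_bot_iff.2 (inf_le_right.trans ?_))
    · by_cases h : Z(A) = ⊥
      · exact card_mim_le.trans_lt ((card_lt (lt_top_iff_ne_top.2 fun t => A1 (by rwa [t, inf_top_eq] at h))).trans_eq card_top)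
      · exact (card_quo_lt nNB h).trans_le (card_le_card_group _)
    · intro x hx'
      obtain ⟨x, hx, -, rfl⟩ := mem_mim.1 hx'
      rw [← mfun_pow (hN x), e x hx.1, cs_eq_one (one_mem _)]
    · have nU := nml_qpre nNB (pcore_nml (π := {2}))
      have := oddn (eq_bot_iff.2 (oo nB ▸ nU.pcore_le_pcore)) (nil_of_quo_center (K := Z(A))
        (cent_symm (nU.le.trans (C_anti inf_le_left))) (by rw [mim_mpre le_quo_N]; exact pcore_pi.nil))
      have := this.mim (f := coset Z(A))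
      rw [mim_mpre le_quo_N] at this
      exact (pcore_pi.eq_bot this).le
  obtain ⟨w, hw, -, rfl⟩ := mem_mim.1 hw'
  let X := V ⊓ qpre Z(A) C1(z)
  have xV : X ≤ V := inf_le_left
  have wB : w ∈ C(A) ⊓ C(X) := ⟨hw.2, C_anti xV (a hw.1)⟩
  obtain ⟨k, hk, ok, ik, rfl⟩ := lift (B := C(A) ⊓ C(X)) hN (le_N wB) (e w hw.1) (by
    rw [quo_inf_cent' ⟨fun g _ => hN g, ((two e).of_le xV).coprime oN, .inl (a.mono xV).solv⟩ nNB]
    exact ⟨hz, le_C1_iff.1 ((mim_mono inf_le_right).trans mim_mpre_le)⟩) oz iz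
  obtain ⟨x, hx, h, hh, oh, ih, ch⟩ := wit2 m (a.mono xV) (fun x hx => e x hx.1) (le_top.trans nA.norm) (oo nA)
    (fun t => ne (top_le_iff.1 (t ▸ sup_le_sup_right xV A))) (eq_bot_iff.2 fun v hv =>
      vN v hv.1.1 (cz _ (mfun_mem_mim ⟨hv.1.1, hv.2⟩) (mem_C1.1 (mem_mpre.1 hv.1.2).2)))
  have hk' := mem_C.1 hk.1 h hh
  refine s ⟨x * w, mul_mem hx.1 hw.1, h * k, mem_top _, oh.mul' ok hk', ?_, fun v hv c => ?_⟩
  · calc _ = x * (w * h * w⁻¹) * (w * k * w⁻¹) * x⁻¹ := by group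
      _ = x * h * x⁻¹ * (x * k * x⁻¹)⁻¹ := by rw [ik, ← mem_C.1 hw.2 h hh]; group
      _ = _ := by rw [ih, mem_C.1 hk.2 x hx, hk']; group
  have d : h⁻¹ * (v * h * v⁻¹) = k * (v * k * v⁻¹)⁻¹ := by
    rw [inv_mul_eq_iff_eq_mul, ← mul_assoc, ← mul_inv_cancel_right (h * k) v, ← c]; group
  have dN : k * (v * k * v⁻¹)⁻¹ ∈ Z(A) := ⟨d ▸ A.mul_mem (A.inv_mem hh) (conj_mem nA.norm (mem_top v) hh),
    C(A).mul_mem hk.1 (C(A).inv_mem (conj_mem nB.norm (mem_top v) hk.1))⟩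
  have vX : v ∈ X := ⟨hv, mem_mpre.2 ⟨hN v, mem_C1.2 (by
    have := cs_eq_one dN
    rw [mfun_mul (hN _) (hN _), mfun_inv (hN _), mfun_conj (hN _) (hN _), mul_inv_eq_one] at this
    rw [← mul_inv_eq_iff_eq_mul, ← this])⟩⟩
  refine ch v vX (mul_right_cancel (b := k) ?_)
  rw [mul_assoc, c, mul_assoc, mul_assoc, mem_C.1 hk.2 v vX]

theorem simple (m : Mi.{u} (Nat.card G)) (s : ¬ Wit V ⊤) (a : Abel V) (e : ∀ x ∈ V, x ^ 2 = 1) (o : O[{2}]((⊤ : Subgroup G)) = ⊥)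
    (hA : MinNorm A ⊤) (t : V ⊔ A = ⊤) (V1 : V ≠ ⊥) : Z(A) = ⊥ ∧ ∀ K, K ⊴ A → K ≠ ⊥ → K = A := by
  have nA : A ⊴ ⊤ := ⟨le_top, hA.norm⟩
  have oA : O[{2}](A) = ⊥ := eq_bot_iff.2 (o ▸ nA.pcore_le_pcore)
  have nc (v) (hv : v ∈ V) (c : v ∈ C(A)) : v = 1 := o.le (le_pcore ⟨le_top, t.ge.trans (cent_norm (sup_le
    (a.trans (C_anti (zpowers_le.2 hv))) (cent_symm (zpowers_le.2 c))))⟩ ((two e).elt hv).zpowers (mem_zpowers v))
  have vv (v) (hv : v ∈ V) : v * v = 1 := by rw [← sq, e v hv]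
  have iv (v) (hv : v ∈ V) (x : G) : v * (x * (v * x * v⁻¹)⁻¹) * v⁻¹ = (x * (v * x * v⁻¹)⁻¹)⁻¹ := by
    calc _ = v * x * v⁻¹ * (v * v) * x⁻¹ * (v * v)⁻¹ := by group
      _ = _ := by rw [vv v hv]; group
  have z : Z(A) = ⊥ := by
    refine (hA.eq_bot_or inf_le_left nA.Z.norm).resolve_right fun h => ?_
    have ab : Abel A := h.ge.trans inf_le_right
    have f (v) (hv : v ∈ V) (v1 : v ≠ 1) : A ⊓ C1(v) = ⊥ :=
      (hA.eq_bot_or inf_le_left (t.ge.trans (sup_le (norm_inf (le_top.trans hA.norm) (norm_C1 (a.trans (C_le_C1 hv))))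
        (ab.norm inf_le_left)))).resolve_right fun h => v1 (nc v hv (le_C1_iff.1 (h.ge.trans inf_le_right)))
    obtain ⟨v, hv, v1⟩ := exists_mem_ne_one' V1
    obtain ⟨x, hx, x1⟩ := exists_mem_ne_one' hA.ne_bot
    have hh := mul_mem hx (inv_mem (conj_mem hA.norm (mem_top v) hx))
    refine s ⟨v, hv, _, mem_top _, (oddn oA ab.nil).elt hh, iv v hv x, fun w hw c => by_contra fun w1 => x1 ((f v hv v1).le ⟨hx, ?_⟩)⟩
    have := mem_bot.1 ((f w hw w1).le ⟨hh, mem_C1.2 c.symm⟩)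
    rw [mul_inv_eq_one, eq_mul_inv_iff_mul_eq] at this
    exact mem_C1.2 this
  refine ⟨z, fun K nK K1 => by_contra fun KA => ?_⟩
  obtain ⟨U, -, ⟨UV, K, nK, K1, KA, hU⟩, mx⟩ := exists_maximal_sub
    (fun U => U ≤ V ∧ ∃ K, K ⊴ A ∧ K ≠ ⊥ ∧ K ≠ A ∧ U ≤ N(K)) ⟨bot_le, K, nK, K1, KA, bot_le⟩
  have nj (v : G) : cj v K ⊴ A := cj_eq_self (hA.norm (mem_top v)) ▸ nK.cj v
  have k (v) (hv : v ∈ V) (vU : v ∉ U) : K ⊓ cj v K = ⊥ ∧ K ⊔ cj v K = A := by
    have u : U ≤ N(cj v K) := fun u hu => mem_N_iff_cj.2 (by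
      rw [cj_cj, comm_of_cent a (UV hu) hv, cj_mul, cj_eq_self (hU hu)])
    have q (L) (nL : L ⊴ A) (h1 : U ≤ N(L)) (h2 : cj v L = L) : L = ⊥ ∨ L = A := by
      by_contra! h
      exact vU ((mx _ ⟨sup_le UV (zpowers_le.2 hv), L, nL, h.1, h.2, sup_le h1 (zpowers_le.2 (mem_N_iff_cj.2 h2))⟩
        le_sup_left).le (mem_sup_right (mem_zpowers v)))
    have c : cj v (cj v K) = K := by rw [cj_cj, vv v hv, cj_eq_self_of_mem (one_mem K)]
    exact ⟨(q _ (nK.inf (nj v)) (norm_inf hU u) (by rw [cj_inf, c, inf_comm])).resolve_right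
      fun h => KA (nK.le.antisymm (h.ge.trans inf_le_left)), (q _ (nK.sup (nj v)) (norm_sup hU u)
      (by rw [cj_sup, c, sup_comm])).resolve_left fun h => K1 (le_bot_iff.1 (le_sup_left.trans h.le))⟩
  have kc (v) (hv : v ∈ V) (vU : v ∉ U) : K ≤ C(cj v K) :=
    cent_of_inf_eq_bot (nK.le.trans (nj v).norm) ((nj v).le.trans nK.norm) (k v hv vU).1
  have nt (L) (h : L ≤ N(K)) : L ≠ ⊤ := fun e => KA (hA.min K nK.le K1 (e ▸ h))
  obtain ⟨v, hv, vU⟩ := SetLike.not_le_iff_exists.1 fun h : V ≤ U => nt _ (sup_le (h.trans hU) nK.norm) t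
  have oK : O[{2}](K) = ⊥ := eq_bot_iff.2 (oA ▸ nK.pcore_le_pcore)
  by_cases U1 : U = ⊥
  · obtain ⟨p, hp, d, p2⟩ := exists_prime_not_mem fun h : PiGrp {2} K => K1 (pcore_eq_self h ▸ oK)
    obtain ⟨x, hx, ox⟩ := cauchy hp d
    have ox' : PiElt {2}ᶜ x := by rw [PiElt, ox]; exact (piNat_prime hp).2 p2
    have oh := ox'.mul' (ox'.conj v).inv (comm_of_cent (kc v hv vU) hx (inv_mem (conj_mem_cj hx)))
    refine s ⟨v, hv, _, mem_top _, oh, iv v hv x, fun w hw c => by_contra fun w1 => ?_⟩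
    by_cases wv : w = v
    · subst wv
      have h := iv w hw x
      rw [c, mul_inv_cancel_right, eq_inv_iff_mul_eq_one, ← sq] at h
      have := (piElt_of_pow_eq_one Nat.prime_two h).eq_one' oh
      rw [mul_inv_eq_one] at this
      rw [show x = 1 from (k w hw vU).1.le ⟨hx, this ▸ conj_mem_cj hx⟩, orderOf_one] at ox
      exact hp.one_lt.ne ox
    · have c1 := cent_symm (kc w hw fun h => w1 (U1.le h))
      have c2 := (cj_cent_iff (g := w)).2 (kc (w⁻¹ * v) (mul_mem (inv_mem hw) hv) fun h => wv (inv_mul_eq_one.1 (U1.le h)))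
      rw [cj_cj, mul_inv_cancel_left] at c2
      have := card_le (z.le.trans' (le_inf (nj w).le ((k v hv vU).2 ▸ cent_sup c1 c2)))
      rw [← Nat.card_congr (cjEquiv w K).toEquiv, card_bot] at this
      exact (one_lt_card K1).not_ge this
  obtain ⟨x, hx, h, hh, oh, ih, ch⟩ := wit2 m (a.mono UV) (fun x hx => e x (UV hx)) hU oK (nt _ (sup_le hU le_N))
    (eq_bot_iff.2 fun u hu => nc u (UV hu.1) (by
      rw [← (k v hv vU).2, C_sup, mem_inf, ← cj_C, mem_cj, mul_assoc, comm_of_cent a (UV hu.1) hv, inv_mul_cancel_left]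
      exact ⟨hu.2, hu.2⟩))
  refine s ⟨x, UV hx, h, mem_top _, oh, ih, fun w hw c => by_contra fun w1 => ?_⟩
  have : h = 1 := (k w hw fun wU => w1 (ch w wU c)).1.le (mem_inf.2 ⟨hh, by simpa only [c, mul_inv_cancel_right] using conj_mem_cj (g := w) hh⟩)
  obtain ⟨u, hu, u1⟩ := exists_mem_ne_one' U1
  exact u1 (ch u hu (by simp [this]))

/-- Minimal counterexample reduction for the Sidki pair problem. Let G be a finite group and V a nontrivial elementary abelian 2-subgroup satisfying the Sidki pair condition with V ∩ O₂(G) = 1. Suppose that for every finite group H of smaller order, every nontrivial elementary abelian 2-subgroup W of H satisfying the Sidki pair condition meets O₂(H) nontrivially, and that the same holds in G for every such subgroup W of order smaller than that of V. Then the generalized Fitting subgroup F*(G) is a non-abelian simple group and G = V F*(G). -/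
theorem result {G : Type u} [Group G] [Finite G] (V : Subgroup G) (hV : Cfsg.IsElementaryAbelian 2 V) (hV1 : V ≠ ⊥) (hS : Cfsg.IsSidkiPair V) (hVO : V ⊓ Cfsg.pCore 2 G = ⊥) (hminG : ∀ (H : Type u) [Group H] [Finite H] (W : Subgroup H), Nat.card H < Nat.card G → Cfsg.IsElementaryAbelian 2 W → W ≠ ⊥ → Cfsg.IsSidkiPair W → W ⊓ Cfsg.pCore 2 H ≠ ⊥) (hminV : ∀ W : Subgroup G, Nat.card W < Nat.card V → Cfsg.IsElementaryAbelian 2 W → W ≠ ⊥ → Cfsg.IsSidkiPair W → W ⊓ Cfsg.pCore 2 G ≠ ⊥) : IsSimpleGroup ↥(Cfsg.generalizedFittingSubgroup G) ∧ ¬ IsMulCommutative ↥(Cfsg.generalizedFittingSubgroup G) ∧ V ⊔ Cfsg.generalizedFittingSubgroup G = ⊤ := by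
  have a := abel_of_comm hV.1
  have e := hV.2
  rw [pCore_eq Nat.prime_two] at hVO
  have s : ¬ Wit V ⊤ := fun ⟨x, hx, h, _, o, i, c⟩ => by
    obtain ⟨w, hw, w1, cw⟩ := hS h x hx (odd_iff.1 o) i
    exact w1 (c w hw cw)
  have o : O[{2}]((⊤ : Subgroup G)) = ⊥ := by_contra fun h => by
    have hN (g : G) : g ∈ N(O[{2}]((⊤ : Subgroup G))) := pcore_nml.norm (mem_top g)
    obtain ⟨_, hx', z, hz, oz, iz, cz⟩ := wit hminG ((card_quo_lt pcore_nml h).trans_eq card_top) (mim_mono le_top) a.mim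
      (fun x hx' => by
        obtain ⟨x, hx, -, rfl⟩ := mem_mim.1 hx'
        rw [← mfun_pow (hN x), e x hx, cs_eq_one (one_mem _)]) (by rw [pcore_quo_pcore, inf_bot_eq])
    obtain ⟨x, hx, -, rfl⟩ := mem_mim.1 hx'
    obtain ⟨k, hk, ok, ik, rfl⟩ := lift hN (norm_of_normal (H := ⊤) (mem_top x)) (e x hx) hz oz iz
    exact s ⟨x, hx, k, hk, ok, ik, fun w hw c => hVO.le ⟨hw, (cs_eq_one_iff (hN w)).1 (cz _ (mfun_mem_mim hw)
      (by rw [← mfun_mul (hN _) (hN _), c, mfun_mul (hN _) (hN _)]))⟩⟩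
  obtain ⟨A, -, hA⟩ := exists_minNorm (A := ⊤) (K := ⊤) (fun h => hV1 (le_bot_iff.1 (h ▸ le_top))) le_N
  have nA : A ⊴ ⊤ := ⟨le_top, hA.norm⟩
  have t := top hminG s a e o nA hA.ne_bot
  obtain ⟨z, k⟩ := simple hminG s a e o hA t hV1
  have := A.nontrivial_iff_ne_bot.2 hA.ne_bot
  have : IsSimpleGroup A := ⟨fun K _ => or_iff_not_imp_left.2 fun h => map_injective A.subtype_injective (by
    rw [k _ nml_map_subtype (mt (map_eq_bot_iff_of_injective _ A.subtype_injective).1 h), ← MonoidHom.range_eq_map, range_subtype])⟩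
  have na : ¬ IsMulCommutative A := fun h => hA.ne_bot ((abel_of_comm h).Z_eq ▸ z)
  have hc : C(A) = ⊥ := eq_bot_iff.2 (o ▸ le_pcore ⟨le_top, norm_C hA.norm⟩ (by
    have := nA.relIndex_dvd (H := C(A)) le_top
    rw [← t, relIndex_sup_of_norm (le_top.trans hA.norm), ← one_mul (relIndex ..), ← card_bot (G := G), ← z, card_mul_relIndex'] at this
    exact (two e).relIndex.of_dvd this))
  have c : H17.IsComp A ⊤ := ⟨.of_normal le_top hA.norm, H17.isQuasisimple_of_simple na⟩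
  have y : ∀ K : Subgroup G, ⁅A, K⁆ = ⊥ → K ≤ A := fun K e => (cent_symm (comm_eq_bot_iff.1 e)).trans (hc.le.trans bot_le)
  have : generalizedFittingSubgroup G = A := by
    rw [← H17.gfit_top, H17.gfit_eq]
    refine le_antisymm (sup_le (H17.lay_le_iff.2 fun K hK => ?_) (y _ ?_)) (c.le_lay.trans le_sup_left)
    · exact (hK.le_or_commutator le_top (hA.norm.trans' le_top)).elim id (y K)
    · exact le_bot_iff.1 (H17.commutator_lay_fit (⊤ : Subgroup G) ▸ commutator_mono c.le_lay le_rfl)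
  rw [this]
  exact ⟨inferInstance, na, t⟩

end Cfsg.Agent.S3048
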