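import Cfsg.Statements.S3049
import Cfsg.Agent.H17.TW
import Cfsg.Agent.H3.Frobenius
import Cfsg.Agent.H18.BG1

set_option autoImplicit false
open Cfsg

namespace Cfsg.Agent.S3049

open Subgroup H17

theorem np {G : Type*} [Group G] [Finite G] {p : ℕ} [hp : Fact p.Prime] (h2 : p ≠ 2) {L S : Subgroup G}
    (hL : IsComp L ⊤) (hO : oQ p (⊤ : Subgroup G) = ⊥) (hS : IsSyl p S L)
    (h : ∀ u ∈ S, u ^ p = 1 → ∀ g ∈ L, g * u * g⁻¹ ∈ S → g * u * g⁻¹ = u) : False := by
  obtain ⟨P, rfl⟩ := hS.exists_sylow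
  obtain ⟨R, N, hN, hc⟩ := (H3.frobenius_iff P).2 fun Q hQ g hg hc => by
    refine zpowers_le.1 (H18.coprime_odd_faithful_Ohm1 hp.out h2 (H18.piGrp_of_isPGroup hp.out (P.2.to_le hQ))
      (zpowers_le.2 hg) (fun q hq hd e => ?_) fun u hu e => ?_)
    · rw [Nat.card_zpowers, show q = p from e] at hd
      exact coprime_iff_not_dvd.1 hc hd
    · rw [H18.C_zpowers, H18.mem_C1]
      exact Subtype.ext (mul_inv_eq_iff_eq_mul.1 (h u ⟨u, hQ hu, rfl⟩ (congrArg Subtype.val e) g g.2
        ⟨_, hQ (H18.conj_mem_N hg hu), rfl⟩)).symm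
  have h1 : oUp p (⊤ : Subgroup L) ≤ N := oUp_le_of_le_sup R.2 hc.sup_eq_top.ge le_normalizer_of_normal
  have h3 : ⁅(⊤ : Subgroup L), (⊤ : Subgroup L)⁆ = ⊤ := hL.2.1.commutator_eq_top
  rw [oUp_eq_self_of_perfect h3, top_le_iff] at h1
  refine R.not_dvd_index ?_
  rw [hc.index_eq_card, h1, card_top]
  exact hL.dvd_card hO

/-- Let G be a finite group and p an odd prime with O_{p'}(G) = 1. Suppose that G has p-rank at most 2 (no elementary abelian subgroup of order p³) and that some element x of order p is isolated in G (no G-conjugate of x other than x commutes with x) and not central. Then the generalized Fitting subgroup F*(G) is a non-abelian simple group. Since O_{p'}(G) = 1, such an x is not central modulo O_{p'}(G): the hypotheses describe a counterexample to the Z*_p statement in p-rank at most 2. -/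
theorem result {G : Type*} [Group G] [Finite G] {p : ℕ} [Fact p.Prime] (hp : p ≠ 2) (hcore : Cfsg.pPrimeCore p G = ⊥)
    (hrank : Cfsg.PRankLE p 2 G) (x : G) (hx : orderOf x = p) (hiso : Cfsg.IsIsolated x) (hnc : x ∉ Subgroup.center G) :
    IsSimpleGroup ↥(Cfsg.generalizedFittingSubgroup G) ∧ ¬ IsMulCommutative ↥(Cfsg.generalizedFittingSubgroup G) := by
  have hp' : p.Prime := Fact.out
  have hO : oQ p (⊤ : Subgroup G) = ⊥ := by rw [oQ_top, hcore]
  have xp : x ^ p = 1 := hx ▸ pow_orderOf_eq_one x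
  obtain ⟨T, hT, xT⟩ := exists_isSyl_ge (isPGroup_zpowers_of_orderOf hx) (le_top (a := zpowers x))
  have hxT := zpowers_le.1 xT
  have c1 : T ≤ centralizer {x} := inf_eq_left.1 ((subn_of_nilpotent hT.pgroup.isNilpotent _
    (inf_le_left (b := centralizer {x}))).eq_of_selfnorm fun g hg => ⟨hg.1, H18.mem_C1.2 (mul_inv_eq_iff_eq_mul.1
      (hiso g (H18.mem_C1.1 (H18.conj_mem_N hg.2 ⟨hxT, H18.C1_self⟩).2).symm))⟩)
  have c2 : x ∉ centralizer (gfit (⊤ : Subgroup G) : Set G) := fun h => hnc (mem_center_iff.2 fun g =>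
    mul_inv_eq_iff_eq_mul.1 (hiso g (H18.mem_C.1 h _ (H18.conj_mem_N (le_normalizer_gfit ⊤ trivial)
      (centralizer_gfit_le ⊤ ⟨trivial, h⟩))).symm))
  obtain ⟨L, hL, xL⟩ : ∃ L : Subgroup G, IsComp L ⊤ ∧ x ∉ centralizer (L : Set G) := by
    by_contra! h
    refine c2 (H18.le_C1_iff.1 ?_)
    rw [gfit_eq, fit_eq_oP_of_oQ_eq_bot hO]
    exact sup_le (lay_le_iff.2 fun K hK => H18.le_C1_iff.2 (h K hK))
      ((hT.le_of_normalizer (oP_pgroup p ⊤) le_top (le_top.trans (le_normalizer_oP p ⊤))).trans c1)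
  have hS := hT.inf_subn hL.1
  have nL : x ∈ normalizer (L : Set G) := by
    rw [mem_normalizer_iff_cj]
    refine ((hL.cj_of_mem_normalizer (g := x) (by simp)).eq_or_commutator hL).resolve_right fun h => ?_
    refine np hp hL hO hS fun u hu _ g hg _ => ?_
    have h1 : u ∈ cj x L := by
      rw [← H18.conj_eq_self_of_C1 (H18.mem_C1_comm.1 (c1 hu.1))]; exact conj_mem_cj hu.2
    exact mul_inv_eq_iff_eq_mul.2 (H18.mem_C.1 (le_centralizer_of_commutator_eq_bot h h1) g hg)
  have hD : gfit ⊤ ⊓ centralizer (L : Set G) = ⊥ := by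
    by_contra h0
    have s1 : Subn ⊤ (gfit ⊤ ⊓ centralizer (L : Set G)) := (subn_gfit ⊤).trans (.of_normal inf_le_left
      (le_normalizer_inf le_normalizer (le_normalizer_centralizer (by
        rw [gfit_eq]
        exact sup_le hL.lay_le_normalizer (le_normalizer_of_le_centralizer (le_centralizer_of_commutator_eq_bot'
          (commutator_eq_bot_mono (commutator_lay_fit ⊤) hL.le_lay le_rfl)))))))
    have d1 : p ∣ Nat.card (T ⊓ (gfit ⊤ ⊓ centralizer (L : Set G)) : Subgroup G) :=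
      dvd_card_of_pgroup_ne_bot hT.pgroup.to_inf_left fun e => h0 (le_bot_iff.1
        (hO ▸ s1.le_oQ ((hT.inf_subn s1).eq_bot_iff.1 e)))
    obtain ⟨y, hy, oy⟩ := exists_orderOf_eq_of_dvd d1
    have el : ∀ {z : G}, z ^ p = 1 → H18.Elem p (zpowers z) := fun {z} e =>
      ⟨H18.abel_zpowers, by rintro _ ⟨k, rfl⟩; simp only; rw [← zpow_natCast, ← zpow_mul, mul_comm, zpow_mul,
        zpow_natCast, e, one_zpow]⟩
    have cxy : zpowers x ≤ centralizer (zpowers y : Set G) :=
      zpowers_le.2 (H18.C_zpowers.ge (H18.mem_C1_comm.1 (c1 hy.1)))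
    have E2 := (el xp).sup (el (oy ▸ pow_orderOf_eq_one y)) cxy
    have i0 : zpowers x ⊓ zpowers y = ⊥ := H18.prime_TI (by rw [Nat.card_zpowers, hx]; exact hp')
      fun e => xL (zpowers_le.2 hy.2.2 (e (mem_zpowers x)))
    have cE : Nat.card (zpowers x ⊔ zpowers y : Subgroup G) = p ^ 2 := by
      have := card_sup_mul_card_inf (cxy.trans (centralizer_le_normalizer _))
      rwa [i0, card_bot, mul_one, Nat.card_zpowers, Nat.card_zpowers, hx, oy, ← pow_two] at this
    refine np hp hL hO hS fun u hu up g hg hgu => ?_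
    have E3 := E2.sup (el up) (sup_le (zpowers_le.2 (H18.C_zpowers.ge (H18.mem_C1_comm.1 (c1 hu.1))))
      (zpowers_le.2 (H18.C_zpowers.ge (H18.C_le_C1 hu.2 hy.2.2))))
    have h1 : u ∈ zpowers x ⊔ zpowers y := (eq_of_le_of_card_ge le_sup_left
      (cE ▸ hrank _ E3.abel.comm E3.pow)).ge (mem_sup_right (mem_zpowers u))
    obtain ⟨a, ha, b, hb, rfl⟩ := (mem_sup_of_le_normalizer_right (cxy.trans (centralizer_le_normalizer _))).1 h1
    have h3 : g * b * g⁻¹ = b := mul_inv_eq_iff_eq_mul.2 (H18.mem_C.1 (zpowers_le.2 hy.2.2 hb) g hg)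
    have h4 : g * (a * b) * g⁻¹ = g * a * g⁻¹ * b := by nth_rewrite 2 [← h3]; group
    rw [h4] at hgu ⊢
    by_cases a1 : a = 1
    · simp [a1]
    have h5 : cj g (zpowers x) ≤ T := H18.prime_le_of_inf_ne_bot (by rw [card_cj, Nat.card_zpowers, hx]; exact hp')
      fun e => a1 (by
        have : g * a * g⁻¹ ∈ cj g (zpowers x) ⊓ T :=
          ⟨conj_mem_cj ha, (mul_mem_cancel_right (zpowers_le.2 hy.1 hb)).1 hgu.1⟩
        rw [e] at this
        simpa using this)
    have h6 := hiso g (H18.mem_C1.1 (c1 (h5 (conj_mem_cj (mem_zpowers x))))).symm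
    rw [H18.conj_eq_self_of_C1 (H18.C1_le_of_mem_zpowers ha (H18.mem_C1.2 (mul_inv_eq_iff_eq_mul.1 h6)))]
  have e : gfit ⊤ = L := by
    refine le_antisymm ?_ (hL.le_lay.trans (lay_le_gfit ⊤))
    conv_lhs => rw [gfit_eq]
    refine sup_le (lay_le_iff.2 fun K hK => (hK.eq_or_commutator hL).elim le_of_eq fun h => ?_) ?_
    · exact (le_inf (hK.le_lay.trans (lay_le_gfit ⊤)) (le_centralizer_of_commutator_eq_bot h)).trans (hD.le.trans bot_le)
    · exact (le_inf (fit_le_gfit ⊤) (le_centralizer_of_commutator_eq_bot'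
        (commutator_eq_bot_mono (commutator_lay_fit ⊤) hL.le_lay le_rfl))).trans (hD.le.trans bot_le)
  rw [← gfit_top, e]
  rw [e] at hD
  have := (nontrivial_iff_ne_bot L).2 hL.ne_bot
  refine ⟨⟨fun N hN => ?_⟩, fun h => qs_commutator_ne_bot hL.2 (H18.abel_iff.2 h).der⟩
  have k4 : L ≤ normalizer ((N.map L.subtype : Subgroup G) : Set G) := by
    have := le_normalizer_map (H := N) L.subtype
    rwa [normalizer_eq_top, ← MonoidHom.range_eq_map, range_subtype] at this
  rcases qs_normal hL.2 (map_subtype_le N) k4 with h | h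
  · exact .inr (map_injective L.subtype_injective (by rw [h, ← MonoidHom.range_eq_map, range_subtype]))
  · exact .inl ((map_eq_bot_iff_of_injective _ L.subtype_injective).1
      (le_bot_iff.1 (hD ▸ le_inf (map_subtype_le N) (le_centralizer_of_commutator_eq_bot h))))

end Cfsg.Agent.S3049
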