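import Cfsg.Statements.S3050
import Cfsg.Agent.H13.Hig2

set_option autoImplicit false
open Cfsg

namespace Cfsg.Agent.S3050

/-- Let G be a finite group with a normal 2-subgroup Q such that G/Q is isomorphic to SL(2, 2ⁿ) with n ≥ 2, and suppose some element of G of order 3 fixes no nonidentity element of Q under conjugation. Then Q is elementary abelian and is the direct product of normal subgroups of G on each of which G acts as SL(2, 2ⁿ) acts on its natural two-dimensional module (a Galois twist of the natural action allowed). -/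
theorem result {G : Type*} [Group G] [Finite G]
    (Q : Subgroup G) [Q.Normal] (hQ : IsPGroup 2 ↥Q) (n : ℕ) (hn : 2 ≤ n)
    (K : Type*) [Field K] [Fintype K] (hK : Fintype.card K = 2 ^ n)
    (e : G ⧸ Q ≃* Matrix.SpecialLinearGroup (Fin 2) K)
    (x : G) (hx : orderOf x = 3) (hfpf : ∀ q ∈ Q, x * q * x⁻¹ = q → q = 1) :
    Cfsg.IsElementaryAbelian 2 Q ∧
      ∃ (k : ℕ) (V : Fin k → Subgroup G), (∀ i, V i ≤ Q ∧ (V i).Normal ∧
        Cfsg.ActsAsSL2OnSection K ⊤ ⊤ (V i) ⊥) ∧ iSupIndep V ∧ ⨆ i, V i = Q := by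
  have h2 : (2 : K) = 0 := by
    have := FiniteField.cast_card_eq_zero K
    rw [hK, Nat.cast_pow] at this
    exact pow_eq_zero_iff (by omega) |>.1 this
  let π := e.toMonoidHom.comp (QuotientGroup.mk' Q)
  have s : Function.Surjective π := e.surjective.comp (QuotientGroup.mk'_surjective Q)
  have kπ : π.ker = Q := by ext g; simp [π]
  have x3 : x ^ 3 = 1 := hx ▸ pow_orderOf_eq_one x
  obtain ⟨k, θ, inj, rg, eq⟩ := H13.higman h2 (hK ▸ Nat.pow_le_pow_right (n := 2) two_pos hn) π s (kπ ▸ hQ) (x := x)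
    (fun h => by
      have := H26.eq_one_of_mem_isPGroup hQ (kπ ▸ h : x ∈ Q) (by rw [hx]; norm_num)
      rw [this, orderOf_one] at hx; omega) (fun q hq => H13.cube_of_fpf x3 hfpf (kπ ▸ hq))
  rw [kπ] at rg
  let ι : Fin k → (Multiplicative (Fin 2 → K) →* G) := fun i =>
    θ.comp (AddMonoidHom.toMultiplicative (AddMonoidHom.single (fun _ => Fin 2 → K) i))
  have hι : ∀ i v, ι i v = θ (.ofAdd (Pi.single i v.toAdd)) := fun _ _ => rfl
  have ii : ∀ i, Function.Injective (ι i) := fun i a b h =>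
    Multiplicative.toAdd.injective (Pi.single_injective i (Multiplicative.ofAdd.injective (inj h)))
  have cj : ∀ i g v, ι i (.ofAdd (Matrix.mulVec (π g).1 v.toAdd)) = g * ι i v * g⁻¹ := fun i g (v : Multiplicative _) => by
    rw [hι, hι, ← eq]
    congr 2
    ext j : 1
    by_cases h : j = i
    · subst h; simp
    · simp [h]
  have nm : ∀ i, (ι i).range.Normal := fun i => ⟨by rintro _ ⟨v, rfl⟩ g; exact ⟨_, cj i g v⟩⟩
  refine ⟨⟨⟨⟨fun a b => ?_⟩⟩, fun a ha => ?_⟩, k, fun i => (ι i).range, fun i => ⟨?_, nm i, ?_, bot_le,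
    π.comp (Subgroup.subtype ⊤), (MonoidHom.ofInjective (ii i)).symm.toMonoidHom, ?_, MulEquiv.surjective _,
    fun u => by simp, fun g u => ?_⟩, fun i => ?_, ?_⟩
  · obtain ⟨v, hv⟩ : a.1 ∈ θ.range := rg ▸ a.2
    obtain ⟨w, hw⟩ : b.1 ∈ θ.range := rg ▸ b.2
    exact Subtype.ext (by simp only [Subgroup.coe_mul, ← hv, ← hw, ← map_mul, mul_comm])
  · obtain ⟨v, rfl⟩ : a ∈ θ.range := rg ▸ ha
    rw [← map_pow, ← map_one θ]
    congr 1
    refine Multiplicative.toAdd.injective ?_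
    ext i j
    simp [h2]
  · rintro _ ⟨v, rfl⟩; exact rg ▸ ⟨_, rfl⟩
  · haveI := nm i; exact Subgroup.le_normalizer_of_normal
  · exact MonoidHom.range_eq_top.2 fun y => let ⟨g, h⟩ := s y; ⟨⟨g, trivial⟩, h⟩
  · obtain ⟨v, rfl⟩ := (MonoidHom.ofInjective (ii i)).surjective u
    exact ⟨MonoidHom.ofInjective (ii i) (.ofAdd (Matrix.mulVec (π g).1 v.toAdd)), cj i g v, by simp⟩
  · let ev : Multiplicative (Fin k → Fin 2 → K) →* Multiplicative (Fin 2 → K) :=
      AddMonoidHom.toMultiplicative (Pi.evalAddMonoidHom (fun _ => Fin 2 → K) i)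
    refine Disjoint.mono_right (c := ev.ker.map θ) (iSup₂_le fun j hj => ?_) (Subgroup.disjoint_def.2 ?_)
    · rintro _ ⟨v, rfl⟩
      exact ⟨_, congrArg Multiplicative.ofAdd (Pi.single_eq_of_ne (M := fun _ => Fin 2 → K) hj.symm v.toAdd), rfl⟩
    · rintro _ ⟨v, rfl⟩ ⟨w, hw, h⟩
      have : ev w = v := by rw [inj h]; exact congrArg Multiplicative.ofAdd (Pi.single_eq_same (M := fun _ => Fin 2 → K) i v.toAdd)
      rw [← this, show ev w = 1 from hw, map_one]
  · refine le_antisymm (iSup_le fun i => by rintro _ ⟨v, rfl⟩; exact rg ▸ ⟨_, rfl⟩) ?_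
    rw [← rg]
    rintro _ ⟨v, rfl⟩
    rw [← ofAdd_toAdd v, ← Finset.univ_sum_single v.toAdd, ofAdd_sum]
    exact Finset.prod_induction _ (fun w => θ w ∈ ⨆ i, (ι i).range) (fun a b ha hb => map_mul θ a b ▸ mul_mem ha hb)
      (map_one θ ▸ one_mem _) fun i _ => Subgroup.mem_iSup_of_mem i ⟨.ofAdd (v.toAdd i), rfl⟩

end Cfsg.Agent.S3050
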