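import Cfsg.Statements.S3053
import Cfsg.Agent.H18.BG1
import Cfsg.Agent.H21.Extra
import Cfsg.Agent.H3.BG4a
import Cfsg.Agent.S2807
import Cfsg.Agent.H27.Yosh

set_option autoImplicit false
open Cfsg

namespace Cfsg.Agent.S3053
open H18 Subgroup
open scoped commutatorElement
theorem key {G : Type*} [Group G] [Finite G] {p : ℕ} (hp : p.Prime) (h2 : p ≠ 2) {P : Subgroup G} (h : H21.ES p P)
    (hcard : Nat.card P = p ^ 3) {a : G} (ha : a ∈ P) (hao : orderOf a = p ^ 2) {y : G} (hy : y ∈ P) (hyp : y ^ p = 1)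
    (hyZ : y ∉ Z(P)) {n : G} (hn : n ∈ N(P)) : y⁻¹ * (n * y * n⁻¹) ∈ Z(P) := by
  have hap : a ^ p ≠ 1 := fun e => by
    have := orderOf_dvd_of_pow_eq_one e
    rw [hao] at this
    have := Nat.le_of_dvd hp.pos this
    nlinarith [hp.one_lt]
  have hZ := h.zpowers_eq hp (h.pow_mem ha) hap
  obtain ⟨k, hk⟩ : ∃ k : ℤ, (a ^ p) ^ k = ⁅a, y⁆ := mem_zpowers_iff.1 (hZ ▸ h.comm_mem ha hy)
  have hmul : ∀ b ∈ P, ∀ c ∈ P, (b * c) ^ p = b ^ p * c ^ p := by
    intro b hb c hc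
    rw [H3.mul_pow_class_two (h.commute hc hb hb) (h.commute hc hb hc)]
    obtain ⟨m, hm⟩ : p ∣ p.choose 2 := hp.dvd_choose_self two_ne_zero (lt_of_le_of_ne hp.two_le h2.symm)
    rw [hm, pow_mul, h.pow_Z (h.comm_mem hc hb), one_pow, one_mul]
  have hcm : ∀ b ∈ P, ∀ c ∈ P, ⁅b * c, y⁆ = ⁅b, y⁆ * ⁅c, y⁆ := by
    intro b hb c hc
    have e1 := (h.commute hc hy hb).eq
    have e2 := (h.commute hc hy (commutator_mem_commutator hb hy |> der_le)).eq
    calc ⁅b * c, y⁆ = b * ⁅c, y⁆ * b⁻¹ * ⁅b, y⁆ := by simp only [commutatorElement_def]; group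
      _ = ⁅c, y⁆ * ⁅b, y⁆ := by rw [e1]; group
      _ = _ := e2.symm
  let W : Subgroup G :=
    { carrier := {x | x ∈ P ∧ (x ^ p) ^ k = ⁅x, y⁆}
      one_mem' := ⟨one_mem _, by simp⟩
      mul_mem' := fun {b c} hb hc => ⟨mul_mem hb.1 hc.1, by
        rw [hmul b hb.1 c hc.1, hcm b hb.1 c hc.1, ← hb.2, ← hc.2]
        exact Commute.mul_zpow ((mem_C.1 (h.pow_mem hc.1).2 _ (pow_mem hb.1 p))) k⟩
      inv_mem' := fun {b} hb => ⟨inv_mem hb.1, by
        have e := hcm b⁻¹ (inv_mem hb.1) b hb.1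
        rw [inv_mul_cancel, commutatorElement_one_left, ← hb.2] at e
        rw [inv_pow, inv_zpow]
        exact (eq_inv_of_mul_eq_one_left e.symm).symm⟩ }
  have hW : W = P := by
    have hi : (zpowers a).relIndex P = p := relIndex_eq_of_mul (zpowers_le.2 ha) (by rw [hcard, card_zpowers', hao]; ring)
    rcases eq_or_eq_of_prime_relIndex (A := zpowers a) (B := W) (H := P) (hi ▸ hp) (zpowers_le.2 ⟨ha, hk⟩) (fun x hx => hx.1) with e | e
    · exfalso
      have hyW : y ∈ W := ⟨hy, by simp [hyp]⟩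
      rw [e] at hyW
      refine hyZ (cyc_zpowers.mem_of_pow (hZ ▸ zpowers_le.2 (pow_mem (mem_zpowers a) p)) hyW ?_)
      rw [h.card, hyp]
    · exact e
  have hall : ∀ x ∈ P, (x ^ p) ^ k = ⁅x, y⁆ := fun x hx => (hW.ge hx).2
  refine ⟨P.mul_mem (inv_mem hy) (conj_mem_N hn hy), mem_C.2 fun x hx => ?_⟩
  have e1 := hall _ (conj_mem_N' hn hx)
  have e2 := hall x hx
  have e3 : (n⁻¹ * x * n) ^ p = n⁻¹ * x ^ p * n := by
    have := conj_pow (a := n⁻¹) (b := x) (i := p); simpa using this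
  have e4 : (n⁻¹ * x ^ p * n) ^ k = n⁻¹ * (x ^ p) ^ k * n := by
    have := conj_zpow (a := n⁻¹) (b := x ^ p) (i := k); simpa using this
  rw [e3, e4, e2] at e1
  simp only [commutatorElement_def] at e1
  have e5 : x * y * x⁻¹ * y⁻¹ = x * (n * y * n⁻¹) * x⁻¹ * (n * y * n⁻¹)⁻¹ := by
    calc x * y * x⁻¹ * y⁻¹ = n * (n⁻¹ * (x * y * x⁻¹ * y⁻¹) * n) * n⁻¹ := by group
      _ = _ := by rw [e1]; group
  set w := n * y * n⁻¹
  calc x * (y⁻¹ * w) = x * (y⁻¹ * w) * x⁻¹ * x := by group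
    _ = y⁻¹ * (y * x * y⁻¹ * x⁻¹ * (x * w * x⁻¹ * w⁻¹)) * w * x := by group
    _ = y⁻¹ * w * x := by rw [← e5]; group

/-- Let p be an odd prime and G a finite group with a Sylow p-subgroup P that is extraspecial of order p³ and exponent p². Then the centre of P is strongly closed in P with respect to G: a G-conjugate of an element of Z(P) that lies in P already lies in Z(P). In particular a nontrivial central element of P is conjugate in G to no noncentral element of P. -/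
theorem result {G : Type*} [Group G] [Finite G]
    {p : ℕ} [Fact p.Prime] (hp : p ≠ 2) (P : Sylow p G) (hE : Cfsg.IsExtraspecial p ↥P)
    (hcard : Nat.card P = p ^ 3) (hexp : Monoid.exponent ↥P = p ^ 2) :
    Cfsg.IsStronglyClosed ((Subgroup.center ↥P).map (P : Subgroup G).subtype) (P : Subgroup G) := by
  have hpp : p.Prime := Fact.out
  have hP := hall_sylow_top hpp P
  obtain ⟨h, hna⟩ := (H21.isExtraspecial_iff hpp).1 hE
  change Cfsg.IsStronglyClosed ((center (P : Subgroup G)).map (P : Subgroup G).subtype) (P : Subgroup G)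
  rw [H21.map_center]
  refine ⟨inf_le_left, fun z hz g hy => ?_⟩
  by_contra hyZ
  have hY : (P : Subgroup G) ⊓ commutator G = (P : Subgroup G) ⊓ ⁅N((P : Subgroup G)), N((P : Subgroup G))⁆ := by
    by_contra hne
    obtain ⟨W, f, hf⟩ := Cfsg.Agent.S2807.result P hne
    have h1 := Nat.card_le_card_of_surjective f hf
    rw [H27.card_sylow_perm, hcard] at h1
    have := (Nat.pow_le_pow_iff_right hpp.one_lt).1 h1
    have := hpp.two_le
    omega
  set y := g * z * g⁻¹ with hyd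
  have hyp : y ^ p = 1 := by rw [hyd, conj_pow, h.pow_Z hz]; group
  obtain ⟨a, hao⟩ : ∃ a : (P : Subgroup G), orderOf a = p ^ 2 := by
    obtain ⟨a, ha⟩ := Nat.Prime.exists_orderOf_eq_pow_factorization_exponent (G := (P : Subgroup G)) hpp
    refine ⟨a, ?_⟩
    have hexp' : Monoid.exponent (P : Subgroup G) = p ^ 2 := hexp
    rw [ha, hexp', Nat.factorization_pow]; simp [hpp.factorization_self]
  have hk := fun n hn => key hpp hp h hcard a.2 (by simpa using hao) hy hyp hyZ (n := n) hn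
  have hyD : y ∈ ⁅N((P : Subgroup G)), N((P : Subgroup G))⁆ := by
    have h1 : z ∈ commutator G := comm_mono le_top le_top (h.der_eq hpp hna ▸ hz)
    have h2 : y ∈ (P : Subgroup G) ⊓ commutator G := ⟨hy, (inferInstance : (commutator G).Normal).conj_mem z h1 g⟩
    rw [hY] at h2; exact h2.2
  set S := (P : Subgroup G)
  have hSN : Hall {p} S N(S) := hP.of_le le_N le_top
  have hZN : N(S) ≤ N(Z(S)) := norm_Z le_rfl
  have hSZ : S ≤ N(Z(S)) := le_N.trans hZN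
  obtain ⟨A, hA⟩ := hSN.exists_sd le_rfl
  have hAp : PiGrp {p}ᶜ A := (hA.hall_compl hSN).pi
  have hab : Abel (S ⫽ Z(S)) := (abel_quo_iff hSZ).2 h.der_le
  have e1 := (hSN.mim (f := coset Z(S)) hZN).der_inf_abel hpp hab
  have h1 : cs Z(S) y ∈ ⁅N(S) ⫽ Z(S), N(S) ⫽ Z(S)⁆ ⊓ S ⫽ Z(S) :=
    ⟨by rw [← mim_comm hZN hZN]; exact mfun_mem_mim hyD, mfun_mem_mim hy⟩
  have hAn : A ⫽ Z(S) ≤ N(S ⫽ Z(S)) := mim_norm hA.norm
  have h3 : ⁅S ⫽ Z(S), N(S) ⫽ Z(S)⁆ ≤ ⁅S ⫽ Z(S), A ⫽ Z(S)⁆ := by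
    rw [← hA.sup, mim_sup hSZ (hA.le_right.trans hZN)]
    exact comm_sup_le' (hab.der.le.trans bot_le) le_rfl norm_comm_left norm_comm_right
  rw [e1] at h1
  have h4 : cs Z(S) y ∈ ⁅S ⫽ Z(S), A ⫽ Z(S)⁆ ⊓ C(A ⫽ Z(S)) := by
    refine ⟨h3 (comm_mono le_rfl inf_le_left h1), mem_C.2 fun w hw => ?_⟩
    obtain ⟨n, hn, rfl⟩ := (mem_quo (hA.le_right.trans hZN)).1 hw
    have hn' := hZN (hA.le_right hn)
    have := (cs_eq_iff (hSZ hy) (mul_mem (mul_mem hn' (hSZ hy)) (inv_mem hn'))).2 (hk n (hA.le_right hn))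
    rw [mfun_conj hn' (hSZ hy)] at this
    exact (eq_mul_inv_iff_mul_eq.1 this).symm
  rw [H1.abel_comm_inf_cent hab hAn (hAp.mim.coprime' hP.pi.mim), mem_bot] at h4
  exact hyZ ((cs_eq_one_iff (hSZ hy)).1 h4)

end Cfsg.Agent.S3053
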