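import Cfsg.Statements.S3054
import Cfsg.Agent.H18.XP

set_option autoImplicit false
open Cfsg

namespace Cfsg.Agent.S3054

/-- Let p be an odd prime and G a finite group with a Sylow p-subgroup P that is extraspecial of order p³ and exponent p. Suppose P contains three distinct subgroups A of order p² (each is elementary abelian of rank 2) such that every automorphism of A of order p is induced by conjugation by an element of G; equivalently the automorphism group induced on A by its normalizer contains the special linear group of A. Then p ≤ 13. -/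
theorem result {G : Type*} [Group G] [Finite G]
    {p : ℕ} [Fact p.Prime] (hp : p ≠ 2) (P : Sylow p G) (hE : Cfsg.IsExtraspecial p ↥P)
    (hcard : Nat.card P = p ^ 3) (hexp : Monoid.exponent ↥P = p)
    (A : Fin 3 → Subgroup G) (hA : Function.Injective A) (hAP : ∀ i, A i ≤ (P : Subgroup G))
    (hAcard : ∀ i, Nat.card ↥(A i) = p ^ 2)
    (hSL : ∀ i, ∀ φ : MulAut ↥(A i), orderOf φ = p → ∃ g : G, ∀ a : ↥(A i), (φ a : G) = g * (a : G) * g⁻¹) :
    p ≤ 13 := by
  classical
  by_contra hc
  obtain ⟨z, h⟩ := H18.XP.exists_xs P hE hcard hexp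
  obtain ⟨pt, h1, -, h3⟩ := h.main (by omega)
  choose x hx xz l hl using fun i => h.of_A (hAcard i) (hAP i) (hSL i)
  have inj : Function.Injective fun i => pt (x i) := fun i j e => hA (by
    have := h1 _ (hAP i (hx i)) _ (hAP j (hx j)) (xz i) (xz j) e
    rw [h.gen_eq (hAcard j) (h.z_mem (hAcard j) (hAP j)) (hx j) (xz j)] at this
    rw [← h.gen_eq (hAcard i) (h.z_mem (hAcard i) (hAP i)) (hx i) (xz i),
      h.gen_eq (hAcard j) (h.z_mem (hAcard j) (hAP j)) this (xz i)])
  have := (h3 (Finset.univ.map ⟨_, inj⟩) (by simp) fun w hw => by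
    obtain ⟨i, -, rfl⟩ := Finset.mem_map.1 hw
    exact ⟨x i, hAP i (hx i), xz i, rfl, l i, hl i⟩).1
  omega

end Cfsg.Agent.S3054
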