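import Cfsg.Statements.S3055
import Cfsg.Agent.H18.XP

set_option autoImplicit false
open Cfsg

namespace Cfsg.Agent.S3055

/-- Let p be an odd prime and G a finite group with a Sylow p-subgroup P that is extraspecial of order p³ and exponent p. If all nonidentity elements of P are conjugate in G, then p ≤ 7. -/
theorem result {G : Type*} [Group G] [Finite G]
    {p : ℕ} [Fact p.Prime] (hp : p ≠ 2) (P : Sylow p G) (hE : Cfsg.IsExtraspecial p ↥P)
    (hcard : Nat.card P = p ^ 3) (hexp : Monoid.exponent ↥P = p)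
    (hconj : ∀ x y : ↥P, x ≠ 1 → y ≠ 1 → ∃ g : G, g * (x : G) * g⁻¹ = (y : G)) :
    p ≤ 7 := by
  classical
  by_contra hc
  have pp : p.Prime := Fact.out
  have h11 : 11 ≤ p := by
    by_contra h
    have : 8 ≤ p := by omega
    have : p ≤ 10 := by omega
    interval_cases p <;> exact absurd pp (by norm_num)
  obtain ⟨z, h⟩ := H18.XP.exists_xs P hE hcard hexp
  obtain ⟨pt, -, h2, h3⟩ := h.main h11
  letI : Fintype (OnePoint (ZMod p)) := inferInstanceAs (Fintype (Option (ZMod p)))
  have cd : (Finset.univ : Finset (OnePoint (ZMod p))).card = p + 1 := by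
    rw [Finset.card_univ]
    exact (Fintype.card_option (α := ZMod p)).trans (by rw [ZMod.card])
  have := h3 Finset.univ (by omega) fun w _ => by
    obtain ⟨x, hx, xz, e⟩ := h2 w
    obtain ⟨g, hg⟩ := hconj ⟨x, hx⟩ ⟨z, h.zP⟩ (fun c => xz ((show x = 1 from congrArg Subtype.val c) ▸ one_mem _))
      fun c => h.z1 (congrArg Subtype.val c)
    exact ⟨x, hx, xz, e, h.of_conj hx xz hg⟩
  omega

end Cfsg.Agent.S3055
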