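import Cfsg.Statements.S3058
import Cfsg.Agent.H26.Loc

set_option autoImplicit false
open Cfsg

namespace Cfsg.Agent.S3058

open H26 Subgroup
open scoped Pointwise commutatorElement

/-- Let p be a prime and G a finite group whose Sylow p-subgroups are not chain-connected through nontrivial intersections (so G has a strongly p-embedded subgroup). If N and M are normal subgroups of G whose orders are both divisible by p, then the order of N ∩ M is divisible by p. Consequently, among the normal subgroups of G whose order is divisible by p there is a smallest one (the intersection of all of them). -/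
theorem result {G : Type*} [Group G] [Finite G]
    (p : ℕ) [Fact p.Prime] (hG : ¬ Cfsg.IsSylowChainConnected p G)
    (N M : Subgroup G) [N.Normal] [M.Normal] (hN : p ∣ Nat.card N) (hM : p ∣ Nat.card M) :
    p ∣ Nat.card ↥(N ⊓ M) := by
  obtain ⟨H, h⟩ := not_isSylowChainConnected_iff.1 hG
  by_contra hd
  have hp : p.Prime := Fact.out
  have hc : (Nat.card ↥(N ⊓ M)).Coprime p := ((Nat.Prime.coprime_iff_not_dvd hp).2 hd).symm
  have hn : ∀ K : Subgroup G, K ≤ 𝐍 N := fun K => by rw [normalizer_eq_top]; exact le_top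
  have hm : ∀ K : Subgroup G, K ≤ 𝐍 M := fun K => by rw [normalizer_eq_top]; exact le_top
  obtain ⟨T, hT⟩ := exists_isSyl p H
  have hS := h.isSyl hT
  obtain ⟨x, hx, hx1, hxp⟩ := exists_mem_pow_eq_one hT.isP.to_inf_left ((hS.inf_of_normal (hn _) le_top).ne_bot hN)
  obtain ⟨y, hy, hy1, hyp⟩ := exists_mem_pow_eq_one hT.isP.to_inf_left ((hS.inf_of_normal (hm _) le_top).ne_bot hM)
  have hb : T ⊓ (N ⊓ M) = ⊥ := inf_eq_bot_of_coprime hT.isP hc
  have hxy : zpowers x ≤ 𝐂 (zpowers y) := by
    rw [← commutator_eq_bot_iff_le_centralizer, eq_bot_iff, ← hb]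
    refine le_inf ((commutator_mono (zpowers_le.2 hx.1) (zpowers_le.2 hy.1)).trans (commutator_le_of_le_normalizer le_normalizer))
      ((commutator_mono (zpowers_le.2 hx.2) (zpowers_le.2 hy.2)).trans (commutator_le_inf N M))
  have hE : ∀ z : G, z ^ p = 1 → Cfsg.IsElementaryAbelian p (zpowers z) := fun z hz => by
    rw [zpowers_eq_closure]; exact elemAb_closure (by simp) (by simpa using hz)
  have hlt : zpowers x < zpowers x ⊔ zpowers y := left_lt_sup.2 fun hle =>
    hy1 (hb.le ⟨hy.1, zpowers_le.2 hx.2 (hle (mem_zpowers y)), hy.2⟩)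
  have hD : N ⊓ M ≤ H := h.le_of_coprime (elemAb_sup (hE x hxp) (hE y hyp) hxy)
    (sup_le (zpowers_le.2 (hT.le hx.1)) (zpowers_le.2 (hT.le hy.1)))
    (by have := card_lt_of_lt hlt; rwa [Nat.card_zpowers, orderOf_eq_prime hxp hx1] at this) le_top
    (le_normalizer_inf (hn _) (hm _)) hc
  refine h.not_le_of_normal le_top (hn _) hN fun g hg => ?_
  have hyP := elemAb_isPGroup (hE y hyp)
  obtain ⟨n, hn', h1⟩ := H1.exists_mul_of_mem_normalizer_sup (A := zpowers y) (N := N ⊓ M)
    (le_normalizer_inf (hn _) (hm _)) (H1.IsPGroup.coprime_card hyP hc) (Or.inl (H1.isSolvable_zpowers y)) (g := g)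
    (le_normalizer_of_commutator_le (K := N) (H4.commutator_sup_le
      ((commutator_le_of_le_normalizer (le_normalizer_inf (hn _) (hm _))).trans le_sup_left)
      (((commutator_mono (zpowers_le.2 hy.2) le_rfl).trans ((commutator_le_inf M N).trans (inf_comm M N).le)).trans
        le_sup_left) (le_sup_left.trans le_normalizer) (le_sup_right.trans le_normalizer)) hg)
  have := h.norm _ (zpowers_le.2 (hT.le hy.1)) hyP (by simpa using hy1) ⟨mem_top _, h1⟩
  simpa using H.mul_mem (H.inv_mem (hD hn')) this

end Cfsg.Agent.S3058
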