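import Cfsg.Statements.S3061
import Cfsg.Agent.H4.DStar

set_option autoImplicit false
open Cfsg

namespace Cfsg.Agent.S3061

open Subgroup H26 H4


/-- Let S be a finite p-group. Then D*(S) itself belongs to the family that generates it: D*(S) is abelian, and every x ∈ S with ⟨D*(S), x⟩ of class at most two centralizes D*(S). Hence D*(S) is the unique maximal member of that family. -/
theorem result {S : Type*} [Group S] [Finite S] {p : ℕ} [Fact p.Prime] (hS : IsPGroup p S) :
    Cfsg.dStar S ∈ Cfsg.dStarFamily S := by
  rw [← df_top_iff, ← dStarOf_top]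
  exact df_dStarOf (hS.to_subgroup ⊤)

end Cfsg.Agent.S3061
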