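import Cfsg.Statements.S3062
import Cfsg.Agent.H4.DStar

set_option autoImplicit false
open Cfsg

namespace Cfsg.Agent.S3062

open Subgroup H26 H4


/-- Let S be a finite p-group, J(S) the subgroup generated by the abelian subgroups of S of largest order and Z(J(S)) its centre. Then Z(S) ≤ D*(S) ≤ Z(J(S)), and every maximal normal abelian subgroup of S contains D*(S). -/
theorem result {S : Type*} [Group S] [Finite S] {p : ℕ} [Fact p.Prime]
    (hS : IsPGroup p S) :
    Subgroup.center S ≤ Cfsg.dStar S ∧
    Cfsg.dStar S ≤ Cfsg.thompsonSubgroupA S ⊓ Subgroup.centralizer (Cfsg.thompsonSubgroupA S : Set S) ∧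
    ∀ A : Subgroup S, A.Normal → IsMulCommutative A →
      (∀ B : Subgroup S, B.Normal → IsMulCommutative B → A ≤ B → B = A) → Cfsg.dStar S ≤ A := by
  refine ⟨?_, ?_, fun A hA hc hmax => dStar_le_of_max hS hc hmax⟩
  · have := center_le_dStarOf (⊤ : Subgroup S)
    rwa [dStarOf_top, centralizer_top', top_inf_eq] at this
  · have := dStarOf_le_centerThompson (hS.to_subgroup ⊤)
    rwa [dStarOf_top, centerThompsonOf_def, thompsonOf_top, ← thompsonSubgroupA_eq] at this

end Cfsg.Agent.S3062
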