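import Cfsg.Statements.S3063
import Cfsg.Agent.H4.CL

set_option autoImplicit false
open Cfsg

namespace Cfsg.Agent.S3063

open Subgroup H26 H4


/-- A weak replacement Theorem for metabelian p-groups: let S be a finite p-group whose derived subgroup is abelian and A an abelian subgroup of S of largest possible order. Then the normal closure of A in S contains an abelian subgroup B of the same order as A that is normal in S. -/
theorem result {S : Type*} [Group S] [Finite S] {p : ℕ} [Fact p.Prime]
    (hS : IsPGroup p S) (hmeta : IsMulCommutative ↥(commutator S))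
    (A : Subgroup S) (hA : A ∈ Cfsg.maxAbelianSubgroups S) :
    ∃ B ∈ Cfsg.maxAbelianSubgroups S, B.Normal ∧ B ≤ Subgroup.normalClosure (A : Set S) := by
  have := hS.isNilpotent
  obtain ⟨B, ⟨hB, hBA⟩, hw⟩ := Set.exists_max_image
    {B : Subgroup S | B ∈ maxAbelianSubgroups S ∧ B ≤ normalClosure (A : Set S)} wt
    (Set.toFinite _) ⟨A, hA, le_normalClosure⟩
  refine ⟨B, hB, normal_of_top_le_normalizer fun b _ => ?_, hBA⟩
  by_contra hn
  obtain ⟨C, c1, -, c3, c4, c5⟩ := exists_replace_metabelian hB.1 le_top hmeta (mem_top b) hn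
  exact absurd (hw C ⟨⟨c1, fun D hD => (hB.2 D hD).trans c4⟩, c3.trans (sup_le hBA
    (cj_le_of_mem_normalizer hBA (by rw [normalizer_eq_top]; trivial)))⟩) c5.not_ge

end Cfsg.Agent.S3063
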