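import Cfsg.Statements.S3064
import Cfsg.Agent.H26.Comm
import Cfsg.Agent.H5.TI

set_option autoImplicit false
open Cfsg

namespace Cfsg.Agent.S3064

open Subgroup H26

theorem aux {G : Type*} [Group G] [Finite G] {p : ℕ} [Fact p.Prime] (x : G) (hx : ∃ k, x ^ p ^ k = 1)
    (hU : ∀ g : G, g * x * g⁻¹ * x = x * (g * x * g⁻¹) → g * x * g⁻¹ = x)
    (hb : ∀ H : Subgroup G, (Nat.card H).Coprime p → (∀ h ∈ H, x * h * x⁻¹ ∈ H) → ∀ h ∈ H, x * h = h * x)
    (hmin : ∀ H : Subgroup G, H ≠ ⊤ → x ∈ H → H ≤ centralizer {x}) : x ∈ center G := by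
  by_contra hxZ
  have hxC : x ∈ centralizer ({x} : Set G) := mem_centralizer_singleton_iff.2 rfl
  obtain ⟨M, hM, -, h1, h2⟩ := H5.frobenius_wielandt (centralizer {x}) (center G) (center_le_centralizer _)
    (fun h _ k hk => by rwa [mem_center_iff.1 hk h, mul_inv_cancel_right]) (by
      intro g hg y hy hy'
      by_contra hyZ
      have hne : centralizer ({y} : Set G) ≠ ⊤ := fun e => hyZ (mem_center_iff.2 fun z =>
        mem_centralizer_singleton_iff.1 (e ▸ mem_top z))
      have e1 := mem_centralizer_singleton_iff.1 hy'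
      have h3 : g⁻¹ * x * g⁻¹⁻¹ ∈ centralizer ({y} : Set G) := mem_centralizer_singleton_iff.2 (by
        calc g⁻¹ * x * g⁻¹⁻¹ * y = g⁻¹ * (x * (g * y * g⁻¹)) * g := by group
          _ = _ := by rw [← e1]; group)
      have h4 := hU _ (mem_centralizer_singleton_iff.1 (hmin _ hne
        (mem_centralizer_singleton_iff.2 (mem_centralizer_singleton_iff.1 hy).symm) h3))
      refine hg (mem_centralizer_singleton_iff.2 ?_)
      calc g * x = g * (g⁻¹ * x * g⁻¹⁻¹) := by rw [h4]
        _ = _ := by group)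
  obtain ⟨k, hk⟩ := hx
  have hxP : IsPGroup p (zpowers x) := isPGroup_zpowers hk
  have hCne : centralizer ({x} : Set G) ≠ ⊤ := fun e => hxZ (mem_center_iff.2 fun z =>
    mem_centralizer_singleton_iff.1 (e ▸ mem_top z))
  have hMn : ∀ L : Subgroup G, L ≤ 𝐍 M := fun L => by rw [normalizer_eq_top]; exact le_top
  obtain ⟨P, hP, -, hPn, -⟩ := exists_isSyl_normalized hxP (hMn _) IsPGroup.of_bot bot_le
    (by rw [normalizer_bot']; exact le_top)
  have hPZ : P ≤ center G := by
    rw [← h1]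
    refine le_inf hP.le (le_sup_right.trans (hmin (zpowers x ⊔ P) (fun e => ?_) (mem_sup_left (mem_zpowers x))))
    have hG : IsPGroup p (⊤ : Subgroup G) := e ▸ isPGroup_sup hxP hP.isP hPn
    obtain ⟨g, ⟨-, hg⟩, hg'⟩ := SetLike.exists_of_lt (lt_inf_normalizer hG hCne.lt_top)
    refine hg' (mem_centralizer_singleton_iff.2 ?_)
    have := hU g (mem_centralizer_singleton_iff.1 (conj_mem_of_mem_normalizer hg hxC))
    rw [← mul_inv_eq_iff_eq_mul.1 this]
  have hn : (P.subgroupOf M).Normal := ⟨fun a ha g => by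
    rwa [show g * a * g⁻¹ = a from Subtype.ext (by
      simp [mem_center_iff.1 (hPZ (mem_subgroupOf.1 ha)) g])]⟩
  obtain ⟨n, hn'⟩ := IsPGroup.iff_card.1 hP.sylow.isPGroup'
  obtain ⟨H, hH⟩ := exists_right_complement'_of_coprime (N := P.subgroupOf M) (by
    rw [← hP.coe_sylow, hn']
    exact ((Nat.Prime.coprime_iff_not_dvd Fact.out).2 hP.sylow.not_dvd_index).pow_left n)
  have hR : pResidualOf p M ≤ H.map M.subtype := pResidualOf_le_of_pow_mem fun y hy => by
    obtain ⟨⟨z, h⟩, e⟩ := hH.2 ⟨y, hy⟩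
    obtain ⟨j, hj⟩ := isPGroup_iff_mem.1 hP.isP _ (mem_subgroupOf.1 z.2)
    refine ⟨j, (h : M) ^ p ^ j, pow_mem h.2 _, ?_⟩
    have e' : ((z : M) : G) * (h : M) = y := congrArg Subtype.val e
    rw [← e', (Commute.mul_pow (mem_center_iff.1 (hPZ (mem_subgroupOf.1 z.2)) _).symm), hj]
    simp
  have hc : (Nat.card (pResidualOf p M)).Coprime p := by
    refine Nat.Coprime.coprime_dvd_left (card_dvd_of_le hR) ?_
    rw [card_map_of_injective M.subtype_injective, ← hH.symm.index_eq_card, ← hP.coe_sylow]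
    exact ((Nat.Prime.coprime_iff_not_dvd Fact.out).2 hP.sylow.not_dvd_index).symm
  have h3 := hb _ hc fun h hh => conj_mem_of_mem_normalizer (le_normalizer_pResidualOf_of_le (hMn ⊤) trivial) hh
  refine hCne (top_le_iff.1 (h2.ge.trans (sup_le ?_ le_rfl)))
  rw [← hP.pResidualOf_sup]
  exact sup_le (fun h hh => mem_centralizer_singleton_iff.2 (h3 h hh).symm) (hPZ.trans (center_le_centralizer _))


/-- Let S be a Sylow p-subgroup of the finite group G and x an element of S such that (i) x is the only G-conjugate of x lying in S, and (ii) x centralizes every subgroup of order prime to p that it normalizes. Then x lies in the centre of G. -/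
theorem result {G : Type*} [Group G] [Finite G] {p : ℕ} [Fact p.Prime]
    (S : Sylow p G) (x : G) (hx : x ∈ S)
    (hU : ∀ g : G, g⁻¹ * x * g ∈ S → g⁻¹ * x * g = x)
    (hb : ∀ H : Subgroup G, (Nat.card H).Coprime p → (∀ h ∈ H, x * h * x⁻¹ ∈ H) → ∀ h ∈ H, x * h = h * x) :
    x ∈ Subgroup.center G := by
  obtain ⟨k, hk⟩ := isPGroup_iff_mem.1 S.isPGroup' x hx
  have hU' : ∀ g : G, g * x * g⁻¹ * x = x * (g * x * g⁻¹) → g * x * g⁻¹ = x := by
    intro g e
    have hQ : IsPGroup p ↥(zpowers x ⊔ zpowers (g * x * g⁻¹)) :=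
      isPGroup_sup (isPGroup_zpowers hk) (isPGroup_zpowers (k := k) (by rw [conj_pow, hk]; simp))
        (le_normalizer_of_le_centralizer (zpowers_le.2 (by
          rw [centralizer_zpowers]; exact mem_centralizer_singleton_iff.2 e.symm)))
    obtain ⟨h, -, hh⟩ := (isSyl_top S).exists_le_cj hQ le_top
    have e1 := hU h (mem_cj.1 (hh (mem_sup_left (mem_zpowers x))))
    have e2 := hU (g⁻¹ * h) (by
      have := mem_cj.1 (hh (mem_sup_right (mem_zpowers _)))
      exact (show (g⁻¹ * h)⁻¹ * x * (g⁻¹ * h) = h⁻¹ * (g * x * g⁻¹) * h by group) ▸ this)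
    calc g * x * g⁻¹ = h * ((g⁻¹ * h)⁻¹ * x * (g⁻¹ * h)) * h⁻¹ := by group
      _ = h * (h⁻¹ * x * h) * h⁻¹ := by rw [e1, e2]
      _ = x := by group
  suffices h : ∀ H : Subgroup G, x ∈ H → H ≤ centralizer {x} from
    mem_center_iff.2 fun z => mem_centralizer_singleton_iff.1 (h ⊤ trivial (mem_top z))
  intro H
  refine subgroup_card_induction (Q := fun H => x ∈ H → H ≤ centralizer {x}) H fun H _ ih hxH => ?_
  have := aux (p := p) (⟨x, hxH⟩ : H) ⟨k, Subtype.ext hk⟩
    (fun g e => Subtype.ext (hU' g (congrArg Subtype.val e)))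
    (fun K hK hn h hh => Subtype.ext (hb (K.map H.subtype) (by rwa [card_map_of_injective H.subtype_injective])
      (by rintro _ ⟨y, hy, rfl⟩; exact ⟨_, hn y hy, rfl⟩) h ⟨h, hh, rfl⟩))
    (fun K hK hxK y hy => mem_centralizer_singleton_iff.2 (Subtype.ext (mem_centralizer_singleton_iff.1
      (ih (K.map H.subtype) (lt_of_le_of_ne (map_subtype_le K) fun e => hK (by
        rwa [← map_subtype_inj, map_subtype_top])) ⟨_, hxK, rfl⟩ ⟨y, hy, rfl⟩))))
  exact fun y hy => mem_centralizer_singleton_iff.2 (congrArg Subtype.val (mem_center_iff.1 this ⟨y, hy⟩))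

end Cfsg.Agent.S3064
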