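import Cfsg.Statements.S3067
import Cfsg.Agent.H9.Glaub2

set_option autoImplicit false
open Cfsg

namespace Cfsg.Agent.S3067

/-- Let G be a finite non-abelian simple group, τ an involution of G, and α a nontrivial automorphism of G whose order is coprime to the order of G. Then α moves some element of the centralizer of τ: α does not fix C_G(τ) elementwise. -/
theorem result {G : Type*} [Group G] [Finite G] [IsSimpleGroup G]
    (hG : ¬ IsMulCommutative G) (τ : G) (hτ : orderOf τ = 2) (α : MulAut G) (hα : α ≠ 1)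
    (hcop : (orderOf α).Coprime (Nat.card G)) :
    ∃ c ∈ Subgroup.centralizer ({τ} : Set G), α c ≠ c := by
  by_contra hcon
  push Not at hcon
  set N := (H4.holL G).range with hN
  have : N.Normal := by
    rw [hN, SemidirectProduct.range_inl_eq_ker_rightHom]; infer_instance
  have hcard : Nat.card N = Nat.card G :=
    (Nat.card_congr (MonoidHom.ofInjective H4.holL_injective).toEquiv).symm
  have hC : ∀ c ∈ N, Commute c (H4.holL G τ) → Commute c (H4.holR G α) := by
    rintro _ ⟨c, rfl⟩ h
    refine (H4.hol_comm_iff _ _).2 (hcon c (H9.mem_centralizer_singleton_iff_commute.2 ?_))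
    apply H4.holL_injective
    rw [map_mul, map_mul]; exact h
  let K : Subgroup G :=
    { carrier := {x | ∀ g : G, α (g⁻¹ * x * g) = g⁻¹ * x * g}
      mul_mem' := fun {a b} ha hb g => by
        have e : g⁻¹ * (a * b) * g = (g⁻¹ * a * g) * (g⁻¹ * b * g) := by group
        rw [e, map_mul, ha g, hb g]
      one_mem' := fun g => by simp
      inv_mem' := fun {a} ha g => by
        have e : g⁻¹ * a⁻¹ * g = (g⁻¹ * a * g)⁻¹ := by group
        rw [e, map_inv, ha g] }
  have hK : K.Normal := ⟨fun x hx h g => by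
    have e : g⁻¹ * (h * x * h⁻¹) * g = (h⁻¹ * g)⁻¹ * x * (h⁻¹ * g) := by group
    rw [e]; exact hx _⟩
  rcases IsSimpleGroup.eq_bot_or_eq_top_of_normal K hK with h0 | h0
  · refine H9.not_isolated_of_simple hG τ ⟨hτ, fun y hy => ?_⟩
    have h1 : τ * (y * τ * y⁻¹) ∈ K := fun g => by
      have h2 := H9.commute_of_coprime_centralizes (N := N) (a := H4.holR G α) (τ := H4.holL G τ)
        (by rw [orderOf_injective _ H4.holR_injective, hcard]; exact hcop) ⟨τ, rfl⟩
        (by rw [orderOf_injective _ H4.holL_injective]; exact hτ) hC (y := H4.holL G y) ⟨y, rfl⟩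
        (hC _ ⟨y * τ * y⁻¹, by simp⟩ (by simpa using hy.symm.map (H4.holL G)))
        (g := H4.holL G g) ⟨g, rfl⟩
      have h3 := (H9.commute_conj_iff (g := (H4.holL G g)⁻¹)).2 h2
      have e : (H4.holL G g)⁻¹ * (H4.holL G g * H4.holR G α * (H4.holL G g)⁻¹) *
        (H4.holL G g)⁻¹⁻¹ = H4.holR G α := by group
      rw [e] at h3
      refine (H4.hol_comm_iff _ _).1 ?_
      simpa only [map_mul, map_inv, inv_inv] using h3.eq
    rw [h0, Subgroup.mem_bot, mul_eq_one_iff_inv_eq, H9.inv_eq_of_orderOf hτ] at h1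
    exact h1.symm
  · refine hα (MulEquiv.ext fun x => ?_)
    have : x ∈ K := h0 ▸ Subgroup.mem_top x
    simpa using this 1

end Cfsg.Agent.S3067
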