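import Cfsg.Statements.S3068
import Cfsg.Agent.H27.Jt1
import Cfsg.Agent.H3.Tate

set_option autoImplicit false
open Cfsg

namespace Cfsg.Agent.S3068

open H26 H27 Subgroup

/-- Let p ≥ 7 be a prime, S a Sylow p-subgroup of the finite group G, J(S) the subgroup generated by the abelian subgroups of S of largest order and M = N_G(J(S)). Then G/O^p(G) ≅ M/O^p(M): the largest p-factor group of G is that of M (here O^p(X) is the subgroup generated by the elements of X of order prime to p). -/
theorem result {G : Type*} [Group G] [Finite G] {p : ℕ} [Fact p.Prime]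
    (hp : 7 ≤ p) (S : Sylow p G)
    [hn : (Cfsg.pResidual p G).Normal]
    [hm : (Cfsg.pResidual p ↥(Subgroup.normalizer (Cfsg.thompsonSubgroupAOf (S : Subgroup G) : Set G))).Normal] :
    Nonempty (G ⧸ Cfsg.pResidual p G ≃*
      ↥(Subgroup.normalizer (Cfsg.thompsonSubgroupAOf (S : Subgroup G) : Set G)) ⧸
        Cfsg.pResidual p ↥(Subgroup.normalizer (Cfsg.thompsonSubgroupAOf (S : Subgroup G) : Set G))) := by
  have h1 := j_transfer hp (isSyl_top S)
  have hS : (S : Subgroup G) ≤ normalizer (thompsonSubgroupAOf (S : Subgroup G) : Set G) := by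
    rw [H4.thompsonSubgroupAOf_eq]; exact H4.le_normalizer_thompsonOf 0 _
  revert hm
  generalize normalizer (thompsonSubgroupAOf (S : Subgroup G) : Set G) = M at *
  intro hm
  have h2 := H3.pResidual_inf_eq_of_commutator_inf_le S hS ((inf_comm _ _).le.trans (h1.trans le_sup_left))
  let f := (QuotientGroup.mk' (pResidual p G)).comp M.subtype
  have hf : Function.Surjective f := fun x => by
    obtain ⟨x, rfl⟩ := QuotientGroup.mk'_surjective _ x
    obtain ⟨n, hn, y, hy, rfl⟩ := H3.exists_pResidual_mul S.not_dvd_index x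
    exact ⟨⟨y, hS hy⟩, by rw [map_mul, QuotientGroup.mk'_apply _ n, (QuotientGroup.eq_one_iff n).2 hn, one_mul]; rfl⟩
  have hk : f.ker = pResidual p M := by
    rw [← MonoidHom.comap_ker, QuotientGroup.ker_mk']
    exact map_injective M.subtype_injective ((subgroupOf_map_subtype _ _).trans h2)
  exact ⟨(QuotientGroup.quotientKerEquivOfSurjective f hf).symm.trans (QuotientGroup.quotientMulEquivOfEq hk)⟩

end Cfsg.Agent.S3068
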