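import Cfsg.Statements.S3069
import Cfsg.Agent.H27.SecCor

set_option autoImplicit false
open Cfsg

namespace Cfsg.Agent.S3069

open Subgroup H26


/-- Let p ≥ 7 be a prime and S a nontrivial Sylow p-subgroup of the finite group G. If N_G(S)/C_G(S) is a p-group (every element of N_G(S) of order prime to p centralizes S), then O^p(G) < G, i.e. G has a nontrivial p-factor group. -/
theorem result {G : Type*} [Group G] [Finite G] {p : ℕ} [Fact p.Prime]
    (hp : 7 ≤ p) (S : Sylow p G) (hS : (S : Subgroup G) ≠ ⊥)
    (hN : ∀ g ∈ Subgroup.normalizer ((S : Subgroup G) : Set G), (orderOf g).Coprime p →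
      g ∈ Subgroup.centralizer ((S : Subgroup G) : Set G)) :
    Cfsg.pResidual p G ≠ ⊤ := by
  intro h
  obtain ⟨N, hN', hi⟩ := H27.exists_normal_index_of_not_le S.isPGroup'
    (H27.not_le_commutator_of_five_le (by omega) (isSyl_top S) hS (pResidualOf_le_iff.2 hN))
  have h1 : pResidualOf p ⊤ ≤ N := pResidualOf_le_of_relIndex (n := 1) (by rw [normalizer_eq_top])
    (by rw [relIndex_top_right, hi, pow_one])
  rw [pResidualOf_top, h, top_le_iff] at h1
  rw [h1, index_top] at hi
  exact (Fact.out : p.Prime).one_lt.ne hi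

end Cfsg.Agent.S3069
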