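import Cfsg.Statements.S3070
import Cfsg.Agent.H17.TJ3

set_option autoImplicit false
open Cfsg

namespace Cfsg.Agent.S3070

open H26 H4 H27 Subgroup

/-- Let p ≥ 5 be a prime, S a Sylow p-subgroup of the finite group G and J(S) the subgroup generated by the abelian subgroups of S of largest order. Then G has a normal p-complement if and only if N_G(J(S))/C_G(J(S)) is a p-group (every element of N_G(J(S)) of order prime to p centralizes J(S)). -/
theorem result {G : Type*} [Group G] [Finite G] {p : ℕ} [Fact p.Prime]
    (hp : 5 ≤ p) (S : Sylow p G) :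
    Cfsg.HasNormalPComplement p G ↔
      ∀ g ∈ Subgroup.normalizer (Cfsg.thompsonSubgroupAOf (S : Subgroup G) : Set G), (orderOf g).Coprime p →
        g ∈ Subgroup.centralizer (Cfsg.thompsonSubgroupAOf (S : Subgroup G) : Set G) := by
  rw [thompsonSubgroupAOf_eq]
  refine ⟨fun h g hg hc => H3.mem_centralizer_of_hasNormalPComplement h
    (S.isPGroup'.to_le (thompsonOf_le 0 _)) hg hc, fun h => H17.TJ.pnil_of_J hp (isSyl_top S) ?_⟩
  refine pnil_normalizer_of_centric (isSyl_top S) (le_normalizer_thompsonOf 0 _) (fun x hx => ?_) h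
  exact mem_thompsonOf_of_centralizes hx.1 hx.2 (pow_zero x)

end Cfsg.Agent.S3070
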