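import Cfsg.Statements.S3071
import Cfsg.Agent.H4.Factor

set_option autoImplicit false
open Cfsg

namespace Cfsg.Agent.S3071

open Subgroup H26 H4 H27

theorem ctl_amb {G : Type*} [Group G] [Finite G] {p : ℕ} [Fact p.Prime] (hp : p ≠ 2) {T H : Subgroup G}
    (hT : IsSyl p T H) (h : ¬ Sec (qd p) H) : Ctl (𝐍 (centerThompsonOf 0 T)) T H := by
  intro A g hA hg hgA
  have hAH := hA.trans hT.le
  obtain ⟨n, hn, c, hc, e⟩ := ctl_ZJ_of_not_sec_qd hp (Or.inl rfl) (isSyl_top hT.sylow) (mt sec_top_iff.1 h)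
    (A.subgroupOf H) ⟨g, hg⟩ (comap_mono hA) trivial (by
      rw [← map_le_map_iff_of_injective H.subtype_injective, map_cj, map_subgroupOf_eq_of_le hAH, hT.map_sylow]
      exact hgA)
  refine ⟨n, ?_, c, ?_, congrArg Subtype.val e⟩
  · have := (map_mem_normalizer_iff H.subtype_injective).2 hn
    rwa [map_centerThompsonOf H.subtype_injective, hT.map_sylow] at this
  · have := (map_mem_centralizer_iff H.subtype_injective).2 hc
    rwa [map_subgroupOf_eq_of_le hAH] at this


/-- Let p be an odd prime and S a Sylow p-subgroup of the finite group G such that, for every subgroup P with Z(S) ≤ P ≤ S, the normalizer N_G(P) has no section isomorphic to SL₂(p). Let J(S) be the subgroup generated by the abelian subgroups of S of largest order. Then two elements of S are conjugate in G if and only if they are conjugate in N_G(Z(J(S))). -/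
theorem result {G : Type*} [Group G] [Finite G] {p : ℕ} [Fact p.Prime]
    (hp : p ≠ 2) (S : Sylow p G)
    (hfree : ∀ P : Subgroup G, (S : Subgroup G) ⊓ Subgroup.centralizer ((S : Subgroup G) : Set G) ≤ P → P ≤ S →
      ¬ ∃ (H K : Subgroup G) (hK : (K.subgroupOf H).Normal), H ≤ Subgroup.normalizer (P : Set G) ∧
        Nonempty ((H ⧸ K.subgroupOf H) ≃* Matrix.SpecialLinearGroup (Fin 2) (ZMod p))) :
    ∀ x ∈ S, ∀ y ∈ S, (∃ g : G, g * x * g⁻¹ = y) ↔
      ∃ n ∈ Subgroup.normalizer (Cfsg.centerThompsonAOf (S : Subgroup G) : Set G), n * x * n⁻¹ = y := by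
  have hS := isSyl_top S
  have key := fus_local_to_global hS (𝓝 := 𝐍 (centerThompsonOf 0 (S : Subgroup G))) (fun x hx => inv_mem hx)
    (GoodZ p S ⊤) (fun T hT hG => ?_) fun T _ => bad_of_not_goodZ
  · intro x hx y hy
    refine ⟨?_, fun ⟨n, _, h⟩ => ⟨n, h⟩⟩
    rintro ⟨g, rfl⟩
    obtain ⟨n, hn, c, hc, rfl⟩ := (key (zpowers x) g (zpowers_le.2 hx) trivial
      (by rw [cj_zpowers]; exact zpowers_le.2 hy)).exists_mul le_rfl
    refine ⟨n, by rwa [centerThompsonAOf_eq], ?_⟩
    conv_lhs => rw [← mem_centralizer_iff'.1 hc x (mem_zpowers x)]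
    group
  obtain ⟨k, hk, hU, -⟩ := exists_ext hS hT
  refine ⟨k, hk, hU, fun IH A x hA hx hxA => ?_⟩
  have hc := ctl_amb hp hU.syl fun h => hfree _ (hG k hk hU) hU.le (by
    obtain ⟨K, L, h1, h2, h3⟩ := sec_iff.1 (h.trans sec_SL2_qd)
    exact ⟨K, L, h1, h2.trans inf_le_right, h3⟩)
  obtain ⟨n, hn, c, hc', rfl⟩ := hc A x hA hx hxA
  have hnA : cj n A ≤ (S : Subgroup G) ⊓ 𝐍 (cj k T) := by rwa [cj_mul, cj_eq_of_mem_centralizer hc'] at hxA
  refine Fus.of_mul_centralizer (c := n) (hA.trans inf_le_left) ?_ (by simpa using hc')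
  set P := (S : Subgroup G) ⊓ 𝐍 (cj k T)
  rcases (inf_le_left : P ≤ S).eq_or_lt with e | hlt
  · exact Fus.of_mem (hA.trans inf_le_left) (hnA.trans inf_le_left) (e ▸ hn)
  have h1 : P < (S : Subgroup G) ⊓ 𝐍 (centerThompsonOf 0 P) := (lt_inf_normalizer S.isPGroup' hlt).trans_le
    (inf_le_inf_left _ (normalizer_le_normalizer_centerThompsonOf 0 P))
  exact IH _ ((centerThompsonOf_le 0 P).trans inf_le_left) (goodZ_of_ext hS hU (le_normalizer_centerThompsonOf 0 P)
    fun z hz => mem_centerThompsonOf_of_center hz.1 hz.2 (pow_zero z)) (card_lt_of_lt h1) A n (hA.trans h1.le)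
    ⟨trivial, hn⟩ (hnA.trans h1.le)

end Cfsg.Agent.S3071
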