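import Cfsg.Statements.S3073
import Cfsg.Agent.H27.SecCor
import Cfsg.Agent.H9.Quat

set_option autoImplicit false
universe u
open Cfsg

namespace Cfsg.Agent.S3073

open Subgroup H26 H27


/-- For an odd prime p, every finite p-group S has a characteristic subgroup K with C_S(K) ≤ K such that, whenever S is (isomorphic to) a Sylow p-subgroup of a finite group G, G has a normal p-complement if and only if N_G(K)/C_G(K) is a p-group, i.e. every element of N_G(K) of order prime to p centralizes K (K transported into G along the isomorphism). -/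
theorem result (p : ℕ) [Fact p.Prime] (hp : p ≠ 2)
    (S : Type u) [Group S] [Finite S] (hS : IsPGroup p S) :
    ∃ K : Subgroup S, K.Characteristic ∧ Subgroup.centralizer (K : Set S) ≤ K ∧
      ∀ (G : Type u) [Group G] [Finite G] (P : Sylow p G) (e : ↥(P : Subgroup G) ≃* S),
        Cfsg.HasNormalPComplement p G ↔
          ∀ g ∈ Subgroup.normalizer (((K.comap (e : ↥(P : Subgroup G) →* S)).map (P : Subgroup G).subtype : Subgroup G) : Set G),
            (orderOf g).Coprime p →
              g ∈ Subgroup.centralizer (((K.comap (e : ↥(P : Subgroup G) →* S)).map (P : Subgroup G).subtype : Subgroup G) : Set G) := by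
  have hW := isCharPFunctor_kInfLower.{u} (p := p)
  refine ⟨kInfLower S, characteristic_iff_map_eq.2 fun φ => hW.2 S S hS φ, ?_, fun G _ _ P e => ?_⟩
  · have := inf_centralizer_kL_le (hS.to_subgroup ⊤)
    rwa [kL_top, top_inf_eq] at this
  have e1 : ((kInfLower S).comap (e : ↥(P : Subgroup G) →* S)).map (P : Subgroup G).subtype = kL (P : Subgroup G) := by
    rw [← inducedFunctor_kInfLower, inducedFunctor, ← hW.2 _ _ P.isPGroup' e]
    congr 1
    exact comap_map_eq_self_of_injective (f := (e : ↥(P : Subgroup G) →* S)) e.injective _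
  rw [e1]
  refine ⟨fun h g hg hc => ?_, fun h => kinf_pnil hp _ (isSyl_top P) ?_⟩
  · obtain ⟨ρ, h1, h2⟩ := H9.exists_retraction P h
    refine mem_centralizer_iff'.2 fun k hk => ?_
    have a1 := h1 ⟨k, kL_le _ hk⟩
    have a2 := h1 ⟨_, kL_le _ (conj_mem_of_mem_normalizer hg hk)⟩
    simp only [map_mul, map_inv, (h2 g).2 hc, one_mul, inv_one, mul_one] at a2
    exact congrArg Subtype.val (a2.symm.trans a1)
  · rw [inducedFunctor_kInfLower]
    exact pnil_normalizer_of_centric (isSyl_top P) (le_normalizer.trans (normalizer_le_normalizer_kL _))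
      (inf_centralizer_kL_le P.isPGroup') h

end Cfsg.Agent.S3073
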