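import Cfsg.Statements.S3075
import Cfsg.Agent.H10.DicksonSL
import Cfsg.Agent.H18.Cyc
import Cfsg.Agent.H3.HallTransfer
import Cfsg.Agent.H9.Quat

set_option autoImplicit false
open Cfsg

namespace Cfsg.Agent.S3075

open H18 Subgroup

/-- Let p be an odd prime and N a finite group with a normal elementary abelian subgroup A of order p² that is its own centralizer in N, such that N/A is isomorphic to SL₂(p) (over any field F with p elements). Then N splits over A: some subgroup U of N satisfies A ∩ U = 1 and AU = N. -/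
theorem result {N : Type*} [Group N] [Finite N] {p : ℕ} [Fact p.Prime] (hp : p ≠ 2)
    (A : Subgroup N) [A.Normal] (hAcomm : IsMulCommutative A) (hAcard : Nat.card A = p ^ 2) (hAexp : Monoid.exponent ↥A = p)
    (hAself : Subgroup.centralizer (A : Set N) = A)
    {F : Type*} [Field F] [Fintype F] (hF : Fintype.card F = p) (e : N ⧸ A ≃* Matrix.SpecialLinearGroup (Fin 2) F) :
    ∃ U : Subgroup N, A ⊓ U = ⊥ ∧ A ⊔ U = ⊤ := by
  have pp : p.Prime := Fact.out
  obtain ⟨k, hk⟩ := pp.odd_of_ne_two hp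
  have h2 : (2 : F) ≠ 0 := Ring.two_ne_zero fun h => by
    have := FiniteField.even_card_iff_char_two.1 h
    omega
  have ex : ∀ a ∈ A, a ^ p = 1 := fun a ha => congrArg Subtype.val (hAexp ▸ Monoid.pow_exponent_eq_one (⟨a, ha⟩ : A))
  let π := e.toMonoidHom.comp (QuotientGroup.mk' A)
  have ker : ∀ g, π g = 1 ↔ g ∈ A := fun g => by simp [π]
  have sj : Function.Surjective π := e.surjective.comp (QuotientGroup.mk'_surjective A)
  obtain ⟨s, hs⟩ := sj (-1)
  obtain ⟨t, ht, t2⟩ : ∃ t, π t = -1 ∧ t ^ 2 = 1 := ⟨s ^ p, by rw [map_pow, hs, (pp.odd_of_ne_two hp).neg_one_pow],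
    by rw [← pow_mul, mul_comm, pow_mul, ex _ ((ker _).1 (by rw [map_pow, hs, neg_one_sq]))]⟩
  have top : A ⊔ C(zpowers t) = ⊤ := top_le_iff.1 fun g _ => by
    have ha : g * t * g⁻¹ * t⁻¹ ∈ A := (ker _).1 (by simp [ht])
    set a := g * t * g⁻¹ * t⁻¹ with ea
    have i : t * a * t⁻¹ = a⁻¹ := by
      have := H9.inv_eq_of_mul_self (pow_two t ▸ t2)
      simp only [ea, mul_inv_rev, inv_inv, this, mul_assoc, ← pow_two, t2, mul_one]
    rw [← mul_inv_cancel_left (a ^ (k + 1)) g]
    refine mul_mem_sup (pow_mem ha _) ?_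
    have : a ^ (k + 1) * a ^ (k + 1) = a := by rw [← pow_add, show k + 1 + (k + 1) = p + 1 by omega, pow_succ, ex a ha, one_mul]
    have j := H9.conj_pow_of_inverts i (k + 1)
    rw [C_zpowers, mem_C1, ← mul_inv_eq_iff_eq_mul]
    generalize a ^ (k + 1) = b at this j
    calc _ = b⁻¹ * a * (t * b * t⁻¹) * t := by rw [ea]; group
      _ = t := by rw [j, ← this]; group
  refine ⟨_, by_contra fun c => ?_, top⟩
  have cp : (Nat.card A).Coprime (C(A).relIndex (zpowers t)) := by
    refine Nat.Coprime.coprime_dvd_right (relIndex_dvd.trans (card_zpowers'.dvd.trans (orderOf_dvd_of_pow_eq_one t2))) ?_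
    exact hAcard ▸ ((Nat.coprime_primes pp Nat.prime_two).2 hp).pow_left 2
  have e1 := H3.fitting_inf_eq_bot (A := A) norm_of_normal cp
  have e2 := H3.fitting_sup_eq (A := A) norm_of_normal cp
  have cy : ∀ X < A, C(zpowers t) ≤ N(X) → ⁅(⊤ : Subgroup N), ⊤⁆ ≤ C(X) := fun X h hn => by
    refine Cyc.der_cent ?_ (top.ge.trans (sup_le ((abel_of_comm hAcomm).norm h.le) hn))
    by_cases h1 : X = ⊥
    · exact h1 ▸ inferInstance
    · exact isCyclic_of_prime_card (card_eq_of_lt_sq pp hAcard h h1)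
  have := cent_sup (cy ⁅A, zpowers t⁆ ((commutator_le_left ..).lt_of_ne fun h => c (h ▸ e1))
    (norm_comm norm_of_normal C_le_N)) (cy (A ⊓ C(zpowers t)) (inf_lt_left.2 fun h => ?_) (norm_inf norm_of_normal le_N))
  · rw [e2, hAself] at this
    obtain ⟨x, hx⟩ := sj ⟨!![1, 1; 0, 1], by simp⟩
    obtain ⟨y, hy⟩ := sj ⟨!![1, 0; 1, 1], by simp⟩
    have := (ker _).2 (this (commutator_mem_commutator (mem_top x) (mem_top y)))
    rw [map_commutatorElement, commutatorElement_eq_one_iff_mul_comm, hx, hy] at this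
    have : (!![1, 1; 0, 1] * !![1, 0; 1, 1] : Matrix (Fin 2) (Fin 2) F) 0 0 =
      (!![1, 0; 1, 1] * !![1, 1; 0, 1] : Matrix (Fin 2) (Fin 2) F) 0 0 := congrArg (·.1 0 0) this
    simp at this
  · have := ht.symm.trans ((ker t).2 (hAself.le (zpowers_le.1 (cent_symm h))))
    exact h2 (by linear_combination (-1 : F) * (by simpa using congrArg (·.1 0 0) this : (-1 : F) = 1))

end Cfsg.Agent.S3075
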