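import Cfsg.Statements.S3076
import Cfsg.Agent.H18.BG1

set_option autoImplicit false
open Cfsg

namespace Cfsg.Agent.S3076
open H18 Subgroup
theorem opp_map {G : Type*} [Group G] [Finite G] {p : ℕ} (hp : p.Prime) (N : Subgroup G) :
    (Cfsg.pPrimePCore p N).map N.subtype = O2[{p}ᶜ,{p}](N) := by
  rw [pPrimePCore_eq hp]
  apply le_antisymm
  · have := mim_pcore2_le (π := {p}ᶜ) (ρ := {p}) (f := N.subtype.comp (⊤ : Subgroup N).subtype) (H := ⊤) le_rfl
    simpa [mim_subtype, ← MonoidHom.range_eq_map] using this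
  · have := mim_pcore2_le (π := {p}ᶜ) (ρ := {p}) (f := MonoidHom.id N) (H := N) le_rfl
    rw [mim_id, mim_id, subgroupOf_self] at this
    intro x hx
    exact ⟨⟨x, pcore2_le hx⟩, this hx, rfl⟩
theorem main {G : Type*} [Group G] [Finite G] {p : ℕ} (hp : p.Prime) {P H L : Subgroup G} (hP : PiGrp {p} P)
    (hHP : H ≤ P) (hS : Hall {p} (P ⊓ N(H)) N(H)) (hL : L = qpre C(H) O[{p}](N(H) ⫽ C(H))) :
    (H ≤ L ∧ ¬ p ∣ H.relIndex L) ↔ (P ⊓ C(H) ≤ H ∧ O2[{p}ᶜ,{p}](N(H)) = H ⊔ C(H)) := by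
  have hH : PiGrp {p} H := hP.of_le hHP
  have hCN : C(H) ⊴ N(H) := nml_C_N
  have hLN : L ⊴ N(H) := hL ▸ qpre_pcore_nml hCN
  have hCL : C(H) ≤ L := hL ▸ le_qpre
  have hLi : PiNat {p} ((C(H)).relIndex L) := hL ▸ qpre_pcore_idx
  have hLm : ∀ M, M ⊴ N(H) → PiNat {p} ((C(H)).relIndex M) → M ≤ L := fun M h1 h2 => hL ▸ le_qpre_pcore hCN h1 h2
  have hHL : H ≤ L := hLm H nml_N hH.relIndex
  have hO : O[{p}ᶜ](N(H)) ≤ C(H) := pcore_cent_nml nml_N hH.compl_compl
  have hSC : Hall {p} (P ⊓ N(H) ⊓ C(H)) C(H) := hS.inf_nml hCN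
  have hHC : H ⊔ C(H) ⊴ N(H) := nml_N.sup hCN
  constructor
  · rintro ⟨-, hd⟩
    have hHall : Hall {p} H L := ⟨hHL, hH, (piNat_compl_iff hp).2 hd⟩
    have e : H ⊔ C(H) = L := hHall.sup_of_idx hCL hLi
    have h1 : P ⊓ C(H) ≤ H := hHall.le_of_nml hLN.le (inf_le_right.trans hCL) hP.inf_left
    refine ⟨h1, le_antisymm ?_ ?_⟩
    · rw [e]
      exact hLm _ pcore2_nml (pcore2_idx.of_dvd (relIndex_dvd_left hO))
    · refine sup_le ((le_pcore nml_N hH).trans pcore_le_pcore2') ?_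
      have hB := Burnside_normal_complement hp hSC
        (inf_le_left.trans (C_anti ((inf_le_inf_right _ inf_le_left).trans h1)))
      refine le_pcore2_of_nml (K := O[{p}ᶜ](C(H))) hCN.pcore hCN pcore_pi hB.idx.of_compl_compl
  · rintro ⟨h1, h2⟩
    refine ⟨hHL, ?_⟩
    have hC2 : PiNat {p} (O[{p}ᶜ](N(H)).relIndex C(H)) :=
      (pcore2_idx (π := {p}ᶜ) (ρ := {p}) (H := N(H))).of_dvd (relIndex_dvd_right hO (h2 ▸ le_sup_right))
    have hL2 : L ≤ H ⊔ C(H) := by
      rw [← h2]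
      refine le_pcore2 hLN ?_
      rw [← relIndex_tower hO hCL]
      exact hC2.mul hLi
    have e : L = C(H) ⊔ H := le_antisymm (hL2.trans (sup_comm _ _).le) (sup_le hCL hHL)
    rw [e, relIndex_sup_of_norm C_le_N, ← relIndex_inf_right]
    refine (piNat_compl_iff hp).1 (hSC.idx_of_le (le_inf ?_ inf_le_right))
    exact (inf_le_inf_right _ inf_le_left).trans h1

/-- Let P be a Sylow p-subgroup of the finite group G and H ≤ P a subgroup with N_P(H) a Sylow p-subgroup of N_G(H). Let N be the preimage in N_G(H) of O_p(N_G(H)/C_G(H)). Then H is a Sylow p-subgroup of N if and only if C_P(H) ≤ H and O_{p',p}(N_G(H)) = H·C_G(H). -/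
theorem result {G : Type*} [Group G] [Finite G] {p : ℕ} [Fact p.Prime]
    (P : Sylow p G) (H : Subgroup G) (hHP : H ≤ (P : Subgroup G))
    (hSyl : ¬ p ∣ ((P : Subgroup G) ⊓ Subgroup.normalizer (H : Set G)).relIndex (Subgroup.normalizer (H : Set G)))
    [hC : ((Subgroup.centralizer (H : Set G)).subgroupOf (Subgroup.normalizer (H : Set G))).Normal] :
    (H ≤ ((Cfsg.pCore p (↥(Subgroup.normalizer (H : Set G)) ⧸
              (Subgroup.centralizer (H : Set G)).subgroupOf (Subgroup.normalizer (H : Set G)))).comap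
            (QuotientGroup.mk' _)).map (Subgroup.normalizer (H : Set G)).subtype ∧
      ¬ p ∣ H.relIndex (((Cfsg.pCore p (↥(Subgroup.normalizer (H : Set G)) ⧸
              (Subgroup.centralizer (H : Set G)).subgroupOf (Subgroup.normalizer (H : Set G)))).comap
            (QuotientGroup.mk' _)).map (Subgroup.normalizer (H : Set G)).subtype)) ↔
    ((P : Subgroup G) ⊓ Subgroup.centralizer (H : Set G) ≤ H ∧
      (Cfsg.pPrimePCore p ↥(Subgroup.normalizer (H : Set G))).map (Subgroup.normalizer (H : Set G)).subtype =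
        H ⊔ Subgroup.centralizer (H : Set G)) := by
  have hp : p.Prime := Fact.out
  have hP : PiGrp {p} (P : Subgroup G) := (hall_sylow_top hp P).pi
  rw [opp_map hp]
  refine main hp hP hHP ⟨inf_le_right, hP.inf_left, (piNat_compl_iff hp).2 hSyl⟩ ?_
  have e : mker (QuotientGroup.mk' ((C(H)).subgroupOf N(H))) = C(H) := by
    ext x
    rw [mem_mker]
    constructor
    · rintro ⟨h1, h2⟩
      rw [mfun_of_mem h1] at h2
      exact mem_subgroupOf.1 ((QuotientGroup.eq_one_iff (⟨x, h1⟩ : N(H))).1 h2)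
    · intro h
      refine ⟨C_le_N h, ?_⟩
      rw [mfun_of_mem (C_le_N h)]
      exact (QuotientGroup.eq_one_iff _).2 h
  rw [← mpre_pcore_eq (f := QuotientGroup.mk' ((C(H)).subgroupOf N(H))) le_rfl nml_C_N e, pCore_eq hp]
  have : mim (QuotientGroup.mk' ((C(H)).subgroupOf N(H))) N(H) = ⊤ := by
    rw [mim, subgroupOf_self, ← MonoidHom.range_eq_map, MonoidHom.range_eq_top]
    exact QuotientGroup.mk'_surjective _
  rw [this]; rfl

end Cfsg.Agent.S3076
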