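import Cfsg.Statements.S3078
import Cfsg.Agent.H4.GlReplace
import Cfsg.Agent.H4.Critical

set_option autoImplicit false
open Cfsg

namespace Cfsg.Agent.S3078

open Subgroup H26 H4 H4.GlHyp
open scoped commutatorElement

theorem rank_le {G : Type*} [Group G] [Finite G] {A B N : Subgroup G} {b : G} {p : ℕ} (h : GlHyp A B N b) (he : Odd p) :
    Nat.card (omegaOne p A) ≤ Nat.card (omegaOne p (glStar A b)) := by
  set Z := A ⊓ cj b⁻¹ A with hZ
  set H := A ⊔ cj b⁻¹ A with hH
  have m1 : ∀ x, x ∈ omegaOne p A ↔ x ∈ A ∧ x ^ p = 1 := fun x => mem_omegaOne_iff (comm_le_centralizer h.comm)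
  have hn : (Z.subgroupOf H).Normal := normal_subgroupOf_of_le_normalizer (h.H_le_N.trans h.N_le_Z)
  let f : A →* H ⧸ Z.subgroupOf H := MonoidHom.mk'
    (fun a => QuotientGroup.mk ⟨a * b⁻¹ * (a : G)⁻¹ * b, Y_le_H (mem_Y a.2)⟩) (by
      intro a c
      rw [← QuotientGroup.mk_mul, QuotientGroup.eq, mem_subgroupOf]
      have h2 : b⁻¹ * (a : G)⁻¹ * b ∈ H := mem_sup_right (conj_mem (inv_mem a.2))
      have h3 : b⁻¹ * (c : G)⁻¹ * b ∈ H := mem_sup_right (conj_mem (inv_mem c.2))
      have h4 := h.der_H_le (commutator_mem_commutator (inv_mem (mul_mem (mem_sup_left c.2) h3)) h2)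
      have h5 := conj_mem_of_mem_normalizer (h.N_le_Z (h.H_le_N (inv_mem h2))) h4
      convert h5 using 1
      simp only [commutatorElement_def, coe_mul, coe_inv]; group)
  have hker : f.ker = Z.subgroupOf A := by
    ext a
    simp only [f, MonoidHom.mem_ker, MonoidHom.mk'_apply, QuotientGroup.eq_one_iff, mem_subgroupOf]
    constructor
    · intro ha
      refine ⟨a.2, ?_⟩
      have := mul_mem ha.2 (conj_mem (b := b) a.2)
      simpa [mul_assoc] using this
    · exact fun ha => h.inf_le_Z (h.y_mem_of_mem_Z ha)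
  have hr : ((omegaOne p A).subgroupOf A).map f ≤
      ((omegaOne p (glStar A b)).subgroupOf H).map (QuotientGroup.mk' _) := by
    rintro _ ⟨⟨a, ha⟩, ha', rfl⟩
    have hp := ((m1 a).1 ha').2
    refine ⟨_, mem_subgroupOf.2 (mem_omegaOne (mem_sup_right (mem_Y ha)) ?_), rfl⟩
    have h1 : a ∈ H := mem_sup_left ha
    have h2 : b⁻¹ * a⁻¹ * b ∈ H := mem_sup_right (conj_mem (inv_mem ha))
    have hc := h.der_H_le (commutator_mem_commutator h2 h1)
    have c1 : Commute a ⁅b⁻¹ * a⁻¹ * b, a⁆ := (h.H_le_CZ h1 _ hc).symm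
    have c2 : Commute (b⁻¹ * a⁻¹ * b) ⁅b⁻¹ * a⁻¹ * b, a⁆ := (h.H_le_CZ h2 _ hc).symm
    have e1 : a * b⁻¹ * a⁻¹ * b = a * (b⁻¹ * a⁻¹ * b) := by group
    have e2 : (b⁻¹ * a⁻¹ * b) ^ p = 1 := by
      have := conj_pow (a := b⁻¹) (b := a⁻¹) (i := p)
      rw [inv_inv] at this
      rw [this, inv_pow, hp]; group
    have e3 : ⁅b⁻¹ * a⁻¹ * b, a⁆ ^ p = 1 := by
      rw [← commutatorElement_pow_right' c1, hp, commutatorElement_one_right]
    change (a * b⁻¹ * a⁻¹ * b) ^ p = 1
    rw [e1, mul_pow_of_odd he c1 c2 e3, hp, e2, mul_one]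
  have e1 := card_le_of_le hr
  have l1 : omegaOne p A ≤ A := fun x hx => ((m1 x).1 hx).1
  have l2 : omegaOne p (glStar A b) ≤ H := ((closure_le _).2 fun x hx => hx.1).trans star_le_H
  rw [← relIndex_ker, ← relIndex_ker, hker, QuotientGroup.ker_mk', relIndex_subgroupOf l1, relIndex_subgroupOf l2,
    ← inf_relIndex_right, ← inf_relIndex_right Z (omegaOne p (glStar A b))] at e1
  rw [← card_mul_relIndex_of_le (inf_le_right : Z ⊓ omegaOne p A ≤ _),
    ← card_mul_relIndex_of_le (inf_le_right : Z ⊓ omegaOne p (glStar A b) ≤ _)]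
  exact Nat.mul_le_mul (card_le_of_le fun x hx => ⟨hx.1, mem_omegaOne (mem_sup_left hx.1) ((m1 x).1 hx.2).2⟩) e1

/-- A replacement Theorem for abelian subgroups of p-groups, p odd. Let G be a finite p-group with p odd, A an abelian subgroup of G, and B a subgroup of nilpotency class at most 2 with [B, B] ≤ A, such that A normalizes B but B does not normalize A. Then there is an abelian subgroup A* of G of the same order as A with A ∩ B strictly contained in A* ∩ B, A* contained in N_G(A) and in the normal closure of A, the exponent of A* dividing the exponent of A, and with the subgroup generated by the elements of order dividing p in A of order at most that of the corresponding subgroup of A* (the rank of A is at most the rank of A*). -/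
theorem result {G : Type*} [Group G] [Finite G] {p : ℕ} [Fact p.Prime] (hp : p ≠ 2) (hG : IsPGroup p G) (A B : Subgroup G) (hA : IsMulCommutative A) (hB2 : ⁅⁅B, B⁆, B⁆ = ⊥) (hBA : ⁅B, B⁆ ≤ A) (hAB : A ≤ Subgroup.normalizer (B : Set G)) (hBnA : ¬ B ≤ Subgroup.normalizer (A : Set G)) : ∃ Astar : Subgroup G, IsMulCommutative Astar ∧ Nat.card Astar = Nat.card A ∧ A ⊓ B < Astar ⊓ B ∧ Astar ≤ Subgroup.normalizer (A : Set G) ∧ Astar ≤ Subgroup.normalClosure (A : Set G) ∧ Monoid.exponent Astar ∣ Monoid.exponent A ∧ Nat.card (Cfsg.omegaOne p A) ≤ Nat.card (Cfsg.omegaOne p Astar) := by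
  have hN : (A ⊔ B) ⊓ 𝐍 A ≤ 𝐍 B := inf_le_left.trans (sup_le hAB le_normalizer)
  obtain ⟨b, hb, h1, h2⟩ := exists_mem_normalizer_normalizer (S := A ⊔ B) (N := (A ⊔ B) ⊓ 𝐍 A) (hG.to_subgroup _)
    le_sup_right inf_le_left hN fun h => hBnA (h.trans inf_le_right)
  have h : GlHyp A B ((A ⊔ B) ⊓ 𝐍 A) b := ⟨hA, le_inf le_sup_left le_normalizer, inf_le_right, hN, hb, h1, hBA,
    fun w hw => eq_one_of_sq_of_isPGroup hp (hG.to_subgroup _) hw⟩
  refine ⟨glStar A b, h.star_comm, h.card_star, h.inf_lt fun e => h2 ⟨mem_sup_right hb, e⟩,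
    h.star_le_N.trans inf_le_right, star_le_H.trans (sup_le le_normalClosure ?_), ?_, rank_le h (odd_of_ne_two hp)⟩
  · rintro _ ⟨a, ha, rfl⟩
    exact (normalClosure_normal (s := (A : Set G))).conj_mem a (le_normalClosure ha) _
  obtain ⟨n, hn⟩ := (hG.to_subgroup A).exists_card_eq
  obtain ⟨k, -, hk⟩ := (Nat.dvd_prime_pow Fact.out).1 (hn ▸ Group.exponent_dvd_nat_card (G := A))
  have h1 := h.star_elemAb (Or.inr (hk ▸ (odd_of_ne_two hp).pow : Odd (Monoid.exponent A))) fun a ha =>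
    congrArg Subtype.val (Monoid.pow_exponent_eq_one (⟨a, ha⟩ : A))
  exact Monoid.exponent_dvd_of_forall_pow_eq_one fun g => Subtype.ext (h1.2 g g.2)

end Cfsg.Agent.S3078
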