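import Cfsg.Statements.S3082
import Cfsg.Agent.H27.FSSparse

set_option autoImplicit false
open Cfsg

namespace Cfsg.Agent.S3082

open H20 H27 Subgroup

/-- The Glauberman–Thompson normal p-complement criterion for strongly closed subgroups, p odd. Let G be a finite group, P a Sylow p-subgroup and D a subgroup of P strongly closed in P with respect to G. If N_G(Z(J(D))) has a normal p-complement (J(D) generated by the abelian subgroups of D of largest order), or N_G(Ω₁(Z(J_e(D)))) has one (J_e(D) generated by the elementary abelian subgroups of largest order), then G has a normal p-complement. -/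
theorem result {G : Type*} [Group G] [Finite G] {p : ℕ} [Fact p.Prime] (hp : p ≠ 2) (P : Sylow p G) (D : Subgroup G) (hD : Cfsg.IsStronglyClosed D (P : Subgroup G)) (h : Cfsg.HasNormalPComplement p ↥(Subgroup.normalizer ((Cfsg.centerThompsonAOf D) : Set G)) ∨ Cfsg.HasNormalPComplement p ↥(Subgroup.normalizer ((Cfsg.omegaOne p (Cfsg.centerThompsonOf p D)) : Set G))) : Cfsg.HasNormalPComplement p G := by
  have h1 : (fusionSystemOfSubgroup ⊤ (P : Subgroup G) le_top).StronglyClosed D := sc_of' hD.1 fun x hx σ hσ => by
    obtain ⟨-, h2, g, -, h3⟩ := mor_sub_iff.1 hσ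
    rw [h3 x (mem_zpowers x)]
    exact hD.2 x hx g (h3 x (mem_zpowers x) ▸ h2 x (mem_zpowers x))
  have key : ∀ e, e = 0 ∨ e = p → HasNormalPComplement p (normalizer (centerThompsonOf e D : Set G)) →
      HasNormalPComplement p G := fun e he h => H3.hasNormalPComplement_top_iff.1 ((pnil_iff (syl_top P)).2
    (inner_of_zj_sc hp he P.isPGroup' (syl_top P).sat h1 (loc_of_pnil (syl_top P)
      ((sc_normal h1).trans (H4.normalizer_le_normalizer_centerThompsonOf e D)) h)))
  rw [H4.centerThompsonAOf_eq] at h
  exact h.elim (key 0 (Or.inl rfl)) fun h => key p (Or.inr rfl)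
    (H3.hasNormalPComplement_of_le (H26.normalizer_le_normalizer_omegaOne _ _) h)

end Cfsg.Agent.S3082
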