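import Cfsg.Statements.S3087
import Cfsg.Agent.H17.PGV2

set_option autoImplicit false
open Cfsg

namespace Cfsg.Agent.S3087

open Subgroup
open scoped Pointwise commutatorElement

/-- Let p be a prime, G a finite group acting linearly on a finite vector space V over the field with p elements, W a G-invariant subspace, and A a subgroup of G with |A|·|C_V(A)| ≥ |B|·|C_V(B)| for every subgroup B of A. Then |A|·|C_W(A)| ≥ |B|·|C_W(B)| for every subgroup B of A that contains C_A(W); that is, the image of A in the group induced on W satisfies the same maximality condition. -/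
theorem result {G V : Type*} [Group G] [Finite G] [AddCommGroup V] [Finite V] (p : ℕ) [Fact p.Prime] [Module (ZMod p) V]
    (ρ : Representation (ZMod p) G V) (W : Submodule (ZMod p) V) (hW : ∀ g : G, ∀ w ∈ W, ρ g w ∈ W)
    (A : Subgroup G)
    (hP : ∀ B : Subgroup G, B ≤ A →
      Nat.card ↥B * Nat.card {v : V // ∀ b ∈ B, ρ b v = v} ≤ Nat.card ↥A * Nat.card {v : V // ∀ a ∈ A, ρ a v = v})
    (B : Subgroup G) (hBA : B ≤ A) (hCB : ∀ a ∈ A, (∀ w ∈ W, ρ a w = w) → a ∈ B) :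
    Nat.card ↥B * Nat.card {w : W // ∀ b ∈ B, ρ b w = w} ≤ Nat.card ↥A * Nat.card {w : W // ∀ a ∈ A, ρ a w = w} := by
  have e : ∀ B : Subgroup G, Nat.card {w : W // ∀ b ∈ B, ρ b w = w} = Nat.card ↥(W ⊓ H17.PGV.fx ρ B) := fun B =>
    Nat.card_congr ⟨fun w => ⟨w.1, w.1.2, w.2⟩, fun w => ⟨⟨w.1, w.2.1⟩, w.2.2⟩, fun _ => rfl, fun _ => rfl⟩
  have h1 : Nat.card B * Nat.card (H17.PGV.fx ρ B) ≤ Nat.card A * Nat.card (H17.PGV.fx ρ A) := hP B hBA
  have h2 := H17.PGV.card_inf_sup (W ⊓ H17.PGV.fx ρ B) (H17.PGV.fx ρ A)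
  have h3 := H17.PGV.card_mono (sup_le inf_le_right (H17.PGV.fx_anti hBA) :
    W ⊓ H17.PGV.fx ρ B ⊔ H17.PGV.fx ρ A ≤ H17.PGV.fx ρ B)
  rw [inf_assoc, inf_eq_right.2 (H17.PGV.fx_anti hBA)] at h2
  rw [e, e]
  refine Nat.le_of_mul_le_mul_right ?_ (Nat.card_pos (α := H17.PGV.fx ρ A))
  rw [mul_assoc, h2, mul_left_comm, mul_right_comm, mul_comm _ (Nat.card ↥(W ⊓ H17.PGV.fx ρ A))]
  exact Nat.mul_le_mul_left _ ((Nat.mul_le_mul_left _ h3).trans h1)

end Cfsg.Agent.S3087
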