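import Cfsg.Statements.S3104
import Cfsg.Agent.H19.GH1
import Cfsg.Agent.S3103
import Cfsg.Agent.S0249
import Cfsg.Agent.S0495

set_option autoImplicit false
open Cfsg

namespace Cfsg.Agent.S3104

/-- Let X be a finite nonsolvable 2-constrained group with no nontrivial normal subgroup of odd order such that O₂(X) has sectional 2-rank at most 4, and write Q for X/O₂(X). Then Q is isomorphic to the projective special linear group of dimension 3 over the field with 2 elements, to an alternating group of degree n with 5 ≤ n ≤ 8, to a symmetric group of degree n with 5 ≤ n ≤ 7, or else O₃(Q) has order 3 and Q/O₃(Q) is isomorphic to the alternating or the symmetric group of degree 5 (so Q is the direct product of a group of order 3 with the alternating group of degree 5, or an extension of that direct product by a group of order 2). If moreover X itself has sectional 2-rank at most 4, then Q is not isomorphic to the symmetric group of degree 6 or 7 nor to the alternating group of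 degree 8. -/
theorem result {X : Type*} [Group X] [Finite X] (hns : ¬ Group.IsSolvable X) (hc : Cfsg.IsPConstrained 2 X) (hO : Cfsg.oddCore X = ⊥)
    (h4 : Cfsg.SectionalPRankLE 2 4 ↥(Cfsg.pCore 2 X)) :
    ((∃ (F : Type) (_ : Field F) (_ : Fintype F), Fintype.card F = 2 ∧
          Nonempty (X ⧸ Cfsg.pCore 2 X ≃* Matrix.ProjectiveSpecialLinearGroup (Fin 3) F)) ∨
        (∃ n : ℕ, 5 ≤ n ∧ n ≤ 8 ∧ Nonempty (X ⧸ Cfsg.pCore 2 X ≃* ↥(alternatingGroup (Fin n)))) ∨
        (∃ n : ℕ, 5 ≤ n ∧ n ≤ 7 ∧ Nonempty (X ⧸ Cfsg.pCore 2 X ≃* Equiv.Perm (Fin n))) ∨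
        (Nat.card ↥(Cfsg.pCore 3 (X ⧸ Cfsg.pCore 2 X)) = 3 ∧
          (Nonempty ((X ⧸ Cfsg.pCore 2 X) ⧸ Cfsg.pCore 3 (X ⧸ Cfsg.pCore 2 X) ≃* ↥(alternatingGroup (Fin 5))) ∨
            Nonempty ((X ⧸ Cfsg.pCore 2 X) ⧸ Cfsg.pCore 3 (X ⧸ Cfsg.pCore 2 X) ≃* Equiv.Perm (Fin 5))))) ∧
      (Cfsg.SectionalPRankLE 2 4 X →
        ¬ (Nonempty (X ⧸ Cfsg.pCore 2 X ≃* Equiv.Perm (Fin 6)) ∨ Nonempty (X ⧸ Cfsg.pCore 2 X ≃* Equiv.Perm (Fin 7)) ∨
            Nonempty (X ⧸ Cfsg.pCore 2 X ≃* ↥(alternatingGroup (Fin 8))))) := by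
  open Subgroup H18 H3 H19.GH in
  obtain ⟨f, hf⟩ := Cfsg.Agent.S3103.result hc hO h4
  have := Fact.mk Nat.prime_two
  have hQs : ¬ Group.IsSolvable (X ⧸ pCore 2 X) := fun h => hns (by
    have := (H1.pCore_isPGroup 2 X).isNilpotent
    exact Group.isSolvable_of_ker_le_range (pCore 2 X).subtype (QuotientGroup.mk' (pCore 2 X)) (by simp))
  refine ⟨?_, fun h5 => ?_⟩
  · by_cases hs : ∀ N : Subgroup (X ⧸ pCore 2 X), N.Normal → Group.IsSolvable N → N = ⊥
    · have : Nontrivial (X ⧸ pCore 2 X) := not_subsingleton_iff_nontrivial.1 fun h => hQs inferInstance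
      rcases H6.emb_class f hf hs with h | h | h | ⟨h1, h⟩
      · exact Or.inr (Or.inl h)
      · exact Or.inr (Or.inr (Or.inl ⟨5, le_rfl, by norm_num, h⟩))
      · exact Or.inr (Or.inr (Or.inl ⟨6, by norm_num, by norm_num, h⟩))
      · have := Cfsg.Agent.S0249.result (F := ZMod 2) 3 le_rfl
        have h3 := H10.card_PSL (F := ZMod 2) 3 (by norm_num)
        simp only [ZMod.card, Fin.prod_univ_three] at h3
        have := Fact.mk (by norm_num : Nat.Prime 7)
        obtain ⟨e1⟩ := Cfsg.Agent.S0495.result h (F := ZMod 7) (ZMod.card 7)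
        obtain ⟨e2⟩ := Cfsg.Agent.S0495.result (G := Matrix.ProjectiveSpecialLinearGroup (Fin 3) (ZMod 2))
          (by simpa using h3) (F := ZMod 7) (ZMod.card 7)
        exact Or.inl ⟨ZMod 2, inferInstance, inferInstance, ZMod.card 2, ⟨e1.trans e2.symm⟩⟩
    · push Not at hs
      obtain ⟨N, hN, hs, h0⟩ := hs
      obtain ⟨M, p, hM, h1, -, hp, hcm, hx, hP, -⟩ := H1.exists_normal_elementary_le N h0
      refine Or.inr (Or.inr (Or.inr (three_case f hf hQs M h1 hp ?_ hcm hx)))
      rintro rfl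
      exact h1 (eq_bot_iff.2 (H1.pCore_quotient_eq_bot 2 X ▸ H1.le_pCore hP))
  have nb : ¬ Big (X ⧸ pCore 2 X) := fun hb => by
    have hC : C(pCore 2 X) ≤ pCore 2 X := by
      have h : ⊤ ⊓ C(H17.oP 2 ⊤) ≤ H17.oP 2 ⊤ := (H4.isPConstrained_iff_of_eq_bot hO).1 hc
      rwa [H17.oP_top, top_inf_eq] at h
    have hQ : PiGrp {2} (pCore 2 X) := piGrp_of_isPGroup Nat.prime_two (H1.pCore_isPGroup 2 X)
    have := normal_phi (U := pCore 2 X)
    have hle : Φ(pCore 2 X) ≤ pCore 2 X := H18.phi_le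
    let π := QuotientGroup.mk' Φ(pCore 2 X)
    have hπ : Function.Surjective π := QuotientGroup.mk'_surjective _
    let ρ : X ⧸ Φ(pCore 2 X) →* X ⧸ pCore 2 X := QuotientGroup.map _ _ (MonoidHom.id X) hle
    have hk : ρ.ker = (pCore 2 X).map π := by
      ext y
      obtain ⟨y, rfl⟩ := hπ y
      refine ⟨fun h => mem_map_of_mem π ((QuotientGroup.eq_one_iff y).1 h), ?_⟩
      rintro ⟨u, hu, e⟩
      rw [← e]
      exact (QuotientGroup.eq_one_iff u).2 hu
    have he : Elem 2 ρ.ker := by
      rw [hk]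
      refine ⟨?_, ?_⟩
      · rw [abel_iff_der, ← map_commutator, Subgroup.map_eq_bot_iff, QuotientGroup.ker_mk']
        exact hQ.der_le_phi Nat.prime_two
      · rintro _ ⟨u, hu, rfl⟩
        rw [← map_pow]; exact (QuotientGroup.eq_one_iff _).2 (hQ.pow_mem_phi Nat.prime_two hu)
    have hV : Nat.card ρ.ker ≤ 2 ^ 4 := by
      rw [hk, ← relIndex_ker, QuotientGroup.ker_mk', relIndex]
      have := sec_le (H := ⊤) (N := Φ(pCore 2 X).subgroupOf _) h4
        (commutator_le.2 fun a _ b _ => hQ.der_le_phi Nat.prime_two (commutator_mem_commutator a.2 b.2))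
        fun y _ => hQ.pow_mem_phi Nat.prime_two y.2
      rwa [relIndex_top_right] at this
    obtain ⟨H, N, h1, h2, h3⟩ := rank5' ρ (fun y => by
        obtain ⟨y, rfl⟩ := QuotientGroup.mk_surjective y; exact ⟨π y, rfl⟩) he.2 hV
      (fun a ha b hb => comm_of_cent he.1 ha hb) (fun y hy => by
        obtain ⟨y, rfl⟩ := hπ y
        have : y ∈ pCore 2 X := (cmod_phi hC).le (show π y ∈ C((pCore 2 X).map π) from
          mem_C.2 fun v hv => (hy v (hk ▸ hv)).symm)
        exact hk ▸ mem_map_of_mem π this) hb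
    have := sec_le (H := H.comap π) (N := N.comap π) h5
      (commutator_le.2 fun a ha b hb => by
        rw [mem_comap, map_commutatorElement]; exact h1 (commutator_mem_commutator ha hb))
      fun y hy => by rw [mem_comap, map_pow]; exact h2 _ hy
    rw [relIndex_comap, map_comap_eq_self_of_surjective hπ] at this
    omega
  rintro (⟨⟨e⟩⟩ | ⟨⟨e⟩⟩ | ⟨⟨e⟩⟩)
  · exact nb (big6.map e.symm)
  · have : IsSimpleGroup H6.A8 := alternatingGroup.isSimpleGroup (by simp)
    have h3 : f.range.index = 4 := by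
      have := card_mul_index f.range
      rw [H6.card_A8, ← Nat.card_congr (MonoidHom.ofInjective hf).toEquiv, Nat.card_congr e.toEquiv, Nat.card_perm,
        Nat.card_eq_fintype_card (α := Fin 7), Fintype.card_fin] at this
      norm_num [Nat.factorial] at this
      omega
    have := H6.card_dvd_fact_index (K := f.range) fun h => by simp [h] at h3
    rw [h3, H6.card_A8] at this
    norm_num [Nat.factorial] at this
  · exact nb (big8.map e.symm)

end Cfsg.Agent.S3104
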