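import Cfsg.Statements.S3109
import Cfsg.Agent.H17.Dich
import Cfsg.Agent.S1221

set_option autoImplicit false
open Cfsg

namespace Cfsg.Agent.S3109

open H17 H18 Subgroup

/-- Let G be a non-abelian finite simple group in which every 2-local subgroup is 2-constrained, and suppose some Sylow 2-subgroup S of G has a self-centralizing abelian normal subgroup A (C_S(A) = A) of 2-rank at least 3. Then the centralizer of every involution of G has no nontrivial normal subgroup of odd order. -/
theorem result {G : Type*} [Group G] [Finite G] [IsSimpleGroup G] (hG : ¬ IsMulCommutative G)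
    (h2c : ∀ T : Subgroup G, IsPGroup 2 T → T ≠ ⊥ → Cfsg.IsPConstrained 2 ↥(Subgroup.normalizer (T : Set G)))
    (S : Sylow 2 G) (A : Subgroup ↥(S : Subgroup G)) (hAn : A.Normal) (hAab : IsMulCommutative ↥A)
    (hAC : Subgroup.centralizer (A : Set ↥(S : Subgroup G)) = A) (hA3 : ¬ Cfsg.PRankLE 2 2 ↥A) :
    ∀ t : G, orderOf t = 2 → Cfsg.centralizerPPrimeCore 2 t = ⊥ := by
  have c : ∀ t : G, orderOf t = 2 → pLay 2 C1(t) = ⊥ := fun t ht =>
    pLay_C1_of_constrained h2c (isPGroup_zpowers_of_orderOf ht) (by rintro rfl; simp at ht)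
  have hS := hall_sylow_top Nat.prime_two S
  obtain ⟨E, n, e, c3⟩ := exists_nml_elem S A hAn hAab hA3 hS
  obtain ⟨M, W, h⟩ := exists_DS c hS ⟨E, bot_le, n.le, e, c3⟩
  exact fun t => h.eq_bot (fun t ht t2 => (big_of_nml_elem n e c3 ht t2).mono le_rfl h.le) (oddCore_eq_bot_of_simple
    (even_of_not_prankLE fun h => not_prankLE_of_elem Nat.prime_two le_top e c3 (prankLE_top.2 h))) Cfsg.Agent.S1221.result

end Cfsg.Agent.S3109
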