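import Cfsg.Statements.S3154
import Cfsg.Agent.H19.L34

set_option autoImplicit false
open Cfsg

namespace Cfsg.Agent.S3154

/-- Let X be a finite quasisimple group whose centre is an elementary abelian 2-group and whose central quotient is isomorphic to the projective special linear group of dimension 3 over the field with 4 elements. Let T be a Sylow 2-subgroup of X and H ≠ K subgroups of T containing the centre Z(X) whose images in X/Z(X) are elementary abelian of order 16 (the two such subgroups of a Sylow 2-subgroup of the quotient). Then H and K are elementary abelian, H ∩ K is the centre of the subgroup they generate, and each of N_X(H), N_X(K) is a split extension of H, respectively K, by the projective special linear group of dimension 2 over the field with 4 elements (there is a complement isomorphic to that group). -/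
theorem result {X : Type*} [Group X] [Finite X] (hq : Cfsg.IsQuasisimple X) (hZ : Cfsg.IsElementaryAbelian 2 (Subgroup.center X))
    {F : Type*} [Field F] [Fintype F] (hF : Fintype.card F = 4) (hXL : Nonempty ((X ⧸ Subgroup.center X) ≃* Matrix.ProjectiveSpecialLinearGroup (Fin 3) F))
    (T : Sylow 2 X) (H K : Subgroup X) (hHK : H ≠ K) (hHT : H ≤ T) (hKT : K ≤ T) (hZH : Subgroup.center X ≤ H) (hZK : Subgroup.center X ≤ K)
    (hH : Cfsg.IsElementaryAbelian 2 (H.map (QuotientGroup.mk' (Subgroup.center X))) ∧ Nat.card ↥(H.map (QuotientGroup.mk' (Subgroup.center X))) = 16)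
    (hK : Cfsg.IsElementaryAbelian 2 (K.map (QuotientGroup.mk' (Subgroup.center X))) ∧ Nat.card ↥(K.map (QuotientGroup.mk' (Subgroup.center X))) = 16) :
    Cfsg.IsElementaryAbelian 2 H ∧ Cfsg.IsElementaryAbelian 2 K ∧
      H ⊓ K = (Subgroup.center ↥(H ⊔ K)).map (H ⊔ K).subtype ∧
      (∃ C : Subgroup X, C ≤ Subgroup.normalizer (H : Set X) ∧ C ⊓ H = ⊥ ∧ H ⊔ C = Subgroup.normalizer (H : Set X) ∧
        Nonempty (↥C ≃* Matrix.ProjectiveSpecialLinearGroup (Fin 2) F)) ∧
      (∃ C : Subgroup X, C ≤ Subgroup.normalizer (K : Set X) ∧ C ⊓ K = ⊥ ∧ K ⊔ C = Subgroup.normalizer (K : Set X) ∧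
        Nonempty (↥C ≃* Matrix.ProjectiveSpecialLinearGroup (Fin 2) F)) := by
  open H19.L34 Subgroup in
  obtain ⟨e0⟩ := hXL
  obtain ⟨e, he⟩ := normal_form hF e0 T T.isPGroup'
  set ψ := e.toMonoidHom.comp (QuotientGroup.mk' (center X)) with hψ
  have hs : Function.Surjective ψ := e.surjective.comp (QuotientGroup.mk'_surjective _)
  have hk : ψ.ker = center X := by ext x; simp [hψ, MonoidHom.mem_ker]
  have h2 := char2 hF
  have key : ∀ H : Subgroup X, H ≤ T → center X ≤ H → (Cfsg.IsElementaryAbelian 2 (H.map (QuotientGroup.mk' (center X))) ∧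
      Nat.card ↥(H.map (QuotientGroup.mk' (center X))) = 16) → H = (A1 F).comap ψ ∨ H = (A2 F).comap ψ := by
    intro H h1 h3 h4
    have := two_ea (H.map ψ) ((map_mono h1).trans he) h2 (by
      rintro _ ⟨x, hx, rfl⟩
      have := h4.1.2 _ ⟨x, hx, rfl⟩
      rw [hψ, MonoidHom.comp_apply, ← map_pow, this, map_one]) (by
      rw [hψ, ← map_map, card_map_of_injective e.injective, h4.2, hF]; rfl)
    have e3 : (H.map ψ).comap ψ = H := comap_map_eq_self (hk ▸ h3)
    exact this.imp (fun h => by rw [← h, e3]) fun h => by rw [← h, e3]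
  have ti : Function.Injective (tau (F := F)) := Function.LeftInverse.injective tau_tau
  have p1 := half hF ψ hs hk hZ.2
  have p2 := half hF (tau.comp ψ) ((Function.RightInverse.surjective tau_tau).comp hs)
    (by rw [← hk]; ext x; simp only [MonoidHom.mem_ker, MonoidHom.comp_apply, map_eq_one_iff _ ti]) hZ.2
  rw [← comap_comap, comap1] at p2
  have all : ∀ H : Subgroup X, (H = (A1 F).comap ψ ∨ H = (A2 F).comap ψ) → (∀ x ∈ H, x ^ 2 = 1) ∧
      (∀ x, (∀ y ∈ H, x * y = y * x) → x ∈ H) ∧ ∃ C : Subgroup X, C ≤ normalizer (H : Set X) ∧ C ⊓ H = ⊥ ∧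
      H ⊔ C = normalizer (H : Set X) ∧ Nonempty (C ≃* Matrix.ProjectiveSpecialLinearGroup (Fin 2) F) := by
    rintro H (rfl | rfl)
    exacts [p1, p2]
  obtain ⟨a1, a2, a3⟩ := all H (key H hHT hZH hH)
  obtain ⟨b1, b2, b3⟩ := all K (key K hKT hZK hK)
  have cH := comm_of_sq H a1
  have cK := comm_of_sq K b1
  refine ⟨⟨cH, a1⟩, ⟨cK, b1⟩, le_antisymm ?_ ?_, a3, b3⟩
  · intro x hx
    refine ⟨⟨x, mem_sup_left hx.1⟩, mem_center_iff.2 fun y => Subtype.ext ?_, rfl⟩
    have : H ⊔ K ≤ centralizer {x} := sup_le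
      (fun y hy => mem_centralizer_singleton_iff.2 (congrArg Subtype.val (cH.is_comm.comm ⟨y, hy⟩ ⟨x, hx.1⟩)))
      (fun y hy => mem_centralizer_singleton_iff.2 (congrArg Subtype.val (cK.is_comm.comm ⟨y, hy⟩ ⟨x, hx.2⟩)))
    exact mem_centralizer_singleton_iff.1 (this y.2)
  · rintro _ ⟨x, hx, rfl⟩
    have c := mem_center_iff.1 hx
    exact ⟨a2 _ fun y hy => (congrArg Subtype.val (c ⟨y, mem_sup_left hy⟩)).symm,
      b2 _ fun y hy => (congrArg Subtype.val (c ⟨y, mem_sup_right hy⟩)).symm⟩

end Cfsg.Agent.S3154
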