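import Cfsg.Statements.S3155
import Mathlib

set_option autoImplicit false
open Cfsg

namespace Cfsg.Agent.S3155

/-- Let B be the direct product of three cyclic groups of order 4. Then the automorphism of B inverting every element is not the square of any automorphism of B. -/
theorem result {B : Type*} [CommGroup B] [Finite B] (hB : Nonempty (B ≃* Multiplicative (ZMod 4 × ZMod 4 × ZMod 4)))
    (τ : B ≃* B) : τ.trans τ ≠ MulEquiv.inv B := by
  obtain ⟨e⟩ := hB
  intro h
  -- transport to a linear map on (ZMod 4)^3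
  let σ : Multiplicative (ZMod 4 × ZMod 4 × ZMod 4) ≃* Multiplicative (ZMod 4 × ZMod 4 × ZMod 4) :=
    (e.symm.trans τ).trans e
  let f : (ZMod 4 × ZMod 4 × ZMod 4) →+ (ZMod 4 × ZMod 4 × ZMod 4) :=
    (MulEquiv.toAdditive σ).toAddMonoidHom
  have hf : ∀ x, f (f x) = -x := by
    intro x
    have := congrArg (fun u : B ≃* B => e (u (e.symm (Multiplicative.ofAdd x)))) h
    simp only [MulEquiv.trans_apply, MulEquiv.inv_apply, map_inv, MulEquiv.apply_symm_apply] at this
    have h2 : σ (σ (Multiplicative.ofAdd x)) = (Multiplicative.ofAdd x)⁻¹ := by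
      simp [σ, this]
    exact h2
  let g : (ZMod 4 × ZMod 4 × ZMod 4) →ₗ[ZMod 4] (ZMod 4 × ZMod 4 × ZMod 4) := f.toZModLinearMap 4
  have hg : g * g = -1 := by
    apply LinearMap.ext
    intro x
    simpa [g] using hf x
  have hd := congrArg LinearMap.det hg
  rw [map_mul] at hd
  have h3 : LinearMap.det (-1 : (ZMod 4 × ZMod 4 × ZMod 4) →ₗ[ZMod 4] (ZMod 4 × ZMod 4 × ZMod 4)) = -1 := by
    have : (-1 : (ZMod 4 × ZMod 4 × ZMod 4) →ₗ[ZMod 4] (ZMod 4 × ZMod 4 × ZMod 4)) = (-1 : ZMod 4) • 1 := by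
      apply LinearMap.ext; intro x; simp
    rw [this, LinearMap.det_smul]
    have hr : Module.finrank (ZMod 4) (ZMod 4 × ZMod 4 × ZMod 4) = 3 := by
      haveI : Nontrivial (ZMod 4) := ⟨⟨0, 1, by decide⟩⟩
      simp [Module.finrank_prod]
    rw [hr, map_one]
    decide
  rw [h3] at hd
  revert hd
  generalize LinearMap.det g = d
  revert d
  decide

end Cfsg.Agent.S3155
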