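import Cfsg.Statements.S3156
import Cfsg.Agent.H3.U3

set_option autoImplicit false
open Cfsg

namespace Cfsg.Agent.S3156

/-- If a finite group T is isomorphic to a Sylow 2-subgroup of the projective special unitary group of dimension 3 with parameter 4 (realised over the field with 16 elements), then no subgroup of the automorphism group of T is isomorphic to the symmetric group of degree 3. -/
theorem result {T : Type*} [Group T] [Finite T] (hT : (∃ (F : Type) (_ : Field F) (_ : Fintype F), Fintype.card F = 16 ∧ ∃ S : Sylow 2 (Cfsg.PSU 3 F 4), Nonempty (T ≃* ↥(S : Subgroup (Cfsg.PSU 3 F 4))))) (H : Subgroup (MulAut T)) : ¬ Nonempty (↥H ≃* Equiv.Perm (Fin 3)) := by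
  rintro ⟨e⟩
  obtain ⟨F, _, _, hF, S, ⟨φ⟩⟩ := hT
  obtain ⟨_, σ, f, z, hσ, h⟩ := H3.exists_u3d_PSU (n := 2) hF S
  replace h := h.equiv φ
  generalize (fun x => f (φ x)) = f, (fun x => z (φ x)) = z at h
  have k : ∀ s : Equiv.Perm (Fin 3), s * s = 1 → ∀ a ∈ Subgroup.center T, (e.symm s).1 a = a := fun s hs a ha =>
    h.aut_center _ (fun x => by
      rw [← MulAut.mul_apply, ← Subgroup.coe_mul, ← map_mul, hs, map_one, Subgroup.coe_one, MulAut.one_apply]) ha
  have c : ∀ a ∈ Subgroup.center T, (e.symm (Equiv.swap 0 1 * Equiv.swap 1 2)).1 a = a := fun a ha => by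
    rw [map_mul, Subgroup.coe_mul, MulAut.mul_apply, k _ (by decide) a ha, k _ (by decide) a ha]
  have r3 : ∀ x, (e.symm (Equiv.swap 0 1 * Equiv.swap 1 2)).1 ((e.symm (Equiv.swap 0 1 * Equiv.swap 1 2)).1
      ((e.symm (Equiv.swap 0 1 * Equiv.swap 1 2)).1 x)) = x := fun x => by
    rw [← MulAut.mul_apply, ← MulAut.mul_apply, ← Subgroup.coe_mul, ← Subgroup.coe_mul, ← map_mul, ← map_mul,
      show _ * _ * _ = (1 : Equiv.Perm (Fin 3)) by decide, map_one, Subgroup.coe_one, MulAut.one_apply]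
  have r1 : (e.symm (Equiv.swap 0 1 * Equiv.swap 1 2)).1 ≠ 1 := fun h =>
    absurd (e.symm.map_eq_one_iff.1 (Subtype.ext h)) (by decide)
  generalize (e.symm (Equiv.swap 0 1 * Equiv.swap 1 2)).1 = ρ at c r3 r1
  have N : ∀ y, σ (f (ρ y)) * f (ρ y) = σ (f y) * f y := fun y => by
    rw [← h.z_sq, ← h.z_sq, ← map_mul, c _ (h.mem_center.2 (h.f_sq y))]
  have two : (2 : F) = 0 := CharTwo.two_eq_zero
  have k1 : ∀ x, f (ρ x) = f x := fun x => by
    have n1 := N (x * ρ x)
    have n2 := N (ρ (x * ρ x))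
    simp only [map_mul, h.mul_f, r3] at n1 n2
    by_contra h0
    have v0 : f x + f (ρ x) ≠ 0 := fun e => h0 (CharTwo.add_eq_zero.1 e).symm
    rw [show f (ρ (ρ x)) + f x = f x + f (ρ x) + (f (ρ x) + f (ρ (ρ x))) by linear_combination -f (ρ x) * two] at n2
    generalize f x + f (ρ x) = v, f (ρ x) + f (ρ (ρ x)) = w at *
    obtain ⟨u, rfl⟩ : ∃ u, w = u * v := ⟨w / v, by field_simp⟩
    have s0 : σ v * v ≠ 0 := mul_ne_zero ((map_ne_zero σ).2 v0) v0
    simp only [map_add, map_mul] at n1 n2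
    have e1 : σ u * u = 1 := mul_right_cancel₀ s0 (by linear_combination n1)
    have e2 : σ u + u = -1 := mul_right_cancel₀ s0 (by linear_combination n2)
    have e3 : σ u = u := by
      rw [hσ]
      linear_combination (u ^ 2 - u) * (u * e2 - e1)
    exact one_ne_zero (by linear_combination e2 - e3 - u * two : (1 : F) = 0)
  refine r1 (MulEquiv.ext fun x => ?_)
  obtain ⟨a, ha⟩ : ∃ a, ρ x = x * a := ⟨x⁻¹ * ρ x, by simp⟩
  have a0 : f a = 0 := by simpa [ha, h.mul_f] using k1 x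
  have := r3 x
  rw [ha, map_mul, map_mul, c a (h.mem_center.2 a0), c a (h.mem_center.2 a0), ha, map_mul, c a (h.mem_center.2 a0), mul_assoc,
    h.sq_eq_one.2 a0, mul_one] at this
  exact ha.symm.symm.trans (ha ▸ this)

end Cfsg.Agent.S3156
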