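import Cfsg.Statements.S3162
import Cfsg.Agent.H17.SzAut

set_option autoImplicit false
open Cfsg

namespace Cfsg.Agent.S3162

/-- Let S be a Sylow 2-subgroup of the special unitary group of dimension 3 with parameter q = 2^n (n ≥ 2; realised over the field with q² elements). Then the largest normal 2-subgroup of the automorphism group of S is elementary abelian of order 2^(2n²), and the automorphism group has order 2^(2n²) · 2n(q² − 1). -/
theorem result {S : Type*} [Group S] [Finite S] (n : ℕ) (hn : 2 ≤ n) {F : Type*} [Field F] [Fintype F] (hF : Fintype.card F = 4 ^ n)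
    (P : Sylow 2 ↥(Cfsg.SU 3 F (2 ^ n))) (hS : Nonempty (S ≃* ↥(P : Subgroup ↥(Cfsg.SU 3 F (2 ^ n))))) :
    Cfsg.IsElementaryAbelian 2 (Cfsg.pCore 2 (MulAut S)) ∧ Nat.card ↥(Cfsg.pCore 2 (MulAut S)) = 2 ^ (2 * n ^ 2) ∧
      Nat.card (MulAut S) = 2 ^ (2 * n ^ 2) * (2 * n * ((2 ^ n) ^ 2 - 1)) := by
  obtain ⟨φ⟩ := hS
  have hF' : Fintype.card F = (2 ^ n) ^ 2 := by rw [hF, ← pow_mul, mul_comm, pow_mul]; rfl
  obtain ⟨_, σ, f, z, -, h⟩ := H3.exists_u3d_SU hF' P
  replace h := h.equiv φ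
  obtain ⟨h1, h2, h3⟩ := (H17.cd_u3 h).aut (m := 2 * n) (q := 2 ^ n) (by rw [hF, pow_mul]; rfl) ((Nat.card_congr
    (Equiv.subtypeEquivRight fun x => h.mem_center.symm)).trans (h.card_center (Nat.card_eq_fintype_card.trans hF')))
    (H17.semi_u3 h.inv h.ne)
  have e : (2 ^ n) ^ (2 * n) = 2 ^ (2 * n ^ 2) := by rw [← pow_mul]; congr 1; ring
  exact ⟨h1, h2.trans e, by rw [h3, e, ← pow_mul, mul_comm n]⟩

end Cfsg.Agent.S3162
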