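import Cfsg.Statements.S3179
import Cfsg.Agent.H13.CitJ
import Cfsg.Agent.S0280
import Cfsg.Agent.H10.PSL2Max

set_option autoImplicit false
open Cfsg

namespace Cfsg.Agent.S3179

open Subgroup Matrix H10
open scoped MatrixGroups

def ma : GL (Fin 5) (ZMod 2) :=
  ⟨!![0,1,0,0,0; 1,1,0,0,0; 0,0,1,0,0; 0,0,0,1,0; 0,0,0,0,1], !![1,1,0,0,0; 1,0,0,0,0; 0,0,1,0,0; 0,0,0,1,0; 0,0,0,0,1],
    by decide +kernel, by decide +kernel⟩
def mb : GL (Fin 5) (ZMod 2) :=
  ⟨!![1,0,0,0,0; 0,1,0,0,0; 0,0,0,1,0; 0,0,1,1,0; 0,0,0,0,1], !![1,0,0,0,0; 0,1,0,0,0; 0,0,1,1,0; 0,0,1,0,0; 0,0,0,0,1],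
    by decide +kernel, by decide +kernel⟩

theorem mab : ma * mb = mb * ma ∧ ma * ma * ma = 1 ∧ mb * mb * mb = 1 ∧ ma ≠ 1 ∧ mb ≠ 1 ∧ ma ≠ mb ∧ ma * mb ≠ 1 := by
  simp only [Ne, Units.ext_iff]
  decide +kernel

theorem card_GL5 : Nat.card (GL (Fin 5) (ZMod 2)) = 3 ^ 2 * 1111040 := by
  rw [card_GL_field, ZMod.card]; decide +kernel

theorem no_nine (g : GL (Fin 5) (ZMod 2)) : ¬ 9 ∣ orderOf g := fun h => by
  classical
  obtain ⟨h1, h2, h3, h4, h5, h6, h7⟩ := mab
  have hc : IsMulCommutative (Subgroup.closure ({ma, mb} : Set _)) := isMulCommutative_closure (by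
    rintro _ (rfl | rfl) _ (rfl | rfl) <;> simp [h1])
  have h8 : ∀ x ∈ Subgroup.closure ({ma, mb} : Set _), x ^ 3 = 1 := fun x hx => by
    induction hx using closure_induction with
    | mem x hx => rcases hx with rfl | rfl <;> simpa [pow_succ]
    | one => simp
    | mul x y hx hy a b =>
      rw [Commute.mul_pow (congrArg Subtype.val (hc.is_comm.comm ⟨x, hx⟩ ⟨y, hy⟩)), a, b, one_mul]
    | inv x _ a => rw [inv_pow, a, inv_one]
  obtain ⟨P, hP⟩ := IsPGroup.exists_le_sylow (p := 3) (P := Subgroup.closure ({ma, mb} : Set _))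
    fun x => ⟨1, Subtype.ext (by simpa using h8 x x.2)⟩
  have ho : orderOf (g ^ (orderOf g / 9)) = 9 := orderOf_pow_orderOf_div (orderOf_pos g).ne' h
  obtain ⟨Q, hQ⟩ := (IsPGroup.of_card (p := 3) (n := 2) (by rw [Nat.card_zpowers, ho]; rfl) :
    IsPGroup 3 (zpowers (g ^ (orderOf g / 9)))).exists_le_sylow
  have hQ' := eq_of_le_of_card_ge hQ (by rw [sylow_card_of card_GL5 (by norm_num), Nat.card_zpowers, ho]; rfl)
  have : IsCyclic (Q : Subgroup (GL (Fin 5) (ZMod 2))) := hQ' ▸ inferInstance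
  have : IsCyclic (P : Subgroup (GL (Fin 5) (ZMod 2))) := isCyclic_of_surjective (Q.equiv P) (Q.equiv P).surjective
  have := Fintype.ofFinite (P : Subgroup (GL (Fin 5) (ZMod 2)))
  have a : ma ∈ Subgroup.closure ({ma, mb} : Set _) := subset_closure (by simp)
  have b : mb ∈ Subgroup.closure ({ma, mb} : Set _) := subset_closure (by simp)
  have h9 := (Finset.card_le_card (s := {1, ⟨ma, hP a⟩, ⟨mb, hP b⟩, ⟨ma * mb, hP (mul_mem a b)⟩}) (by
    simp only [Finset.insert_subset_iff, Finset.singleton_subset_iff, Finset.mem_filter, Finset.mem_univ, true_and]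
    exact ⟨one_pow _, Subtype.ext (h8 _ a), Subtype.ext (h8 _ b), Subtype.ext (h8 _ (mul_mem a b))⟩)).trans
      (IsCyclic.card_pow_eq_one_le (α := (P : Subgroup (GL (Fin 5) (ZMod 2)))) (n := 3) (by norm_num))
  rw [Finset.card_insert_of_notMem (by simp [Subtype.ext_iff, h4.symm, h5.symm, h7.symm]),
    Finset.card_insert_of_notMem (by simp [Subtype.ext_iff, h6, h5]), Finset.card_pair (by simp [Subtype.ext_iff, h4])] at h9
  omega

theorem odd_dvd {a k : ℕ} (ha : Odd a) (h : a ∣ k * (3 ^ 2 * 1111040)) : a ∣ k * 9765 :=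
  (Nat.Coprime.pow_right 10 (Nat.coprime_two_right.2 ha)).dvd_of_dvd_mul_left (by
    rwa [show 2 ^ 10 * (k * 9765) = k * (3 ^ 2 * 1111040) by ring])

/-- Let X be a section of the general linear group GL(5, 2), that is, a quotient of a subgroup of it. If X is isomorphic to PSL(2, 2^n) for some n ≥ 2, to a Suzuki group over the field with 2^(2m+1) elements for some m ≥ 1, or to PSU(3, 2^n) for some n ≥ 2, then X is isomorphic to PSL(2, 4). -/
theorem result {H : Subgroup (GL (Fin 5) (ZMod 2))}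
    {K : Subgroup ↥H} [K.Normal]
    (hX : (∃ (n : ℕ) (F : Type) (_ : Field F) (_ : Fintype F), 2 ≤ n ∧ Fintype.card F = 2 ^ n ∧
        Nonempty (↥H ⧸ K ≃* Matrix.ProjectiveSpecialLinearGroup (Fin 2) F)) ∨
      (∃ (m : ℕ) (F : Type) (_ : Field F) (_ : Fintype F), 1 ≤ m ∧ Fintype.card F = 2 ^ (2 * m + 1) ∧
        Nonempty (↥H ⧸ K ≃* ↥(Cfsg.Lie.Sz F (2 ^ (m + 1))))) ∨
      (∃ (n : ℕ) (F : Type) (_ : Field F) (_ : Fintype F), 2 ≤ n ∧ Fintype.card F = 4 ^ n ∧
        Nonempty (↥H ⧸ K ≃* Cfsg.PSU 3 F (2 ^ n)))) :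
    ∃ (F : Type) (_ : Field F) (_ : Fintype F), Fintype.card F = 4 ∧
      Nonempty (↥H ⧸ K ≃* Matrix.ProjectiveSpecialLinearGroup (Fin 2) F) := by
  classical
  have hd : Nat.card (H ⧸ K) ∣ 3 ^ 2 * 1111040 :=
    card_GL5 ▸ (card_quotient_dvd_card K).trans (card_subgroup_dvd_card H)
  rcases hX with ⟨n, F, _, _, hn, hF, ⟨e⟩⟩ | ⟨m, F, _, _, hm, hF, ⟨e⟩⟩ | ⟨n, F, _, _, hn, hF, ⟨e⟩⟩
  · have h1 := card_PSL2 (F := F)
    have he : Even (2 ^ n) := (Nat.even_pow' (by omega)).2 even_two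
    have h2 := (card_PSL2 (F := F)).symm.dvd.trans (Nat.mul_dvd_mul (Nat.gcd_dvd_left _ _) (Nat.card_congr e.toEquiv ▸ hd))
    rw [hF, mul_assoc] at h2
    have h3 := odd_dvd ((Nat.Even.sub_odd Nat.one_le_two_pow he odd_one).mul he.add_one) ((dvd_mul_left _ _).trans h2)
    have h4 : n ≤ 7 := by
      by_contra h
      have := Nat.pow_le_pow_right two_pos (show 8 ≤ n by omega)
      have := (Nat.mul_le_mul (show 255 ≤ 2 ^ n - 1 by omega) (show 257 ≤ 2 ^ n + 1 by omega)).trans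
        (Nat.le_of_dvd (by norm_num) h3)
      omega
    interval_cases n
    · exact ⟨F, _, _, hF, ⟨e⟩⟩
    · obtain ⟨-, c, -, hc, -⟩ := exists_dihedral_nonsplit (F := F)
      obtain ⟨g, hg⟩ := QuotientGroup.mk'_surjective K (e.symm c)
      have := orderOf_map_dvd (QuotientGroup.mk' K) g
      rw [hg, MulEquiv.orderOf_eq, hc, hF, ← orderOf_coe] at this
      exact absurd this (no_nine _)
    all_goals exact absurd h3 (by norm_num)
  · rw [Nat.card_congr e.toEquiv, H13.card_sz hm hF, ← one_mul (3 ^ 2 * _)] at hd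
    have h3 := odd_dvd (((Nat.even_pow' (by omega)).2 ((Nat.even_pow' (by omega)).2 even_two)).add_one)
      (((dvd_mul_left _ _).mul_right _).trans hd)
    have h4 : m ≤ 2 := by
      by_contra h
      have := Nat.pow_le_pow_left (Nat.pow_le_pow_right two_pos (show 7 ≤ 2 * m + 1 by omega)) 2
      have := Nat.le_of_dvd (by norm_num) h3
      omega
    interval_cases m <;> exact absurd h3 (by norm_num)
  · have h := S0280.result (q := 2 ^ n) (by rw [hF, ← pow_mul, mul_comm, pow_mul]; rfl) 3 (by norm_num)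
    simp only [Finset.prod_range_succ, Finset.prod_range_zero] at h
    norm_num [-Nat.card_eq_fintype_card] at h
    have he : Even (2 ^ n) := (Nat.even_pow' (by omega)).2 even_two
    have h' : Nat.gcd 3 (2 ^ n + 1) * Nat.card (PSU 3 F (2 ^ n)) = (2 ^ n) ^ 3 * (((2 ^ n) ^ 2 - 1) * ((2 ^ n) ^ 3 + 1)) :=
      Nat.eq_of_mul_eq_mul_left (Nat.add_one_pos (2 ^ n)) (by linear_combination h)
    have h2 := h'.symm.dvd.trans (Nat.mul_dvd_mul (Nat.gcd_dvd_left _ _) (Nat.card_congr e.toEquiv ▸ hd))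
    have h3 := odd_dvd ((Nat.even_pow' (by omega)).2 he).add_one (((dvd_mul_left _ _).mul_left _).trans h2)
    have h4 : n ≤ 4 := by
      by_contra h
      have := Nat.pow_le_pow_left (Nat.pow_le_pow_right two_pos (show 5 ≤ n by omega)) 3
      have := Nat.le_of_dvd (by norm_num) h3
      omega
    interval_cases n <;> exact absurd h3 (by norm_num)

end Cfsg.Agent.S3179
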