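import Cfsg.Statements.S3182
import Cfsg.Agent.H4.Cor1
import Cfsg.Agent.H21.RED

set_option autoImplicit false
open Cfsg

namespace Cfsg.Agent.S3182

/-- Simple groups with central Sylow 2-intersections. Let G be a non-abelian finite simple group in which the intersection of any two distinct Sylow 2-subgroups is contained in the centre of some Sylow 2-subgroup. Then G is isomorphic to PSL(2, q) for some prime power q ≡ 0, 3 or 5 mod 8; or G has abelian Sylow 2-subgroups and an involution t whose centralizer is a maximal subgroup of G and is the direct product of the subgroup generated by t with a subgroup E having a normal subgroup isomorphic to PSL(2, q), q odd and greater than 3, with trivial centralizer in E; or G is isomorphic to a Suzuki group Sz(2^(2m+1)) with m ≥ 1, or to PSU(3, 2^n) with n ≥ 2. -/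
theorem result {G : Type*} [Group G] [Finite G] [IsSimpleGroup G]
    (hG : ¬ IsMulCommutative G)
    (hCI : ∀ S T : Sylow 2 G, S ≠ T → ∃ U : Sylow 2 G,
      (S : Subgroup G) ⊓ (T : Subgroup G) ≤ (Subgroup.center ↥(U : Subgroup G)).map (U : Subgroup G).subtype) :
    (∃ (F : Type) (_ : Field F) (_ : Fintype F),
        (Fintype.card F % 8 = 0 ∨ Fintype.card F % 8 = 3 ∨ Fintype.card F % 8 = 5) ∧
        Nonempty (G ≃* Matrix.ProjectiveSpecialLinearGroup (Fin 2) F)) ∨
    ((∀ S : Sylow 2 G, IsMulCommutative ↥(S : Subgroup G)) ∧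
      ∃ t : G, orderOf t = 2 ∧ IsCoatom (Subgroup.centralizer ({t} : Set G)) ∧
        ∃ E : Subgroup G, Cfsg.IsInternalDirectProduct (Subgroup.zpowers t) E (Subgroup.centralizer ({t} : Set G)) ∧
          ∃ (F : Type) (_ : Field F) (_ : Fintype F), Odd (Fintype.card F) ∧ 3 < Fintype.card F ∧
            ∃ N : Subgroup ↥E, N.Normal ∧ Nonempty (↥N ≃* Matrix.ProjectiveSpecialLinearGroup (Fin 2) F) ∧
              Subgroup.centralizer (N : Set ↥E) = ⊥) ∨
    (∃ (m : ℕ) (F : Type) (_ : Field F) (_ : Fintype F), 1 ≤ m ∧ Fintype.card F = 2 ^ (2 * m + 1) ∧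
        Nonempty (G ≃* ↥(Cfsg.Lie.Sz F (2 ^ (m + 1))))) ∨
    (∃ (n : ℕ) (F : Type) (_ : Field F) (_ : Fintype F), 2 ≤ n ∧ Fintype.card F = 4 ^ n ∧
        Nonempty (G ≃* Cfsg.PSU 3 F (2 ^ n))) := by
  exact H4.Gs.s3182 hG hCI

end Cfsg.Agent.S3182
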