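import Cfsg.Statements.S3183
import Cfsg.Agent.H29.Basic

set_option autoImplicit false
open Cfsg

namespace Cfsg.Agent.S3183

theorem center_map_iff {G : Type*} [Group G] (U : Subgroup G) (x : G) :
    x ∈ (Subgroup.center ↥U).map U.subtype ↔ x ∈ U ∧ U ≤ Subgroup.centralizer ({x} : Set G) := by
  constructor
  · rintro ⟨y, hy, rfl⟩
    refine ⟨y.2, fun u hu => ?_⟩
    rw [Subgroup.mem_centralizer_singleton_iff]
    exact congrArg Subtype.val (Subgroup.mem_center_iff.mp hy ⟨u, hu⟩)
  · rintro ⟨h1, h2⟩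
    refine ⟨⟨x, h1⟩, ?_, rfl⟩
    rw [SetLike.mem_coe, Subgroup.mem_center_iff]
    intro u
    exact Subtype.ext (Subgroup.mem_centralizer_singleton_iff.mp (h2 u.2))

theorem key {G : Type*} [Group G] [Finite G]
    (hCI : ∀ S T : Sylow 2 G, S ≠ T → ∃ U : Sylow 2 G,
      (S : Subgroup G) ⊓ (T : Subgroup G) ≤ (Subgroup.center ↥(U : Subgroup G)).map (U : Subgroup G).subtype)
    (S T : Sylow 2 G) (hST : S ≠ T) (x : G) (hxS : x ∈ (S : Subgroup G)) (hxT : x ∈ (T : Subgroup G)) :
    (S : Subgroup G) ≤ Subgroup.centralizer ({x} : Set G) := by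
  obtain ⟨U, hU⟩ := hCI S T hST
  have hUx := ((center_map_iff _ x).mp (hU ⟨hxS, hxT⟩)).2
  set A := (S : Subgroup G) ⊓ Subgroup.centralizer ({x} : Set G) with hA
  have hA2 : IsPGroup 2 A := S.isPGroup'.to_inf_left
  obtain ⟨c, hc, hce⟩ := H9.exists_conj_le_sylow_in hA2 inf_le_right U hUx
  have hU' : ((c⁻¹ • U : Sylow 2 G) : Subgroup G) ≤ Subgroup.centralizer ({x} : Set G) := by
    intro y hy
    rw [H9.mem_smul_sylow', inv_inv] at hy
    have := Subgroup.mul_mem _ (Subgroup.mul_mem _ (Subgroup.inv_mem _ hc) (hUx hy)) hc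
    simpa [mul_assoc] using this
  by_cases h : S = c⁻¹ • U
  · rw [h]; exact hU'
  obtain ⟨W, hW⟩ := hCI S _ h
  have hAW : ∀ a ∈ A, (W : Subgroup G) ≤ Subgroup.centralizer ({a} : Set G) := by
    intro a ha
    refine ((center_map_iff _ a).mp (hW ⟨ha.1, ?_⟩)).2
    show a ∈ ((c⁻¹ • U : Sylow 2 G) : Subgroup G)
    rw [H9.mem_smul_sylow', inv_inv]
    exact hce a ha
  by_contra hne
  have hlt : A < S := lt_of_le_of_ne inf_le_left (fun he => hne (by rw [← he]; exact inf_le_right))
  obtain ⟨g, hgS, hgA, hgN⟩ := H9.exists_mem_normalizer_of_lt S.isPGroup' hlt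
  have hWN : (W : Subgroup G) ≤ Subgroup.normalizer (A : Set G) := by
    refine le_trans ?_ (Subgroup.centralizer_le_normalizer _)
    intro w hw
    rw [Subgroup.mem_centralizer_iff]
    intro a ha
    exact (Subgroup.mem_centralizer_singleton_iff.mp (hAW a ha hw)).symm
  have hz : IsPGroup 2 (Subgroup.zpowers g) := S.isPGroup'.to_le (by simpa using hgS)
  obtain ⟨n, hn, hne'⟩ := H9.exists_conj_le_sylow_in hz (by simpa using hgN) W hWN
  have hxA : x ∈ A := ⟨hxS, Subgroup.mem_centralizer_singleton_iff.mpr rfl⟩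
  have h1 := Subgroup.mem_centralizer_singleton_iff.mp
    (hAW _ (H9.conj_mem_of_mem_normalizer hn hxA) (hne' g (Subgroup.mem_zpowers g)))
  apply hgA
  refine ⟨hgS, Subgroup.mem_centralizer_singleton_iff.mpr ?_⟩
  calc g * x = n⁻¹ * (n * g * n⁻¹ * (n * x * n⁻¹)) * n := by group
    _ = n⁻¹ * (n * x * n⁻¹ * (n * g * n⁻¹)) * n := by rw [h1]
    _ = x * g := by group

/-- Let G be a finite group in which the intersection of any two distinct Sylow 2-subgroups is contained in the centre of some Sylow 2-subgroup, and let S be a Sylow 2-subgroup. Then for every x in S the centralizer of x in S is a Sylow 2-subgroup of the centralizer of x in G (no 2-subgroup centralizing x is larger), and for every other Sylow 2-subgroup T the intersection S ∩ T lies in both the centre of S and the centre of T. -/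
theorem result {G : Type*} [Group G] [Finite G]
    (hCI : ∀ S T : Sylow 2 G, S ≠ T → ∃ U : Sylow 2 G,
      (S : Subgroup G) ⊓ (T : Subgroup G) ≤ (Subgroup.center ↥(U : Subgroup G)).map (U : Subgroup G).subtype)
    (S : Sylow 2 G) :
    (∀ x ∈ (S : Subgroup G), ∀ P : Subgroup G, IsPGroup 2 ↥P → P ≤ Subgroup.centralizer ({x} : Set G) →
        Nat.card ↥P ≤ Nat.card ↥((S : Subgroup G) ⊓ Subgroup.centralizer ({x} : Set G))) ∧
    (∀ T : Sylow 2 G, T ≠ S →
        (S : Subgroup G) ⊓ (T : Subgroup G) ≤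
          (Subgroup.center ↥(S : Subgroup G)).map (S : Subgroup G).subtype ⊓
            (Subgroup.center ↥(T : Subgroup G)).map (T : Subgroup G).subtype) := by
  constructor
  · intro x hx P hP hPx
    have hz : IsPGroup 2 (Subgroup.zpowers x) := S.isPGroup'.to_le (by simpa using hx)
    have hPz : IsPGroup 2 ↥(P ⊔ Subgroup.zpowers x) := by
      apply hP.to_sup_of_normal_right' hz
      refine le_trans ?_ (Subgroup.centralizer_le_normalizer _)
      intro y hy
      rw [Subgroup.mem_centralizer_iff]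
      rintro _ ⟨k, rfl⟩
      exact ((show Commute y x from Subgroup.mem_centralizer_singleton_iff.mp (hPx hy)).zpow_right k).symm
    obtain ⟨T, hT⟩ := hPz.exists_le_sylow
    by_cases h : S = T
    · apply Subgroup.card_le_of_le
      exact le_inf (by rw [h]; exact le_sup_left.trans hT) hPx
    · have := key hCI S T h x hx (hT (Subgroup.mem_sup_right (Subgroup.mem_zpowers x)))
      rw [inf_eq_left.mpr this, S.card_eq_multiplicity, ← T.card_eq_multiplicity]
      exact Subgroup.card_le_of_le (le_sup_left.trans hT)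
  · intro T hT x hx
    exact ⟨(center_map_iff _ x).mpr ⟨hx.1, key hCI S T hT.symm x hx.1 hx.2⟩,
      (center_map_iff _ x).mpr ⟨hx.2, key hCI T S hT x hx.2 hx.1⟩⟩

end Cfsg.Agent.S3183
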