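import Cfsg.Statements.S3184
import Cfsg.Agent.H9.IsoP

set_option autoImplicit false
open Cfsg

namespace Cfsg.Agent.S3184

/-- Let G be a finite group in which the intersection of any two distinct Sylow 2-subgroups is contained in the centre of some Sylow 2-subgroup, and let S be a Sylow 2-subgroup. If C is a nontrivial cyclic characteristic subgroup of S, then the involution of C is central modulo the largest normal subgroup of odd order of G: each of its conjugates has the same image in G/O(G). -/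
theorem result {G : Type*} [Group G] [Finite G]
    (hCI : ∀ S T : Sylow 2 G, S ≠ T → ∃ U : Sylow 2 G,
      (S : Subgroup G) ⊓ (T : Subgroup G) ≤ (Subgroup.center ↥(U : Subgroup G)).map (U : Subgroup G).subtype)
    (S : Sylow 2 G) (C : Subgroup ↥(S : Subgroup G)) (hC : C ≠ ⊥) (hCc : IsCyclic ↥C) (hCh : C.Characteristic)
    (c : ↥(S : Subgroup G)) (hc : c ∈ C) (hc2 : orderOf c = 2) :
    ∀ g : G, (QuotientGroup.mk (s := Cfsg.oddCore G) (g * (c : G) * g⁻¹)) =
      QuotientGroup.mk (s := Cfsg.oddCore G) (c : G) := by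
  have hc2' : orderOf (c : G) = 2 := by rw [Subgroup.orderOf_coe]; exact hc2
  -- the normalizer of `S` fixes `c`
  have hN : ∀ n ∈ Subgroup.normalizer ((S : Subgroup G) : Set G), n * (c : G) * n⁻¹ = c := by
    intro n hn
    let φ : MulAut (S : Subgroup G) := (S : Subgroup G).normalizerMonoidHom ⟨n, hn⟩
    have h1 : φ c ∈ C := by
      have := (Subgroup.characteristic_iff_map_le.1 hCh φ) (Subgroup.mem_map_of_mem _ hc)
      exact this
    obtain ⟨x, hx⟩ := hCc.exists_generator
    have ha : c ∈ Subgroup.zpowers (x : ↥(S : Subgroup G)) := by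
      obtain ⟨i, hi⟩ := Subgroup.mem_zpowers_iff.1 (hx ⟨c, hc⟩)
      exact Subgroup.mem_zpowers_iff.2 ⟨i, by simpa using congrArg Subtype.val hi⟩
    have hb : φ c ∈ Subgroup.zpowers (x : ↥(S : Subgroup G)) := by
      obtain ⟨i, hi⟩ := Subgroup.mem_zpowers_iff.1 (hx ⟨φ c, h1⟩)
      exact Subgroup.mem_zpowers_iff.2 ⟨i, by simpa using congrArg Subtype.val hi⟩
    have h3 : orderOf (φ c) = 2 := by rw [MulEquiv.orderOf_eq]; exact hc2
    have h2 := H9.mem_zpowers_of_orderOf_dvd hb ha (by rw [h3, hc2])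
    rcases H9.eq_one_or_eq_of_mem_zpowers (H9.mul_self_of_orderOf hc2) h2 with h | h
    · exact absurd h (H9.ne_one_of_orderOf h3)
    · exact congrArg Subtype.val h
  have hS : ∀ s ∈ S, Commute s (c : G) := fun s hs => by
    have := hN s (Subgroup.le_normalizer hs)
    rwa [mul_inv_eq_iff_eq_mul] at this
  -- a conjugate of `c` centralizing `S` is `c`
  have key : ∀ a : G, IsConj (c : G) a → (∀ s ∈ S, Commute s a) → a = c := fun a ha h => by
    obtain ⟨n, hn, e⟩ := H9.exists_normalizer_conj_of_commute S hS h ha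
    rw [← e, hN n hn]
  have key2 : ∀ (U : Sylow 2 G) (a b : G), IsConj (c : G) a → IsConj (c : G) b →
      (∀ s ∈ U, Commute s a) → (∀ s ∈ U, Commute s b) → a = b := fun U a b ha hb h1 h2 => by
    obtain ⟨g, rfl⟩ := MulAction.exists_smul_eq G S U
    have h3 : ∀ a : G, IsConj (c : G) a → (∀ s ∈ g • S, Commute s a) → g⁻¹ * a * g⁻¹⁻¹ = c :=
      fun a ha h => key _ (ha.trans (isConj_iff.2 ⟨g⁻¹, rfl⟩)) fun s hs => by
        have := (H9.commute_conj_iff (g := g⁻¹)).2
          (h (g * s * g⁻¹) (H9.mem_smul_sylow.2 (by simpa [mul_assoc] using hs)))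
        simpa [mul_assoc] using this
    have := (h3 a ha h1).trans (h3 b hb h2).symm
    simpa using this
  have hiso : IsIsolatedInvolution (c : G) := by
    refine H9.isolated_of_sylow S hc2' fun g hg => ?_
    set d := g * (c : G) * g⁻¹ with hd
    have hcd : IsConj (c : G) d := isConj_iff.2 ⟨g, rfl⟩
    have hgS : ((g • S : Sylow 2 G) : Subgroup G) ≤ Subgroup.centralizer {d} := fun s hs => by
      have := (H9.commute_conj_iff (g := g)).2 (hS _ (H9.mem_smul_sylow'.1 hs))
      refine H9.mem_centralizer_singleton_iff_commute.2 ?_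
      simpa [mul_assoc, hd] using this
    obtain ⟨k, hk, hk'⟩ := H9.exists_conj_le_sylow_in (H := Subgroup.centralizer {d})
      (Q := (S : Subgroup G) ⊓ Subgroup.centralizer {d}) (S.isPGroup'.to_inf_left)
      inf_le_right (g • S) hgS
    have hkd : Commute k d := H9.mem_centralizer_singleton_iff_commute.1 hk
    set T : Sylow 2 G := k⁻¹ • g • S with hT
    have hTd : ∀ s ∈ T, Commute s d := fun s hs => by
      have h1 := H9.mem_centralizer_singleton_iff_commute.1 (hgS (H9.mem_smul_sylow.1 hs))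
      have h2 := (H9.commute_conj_iff (g := k⁻¹)).2 h1
      have e : k⁻¹ * d * k⁻¹⁻¹ = d := by rw [hkd.inv_left.eq]; simp
      rw [e] at h2
      simpa [mul_assoc] using h2
    have hmem : ∀ a ∈ S, Commute a d → a ∈ T := fun a ha h => H9.mem_smul_sylow.2 (by
      simpa using hk' a ⟨ha, H9.mem_centralizer_singleton_iff_commute.2 h⟩)
    by_cases hST : S = T
    · exact key d hcd (hST ▸ hTd)
    obtain ⟨U, hU⟩ := hCI S T hST
    have hU' : ∀ a ∈ S, a ∈ T → ∀ s ∈ U, Commute s a := fun a h1 h2 s hs => by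
      obtain ⟨z, hz, rfl⟩ := hU (⟨h1, h2⟩ : a ∈ (S : Subgroup G) ⊓ (T : Subgroup G))
      exact congrArg Subtype.val (Subgroup.mem_center_iff.1 hz ⟨s, hs⟩)
    exact key2 U d c hcd (IsConj.refl _) (hU' d hg (hmem d hg (Commute.refl d)))
      (hU' c c.2 (hmem c c.2 (hS d hg).symm))
  intro g
  rw [QuotientGroup.eq]
  have h1 : (c : G) * g * (c : G)⁻¹ * g⁻¹ ∈ pPrimeCore 2 G := H9.zstar hiso g
  have h2 := (inferInstance : (pPrimeCore 2 G).Normal).conj_mem _ h1 (c : G)⁻¹
  have e : ((c : G))⁻¹ * ((c : G) * g * (c : G)⁻¹ * g⁻¹) * (c : G)⁻¹⁻¹ = (g * (c : G) * g⁻¹)⁻¹ * c := by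
    group
  exact e ▸ h2

end Cfsg.Agent.S3184
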