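import Cfsg.Statements.S3185
import Cfsg.Agent.H4.Cor1
import Cfsg.Agent.H21.RED

set_option autoImplicit false
open Cfsg

namespace Cfsg.Agent.S3185

/-- Call an involution of a finite group 2-central when it lies in the centre of some Sylow 2-subgroup, and call an intersection of two distinct Sylow 2-subgroups central when it is trivial or contains a 2-central involution. Let G be a non-abelian finite simple group in which every central intersection of two distinct Sylow 2-subgroups has 2-rank at most one (no Klein four-subgroup). Then G is isomorphic to PSL(2, 2^n) with n ≥ 2, to a Suzuki group over the field with 2^(2m+1) elements with m ≥ 1, to PSU(3, 2^n) with n ≥ 2, to PSL(2, q) with q ≡ 3 or 5 mod 8 and q > 5, or G is simple of order 175560 (the order of the first Janko group). -/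
theorem result {G : Type*} [Group G] [Finite G] [IsSimpleGroup G]
    (hG : ¬ IsMulCommutative G)
    (h : ∀ S T : Sylow 2 G, S ≠ T →
      ((S : Subgroup G) ⊓ (T : Subgroup G) = ⊥ ∨
        ∃ z ∈ (S : Subgroup G) ⊓ (T : Subgroup G), orderOf z = 2 ∧
          ∃ U : Sylow 2 G, z ∈ (Subgroup.center ↥(U : Subgroup G)).map (U : Subgroup G).subtype) →
      Cfsg.PRankLE 2 1 ↥((S : Subgroup G) ⊓ (T : Subgroup G))) :
    (∃ (n : ℕ) (F : Type) (_ : Field F) (_ : Fintype F), 2 ≤ n ∧ Fintype.card F = 2 ^ n ∧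
        Nonempty (G ≃* Matrix.ProjectiveSpecialLinearGroup (Fin 2) F)) ∨
    (∃ (m : ℕ) (F : Type) (_ : Field F) (_ : Fintype F), 1 ≤ m ∧ Fintype.card F = 2 ^ (2 * m + 1) ∧
        Nonempty (G ≃* ↥(Cfsg.Lie.Sz F (2 ^ (m + 1))))) ∨
    (∃ (n : ℕ) (F : Type) (_ : Field F) (_ : Fintype F), 2 ≤ n ∧ Fintype.card F = 4 ^ n ∧
        Nonempty (G ≃* Cfsg.PSU 3 F (2 ^ n))) ∨
    (∃ (F : Type) (_ : Field F) (_ : Fintype F), (Fintype.card F % 8 = 3 ∨ Fintype.card F % 8 = 5) ∧
        5 < Fintype.card F ∧ Nonempty (G ≃* Matrix.ProjectiveSpecialLinearGroup (Fin 2) F)) ∨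
    Cfsg.IsJ1 G := by
  exact H4.Gs.s3185 hG h

end Cfsg.Agent.S3185
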