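import Cfsg.Statements.S3186
import Cfsg.Agent.H22.AI4
import Cfsg.Agent.H4.Cor1
import Cfsg.Agent.H21.RED
import Cfsg.Agent.S1138

set_option autoImplicit false
open Cfsg

namespace Cfsg.Agent.S3186

open H18 Subgroup H22.AI in
theorem cls {G : Type*} [Group G] [Finite G] [IsSimpleGroup G] {S W : Subgroup G} (na : ¬ Abel (⊤ : Subgroup G))
    (hS : Hall {2} S ⊤) (h0 : W ≠ ⊥) (ab : Abel W) (hc : IsStronglyClosed W S) : commutator S ≤ center S := by
  have k : ∀ S : Subgroup G, Abel S → commutator S ≤ center S := fun S h => by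
    have := h.comm
    rw [center_eq_top]; exact le_top
  rcases H4.Gs.goldschmidt na (H4.Gs.syl2 hS) h0 ab hc with ⟨H, hH⟩ | h
  swap
  · exact k S h.1.abel
  obtain ⟨Q, t, h, hQ⟩ := H9.bender_simple hH
  obtain ⟨K, V, W, Q₀, s, z⟩ := h.exists_suz
  obtain ⟨g, -, rfl⟩ := sylow_conj Nat.prime_two (h.sylow (hall_self hQ)) hS
  have : commutator Q ≤ center Q := (em (Abel Q)).elim (k Q) fun q => commutator_le.2 fun x _ y _ => by
    simpa [commutatorElement_def] using (S1138.result (z.isSuzuki (H19.two_lt_of_simple z) (hall_self hQ) q)).2.1 x⁻¹ y⁻¹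
  refine commutator_le.2 fun x _ y _ => ?_
  obtain ⟨x, rfl⟩ := (cjEquiv g Q).surjective x
  obtain ⟨y, rfl⟩ := (cjEquiv g Q).surjective y
  rw [← map_commutatorElement]
  exact mem_center_iff.2 fun w => by
    obtain ⟨w, rfl⟩ := (cjEquiv g Q).surjective w
    rw [← map_mul, ← map_mul, mem_center_iff.1 (this (commutator_mem_commutator (mem_top x) (mem_top y))) w]

/-- Let G be a non-abelian finite simple group in which the intersection of any two distinct Sylow 2-subgroups is abelian. Then a Sylow 2-subgroup of G is either dihedral (of order at least 4) or of nilpotency class at most two (its derived subgroup is central). -/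
theorem result {G : Type*} [Group G] [Finite G] [IsSimpleGroup G]
    (hG : ¬ IsMulCommutative G)
    (hA : ∀ S T : Sylow 2 G, S ≠ T → IsMulCommutative ↥((S : Subgroup G) ⊓ (T : Subgroup G))) (S : Sylow 2 G) :
    (∃ m : ℕ, 2 ≤ m ∧ Nonempty (↥(S : Subgroup G) ≃* DihedralGroup m)) ∨
      commutator ↥(S : Subgroup G) ≤ Subgroup.center ↥(S : Subgroup G) := by
  open H18 Subgroup H22.AI in
  refine (em (commutator S ≤ center S)).symm.imp_left fun hn => ?_
  have hS := hall_sylow_top Nat.prime_two S
  have na : ¬ Abel (⊤ : Subgroup G) := fun h => hG ⟨⟨fun a b => comm_of_cent h (mem_top a) (mem_top b)⟩⟩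
  have k : ⁅(S : Subgroup G), (S : Subgroup G)⁆ ≤ C((S : Subgroup G)) → False := fun h => hn (commutator_le.2
    fun x _ y _ => mem_center_iff.2 fun w => Subtype.ext (mem_C.1 (h (commutator_mem_commutator x.2 y.2)) w w.2))
  refine (Cx.main ⟨⟨hS, fun Q hQ h g hg => ?_, fun h => k (der_le.trans h)⟩, ?_,
    fun W ab hc => by_contra fun h0 => hn (cls na hS h0 ab hc)⟩).resolve_right k
  · obtain ⟨T, e⟩ := (hS.cj_top g).exists_sylow_top Nat.prime_two
    by_contra q
    exact h ((abel_of_comm (hA S T fun r => q (mem_N_iff_cj.2 (by rw [← e, r])))).mono (le_inf hQ (e ▸ hg)))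
  · refine (IsSimpleGroup.eq_bot_or_eq_top_of_normal _ inferInstance).resolve_left fun e => na (abel_iff_der.2 e)

end Cfsg.Agent.S3186
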