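import Cfsg.Statements.S3190
import Cfsg.Agent.H1.Coprime

set_option autoImplicit false
open Cfsg

namespace Cfsg.Agent.S3190

theorem map_center {X : Type*} [Group X] (P : Subgroup X) :
    (Subgroup.center ↥P).map P.subtype = P ⊓ Subgroup.centralizer (P : Set X) := by
  ext x
  constructor
  · rintro ⟨y, hy, rfl⟩
    exact ⟨y.2, fun g hg => congrArg Subtype.val (Subgroup.mem_center_iff.1 hy ⟨g, hg⟩)⟩
  · rintro ⟨h1, h2⟩
    exact ⟨⟨x, h1⟩, Subgroup.mem_center_iff.2 fun g => Subtype.ext (h2 g g.2), rfl⟩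

/-- Let p be an odd prime and, inside a finite group, let P be a p-subgroup normalized by a Klein four-group T. Let R be a subgroup of P, normal in P and normalized by T, such that P is the product of R with the centralizer of T in P. If T centralizes the centre of P, then T centralizes the centre of R. -/
theorem result {X : Type*} [Group X] [Finite X]
    {p : ℕ} (hp : p.Prime) (hodd : Odd p) (P T R : Subgroup X) (hP : IsPGroup p ↥P) (hT : IsKleinFour ↥T)
    (hTP : T ≤ Subgroup.normalizer (P : Set X)) (hRP : R ≤ P) (hRn : (R.subgroupOf P).Normal)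
    (hTR : T ≤ Subgroup.normalizer (R : Set X)) (hfac : R ⊔ (P ⊓ Subgroup.centralizer (T : Set X)) = P)
    (hZ : T ≤ Subgroup.centralizer (((Subgroup.center ↥P).map P.subtype : Subgroup X) : Set X)) :
    T ≤ Subgroup.centralizer (((Subgroup.center ↥R).map R.subtype : Subgroup X) : Set X) := by
  haveI : Fact p.Prime := ⟨hp⟩
  rw [map_center] at hZ ⊢
  set V := R ⊓ Subgroup.centralizer (R : Set X) with hV
  haveI : IsMulCommutative V := ⟨⟨fun a b => Subtype.ext (b.2.2 a a.2.1)⟩⟩
  have hnV : Subgroup.normalizer (R : Set X) ≤ Subgroup.normalizer (V : Set X) := fun g hg => by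
    refine Subgroup.mem_normalizer_fintype fun v hv => ⟨(hg v).1 hv.1, fun r hr => ?_⟩
    have := hv.2 (g⁻¹ * r * g) ((hg _).2 (by simpa [mul_assoc] using hr))
    calc r * (g * v * g⁻¹) = g * (g⁻¹ * r * g * v) * g⁻¹ := by group
      _ = _ := by rw [this]; group
  have hTV := hTR.trans hnV
  have hVp : IsPGroup p V := hP.to_le (inf_le_left.trans hRP)
  have hc : (Nat.card T).Coprime (Nat.card V) := by
    obtain ⟨k, hk⟩ := IsPGroup.iff_card.1 hVp
    rw [hk, hT.card_four]
    exact Nat.Coprime.pow_right _ (Nat.Coprime.pow_left 2 (Nat.coprime_two_left.2 hodd))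
  have hle : ⁅V, T⁆ ≤ V := H1.commutator_le_of_le_normalizer hTV
  have hPn : P ≤ Subgroup.normalizer ((⁅V, T⁆ : Subgroup X) : Set X) := by
    rw [← hfac]
    refine sup_le (fun r hr => Subgroup.centralizer_le_normalizer _ fun v hv => ((hle hv).2 r hr).symm)
      fun c hc => ?_
    have h1 : c ∈ Subgroup.normalizer (R : Set X) := (Subgroup.normal_subgroupOf_iff_le_normalizer hRP).1 hRn hc.1
    exact H1.le_normalizer_commutator (A := Subgroup.normalizer (V : Set X) ⊓ Subgroup.normalizer (T : Set X))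
      inf_le_left inf_le_right ⟨hnV h1, Subgroup.centralizer_le_normalizer _ hc.2⟩
  rw [Subgroup.le_centralizer_iff, ← Subgroup.commutator_eq_bot_iff_le_centralizer]
  by_contra hne
  apply H1.inf_centralizer_ne_bot_of_isPGroup hP (hVp.to_le hle) hPn hne
  rw [eq_bot_iff, ← H1.inf_centralizer_inf_commutator_eq_bot hTV hc]
  intro x hx
  exact ⟨⟨hle hx.1, fun t ht => (hZ ht x ⟨hRP (hle hx.1).1, hx.2⟩).symm⟩, hx.1⟩

end Cfsg.Agent.S3190
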