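import Cfsg.Statements.S3195
import Cfsg.Agent.H18.BG1
import Cfsg.Agent.S0200

set_option autoImplicit false
open Cfsg

namespace Cfsg.Agent.S3195
open H18 Subgroup
theorem flip_inv {G : Type*} [Group G] {s r : G} (h : s * r * s⁻¹ = r⁻¹) : s * r⁻¹ * s⁻¹ = r := by
  rw [← conj_inv, h, inv_inv]
theorem odd_sq {G : Type*} [Group G] {r f : G} (hr : Odd (orderOf r)) (h : f * (r * r) = r * r * f) : f * r = r * f := by
  obtain ⟨m, hm⟩ := hr
  have e : r = (r * r) ^ (m + 1) := by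
    rw [← sq, ← pow_mul, show 2 * (m + 1) = orderOf r + 1 by omega, pow_succ, pow_orderOf_eq_one, one_mul]
  rw [e]
  exact (Commute.pow_right h _).eq
theorem odd_inv {G : Type*} [Group G] {r : G} (hr : Odd (orderOf r)) (h : r⁻¹ = r) : r = 1 := by
  have h2 : r ^ 2 = 1 := by rw [sq]; nth_rewrite 1 [← h]; simp
  have := (Nat.Coprime.eq_one_of_dvd (by simpa using hr) (orderOf_dvd_of_pow_eq_one h2))
  exact orderOf_eq_one_iff.1 this
theorem odd_inverts {G : Type*} [Group G] {r s : G} (hr : Odd (orderOf r)) (hs : Odd (orderOf s))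
    (h : s * r * s⁻¹ = r⁻¹) : r = 1 := by
  have h2 : r * (s * s) = s * s * r := by
    have h3 : s * r⁻¹ * s⁻¹ = r := flip_inv h
    calc r * (s * s) = s * r⁻¹ * s⁻¹ * (s * s) := by rw [h3]
      _ = s * (s * r * s⁻¹) * s := by rw [h]; group
      _ = _ := by group
  have h4 := odd_sq hs h2
  refine odd_inv hr ?_
  rw [← h, ← h4]; group

/-- Let A be a Klein four-subgroup of a finite group G. If every G-conjugate of every involution of A commutes with some involution of A (its centralizer meets A nontrivially), then A meets the largest normal 2-subgroup O₂(G) nontrivially. -/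
theorem result {G : Type*} [Group G] [Finite G]
    (A : Subgroup G) (hA : IsKleinFour ↥A)
    (h : ∀ a ∈ A, a ≠ 1 → ∀ g : G, A ⊓ Subgroup.centralizer ({g * a * g⁻¹} : Set G) ≠ ⊥) :
    A ⊓ Cfsg.pCore 2 G ≠ ⊥ := by
  by_contra hne
  haveI := hA
  have hp : Nat.Prime 2 := Nat.prime_two
  have h2 : ∀ x ∈ A, x * x = 1 := fun x hx => congrArg Subtype.val (IsKleinFour.mul_self (⟨x, hx⟩ : A))
  have hi : ∀ x ∈ A, x⁻¹ = x := fun x hx => inv_eq_of_mul_eq_one_right (h2 x hx)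
  have hc : ∀ x ∈ A, ∀ y ∈ A, x * y = y * x := fun x hx y hy => by
    rw [← hi _ (mul_mem hx hy), mul_inv_rev, hi x hx, hi y hy]
  have tri : ∀ x ∈ A, ∀ y ∈ A, ∀ z ∈ A, x ≠ 1 → y ≠ 1 → x ≠ y → z ≠ 1 → z = x ∨ z = y ∨ z = x * y := by
    intro x hx y hy z hz h1 h3 h4 h5
    by_contra hh
    push Not at hh
    exact hh.2.2 (congrArg Subtype.val (IsKleinFour.eq_mul_of_ne_all (x := (⟨x, hx⟩ : A)) (y := ⟨y, hy⟩) (z := ⟨z, hz⟩)
      (fun e => h1 (congrArg Subtype.val e)) (fun e => h3 (congrArg Subtype.val e)) (fun e => h4 (congrArg Subtype.val e))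
      (fun e => h5 (congrArg Subtype.val e)) (fun e => hh.1 (congrArg Subtype.val e)) (fun e => hh.2.1 (congrArg Subtype.val e))))
  have H : ∀ a ∈ A, a ≠ 1 → ∀ g w : G, g * a * g⁻¹ = w * a → ∃ f ∈ A, f ≠ 1 ∧ f * w = w * f := by
    intro a ha h1 g w e
    obtain ⟨f, hf, hf1⟩ := exists_mem_ne_one' (h a ha h1 g)
    refine ⟨f, hf.1, hf1, ?_⟩
    have := mem_C1.1 hf.2
    rw [e, mul_assoc w, ← hc f hf.1 a ha, ← mul_assoc, ← mul_assoc] at this
    exact mul_right_cancel this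
  have step : ∀ a ∈ A, a ≠ 1 → ∃ r : G, r ≠ 1 ∧ Odd (orderOf r) ∧ a * r * a⁻¹ = r⁻¹ ∧ ∃ e ∈ A, e ≠ 1 ∧ e ≠ a ∧ e * r = r * e := by
    intro a ha h1
    obtain ⟨r, hr1, hr, e⟩ := Cfsg.Agent.S0200.result a (orderOf_eq_prime (by rw [sq, h2 a ha]) h1) (fun N hN hN2 haN => by
      have : a ∈ A ⊓ Cfsg.pCore 2 G := ⟨ha, by
        rw [pCore_eq hp]; exact le_pcore nml_top (piGrp_of_isPGroup hp hN2) haN⟩
      rw [hne] at this; exact h1 (mem_bot.1 this))
    have e' : a * r⁻¹ * a⁻¹ = r := flip_inv e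
    obtain ⟨f, hf, hf1, hfr⟩ := H a ha h1 r (r * r) (by
      calc r * a * r⁻¹ = r * (a * r⁻¹ * a⁻¹) * a := by group
        _ = _ := by rw [e'])
    have hfr' := odd_sq hr hfr
    refine ⟨r, hr1, hr, e, f, hf, hf1, ?_, hfr'⟩
    rintro rfl
    refine hr1 (odd_inv hr ?_)
    rw [← e, hfr']; group
  obtain ⟨a₀, ha₀, ha₀1⟩ := exists_mem_ne_one' (H := A) (fun e => by
    have := hA.card_four; rw [e] at this; simp at this)
  obtain ⟨r, hr1, hr, er₀, b, hb, hb1, hba, hbr⟩ := step a₀ ha₀ ha₀1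
  obtain ⟨s, hs1, hs, es, a, ha, ha1, hab, has⟩ := step b hb hb1
  have hbr' : b * r * b⁻¹ = r := by rw [hbr]; group
  have has' : a * s * a⁻¹ = s := by rw [has]; group
  have er : a * r * a⁻¹ = r⁻¹ := by
    rcases tri a₀ ha₀ b hb a ha ha₀1 hb1 hba.symm ha1 with e | e | e
    · rw [e, er₀]
    · exact absurd e hab
    · rw [e]
      calc a₀ * b * r * (a₀ * b)⁻¹ = a₀ * (b * r * b⁻¹) * a₀⁻¹ := by group
        _ = _ := by rw [hbr', er₀]
  have er' : a * r⁻¹ * a⁻¹ = r := flip_inv er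
  have es' : b * s⁻¹ * b⁻¹ = s := flip_inv es
  have has'' : a * s⁻¹ * a⁻¹ = s⁻¹ := by rw [← inv_inj]; conv_rhs => rw [← has']
                                         group
  have hrs : s * r = r * s := by
    obtain ⟨f, hf, hf1, e⟩ := H a ha ha1 (s * r) (s * (r * r) * s⁻¹) (by
      calc s * r * a * (s * r)⁻¹ = s * r * (a * r⁻¹ * a⁻¹) * (a * s⁻¹ * a⁻¹) * a := by group
        _ = _ := by rw [er', has'']; group)
    have e1 : s⁻¹ * f * s * r = r * (s⁻¹ * f * s) := odd_sq hr (by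
      calc s⁻¹ * f * s * (r * r) = s⁻¹ * (f * (s * (r * r) * s⁻¹)) * s := by group
        _ = _ := by rw [e]; group)
    rcases tri a ha b hb f hf ha1 hb1 hab hf1 with rfl | rfl | rfl
    · exfalso
      have e2 : s⁻¹ * f * s = f := by rw [mul_assoc, has]; group
      rw [e2] at e1
      exact hr1 (odd_inv hr (by rw [← er, e1]; group))
    · refine (odd_sq hs ?_).symm
      have e2 : s⁻¹ * f * s = (s * s)⁻¹ * f := by
        calc s⁻¹ * f * s = s⁻¹ * (f * s * f⁻¹) * f := by group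
          _ = _ := by rw [es]; group
      rw [e2, mul_assoc, hbr] at e1
      calc r * (s * s) = s * s * ((s * s)⁻¹ * (r * f)) * f⁻¹ * (s * s) := by group
        _ = _ := by rw [e1]; group
    · exfalso
      have e2 : s⁻¹ * (a * b) * s = (s * s)⁻¹ * (a * b) := by
        calc s⁻¹ * (a * b) * s = s⁻¹ * (a * (b * s * b⁻¹) * a⁻¹) * (a * b) := by group
          _ = _ := by rw [es, has'']; group
      rw [e2] at e1
      refine hr1 (odd_inverts (s := s * s) hr ?_ ?_)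
      · rw [← sq]; exact hs.of_dvd_nat (orderOf_pow_dvd 2)
      · calc s * s * r * (s * s)⁻¹ = s * s * (r * ((s * s)⁻¹ * (a * b))) * (a * b)⁻¹ := by group
          _ = a * (b * r * b⁻¹) * a⁻¹ := by rw [← e1]; group
          _ = _ := by rw [hbr', er]
  have hC : Commute r s := hrs.symm
  have hodd : Odd (orderOf (r * s)) := (hr.mul hs).of_dvd_nat hC.orderOf_mul_dvd_mul_orderOf
  have hab1 : a * b ≠ 1 := fun e => hab (by rw [← hi b hb]; exact eq_inv_of_mul_eq_one_left e)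
  have ec : a * b * (r * s) * (a * b)⁻¹ = (r * s)⁻¹ := by
    calc a * b * (r * s) * (a * b)⁻¹ = a * (b * r * b⁻¹) * a⁻¹ * (a * (b * s * b⁻¹) * a⁻¹) := by group
      _ = r⁻¹ * s⁻¹ := by rw [hbr', er, es, has'']
      _ = _ := by rw [← hrs]; group
  have ec' : a * b * (r * s)⁻¹ * (a * b)⁻¹ = r * s := flip_inv ec
  obtain ⟨f, hf, hf1, e⟩ := H (a * b) (mul_mem ha hb) hab1 (r * s) (r * s * (r * s)) (by
    calc r * s * (a * b) * (r * s)⁻¹ = r * s * (a * b * (r * s)⁻¹ * (a * b)⁻¹) * (a * b) := by group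
      _ = _ := by rw [ec'])
  have e1 := odd_sq hodd e
  have e2 : f * (r * s) * f⁻¹ = r * s := by rw [e1]; group
  rcases tri a ha b hb f hf ha1 hb1 hab hf1 with rfl | rfl | rfl
  · refine hr1 (odd_inv hr (mul_right_cancel (b := s) ?_))
    rw [← e2, ← er]; conv_lhs => rw [← has']
    group
  · refine hs1 (odd_inv hs (mul_left_cancel (a := r) ?_))
    rw [← e2, ← es]; conv_lhs => rw [← hbr']
    group
  · rw [ec] at e2
    have e3 := odd_inv hodd e2
    have e4 : r = s⁻¹ := eq_inv_of_mul_eq_one_left e3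
    refine hr1 (odd_inv hr ?_)
    rw [← er, e4, has'']

end Cfsg.Agent.S3195
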