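import Cfsg.Statements.S3196
import Cfsg.Agent.H18.Cyc

set_option autoImplicit false
open Cfsg

namespace Cfsg.Agent.S3196

open H18 Subgroup

theorem line {G : Type*} [Group G] [Finite G] {X Y T : Subgroup G} (hX : (Nat.card X).Prime)
    (_hT : (Nat.card T).Prime) (hY : Nat.card Y = Nat.card T) (h : X ≤ C(Y)) (h1 : T ≤ X ⊔ Y) (h2 : T ≠ Y) :
    X ≤ T ⊔ Y := by
  obtain ⟨t, ht, t1⟩ := SetLike.not_le_iff_exists.1 fun e : T ≤ Y => h2 (eq_of_le_of_card_ge e hY.le)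
  obtain ⟨x, hx, y, hy, rfl⟩ := (mem_sup_of_norm (h.trans (centralizer_le_normalizer _))).1 (h1 ht)
  refine prime_le_of_inf_ne_bot hX fun e => t1 ?_
  have : x ∈ X ⊓ (T ⊔ Y) := ⟨hx, (mul_mem_cancel_right (mem_sup_right hy)).1 (mem_sup_left ht)⟩
  rw [e, mem_bot] at this
  rwa [this, one_mul]

/-- Let p be a prime and K a set of subgroups of order p of a finite group G, closed under conjugation, such that at least two distinct members of K commute elementwise, and whenever two distinct members X, Y of K commute: every subgroup of order p of the group XY they generate belongs to K, and every member W of K has centralizer meeting XY nontrivially. Then some member V of K commutes elementwise with every member of K and lies in O_p(G); in particular G is not simple. -/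
theorem result {G : Type*} [Group G] [Finite G]
    {p : ℕ} (hp : p.Prime) (K : Set (Subgroup G)) (hK : ∀ X ∈ K, Nat.card ↥X = p)
    (hKc : ∀ X ∈ K, ∀ g : G, X.map (MulAut.conj g).toMonoidHom ∈ K)
    (hex : ∃ X ∈ K, ∃ Y ∈ K, X ≠ Y ∧ ∀ x ∈ X, ∀ y ∈ Y, x * y = y * x)
    (ha : ∀ X ∈ K, ∀ Y ∈ K, X ≠ Y → (∀ x ∈ X, ∀ y ∈ Y, x * y = y * x) →
      ∀ Z : Subgroup G, Z ≤ X ⊔ Y → Nat.card ↥Z = p → Z ∈ K)
    (hb : ∀ X ∈ K, ∀ Y ∈ K, X ≠ Y → (∀ x ∈ X, ∀ y ∈ Y, x * y = y * x) →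
      ∀ W ∈ K, (X ⊔ Y) ⊓ Subgroup.centralizer (W : Set G) ≠ ⊥) :
    (∃ V ∈ K, (∀ W ∈ K, ∀ v ∈ V, ∀ w ∈ W, v * w = w * v) ∧ V ≤ Cfsg.pCore p G) ∧ ¬ IsSimpleGroup G := by
  have pr : ∀ X ∈ K, (Nat.card X).Prime := fun X hX => hK X hX ▸ hp
  have el : ∀ X ∈ K, Elem p X := fun X hX => ⟨abel_iff.2 (by
    have := Fact.mk hp; have := isCyclic_of_prime_card (hK X hX); infer_instance),
    fun x hx => congrArg Subtype.val (show (⟨x, hx⟩ : X) ^ p = 1 by rw [← hK X hX]; exact pow_card_eq_one')⟩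
  have zp : ∀ X ∈ K, ∀ Y ∈ K, X ≠ Y → X ≤ C(Y) → ∀ t ∈ X ⊔ Y, t ≠ 1 → zpowers t ∈ K := fun X hX Y hY n c t ht t1 =>
    ha X hX Y hY n (cent_iff.1 c) _ (zpowers_le.2 ht) (((el X hX).sup (el Y hY) c).card_zpowers hp ht t1)
  have pt : ∀ X ∈ K, ∀ Y ∈ K, X ≠ Y → X ≤ C(Y) → ∀ U ∈ K, ∃ T ∈ K, T ≤ X ⊔ Y ∧ T ≤ C(U) := by
    intro X hX Y hY n c U hU
    obtain ⟨⟨t, ht⟩, t1⟩ := ne_bot_iff_exists_ne_one.1 (hb X hX Y hY n (cent_iff.1 c) U hU)
    exact ⟨_, zp X hX Y hY n c t ht.1 fun e => t1 (Subtype.ext e), zpowers_le.2 ht.1, zpowers_le.2 ht.2⟩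
  obtain ⟨A, hA, B, hB, nAB, cAB⟩ := hex
  obtain ⟨W, hW, mx⟩ := Set.exists_max_image K (fun T => {U ∈ K | U ≤ C(T)}.ncard) (Set.toFinite _) ⟨A, hA⟩
  have mx' : ∀ T ∈ K, (∀ U ∈ K, U ≤ C(W) → U ≤ C(T)) → ∀ U ∈ K, U ≤ C(T) → U ≤ C(W) := fun T hT h U hU c =>
    ((Set.eq_of_subset_of_ncard_le (s := {U ∈ K | U ≤ C(W)}) (t := {U ∈ K | U ≤ C(T)})
      (fun U hU => ⟨hU.1, h U hU.1 hU.2⟩) (mx T hT)).ge ⟨hU, c⟩).2
  obtain ⟨P, hP, nP, cP⟩ : ∃ P ∈ K, P ≠ W ∧ P ≤ C(W) := by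
    obtain ⟨T, hT, t1, t2⟩ := pt A hA B hB nAB (cent_iff.2 cAB) W hW
    by_cases e : T = W
    · have h1 : A ⊔ B ≤ C(W) := e ▸ cent_symm (t1.trans ((el A hA).sup (el B hB) (cent_iff.2 cAB)).abel)
      by_cases e2 : A = W
      · exact ⟨B, hB, fun e3 => nAB (e2.trans e3.symm), le_sup_right.trans h1⟩
      · exact ⟨A, hA, e2, le_sup_left.trans h1⟩
    · exact ⟨T, hT, e, t2⟩
  have rad : ∀ X ∈ K, X ≤ C(W) := by
    intro X hX
    by_contra hXW
    have hS : ∀ U ∈ K, U ≠ W → U ≤ C(W) → ∃ T ∈ K, T ≤ C(X) ∧ T ≤ C(W) ∧ T ≤ U ⊔ W ∧ U ≤ T ⊔ W := by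
      intro U hU n c
      obtain ⟨T, hT, t1, t2⟩ := pt U hU W hW n c X hX
      exact ⟨T, hT, t2, t1.trans (sup_le c (el W hW).abel), t1, line (pr U hU) (pr T hT) (by rw [hK W hW, hK T hT])
        c t1 fun e => hXW (cent_symm (e ▸ t2))⟩
    have hN : ∀ U ∈ K, U ≠ W → U ≤ C(W) → ∃ Y ∈ K, Y ≤ C(X) ∧ Y ≤ C(W) ∧ ¬ U ≤ C(Y) := by
      intro U hU n c
      by_contra! h
      obtain ⟨T, hT, t1, t2, t3, -⟩ := hS U hU n c
      refine hXW (mx' T hT (fun Q hQ cQ => ?_) X hX (cent_symm t1))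
      by_cases e : Q = W
      · exact e ▸ cent_symm t2
      obtain ⟨R, hR, r1, r2, -, r4⟩ := hS Q hQ e cQ
      exact r4.trans (sup_le (cent_symm (t3.trans (sup_le (h R hR r1 r2) (cent_symm r2)))) (cent_symm t2))
    obtain ⟨x, hx, x1⟩ : ∃ x ∈ X, cj x W ≠ W := by
      by_contra! h
      exact hXW ((piGrp_of_prime hp (hK X hX)).cent_prime hp (hK W hW) fun x hx => mem_N_iff_cj.2 (h x hx))
    have hW' : cj x W ∈ K := hKc W hW x
    have h1 : ∀ U ∈ K, U ≠ W → U ≤ C(W) → U ≤ C(cj x W) := by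
      intro U hU n c
      obtain ⟨Y, hY, y1, y2, y3⟩ := hN U hU n c
      obtain ⟨T, hT, t1, t2⟩ := pt X hX Y hY (fun e => hXW (e ▸ y2)) (cent_symm y1) U hU
      have h2 := line (pr X hX) (pr T hT) (by rw [hK Y hY, hK T hT]) (cent_symm y1) t1
        fun e => y3 (cent_symm (e ▸ t2))
      obtain ⟨t, ht, y, hy, rfl⟩ := (mem_sup_of_norm ((t1.trans (sup_le (cent_symm y1) (el Y hY).abel)).trans
        (centralizer_le_normalizer _))).1 (h2 hx)
      rw [cj_mul, mem_N_iff_cj.1 (centralizer_le_normalizer _ (y2 hy)), ← cj_C,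
        ← mem_N_iff_cj.1 (centralizer_le_normalizer _ (t2 ht))]
      exact cj_mono c
    have h2 : W ≤ C(cj x W) := by
      obtain ⟨⟨w, hw⟩, w1⟩ := ne_bot_iff_exists_ne_one.1 (ne_bot_of_prime (pr W hW))
      obtain ⟨u, hu, u1⟩ := SetLike.not_le_iff_exists.1 fun e : P ≤ W =>
        nP (eq_of_le_of_card_ge e (by rw [hK P hP, hK W hW]))
      have h3 : u * w ∈ P ⊔ W := mul_mem (mem_sup_left hu) (mem_sup_right hw)
      have h4 : u * w ∉ W := by rwa [mul_mem_cancel_right hw]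
      have h5 := h1 _ (zp P hP W hW nP cP _ h3 fun e => h4 (e ▸ one_mem _)) (fun e => h4 (e ▸ mem_zpowers _))
        (zpowers_le.2 (sup_le cP (el W hW).abel h3)) (mem_zpowers _)
      refine prime_le_of_inf_ne_bot (pr W hW) (ne_bot_iff_exists_ne_one.2 ⟨⟨w, hw, ?_⟩, fun e => w1 ?_⟩)
      · exact (mul_mem_cancel_left (h1 P hP nP cP hu)).1 h5
      · exact Subtype.ext (show w = 1 from congrArg Subtype.val e)
    obtain ⟨T, hT, t1, t2⟩ := pt W hW _ hW' x1.symm h2 X hX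
    refine hXW (mx' T hT (fun U hU c => cent_mono (cent_sup c ?_) le_rfl t1) X hX (cent_symm t2))
    by_cases e : U = W
    · exact e ▸ h2
    · exact h1 U hU e c
  have hO : W ≤ pCore p G := by
    have h1 : Elem p (⨆ g, cj g W) := by
      have c : ∀ g h : G, cj g W ≤ C(cj h W) := fun g h => by
        have := cj_mono (g := h) (rad _ (hKc W hW (h⁻¹ * g)))
        change cj h (cj (h⁻¹ * g) W) ≤ _ at this
        rwa [← cj_mul, mul_inv_cancel_left, cj_C] at this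
      have c2 : Abel (⨆ g, cj g W) := iSup_le fun g => cent_symm (iSup_le fun h => c h g)
      refine ⟨c2, fun a ha => ?_⟩
      induction ha using iSup_induction' with
      | hp g y hy => exact ((el W hW).cj g).pow y hy
      | h1 => exact one_pow p
      | hmul y z hy hz e1 e2 => rw [Commute.mul_pow (comm_of_cent c2 hy hz), e1, e2, one_mul]
    have h2 : (⨆ g, cj g W).Normal := ⟨fun n hn g => by
      have h3 : cj g (⨆ g, cj g W) ≤ ⨆ g, cj g W := by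
        rw [cj, Subgroup.map_iSup]
        exact iSup_le fun h => le_iSup_of_le (g * h) cj_mul.ge
      exact h3 ⟨n, hn, rfl⟩⟩
    exact le_trans (b := ⨆ g, cj g W) (le_iSup_of_le 1 cj_one.ge) (le_sSup ⟨h2, (h1.pi hp).isPGroup⟩)
  refine ⟨⟨W, hW, fun X hX => cent_iff.1 (cent_symm (rad X hX)), hO⟩, fun hs => ?_⟩
  have h1 : (normalClosure (W : Set G)) ≤ C(W) := by
    refine (closure_le _).2 fun y hy => ?_
    obtain ⟨w, hw, hc⟩ := Group.mem_conjugatesOfSet_iff.1 hy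
    obtain ⟨g, rfl⟩ := isConj_iff.1 hc
    exact rad _ (hKc W hW g) ⟨w, hw, rfl⟩
  have h2 := (Normal.eq_bot_or_eq_top (normalClosure_normal (s := (W : Set G)))).resolve_left fun e =>
    ne_bot_of_prime (pr W hW) (le_bot_iff.1 (e ▸ le_normalClosure))
  have h3 : W.Normal := nml_top_iff.1 ⟨le_top, (h2 ▸ h1).trans (centralizer_le_normalizer _)⟩
  have h4 := h3.eq_bot_or_eq_top.resolve_left (ne_bot_of_prime (pr W hW))
  exact nAB ((eq_of_prime (pr W hW) (h4 ▸ le_top) (ne_bot_of_prime (pr A hA))).trans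
    (eq_of_prime (pr W hW) (h4 ▸ le_top) (ne_bot_of_prime (pr B hB))).symm)

end Cfsg.Agent.S3196
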