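import Cfsg.Statements.S3201
import Cfsg.Agent.H9.Hv3

set_option autoImplicit false
open Cfsg

namespace Cfsg.Agent.S3201

open H18 H9 Subgroup
open scoped commutatorElement

/-- Let S be a finite 2-group whose centre Z(S) has n ≥ 2 distinct maximal subgroups C₁, …, Cₙ with trivial intersection such that each quotient S/Cᵢ is a non-abelian group with exactly one involution (a generalized quaternion group). Then S is the internal direct product of an elementary abelian subgroup and a non-abelian subgroup with exactly one involution. -/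
theorem result {S : Type*} [Group S] [Finite S]
    (hS : IsPGroup 2 S) (n : ℕ) (hn : 2 ≤ n) (C : Fin n → Subgroup ↥(Subgroup.center S))
    (hCmax : ∀ i, IsCoatom (C i)) (hCinj : Function.Injective C) (hCint : ⨅ i, C i = ⊥)
    (hCq : ∀ i, ∃ (_ : ((C i).map (Subgroup.center S).subtype).Normal),
      ¬ IsMulCommutative (S ⧸ (C i).map (Subgroup.center S).subtype) ∧
      ∃! x : S ⧸ (C i).map (Subgroup.center S).subtype, orderOf x = 2) :
    ∃ E Q : Subgroup S, Cfsg.IsInternalDirectProduct E Q ⊤ ∧ Cfsg.IsElementaryAbelian 2 E ∧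
      ¬ IsMulCommutative ↥Q ∧ ∃! x : ↥Q, orderOf x = 2 := by
  set E := fun i => (C i).map (center S).subtype
  have le : ∀ i, E i ≤ center S := fun i => map_subtype_le _
  have i2 : ∀ i, (E i).relIndex (center S) = 2 := fun i => by
    rw [relIndex, subgroupOf, comap_map_eq_self_of_injective (subtype_injective _), ← relIndex_top_right]
    exact (GT.pg ((hS.to_subgroup _).to_subgroup ⊤)).covBy_relIndex (hCmax i).covBy_top
  have one : ∀ z ∈ center S, (∀ i, z ∈ E i) → z = 1 := fun z hz h => congrArg Subtype.val (hCint.le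
    (mem_iInf.2 fun i => (mem_map_iff_mem (subtype_injective _) (x := ⟨z, hz⟩)).1 (h i)))
  have sq : ∀ i, ∀ z ∈ center S, z * z ∈ E i := fun i z hz =>
    (em (z ∈ E i)).elim (fun h => mul_mem h h) fun h => mul_mem_of_relIndex_two (i2 i) hz hz h h
  have el : ∀ z ∈ center S, z * z = 1 := fun z hz => one _ (mul_mem hz hz) fun i => sq i z hz
  have k : ∀ i g, g ∉ center S → g * g ∉ E i := fun i g hg e => by
    obtain ⟨_, -, hu⟩ := hCq i
    obtain ⟨z, hz, zE⟩ := exists_notMem_of_relIndex_two (i2 i)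
    have o : ∀ a : S, a ∉ E i → a * a ∈ E i → orderOf (a : S ⧸ E i) = 2 := fun a h1 h2 =>
      ord2.2 ⟨(QuotientGroup.eq_one_iff _).2 h2, mt (QuotientGroup.eq_one_iff _).1 h1⟩
    exact hg ((mul_mem_cancel_left (inv_mem hz)).1 (le i (QuotientGroup.eq.1
      (hu.unique (o z zE (sq i z hz)) (o g (fun h => hg (le i h)) e)))))
  have k2 : ∀ g g', g ∉ center S → g' ∉ center S → g * g ∈ center S → g' * g' ∈ center S → g * g = g' * g' :=
    fun g g' h1 h2 h3 h4 => mul_inv_eq_one.1 (one _ (mul_mem h3 (inv_mem h4)) fun i =>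
      mul_inv_mem_of_relIndex_two (i2 i) h3 h4 (k i g h1) (k i g' h2))
  let i : Fin n := ⟨0, by omega⟩
  obtain ⟨_, hn', hu⟩ := hCq i
  obtain ⟨m, x, y, h⟩ := lift_q (D := E i) hS hn' hu
  have Z : ∀ g : S, g ∈ center S ↔ (g : S ⧸ E i) = 1 ∨ (g : S ⧸ E i) = (x : S ⧸ E i) ^ 2 ^ (m + 1) := fun g => by
    have f : ∀ g ∈ center S, (g : S ⧸ E i) = 1 ∨ (g : S ⧸ E i) = (x : S ⧸ E i) ^ 2 ^ (m + 1) := fun g hg =>
      h.eq_one_or_eq_u (mem_top _) (congrArg _ (el g hg))
    obtain ⟨z, hz, zE⟩ := exists_notMem_of_relIndex_two (i2 i)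
    refine ⟨f g, fun e => e.elim (fun e => le i ((QuotientGroup.eq_one_iff _).1 e)) fun e => ?_⟩
    exact (mul_mem_cancel_left (inv_mem hz)).1 (le i (QuotientGroup.eq.1
      (((f z hz).resolve_left (mt (QuotientGroup.eq_one_iff _).1 zE)).trans e.symm)))
  have out : ∀ g : S, (g : S ⧸ E i) ∉ zpowers (x : S ⧸ E i) → g ∉ center S ∧ g * g ∈ center S := fun g hg =>
    ⟨fun e => hg (((Z g).1 e).elim (· ▸ one_mem _) (· ▸ npow_mem_zpowers _ _)),
      (Z _).2 (.inr (h.mul_self (mem_top _) hg))⟩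
  have hy := out y h.ynot
  have hxy := out (x * y) fun e => h.ynot ((mul_mem_cancel_left (mem_zpowers _)).1 e)
  have hu : x ^ 2 ^ (m + 1) ∈ center S := (Z _).2 (.inr rfl)
  have e2 : x ^ 2 ^ m * x ^ 2 ^ m = x ^ 2 ^ (m + 1) := by rw [← pow_add, pow_succ, mul_two]
  have ysq : y * y = x ^ 2 ^ (m + 1) := e2 ▸ k2 _ _ hy.1 (fun e => h.mc.u_ne_one (congrArg _ (e2.symm.trans (el _ e))))
    hy.2 (e2 ▸ hu)
  have inv : y * x * y⁻¹ = x⁻¹ := by
    have := k2 _ _ hxy.1 hy.1 hxy.2 hy.2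
    calc _ = x⁻¹ * (x * y * (x * y)) * y⁻¹ * y⁻¹ := by group
      _ = _ := by rw [this]; group
  have nx : y ∈ N(zpowers x) := mem_N_iff_cj.2 (by rw [cj_zpowers, inv, zpowers_inv])
  have yy : y * y ∈ zpowers x := ysq ▸ npow_mem_zpowers _ _
  have q : QData (zpowers x ⊔ zpowers y) (2 ^ (m + 1)) x y := ⟨h.pos, Nat.dvd_antisymm (orderOf_dvd_of_pow_eq_one (by
      rw [two_mul, pow_add, el _ hu])) (h.ordx ▸ orderOf_map_dvd (QuotientGroup.mk' _) x), mem_sup_left (mem_zpowers x),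
    mem_sup_right (mem_zpowers y), ysq, inv, fun ⟨j, e⟩ => h.ynot ⟨j, congrArg _ e⟩, fun g hg =>
      ((GT.mem_sup2 nx yy).1 hg).imp_right fun e => by simpa [mul_assoc] using mul_mem e (inv_mem yy)⟩
  refine ⟨E i, _, ⟨le_top, le_top, fun a ha b _ => (mem_center_iff.1 (le i ha) b).symm, eq_bot_iff.2 fun a ha =>
    (q.eq_one_or_eq_u ha.2 (el a (le i ha.1))).resolve_right fun e => h.mc.u_ne_one
      ((QuotientGroup.eq_one_iff (x ^ 2 ^ (m + 1))).2 (e ▸ ha.1)), top_unique fun g _ => ?_⟩,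
    (GT.elem2 fun a ha => el a (le i ha)).isElem, q.mc.not_comm, ⟨_, q.umem⟩, (orderOf_coe _).symm.trans q.orderOf_u,
    fun a ha => Subtype.ext (q.eq_u a.2 ((orderOf_coe a).trans ha))⟩
  have f : ∀ g : S, (g : S ⧸ E i) ∈ zpowers (x : S ⧸ E i) → g ∈ E i ⊔ (zpowers x ⊔ zpowers y) := fun g hg => by
    obtain ⟨j, d, hd, rfl⟩ := mk_mem_zpowers hg
    exact mul_mem (mem_sup_right (zpow_mem q.xmem j)) (mem_sup_left hd)
  exact (h.gen g (mem_top _)).elim (f g) fun e =>
    (mul_mem_cancel_right (inv_mem (mem_sup_right q.ymem))).1 (f (g * y⁻¹) e)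

end Cfsg.Agent.S3201
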