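import Cfsg.Statements.S3202
import Cfsg.Agent.H9.Hv3

set_option autoImplicit false
open Cfsg

namespace Cfsg.Agent.S3202

open H18 H9 Subgroup
open scoped commutatorElement

/-- Let S be a finite 2-group of 2-rank exactly 2 and D a maximal subgroup of the centre of S such that S/D is a non-abelian group with exactly one involution (a generalized quaternion group). Then S has a nontrivial cyclic characteristic subgroup. -/
theorem result {S : Type*} [Group S]
    [Finite S] (hS : IsPGroup 2 S) (hr2 : Cfsg.PRankLE 2 2 S) (hr1 : ¬ Cfsg.PRankLE 2 1 S)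
    (D : Subgroup ↥(Subgroup.center S)) (hD : IsCoatom D)
    (hq : ∃ (_ : (D.map (Subgroup.center S).subtype).Normal),
      ¬ IsMulCommutative (S ⧸ D.map (Subgroup.center S).subtype) ∧
      ∃! x : S ⧸ D.map (Subgroup.center S).subtype, orderOf x = 2) :
    ∃ C : Subgroup S, C ≠ ⊥ ∧ IsCyclic ↥C ∧ C.Characteristic := by
  obtain ⟨_, hn, hu⟩ := hq
  obtain ⟨n, x, y, h⟩ := lift_q hS hn hu
  set E := D.map (center S).subtype
  have c : ∀ d ∈ E, ∀ g, Commute g d := fun d hd g => mem_center_iff.1 (map_subtype_le _ hd) g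
  have m := fun a => mk_mem_zpowers (D := E) (a := a) (x := x)
  refine ⟨commutator S, fun e => hn (abel_iff.1 (abel_iff_der.2 ?_) |> fun h => ⟨⟨fun a b => congrArg Subtype.val
    (h.1.1 (⟨a, mem_top a⟩ : (⊤ : Subgroup _)) ⟨b, mem_top b⟩)⟩⟩), Cyc.of_le (H := zpowers ⁅y, x⁆) inferInstance ?_, inferInstance⟩
  · rw [← map_top_of_surjective _ (QuotientGroup.mk'_surjective E), ← map_commutator, ← commutator_def, e, Subgroup.map_bot]
  refine commutator_le_of_index_two (A := (zpowers (x : S ⧸ E)).comap (QuotientGroup.mk' E)) (by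
    rw [relIndex_top_right, index_comap_of_surjective _ (QuotientGroup.mk'_surjective E), ← relIndex_top_right,
      h.relIndex_eq]) le_top (fun a ha b hb => ?_) (mem_top y) h.ynot fun a ha => ?_
  · obtain ⟨i, d, hd, rfl⟩ := m a ha
    obtain ⟨j, d', hd', rfl⟩ := m b hb
    exact (((Commute.refl x).zpow_zpow i j).mul_right (c d' hd' _)).mul_left (c d hd _).symm
  obtain ⟨i, d, hd, rfl⟩ := m a ha
  obtain ⟨j, d', hd', e⟩ := m (y * x * y⁻¹) (by
    rw [QuotientGroup.mk_mul, QuotientGroup.mk_mul, QuotientGroup.mk_inv, h.inv]; exact inv_mem (mem_zpowers _))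
  refine ⟨i, ?_⟩
  have : Commute (y * x * y⁻¹) x⁻¹ := e ▸ (((Commute.refl x).zpow_left j).mul_left (c d' hd' x).symm).inv_right
  simp only [commutatorElement_def, this.mul_zpow, conj_zpow]
  rw [mul_inv_rev, ← mul_assoc, ← mul_assoc y, mul_assoc _ d, ← (c d hd y⁻¹).eq]; group

end Cfsg.Agent.S3202
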