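import Cfsg.Statements.S3206
import Cfsg.Agent.H1.Wd

set_option autoImplicit false
open Cfsg

namespace Cfsg.Agent.S3206

open H18 H1 H22 Subgroup

/-- Let G be a non-abelian finite simple group with abelian Sylow 2-subgroups, and let t be an involution of G whose centralizer is a maximal subgroup of G and is the direct product of the subgroup generated by t with a subgroup E having a normal subgroup isomorphic to PSL(2, q), q odd and greater than 3, with trivial centralizer in E. Then every finite perfect group having a central 2-subgroup with quotient isomorphic to G has that central subgroup trivial (G has no nontrivial perfect central extension by a 2-group), and every automorphism of G of 2-power order that fixes every element of some Sylow 2-subgroup of G is inner. -/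
theorem result {G : Type*} [Group G] [Finite G] [IsSimpleGroup G]
    (hG : ¬ IsMulCommutative G) (hab : ∀ S : Sylow 2 G, IsMulCommutative ↥(S : Subgroup G))
    (t : G) (ht : orderOf t = 2) (hmax : IsCoatom (Subgroup.centralizer ({t} : Set G)))
    (E : Subgroup G) (hE : Cfsg.IsInternalDirectProduct (Subgroup.zpowers t) E (Subgroup.centralizer ({t} : Set G)))
    {F : Type*} [Field F] [Fintype F] (hFo : Odd (Fintype.card F)) (hF3 : 3 < Fintype.card F)
    (N : Subgroup ↥E) [N.Normal] (hN : Nonempty (↥N ≃* Matrix.ProjectiveSpecialLinearGroup (Fin 2) F))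
    (hNc : Subgroup.centralizer (N : Set ↥E) = ⊥) :
    (∀ (L : Type) (_ : Group L) (_ : Finite L) (Z : Subgroup L) (_ : Z.Normal), commutator L = ⊤ → Z ≤ Subgroup.center L →
        IsPGroup 2 ↥Z → Nonempty (L ⧸ Z ≃* G) → Z = ⊥) ∧
    (∀ (φ : G ≃* G) (k : ℕ), φ ^ (2 ^ k) = 1 → (∃ S : Sylow 2 G, ∀ s ∈ (S : Subgroup G), φ s = s) →
        ∃ g : G, ∀ x : G, φ x = g * x * g⁻¹) := by
  refine ⟨fun L _ _ Z _ h1 h2 h3 ⟨e⟩ => ?_, fun φ k hk ⟨S, hS⟩ =>
    (abS_sylow S (hab S)).inner_aut hG hk hS⟩
  obtain ⟨f⟩ := hN
  have f' := (N.equivMapOfInjective _ E.subtype_injective).symm.trans f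
  have j := jr_of ht hE (nml_map_subtype (X := N)) (eq_bot_iff.2 fun x hx => by
    have : (⟨x, hx.1⟩ : E) ∈ centralizer (N : Set E) := mem_C.2 fun y hy =>
      Subtype.ext (mem_C.1 hx.2 y ⟨y, hy, rfl⟩)
    rw [hNc] at this
    exact congrArg Subtype.val (mem_bot.1 this)) (smp_psl hF3 f') (ds_psl hFo f')
  obtain ⟨S, h, tS⟩ := exists_abS hab ht
  have h8 := j.e8 h tS
  have k : (e.toMonoidHom.comp (QuotientGroup.mk' Z)).ker = Z := by
    rw [← MonoidHom.comap_ker, (MonoidHom.ker_eq_bot_iff _).2 e.injective, MonoidHom.comap_bot,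
      QuotientGroup.ker_mk']
  rw [← k] at h2 h3 ⊢
  exact h8.cover (fun a ha a1 => h8.rot_all hG tS (ne1 ht) (top_inf_eq (centralizer {t}) ▸ j.not_solv)
    ha a1) (e.surjective.comp (QuotientGroup.mk'_surjective Z)) h1 h2 h3

end Cfsg.Agent.S3206
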