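import Cfsg.Statements.S3208
import Cfsg.Agent.H29.Basic

set_option autoImplicit false
open Cfsg

namespace Cfsg.Agent.S3208

/-- Let j be an involution of a finite group G, H a subgroup of G, and T a Sylow 2-subgroup of H ∩ C_G(j) containing j such that ⟨j⟩ is a characteristic subgroup of T. Then T is a Sylow 2-subgroup of H. -/
theorem result {G : Type*} [Group G] [Finite G]
    (j : G) (hj : orderOf j = 2) (H T : Subgroup G) (hT : T ≤ H ⊓ Subgroup.centralizer ({j} : Set G)) (h2 : IsPGroup 2 ↥T)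
    (hSyl : ¬ 2 ∣ T.relIndex (H ⊓ Subgroup.centralizer ({j} : Set G))) (hjT : j ∈ T)
    (hchar : ((Subgroup.zpowers j).subgroupOf T).Characteristic) :
    ¬ 2 ∣ T.relIndex H := by
  intro hd
  obtain ⟨Q, hQ1, hQ2, hQ3, hQ4⟩ := H29.exists_normalizer_of_dvd_relIndex h2 (hT.trans inf_le_left) hd
  apply hSyl
  apply H29.dvd_relIndex_of_lt hQ3 hQ1
  refine le_inf hQ2 fun g hg => ?_
  have hfix := hchar.fixed (Subgroup.normalizerMonoidHom T ⟨g, hQ4 hg⟩)
  have hj1 : (⟨j, hjT⟩ : T) ∈ (Subgroup.zpowers j).subgroupOf T := Subgroup.mem_zpowers j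
  rw [← hfix] at hj1
  have hj2 : g * j * g⁻¹ ∈ Subgroup.zpowers j := hj1
  rw [Subgroup.mem_centralizer_singleton_iff]
  classical
  rw [mem_zpowers_iff_mem_range_orderOf, hj] at hj2
  simp only [Finset.mem_image, Finset.mem_range] at hj2
  obtain ⟨n, hn, hne⟩ := hj2
  interval_cases n
  · exfalso
    have : j = 1 := by
      have h3 : j = g⁻¹ * (g * j * g⁻¹) * g := by group
      rw [h3, ← hne]; simp
    rw [this, orderOf_one] at hj; omega
  · rw [pow_one] at hne
    calc g * j = (g * j * g⁻¹) * g := by group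
      _ = j * g := by rw [← hne]

end Cfsg.Agent.S3208
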