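import Cfsg.Statements.S3209
import Cfsg.Agent.H10.Klein
import Cfsg.Agent.H18.Basic
import Cfsg.Agent.H9.Quat

set_option autoImplicit false
open Cfsg

namespace Cfsg.Agent.S3209

open H18 Subgroup

theorem fac {G F : Type*} [Group G] [Field F] [Fintype F] (hF : Odd (Fintype.card F)) {L : Subgroup G}
    (e : L ≃* Matrix.SpecialLinearGroup (Fin 2) F) {j : G} (hj : orderOf j = 2) (hL : j ∈ L) :
    (∀ a ∈ L, a * a = 1 → a = 1 ∨ a = j) ∧ ∃ w ∈ L, w * w = j ∧ ∀ a ∈ L, a * a = j → ∃ g ∈ L, g * w * g⁻¹ = a := by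
  have h2 : (2 : F) ≠ 0 := Ring.two_ne_zero fun h => by
    have := FiniteField.even_card_iff_char_two.1 h
    have := Nat.odd_iff.1 hF
    omega
  have k : ∀ a : L, (a : G) * a = 1 → (a : G) = 1 ∨ a = e.symm (-1) := fun a h =>
    (H10.SL2_eq_of_mul_self h2 (g := e a) (by rw [← map_mul, show a * a = 1 from Subtype.ext h, map_one])).imp
      (fun h => congrArg Subtype.val (e.map_eq_one_iff.1 h)) e.eq_symm_apply.2
  obtain rfl : j = e.symm (-1) :=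
    congrArg Subtype.val ((k ⟨j, hL⟩ (H9.mul_self_of_orderOf hj)).resolve_left (H9.ne_one_of_orderOf hj))
  let w : Matrix.SpecialLinearGroup (Fin 2) F := ⟨!![0, -1; 1, 0], by simp⟩
  have hw : w * w = -1 := H10.mul_self_of_trace_eq_zero (by simp [w, Matrix.trace_fin_two])
  refine ⟨fun a ha h => (k ⟨a, ha⟩ h).imp_right (congrArg Subtype.val), e.symm w, (e.symm w).2,
    by rw [← hw, map_mul]; rfl, fun a ha h => ?_⟩
  obtain ⟨g, hg⟩ := isConj_iff.1 (H10.isConj_SL2_of_mul_self h2 hw (t := e ⟨a, ha⟩)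
    (by rw [← map_mul, ← e.eq_symm_apply]; exact Subtype.ext h))
  exact ⟨e.symm g, (e.symm g).2, by simpa using congrArg (fun x => (e.symm x : G)) hg⟩

/-- Let L₁ ≅ SL₂(q₁) and L₂ ≅ SL₂(q₂), q₁ and q₂ odd, be elementwise-commuting subgroups of a finite group meeting in ⟨j⟩ for an involution j. Then L₁L₂ has exactly two conjugacy classes of involutions: the central involution j, and one further class (there is an involution x ≠ j in L₁L₂, and every involution of L₁L₂ other than j is conjugate to x by an element of L₁L₂). -/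
theorem result {G : Type*} [Group G] [Finite G]
    {F₁ : Type*} [Field F₁] [Fintype F₁] {F₂ : Type*} [Field F₂] [Fintype F₂]
    (hF₁ : Odd (Fintype.card F₁)) (hF₂ : Odd (Fintype.card F₂)) (L₁ L₂ : Subgroup G)
    (e₁ : ↥L₁ ≃* Matrix.SpecialLinearGroup (Fin 2) F₁) (e₂ : ↥L₂ ≃* Matrix.SpecialLinearGroup (Fin 2) F₂)
    (hc : ∀ x ∈ L₁, ∀ y ∈ L₂, x * y = y * x) (j : G) (hj : orderOf j = 2) (hm : L₁ ⊓ L₂ = Subgroup.zpowers j) :
    ∃ x ∈ L₁ ⊔ L₂, orderOf x = 2 ∧ x ≠ j ∧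
      ∀ y ∈ L₁ ⊔ L₂, orderOf y = 2 → y = j ∨ ∃ g ∈ L₁ ⊔ L₂, g * x * g⁻¹ = y := by
  have hj' := hm.ge (mem_zpowers j)
  have jj := H9.mul_self_of_orderOf hj
  have j1 := H9.ne_one_of_orderOf hj
  obtain ⟨s₁, w₁, m₁, q₁, c₁⟩ := fac hF₁ e₁ hj hj'.1
  obtain ⟨s₂, w₂, m₂, q₂, c₂⟩ := fac hF₂ e₂ hj hj'.2
  have sq : ∀ a ∈ L₁, ∀ b ∈ L₂, a * b * (a * b) = a * a * (b * b) := fun a ha b hb => by
    rw [mul_assoc, ← mul_assoc b, ← hc a ha b hb]
    simp only [mul_assoc]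
  have n : w₁ * w₂ ∉ L₁ := fun h => by
    rcases H9.eq_one_or_eq_of_mem_zpowers jj (hm.le ⟨(L₁.mul_mem_cancel_left m₁).1 h, m₂⟩) with rfl | rfl
    exacts [j1 (by simpa using q₂.symm), j1 (q₂.symm.trans jj)]
  refine ⟨w₁ * w₂, mul_mem_sup m₁ m₂, H9.orderOf_eq_two.2 ⟨by rw [sq _ m₁ _ m₂, q₁, q₂, jj], fun h => n (h ▸ one_mem _)⟩,
    fun h => n (h ▸ hj'.1), fun y hy o => ?_⟩
  obtain ⟨a, ha, b, hb, rfl⟩ := (mem_sup_of_cent (cent_iff.2 hc)).1 hy
  have e := (sq a ha b hb).symm.trans (H9.mul_self_of_orderOf o)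
  rcases H9.eq_one_or_eq_of_mem_zpowers jj (hm.le ⟨mul_mem ha ha, eq_inv_of_mul_eq_one_left e ▸ L₂.inv_mem (mul_mem hb hb)⟩)
    with h | h
  · have := H9.ne_one_of_orderOf o
    rcases s₁ a ha h with rfl | rfl <;> rcases s₂ b hb (by simpa [h] using e) with rfl | rfl <;> simp_all
  · obtain ⟨g, hg, rfl⟩ := c₁ a ha h
    obtain ⟨k, hk, rfl⟩ := c₂ b hb (mul_left_cancel ((h ▸ e).trans jj.symm))
    refine .inr ⟨g * k, mul_mem_sup hg hk, ?_⟩
    rw [mul_assoc g, ← mul_assoc k, ← hc _ m₁ k hk, mul_assoc (g * w₁), hc _ (inv_mem hg) _ hb]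
    group

end Cfsg.Agent.S3209
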