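import Cfsg.Statements.S3210
import Cfsg.Agent.H10.SL

set_option autoImplicit false
open Cfsg

namespace Cfsg.Agent.S3210

open Subgroup Matrix MatrixGroups commutatorElement

section
variable {F : Type*} [Field F] [Fintype F]

theorem four (hF : Odd (Fintype.card F)) : (2 : F) ≠ 0 := fun h => by
  have := (FiniteField.even_card_iff_char_two (F := F)).1 ((ringChar.spec F 2).1 (by exact_mod_cast h) |> fun d =>
    ((Nat.dvd_prime Nat.prime_two).1 d).resolve_left (CharP.ringChar_ne_one (R := F)))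
  obtain ⟨k, hk⟩ := hF
  omega

theorem cl (hF : Odd (Fintype.card F)) (y : PSL(2, F)) (h : ∀ x, x * y = y * x) : y = 1 := by
  obtain ⟨A, rfl⟩ := QuotientGroup.mk_surjective y
  have k (t : SL(2, F)) (ht : (t : Matrix (Fin 2) (Fin 2) F).trace = 2) : t * A = A * t := by
    have h1 := h t
    rw [← QuotientGroup.mk_mul, ← QuotientGroup.mk_mul, QuotientGroup.eq, Matrix.SpecialLinearGroup.mem_center_iff] at h1
    obtain ⟨r, r2, hr⟩ := h1
    have e : A * t = t * A * ((t * A)⁻¹ * (A * t)) := by group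
    have e2 : ((A * t : SL(2, F)) : Matrix (Fin 2) (Fin 2) F) = r • ((t * A : SL(2, F)) : Matrix (Fin 2) (Fin 2) F) := by
      rw [e, Matrix.SpecialLinearGroup.coe_mul (t * A), ← hr]
      simp [scalar_apply, ← smul_one_eq_diagonal]
    have e3 : (t : Matrix (Fin 2) (Fin 2) F) = r • ((A⁻¹ * t * A : SL(2, F)) : Matrix (Fin 2) (Fin 2) F) := by
      have := congrArg (((A⁻¹ : SL(2, F)) : Matrix (Fin 2) (Fin 2) F) * ·) e2
      simpa only [Matrix.mul_smul, ← Matrix.SpecialLinearGroup.coe_mul, ← mul_assoc, inv_mul_cancel, one_mul] using this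
    have e4 := congrArg trace e3
    rw [trace_smul, Matrix.SpecialLinearGroup.coe_mul, trace_mul_comm, ← Matrix.SpecialLinearGroup.coe_mul, ← mul_assoc,
      mul_inv_cancel, one_mul, ht, smul_eq_mul] at e4
    have : r = 1 := mul_right_cancel₀ (four hF) (by rw [← e4, one_mul])
    exact Subtype.ext (by rw [e2, this, one_smul])
  rw [QuotientGroup.eq_one_iff, mem_center_iff]
  intro g
  refine H10.SL_transvection_induction (fun g => g * A = A * g) (fun i j ij c => k _ ?_) (fun a b ha hb => ?_) g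
  · simp [SpecialLinearGroup.transvection, transvection, trace_single_eq_of_ne _ _ _ ij]
  · rw [mul_assoc, hb, ← mul_assoc, ha, mul_assoc]

theorem dec (hF : Odd (Fintype.card F)) (U V : Subgroup PSL(2, F)) (c : ∀ u ∈ U, ∀ v ∈ V, u * v = v * u)
    (t : U ⊔ V = ⊤) : U = ⊥ ∨ V = ⊥ := by
  have z (U V : Subgroup PSL(2, F)) (c : ∀ u ∈ U, ∀ v ∈ V, u * v = v * u) (t : U ⊔ V = ⊤) (v) (hv : v ∈ V)
      (a : ∀ w ∈ V, w * v = v * w) : v = 1 :=
    cl hF v fun x => mem_centralizer_singleton_iff.1 (t.ge.trans (sup_le (fun u hu => mem_centralizer_singleton_iff.2 (c u hu v hv))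
      fun w hw => mem_centralizer_singleton_iff.2 (a w hw)) (mem_top x))
  have c' : ∀ u ∈ V, ∀ v ∈ U, u * v = v * u := fun u hu v hv => (c v hv u hu).symm
  have n : U.Normal := normalizer_eq_top_iff.1 (top_le_iff.1 (t ▸ sup_le le_normalizer fun v hv =>
    centralizer_le_normalizer _ (mem_centralizer_iff.2 fun u hu => c u hu v hv)))
  by_cases h4 : 4 ≤ Nat.card F
  · have := ProjectiveSpecialLinearGroup.rank_two_simple h4
    refine n.eq_bot_or_eq_top.imp_right fun e => eq_bot_iff.2 fun v hv => cl hF v fun x => c x (e.ge (mem_top x)) v hv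
  have h3 : Fintype.card F = 3 := by
    have := Fintype.one_lt_card (α := F)
    obtain ⟨k, hk⟩ := hF
    rw [Nat.card_eq_fintype_card] at h4
    omega
  have h12 := H10.card_PSL2 (F := F)
  have i : U ⊓ V = ⊥ := eq_bot_iff.2 fun v hv => z U V c t v hv.2 fun w hw => c' w hw v hv.1
  have m : Nat.card U * Nat.card V = 12 := by
    have := (isComplement'_of_disjoint_and_mul_eq_univ (disjoint_iff.2 i) (by rw [← normal_mul, t, coe_top])).card_mul_card
    rw [h3] at h12
    norm_num at h12 ⊢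
    omega
  have s (U V : Subgroup PSL(2, F)) (c : ∀ u ∈ U, ∀ v ∈ V, u * v = v * u) (t : U ⊔ V = ⊤) (l : Nat.card V < 4) : V = ⊥ := by
    have := Nat.card_pos (α := V)
    have : IsCyclic V := by
      have := Fact.mk Nat.prime_three
      interval_cases h : Nat.card V
      exacts [have := (Nat.card_eq_one_iff_unique.1 h).1; inferInstance, isCyclic_of_prime_card h, isCyclic_of_prime_card h]
    exact eq_bot_iff.2 fun v hv => z U V c t v hv fun w hw =>
      congrArg Subtype.val (mul_comm' (⟨w, hw⟩ : V) ⟨v, hv⟩)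
  by_cases l : Nat.card V < 4
  · exact .inr (s U V c t l)
  · exact .inl (s V U c' (sup_comm V U ▸ t) (by nlinarith))

variable {G : Type*} [Group G] [Finite G]

theorem half (hF : Odd (Fintype.card F)) {A B C D : Subgroup G} (e : A ≃* SL(2, F)) (hAB : ∀ x ∈ A, ∀ y ∈ B, x * y = y * x)
    (h2 : Nat.card (A ⊓ B : Subgroup G) = 2) (hCD : ∀ x ∈ C, ∀ y ∈ D, x * y = y * x) (t : A ⊔ B = C ⊔ D) :
    C ≤ B ∨ D ≤ B := by
  have k : B.subgroupOf A = center A := by
    refine eq_of_le_of_card_ge (fun b hb => mem_center_iff.2 fun a => Subtype.ext (hAB a a.2 b hb)) ?_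
    rw [← inf_subgroupOf_left, Nat.card_congr (subgroupOfEquivOfLe inf_le_left).toEquiv, h2,
      Nat.card_congr (centerCongr e).toEquiv, H10.card_center_SL2]
    exact Nat.gcd_le_left _ two_pos
  let π : A × B →* PSL(2, F) := ((QuotientGroup.mk' _).comp e.toMonoidHom).comp (MonoidHom.fst A B)
  have hk (x : A × B) : π x = 1 ↔ (x.1 : G) ∈ B := by
    rw [← mem_subgroupOf, k]
    exact (QuotientGroup.eq_one_iff _).trans (MulEquivClass.apply_mem_center_iff e)
  let f : A × B →* G := A.subtype.noncommCoprod B.subtype fun a b => hAB a a.2 b b.2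
  have r : f.range = A ⊔ B := (MonoidHom.noncommCoprod_range ..).trans (by rw [range_subtype, range_subtype])
  have w (C : Subgroup G) (l : C ≤ f.range) (h : (C.comap f).map π = ⊥) : C ≤ B := fun c hc => by
    obtain ⟨x, rfl⟩ := l hc
    exact B.mul_mem ((hk x).1 (h.le ⟨x, hc, rfl⟩)) x.2.2
  have lC : C ≤ f.range := r ▸ t ▸ le_sup_left
  have lD : D ≤ f.range := r ▸ t ▸ le_sup_right
  refine (dec hF _ _ ?_ ?_).imp (w C lC) (w D lD)
  · rintro _ ⟨x, hx, rfl⟩ _ ⟨y, hy, rfl⟩
    rw [← commutatorElement_eq_one_iff_mul_comm, ← map_commutatorElement, hk]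
    have := commutatorElement_eq_one_iff_mul_comm.2 (hCD _ hx _ hy)
    rw [← map_commutatorElement] at this
    generalize ⁅x, y⁆ = z at this ⊢
    rw [show (z.1 : G) = (z.2 : G)⁻¹ from eq_inv_of_mul_eq_one_left this]
    exact B.inv_mem z.2.2
  · rw [← Subgroup.map_sup, comap_sup_eq_of_le_range f lC lD, ← t, ← r, MonoidHom.comap_range_self]
    exact map_top_of_surjective _ (((QuotientGroup.mk'_surjective _).comp e.surjective).comp Prod.fst_surjective)
end

/-- Let G be a finite group with subgroups L₁ ≅ SL₂(q₁) and L₂ ≅ SL₂(q₂), q₁ and q₂ odd prime powers, which commute elementwise and meet in ⟨j⟩ for an involution j, and suppose L₁L₂ has index 2 in C_G(j). Then every element n of C_G(j) outside L₁L₂ either normalizes both L₁ and L₂, or conjugates L₁ onto L₂; in the second case q₁ = q₂ and there is an element n′ of C_G(j) outside L₁L₂ conjugating L₁ onto L₂ with n′² ∈ ⟨j⟩. -/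
theorem result {G : Type*} [Group G] [Finite G]
    {F₁ : Type*} [Field F₁] [Fintype F₁] {F₂ : Type*} [Field F₂] [Fintype F₂]
    (hF₁ : Odd (Fintype.card F₁)) (hF₂ : Odd (Fintype.card F₂)) (L₁ L₂ : Subgroup G)
    (e₁ : ↥L₁ ≃* Matrix.SpecialLinearGroup (Fin 2) F₁) (e₂ : ↥L₂ ≃* Matrix.SpecialLinearGroup (Fin 2) F₂)
    (hc : ∀ x ∈ L₁, ∀ y ∈ L₂, x * y = y * x) (j : G) (hj : orderOf j = 2) (hm : L₁ ⊓ L₂ = Subgroup.zpowers j)
    (hle : L₁ ⊔ L₂ ≤ Subgroup.centralizer ({j} : Set G)) (hi : (L₁ ⊔ L₂).relIndex (Subgroup.centralizer ({j} : Set G)) = 2) (n : G) (hn : n ∈ Subgroup.centralizer ({j} : Set G)) (hn' : n ∉ L₁ ⊔ L₂) :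
    (L₁.map (MulAut.conj n).toMonoidHom = L₁ ∧ L₂.map (MulAut.conj n).toMonoidHom = L₂) ∨
      (L₁.map (MulAut.conj n).toMonoidHom = L₂ ∧ Fintype.card F₁ = Fintype.card F₂ ∧
        ∃ n' ∈ Subgroup.centralizer ({j} : Set G), n' ∉ L₁ ⊔ L₂ ∧ L₁.map (MulAut.conj n').toMonoidHom = L₂ ∧ n' ^ 2 ∈ Subgroup.zpowers j) := by
  have cd (K : Subgroup G) : Nat.card (K.map (MulAut.conj n).toMonoidHom) = Nat.card K := card_map_of_injective (MulAut.conj n).injective
  have h2 : Nat.card (L₁ ⊓ L₂ : Subgroup G) = 2 := by rw [hm, Nat.card_zpowers, hj]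
  have t : L₁ ⊔ L₂ = L₁.map (MulAut.conj n).toMonoidHom ⊔ L₂.map (MulAut.conj n).toMonoidHom := by
    have nn := normal_of_index_eq_two hi
    refine (eq_of_le_of_card_ge ?_ (by rw [← Subgroup.map_sup, cd])).symm
    rw [← Subgroup.map_sup]
    rintro _ ⟨x, hx, rfl⟩
    exact nn.conj_mem ⟨x, hle hx⟩ hx ⟨n, hn⟩
  have c : ∀ x ∈ L₁.map (MulAut.conj n).toMonoidHom, ∀ y ∈ L₂.map (MulAut.conj n).toMonoidHom, x * y = y * x := by
    rintro _ ⟨x, hx, rfl⟩ _ ⟨y, hy, rfl⟩
    rw [← map_mul, hc x hx y hy, map_mul]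
  have k1 := (Nat.card_congr e₁.toEquiv).trans H10.card_SL2
  have k2 := (Nat.card_congr e₂.toEquiv).trans H10.card_SL2
  have q1 := Fintype.one_lt_card (α := F₁)
  have q2 := Fintype.one_lt_card (α := F₂)
  have b (q : ℕ) (h : 1 < q) : 2 < q * (q - 1) * (q + 1) := by
    obtain ⟨r, rfl⟩ := Nat.exists_eq_add_of_lt h
    rw [show 1 + r + 1 - 1 = r + 1 by omega]
    nlinarith [sq_nonneg r]
  have u := half hF₁ e₁ hc h2 c t
  have v := half hF₂ e₂ (fun x hx y hy => (hc y hy x hx).symm) (inf_comm L₁ L₂ ▸ h2) c (sup_comm L₁ L₂ ▸ t)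
  rcases u with u | u <;> rcases v with v | v
  · have := card_le_of_le (le_inf v u)
    have := b _ q1
    rw [cd] at *
    omega
  · have u' := card_le_of_le u
    have v' := card_le_of_le v
    rw [cd] at u' v'
    have s := eq_of_le_of_card_ge u (by rw [cd]; exact v')
    have s' := eq_of_le_of_card_ge v (by rw [cd]; exact u')
    refine .inr ⟨s, ?_, ?_⟩
    · have mo : StrictMonoOn (fun q : ℕ => q * (q - 1) * (q + 1)) (Set.Ioi 1) := fun x hx y _ h =>
        Nat.mul_lt_mul_of_le_of_lt (Nat.mul_le_mul h.le (by omega)) (by omega) (Nat.mul_pos (by omega) (by simp at hx; omega))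
      exact mo.injOn q1 q2 (k1.symm.trans ((u'.antisymm v').trans k2))
    have n2 : n * n ∈ L₁ ⊔ L₂ := mul_self_mem_of_index_two hi ⟨n, hn⟩
    have : n * n ∈ (L₁.subtype.noncommCoprod L₂.subtype fun a b => hc a a.2 b b.2).range :=
      (MonoidHom.noncommCoprod_range ..).ge (by rwa [range_subtype, range_subtype])
    obtain ⟨⟨x, y⟩, h⟩ := this
    change (x : G) * y = _ at h
    have m : L₁.map (MulAut.conj ((x : G)⁻¹ * n)).toMonoidHom = L₂ := by
      refine eq_of_le_of_card_ge ?_ (by rw [card_map_of_injective (MulAut.conj _).injective]; exact v')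
      rintro _ ⟨z, hz, rfl⟩
      have hz' : n * z * n⁻¹ ∈ L₂ := u ⟨z, hz, rfl⟩
      convert hz' using 1
      simp only [MulEquiv.coe_toMonoidHom, MulAut.conj_apply]
      rw [← inv_mul_cancel_left x.1 (n * z * n⁻¹), hc x x.2 _ hz']
      group
    have p : ((x : G)⁻¹ * n) ^ 2 ∈ L₂ := by
      have hz' : n * x * n⁻¹ ∈ L₂ := u ⟨x, x.2, rfl⟩
      have : ((x : G)⁻¹ * n) ^ 2 = (x : G)⁻¹ * ((n * x * n⁻¹)⁻¹ * x) * y := by rw [mul_assoc, mul_assoc, h, sq]; group
      rw [this, ← hc x x.2 _ (L₂.inv_mem hz'), inv_mul_cancel_left]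
      exact L₂.mul_mem (L₂.inv_mem hz') y.2
    refine ⟨(x : G)⁻¹ * n, mul_mem (inv_mem (hle (mem_sup_left x.2))) hn,
      fun hh => hn' ((mul_mem_cancel_left (inv_mem (mem_sup_left x.2))).1 hh), m, hm.le ⟨?_, p⟩⟩
    obtain ⟨z, hz, e⟩ := m.ge p
    simp only [MulEquiv.coe_toMonoidHom, MulAut.conj_apply] at e
    rw [mul_inv_eq_iff_eq_mul, ← pow_succ, pow_succ'] at e
    exact mul_left_cancel e ▸ hz
  · exact .inl ⟨eq_of_le_of_card_ge v (cd _).ge, eq_of_le_of_card_ge u (cd _).ge⟩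
  · have := card_le_of_le (le_inf v u)
    have := b _ q2
    rw [cd] at *
    omega

end Cfsg.Agent.S3210
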