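import Cfsg.Statements.S3211
import Cfsg.Agent.S3209
import Cfsg.Agent.H9.ZStarMain

set_option autoImplicit false
open Cfsg

namespace Cfsg.Agent.S3211

open H18 Subgroup

theorem ab {G F : Type*} [Group G] [Field F] [Fintype F] (hF : Odd (Fintype.card F)) {L : Subgroup G}
    (e : L ≃* Matrix.SpecialLinearGroup (Fin 2) F) {j : G} (hj : orderOf j = 2) (hL : j ∈ L) :
    ∃ w ∈ L, w * w = j ∧ ∀ a ∈ L, ∀ b ∈ L, Commute a w → Commute b w → Commute a b := by
  obtain ⟨s, -⟩ := S3209.fac hF e hj hL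
  let w : Matrix.SpecialLinearGroup (Fin 2) F := ⟨!![0, -1; 1, 0], by simp⟩
  have hw : w * w = -1 := H10.mul_self_of_trace_eq_zero (by simp [w, Matrix.trace_fin_two])
  have h2 : (2 : F) ≠ 0 := Ring.two_ne_zero fun h => by
    have := FiniteField.even_card_iff_char_two.1 h
    have := Nat.odd_iff.1 hF
    omega
  have key : ∀ a : Matrix.SpecialLinearGroup (Fin 2) F, a * w = w * a → a 0 1 = - a 1 0 ∧ a 1 1 = a 0 0 := fun a h => by
    have h0 : a.1 * !![0, -1; 1, 0] = !![0, -1; 1, 0] * a.1 := congrArg Subtype.val h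
    have h1 := congrFun (congrFun h0 0) 0
    have h3 := congrFun (congrFun h0 1) 0
    simp [Matrix.mul_apply, Fin.sum_univ_two] at h1 h3
    exact ⟨h1, h3⟩
  refine ⟨e.symm w, (e.symm w).2, ?_, fun a ha b hb h1 h3 => ?_⟩
  · have : ((e.symm w : L) : G) * e.symm w = e.symm (-1) := by rw [← hw, map_mul]; rfl
    rw [this]
    refine (s _ (e.symm (-1)).2 (by rw [← Subgroup.coe_mul, ← map_mul]; simp)).resolve_left fun c => ?_
    have c2 : (-1 : Matrix.SpecialLinearGroup (Fin 2) F) = 1 := e.symm.map_eq_one_iff.1 (Subtype.ext c)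
    have := congrArg (fun m : Matrix.SpecialLinearGroup (Fin 2) F => m 0 0) c2
    simp at this
    exact h2 (by linear_combination -this)
  · have tr : ∀ a (ha : a ∈ L), Commute a (e.symm w : L) → e ⟨a, ha⟩ * w = w * e ⟨a, ha⟩ := fun a ha h => by
      have : (⟨a, ha⟩ : L) * e.symm w = e.symm w * ⟨a, ha⟩ := Subtype.ext h
      simpa using congrArg e this
    obtain ⟨p1, p2⟩ := key _ (tr a ha h1)
    obtain ⟨p3, p4⟩ := key _ (tr b hb h3)
    have : e ⟨a, ha⟩ * e ⟨b, hb⟩ = e ⟨b, hb⟩ * e ⟨a, ha⟩ := by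
      ext i k
      fin_cases i <;> fin_cases k <;> simp [Matrix.mul_apply, Fin.sum_univ_two, p1, p2, p3, p4] <;> ring
    rw [← map_mul, ← map_mul] at this
    exact congrArg Subtype.val (e.injective this)

/-- Let G be a finite group with subgroups L₁ ≅ SL₂(q₁) and L₂ ≅ SL₂(q₂), q₁ and q₂ odd prime powers, which commute elementwise and meet in ⟨j⟩ for an involution j, and suppose L₁L₂ has index 2 in C_G(j). If some n ∈ C_G(j) with n² = j interchanges L₁ and L₂ under conjugation (so that C_G(j) = L₁L₂⟨n⟩), then G = C_G(j)O(G). -/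
theorem result {G : Type*} [Group G] [Finite G]
    {F₁ : Type*} [Field F₁] [Fintype F₁] {F₂ : Type*} [Field F₂] [Fintype F₂]
    (hF₁ : Odd (Fintype.card F₁)) (hF₂ : Odd (Fintype.card F₂)) (L₁ L₂ : Subgroup G)
    (e₁ : ↥L₁ ≃* Matrix.SpecialLinearGroup (Fin 2) F₁) (e₂ : ↥L₂ ≃* Matrix.SpecialLinearGroup (Fin 2) F₂)
    (hc : ∀ x ∈ L₁, ∀ y ∈ L₂, x * y = y * x) (j : G) (hj : orderOf j = 2) (hm : L₁ ⊓ L₂ = Subgroup.zpowers j)
    (hle : L₁ ⊔ L₂ ≤ Subgroup.centralizer ({j} : Set G)) (hi : (L₁ ⊔ L₂).relIndex (Subgroup.centralizer ({j} : Set G)) = 2) (n : G) (hn : n ∈ Subgroup.centralizer ({j} : Set G))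
    (hn2 : n ^ 2 = j) (hswap : L₁.map (MulAut.conj n).toMonoidHom = L₂) :
    Subgroup.centralizer ({j} : Set G) ⊔ Cfsg.oddCore G = ⊤ := by
  have hj' := hm.ge (mem_zpowers j)
  have jj := H9.mul_self_of_orderOf hj
  have j1 := H9.ne_one_of_orderOf hj
  have ji : j⁻¹ = j := inv_eq_of_mul_eq_one_right jj
  obtain ⟨x, xL, xx, ab1⟩ := ab hF₁ e₁ hj hj'.1
  obtain ⟨t₀, -, -, -, cl⟩ := S3209.result hF₁ hF₂ L₁ L₂ e₁ e₂ hc j hj hm
  have cap : ∀ a ∈ L₁, a ∈ L₂ → a = 1 ∨ a = j := fun a h1 h2 => H9.eq_one_or_eq_of_mem_zpowers jj (hm.le ⟨h1, h2⟩)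
  have cj : ∀ c ∈ centralizer ({j} : Set G), Commute c j := fun c h => mem_centralizer_singleton_iff.1 h
  have c1 : ∀ a ∈ L₁, Commute a j := fun a h => hc a h j hj'.2
  have c2 : ∀ a ∈ L₂, Commute a j := fun a h => (hc j hj'.1 a h).symm
  have nj := cj n hn
  have nn : n * n = j := by rw [← pow_two, hn2]
  have s12 : ∀ a ∈ L₁, n * a * n⁻¹ ∈ L₂ := fun a h => hswap ▸ mem_map_of_mem _ h
  have back : ∀ a, Commute a j → n * (n * a * n⁻¹) * n⁻¹ = a := fun a h => by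
    rw [show n * (n * a * n⁻¹) * n⁻¹ = (n * n) * a * (n * n)⁻¹ by group, nn, ← h.eq, mul_inv_cancel_right]
  have s21 : ∀ b ∈ L₂, n * b * n⁻¹ ∈ L₁ := fun b h => by
    obtain ⟨a, ha, rfl⟩ := hswap.ge h
    exact (back a (c1 a ha)).symm ▸ ha
  have dec : ∀ y ∈ L₁ ⊔ L₂, ∃ a ∈ L₁, ∃ b ∈ L₂, y = a * b := fun y hy => by
    obtain ⟨a, ha, b, hb, rfl⟩ := (mem_sup_of_cent (cent_iff.2 hc)).1 hy; exact ⟨a, ha, b, hb, rfl⟩
  have xj : x ∉ L₂ := fun h => by
    rcases cap x xL h with e | e <;> rw [e] at xx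
    exacts [j1 (by simpa using xx.symm), j1 (xx.symm.trans jj)]
  have nL : n ∉ L₁ ⊔ L₂ := fun h => by
    obtain ⟨a, ha, b, hb, e⟩ := dec n h
    have h1 := s12 _ (L₁.mul_mem (L₁.mul_mem (L₁.inv_mem ha) xL) ha)
    have h2 := hc _ (L₁.mul_mem (L₁.mul_mem (L₁.inv_mem ha) xL) ha) b hb
    rw [e, mul_assoc a b, ← h2] at h1
    exact xj (by simpa [mul_assoc] using h1)
  have out : ∀ u, Commute u j → u ∉ L₁ ⊔ L₂ → ∃ a ∈ L₁, ∃ b ∈ L₂, u = a * b * n := fun u hu h => by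
    have hu' : u ∈ centralizer ({j} : Set G) := mem_centralizer_singleton_iff.2 hu
    have := (mul_mem_iff_of_index_two hi (a := ⟨u, hu'⟩) (b := ⟨n⁻¹, inv_mem hn⟩)).2
      (iff_of_false h fun c => nL (by simpa using inv_mem (mem_subgroupOf.1 c)))
    obtain ⟨a, ha, b, hb, e⟩ := dec _ (mem_subgroupOf.1 this)
    exact ⟨a, ha, b, hb, by rw [← e]; simp⟩
  have noinv : ∀ u, Commute u j → u * u = 1 → u ∈ L₁ ⊔ L₂ := fun u hu h => by_contra fun c => by
    obtain ⟨a, ha, b, hb, rfl⟩ := out u hu c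
    have e1 : a * b * n * (a * b * n) = (a * (n * b * n⁻¹)) * (b * (n * a * n⁻¹)) * j := by
      rw [← nn, mul_assoc a (n * b * n⁻¹), ← mul_assoc (n * b * n⁻¹), hc _ (s21 b hb) b hb, mul_assoc b,
        hc _ (s21 b hb) _ (s12 a ha)]
      group
    have e2 : n * (b * (n * a * n⁻¹)) * n⁻¹ = n * b * n⁻¹ * a := by
      conv_rhs => rw [← back a (c1 a ha)]
      group
    have e3 : a * (n * b * n⁻¹) = j * (b * (n * a * n⁻¹))⁻¹ := by
      rw [e1, mul_eq_one_iff_eq_inv, ji] at h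
      rw [← h, mul_inv_cancel_right]
    have m := cap _ (L₁.mul_mem ha (s21 b hb)) (e3 ▸ L₂.mul_mem hj'.2 (L₂.inv_mem (L₂.mul_mem hb (s12 a ha))))
    have e4 : b * (n * a * n⁻¹) = a * (n * b * n⁻¹) := by
      have : n * b * n⁻¹ * a = a⁻¹ * (a * (n * b * n⁻¹)) * a := by group
      rw [this] at e2
      rw [show b * (n * a * n⁻¹) = n⁻¹ * (n * (b * (n * a * n⁻¹)) * n⁻¹) * n by group, e2]
      rcases m with m | m <;> rw [m]
      · group
      · rw [← (c1 a ha).inv_left.eq.symm, inv_mul_cancel_right, nj.inv_left.eq, inv_mul_cancel_right]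
    rw [e4, eq_mul_inv_iff_mul_eq] at e3
    rcases m with m | m <;> rw [m] at e3
    exacts [j1 (by simpa using e3.symm), j1 (e3.symm.trans jj)]
  set x' := n * x * n⁻¹ with hx'
  have x'L : x' ∈ L₂ := s12 x xL
  have xx' : x' * x' = j := by
    rw [show x' * x' = n * (x * x) * n⁻¹ by rw [hx']; group, xx, nj.eq, mul_inv_cancel_right]
  have cx : Commute x x' := hc x xL x' x'L
  set t := x * x' with ht
  have tt : t * t = 1 := by rw [ht, mul_assoc, ← mul_assoc x', ← cx.eq, mul_assoc, ← mul_assoc, xx, xx', jj]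
  have t1 : t ≠ 1 := fun c => xj (eq_inv_of_mul_eq_one_left c ▸ L₂.inv_mem x'L)
  have tj : t ≠ j := fun c => xj (eq_mul_inv_of_mul_eq c ▸ L₂.mul_mem hj'.2 (L₂.inv_mem x'L))
  have cls : ∀ y, Commute y j → orderOf y = 2 → y ≠ j → ∃ c, Commute c j ∧ c * t * c⁻¹ = y := fun y h1 h2 h3 => by
    obtain ⟨g, hg, e⟩ := (cl y (noinv y h1 (H9.mul_self_of_orderOf h2)) h2).resolve_left h3
    obtain ⟨k, hk, e'⟩ := (cl t (mul_mem_sup xL x'L) (H9.orderOf_eq_two.2 ⟨tt, t1⟩)).resolve_left tj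
    exact ⟨g * k⁻¹, cj _ (hle (mul_mem hg (inv_mem hk))), by rw [← e, ← e']; group⟩
  have iso : IsIsolatedInvolution j := ⟨hj, fun g hg => by_contra fun ne => by
    have oc : ∀ k : G, orderOf (k * j * k⁻¹) = 2 := fun k => by
      rw [← hj]; exact (MulAut.conj k).orderOf_eq j
    obtain ⟨c, hc1, e⟩ := cls _ hg.symm (oc g) ne
    obtain ⟨h₀, e0⟩ : ∃ h₀, h₀ * j * h₀⁻¹ = t := ⟨c⁻¹ * g, by rw [mul_inv_rev, inv_inv, ← mul_assoc, mul_assoc c⁻¹, mul_assoc c⁻¹, ← e]; group⟩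
    have tjc : Commute t j := (c1 x xL).mul_left (c2 x' x'L)
    obtain ⟨d, hd, e1⟩ := cls (h₀⁻¹ * j * h₀⁻¹⁻¹) (by
      have := tjc.symm.map (MulAut.conj h₀⁻¹)
      rw [← e0] at this
      simpa [mul_assoc] using this) (oc _) fun c => tj (by
        rw [← e0]
        conv_lhs => rw [← c]
        group)
    have hj2 : h₀ * d * j * (h₀ * d)⁻¹ = t := by rw [mul_assoc h₀, hd.eq, ← e0]; group
    have ht2 : h₀ * d * t * (h₀ * d)⁻¹ = j := by
      rw [show h₀ * d * t * (h₀ * d)⁻¹ = h₀ * (d * t * d⁻¹) * h₀⁻¹ by group, e1]; group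
    set h := h₀ * d
    have xt : Commute x t := (Commute.refl x).mul_right cx
    have inn : ∀ u ∈ L₁ ⊔ L₂, u * u = t → ∃ a ∈ L₁, ∃ b ∈ L₂, u = a * b ∧ Commute a x ∧ Commute b x' := fun u hu e => by
      obtain ⟨a, ha, b, hb, rfl⟩ := dec u hu
      have e1 : x⁻¹ * (a * a) = x' * (b * b)⁻¹ := by
        rw [mul_assoc, ← mul_assoc b, ← hc a ha b hb, ht] at e
        rw [eq_mul_inv_iff_mul_eq, mul_assoc, inv_mul_eq_iff_eq_mul, ← e]; group
      have m := cap _ (L₁.mul_mem (L₁.inv_mem xL) (L₁.mul_mem ha ha)) (e1 ▸ L₂.mul_mem x'L (L₂.inv_mem (L₂.mul_mem hb hb)))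
      have k1 : Commute a (x⁻¹ * (a * a)) := by rcases m with m | m <;> rw [m]; exacts [Commute.one_right _, c1 a ha]
      have k2 : Commute b (x' * (b * b)⁻¹) := by
        rw [← e1]; rcases m with m | m <;> rw [m]; exacts [Commute.one_right _, c2 b hb]
      refine ⟨a, ha, b, hb, rfl, ?_, ?_⟩
      · have := (k1.mul_right ((Commute.refl a).mul_right (Commute.refl a)).inv_right).inv_right
        rwa [mul_inv_cancel_right, inv_inv] at this
      · have := k2.mul_right ((Commute.refl b).mul_right (Commute.refl b))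
        rwa [inv_mul_cancel_right] at this
    have ab2 : ∀ a ∈ L₂, ∀ b ∈ L₂, Commute a x' → Commute b x' → Commute a b := fun a ha b hb h1 h2 => by
      have tr : ∀ a, Commute a x' → Commute (n * a * n⁻¹) x := fun a h => by
        have := h.map (MulAut.conj n)
        simp only [MulAut.conj_apply] at this
        rwa [hx', back x (c1 x xL)] at this
      have := (ab1 _ (s21 a ha) _ (s21 b hb) (tr a h1) (tr b h2)).map (MulAut.conj n⁻¹)
      simpa [mul_assoc] using this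
    have outt : ∀ u, Commute u j → Commute u t → u ∉ L₁ ⊔ L₂ → u * u = t →
        u * x⁻¹ * (u * x⁻¹) = j ∧ u * x * u⁻¹ ≠ x' := fun u h1 h2 h3 e => by
      obtain ⟨a, ha, b, hb, e2⟩ := out u h1 h3
      have p1 : u * x * u⁻¹ ∈ L₂ := by
        rw [e2, show a * b * n * x * (a * b * n)⁻¹ = a * (b * (n * x * n⁻¹) * b⁻¹) * a⁻¹ by group,
          hc a ha _ (L₂.mul_mem (L₂.mul_mem hb x'L) (L₂.inv_mem hb)), mul_inv_cancel_right]
        exact L₂.mul_mem (L₂.mul_mem hb x'L) (L₂.inv_mem hb)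
      have p2 : u * x' * u⁻¹ ∈ L₁ := by
        rw [e2, show a * b * n * x' * (a * b * n)⁻¹ = a * (b * (n * x' * n⁻¹) * b⁻¹) * a⁻¹ by group,
          ← hc _ (s21 _ x'L) b hb, mul_inv_cancel_right]
        exact L₁.mul_mem (L₁.mul_mem ha (s21 _ x'L)) (L₁.inv_mem ha)
      have e3 : (u * x * u⁻¹)⁻¹ * x' = u * x' * u⁻¹ * x⁻¹ := by
        have : u * x * u⁻¹ * (u * x' * u⁻¹) = x' * x := by
          rw [← cx.eq, ← ht, show u * x * u⁻¹ * (u * x' * u⁻¹) = u * (x * x') * u⁻¹ by group, ← ht, h2.eq,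
            mul_inv_cancel_right]
        rw [inv_mul_eq_iff_eq_mul, ← mul_assoc, this, mul_inv_cancel_right]
      have e4 : u * x⁻¹ * (u * x⁻¹) = (u * x * u⁻¹)⁻¹ * x' := by
        rw [show u * x⁻¹ * (u * x⁻¹) = (u * x * u⁻¹)⁻¹ * (u * u * x⁻¹) by group, e, ht, cx.eq, mul_inv_cancel_right]
      have e5 : u * x⁻¹ * (u * x⁻¹) ≠ 1 := fun c => h3 (by
        simpa using mul_mem (noinv _ (h1.mul_left (c1 x xL).inv_left) c) (mem_sup_left (T := L₂) xL))
      refine ⟨?_, fun c => e5 (by rw [e4, c, inv_mul_cancel])⟩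
      rw [e4] at e5 ⊢
      exact (cap _ (e3 ▸ L₁.mul_mem p2 (L₁.inv_mem xL)) (L₂.mul_mem (L₂.inv_mem p1) x'L)).resolve_left e5
    obtain ⟨u₀, hu₀⟩ : ∃ u₀, (∃ v ∈ L₁ ⊔ L₂, v * v = t) → u₀ ∈ L₁ ⊔ L₂ ∧ u₀ * u₀ = t := by
      by_cases c : ∃ v ∈ L₁ ⊔ L₂, v * v = t
      · obtain ⟨v, h⟩ := c; exact ⟨v, fun _ => h⟩
      · exact ⟨1, fun h => absurd h c⟩
    classical
    have tr : ∀ u, Commute u j ∧ Commute u t ∧ u * u = j →
        Commute (h * u * h⁻¹) j ∧ Commute (h * u * h⁻¹) t ∧ h * u * h⁻¹ * (h * u * h⁻¹) = t := fun u ⟨h1, h2, h3⟩ =>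
      ⟨ht2 ▸ h2.map (MulAut.conj h), hj2 ▸ h1.map (MulAut.conj h), by rw [← hj2, ← h3]; group⟩
    let φ : G → G := fun v => if v ∈ L₁ ⊔ L₂ then v * u₀⁻¹ * x else v * x⁻¹
    have φL : ∀ v, v * v = t → (φ v ∈ L₁ ⊔ L₂ ↔ v ∈ L₁ ⊔ L₂) := fun v hv => by
      simp only [φ]
      split_ifs with c
      · exact iff_of_true (mul_mem (mul_mem c (inv_mem (hu₀ ⟨v, c, hv⟩).1)) (mem_sup_left xL)) c
      · exact Subgroup.mul_mem_cancel_right _ (inv_mem (mem_sup_left xL))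
    have φR : ∀ v, Commute v j ∧ Commute v t ∧ v * v = t → Commute (φ v) j ∧ Commute (φ v) t ∧ φ v * φ v = j :=
      fun v ⟨h1, h2, h3⟩ => by
      simp only [φ]
      split_ifs with c
      · obtain ⟨m0, q0⟩ := hu₀ ⟨v, c, h3⟩
        obtain ⟨a, ha, b, hb, rfl, a1, b1⟩ := inn v c h3
        obtain ⟨a', ha', b', hb', rfl, a2, b2⟩ := inn u₀ m0 q0
        have k1 : Commute (a * b) (a' * b') := ((ab1 a ha a' ha' a1 a2).mul_right (hc a ha b' hb')).mul_left
          (Commute.mul_right (hc a' ha' b hb).symm (ab2 b hb b' hb' b1 b2))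
        have k2 : Commute (a * b * (a' * b')⁻¹) x := (a1.mul_left (hc x xL b hb).symm).mul_left
          (a2.mul_left (hc x xL b' hb').symm).inv_left
        refine ⟨(h1.mul_left (cj _ (hle m0)).inv_left).mul_left (c1 x xL), (h2.mul_left
          (q0 ▸ ((Commute.refl _).mul_right (Commute.refl _)).inv_left)).mul_left xt, ?_⟩
        rw [← pow_two, k2.mul_pow, k1.inv_right.mul_pow, inv_pow, pow_two, pow_two, pow_two, h3, q0, xx, mul_inv_cancel, one_mul]
      · exact ⟨h1.mul_left (c1 x xL).inv_left, h2.mul_left xt.inv_left, (outt v h1 h2 c h3).1⟩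
    let f : {u // Commute u j ∧ Commute u t ∧ u * u = j} → {u // Commute u j ∧ Commute u t ∧ u * u = j} :=
      fun u => ⟨φ (h * u * h⁻¹), φR _ (tr _ u.2)⟩
    have fi : Function.Injective f := fun u v e => by
      have e' : φ (h * u * h⁻¹) = φ (h * v * h⁻¹) := congrArg Subtype.val e
      have k := (φL _ (tr _ u.2).2.2).symm.trans (e' ▸ φL _ (tr _ v.2).2.2)
      simp only [φ] at e'
      by_cases c : h * u * h⁻¹ ∈ L₁ ⊔ L₂
      · rw [if_pos c, if_pos (k.1 c)] at e'; exact Subtype.ext (by simpa using e')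
      · rw [if_neg c, if_neg (mt k.2 c)] at e'; exact Subtype.ext (by simpa using e')
    have nt : Commute n t := by
      rw [Commute, SemiconjBy, ← mul_inv_eq_iff_eq_mul, ht, show n * (x * x') * n⁻¹ = n * x * n⁻¹ * (n * x' * n⁻¹) by group,
        ← hx', hx', back x (c1 x xL), ← hx', cx.eq]
    obtain ⟨u, hu⟩ := Finite.surjective_of_injective fi ⟨n, nj, nt, nn⟩
    have e' : φ (h * u * h⁻¹) = n := congrArg Subtype.val hu
    obtain ⟨h1, h2, h3⟩ := tr _ u.2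
    have c : h * u * h⁻¹ ∉ L₁ ⊔ L₂ := fun c => nL (e' ▸ (φL _ h3).2 c)
    simp only [φ, if_neg c] at e'
    refine (outt _ h1 h2 c h3).2 ?_
    rw [hx', ← e']; group⟩
  refine eq_top_iff.2 fun g _ => ?_
  obtain ⟨k, hk, e⟩ := H9.zstar_factor iso g
  simpa using mul_mem (mem_sup_right (S := centralizer ({j} : Set G)) (T := oddCore G) hk)
    (mem_sup_left (mem_centralizer_singleton_iff.2 e))

end Cfsg.Agent.S3211
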