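import Cfsg.Statements.S3213
import Cfsg.Agent.H13.Irred

set_option autoImplicit false
open Cfsg

namespace Cfsg.Agent.S3213

open Matrix Module LinearMap
open scoped MatrixGroups

theorem ker_mul_le {F V : Type*} [Field F] [AddCommGroup V] [Module F V] [FiniteDimensional F V] (f g : End F V) :
    finrank F (ker (f * g)) ≤ finrank F (ker f) + finrank F (ker g) := by
  rw [← (g.domRestrict (ker (f * g))).finrank_range_add_finrank_ker]
  refine add_le_add (Submodule.finrank_mono ?_) ?_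
  · rintro _ ⟨⟨v, hv⟩, rfl⟩; exact hv
  · rw [← Submodule.finrank_map_subtype_eq]
    refine Submodule.finrank_mono ?_
    rintro _ ⟨v, hv, rfl⟩; exact hv

def u (t : ZMod 5) : SL(2, ZMod 5) := ⟨!![1, t; 0, 1], by simp⟩

theorem five : ∀ x : SL(2, ZMod 5), x * x * x = 1 → x ≠ 1 → ∃ t, u t * u (-t) = 1 ∧
    (x * (u t * x * u (-t))) ^ 10 = 1 ∧ (x * (u t * x * u (-t))) ^ 2 ≠ 1 := by decide +kernel

theorem two_le {F : Type*} [Field F] [Fintype F] (hF : Fintype.card F = 3) {ι : Type*} [Fintype ι] (hι : Fintype.card ι = 4)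
    (ρ : SL(2, ZMod 5) →* End F (ι → F)) (hρ : Function.Injective ρ) {x : SL(2, ZMod 5)} (hx : orderOf x = 3) :
    finrank F (ker (ρ x - 1)) ≤ 2 := by
  by_contra! h
  have : Fact (Nat.Prime 5) := ⟨Nat.prime_five⟩
  obtain ⟨t, h1, h2, h3⟩ := five x (by rw [← pow_three', ← hx, pow_orderOf_eq_one]) (by rintro rfl; simp at hx)
  obtain ⟨g, hg⟩ : ∃ g, u t = g := ⟨_, rfl⟩
  rw [hg] at h1 h2 h3
  rw [eq_inv_of_mul_eq_one_right h1] at h2 h3
  have hV : finrank F (ι → F) = 4 := by simp [hι]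
  have h4 : finrank F (ker (ρ x - 1)) ≤ finrank F (ker (ρ (g * x * g⁻¹) - 1)) := by
    refine finrank_le_finrank_of_injective (f := (ρ g).restrict (q := ker (ρ (g * x * g⁻¹) - 1)) fun v hv => ?_)
      fun v w h => Subtype.ext ?_
    · rw [mem_ker, LinearMap.sub_apply, sub_eq_zero, End.one_apply] at hv ⊢
      rw [← End.mul_apply, ← map_mul, inv_mul_cancel_right, map_mul, End.mul_apply, hv]
    · have := congrArg (fun v => ρ g⁻¹ v.1) h
      simpa [← End.mul_apply, ← map_mul] using this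
  have h5 := Submodule.finrank_sup_add_finrank_inf_eq (ker (ρ x - 1)) (ker (ρ (g * x * g⁻¹) - 1))
  have h6 := (ker (ρ x - 1) ⊔ ker (ρ (g * x * g⁻¹) - 1)).finrank_le
  have h7 : ker (ρ x - 1) ⊓ ker (ρ (g * x * g⁻¹) - 1) ≤ ker (ρ ((x * (g * x * g⁻¹)) ^ 2) - 1) := fun v ⟨a, b⟩ => by
    simp only [SetLike.mem_coe, mem_ker, LinearMap.sub_apply, sub_eq_zero, End.one_apply] at a b ⊢
    rw [sq, map_mul, map_mul _ x, End.mul_apply, End.mul_apply, End.mul_apply, b, a, b, a]
  have h8 := Submodule.finrank_mono h7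
  have h9 := H13.card_modEq_fixed (ρ ((x * (g * x * g⁻¹)) ^ 2)) (p := 5) (by rw [← map_pow, ← pow_mul, h2, map_one]) ⊤
    fun _ _ => trivial
  have h10 : finrank F (ker (ρ ((x * (g * x * g⁻¹)) ^ 2) - 1)) < 4 := hV ▸ Submodule.finrank_lt fun e =>
    h3 (hρ (by rw [map_one]; exact sub_eq_zero.1 (ker_eq_top.1 e)))
  rw [top_inf_eq, Module.natCard_eq_pow_finrank (K := F), Module.natCard_eq_pow_finrank (K := F) (V := ker _),
    finrank_top, hV, Nat.card_eq_fintype_card, hF] at h9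
  generalize finrank F (ker (ρ ((x * (g * x * g⁻¹)) ^ 2) - 1)) = k at *
  have : 2 ≤ k := by omega
  interval_cases k <;> exact absurd h9 (by decide)

theorem iso {F : Type*} [Field F] {A : Matrix (Fin 2 ⊕ Fin 2) (Fin 2 ⊕ Fin 2) F} (hm : Aᵀ * J (Fin 2) F * A = J (Fin 2) F)
    (h3 : (toLin' A - 1) * ((toLin' A - 1) * (toLin' A - 1)) = 0) (h4 : finrank F (ker (toLin' A - 1)) = 2) :
    ∀ v w : Fin 2 ⊕ Fin 2 → F, A *ᵥ v = v → A *ᵥ w = w → v ⬝ᵥ (J (Fin 2) F *ᵥ w) = 0 := by
  have inv : ∀ v w, (A *ᵥ v) ⬝ᵥ (J (Fin 2) F *ᵥ (A *ᵥ w)) = v ⬝ᵥ (J (Fin 2) F *ᵥ w) := fun v w => by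
    rw [← vecMul_transpose, ← dotProduct_mulVec, mulVec_mulVec, mulVec_mulVec, hm]
  have alt : ∀ v : Fin 2 ⊕ Fin 2 → F, v ⬝ᵥ (J (Fin 2) F *ᵥ v) = 0 := fun v => by
    simp [J, dotProduct, mulVec, Matrix.one_apply]; ring
  have anti : ∀ v w : Fin 2 ⊕ Fin 2 → F, v ⬝ᵥ (J (Fin 2) F *ᵥ w) = -(w ⬝ᵥ (J (Fin 2) F *ᵥ v)) := fun v w => by
    have := alt (v + w)
    rw [mulVec_add, add_dotProduct, dotProduct_add, dotProduct_add, alt, alt] at this
    linear_combination this
  obtain ⟨c, c0, c1⟩ : ∃ c, (toLin' A - 1) c ≠ 0 ∧ (toLin' A - 1) ((toLin' A - 1) c) = 0 := by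
    by_contra! H
    have H' : ∀ c, (toLin' A - 1) ((toLin' A - 1) c) = 0 → (toLin' A - 1) c = 0 := fun c h => by_contra fun e => H c e h
    have : ker (toLin' A - 1) = ⊤ := eq_top_iff.2 fun v _ => H' _ (H' _ (LinearMap.congr_fun h3 v))
    rw [this, finrank_top, finrank_fintype_fun_eq_card] at h4
    simp at h4
  have mem : ∀ v, A *ᵥ v = v → v ∈ ker (toLin' A - 1) := fun v h => by simp [h]
  have hc : ∀ w, A *ᵥ w = w → ((toLin' A - 1) c) ⬝ᵥ (J (Fin 2) F *ᵥ w) = 0 := fun w hw => by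
    rw [LinearMap.sub_apply, sub_dotProduct, toLin'_apply, End.one_apply, ← inv c w, hw, sub_self]
  generalize (toLin' A - 1) c = d at *
  intro v w hv hw
  by_cases hd : v ∈ Submodule.span F {d}
  · obtain ⟨a, rfl⟩ := Submodule.mem_span_singleton.1 hd
    rw [smul_dotProduct, hc w hw, smul_zero]
  have li : LinearIndependent F ![d, v] := (LinearIndependent.pair_iff' c0).2 fun a e =>
    hd (e ▸ Submodule.smul_mem _ _ (Submodule.mem_span_singleton_self d))
  have : Submodule.span F (Set.range ![d, v]) = ker (toLin' A - 1) := Submodule.eq_of_le_of_finrank_eq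
    (Submodule.span_le.2 (by rintro _ ⟨i, rfl⟩; fin_cases i; exacts [c1, mem v hv])) (by
      rw [finrank_span_eq_card li, h4]; rfl)
  obtain ⟨a, rfl⟩ := (Submodule.mem_span_range_iff_exists_fun F).1 (this.ge (mem w hw))
  rw [anti, Fin.sum_univ_two, add_dotProduct, smul_dotProduct, smul_dotProduct]
  simp [hc v hv, alt]


/-- Let F be the field with 3 elements and K the field with 5 elements. For every injective homomorphism φ from SL₂(K) into the symplectic group Sp₄(F) (4 × 4 matrices g with g J gᵀ = J for the standard alternating matrix J) and every element x of order 3 of SL₂(K), the vectors of F⁴ fixed by φ(x) form a 2-dimensional subspace that is totally isotropic for the alternating form defined by J. -/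
theorem result {F : Type*} [Field F] [Fintype F] (hF : Fintype.card F = 3)
    {K : Type*} [Field K] [Fintype K] (hK : Fintype.card K = 5)
    (φ : Matrix.SpecialLinearGroup (Fin 2) K →* ↥(Matrix.symplecticGroup (Fin 2) F)) (hφ : Function.Injective φ)
    (x : Matrix.SpecialLinearGroup (Fin 2) K) (hx : orderOf x = 3) :
    Module.finrank F ↥(LinearMap.ker (Matrix.toLin' ((φ x : Matrix (Fin 2 ⊕ Fin 2) (Fin 2 ⊕ Fin 2) F)) - LinearMap.id)) = 2 ∧
      ∀ v w : Fin 2 ⊕ Fin 2 → F, (φ x : Matrix (Fin 2 ⊕ Fin 2) (Fin 2 ⊕ Fin 2) F).mulVec v = v →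
        (φ x : Matrix (Fin 2 ⊕ Fin 2) (Fin 2 ⊕ Fin 2) F).mulVec w = w →
          dotProduct v ((Matrix.J (Fin 2) F).mulVec w) = 0 := by
  let e := (SpecialLinearGroup.map (n := Fin 2) (ZMod.ringEquivOfPrime K Nat.prime_five hK).toRingHom)
  have he : Function.Bijective e := ⟨fun a b h => Subtype.ext (Matrix.map_injective (RingEquiv.injective _)
    (congrArg Subtype.val h)), fun a => ⟨SpecialLinearGroup.map (ZMod.ringEquivOfPrime K Nat.prime_five hK).symm.toRingHom a,
      by ext i j; simp [e]⟩⟩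
  obtain ⟨x, rfl⟩ := he.2 x
  rw [orderOf_injective e he.1] at hx
  let ρ : SL(2, ZMod 5) →* End F (Fin 2 ⊕ Fin 2 → F) :=
    toLinAlgEquiv'.toMonoidHom.comp ((symplecticGroup (Fin 2) F).subtype.comp (φ.comp e))
  have hρ : Function.Injective ρ := toLinAlgEquiv'.injective.comp (Subtype.val_injective.comp (hφ.comp he.1))
  have h1 := two_le hF (by simp) ρ hρ hx
  have : Fact (Nat.Prime 3) := ⟨Nat.prime_three⟩
  have : CharP F 3 := charP_of_card_eq_prime hF
  have : CharP (End F (Fin 2 ⊕ Fin 2 → F)) 3 := charP_of_injective_algebraMap (algebraMap F _).injective 3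
  have h3 : (ρ x - 1) * ((ρ x - 1) * (ρ x - 1)) = 0 := by
    rw [← pow_three, sub_pow_char_of_commute _ (Commute.one_right _), ← map_pow, ← hx, pow_orderOf_eq_one, map_one,
      one_pow, sub_self]
  have h4 : finrank F (ker (ρ x - 1)) = 2 := by
    have a := ker_mul_le (ρ x - 1) ((ρ x - 1) * (ρ x - 1))
    have b := ker_mul_le (ρ x - 1) (ρ x - 1)
    rw [h3, ker_zero, finrank_top, finrank_fintype_fun_eq_card, Fintype.card_sum, Fintype.card_fin] at a
    omega
  exact ⟨h4, iso (SymplecticGroup.mem_iff'.1 (φ (e x)).2) h3 h4⟩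

end Cfsg.Agent.S3213
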