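import Cfsg.Statements.S3215
import Cfsg.Agent.H13.C2N
import Cfsg.Agent.H13.FF2
import Cfsg.Agent.H1.BG3a

set_option autoImplicit false
open Cfsg

namespace Cfsg.Agent.S3215

open H18 Subgroup H13 in
theorem aux {K : Type*} [Group K] [Finite K] [Group.IsSolvable K] (hK : CIT K) (h2 : pCore 2 K = ⊥) {X : Subgroup K}
    (ho : Odd (Nat.card X)) {k : ℕ} (hi : X.index ∣ 2 ^ k) (hz : IsZGroup X) :
    commutator K ≤ X ∧ ∀ T : Sylow 2 K, IsCyclic T := by
  have c := H1.centralizer_fitting_le K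
  set F := fittingSubgroup K
  have oF : Odd (Nat.card F) := by
    by_contra e
    obtain ⟨x, hx⟩ := exists_prime_orderOf_dvd_card' (G := F) 2 (Nat.not_odd_iff_even.1 e).two_dvd
    rw [← orderOf_coe] at hx
    have m := H1.le_pCore_of_le_fitting (H26.isPGroup_zpowers_of_orderOf hx) (zpowers_le.2 x.2) (mem_zpowers _)
    rw [h2, mem_bot] at m
    rw [m, orderOf_one] at hx; norm_num at hx
  have l : F ≤ X := by
    have e := H26.card_sup_mul_card_inf (H := X) (K := F) (le_normalizer_of_normal)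
    have o : Odd (Nat.card ↥(X ⊔ F)) := Odd.of_dvd_nat (ho.mul oF) ⟨_, e.symm⟩
    have d1 : X.relIndex (X ⊔ F) ∣ 2 ^ k := (relIndex_dvd_index_of_le le_sup_left).trans hi
    have d2 := Odd.of_dvd_nat o (relIndex_dvd_card X (X ⊔ F))
    exact le_sup_right.trans (relIndex_eq_one.1 (Nat.Coprime.eq_one_of_dvd
      (Nat.Coprime.pow_right k (Nat.coprime_two_right.2 d2)) d1))
  haveI cF : IsCyclic F := (ZGrp.of_le hz l).cyc_of_nil (H1.fitting_isNilpotent K)
  have d : commutator K ≤ F := (Abelianization.commutator_subset_ker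
    ((IsCyclic.mulAutMulEquiv F).toMonoidHom.comp (MulAut.conjNormal (H := F)))).trans (le_trans (show _ ≤ centralizer (F : Set K) from fun g hg f hf => by
      have : MulAut.conjNormal (H := F) g = 1 := (IsCyclic.mulAutMulEquiv F).injective (by simpa using hg)
      have := congrArg Subtype.val (DFunLike.congr_fun this ⟨f, hf⟩)
      simp only [MulAut.conjNormal_apply, MulAut.one_apply] at this
      exact (mul_inv_eq_iff_eq_mul.1 this).symm) c)
  refine ⟨d.trans l, fun T => ?_⟩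
  have hT : PiGrp {2} (T : Subgroup K) := piGrp_of_isPGroup Nat.prime_two T.2
  have od : ∀ f ∈ F, Odd (orderOf f) := fun f hf => Odd.of_dvd_nat oF (H26.orderOf_dvd_card_of_mem hf)
  by_cases e : F = ⊥
  · haveI : Subsingleton K := ⟨fun a b => by
      have k : ∀ a : K, a = 1 := fun a => mem_bot.1 (e ▸ c fun f hf => by
        have : f = 1 := mem_bot.1 (e ▸ (hf : f ∈ F))
        rw [this]; simp)
      rw [k a, k b]⟩
    infer_instance
  refine H1.cyc_of_semireg_abel (H := F) (fun a ha b hb => commutatorElement_eq_one_iff_mul_comm.1 ?_)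
    le_normalizer_of_normal e fun t ht t1 => eq_bot_iff.2 fun f hf => mem_bot.2
      (hK.eq_one (od f hf.1) (hT.elt ht) t1 (mem_C1.1 hf.2))
  exact H26.eq_one_of_mem_isPGroup T.2 (mul_mem (mul_mem (mul_mem hb ha) (inv_mem hb)) (inv_mem ha))
    (Nat.coprime_two_right.2 (od _ (d (commutator_mem_commutator trivial trivial))))

open H18 Subgroup H13 in
theorem aux2 {H : Type*} [Group H] [Finite H] (hsol : Group.IsSolvable H)
    (hO : Cfsg.oddCore H = ⊥)
    (hI : ∀ t : H, orderOf t = 2 → Cfsg.HasNormalPComplement 2 ↥(Subgroup.centralizer ({t} : Set H)))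
    (X : Subgroup H) (hXodd : Odd (Nat.card X)) (hXidx : ∃ k : ℕ, X.index = 2 ^ k) :
    (∀ x ∈ X, x ≠ 1 → ∀ y ∈ Cfsg.pCore 2 H, y ≠ 1 → x * y ≠ y * x) ∧
      (∀ (p : ℕ) [Fact p.Prime] (P : Sylow p ↥X), IsCyclic ↥(P : Subgroup ↥X)) ∧
      (X ⊔ Cfsg.pCore 2 H).Normal ∧
      ∀ hN : (X ⊔ Cfsg.pCore 2 H).Normal, IsCyclic (H ⧸ (X ⊔ Cfsg.pCore 2 H)) ∧ IsPGroup 2 (H ⧸ (X ⊔ Cfsg.pCore 2 H)) := by
  obtain ⟨k, hk⟩ := hXidx
  have hQ : PiGrp {2} (pCore 2 H) := H18.pCore_eq (G := H) Nat.prime_two ▸ H18.pcore_pi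
  have c := H1.centralizer_pCore_le (G := H) 2 hO
  haveI nQ : (pCore 2 H).Normal :=
    H26.normal_of_top_le_normalizer (H26.pCoreOf_top 2 H ▸ H26.le_normalizer_pCoreOf 2 ⊤)
  have hC : CIT H := fun x t ho t2 e => or_iff_not_imp_right.2 fun t1 => H26.eq_one_of_mem_isPGroup
    (H26.isPGroup_pCore 2 H) (c ((c2n_of hI).cent hQ ho (le_normalizer_of_normal (mem_top x)) (two_elt t2) t1
      (le_normalizer_of_normal (mem_top t)) e)) (Nat.coprime_two_right.2 ho)
  have hz : IsZGroup X := by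
    by_cases e : pCore 2 H = ⊥
    · haveI : Subsingleton H := ⟨fun a b => by
        have k : ∀ a : H, a = 1 := fun a => mem_bot.1 (e ▸ c fun f hf => by
          have : f = 1 := mem_bot.1 (e ▸ (hf : f ∈ pCore 2 H))
          rw [this]; simp)
        rw [k a, k b]⟩
      infer_instance
    · exact H1.odd_regular_zgrp hXodd le_normalizer_of_normal e (hC.semireg hXodd hQ)
  let π := QuotientGroup.mk' (pCore 2 H)
  have sπ := QuotientGroup.mk'_surjective (pCore 2 H)
  obtain ⟨f⟩ := nonempty_quot_equiv (pCore 2 H)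
  have h0 : pCore 2 (H ⧸ pCore 2 H) = ⊥ := by
    have := H26.map_pCoreOf_of_ker (p := 2) (H := ⊤) π (by
      rw [top_inf_eq, QuotientGroup.ker_mk']; exact H26.isPGroup_pCore 2 H)
    rw [H26.map_mk'_top, H26.pCoreOf_top, H26.pCoreOf_top] at this
    rw [← this, H26.map_mk'_eq_bot]
  obtain ⟨d, hT⟩ := aux ((hC.coset hQ).of_injective f.toMonoidHom f.injective) h0 (X := X.map π)
    (Odd.of_dvd_nat hXodd (card_map_dvd X π)) (k := k) (hk ▸ index_map_dvd X sπ)
    (IsZGroup.of_surjective (f := π.subgroupMap X) (π.subgroupMap_surjective X))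
  have e : X ⊔ pCore 2 H = (X.map π).comap π := by rw [comap_map_eq, QuotientGroup.ker_mk']
  haveI : (X.map π).Normal := ⟨fun n hn g => by
    simpa [commutatorElement_def] using mul_mem (d (commutator_mem_commutator (mem_top g) (mem_top n))) hn⟩
  refine ⟨fun x hx x1 y hy y1 e => x1 (hC.eq_one (Odd.of_dvd_nat hXodd (H26.orderOf_dvd_card_of_mem hx)) (hQ.elt hy) y1 e),
    fun p hp P => hz.1 p hp.out P, e ▸ inferInstance, fun hN => ?_⟩
  have hp : IsPGroup 2 (H ⧸ (X ⊔ pCore 2 H)) := by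
    obtain ⟨j, -, hj⟩ := (Nat.dvd_prime_pow Nat.prime_two).1 (hk ▸ index_dvd_of_le (le_sup_left : X ≤ X ⊔ pCore 2 H))
    exact IsPGroup.of_card hj
  refine ⟨?_, hp⟩
  let ψ := QuotientGroup.map (pCore 2 H) (X ⊔ pCore 2 H) (MonoidHom.id H) le_sup_right
  have sψ : Function.Surjective ψ := fun g => by
    induction g using QuotientGroup.induction_on with
    | H g => exact ⟨g, rfl⟩
  obtain ⟨T⟩ : Nonempty (Sylow 2 (H ⧸ pCore 2 H)) := inferInstance
  haveI := hT T
  have s := (H26.isSyl_top T).map ψ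
  rw [← MonoidHom.range_eq_map, MonoidHom.range_eq_top.2 sψ] at s
  refine isCyclic_of_surjective (ψ.comp (T : Subgroup _).subtype) fun g => ?_
  obtain ⟨t, ht, e⟩ : g ∈ map ψ T := (s.eq_of_isPGroup (hp.to_subgroup ⊤)).symm ▸ mem_top g
  exact ⟨⟨t, ht⟩, e⟩


/-- Let H be a finite solvable group with no nontrivial normal subgroup of odd order in which the centralizer of every involution has a normal 2-complement. Let X be a Hall 2'-subgroup of H (odd order, index a power of 2) and Y = O₂(H). Then no non-identity element of X commutes with a non-identity element of Y (so for X ≠ 1 the group XY is a Frobenius group with kernel Y), every Sylow subgroup of X is cyclic, XY is normal in H, and H/XY is a cyclic 2-group. -/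
theorem result {H : Type*} [Group H] [Finite H] (hsol : Group.IsSolvable H)
    (hO : Cfsg.oddCore H = ⊥)
    (hI : ∀ t : H, orderOf t = 2 → Cfsg.HasNormalPComplement 2 ↥(Subgroup.centralizer ({t} : Set H)))
    (X : Subgroup H) (hXodd : Odd (Nat.card X)) (hXidx : ∃ k : ℕ, X.index = 2 ^ k) :
    (∀ x ∈ X, x ≠ 1 → ∀ y ∈ Cfsg.pCore 2 H, y ≠ 1 → x * y ≠ y * x) ∧
      (∀ (p : ℕ) [Fact p.Prime] (P : Sylow p ↥X), IsCyclic ↥(P : Subgroup ↥X)) ∧
      (X ⊔ Cfsg.pCore 2 H).Normal ∧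
      ∀ hN : (X ⊔ Cfsg.pCore 2 H).Normal, IsCyclic (H ⧸ (X ⊔ Cfsg.pCore 2 H)) ∧ IsPGroup 2 (H ⧸ (X ⊔ Cfsg.pCore 2 H)) := by
  exact aux2 hsol hO hI X hXodd hXidx

end Cfsg.Agent.S3215
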