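import Cfsg.Statements.S3224
import Cfsg.Agent.H9.MaxClass

set_option autoImplicit false
open Cfsg

namespace Cfsg.Agent.S3224

/-- A finite 2-group containing an involution whose centralizer has order 4 is dihedral, quasi-dihedral (semidihedral), or of order 4. -/
theorem result {S : Type*} [Group S] [Finite S] (hS : IsPGroup 2 S)
    (x : S) (hx : orderOf x = 2) (hC : Nat.card ↥(Subgroup.centralizer ({x} : Set S)) = 4) :
    (∃ n : ℕ, Nonempty (S ≃* DihedralGroup n)) ∨ Cfsg.IsQuasiDihedral S ∨ Nat.card S = 4 := by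
  by_cases hna : IsMulCommutative (⊤ : Subgroup S)
  · refine Or.inr (Or.inr ?_)
    rw [← hC, (Subgroup.eq_top_iff' (Subgroup.centralizer {x})).2 fun g => Subgroup.mem_centralizer_singleton_iff.2
      (H1.isMulCommutative_iff.1 hna g trivial x trivial), Subgroup.card_top]
  obtain ⟨k, a, h⟩ := H9.mc_of_card_centralizer (hS.to_subgroup ⊤) (Subgroup.mem_top x)
    (by rw [top_inf_eq, hC]) hna
  rcases h.cases with h1 | h1 | ⟨h1, h2⟩
  · obtain ⟨e⟩ := h.equiv_dihedral h1
    exact Or.inl ⟨_, ⟨Subgroup.topEquiv.symm.trans e⟩⟩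
  · exfalso
    have h2 : x = a ^ 2 ^ (k + 1) := h.eq_u (by
      by_contra h2
      exact h.u_ne_one ((h1 x trivial h2).symm.trans (H9.mul_self_of_orderOf hx))) hx
    rw [(Subgroup.eq_top_iff' (Subgroup.centralizer {x})).2 fun g =>
      Subgroup.mem_centralizer_singleton_iff.2 (h2 ▸ h.commute_u (Subgroup.mem_top g)),
      h.card_eq] at hC
    have : 0 < 2 ^ k := by positivity
    simp only [pow_succ] at hC
    omega
  · exact Or.inr (Or.inl (H9.isQuasiDihedral_of_equiv Subgroup.topEquiv (h.isQuasiDihedral h1 h2)))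

end Cfsg.Agent.S3224
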