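import Cfsg.Statements.S3225
import Cfsg.Agent.H9.Hv2

set_option autoImplicit false
open Cfsg

namespace Cfsg.Agent.S3225

open H18 H9 Subgroup

/-- Let G be a finite group of even order with no subgroup of index 2, S a Sylow 2-subgroup of G and M a subgroup of index 2 in S such that, for some n ≥ 1, every element of S outside M has order greater than 2^(n−1). Then every element of S of order 2ⁿ is conjugate in G to an element of M. -/
theorem result {G : Type*} [Group G] [Finite G] (hev : Even (Nat.card G))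
    (hG : ∀ H : Subgroup G, H.index ≠ 2) (S : Sylow 2 G) (M : Subgroup G) (hMS : M ≤ (S : Subgroup G)) (hM : M.relIndex (S : Subgroup G) = 2)
    (n : ℕ) (hn : 1 ≤ n) (hord : ∀ y ∈ (S : Subgroup G), y ∉ M → 2 ^ (n - 1) < orderOf y)
    (x : G) (hx : x ∈ (S : Subgroup G)) (hxn : orderOf x = 2 ^ n) :
    ∃ g : G, g * x * g⁻¹ ∈ M := by
  have hp := Nat.prime_two
  have hT := hall_sylow_top hp S
  by_contra! h
  obtain ⟨n, rfl⟩ := Nat.exists_eq_add_of_le' hn
  have nM := hT.pi.nml_of_relIndex hp hMS hM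
  have h0 : ∀ (m : ℕ) (a : G), a * x ^ m * a⁻¹ ∈ (S : Subgroup G) → (a * x ^ m * a⁻¹ ∈ M ↔ Even m) := fun m a ha => by
    refine ⟨fun e => Nat.not_odd_iff_even.1 fun o => h a ?_, ?_⟩
    · obtain ⟨k, hk⟩ := exists_pow_eq_self_of_coprime (x := x) (n := m) (hxn ▸ Nat.Coprime.pow_right _ o.coprime_two_right)
      have := pow_mem e k
      rwa [conj_pow, hk] at this
    · rintro ⟨k, rfl⟩
      refine by_contra fun e => (hord _ ha e).not_ge (Nat.le_of_dvd (by positivity) (orderOf_dvd_of_pow_eq_one ?_))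
      rw [conj_pow, ← pow_mul, ← two_mul, Nat.add_sub_cancel, mul_right_comm, ← pow_succ', ← hxn, pow_mul,
        pow_orderOf_eq_one, one_pow, mul_one, mul_inv_cancel]
  refine not_mem_der hp (commutator_le.2 fun a ha b hb => ?_) S.not_dvd_index hx (by simpa using h 1)
    (hT.pi.elt hx) (fun m a ha => ?_) (mem_der_of_two hG (hT.pi.elt hx))
  · by_cases e : b ∈ M
    · exact mul_mem (conj_mem nM.norm ha e) (inv_mem e)
    · exact mul_inv_mem_of_relIndex_two hM (conj_mem_N (le_N ha) hb) hb
        (fun e' => e (by simpa [mul_assoc] using conj_mem' nM.norm ha e')) e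
  have h1 := h0 m 1 (by simpa using pow_mem hx m)
  rw [one_mul, inv_one, mul_one] at h1
  by_cases e : Even m
  · exact mul_mem ((h0 m a ha).2 e) (inv_mem (h1.2 e))
  · exact mul_inv_mem_of_relIndex_two hM ha (pow_mem hx m) (mt (h0 m a ha).1 e) (mt h1.1 e)

end Cfsg.Agent.S3225
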