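import Cfsg.Statements.S3245
import Cfsg.Agent.H18.Bender2

set_option autoImplicit false
open Cfsg

namespace Cfsg.Agent.S3245

/-- A finite non-abelian simple group in which all maximal 2-local subgroups are conjugate is isomorphic to L₂(2ⁿ), Sz(2ⁿ) or U₃(2ⁿ) for some n ≥ 2. -/
theorem result {G : Type*} [Group G] [Finite G] [IsSimpleGroup G] (hG : ¬ IsMulCommutative G)
    (h1 : ∀ M M' : Subgroup G, Cfsg.IsMaximalTwoLocal M → Cfsg.IsMaximalTwoLocal M' → ∃ g : G, M' = M.map (MulAut.conj g).toMonoidHom) :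
    (∃ (F : Type) (_ : Field F) (_ : Fintype F) (n : ℕ), 2 ≤ n ∧ Fintype.card F = 2 ^ n ∧
        Nonempty (G ≃* Matrix.ProjectiveSpecialLinearGroup (Fin 2) F)) ∨
      Cfsg.Lie.IsoSuzuki G ∨
      (∃ (F : Type) (_ : Field F) (_ : Fintype F) (n : ℕ), 2 ≤ n ∧ Fintype.card F = (2 ^ n) ^ 2 ∧ Nonempty (G ≃* Cfsg.PSU 3 F (2 ^ n))) := by
  open H18 H9 Subgroup in
  have he : 2 ∣ Nat.card (⊤ : Subgroup G) := even_iff_two_dvd.1 (Nat.not_odd_iff_even.1 fun o => by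
    haveI := solv_top_iff.1 (H5.solv_of_odd o)
    exact hG ⟨⟨IsSimpleGroup.comm_iff_isSolvable.2 this⟩⟩)
  obtain ⟨S, hS⟩ := exists_sylow Nat.prime_two (⊤ : Subgroup G)
  have S1 := hS.ne_bot_p Nat.prime_two he
  have mx : ∀ T : Subgroup G, PiGrp {2} T → T ≠ ⊥ → ∃ M, N(T) ≤ M ∧ IsMaximalTwoLocal M := fun T h1 h2 =>
    exists_maximal_sub IsTwoLocal ⟨T, h1.isPGroup, h2, rfl⟩
  obtain ⟨M, hM, mM⟩ := mx S hS.pi S1
  have ne : M ≠ ⊤ := fun e => by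
    obtain ⟨T, h1, h2, h3⟩ := mM.1
    have := (norm_top_iff.1 (e.ge.trans h3.le)).eq_bot_or_eq_top.resolve_left h2
    haveI := solv_top_iff.1 (this ▸ (piGrp_of_isPGroup Nat.prime_two h1).solv)
    exact hG ⟨⟨IsSimpleGroup.comm_iff_isSolvable.2 this⟩⟩
  obtain ⟨F, _, _, ⟨n, h1, h2⟩, e⟩ | e := isBender_of_se (se_of_conj_family ne hS S1 hM fun T h2 h3 _ => by
    obtain ⟨M', h4, h5⟩ := mx T h2 h3
    exact (h1 M M' mM h5).imp fun g e => h4.trans e.le)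
  exacts [.inl ⟨F, _, _, n, h1, h2, e⟩, .inr e]

end Cfsg.Agent.S3245
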