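import Cfsg.Statements.S3246
import Cfsg.Agent.H17.Misc

set_option autoImplicit false
open Cfsg

namespace Cfsg.Agent.S3246

open H17 H18 Subgroup

/-- Let G be a finite group whose Sylow 2-subgroup S has a self-centralizing normal subgroup of rank at least 3. Suppose that either every maximal 2-local subgroup of G is 2-constrained with no nontrivial normal subgroup of odd order, or the centralizer of every involution of G is 2-constrained with no nontrivial normal subgroup of odd order. Then S normalizes no nontrivial subgroup of G of odd order and every 2-local subgroup of G is 2-constrained. -/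
theorem result {G : Type*} [Group G] [Finite G]
    (S : Sylow 2 G) (A : Subgroup G) (hA : Cfsg.IsSCN (S : Subgroup G) A) (hA3 : ¬ Cfsg.PRankLE 2 2 ↥A)
    (h : (∀ M : Subgroup G, Cfsg.IsMaximalTwoLocal M → Cfsg.IsPConstrained 2 ↥M ∧ Cfsg.oddCore ↥M = ⊥) ∨
      (∀ t : G, orderOf t = 2 → Cfsg.IsPConstrained 2 ↥(Subgroup.centralizer ({t} : Set G)) ∧
        Cfsg.oddCore ↥(Subgroup.centralizer ({t} : Set G)) = ⊥)) :
    (∀ X : Subgroup G, Odd (Nat.card ↥X) → (S : Subgroup G) ≤ Subgroup.normalizer (X : Set G) → X = ⊥) ∧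
      (∀ T : Subgroup G, IsPGroup 2 ↥T → T ≠ ⊥ → Cfsg.IsPConstrained 2 ↥(Subgroup.normalizer (T : Set G))) := by
  have key : ∀ T : Subgroup G, IsPGroup 2 T → T ≠ ⊥ → CharP 2 (normalizer (T : Set G)) := fun T hT h1 =>
    h.elim (fun h => charP_local_of_max (fun M hM => charP_two_of_sub (h M hM)) hT h1)
      (fun h => charP_local_of_inv (fun t ht => charP_two_of_sub (h t ht)) hT h1)
  refine ⟨fun X hX hn => eq_bot_of_sylow_norm (hall_sylow_top Nat.prime_two S) ?_
    (fun t ht => charP_inv_of_local key ht) ?_ hn, fun T hT h1 => (key T hT h1).isPConstrained⟩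
  · rw [← H18.prank_le_iff Nat.prime_two, not_le] at hA3
    exact hA3.trans_le (prank_mono Nat.prime_two hA.1)
  · rw [PiGrp, piNat_compl_iff Nat.prime_two, ← even_iff_two_dvd]
    exact Nat.not_even_iff_odd.2 hX

end Cfsg.Agent.S3246
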