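import Cfsg.Statements.S3247
import Cfsg.Agent.H17.FStar

set_option autoImplicit false
open Cfsg

namespace Cfsg.Agent.S3247

/-- Let G be a finite group and p a prime; here a p-local subgroup means the normalizer of a nontrivial p-subgroup, other than G itself. If every p-local subgroup of G that is maximal among p-local subgroups is p-constrained, or if the centralizer of every element of order p of G is p-constrained, then every p-local subgroup of G is p-constrained. -/
theorem result {G : Type*} [Group G] [Finite G] (p : ℕ) [hp : Fact p.Prime]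
    (h : (∀ M : Subgroup G, (∃ T : Subgroup G, IsPGroup p ↥T ∧ T ≠ ⊥ ∧ M = Subgroup.normalizer (T : Set G)) → M ≠ ⊤ →
        (∀ M' : Subgroup G, (∃ T' : Subgroup G, IsPGroup p ↥T' ∧ T' ≠ ⊥ ∧ M' = Subgroup.normalizer (T' : Set G)) → M' ≠ ⊤ → M ≤ M' → M = M') →
        Cfsg.IsPConstrained p ↥M) ∨
      (∀ x : G, orderOf x = p → Cfsg.IsPConstrained p ↥(Subgroup.centralizer ({x} : Set G))))
    (T : Subgroup G) (hT : IsPGroup p ↥T) (hT1 : T ≠ ⊥) (hTG : Subgroup.normalizer (T : Set G) ≠ ⊤) :
    Cfsg.IsPConstrained p ↥(Subgroup.normalizer (T : Set G)) := by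
  rw [H17.isPConstrained_iff_pLay]
  rcases h with h | h
  · obtain ⟨M, hle, hM⟩ := Finite.exists_le_maximal (p := fun M : Subgroup G =>
      (∃ T : Subgroup G, IsPGroup p T ∧ T ≠ ⊥ ∧ M = Subgroup.normalizer (T : Set G)) ∧ M ≠ ⊤)
      ⟨⟨T, hT, hT1, rfl⟩, hTG⟩
    have h1 := H17.isPConstrained_iff_pLay.mp
      (h M hM.prop.1 hM.prop.2 fun M' a b c => le_antisymm c (hM.le_of_ge ⟨a, b⟩ c))
    have h2 := H17.pLay_inf_centralizer_eq_bot h1 hT (Subgroup.le_normalizer.trans hle)
    rwa [inf_eq_right.mpr ((Subgroup.centralizer_le_normalizer _).trans hle), H17.pLay_centralizer_eq' hT] at h2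
  · obtain ⟨z, hz, hz2⟩ := H17.exists_orderOf_of_ne_bot hT hT1
    rw [← H17.pLay_centralizer_eq' hT]
    refine H17.pLay_centralizer_eq_bot_of_le hT (Subgroup.zpowers_le.mpr hz) ?_
    rw [← H17.centralizer_singleton_eq_zpowers]
    exact H17.isPConstrained_iff_pLay.mp (h z hz2)

end Cfsg.Agent.S3247
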