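import Cfsg.Statements.S3254
import Cfsg.Agent.H10.Nag3

set_option autoImplicit false
open Cfsg

namespace Cfsg.Agent.S3254

open H5 H10 H16 Subgroup MulAction

theorem arith {p t d f m a b S n : ℕ} {δ : ℤ} (hδ : δ = 1 ∨ δ = -1) (h3 : 3 < p) (ht : t * 2 + 1 = p) (d2 : 2 ≤ d)
    (hf : (f : ℤ) = d + δ) (e3 : (p * m : ℤ) = d + (p - 1) * δ) (r1 : δ * b = 1 + δ * a)
    (r2 : 1 + (a * d + t * (b * f) + S) = n) (hn : n ≤ 3 * p) : (n = 15 ∧ p = 5 ∧ a = 0 ∧ f = 7 ∧ S = 0) ∨
      δ = -1 ∧ (m = 0 ∨ a = 1 ∧ b = 0 ∧ (m = 1 ∨ m = 2)) := by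
  rcases hδ with rfl | rfl
  · obtain rfl : b = a + 1 := by omega
    have k1 : 2 ≤ m := by
      by_contra
      obtain rfl | rfl : m = 0 ∨ m = 1 := by omega
      all_goals omega
    have k2 : p + 2 ≤ f := by nlinarith
    have k3 : t * (p + 2) ≤ t * ((a + 1) * f) := Nat.mul_le_mul_left _ (by nlinarith)
    obtain rfl : t = 2 := by
      have : 2 ≤ t := by omega
      nlinarith [Nat.zero_le (a * d)]
    obtain rfl : p = 5 := by omega
    obtain rfl : a = 0 := by nlinarith [Nat.zero_le (a * d)]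
    omega
  refine .inr ⟨rfl, (Nat.eq_zero_or_pos m).imp_right fun k1 => ?_⟩
  have k2 : 2 * p ≤ d + 1 := by nlinarith
  obtain rfl : b = 0 := by
    by_contra n
    have : 2 * d ≤ a * d := Nat.mul_le_mul_right _ (by omega)
    omega
  obtain rfl : a = 1 := by omega
  have : m < 3 := by nlinarith
  omega

theorem fpf {G X : Type*} [Group G] [Finite G] {p : ℕ} [Fact p.Prime] {P : Sylow p G} (S : SC P) [MulAction G X]
    [IsPretransitive G X] [Fintype X] (h : p ∣ Fintype.card X) :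
    ∀ x ∈ (P : Subgroup G), x ≠ 1 → ∀ y : X, x • y ≠ y := fun x hx x1 y hy =>
  not_sq_dvd_of_card_sylow S.hP (by
    rw [← card_stab_mul y, sq, Nat.card_eq_fintype_card (α := X)]
    refine mul_dvd_mul (Dvd.dvd.trans (by_contra fun n => x1 (eq_one_of_mem_of_not_dvd S.hP hx n)) ?_) h
    exact orderOf_dvd_natCard _ hy)


/-- Let p > 3 be a prime and G a finite non-abelian simple group acting faithfully and transitively on a set Ω of 3p points, such that the normalizer of a Sylow p-subgroup of G has order 2p. If the action is primitive then p = 5 and G ≅ A₆; if it is imprimitive then p = 2^m + 1 for some m and G ≅ PSL₂(2^m). -/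
theorem result {G : Type*} [Group G] [Finite G] [IsSimpleGroup G] (hG : ¬ IsMulCommutative G)
    (p : ℕ) (hp : p.Prime) (hp3 : 3 < p) {Ω : Type*} [Fintype Ω] [MulAction G Ω] [FaithfulSMul G Ω]
    (htr : MulAction.IsPretransitive G Ω) (hΩ : Fintype.card Ω = 3 * p)
    (P : Sylow p G) (hN : Nat.card ↥(Subgroup.normalizer ((P : Subgroup G) : Set G)) = 2 * p) :
    (MulAction.IsPreprimitive G Ω → p = 5 ∧ Nonempty (G ≃* ↥(alternatingGroup (Fin 6)))) ∧
      (¬ MulAction.IsPreprimitive G Ω → ∃ (F : Type) (_ : Field F) (_ : Fintype F) (m : ℕ), Fintype.card F = 2 ^ m ∧ p = 2 ^ m + 1 ∧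
        Nonempty (G ≃* Matrix.ProjectiveSpecialLinearGroup (Fin 2) F)) := by
  classical
  have : Fact p.Prime := ⟨hp⟩
  have := Fintype.ofFinite G
  have : Nontrivial Ω := Fintype.one_lt_card_iff_nontrivial.1 (by omega)
  obtain ⟨a₀⟩ : Nonempty Ω := inferInstance
  have h4 := card_stab_mul (G := G) a₀
  rw [Nat.card_eq_fintype_card (α := Ω), hΩ] at h4
  have hd : p ∣ Nat.card G := (Dvd.intro_left 3 rfl).trans (Dvd.intro_left _ h4)
  have hO : pPrimeCore p G = ⊥ := (IsSimpleGroup.eq_bot_or_eq_top_of_normal _ inferInstance).resolve_right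
    fun e => H1.not_dvd_card_pPrimeCore hp (G := G) (by rwa [e, card_top])
  obtain ⟨S, he, hP, -⟩ := simple_of_two_p (by omega) hO P hd (fun h => by
    have := (h.eq_bot_or_eq_top).resolve_left (P.ne_bot_of_dvd_card hd)
    rw [this, normalizer_eq_top_iff.2 inferInstance] at hN
    obtain ⟨k, hk⟩ := P.isPGroup'.exists_card_eq
    have := (Nat.prime_dvd_prime_iff_eq Nat.prime_two hp).1 (Nat.prime_two.dvd_of_dvd_pow
      (hk ▸ this ▸ hN ▸ Dvd.intro p rfl))
    omega) hN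
  obtain ⟨D⟩ := exists_PB (by omega) P S.hP he (by omega)
  have ht := D.te
  generalize (p - 1) / 2 = t at D ht
  obtain ⟨χ, h2, h3, hsum⟩ := D.exists_pair
  have d2 := two_le_deg hP h2
  obtain ⟨hε, hf, s, hs, hc, a', m', e1, e2, e3, e4⟩ := D.e2_formula S h3 hsum (charKer_eq_bot_of_simple h2) d2
  have d1 : χ.1 1 = charDegree χ.1 := χ.2.isCharacter.coe_charDegree.symm
  have pgl := fun h : (m' : ℤ) = 0 ∧ D.δ χ = -1 => pgl_of_card hG hp3 S he hO (card_of_deg_sub_one hp3 S he χ.2 (by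
    rw [d1, eq_sub_iff_add_eq]; norm_cast; simp only [h.1, h.2] at e3; omega))
  refine ⟨fun hprim => ?_, fun hn => ?_⟩
  · have fp := fpf (X := Ω) S ⟨3, by omega⟩
    obtain ⟨m, b, R, r1, r2, r3, r4, r5, r6, r7⟩ := D.perm_decomp S hsum a₀ fp
    rw [hΩ] at r2
    rw [hε] at r1
    have s2 : s ^ 2 = 1 := hs ▸ pow_orderOf_eq_one s
    have z : ∑ ζ ∈ R, m ζ * charDegree ζ.1 = 0 → ∀ ζ ∈ R, m ζ = 0 := fun h ζ k =>
      (mul_eq_zero.1 (Finset.sum_eq_zero_iff.1 h ζ k)).resolve_right ζ.2.charDegree_pos.ne'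
    obtain ⟨y, hy⟩ : ∃ y : Ω, s • y ≠ y := by
      by_contra! h
      rw [show s = 1 from eq_of_smul_eq_smul fun y : Ω => (h y).trans (one_smul _ _).symm] at hs
      simp at hs
    have eq : ∀ n : ℕ, ∑ ζ ∈ R, m ζ * charDegree ζ.1 = 0 → (m χ = 0 ∧ D.f = n ∨ b = 0 ∧ charDegree χ.1 = n) →
        sub G y (s • y) = n := fun n k1 k2 => (equal_degrees y n fun ζ k3 k4 k5 => by
      have k6 := r5 ⟨ζ, k3⟩
      rcases r6 ⟨ζ, k3⟩ (fun e => k4 (congrArg Subtype.val e)) with rfl | k | k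
      · rcases k2 with k | k
        · simp [k5, k.1] at k6
        · exact k.2 ▸ d1
      · rcases k2 with k' | k'
        · exact k'.2 ▸ D.apply_one_Y k.1
        · simp [k5, k.2, k'.1] at k6
      · simp [k5, z k1 _ k] at k6).2 _ hy
    have f3 : Nat.card (fixedBy Ω s) ≤ 3 := by
      obtain ⟨u, hu, u2⟩ := H9.exists_involution_mem (H := 𝐍[(P : Subgroup G)]) (hN ▸ even_two_mul p)
      have k1 := card_mul_avg (P : Subgroup G) (pc G Ω) 1
      simp only [mul_one] at k1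
      rw [sum_eq_of_const _ _ 0 fun x hx x1 => by
        have : IsEmpty (fixedBy Ω x) := ⟨fun y => fp x hx x1 y y.2⟩
        simp, S.hP] at k1
      have k2 := norm_avg_le (P : Subgroup G) (isCharacter_fixedBy (G := G) Ω) hu
      rw [avg_eq_of_not_mem_C S.hP (isCharacter_fixedBy (G := G) Ω).isClassFunction hu (S.not_mem_C
        (by rintro rfl; simp at u2) (by rw [u2]; exact Nat.not_dvd_of_pos_of_lt two_pos (by omega))),
        show avg P (pc G Ω) 1 = 3 from mul_left_cancel₀ (Nat.cast_ne_zero.2 hp.ne_zero) (by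
          simp [k1, pc, hΩ, mul_comm]), ← fix_isConj (hc u u2)] at k2
      simpa using k2
    have f2 := fix_modEq (Ω := Ω) (p := 2) (n := 1) s2
    have p2 := Nat.odd_iff.1 (hp.odd_of_ne_two (by omega))
    rw [Nat.card_eq_fintype_card, hΩ, Nat.ModEq] at f2
    obtain ⟨-, rfl, k1, k2, k3⟩ | ⟨e, rfl | ⟨k0, rfl, k1⟩⟩ := arith (D.δ_sign χ h3) hp3 ht d2 hf e3 r1 r2 le_rfl
    · have := two_dvd_of_swap s2 hy
      rw [eq 7 k3 (.inl ⟨k1, k2⟩), Nat.card_eq_fintype_card, hΩ] at this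
      omega
    · obtain ⟨n, F, _, _, k1, k2, ⟨i⟩⟩ := pgl ⟨rfl, e⟩
      exact (nag_pgl hp hp3 hΩ k1 k2 i (card_of_deg_sub_one hp3 S he χ.2 (by
        rw [e] at e3; rw [d1, eq_sub_iff_add_eq]; norm_cast; omega))).elim
    rw [e] at hf e3
    simp only [k0, zero_add, one_mul, zero_mul, mul_zero, add_zero, Nat.cast_zero, Nat.cast_one, Finset.sum_const_zero,
      one_pow, zero_pow two_ne_zero] at r2 r3 r7
    obtain ⟨n, g, c, hg, -, g1, g2⟩ := two_part hs hc
    obtain rfl | rfl := k1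
    · obtain ⟨ψ, k3, k4⟩ := Finset.exists_ne_zero_of_sum_ne_zero (s := R) (f := fun ζ => m ζ * charDegree ζ.1)
        (by omega)
      have k5 := Nat.le_of_dvd ψ.2.charDegree_pos (r4 ψ k3)
      have k6 : 1 * charDegree ψ.1 ≤ m ψ * charDegree ψ.1 := Nat.mul_le_mul_right _
        (Nat.pos_of_ne_zero (left_ne_zero_of_mul k4))
      rw [← Finset.add_sum_erase _ _ k3] at r2 r3
      have k7 : m ψ = 1 := Nat.eq_of_mul_eq_mul_right ψ.2.charDegree_pos (by omega)
      have k8 : ∀ ζ ∈ R.erase ψ, m ζ = 0 := fun ζ k => (mul_eq_zero.1 (Finset.sum_eq_zero_iff.1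
        (show ∑ ζ ∈ R.erase ψ, m ζ * charDegree ζ.1 = 0 by omega) ζ k)).resolve_right ζ.2.charDegree_pos.ne'
      rw [Finset.sum_eq_zero fun ζ k => by simp [k8 ζ k], k7] at r3
      obtain ⟨r, u, v, k⟩ := rank3_three_p hp.one_lt hΩ a₀ r3.symm χ.2 ψ.2 (funext fun x => by
        rw [r7, ← Finset.add_sum_erase _ _ k3, Finset.sum_eq_zero fun ζ k => by simp [k8 ζ k], k7]
        simp [add_assoc]) (by rw [d1]; norm_cast; omega)
        (by rw [← ψ.2.isCharacter.coe_charDegree]; norm_cast; omega)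
      rw [hf, show (charDegree χ.1 : ℤ) = 2 * p - 1 by omega] at e4
      obtain rfl | rfl | rfl : a' = 1 ∨ a' = 0 ∨ a' = -1 := by have := abs_le.1 e2; omega
      · exact nag_rank3 hG hp hp3 hΩ hs hc f3 k.1 k.2.1 k.2.2.1 k.2.2.2.1 k.2.2.2.2.1 k.2.2.2.2.2
          (mul_left_cancel₀ (by omega : (2 * p - 2 : ℤ) ≠ 0) (by linear_combination -e4))
      · have : Odd (g * (2 * p - 1) : ℤ) := Odd.mul (by exact_mod_cast hg) ⟨p - 1, by ring⟩
        rw [show (g * (2 * p - 1) : ℤ) = 2 * (p * 2 ^ n * c ^ 2 * (p - 1)) from mul_left_cancel₀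
          (mul_ne_zero (pow_ne_zero n two_ne_zero) (by omega : (2 * p - 1 : ℤ) ≠ 0)) (by
            rw [g1, g2] at e4; push_cast at e4; linear_combination -e4)] at this
        exact (Int.not_odd_iff_even.2 (even_two_mul _) this).elim
      · have k9 : (p : ℤ) ∣ 2 * Nat.card 𝐂(s) ^ 2 := ⟨4 * Nat.card G + (6 - 4 * p) * Nat.card 𝐂(s) ^ 2,
          mul_left_cancel₀ (by omega : (p : ℤ) ≠ 0) (by linear_combination e4)⟩
        obtain ⟨x, hx⟩ := exists_prime_orderOf_dvd_card' (G := 𝐂(s)) p (hp.dvd_of_dvd_pow ((hp.dvd_mul.1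
          (by exact_mod_cast k9)).resolve_left (Nat.not_dvd_of_pos_of_lt two_pos (by omega))))
        have := orderOf_dvd_natCard 𝐂((x : G)) (x := s) (mem_centralizer_singleton_iff.2
          (mem_centralizer_singleton_iff.1 x.2).symm)
        rw [S.card_C ((orderOf_coe x).trans hx), hs] at this
        omega
    have k3 := r7 s
    rw [Finset.sum_eq_zero fun ζ k => by simp [z (by omega) ζ k], e1, add_zero] at k3
    have k4 : (Nat.card (fixedBy Ω s) : ℤ) = 1 + a' := by unfold pc at k3; exact_mod_cast k3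
    rw [hf, show (charDegree χ.1 : ℤ) = 3 * p - 1 by omega] at e4
    obtain rfl | rfl : a' = 0 ∨ a' = 2 := by omega
    · exact (nag_se hp3 hΩ hs hc (by omega) (mul_left_cancel₀ (by omega : (3 * p - 1 : ℤ) ≠ 0)
        (by linear_combination -e4))).elim
    · exact (nag_two hG hp hp3 hΩ hs hc (by omega) hy (by have := eq _ (by omega) (.inr ⟨rfl, rfl⟩); omega)
        (by linear_combination -e4)).elim
  · obtain ⟨M, h5, h6⟩ : ∃ M, stabilizer G a₀ < M ∧ M ≠ ⊤ := by
      by_contra! h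
      refine hn ((isCoatom_stabilizer_iff_preprimitive G a₀).1 ⟨fun e => ?_, h⟩)
      rw [e, card_top] at h4
      have := Nat.card_pos (α := G)
      nlinarith
    have h7 := relIndex_mul_index h5.le
    rw [index_stabilizer_of_transitive, Nat.card_eq_fintype_card, hΩ] at h7
    have h8 : M.index = p := by
      have k1 : (stabilizer G a₀).relIndex M ≠ 1 := fun e => h5.not_ge (relIndex_eq_one.1 e)
      have k2 : M.index ≠ 1 := fun e => h6 (index_eq_one.1 e)
      by_cases k : p ∣ M.index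
      · obtain ⟨j, hj⟩ := k
        rw [hj, mul_comm p, ← mul_assoc, Nat.mul_left_inj hp.ne_zero] at h7
        rcases (Nat.dvd_prime Nat.prime_three).1 (Dvd.intro_left _ h7) with rfl | rfl <;> omega
      have k3 := (Nat.dvd_prime Nat.prime_three).1 (((Nat.coprime_comm.1 (hp.coprime_iff_not_dvd.2 k))).dvd_of_dvd_mul_right
        (Dvd.intro_left _ h7))
      have := Nat.le_of_dvd (by decide) (hp.dvd_factorial.1 (hd.trans (k3.resolve_left k2 ▸
        H9.card_dvd_factorial_index h6)) |> fun h => (by omega : p ∣ 3))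
      omega
    have := Fintype.ofFinite (G ⧸ M)
    have h9 : Fintype.card (G ⧸ M) = p := Nat.card_eq_fintype_card.symm.trans h8
    obtain ⟨m, b, R, r1, r2, -⟩ := D.perm_decomp S hsum ((1 : G) : G ⧸ M) (fpf S h9.symm.dvd)
    obtain ⟨n, F, _, _, k1, k2, ⟨e⟩⟩ := pgl (by
      rw [hε] at r1
      rw [h9] at r2
      obtain k | ⟨e, rfl | ⟨k0, rfl, k1⟩⟩ := arith (D.δ_sign χ h3) hp3 ht d2 hf e3 r1 r2 (by omega)
      · omega
      · exact ⟨rfl, e⟩
      · rw [e] at e3
        rw [k0] at r2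
        rcases k1 with rfl | rfl <;> omega)
    obtain ⟨e'⟩ := PSL_equiv_PGL_of_even (F := F) (by
      rw [k1, Nat.even_pow]; refine ⟨even_two, ?_⟩; rintro rfl; omega)
    exact ⟨F, _, _, n, k1, k2, ⟨e.trans e'.symm⟩⟩

end Cfsg.Agent.S3254
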