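import Cfsg.Statements.S3260
import Cfsg.Agent.H13.EQ3
import Cfsg.Agent.H1.Hol
import Cfsg.Agent.S0205

set_option autoImplicit false
open Cfsg

namespace Cfsg.Agent.S3260

open Subgroup H26 H4 H13.EQ SemidirectProduct in

/-- Let p ≥ 5 be a prime, G a finite p-constrained group with Sylow p-subgroup S, and A a group of automorphisms of G of order coprime to |G| whose fixed-point subgroup has no section isomorphic to PSL₂(p). Then G = O_{p'}(G) · N_G(Z(J(S))), where J(S) is the subgroup generated by the abelian subgroups of S of largest order. -/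
theorem result {G : Type*} [Group G] [Finite G] (p : ℕ) [hp : Fact p.Prime] (hp5 : 5 ≤ p)
    (hG : Cfsg.IsPConstrained p G) (S : Sylow p G) (A : Subgroup (MulAut G)) (hA : (Nat.card ↥A).Coprime (Nat.card G))
    (C : Subgroup G) (hC : ∀ g : G, g ∈ C ↔ ∀ a ∈ A, a g = g)
    {F : Type*} [Field F] [Fintype F] (hF : Fintype.card F = p)
    (hfix : ¬ Cfsg.Involves (Matrix.ProjectiveSpecialLinearGroup (Fin 2) F) ↥C) :
    Cfsg.pPrimeCore p G ⊔ Subgroup.normalizer (Cfsg.centerThompsonAOf (S : Subgroup G) : Set G) = ⊤ := by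
  rw [centerThompsonAOf_eq]
  by_cases ho : Odd (Nat.card G)
  · refine zj_mod_sup (by omega) (Or.inl rfl) hG (pStab_of_not_sec_SL2 (by omega) (not_sec_SL2_of_odd (by omega) ?_)) S
    rw [card_top]
    exact ho.of_dvd_nat (card_quotient_dvd_card _)
  by_cases hd : p ∣ Nat.card G
  swap
  · have : (S : Subgroup G) = ⊥ := by
      rw [← card_eq_one, S.card_eq_multiplicity, Nat.factorization_eq_zero_of_not_dvd hd, pow_zero]
    rw [this, eq_bot_iff.2 (centerThompsonOf_le 0 ⊥), normalizer_bot', sup_top_eq]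
  have : Finite (MulAut G) := Finite.of_injective _ DFunLike.coe_injective
  have hoA : Odd (Nat.card A) := Nat.Coprime.odd_of_right (hA.coprime_dvd_right (Nat.not_odd_iff_even.1 ho).two_dvd)
  have hsA := Cfsg.Agent.S0205.result hoA
  let φ := A.subtype
  have hn : (H1.hl φ ⊤).Normal := by
    rw [H1.hl, ← MonoidHom.range_eq_map, range_inl_eq_ker_rightHom]; infer_instance
  have H : Hyp p (Matrix.ProjectiveSpecialLinearGroup (Fin 2) F) (H1.hl φ ⊤) (H1.hr φ ⊤) := by
    refine ⟨hn, by simpa using hA, by simpa using hoA, ?_, ?_, fun hs => hfix ?_⟩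
    · exact Group.isSolvable_of_surjective (f := ((topEquiv (G := A)).symm.trans (H1.hrEquiv φ ⊤)).toMonoidHom)
        ((topEquiv (G := A)).symm.trans (H1.hrEquiv φ ⊤)).surjective
    · rw [H1.hl, ← MonoidHom.range_eq_map, range_inl_eq_ker_rightHom, index_ker,
        MonoidHom.range_eq_top.2 rightHom_surjective, card_top]
      exact hA.coprime_dvd_right hd
    · have e := H1.hl_top_inf_C (φ := φ) (B := ⊤)
      erw [e, H1.hl, sec_map_iff inl_injective] at hs
      rwa [involves_subgroup_iff, show C = H1.fixS φ ⊤ from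
        Subgroup.ext fun g => by rw [hC, H1.mem_fixS_top]; exact ⟨fun h a => h a a.2, fun h a ha => h ⟨a, ha⟩⟩]
  have hO : (H1.hl φ (pPrimeCore p G)).Normal := normal_of_top_le_normalizer (by
    rw [← H1.hl_sup_hr]
    refine sup_le (H1.hl_norm_iff.2 (normalizer_eq_top _).ge) (H1.hr_norm_iff.2 fun a _ x hx => ?_)
    exact (characteristic_iff_map_le.1 inferInstance (φ a)) ⟨x, hx, rfl⟩)
  let f := QuotientGroup.mk' (H1.hl φ (pPrimeCore p G))
  let ψ : G ⧸ pPrimeCore p G →* _ := QuotientGroup.map _ (H1.hl φ (pPrimeCore p G)) inl fun x hx => ⟨x, hx, rfl⟩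
  have hψ : Function.Injective ψ := (injective_iff_map_eq_one ψ).2 fun x hx => by
    obtain ⟨x, rfl⟩ := QuotientGroup.mk'_surjective _ x
    exact (QuotientGroup.eq_one_iff x).2 (H1.inl_mem_hl.1 ((QuotientGroup.eq_one_iff _).1 hx))
  have e : (H1.hl φ ⊤).map f = (⊤ : Subgroup (G ⧸ pPrimeCore p G)).map ψ := by
    change ((⊤ : Subgroup G).map inl).map f = _
    rw [← map_mk'_top (N := pPrimeCore p G), map_map, map_map]; rfl
  have H' := H.map (QuotientGroup.mk'_surjective (H1.hl φ (pPrimeCore p G)))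
  have h1 := (isSyl_top S).map (QuotientGroup.mk' (pPrimeCore p G))
  rw [map_mk'_top] at h1
  have h2 := H'.zj hp5 hF (e ▸ h1.map_of_injective hψ) (e ▸ (charPOf_map_iff hψ).2 (isPConstrained_iff.1 hG))
  rw [← map_centerThompsonOf hψ] at h2
  refine sup_normalizer_eq_top_of_map (S.isPGroup'.to_le (centerThompsonOf_le _ _)) (H1.coprime_card_pPrimeCore p G) ?_
  rw [map_centerThompsonOf_of_disjoint (by rw [QuotientGroup.ker_mk']; exact inf_pPrimeCore_eq_bot S.isPGroup')]
  exact normal_of_top_le_normalizer ((map_le_normalizer_map_iff hψ).1 (le_top.trans h2))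

end Cfsg.Agent.S3260
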