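import Cfsg.Statements.S3261
import Cfsg.Agent.H2.BSWCor

set_option autoImplicit false
open Cfsg

open Equiv Equiv.Perm

namespace Cfsg.Agent.S3261

def t0 : Perm (Fin 6) := swap 0 1 * swap 2 3
def x0 : Perm (Fin 6) := swap 0 3 * swap 0 1 * swap 0 2 * swap 4 5
def y0 : Perm (Fin 6) := swap 0 1 * swap 4 5

theorem key : ∀ g : Perm (Fin 6), g * t0 = t0 * g → sign g = 1 → ∃ i : Fin 4, g = x0 ^ i.val ∨ g = y0 * x0 ^ i.val := by
  decide +kernel

def t1 : alternatingGroup (Fin 6) := ⟨t0, by rw [mem_alternatingGroup]; decide +kernel⟩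
def x1 : alternatingGroup (Fin 6) := ⟨x0, by rw [mem_alternatingGroup]; decide +kernel⟩
def y1 : alternatingGroup (Fin 6) := ⟨y0, by rw [mem_alternatingGroup]; decide +kernel⟩

theorem ox : orderOf x1 = 4 := by
  rw [orderOf_eq_iff (by norm_num)]
  refine ⟨by decide +kernel, fun m h1 h2 => ?_⟩
  interval_cases m <;> decide +kernel

theorem cent : Nonempty (Subgroup.centralizer {t1} ≃* DihedralGroup 4) := by
  have h := H9.nonempty_closure_equiv_dihedral (t := y1) (a := x1) (by norm_num) ox (by decide +kernel)
    (by decide +kernel) (by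
      rw [mem_zpowers_iff_mem_range_orderOf, ox]; decide +kernel)
  have : Subgroup.closure {y1, x1} = Subgroup.centralizer {t1} := by
    apply le_antisymm
    · rw [Subgroup.closure_le, Set.insert_subset_iff, Set.singleton_subset_iff]
      exact ⟨Subgroup.mem_centralizer_singleton_iff.2 (by decide +kernel),
        Subgroup.mem_centralizer_singleton_iff.2 (by decide +kernel)⟩
    · intro g hg
      have hx : x1 ∈ Subgroup.closure {y1, x1} := Subgroup.subset_closure (by simp)
      have hy : y1 ∈ Subgroup.closure {y1, x1} := Subgroup.subset_closure (by simp)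
      obtain ⟨i, e | e⟩ := key g (congrArg Subtype.val (Subgroup.mem_centralizer_singleton_iff.1 hg))
        (mem_alternatingGroup.1 g.2)
      · rw [show g = x1 ^ i.val from Subtype.ext e]; exact pow_mem hx _
      · rw [show g = y1 * x1 ^ i.val from Subtype.ext e]; exact mul_mem hy (pow_mem hx _)
  rwa [this] at h

/-- Let α̃ be an involution of the alternating group A₆ that is a product of two disjoint transpositions (it lies in the centre of a Sylow 2-subgroup of A₆; its centralizer is dihedral of order 8). Let G be a finite group that has no subgroup of index 2 and contains an involution α, central in some Sylow 2-subgroup of G, with C_G(α) ≅ C_{A₆}(α̃). Then G is isomorphic to A₆ or to PSL₂(7). -/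
theorem result {G : Type*} [Group G] [Finite G]
    (hG : ∀ H : Subgroup G, H.index ≠ 2)
    (αt : ↥(alternatingGroup (Fin 6))) (hαt : orderOf αt = 2) (hsupp : (αt : Equiv.Perm (Fin 6)).support.card = 4)
    (α : G) (hα : orderOf α = 2) (S : Sylow 2 G) (hαS : α ∈ (S : Subgroup G)) (hαc : ∀ s ∈ (S : Subgroup G), s * α = α * s)
    (e : ↥(Subgroup.centralizer ({α} : Set G)) ≃* ↥(Subgroup.centralizer ({αt} : Set ↥(alternatingGroup (Fin 6))))) :
    Nonempty (G ≃* ↥(alternatingGroup (Fin 6))) ∨
      (∃ (F : Type) (_ : Field F) (_ : Fintype F), Fintype.card F = 7 ∧ Nonempty (G ≃* Matrix.ProjectiveSpecialLinearGroup (Fin 2) F)) := by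
  have hc : IsConj t0 αt := by
    have h2 : orderOf (αt : Perm (Fin 6)) = 2 := by rw [Subgroup.orderOf_coe, hαt]
    obtain ⟨n, hn⟩ := cycleType_prime_order (σ := (αt : Perm (Fin 6))) (by rw [h2]; exact Nat.prime_two)
    have := sum_cycleType (αt : Perm (Fin 6))
    rw [hn, h2, hsupp, Multiset.sum_replicate, smul_eq_mul] at this
    rw [isConj_iff_cycleType_eq, hn, h2, show n = 1 by omega]
    decide +kernel
  obtain ⟨c, hc⟩ := isConj_iff.1 hc
  have e1 : αt = MulAut.conjNormal c t1 := Subtype.ext hc.symm
  have e2 : (Subgroup.centralizer {t1}).map (MulAut.conjNormal c : MulAut (alternatingGroup (Fin 6))).toMonoidHom =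
      Subgroup.centralizer {αt} := by
    ext g
    rw [Subgroup.mem_map_equiv, Subgroup.mem_centralizer_singleton_iff, Subgroup.mem_centralizer_singleton_iff, e1,
      ← (MulAut.conjNormal c).injective.eq_iff]
    simp
  obtain ⟨x, y, hx, h⟩ := H2.exists_dihC_eight hα (e.trans (((MulEquiv.subgroupCongr e2.symm).trans
    (MulEquiv.subgroupMap (MulAut.conjNormal c) _).symm).trans cent.some))
  exact H2.psl_of_eight h hx hG

end Cfsg.Agent.S3261
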