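import Cfsg.Statements.S3264
import Cfsg.Agent.H16.Zip2

set_option autoImplicit false
open Cfsg

namespace Cfsg.Agent.S3264

open Subgroup

/-- Let G be a non-abelian finite simple group and X a conjugacy class of involutions of G. Form the graph on X in which two distinct involutions are joined when their product has odd order. Then this graph is connected. (By the Baer–Suzuki Theorem the graph has at least one edge; connectedness is the stronger statement.) -/
theorem result {G : Type*} [Group G] [Finite G] [IsSimpleGroup G]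
    (hG : ¬ IsMulCommutative G) (t : G) (ht : orderOf t = 2) :
    (SimpleGraph.fromRel fun x y : {x : G // IsConj t x} => Odd (orderOf (x.1 * y.1))).Connected := by
  have ha : t * t = 1 := by rw [← pow_two, ← ht, pow_orderOf_eq_one]
  have hi : t⁻¹ = t := inv_eq_of_mul_eq_one_right ha
  have h1 : t ≠ 1 := by rintro rfl; simp at ht
  have hN : normalClosure {t} = ⊤ :=
    (normalClosure_normal.eq_bot_or_eq_top).resolve_left fun e =>
      h1 (mem_bot.mp (e ▸ subset_normalClosure (Set.mem_singleton t)))
  set Γ := SimpleGraph.fromRel fun x y : {x : G // IsConj t x} => Odd (orderOf (x.1 * y.1)) with hΓ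
  let t0 : {x : G // IsConj t x} := ⟨t, IsConj.refl t⟩
  let c : G → {x : G // IsConj t x} → {x : G // IsConj t x} := fun g x =>
    ⟨g * x.1 * g⁻¹, x.2.trans (isConj_iff.mpr ⟨g, rfl⟩)⟩
  have hc : ∀ g x y, Γ.Reachable x y → Γ.Reachable (c g x) (c g y) := by
    intro g x y h
    have o : ∀ u v : G, orderOf (g * u * g⁻¹ * (g * v * g⁻¹)) = orderOf (u * v) := fun u v => by
      rw [conj_mul]
      exact (MulAut.conj g).orderOf_eq (u * v)
    let φ : Γ →g Γ := ⟨c g, fun {u v} huv => by
      rw [hΓ, SimpleGraph.fromRel_adj] at huv ⊢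
      refine ⟨fun e => huv.1 (Subtype.ext ?_), ?_⟩
      · simpa [c] using congrArg Subtype.val e
      · simpa only [c, o] using huv.2⟩
    exact h.map φ
  have cc : ∀ g h x, c g (c h x) = c (g * h) x := fun g h x => Subtype.ext (by simp [c, mul_assoc])
  have c1 : ∀ x, c 1 x = x := fun x => Subtype.ext (by simp [c])
  let S : Subgroup G :=
    { carrier := {g | Γ.Reachable t0 (c g t0)}
      one_mem' := by simp [c1]
      mul_mem' := fun {g h} hg hh => hg.trans (cc g h t0 ▸ hc g _ _ hh)
      inv_mem' := fun {g} hg => by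
        have := hc g⁻¹ _ _ hg
        rw [cc, inv_mul_cancel, c1] at this
        exact this.symm }
  have hS : S = ⊤ := by
    refine top_le_iff.mp ((H16.odd_inv_gen ha hN).ge.trans (sup_le ((closure_le _).mpr ?_) ?_))
    · rintro x ⟨hx, hx'⟩
      change Γ.Reachable t0 (c x t0)
      by_cases e : t0 = c x t0
      · rw [← e]
      refine SimpleGraph.Adj.reachable ?_
      rw [hΓ, SimpleGraph.fromRel_adj]
      refine ⟨e, Or.inl ?_⟩
      have : t * (x * t * x⁻¹) = (x ^ 2)⁻¹ := by
        rw [hi] at hx'
        rw [← mul_assoc, ← mul_assoc, hx', pow_two, mul_inv_rev]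
      change Odd (orderOf (t * (x * t * x⁻¹)))
      rw [this, orderOf_inv]
      exact hx.of_dvd_nat (orderOf_pow_dvd 2)
    · rw [zpowers_le]
      change Γ.Reachable t0 (c t t0)
      have : c t t0 = t0 := Subtype.ext (by simp [c, t0])
      rw [this]
  have key : ∀ x, Γ.Reachable t0 x := by
    rintro ⟨x, hx⟩
    obtain ⟨g, rfl⟩ := isConj_iff.mp hx
    exact (hS ▸ mem_top g : g ∈ S)
  haveI : Nonempty {x : G // IsConj t x} := ⟨t0⟩
  exact ⟨fun x y => (key x).symm.trans (key y)⟩

end Cfsg.Agent.S3264
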