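import Cfsg.Statements.S3265
import Cfsg.Agent.H2.Lfg2

set_option autoImplicit false
open Cfsg

open Equiv Equiv.Perm H2.Lfg

namespace Cfsg.Agent.S3265

theorem two_swaps {α : Type*} [DecidableEq α] {p q r s : α} (h1 : p ≠ q) (h2 : p ≠ r) (h3 : p ≠ s)
    (h4 : q ≠ r) (h5 : q ≠ s) (h6 : r ≠ s) : orderOf (swap p q * swap r s) = 2 := by
  haveI : Fact (Nat.Prime 2) := ⟨Nat.prime_two⟩
  apply orderOf_eq_prime
  · ext u
    simp only [pow_two, Perm.mul_apply, Perm.one_apply, swap_apply_def]; grind
  · intro h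
    have := congrArg (fun f : Perm α => f p) h
    simp only [Perm.mul_apply, Perm.one_apply, swap_apply_def] at this; grind

theorem exists_even {n : ℕ} (hn : 5 ≤ n) (t : Perm (Fin n)) (ht : orderOf t = 2) :
    ∃ v, IsConj t v ∧ orderOf (t * v) = 2 := by
  have h2 : t * t = 1 := by rw [← pow_two, ← ht, pow_orderOf_eq_one]
  have hx : ∀ u, t (t u) = u := fun u => by rw [← Perm.mul_apply, h2]; rfl
  have h1 : t ≠ 1 := by rintro rfl; simp at ht
  obtain ⟨a, ha⟩ : ∃ a, t a ≠ a := by
    by_contra hh
    push Not at hh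
    exact h1 (Equiv.ext hh)
  by_cases hc : ∃ c, c ≠ a ∧ c ≠ t a ∧ t c ≠ c
  · obtain ⟨c, c1, c2, c3⟩ := hc
    refine ⟨swap (t a) c * t * (swap (t a) c)⁻¹, isConj_iff.2 ⟨_, rfl⟩, ?_⟩
    have : t * (swap (t a) c * t * (swap (t a) c)⁻¹) = swap a (t c) * swap (t a) c := by
      ext u
      simp only [Perm.mul_apply, swap_inv, swap_apply_def]; grind
    rw [this]
    apply two_swaps <;> grind
  · push Not at hc
    obtain ⟨c, hc1, d, hd1, hcd⟩ : ∃ c ∈ (Finset.univ \ {a, t a} : Finset (Fin n)),
        ∃ d ∈ (Finset.univ \ {a, t a} : Finset (Fin n)), c ≠ d := by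
      rw [← Finset.one_lt_card]
      rw [Finset.card_sdiff_of_subset (Finset.subset_univ _), Finset.card_pair ha.symm]
      simp; omega
    simp only [Finset.mem_sdiff, Finset.mem_univ, Finset.mem_insert, Finset.mem_singleton,
      not_or, true_and] at hc1 hd1
    have hts : t = swap a (t a) := by
      ext u
      have := hc u
      simp only [swap_apply_def]; grind
    refine ⟨swap c d, by rw [hts]; exact isConj_swap ha.symm hcd, ?_⟩
    rw [hts]
    apply two_swaps <;> grind

/-- Let n ≥ 5 and let X be a conjugacy class of involutions of the symmetric group of degree n. The graph on X joining two distinct involutions whose product has odd order is connected and has diameter exactly 2. -/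
theorem result (n : ℕ) (hn : 5 ≤ n) (t : Equiv.Perm (Fin n)) (ht : orderOf t = 2) :
    (SimpleGraph.fromRel fun x y : {x : Equiv.Perm (Fin n) // IsConj t x} =>
        Odd (orderOf (x.1 * y.1))).Connected ∧
      (SimpleGraph.fromRel fun x y : {x : Equiv.Perm (Fin n) // IsConj t x} =>
        Odd (orderOf (x.1 * y.1))).diam = 2 := by
  have h2 : t * t = 1 := by rw [← pow_two, ← ht, pow_orderOf_eq_one]
  set G := (SimpleGraph.fromRel fun x y : {x : Equiv.Perm (Fin n) // IsConj t x} =>
        Odd (orderOf (x.1 * y.1))) with hG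
  have hle : ∀ u v : {x : Equiv.Perm (Fin n) // IsConj t x}, Odd (orderOf (u.1 * v.1)) →
      G.edist u v ≤ 1 := by
    intro u v h
    rw [SimpleGraph.edist_le_one_iff_adj_or_eq]
    by_cases huv : u = v
    · exact Or.inr huv
    · exact Or.inl ((SimpleGraph.fromRel_adj _ _ _).2 ⟨huv, Or.inl h⟩)
  have hup : G.ediam ≤ 2 := by
    apply SimpleGraph.ediam_le_of_edist_le
    intro u v
    have hu : u.1 * u.1 = 1 := by
      obtain ⟨g, hg⟩ := isConj_iff.1 u.2
      rw [← hg]
      calc g * t * g⁻¹ * (g * t * g⁻¹) = g * (t * t) * g⁻¹ := by group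
        _ = 1 := by rw [h2]; group
    obtain ⟨z, z1, z2, z3⟩ := exists_common (by simpa using hn) hu (u.2.symm.trans v.2)
    have e1 := hle u ⟨z, u.2.trans z1⟩ z2
    have e2 := hle v ⟨z, u.2.trans z1⟩ z3
    rw [SimpleGraph.edist_comm] at e2
    calc G.edist u v ≤ _ := SimpleGraph.edist_triangle
      _ ≤ 1 + 1 := add_le_add e1 e2
      _ = 2 := by norm_num
  obtain ⟨v, hv, hv2⟩ := exists_even hn t ht
  have hlow : 2 ≤ G.ediam := by
    refine le_trans ?_ (SimpleGraph.edist_le_ediam (u := ⟨t, IsConj.refl t⟩) (v := ⟨v, hv⟩))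
    by_contra hlt
    have : G.edist ⟨t, IsConj.refl t⟩ ⟨v, hv⟩ ≤ 1 := by
      rw [not_le] at hlt
      exact Order.le_of_lt_succ hlt
    rw [SimpleGraph.edist_le_one_iff_adj_or_eq] at this
    rcases this with h | h
    · rcases ((SimpleGraph.fromRel_adj _ _ _).1 h).2 with h | h
      · simp only [hv2] at h; exact absurd h (by decide)
      · have h' : O (t * v) := O.comm h
        unfold O at h'
        rw [hv2] at h'; exact absurd h' (by decide)
    · have : t = v := congrArg Subtype.val h
      rw [← this, h2] at hv2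
      simp at hv2
  have he : G.ediam = 2 := le_antisymm hup hlow
  haveI : Nonempty {x : Equiv.Perm (Fin n) // IsConj t x} := ⟨⟨t, IsConj.refl t⟩⟩
  refine ⟨SimpleGraph.connected_of_ediam_ne_top (by rw [he]; decide), ?_⟩
  rw [SimpleGraph.diam, he]; rfl

end Cfsg.Agent.S3265
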