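import Cfsg.Statements.S3266
import Cfsg.Agent.H22.Lfg
import Cfsg.Agent.H10.PSL2Max
import Cfsg.Agent.H9.Dihedral

set_option autoImplicit false
open Cfsg

namespace Cfsg.Agent.S3266

open H22.Lfg

/-- Let F be a finite field with at least 4 elements and let X be a conjugacy class of involutions of PSL(2, F). The graph on X joining two distinct involutions whose product has odd order is connected and has diameter exactly 2. -/
theorem result {F : Type*} [Field F] [Fintype F] (hF : 4 ≤ Fintype.card F)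
    (t : Matrix.ProjectiveSpecialLinearGroup (Fin 2) F) (ht : orderOf t = 2) :
    (SimpleGraph.fromRel fun x y : {x : Matrix.ProjectiveSpecialLinearGroup (Fin 2) F // IsConj t x} =>
        Odd (orderOf (x.1 * y.1))).Connected ∧
      (SimpleGraph.fromRel fun x y : {x : Matrix.ProjectiveSpecialLinearGroup (Fin 2) F // IsConj t x} =>
        Odd (orderOf (x.1 * y.1))).diam = 2 := by
  have := Matrix.ProjectiveSpecialLinearGroup.rank_two_simple (F := F) (by rwa [Nat.card_eq_fintype_card])
  have sq : ∀ {u : Matrix.ProjectiveSpecialLinearGroup (Fin 2) F}, orderOf u = 2 → u * u = 1 := fun h => by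
    rw [← pow_two]; exact orderOf_dvd_iff_pow_eq_one.1 h.dvd
  have o : ∀ u : {x // IsConj t x}, orderOf u.1 = 2 := fun u => by
    obtain ⟨g, hg⟩ := isConj_iff.1 u.2
    rw [← hg]; exact ((MulAut.conj g).orderOf_eq t).trans ht
  set G := (SimpleGraph.fromRel fun x y : {x : Matrix.ProjectiveSpecialLinearGroup (Fin 2) F // IsConj t x} =>
        Odd (orderOf (x.1 * y.1)))
  have hle : ∀ u v : {x // IsConj t x}, Odd (orderOf (u.1 * v.1)) → G.edist u v ≤ 1 := fun u v h =>
    SimpleGraph.edist_le_one_iff_adj_or_eq.2 ((em (u = v)).elim .inr fun e =>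
      .inl ((SimpleGraph.fromRel_adj _ _ _).2 ⟨e, .inl h⟩))
  have hup : G.ediam ≤ 2 := SimpleGraph.ediam_le_of_edist_le fun u v => by
    obtain ⟨z, z1, z2, z3⟩ := common hF (o u) (o v)
    have c := u.2.trans (H9.isConj_of_odd (sq (o u)) z1 z2)
    have e2 := hle v ⟨z, c⟩ z3
    rw [SimpleGraph.edist_comm] at e2
    calc G.edist u v ≤ _ := SimpleGraph.edist_triangle
      _ ≤ 1 + 1 := add_le_add (hle u ⟨z, c⟩ z2) e2
      _ = 2 := by norm_num
  obtain ⟨g, g1, g2⟩ : ∃ g, Commute t (g * t * g⁻¹) ∧ g * t * g⁻¹ ≠ t := by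
    by_contra c; push Not at c
    exact H9.not_isolated_of_simple H10.not_comm_PSL2 t ⟨ht, c⟩
  have hv : IsConj t (g * t * g⁻¹) := isConj_iff.2 ⟨g, rfl⟩
  have s := sq (o ⟨_, hv⟩)
  have hv2 : orderOf (t * (g * t * g⁻¹)) = 2 := orderOf_eq_prime (by rw [g1.mul_pow, pow_two, pow_two, sq ht, s, one_mul])
    fun e => g2 (by rw [eq_inv_of_mul_eq_one_right e, inv_eq_of_mul_eq_one_right (sq ht)])
  have hlow : 2 ≤ G.ediam := by
    refine le_trans ?_ (SimpleGraph.edist_le_ediam (u := ⟨t, IsConj.refl t⟩) (v := ⟨_, hv⟩))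
    by_contra hlt
    rcases SimpleGraph.edist_le_one_iff_adj_or_eq.1 (Order.le_of_lt_succ (not_le.1 hlt)) with h | h
    · rcases ((SimpleGraph.fromRel_adj _ _ _).1 h).2 with h | h
      · simp only [hv2] at h; exact absurd h (by decide)
      · simp only [← g1.eq, hv2] at h; exact absurd h (by decide)
    · exact g2 (congrArg Subtype.val h).symm
  have he : G.ediam = 2 := le_antisymm hup hlow
  haveI : Nonempty {x // IsConj t x} := ⟨⟨t, IsConj.refl t⟩⟩
  refine ⟨SimpleGraph.connected_of_ediam_ne_top (by rw [he]; decide), ?_⟩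
  rw [SimpleGraph.diam, he]; rfl

end Cfsg.Agent.S3266
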