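import Cfsg.Statements.S3269
import Cfsg.Agent.H9.IsoP

set_option autoImplicit false
open Cfsg

namespace Cfsg.Agent.S3269

/-- Let G be a finite group whose Sylow 2-subgroup S is an internal direct product Q × R with Q generalized quaternion (of order at least 8) and R a subgroup all of whose involutions are central in R. Then G is not simple. In particular no finite simple group has a Sylow 2-subgroup that is a direct product of one or more generalized quaternion groups. -/
theorem result {G : Type*} [Group G] [Finite G]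
    (S : Sylow 2 G) (Q R : Subgroup G) (hQR : Cfsg.IsInternalDirectProduct Q R (S : Subgroup G))
    (n : ℕ) (hn : 1 ≤ n) (eQ : ↥Q ≃* QuaternionGroup (2 ^ n))
    (hR : ∀ r ∈ R, orderOf r = 2 → ∀ s ∈ R, r * s = s * r) :
    ¬ IsSimpleGroup G := by
  classical
  intro hsimple
  obtain ⟨hQS, hRS, hcomm, hinf, hsup⟩ := hQR
  obtain ⟨x, y, h⟩ := H9.exists_qData (by positivity) eQ
  obtain ⟨m, rfl⟩ : ∃ m, n = m + 1 := ⟨n - 1, by omega⟩
  have hN2 : 2 ≤ 2 ^ (m + 1) := by
    calc 2 = 2 ^ 1 := by norm_num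
      _ ≤ 2 ^ (m + 1) := Nat.pow_le_pow_right (by norm_num) (by omega)
  set z := x ^ 2 ^ (m + 1) with hz
  have hRQ : R ≤ Subgroup.normalizer (Q : Set G) := fun r hr =>
    H9.mem_normalizer_of_conj_mem fun q hq => by rw [← hcomm q hq r hr]; simpa using hq
  have hdec : ∀ s ∈ (S : Subgroup G), ∃ q ∈ Q, ∃ r ∈ R, q * r = s := fun s hs =>
    (H1.mem_sup_of_le_normalizer hRQ).1 (hsup ▸ hs)
  have hzR : z ∉ R := fun hz' => H9.ne_one_of_orderOf h.orderOf_u
    (Subgroup.mem_bot.1 (hinf ▸ (⟨h.umem, hz'⟩ : z ∈ Q ⊓ R)))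
  -- involutions of `S` are central in `S`
  have hcen : ∀ t ∈ (S : Subgroup G), t * t = 1 → ∀ s ∈ (S : Subgroup G), Commute s t := by
    intro t ht htt s hs
    obtain ⟨q, hq, r, hr, rfl⟩ := hdec t ht
    obtain ⟨q', hq', r', hr', rfl⟩ := hdec s hs
    have hqr : Commute q r := hcomm q hq r hr
    have h1 : q * q * (r * r) = 1 := by rw [← htt, hqr.mul_mul_mul_comm]
    have h2 : q * q = 1 := by
      have : q * q ∈ Q ⊓ R := ⟨Q.mul_mem hq hq, by
        rw [eq_inv_of_mul_eq_one_left h1]; exact R.inv_mem (R.mul_mem hr hr)⟩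
      rwa [hinf] at this
    have h3 : r * r = 1 := by rwa [h2, one_mul] at h1
    have h4 : Commute q' q := by
      rcases h.eq_one_or_eq_u hq h2 with rfl | rfl
      · exact Commute.one_right _
      · exact h.commute_u hq'
    have h5 : Commute r' r := by
      by_cases h6 : r = 1
      · rw [h6]; exact Commute.one_right _
      · exact (hR r hr (H9.orderOf_eq_two.2 ⟨h3, h6⟩) r' hr').symm
    exact (h4.mul_right (hcomm q' hq' r hr)).mul_left
      ((Commute.symm (hcomm q hq r' hr')).mul_right h5)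
  -- conjugates of `z` under `N(S)` other than `z` lie in `R`
  have hconj : ∀ g ∈ Subgroup.normalizer ((S : Subgroup G) : Set G),
      g * z * g⁻¹ = z ∨ g * z * g⁻¹ ∈ R := by
    intro g hg
    by_cases hzr : g * z * g⁻¹ ∈ R
    · exact Or.inr hzr
    left
    have h' := h.conj g
    set Q' := Q.map (MulAut.conj g).toMonoidHom with hQ'
    have hu' : (g * x * g⁻¹) ^ 2 ^ (m + 1) = g * z * g⁻¹ := by rw [conj_pow]
    have hQ'S : Q' ≤ S := fun a ha => by
      have := H9.conj_mem_of_mem_normalizer hg (hQS (H9.mem_map_conj.1 ha))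
      simpa [mul_assoc] using this
    have hSQ' : (S : Subgroup G) ≤ Subgroup.normalizer (Q' : Set G) := fun s hs =>
      H9.mem_normalizer_of_conj_mem fun a ha => by
        obtain ⟨q, hq, r, hr, e⟩ := hdec _ (H9.conj_mem_of_mem_normalizer' hg hs)
        have h1 := H9.mem_map_conj.1 ha
        refine H9.mem_map_conj.2 ?_
        have e2 : g⁻¹ * (s * a * s⁻¹) * g = q * (r * (g⁻¹ * a * g) * r⁻¹) * q⁻¹ := by
          have : s = g * (q * r) * g⁻¹ := by rw [e]; group
          rw [this]; group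
        rw [e2]
        exact Q.mul_mem (Q.mul_mem hq (H9.conj_mem_of_mem_normalizer (hRQ hr) h1)) (Q.inv_mem hq)
    have hd : Q' ⊓ R = ⊥ := by
      by_contra hne
      obtain ⟨t, ht, ht2⟩ := H9.exists_involution_of_ne_bot
        ((S.isPGroup'.to_le hQ'S).to_inf_left) hne
      exact hzr (hu' ▸ h'.eq_u ht.1 ht2 ▸ ht.2)
    have hsup' : Q' ⊔ R = S := by
      refine Subgroup.eq_of_le_of_card_ge (sup_le hQ'S hRS) (le_of_eq ?_)
      rw [H1.card_sup_of_disjoint (hRS.trans hSQ') hd, ← hsup,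
        H1.card_sup_of_disjoint hRQ hinf, hQ', H9.card_map_conj]
    obtain ⟨q, hq, r, hr, e⟩ := (H1.mem_sup_of_le_normalizer (hRS.trans hSQ')).1
      (hsup' ▸ hQS h.xmem)
    have h1 : x * x ∈ Q' := by
      have h2 := Q'.mul_mem hq (H9.conj_mem_of_mem_normalizer (hSQ' (hQS h.ymem)) (Q'.inv_mem hq))
      have h3 : x * x = x * (y * x * y⁻¹)⁻¹ := by rw [h.inv, inv_inv]
      have h4 : y * r = r * y := hcomm y h.ymem r hr
      have h5 : x * (y * x * y⁻¹)⁻¹ = q * (y * q⁻¹ * y⁻¹) := by
        rw [← e]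
        calc q * r * (y * (q * r) * y⁻¹)⁻¹ = q * (r * y) * r⁻¹ * q⁻¹ * y⁻¹ := by group
          _ = _ := by rw [← h4]; group
      rw [h3, h5]; exact h2
    have h2 : z ∈ Q' := by
      have := Q'.pow_mem h1 (2 ^ m)
      rwa [← pow_two, ← pow_mul, ← pow_succ'] at this
    rw [← hu', ← h'.eq_u h2 h.orderOf_u]
  -- the product of the `N(S)`-conjugates of `z`
  set C := (S : Subgroup G) ⊓ Subgroup.centralizer ((S : Subgroup G) : Set G) with hC
  let : CommGroup C := { (inferInstance : Group C) with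
    mul_comm := fun a b => Subtype.ext (b.2.2 a a.2.1) }
  have := Fintype.ofFinite C
  let T : Finset C := Finset.univ.filter fun t =>
    ∃ g ∈ Subgroup.normalizer ((S : Subgroup G) : Set G), g * z * g⁻¹ = t
  have hzC : z ∈ C := ⟨hQS h.umem, fun s hs => (hcen z (hQS h.umem) h.u_mul_u s hs).eq⟩
  have hzT : (⟨z, hzC⟩ : C) ∈ T := by
    simp only [T, Finset.mem_filter, Finset.mem_univ, true_and]
    exact ⟨1, Subgroup.one_mem _, by simp⟩
  set w : C := ∏ t ∈ T, t with hw
  have hw2 : (w : G) * w = 1 := by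
    have : w * w = 1 := by
      rw [hw, ← Finset.prod_mul_distrib]
      refine Finset.prod_eq_one fun t ht => Subtype.ext ?_
      obtain ⟨g, -, e⟩ := (Finset.mem_filter.1 ht).2
      change (t : G) * t = 1
      rw [← e]
      calc g * z * g⁻¹ * (g * z * g⁻¹) = g * (z * z) * g⁻¹ := by group
        _ = 1 := by rw [h.u_mul_u]; simp
    exact congrArg Subtype.val this
  have hw1 : (w : G) ≠ 1 := fun h1 => by
    have h2 : ∏ t ∈ T.erase ⟨z, hzC⟩, t ∈ R.subgroupOf C := by
      refine Subgroup.prod_mem _ fun t ht => ?_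
      obtain ⟨hne, ht⟩ := Finset.mem_erase.1 ht
      obtain ⟨g, hg, e⟩ := (Finset.mem_filter.1 ht).2
      rcases hconj g hg with h3 | h3
      · exact absurd (Subtype.ext (e.symm.trans h3)) hne
      · exact Subgroup.mem_subgroupOf.2 (e ▸ h3)
    have h3 := Finset.mul_prod_erase T (fun t => t) hzT
    have h4 : z * ((∏ t ∈ T.erase ⟨z, hzC⟩, t : C) : G) = 1 :=
      (congrArg Subtype.val h3).trans h1
    rw [eq_inv_of_mul_eq_one_left h4] at hzR
    exact hzR (R.inv_mem (Subgroup.mem_subgroupOf.1 h2))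
  have hNC : Subgroup.normalizer ((S : Subgroup G) : Set G) ≤ Subgroup.normalizer (C : Set G) :=
    H1.le_normalizer_inf le_rfl (H1.le_normalizer_centralizer le_rfl)
  have hwN : ∀ g ∈ Subgroup.normalizer ((S : Subgroup G) : Set G), g * w * g⁻¹ = w := by
    intro g hg
    let φ : MulAut C := C.normalizerMonoidHom ⟨g, hNC hg⟩
    have hφ : ∀ t : C, (φ t : G) = g * t * g⁻¹ := fun _ => rfl
    have : φ w = w := by
      rw [hw, map_prod]
      refine Finset.prod_equiv φ.toEquiv (fun t => ?_) fun _ _ => rfl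
      simp only [T, Finset.mem_filter, Finset.mem_univ, true_and]
      constructor
      · rintro ⟨k, hk, e⟩
        exact ⟨g * k, Subgroup.mul_mem _ hg hk, by
          change _ = (φ t : G)
          rw [hφ, ← e]; group⟩
      · rintro ⟨k, hk, e⟩
        refine ⟨g⁻¹ * k, Subgroup.mul_mem _ (Subgroup.inv_mem _ hg) hk, ?_⟩
        change _ = (φ t : G) at e
        rw [hφ] at e
        calc g⁻¹ * k * z * (g⁻¹ * k)⁻¹ = g⁻¹ * (k * z * k⁻¹) * g := by group
          _ = t := by rw [e]; group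
    rw [← hφ, this]
  have hwo : orderOf (w : G) = 2 := H9.orderOf_eq_two.2 ⟨hw2, hw1⟩
  have hiso : IsIsolatedInvolution (w : G) := H9.isolated_of_sylow S hwo fun g hg => by
    obtain ⟨k, hk, e⟩ := H9.exists_normalizer_conj_of_commute S (hcen w w.2.1 hw2)
      (hcen _ hg (H9.mul_self_of_orderOf ((H9.orderOf_conj' g w).trans hwo)))
      (isConj_iff.2 ⟨g, rfl⟩)
    rw [← e, hwN k hk]
  rcases hsimple.eq_bot_or_eq_top_of_normal (pPrimeCore 2 G) inferInstance with h0 | h0
  · have hc := H9.zstar_center hiso h0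
    have hn : (Subgroup.zpowers (w : G)).Normal := ⟨fun a ha g => by
      rw [Subgroup.mem_center_iff.1 (Subgroup.zpowers_le.2 hc ha) g]; simpa using ha⟩
    rcases hsimple.eq_bot_or_eq_top_of_normal _ hn with h1 | h1
    · exact hw1 (Subgroup.zpowers_eq_bot.1 h1)
    · rcases H9.eq_one_or_eq_of_mem_zpowers hw2 (h1 ▸ Subgroup.mem_top x) with h2 | h2
      · exact h.x_mul_x_ne_one hN2 (by rw [h2, one_mul])
      · exact h.x_mul_x_ne_one hN2 (by rw [h2, hw2])
  · exact H9.odd_card_iff_forall.1 (H9.odd_card_pPrimeCore (G := G)) w (h0 ▸ Subgroup.mem_top _) hwo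

end Cfsg.Agent.S3269
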