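import Cfsg.Statements.S3276
import Cfsg.Agent.H9.Dihedral

set_option autoImplicit false
open Cfsg

namespace Cfsg.Agent.S3276

/-- Let x and y be commuting, non-conjugate involutions of a finite group G, and suppose that for every involution u commuting with x, each conjugate of y that commutes with u also commutes with y. Then the normal closure of y is a proper, normal, elementary abelian 2-subgroup of G; and if y is the only involution of that normal closure commuting with x, it has order at most 4. -/
theorem result {G : Type*} [Group G] [Finite G] (x y : G) (hx : orderOf x = 2) (hy : orderOf y = 2)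
    (hxy : Commute x y) (hnc : ¬ IsConj x y)
    (hstar : ∀ u : G, orderOf u = 2 → Commute u x → ∀ g : G, Commute (g * y * g⁻¹) u → Commute (g * y * g⁻¹) y) :
    Subgroup.normalClosure ({y} : Set G) ≠ ⊤ ∧ Cfsg.IsElementaryAbelian 2 (Subgroup.normalClosure ({y} : Set G)) ∧
      ((∀ u ∈ Subgroup.normalClosure ({y} : Set G), orderOf u = 2 → Commute u x → u = y) →
        Nat.card ↥(Subgroup.normalClosure ({y} : Set G)) ≤ 4) := by
  classical
  have hx2 := H9.mul_self_of_orderOf hx
  have hy2 := H9.mul_self_of_orderOf hy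
  have h1 : ∀ g : G, Commute (g * y * g⁻¹) y := fun g => by
    rcases H9.isConj_or_exists_commute hx2 (y := g * y * g⁻¹)
      (H9.mul_self_of_orderOf (by rw [H9.orderOf_conj', hy])) with h | ⟨z, hz, -, h1, h2⟩
    · exact absurd (h.trans (isConj_iff.2 ⟨g, rfl⟩).symm) hnc
    · exact hstar z hz h1 g h2.symm
  have hm : ∀ a ∈ Group.conjugatesOfSet ({y} : Set G), ∃ g, g * y * g⁻¹ = a := fun a ha => by
    obtain ⟨b, hb, ha⟩ := Group.mem_conjugatesOfSet_iff.1 ha
    rw [Set.mem_singleton_iff.1 hb] at ha
    exact isConj_iff.1 ha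
  have h2 : ∀ a ∈ Group.conjugatesOfSet ({y} : Set G), ∀ b ∈ Group.conjugatesOfSet ({y} : Set G),
      a * b = b * a := by
    intro a ha b hb
    obtain ⟨g, rfl⟩ := hm a ha
    obtain ⟨k, rfl⟩ := hm b hb
    have := (h1 (k⁻¹ * g)).eq
    calc g * y * g⁻¹ * (k * y * k⁻¹) = k * (k⁻¹ * g * y * (k⁻¹ * g)⁻¹ * y) * k⁻¹ := by group
      _ = _ := by rw [this]; group
  have hc : IsMulCommutative (Subgroup.normalClosure ({y} : Set G)) := Subgroup.isMulCommutative_closure h2
  have hcomm : ∀ a ∈ Subgroup.normalClosure ({y} : Set G), ∀ b ∈ Subgroup.normalClosure ({y} : Set G),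
      a * b = b * a := fun a ha b hb => (Subgroup.le_centralizer _ hb) a ha
  have hsq : ∀ a ∈ Subgroup.normalClosure ({y} : Set G), a ^ 2 = 1 := fun a ha => by
    induction ha using Subgroup.closure_induction with
    | mem a ha =>
      obtain ⟨g, rfl⟩ := hm a ha
      rw [conj_pow, pow_two, hy2, mul_one, mul_inv_cancel]
    | one => exact one_pow 2
    | mul a b ha hb h1 h2 => rw [(show Commute a b from hcomm a ha b hb).mul_pow, h1, h2, one_mul]
    | inv a _ h => rw [inv_pow, h, inv_one]
  refine ⟨fun h => ?_, ⟨hc, hsq⟩, fun hu => ?_⟩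
  · have h3 : Subgroup.normalClosure ({y} : Set G) ≤ Subgroup.zpowers y := by
      haveI : (Subgroup.zpowers y).Normal := ⟨fun n hn g => by
        rw [hcomm g (h ▸ Subgroup.mem_top _) n (h ▸ Subgroup.mem_top _), mul_inv_cancel_right]; exact hn⟩
      exact Subgroup.normalClosure_le_normal (by simp)
    have h4 : x ∈ Subgroup.zpowers y := h3 (h ▸ Subgroup.mem_top _)
    rw [mem_zpowers_iff_mem_range_orderOf, hy] at h4
    simp only [Finset.mem_image, Finset.mem_range] at h4
    obtain ⟨k, hk, rfl⟩ := h4
    interval_cases k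
    · simp at hx
    · exact hnc (by rw [pow_one])
  · set N := Subgroup.normalClosure ({y} : Set G)
    have hN : N.Normal := inferInstance
    have hcy : ∀ u ∈ N, Commute u x → u ∈ Subgroup.zpowers y := fun u hu' h => by
      by_cases h1 : u = 1
      · rw [h1]; exact one_mem _
      · rw [hu u hu' (orderOf_eq_prime (hsq u hu') h1) h]; exact Subgroup.mem_zpowers y
    let f : N →* G :=
      { toFun := fun n => n * (x * n * x⁻¹)
        map_one' := by simp
        map_mul' := fun a b => by
          have := hcomm b b.2 (x * a * x⁻¹) (hN.conj_mem _ a.2 x)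
          calc ((a * b : N) : G) * (x * (a * b : N) * x⁻¹) = a * (b * (x * a * x⁻¹)) * (x * b * x⁻¹) := by
                push_cast; group
            _ = _ := by rw [this]; group }
    have hxi : x⁻¹ = x := inv_eq_of_mul_eq_one_left hx2
    have h3 : f.range ≤ Subgroup.zpowers y := by
      rintro _ ⟨n, rfl⟩
      refine hcy _ (mul_mem n.2 (hN.conj_mem _ n.2 x)) ?_
      show (n : G) * (x * n * x⁻¹) * x = x * (n * (x * n * x⁻¹))
      rw [hcomm n n.2 _ (hN.conj_mem _ n.2 x), hxi]
      calc x * n * x * n * x = x * (n * (x * n * x)) := by group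
        _ = _ := by rw [hcomm n n.2 _ (by simpa [hxi] using hN.conj_mem _ n.2 x)]
    have h4 : f.ker.map N.subtype ≤ Subgroup.zpowers y := by
      rintro _ ⟨n, hn, rfl⟩
      refine hcy _ n.2 ?_
      have h5 : (n : G) * (x * n * x⁻¹) = 1 := hn
      have h6 := hsq n n.2
      rw [pow_two, ← h5] at h6
      have h7 := mul_left_cancel h6
      show (n : G) * x = x * n
      rw [eq_mul_inv_iff_mul_eq] at h7
      exact h7
    have h5 := Subgroup.card_le_of_le h3
    have h6 := Subgroup.card_le_of_le h4
    rw [Nat.card_zpowers, hy] at h5 h6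
    rw [Subgroup.card_map_of_injective N.subtype_injective] at h6
    rw [← f.ker.card_mul_index, Subgroup.index_ker]
    exact Nat.mul_le_mul h6 h5

end Cfsg.Agent.S3276
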