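import Cfsg.Statements.S3277
import Cfsg.Agent.H2.BSWCor
import Mathlib.GroupTheory.SpecificGroups.Alternating.KleinFour

set_option autoImplicit false
open Cfsg

open H5 H18 H2 Subgroup

namespace Cfsg.Agent.S3277

theorem elem {G : Type*} [Group G] {z : G} (hz : z * z = 1) (h : ∀ g, z * (g * z * g⁻¹) = g * z * g⁻¹ * z) :
    Abel (normalClosure {z}) ∧ ∀ a ∈ normalClosure {z}, a * a = 1 := by
  have h0 : ∀ a ∈ Group.conjugatesOfSet {z}, ∃ g, a = g * z * g⁻¹ := fun a ha => by
    obtain ⟨b, rfl, hb⟩ := Group.mem_conjugatesOfSet_iff.1 ha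
    obtain ⟨c, hc⟩ := isConj_iff.1 hb
    exact ⟨c, hc.symm⟩
  have h1 : Abel (normalClosure {z}) := by
    refine (closure_le _).2 fun a ha => mem_C.2 fun b hb => ?_
    obtain ⟨g, rfl⟩ := h0 a ha
    refine (mem_C1.1 ((show normalClosure {z} ≤ C1(g * z * g⁻¹) from (closure_le _).2 fun c hc => ?_) hb))
    obtain ⟨k, rfl⟩ := h0 c hc
    refine mem_C1.2 ?_
    calc _ = k * (z * (k⁻¹ * g * z * (k⁻¹ * g)⁻¹)) * k⁻¹ := by group
      _ = _ := by rw [h]; group
  refine ⟨h1, fun a ha => ?_⟩
  induction ha using closure_induction with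
  | mem a ha => obtain ⟨g, rfl⟩ := h0 a ha; rw [conj_mul, hz]; simp
  | one => simp
  | mul a b ha hb e1 e2 => rw [mul_assoc, ← mul_assoc b, mem_C.1 (h1 ha) b hb, mul_assoc, e2, mul_one, e1]
  | inv a _ e => rw [← mul_inv_rev, e, inv_one]

theorem card_le {G : Type*} [Group G] [Finite G] {E : Subgroup G} [E.Normal] (hE : Abel E) (he : ∀ a ∈ E, a * a = 1)
    {x : G} (hx : x * x = 1) : Nat.card E ≤ Nat.card (E ⊓ C1(x) :) * Nat.card (E ⊓ C1(x) :) := by
  have cm : ∀ a ∈ E, x * a * x⁻¹ ∈ E := fun a ha => Normal.conj_mem inferInstance a ha x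
  let f : E →* G := MonoidHom.mk' (fun a => a * (x * a * x⁻¹)) fun a b => by
    have := mem_C.1 (hE b.2) _ (cm a a.2)
    push_cast
    calc _ = a * (b * (x * a * x⁻¹)) * (x * b * x⁻¹) := by group
      _ = _ := by rw [← this]; group
  have h1 : f.range ≤ E ⊓ C1(x) := by
    rintro _ ⟨a, rfl⟩
    refine ⟨mul_mem a.2 (cm a a.2), mem_C1.2 ?_⟩
    show a * (x * a * x⁻¹) * x = x * (a * (x * a * x⁻¹))
    have := mem_C.1 (hE a.2) _ (cm a a.2)
    rw [H9.inv_eq_of_mul_self hx] at this ⊢
    calc _ = a * x * a * (x * x) := by group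
      _ = x * (x * a * x * a) := by rw [hx, ← mul_assoc, ← mul_assoc, ← mul_assoc, hx]; group
      _ = _ := by rw [this]
  have h2 : f.ker ≤ (E ⊓ C1(x)).subgroupOf E := fun a ha => by
    have ha : a * (x * a * x⁻¹) = 1 := ha
    rw [← he a a.2, mul_right_inj, mul_inv_eq_iff_eq_mul] at ha
    exact mem_subgroupOf.2 ⟨a.2, mem_C1.2 ha.symm⟩
  rw [← f.ker.card_mul_index, index_ker]
  exact Nat.mul_le_mul ((card_le_of_le h2).trans (Nat.card_congr (subgroupOfEquivOfLe inf_le_left).toEquiv).le)
    (card_le_of_le h1)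

/-- Let G be a finite group containing an involution whose centralizer is elementary abelian of order 4. If G has no normal 2-complement and no normal elementary abelian 2-subgroup of order 2 or 4, then G is isomorphic to the alternating group of degree 5 (that is, to PSL(2, 5)). -/
theorem result {G : Type*} [Group G] [Finite G] (x : G) (hx : orderOf x = 2)
    (hC4 : Nat.card ↥(Subgroup.centralizer ({x} : Set G)) = 4) (hCe : ∀ c ∈ Subgroup.centralizer ({x} : Set G), c ^ 2 = 1)
    (hnc : ¬ Cfsg.HasNormalPComplement 2 G)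
    (hne : ∀ E : Subgroup G, E.Normal → Cfsg.IsElementaryAbelian 2 E → Nat.card ↥E ≠ 2 ∧ Nat.card ↥E ≠ 4) :
    Nonempty (G ≃* ↥(alternatingGroup (Fin 5))) := by
  have he : ∀ c ∈ C1(x), c * c = 1 := fun c hc => by rw [← sq, hCe c hc]
  have hp : PiGrp {2} C1(x) := by rw [PiGrp, hC4]; exact piNat_pow_self Nat.prime_two 2
  by_cases hS : Hall {2} C1(x) ⊤
  · obtain ⟨y, hy⟩ := exists_dihC_four hx hC4 he
    have hG : ∀ M : Subgroup G, M.index ≠ 2 := fun M hM => by
      have := normal_of_index_eq_two hM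
      refine hnc ((hasNormalPComplement_top_iff' Nat.prime_two).2
        (hall_of_index_two hM (hall_of_cyc_two (hS.inf_nml ⟨le_top, norm_of_normal⟩) ?_)))
      have h1 : M.relIndex C1(x) = 2 := by
        rw [← hM, ← relIndex_top_right, ← hS.sup_of_idx (K := M) le_top
          (by rw [relIndex_top_right, hM]; exact piNat_self Nat.prime_two), relIndex_sup_right]
      have h2 := H18.card_mul_relIndex (inf_le_left : C1(x) ⊓ M ≤ C1(x))
      rw [inf_relIndex_left, h1, hC4] at h2
      exact isCyclic_of_prime_card (p := 2) (by omega)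
    refine (alt_of_four hy hS hG).resolve_left fun ⟨e⟩ => ?_
    have := alternatingGroup.normal_kleinFour (α := Fin 4) (by simp)
    have hK := alternatingGroup.kleinFour_isKleinFour (α := Fin 4) (by simp)
    refine (hne ((alternatingGroup.kleinFour (Fin 4)).comap e.toMonoidHom) inferInstance ⟨⟨⟨fun a b => ?_⟩⟩,
      fun a ha => ?_⟩).2 ?_
    · have := congrArg Subtype.val
        ((IsKleinFour.isMulCommutative (G := alternatingGroup.kleinFour (Fin 4))).is_comm.comm ⟨_, a.2⟩ ⟨_, b.2⟩)
      exact Subtype.ext (e.injective (by push_cast; rw [map_mul, map_mul]; exact this))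
    · exact e.injective (by
        simpa [sq] using congrArg Subtype.val (IsKleinFour.mul_self (G := alternatingGroup.kleinFour (Fin 4)) ⟨_, ha⟩))
    · rw [comap_equiv_eq_map_symm', card_map_of_injective e.symm.injective, hK.card_four]
  · exfalso
    obtain ⟨z, zV, hz, nc, -, h⟩ := comm_conj_of_four hx (hall_self hp) hC4 he (fun u hu _ => hu) hS
    obtain ⟨h1, h2⟩ := elem (H9.mul_self_of_orderOf hz) h
    have zE : z ∈ normalClosure {z} := subset_normalClosure rfl
    have h3 : Nat.card (normalClosure {z}) ≤ 4 := by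
      by_cases hxE : x ∈ normalClosure {z}
      · exact hC4 ▸ card_le_of_le (h1.trans (C_le_C1 hxE))
      · have h4 := card_lt (show normalClosure {z} ⊓ C1(x) < C1(x) from
          inf_le_right.lt_of_ne fun e => hxE (e.ge C1_self).1)
        have h5 := card_dvd (inf_le_right : normalClosure {z} ⊓ C1(x) ≤ C1(x))
        rw [hC4] at h4 h5
        have h6 : Nat.card (normalClosure {z} ⊓ C1(x) :) ≤ 2 := by
          by_contra h7; rw [show Nat.card (normalClosure {z} ⊓ C1(x) :) = 3 by omega] at h5; omega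
        exact (card_le h1 h2 (H9.mul_self_of_orderOf hx)).trans (Nat.mul_le_mul h6 h6)
    have h4 := hne _ inferInstance ⟨abel_iff.1 h1, fun a ha => by rw [sq, h2 a ha]⟩
    have h5 := card_dvd (zpowers_le.2 zE)
    rw [card_zpowers', hz] at h5
    have := card_pos' (normalClosure {z})
    omega

end Cfsg.Agent.S3277
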