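import Cfsg.Statements.S4479
import Cfsg.Agent.H7.FSOdd

set_option autoImplicit false
open Cfsg

namespace Cfsg.Agent.S4479

open H5 H7

/-- An order formula from the principal 2-block. Let G be a finite group of order 4·g₀ with g₀ odd having no normal 2-complement (no normal subgroup of order g₀); let P be a Sylow 2-subgroup, J an involution of P, and fix a maximal ideal M of the algebraic integers containing 2. Suppose the principal 2-block consists of the principal character and three further distinct characters χ₁, χ₂, χ₃ of degrees x₁, x₂, x₃, with χ_i(J) = ε_i = ±1. Then, writing c(J) and c(P) for the orders of the centralizers of J and of P, the order of G equals 8·α·c(J)³/c(P)² with α = x₁x₂x₃ / ((x₁ + ε₁)(x₂ + ε₂)(x₃ + ε₃)). -/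
theorem result {G : Type*} [Group G] [Finite G] (M : Ideal Cfsg.AlgInt) (hM : Cfsg.IsPModular 2 M) (g₀ : ℕ) (hg₀ : Odd g₀) (hG : Nat.card G = 4 * g₀) (hnc : ¬ ∃ N : Subgroup G, N.Normal ∧ Nat.card N = g₀) (P : Sylow 2 G) (J : G) (hJ : J ∈ (P : Subgroup G)) (hJ2 : orderOf J = 2) (χ₁ χ₂ χ₃ : Cfsg.IrrCharacter G) (ε₁ ε₂ ε₃ : ℤ) (hB : Cfsg.principalBlock M G = {χ : Cfsg.IrrCharacter G | (χ : G → ℂ) = (fun _ => 1) ∨ χ = χ₁ ∨ χ = χ₂ ∨ χ = χ₃}) (hdist : (χ₁ : G → ℂ) ≠ (fun _ => 1) ∧ (χ₂ : G → ℂ) ≠ (fun _ => 1) ∧ (χ₃ : G → ℂ) ≠ (fun _ => 1) ∧ χ₁ ≠ χ₂ ∧ χ₁ ≠ χ₃ ∧ χ₂ ≠ χ₃) (hε : (ε₁ = 1 ∨ ε₁ = -1) ∧ (ε₂ = 1 ∨ ε₂ = -1) ∧ (ε₃ = 1 ∨ ε₃ = -1)) (hval : (χ₁ : G → ℂ) J = ε₁ ∧ (χ₂ : G → ℂ) J = ε₂ ∧ (χ₃ : G → ℂ) J = ε₃) : (Nat.card G : ℚ) = 8 * (((Cfsg.charDegree (χ₁ : G → ℂ) : ℚ) * Cfsg.charDegree (χ₂ : G → ℂ) * Cfsg.charDegree (χ₃ : G → ℂ)) / ((Cfsg.charDegree (χ₁ : G → ℂ) + ε₁) * (Cfsg.charDegree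 (χ₂ : G → ℂ) + ε₂) * (Cfsg.charDegree (χ₃ : G → ℂ) + ε₃))) * (Nat.card (Subgroup.centralizer ({J} : Set G)) : ℚ) ^ 3 / (Nat.card (Subgroup.centralizer ((P : Subgroup G) : Set G)) : ℚ) ^ 2 := by
    haveI : PM 2 M := ⟨hM⟩
    have h := k4_of_card hg₀ hG hnc
    have h1 := h.order (M := M) (sylIn_top P) hJ hJ2
    have h2 := mu_eq_zero_of_dvd (p := 2) (isSat_of_isPBlock (isPBlock_principalBlock (M := M)))
      (not_dvd_orderOf_one (G := G)) hJ2.symm.dvd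
    rw [mu] at h2
    rw [finsum_four hB hdist, hval.1, hval.2.1, hval.2.2] at h1 h2
    simp only [← H8.coe_deg, map_intCast] at h1 h2
    rw [charDegree_eq (G := G) (χ := irrOne G) (n := 1) (by simp)] at h1 h2
    have p1 : (charDegree (χ₁ : G → ℂ) : ℚ) ≠ 0 := Nat.cast_ne_zero.2 (H8.deg_pos _).ne'
    have p2 : (charDegree (χ₂ : G → ℂ) : ℚ) ≠ 0 := Nat.cast_ne_zero.2 (H8.deg_pos _).ne'
    have p3 : (charDegree (χ₃ : G → ℂ) : ℚ) ≠ 0 := Nat.cast_ne_zero.2 (H8.deg_pos _).ne'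
    have p4 : (Nat.card (Subgroup.centralizer ((P : Subgroup G) : Set G)) : ℚ) ≠ 0 :=
      Nat.cast_ne_zero.2 Nat.card_pos.ne'
    have p5 : (Nat.card (Subgroup.centralizer ({J} : Set G)) : ℚ) ≠ 0 :=
      Nat.cast_ne_zero.2 Nat.card_pos.ne'
    generalize charDegree (χ₁ : G → ℂ) = x at *
    generalize charDegree (χ₂ : G → ℂ) = y at *
    generalize charDegree (χ₃ : G → ℂ) = z at *
    generalize Nat.card (Subgroup.centralizer ((P : Subgroup G) : Set G)) = c at *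
    generalize Nat.card (Subgroup.centralizer ({J} : Set G)) = d at *
    generalize Nat.card G = n at *
    have k1 : (n : ℚ) * c ^ 2 * (1 + (ε₁ / x + (ε₂ / y + ε₃ / z))) = 8 * d ^ 3 := by
      apply Rat.cast_injective (α := ℂ); push_cast; simpa using h1
    have k2 : (1 : ℚ) + (x * ε₁ + (y * ε₂ + z * ε₃)) = 0 := by
      apply Rat.cast_injective (α := ℂ); push_cast; simpa using h2
    have k3 : ((x : ℚ) + ε₁) * (y + ε₂) * (z + ε₃) = x * y * z * (1 + (ε₁ / x + (ε₂ / y + ε₃ / z))) := by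
      field_simp
      rcases hε with ⟨rfl | rfl, rfl | rfl, rfl | rfl⟩ <;> push_cast at k2 ⊢ <;>
        first | linear_combination k2 | linear_combination -k2
    have k4 : (1 : ℚ) + (ε₁ / x + (ε₂ / y + ε₃ / z)) ≠ 0 := fun e => by simp [e, p5] at k1
    rw [k3]
    generalize (1 : ℚ) + (ε₁ / x + (ε₂ / y + ε₃ / z)) = S at *
    field_simp
    linear_combination k1

end Cfsg.Agent.S4479
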