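import Cfsg.Statements.S3278
import Cfsg.Agent.S3277
import Cfsg.Agent.S0948
import Cfsg.Agent.S4479
import Cfsg.Agent.H10.Small
import Cfsg.Agent.H7.Second

set_option autoImplicit false
open Cfsg

open H5 H18 H2 Subgroup

namespace Cfsg.Agent.S3278

theorem arith {m c x y z e : ℚ} (hc : 0 < c) (hx : 0 < x) (hy : 0 < y) (hz : 3 ≤ z) (he : 2 * y ≤ 3 * (y + e))
    (h : m * c = 8 * (x * y * z / ((x + 1) * (y + e) * (z + -1))) * c ^ 3 / c ^ 2) : m < 18 := by
  have h1 : 0 < y + e := by linarith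
  have h2 : 0 < z + -1 := by linarith
  have h3 : m = 8 * (x / (x + 1) * (y / (y + e)) * (z / (z + -1))) := by
    apply mul_right_cancel₀ hc.ne'
    rw [h]; field_simp
  have a1 : x / (x + 1) < 1 := by rw [div_lt_one (by linarith)]; linarith
  have a2 : y / (y + e) ≤ 3 / 2 := by rw [div_le_div_iff₀ h1 two_pos]; linarith
  have a3 : z / (z + -1) ≤ 3 / 2 := by rw [div_le_div_iff₀ h2 two_pos]; linarith
  have a4 : x / (x + 1) * (y / (y + e)) * (z / (z + -1)) < 1 * (3 / 2) * (3 / 2) :=
    mul_lt_mul (mul_lt_mul a1 a2 (by positivity) (by positivity)) a3 (by positivity) (by positivity)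
  linarith

/-- Let G be a finite simple group with an involution x such that a Sylow 2-subgroup of C_G(x) is a Klein four-group which is normal in C_G(x). Then G is isomorphic to the alternating group of degree 5 (that is, to PSL(2, 5)). -/
theorem result {G : Type*} [Group G] [Finite G] [IsSimpleGroup G] (x : G) (hx : orderOf x = 2)
    (S₀ : Subgroup G) (hle : S₀ ≤ Subgroup.centralizer ({x} : Set G)) (hK : IsKleinFour ↥S₀)
    (hodd : ¬ 2 ∣ S₀.relIndex (Subgroup.centralizer ({x} : Set G))) (hn : (S₀.subgroupOf (Subgroup.centralizer ({x} : Set G))).Normal) :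
    Nonempty (G ≃* ↥(alternatingGroup (Fin 5))) := by
  have h4 : Nat.card S₀ = 4 := hK.card_four
  have hp : PiGrp {2} S₀ := by rw [PiGrp, h4]; exact piNat_pow_self Nat.prime_two 2
  have hV : Hall {2} S₀ C1(x) := ⟨hle, hp, (piNat_compl_iff Nat.prime_two).2 hodd⟩
  have hN : C1(x) ≤ N(S₀) := (normal_subgroupOf_iff_le_normalizer hle).1 hn
  have he : ∀ c ∈ S₀, c * c = 1 := fun c hc => H7.kl_sq hK hc
  have hi : ∀ u ∈ C1(x), orderOf u = 2 → u ∈ S₀ := fun u hu h2 =>
    hV.mem_of_nml hN hu (by rw [PiElt, h2]; exact piNat_self Nat.prime_two)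
  have d4 : 4 ∣ Nat.card G := h4 ▸ card_subgroup_dvd_card S₀
  have hna : ¬ IsMulCommutative G := H10.not_comm_of_simple_of_not_prime fun h => by
    rcases (Nat.dvd_prime h).1 d4 with e | e
    · omega
    · rw [← e] at h; exact absurd h (by norm_num)
  have nab : ∀ A : Subgroup G, A.Normal → Abel A → A = ⊥ := fun A hA h => hA.eq_bot_or_eq_top.resolve_right fun e =>
    hna ⟨⟨fun a b => mem_C.1 (h (e ▸ mem_top b)) a (e ▸ mem_top a)⟩⟩
  have hS : Hall {2} S₀ ⊤ := by
    by_contra hS
    obtain ⟨z, -, hz, -, -, h⟩ := comm_conj_of_four hx hV h4 he hi hS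
    exact H9.ne_one_of_orderOf hz (mem_bot.1 (nab _ inferInstance (S3277.elem (H9.mul_self_of_orderOf hz) h).1 ▸
      subset_normalClosure (Set.mem_singleton z)))
  have xV := hi x C1_self hx
  have x1 := H9.ne_one_of_orderOf hx
  have vA : Abel S₀ := H7.kl_comm hK
  have nV : ¬ S₀.Normal := fun h => ne_bot_of_mem xV x1 (nab _ h vA)
  have hG : ∀ M : Subgroup G, M.index ≠ 2 := fun M hM => by
    rcases (normal_of_index_eq_two hM).eq_bot_or_eq_top with rfl | rfl
    · rw [index_bot] at hM; rw [hM] at d4; omega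
    · simp at hM
  have hi2 : (zpowers x).relIndex S₀ = 2 := relIndex_eq_of_mul (zpowers_le.2 xV) (by rw [h4, card_zpowers', hx])
  have cx : ∀ u, orderOf u = 2 → IsConj u x := fun u hu => by
    obtain ⟨g, hg⟩ := isConj_of_no_index_two hS hi2 hG hu
    have h3 : orderOf (g * u * g⁻¹) = 2 := by rw [orderOf_conj, hu]
    rw [← (eq_of_mul_self_of_cyc inferInstance hx (mem_zpowers x) hg (H9.mul_self_of_orderOf h3)).resolve_left
      (H9.ne_one_of_orderOf h3)]
    exact isConj_iff.2 ⟨g, rfl⟩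
  obtain ⟨P, rfl⟩ := hS.exists_sylow_top Nat.prime_two
  have eC : C((P : Subgroup G)) = C1(x) := le_antisymm (C_le_C1 xV) (le_of_pElts fun p hp a ha h => by
    by_cases e : p = 2
    · exact vA (hV.mem_of_nml hN ha (e ▸ h))
    · have h1 := H7.kl_sq_mem hK xV x1 (hN ha) (conj_eq_self_of_C1 ha)
      exact zpowers_le.2 h1 (mem_zpowers_pow_iff.2 ((piNat_compl_iff_coprime Nat.prime_two).1 (h.p'_of_ne e)).symm))
  obtain ⟨M, hM⟩ := H7.exists_isPModular 2
  obtain ⟨a, b, c, e, h1, a1, b1, ab, ac, bc, hB, hv, -, d3, d4', -⟩ :=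
    S0948.result M hM P hK fun s t hs ht => (cx s hs).trans (cx t ht).symm
  have odd : Odd (P : Subgroup G).index := by
    simpa [Nat.odd_iff] using (piNat_compl_iff Nat.prime_two).1 hS.idx
  have key := S4479.result M hM _ odd (by rw [← h4, card_mul_index]) (by
      rintro ⟨N, hN, e⟩
      rcases hN.eq_bot_or_eq_top with rfl | rfl
      · exact nV (index_eq_one.1 (by rw [← e, card_bot]) ▸ inferInstance)
      · rw [card_top] at e; rw [e] at d4; exact (Nat.not_even_iff_odd.2 odd) (even_iff_two_dvd.2 (dvd_trans (by norm_num) d4)))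
    P x xV hx a b c 1 e (-1) hB ⟨a1, b1, fun e1 => by
      have := (hv x hx).2.2; rw [e1] at this; norm_num at this, ab, ac, bc⟩ ⟨.inl rfl, h1, .inr rfl⟩
    (by simpa using hv x hx)
  rw [eC, ← C1(x).index_mul_card] at key
  have pa := H8.deg_pos a
  have pb := H8.deg_pos b
  have pc := H8.deg_pos c
  have lt : C1(x).index < 18 := by
    push_cast at key
    exact_mod_cast arith (by exact_mod_cast card_pos' C1(x)) (by exact_mod_cast pa) (by exact_mod_cast pb)
      (by exact_mod_cast (by omega : 3 ≤ charDegree (c : G → ℂ)))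
      (by exact_mod_cast (by omega : 2 * (charDegree (b : G → ℂ) : ℤ) ≤ 3 * (charDegree (b : G → ℂ) + e))) key
  have o2 : Odd C1(x).index := odd.of_dvd_nat (index_dvd_of_le hle)
  have r1 : C1(x).relIndex N((P : Subgroup G)) ≠ 1 := fun e1 => by
    have h2 := Burnside_normal_complement Nat.prime_two hS (inf_le_right.trans (eC ▸ relIndex_eq_one.1 e1))
    rcases (normalizer_eq_top_iff.1 (top_le_iff.1 (pcore_nml (π := {2}ᶜ) (H := (⊤ : Subgroup G))).2)).eq_bot_or_eq_top
      with e2 | e2
    · have := hS.sup_compl h2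
      rw [e2, sup_bot_eq] at this
      exact nV (this ▸ inferInstance)
    · exact x1 (mem_bot.1 (hS.inf_compl h2 ▸ mem_inf.2 ⟨xV, e2.ge (mem_top x)⟩))
  have nt : N((P : Subgroup G)) ≠ ⊤ := fun e1 => nV (normalizer_eq_top_iff.1 e1)
  have m1 : C1(x).relIndex N((P : Subgroup G)) * N((P : Subgroup G)).index = C1(x).index := relIndex_mul_index hN
  have m2 := H10.two_mul_card_dvd_factorial_index hna nt
  have m3 : N((P : Subgroup G)).index ≠ 1 := mt index_eq_one.1 nt
  rw [← m1] at o2 lt
  obtain ⟨o3, o4⟩ := Nat.odd_mul.1 o2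
  rw [Nat.odd_iff] at o3 o4
  have m4 : N((P : Subgroup G)).index = 5 := by
    have : N((P : Subgroup G)).index < 6 := by nlinarith [show 3 ≤ C1(x).relIndex N((P : Subgroup G)) by omega]
    have : N((P : Subgroup G)).index ≠ 3 := fun e1 => by
      rw [e1] at m2; have := (Nat.mul_dvd_mul_left 2 d4).trans m2; revert this; decide
    omega
  obtain ⟨f, hf⟩ := H10.exists_injective_perm_of_simple nt
  have m5 := C1(x).index_mul_card
  obtain ⟨k, hk⟩ := card_dvd hle
  rw [m4] at lt
  rw [← m1, hk, h4, m4, show C1(x).relIndex N((P : Subgroup G)) = 3 by omega] at m5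
  rw [m4] at m2
  have m6 := Nat.le_of_dvd (by decide) m2
  have := Nat.card_pos (α := G)
  exact m4 ▸ H10.equiv_alt_of_injective f hf (by rw [m4]; simp [Nat.factorial] at m6 ⊢; omega)

end Cfsg.Agent.S3278
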