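import Cfsg.Statements.S3279
import Cfsg.Agent.H9.Hv3

set_option autoImplicit false
open Cfsg

namespace Cfsg.Agent.S3279

open H18 H9 Subgroup
open H22 (V4 Dih)

/-- Let G be a finite simple group and x an involution of G whose centralizer contains at most three involutions. Then C_G(x) contains a Sylow 2-subgroup of G, and all involutions of G are conjugate. -/
theorem result {G : Type*} [Group G] [Finite G] [IsSimpleGroup G] (x : G) (hx : orderOf x = 2)
    (h3 : Nat.card {u : ↥(Subgroup.centralizer ({x} : Set G)) // orderOf u = 2} ≤ 3) :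
    (∃ S : Sylow 2 G, (S : Subgroup G) ≤ Subgroup.centralizer ({x} : Set G)) ∧
      ∀ u v : G, orderOf u = 2 → orderOf v = 2 → IsConj u v := by
  refine one_of_comm hx fun u hu hc => by_contra fun ne => ?_
  have h4 : ∀ y, IsConj x y → {u | orderOf u = 2 ∧ Commute y u}.ncard ≤ 3 := fun y hy => by
    obtain ⟨g, rfl⟩ := isConj_iff.1 hy
    refine (Nat.card_le_card_of_injective (β := {u : C1(x) // orderOf u = 2}) (fun a => ⟨⟨g⁻¹ * a.1 * g,
      mem_C1.2 ((commute_conj_iff (g := g)).1 (by simpa [mul_assoc] using a.2.2.symm))⟩, (orderOf_coe _).symm.trans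
        (by simpa using H22.ord2_conj a.2.1 g⁻¹)⟩) fun a b e => Subtype.ext ?_).trans h3
    simpa using e
  have key : ∀ z, orderOf z = 2 → z ∈ center G → z = x := fun z z2 hz => ((eq_one_or_eq_of_mem_zpowers (ord2.1 z2).1
    ((zpowers_eq_top_of_central (ord2.1 z2).2 hz).ge (mem_top x))).resolve_left (ord2.1 hx).2).symm
  by_cases hi : IsIsolatedInvolution x
  · exact ne (((eq_one_or_eq_of_mem_zpowers (ord2.1 hx).1 ((zpowers_eq_top_of_isolated hi).ge
      (mem_top u))).resolve_left (ord2.1 hu).2) ▸ IsConj.refl _)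
  obtain ⟨y, hy, c, yx⟩ : ∃ y, IsConj x y ∧ Commute x y ∧ y ≠ x := by
    by_contra! e; exact hi (isolated_of_forall hx e)
  have y2 := (IsConj.orderOf_eq' hy).symm.trans hx
  have t := fun u => three_inv (u := u) (h4 x (.refl x)) hx y2 c yx.symm
  obtain rfl : u = x * y := ((t u hu hc).resolve_left fun e => ne (e ▸ .refl _)).resolve_left fun e => ne (e ▸ hy)
  refine ne ((key _ hu (mem_center_iff.2 fun g => mem_C1.1 (?_ : g ∈ C1(x * y)))).symm ▸ IsConj.refl x)
  refine (le_top.trans ((IsSimpleGroup.eq_bot_or_eq_top_of_normal (normalClosure {x * y}) inferInstance).resolve_left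
    (ne_bot_of_mem (subset_normalClosure rfl) (ord2.1 hu).2)).ge).trans ((closure_le C1(x * y)).2 fun a ha => ?_) (mem_top g)
  have ha : IsConj (x * y) a := by simpa using Group.mem_conjugatesOfSet_iff.1 ha
  have a2 := (IsConj.orderOf_eq' ha).symm.trans hu
  have n : ∀ b, IsConj x b → a ≠ b := fun b hb e => ne (hb.trans (e ▸ ha.symm))
  obtain ⟨w, w2, -, c1, c2⟩ := (isConj_or_exists_commute (ord2.1 hx).1 (ord2.1 a2).1).resolve_left fun e => n a e rfl
  rcases t w w2 c1.symm with rfl | rfl | rfl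
  · exact mem_C1.2 (by rw [((t a a2 c2).resolve_left (n _ (.refl _))).resolve_left (n _ hy)])
  · exact mem_C1.2 (by rw [((three_inv (h4 _ hy) w2 hx c1 yx a2 c2).resolve_left (n _ hy)).resolve_left
      (n _ (.refl _)), c.eq])
  · exact mem_C1.2 c2.symm

end Cfsg.Agent.S3279
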