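import Cfsg.Statements.S3280
import Cfsg.Agent.H2.FT3c
import Cfsg.Agent.S0497
import Cfsg.Agent.H24.GL2Class

set_option autoImplicit false
open Cfsg

open H18 H2 H2.T3 Subgroup
open scoped MatrixGroups

namespace Cfsg.Agent.S3280

theorem psl2_cent {F : Type*} [Field F] [Fintype F] {w : PSL(2, F)} (h : w ≠ 1) :
    Fintype.card F - 1 ≤ 2 * Nat.card C1(w) := by
  classical
  obtain ⟨g, rfl⟩ := QuotientGroup.mk'_surjective _ w
  have h1 : Fintype.card F - 1 ≤ Nat.card C1(g) := by
    rcases H24.types (g : H24.M2 F) with k | ⟨k, a, h1, h2⟩ | ⟨a, b, k, h1, h2⟩ | k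
    · exact (h ((QuotientGroup.eq_one_iff _).2 ((H24.mem_center_SL_iff g).2 k))).elim
    · rw [H24.card_cent_SL_par k h1 (h2.symm.trans g.2)]
      have : Nonempty {x : F // x ^ 2 = 1} := ⟨⟨1, by simp⟩⟩
      have := Nat.card_pos (α := {x : F // x ^ 2 = 1})
      exact (Nat.sub_le _ _).trans (Nat.le_mul_of_pos_left _ this)
    · rw [H24.card_cent_SL_split k h1 (h2.symm.trans g.2)]
    · rw [H24.card_cent_SL_ell k]; omega
  have h2 := card_mul_relIndex' (A := (QuotientGroup.mk' (center SL(2, F))).ker) (B := C1(g))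
  rw [relIndex_ker, QuotientGroup.ker_mk'] at h2
  have h3 := card_le (inf_le_left : center SL(2, F) ⊓ C1(g) ≤ _)
  rw [H10.card_center_SL2] at h3
  refine h1.trans (h2 ▸ Nat.mul_le_mul (h3.trans (Nat.gcd_le_left _ two_pos)) (card_le ?_))
  rintro _ ⟨c, hc, rfl⟩
  exact mem_C1.2 (by rw [← map_mul, mem_C1.1 hc, map_mul])

/-- A non-cyclic finite simple group containing an element whose centralizer has order at most 4 is isomorphic to the alternating group of degree 5, 6 or 7, or to PSL(2, 7). -/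
theorem result {G : Type*} [Group G] [Finite G] [IsSimpleGroup G] (hG : ¬ IsCyclic G)
    (w : G) (hw : Nat.card ↥(Subgroup.centralizer ({w} : Set G)) ≤ 4) :
    Nonempty (G ≃* ↥(alternatingGroup (Fin 5))) ∨ Nonempty (G ≃* ↥(alternatingGroup (Fin 6))) ∨
      Nonempty (G ≃* ↥(alternatingGroup (Fin 7))) ∨
      (∃ (F : Type) (_ : Field F) (_ : Fintype F), Fintype.card F = 7 ∧ Nonempty (G ≃* Matrix.ProjectiveSpecialLinearGroup (Fin 2) F)) := by
  have hn : ¬ IsMulCommutative G := fun _ => hG (by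
    have : Fact (Nat.card G).Prime := ⟨(Group.is_simple_iff_prime_card (α := G)).1 inferInstance⟩
    exact isCyclic_of_prime_card (p := Nat.card G) rfl)
  have fin : Nat.card G = 60 ∨ Nat.card G = 168 ∨ Nat.card G = 360 →
      Nonempty (G ≃* ↥(alternatingGroup (Fin 5))) ∨ Nonempty (G ≃* ↥(alternatingGroup (Fin 6))) ∨
      Nonempty (G ≃* ↥(alternatingGroup (Fin 7))) ∨ (∃ (F : Type) (_ : Field F) (_ : Fintype F),
        Fintype.card F = 7 ∧ Nonempty (G ≃* PSL(2, F))) := fun h => h.elim
    (fun e => Or.inl (Cfsg.Agent.S0494.result e)) fun h => h.elim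
      (fun e => Or.inr (Or.inr (Or.inr ⟨ZMod 7, inferInstance, inferInstance, ZMod.card 7,
        Cfsg.Agent.S0495.result e (ZMod.card 7)⟩)))
      fun e => Or.inr (Or.inl (Cfsg.Agent.S0497.result e))
  have w1 : w ≠ 1 := by
    rintro rfl
    rw [C1_one, card_top] at hw
    have := Cfsg.Agent.S0496.result hn (by omega)
    omega
  have d := orderOf_dvd_card (C1_self (x := w))
  have o1 : orderOf w ≠ 1 := mt orderOf_eq_one_iff.1 w1
  have le := Nat.le_of_dvd card_pos' d
  by_cases h3 : orderOf w = 3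
  · have := simple' hn ⟨h3, (eq_of_card_ge (zpowers_le.2 C1_self) (by rw [card_zpowers']; rw [h3] at d ⊢; omega)).symm⟩
    exact fin (by omega)
  have := orderOf_pos w
  have o : orderOf w = 2 ^ 1 ∨ orderOf w = 2 ^ 2 := by omega
  obtain ⟨T, hT, le⟩ := exists_sylow_le Nat.prime_two (Q := zpowers w)
    (o.elim (fun e => piGrp_of_card_pow Nat.prime_two (card_zpowers'.trans e))
      fun e => piGrp_of_card_pow Nat.prime_two (card_zpowers'.trans e)) le_top
  obtain ⟨S, rfl⟩ := hT.exists_sylow_top Nat.prime_two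
  rcases kn_or_qd hn S (le (mem_zpowers w)) ((card_le inf_le_right).trans hw) with (⟨F, _, _, h1, h2, ⟨e⟩⟩ | e) | j
  · have k := psl2_cent (w := e w) (by simpa using w1)
    have : Nat.card C1(e w) ≤ Nat.card C1(w) := Nat.card_le_card_of_injective
      (fun c => ⟨e.symm c, mem_C1.2 (e.injective (by simpa using mem_C1.1 c.2))⟩)
      fun a b h => Subtype.ext (e.symm.injective (congrArg Subtype.val h))
    have := H10.card_of_PSL2 h1 e
    obtain ⟨j, hj⟩ := h1
    obtain rfl | rfl | rfl : j = 2 ∨ j = 3 ∨ j = 4 := by omega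
    all_goals rw [hj] at this; exact fin (by omega)
  · exact Or.inr (Or.inr (Or.inl e))
  · obtain ⟨k, x, y, q⟩ := H22.exists_qd j
    obtain ⟨e, e'⟩ := q.of_no2 (no_two hn)
    have key : ∀ n, IsConj (x ^ n) w → False := fun n c => by
      have := card_le (zpowers_le.2 (C1_pow_le n (C1_self (x := x))))
      rw [card_zpowers', q.mc.ordx, ← H10.card_C_congr c] at this
      have := Nat.pow_le_pow_right two_pos (show 3 ≤ k + 1 + 2 by omega)
      omega
    exact (o.elim (fun o => key _ (q.one2 e w o)) fun o => key _ (H22.conj_syl S (k := 2)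
      (fun _ _ e e' => e'.trans e) (fun _ hs j => (q.cls4 hs j).elim id e'.trans) w o)).elim

end Cfsg.Agent.S3280
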