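import Cfsg.Statements.S3285
import Cfsg.Agent.H6.AltCen

set_option autoImplicit false
open Cfsg

open H5 H6 Cfsg

namespace Cfsg.Agent.S3285

/-- Let G be a finite non-solvable group with no normal subgroup of index 2, and J an involution lying in the centre of a Sylow 2-subgroup of G whose centralizer is the internal direct product of ⟨J⟩ with a subgroup isomorphic to the alternating group of degree m. Then either m = 4 and G is isomorphic to the automorphism group PΓL(2, 8) of PSL(2, 8), or m = 5 and G is isomorphic to the first Janko group. -/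
theorem result {G : Type*} [Group G] [Finite G] (hns : ¬ Group.IsSolvable G) (h2 : ∀ N : Subgroup G, N.Normal → N.index ≠ 2)
    (J : G) (hJ : Cfsg.IsTwoCentralInvolution J) (m : ℕ) (T : Subgroup G)
    (hT : Nonempty (↥T ≃* ↥(alternatingGroup (Fin m))))
    (hd : Cfsg.IsInternalDirectProduct (Subgroup.zpowers J) T (Subgroup.centralizer ({J} : Set G))) :
    (m = 4 ∧ ∃ (F : Type) (_ : Field F) (_ : Fintype F), Fintype.card F = 8 ∧
        Nonempty (G ≃* MulAut (Matrix.ProjectiveSpecialLinearGroup (Fin 2) F))) ∨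
      (m = 5 ∧ Cfsg.Spor.IsoJ1 G) := by
    obtain ⟨e⟩ := hT
    obtain ⟨j2, P, -, hP⟩ := hJ
    obtain ⟨-, d1, -, d2, d3⟩ := hd
    have h := (H6.Ree.cen_of_sup j2 d1 (fun k => H9.ne_one_of_orderOf j2 (Subgroup.mem_bot.1
      (d2 ▸ Subgroup.mem_inf.2 ⟨Subgroup.mem_zpowers J, k⟩))) (by rw [sup_comm, d3])).comp
      (f := e.symm.toMonoidHom) e.symm.bijective
    have hS := H18.hall_sylow_top Nat.prime_two P
    have hc : (P : Subgroup G) ≤ Subgroup.centralizer {J} := fun x hx => H18.mem_C1.2 (hP x hx)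
    obtain ⟨y, hy⟩ := h.exists_range' h2 hS hc h.sq
    have y2 := H7.orderOf_eq_of_isConj hy
    rw [j2, orderOf_injective _ h.inj, eq_comm] at y2
    by_cases h6 : 6 ≤ m
    · exact absurd (H6.Ree.alt_der (by simpa using h6) (H9.mul_self_of_orderOf y2)) (h.not_der hy)
    by_cases h3 : m ≤ 3
    · refine absurd ?_ (H9.ne_one_of_orderOf y2)
      have := H9.mul_self_of_orderOf y2
      clear hy y2 h
      revert y
      interval_cases m <;> decide +kernel
    obtain rfl | rfl : m = 4 ∨ m = 5 := by omega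
    · exact Or.inl ⟨rfl, H6.Ree.iso_aut_of_A4 h hns h2 hS hc⟩
    · exact Or.inr ⟨rfl, H6.Ree.iso_J1' h h2 hS hc⟩

end Cfsg.Agent.S3285
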