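import Cfsg.Statements.S3286
import Cfsg.Agent.H25.K6
-- import your own Cfsg.Agent.* helpers here

set_option autoImplicit false
open Cfsg

namespace Cfsg.Agent.S3286

/-- Let G be a non-abelian finite simple group containing an involution whose centralizer is isomorphic to the centralizer, in the Mathieu group M₁₂, of an involution lying in the centre of a Sylow 2-subgroup of M₁₂. Then G is isomorphic to M₁₂. -/
theorem result {G : Type*} [Group G] [Finite G] [IsSimpleGroup G] (hG : ¬ IsMulCommutative G)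
    (u : ↥Cfsg.Spor.M12) (hu : Cfsg.IsTwoCentralInvolution u)
    (t : G) (ht : orderOf t = 2) (e : ↥(Subgroup.centralizer ({t} : Set G)) ≃* ↥(Subgroup.centralizer ({u} : Set ↥Cfsg.Spor.M12))) :
    Cfsg.Spor.IsoM12 G := by
  obtain ⟨z, a, b, p, q, x, s, J⟩ := H25.K.frame12
  obtain ⟨h1, P, -, h2⟩ := hu
  obtain ⟨g, rfl⟩ := isConj_iff.1 (J.bs.central P h2 (H9.ne_one_of_orderOf h1))
  obtain ⟨_, _, _, _, _, _, I⟩ := J.transport ht
    (e.trans ((H18.cjEquiv g _).trans (MulEquiv.subgroupCongr H18.cj_C1)).symm)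
  exact I.simple hG

end Cfsg.Agent.S3286
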