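import Cfsg.Statements.S3287
import Cfsg.Agent.H22.Rank1
import Cfsg.Agent.S0495
import Cfsg.Agent.H10.Syl2

set_option autoImplicit false
open Cfsg

namespace Cfsg.Agent.S3287

open H18 H22 Subgroup in
open H17 (lay) in
theorem key {G : Type*} [Group G] [Finite G] {q : ℕ} {e : ℤ} (hd : DS (⊤ : Subgroup G))
    (h : L2 (⊤ : Subgroup G) ⊤ q e) {t : G} (ht : orderOf t = 2) {K : Subgroup G} (hlt : C1(t) < K)
    (hK : lay K = ⊥) : q = 5 ∨ q = 7 ∨ q = 9 := by
  obtain ⟨T, -, -, h1, -, -, -, h2, h3, h4⟩ := h.tor t trivial ht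
  obtain ⟨-, -, h5, h6⟩ := h1 trivial
  rw [top_inf_eq] at h3 h4 h5
  have hn : C1(t) ≤ N(O'(F(K))) := hlt.le.trans fit_nml.pcore.norm
  have hN : Nil O'(F(K)) := fit_nil.of_le pcore_le
  have h7 : O'(F(K)) = ⊥ := by
    by_contra e
    exact hlt.not_ge ((le_inf le_top fit_nml.pcore.norm).trans
      (h2 _ (h3 _ (h4 _ le_top hN pcore_pi hn) hN pcore_pi hn) e pcore_pi))
  have hO : O'(K) = ⊥ := by
    by_contra e
    exact (H1.solv_of_two' pcore_pi).fit_ne_bot e (fit_pcore.trans h7)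
  have i1 := card_mul_relIndex hlt.le
  have i2 := relIndex_dvd_right hlt.le (le_top (a := K))
  have i3 := one_lt_relIndex hlt.not_ge
  have i4 : ¬ 2 ∣ C1(t).relIndex K := fun c => by
    obtain ⟨k, hk⟩ := c.trans i2
    obtain ⟨l, hl⟩ := h.four
    have e1 : (q : ℤ) = 4 * l + e := by omega
    rw [hk, e1] at h6
    push_cast at h6
    rcases h.sgn with rfl | rfl
    · have : (4 * l + 1) * (4 * l + 1 + 1) = 4 * (4 * l ^ 2 + 3 * l) + 2 := by ring
      omega
    · have : (4 * l + -1) * (4 * l + -1 + -1) = 4 * (4 * l ^ 2 - 3 * l) + 2 := by ring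
      omega
  rcases (hd.of_le le_top).four_or hO hK with e2 | ⟨s, w, d, e2⟩
  · obtain ⟨p, hp, hp'⟩ := Nat.exists_prime_and_dvd i3.ne'
    exact (i4 (e2.relIndex.eq_of_dvd hp hp' ▸ hp')).elim
  have h8 := cent_fit_le hK
  rw [fit_eq_two hO] at h8
  have h9 := H10.relIndex_centralizer_dvd_factorial O[{2}](K)
  have h10 : C(O[{2}](K)).relIndex K ∣ _ := (Nml.relIndex_dvd ⟨C_le_N, norm_C le_rfl⟩ pcore_nml.norm).trans h9
  have h11 := card_mul_relIndex' (A := C(O[{2}](K))) (B := K)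
  have h12 := card_dvd (inf_comm K _ ▸ h8)
  rw [d.card] at h10 h12
  have h13 : Nat.card K ∣ 24 := h11 ▸ Nat.mul_dvd_mul h12 h10
  rw [← i1] at h13
  have h14 := h.four
  have h15 := h.gt
  rw [← h5] at h14
  have h16 : 4 ∣ Nat.card C1(t) := by exact_mod_cast h14
  generalize Nat.card C1(t) = c at *
  generalize C1(t).relIndex K = r at *
  have h17 : c * r ≤ 24 := Nat.le_of_dvd (by norm_num) h13
  have h18 : 3 ≤ r := by omega
  have h19 : c ≤ 8 := by nlinarith
  rcases h.sgn with rfl | rfl <;> omega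

/-- Let G be a finite simple group whose Sylow 2-subgroups are dihedral, and suppose the centralizer of some involution of G is properly contained in a subgroup whose generalized Fitting subgroup equals its Fitting subgroup (a subgroup without components). Then G is isomorphic to the alternating group of degree 5 or 7, to PSL(3, 2), or to PSL(2, 9). -/
theorem result {G : Type*} [Group G] [Finite G] [IsSimpleGroup G] (S : Sylow 2 G) (m : ℕ) (eS : ↥(S : Subgroup G) ≃* DihedralGroup m)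
    (t : G) (ht : orderOf t = 2) (K : Subgroup G) (hlt : Subgroup.centralizer ({t} : Set G) < K)
    (hK : Cfsg.generalizedFittingSubgroup ↥K = Cfsg.fittingSubgroup ↥K) :
    Nonempty (G ≃* ↥(alternatingGroup (Fin 5))) ∨ Nonempty (G ≃* ↥(alternatingGroup (Fin 7))) ∨
      (∃ (F : Type) (_ : Field F) (_ : Fintype F), Fintype.card F = 2 ∧ Nonempty (G ≃* Matrix.ProjectiveSpecialLinearGroup (Fin 3) F)) ∨
      (∃ (F : Type) (_ : Field F) (_ : Fintype F), Fintype.card F = 9 ∧ Nonempty (G ≃* Matrix.ProjectiveSpecialLinearGroup (Fin 2) F)) := by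
  open H18 H22 Subgroup in
  have hn : ¬ IsMulCommutative G := fun h => hlt.not_ge fun g _ => mem_C1.2 (h.1.1 _ _)
  have hd := ds_of_dihedral S eS
  have hl : H17.lay K = ⊥ := (nil_of_le_fit (H := K) (le_sup_left.trans
    (gfit_eq'.symm.trans (congrArg (map K.subtype) hK)).le)).solv.eq_bot_of_le_der (H17.lay_perfect K).ge
  rcases gw_sylow hn S eS with ⟨F, _, _, h1, h2, ⟨e⟩⟩ | h
  · obtain ⟨ε, h⟩ := GWK.l2 (⊤ : Subgroup G) ⊤ F h1 h2 ⟨topEquiv.trans e⟩ Nml.rfl (by
      rw [top_inf_eq, coe_top, centralizer_univ]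
      exact Kn.center_eq (.inl ⟨F, _, _, h1, h2, ⟨e⟩⟩)) hd
    rcases key hd h ht hlt hl with h | h | h
    · exact .inl (H10.equiv_A5_of_simple ((Nat.card_congr e.toEquiv).trans (H10.card_PSL2_of 60 h (by norm_num))))
    · have := H10.PSL_isSimpleGroup (ι := Fin 3) (F := ZMod 2) (by simp)
      obtain ⟨f⟩ := S0495.result (G := Matrix.ProjectiveSpecialLinearGroup (Fin 3) (ZMod 2)) (by
        have := H10.card_PSL (F := ZMod 2) 3 (by norm_num)
        simpa [Fin.prod_univ_three] using this) h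
      exact .inr (.inr (.inl ⟨ZMod 2, _, inferInstance, by simp, ⟨e.trans f.symm⟩⟩))
    · exact .inr (.inr (.inr ⟨F, _, _, h, ⟨e⟩⟩))
  · exact .inr (.inl h)

end Cfsg.Agent.S3287
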