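import Cfsg.Statements.S3289
import Cfsg.Agent.H4.SE2
import Cfsg.Agent.H21.RED

set_option autoImplicit false
open Cfsg

namespace Cfsg.Agent.S3289

/-- Let T be a Sylow 2-subgroup of a finite group G and S a nontrivial subgroup of T strongly closed in T with respect to G. Suppose a proper subgroup H of G contains the centralizer of every non-identity element of S and the normalizer of the subgroup generated by the involutions of S. Then, writing X for the normal closure of S, the subgroup H ∩ X is strongly embedded in X, and S equals T ∩ X or the subgroup generated by the involutions of T ∩ X; if moreover S has 2-rank 1, then S = T ∩ X. -/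
theorem result {G : Type*} [Group G] [Finite G] (T : Sylow 2 G) (S : Subgroup G) (hS : S ≠ ⊥)
    (hsc : Cfsg.IsStronglyClosed S (T : Subgroup G)) (H : Subgroup G) (hH : H ≠ ⊤)
    (hC : ∀ s ∈ S, s ≠ 1 → Subgroup.centralizer ({s} : Set G) ≤ H)
    (hN : Subgroup.normalizer ((Cfsg.omegaOne 2 S : Subgroup G) : Set G) ≤ H) :
    Cfsg.IsStronglyEmbedded ((H ⊓ Subgroup.normalClosure (S : Set G)).subgroupOf (Subgroup.normalClosure (S : Set G))) ∧
      (S = (T : Subgroup G) ⊓ Subgroup.normalClosure (S : Set G) ∨ S = Cfsg.omegaOne 2 ((T : Subgroup G) ⊓ Subgroup.normalClosure (S : Set G))) ∧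
      (Cfsg.PRankLE 2 1 ↥S → S = (T : Subgroup G) ⊓ Subgroup.normalClosure (S : Set G)) := by
  exact H4.Gs.s3289 T hS hsc hH hC hN

end Cfsg.Agent.S3289
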