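import Cfsg.Statements.S3300
import Cfsg.Agent.H21.LX5

set_option autoImplicit false
open Cfsg

namespace Cfsg.Agent.S3300

open H18 H1 H21 Subgroup

/-- Let G be a finite group with no nontrivial 2-group quotient (O^2(G) = G), z an involution of G with H = C_G(z), and suppose E = O_2(H) is extraspecial with C_G(E) ≤ E and of order 2^(2n+1) with n ≥ 3. If H has a normal subgroup of index 2, then z is conjugate in G to an element of E other than z. -/
theorem result {G : Type*} [Group G] [Finite G] (hres : Cfsg.pResidual 2 G = ⊤) (z : G) (hz : orderOf z = 2)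
    (E : Subgroup G) (hE : E = (Cfsg.pCore 2 ↥(Subgroup.centralizer ({z} : Set G))).map (Subgroup.centralizer ({z} : Set G)).subtype)
    (hext : Cfsg.IsExtraspecial 2 ↥E) (hcent : Subgroup.centralizer (E : Set G) ≤ E) (n : ℕ) (hn : 3 ≤ n) (hcard : Nat.card ↥E = 2 ^ (2 * n + 1))
    (K : Subgroup G) (hKH : K ≤ Subgroup.centralizer ({z} : Set G))
    (hKn : ∀ h ∈ Subgroup.centralizer ({z} : Set G), K.map (MulAut.conj h).toMonoidHom = K)
    (hKi : K.relIndex (Subgroup.centralizer ({z} : Set G)) = 2) :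
    ∃ g : G, g * z * g⁻¹ ∈ E ∧ g * z * g⁻¹ ≠ z := by
  rw [pCore_map Nat.prime_two] at hE
  have h := lx_of_O2 hz hE.symm hext hcent
  have hN : C1(z) ≤ N(K) := fun x hx => mem_N_iff_cj.2 (hKn x hx)
  obtain ⟨φ, hφ⟩ := H26.exists_hom_zmod (p := 2) hN hKi
  by_contra hc
  push Not at hc
  have : C1(z) ≤ K := fun x hx => mem_of_parts (π := {2})
    ((hφ ⟨_, piPart_mem hx⟩).1 (h.tr_fused hres φ H26.zmod_pow_eq_one hn hcard hc _ piElt_piPart))
    (PiElt.mem_of_nml piElt_piPart (piPart_mem hx) ⟨hKH, hN⟩ (by rw [hKi]; exact (piNat_self Nat.prime_two).compl_compl))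
  rw [relIndex_eq_one_iff.2 this] at hKi
  omega

end Cfsg.Agent.S3300
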