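import Cfsg.Statements.S3301
import Cfsg.Agent.H21.LX5

set_option autoImplicit false
open Cfsg

namespace Cfsg.Agent.S3301

open H18 H1 H21 Subgroup

/-- Let G be a finite group with no nontrivial 2-group quotient (O^2(G) = G), z an involution of G with H = C_G(z), and suppose E = O_2(H) is extraspecial with C_G(E) ≤ E. Then the Sylow 2-subgroups of H/[H, H] are elementary abelian: every element of 2-power order of the abelianization of H has order at most 2. -/
theorem result {G : Type*} [Group G] [Finite G] (hres : Cfsg.pResidual 2 G = ⊤) (z : G) (hz : orderOf z = 2)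
    (E : Subgroup G) (hE : E = (Cfsg.pCore 2 ↥(Subgroup.centralizer ({z} : Set G))).map (Subgroup.centralizer ({z} : Set G)).subtype)
    (hext : Cfsg.IsExtraspecial 2 ↥E) (hcent : Subgroup.centralizer (E : Set G) ≤ E) :
    ∀ q : Abelianization ↥(Subgroup.centralizer ({z} : Set G)), (∃ k : ℕ, orderOf q = 2 ^ k) → q ^ 2 = 1 := by
  rw [pCore_map Nat.prime_two] at hE
  have h := lx_of_O2 hz hE.symm hext hcent
  have : Finite (Abelianization C1(z)) := Finite.of_surjective _ (QuotientGroup.mk'_surjective (commutator C1(z)))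
  have k1 : ∀ q : Abelianization C1(z), PiElt {2} q → ∃ r, PiElt {2} r ∧ q ^ 2 = r ^ 4 := fun q hq => by
    obtain ⟨x, rfl⟩ : ∃ x, Abelianization.of x = q := QuotientGroup.mk'_surjective (commutator C1(z)) q
    have e := mfun_piPart (π := {2}) (f := Abelianization.of) x.2
    rw [mfun_coe, piPart_eq_self hq, mfun_of_mem (piPart_mem x.2)] at e
    have := h.tr_sq hres ((QuotientGroup.mk' (powMonoidHom 4 : _ →* Abelianization C1(z)).range).comp Abelianization.of)
      (fun a => by
        obtain ⟨a, rfl⟩ := QuotientGroup.mk'_surjective _ a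
        rw [← map_pow]; exact (QuotientGroup.eq_one_iff _).2 ⟨a, rfl⟩) ⟨_, piPart_mem x.2⟩ piElt_piPart
    rw [MonoidHom.comp_apply, e, ← map_pow] at this
    obtain ⟨r, hr⟩ := (QuotientGroup.eq_one_iff _).1 this
    refine ⟨piPart {2} r, piElt_piPart, ?_⟩
    rw [← piPart_eq_self (hq.pow' 2), ← hr]
    have m : ∀ a b : Abelianization C1(z), piPart {2} (a * b) = piPart {2} a * piPart {2} b :=
      fun a b => piPart_mul (mul_comm a b)
    simp [pow_succ, m]
  have k2 : ∀ k : ℕ, ∀ q : Abelianization C1(z), PiElt {2} q → ∃ r, PiElt {2} r ∧ q ^ 2 = r ^ 2 ^ (k + 1) := fun k => by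
    induction k with
    | zero => exact fun q hq => ⟨q, hq, rfl⟩
    | succ k ih =>
      intro q hq
      obtain ⟨r, hr, e⟩ := ih q hq
      obtain ⟨s, hs, e'⟩ := k1 r hr
      exact ⟨s, hs, by rw [e, pow_succ' 2 k, pow_mul, e', ← pow_mul]; congr 1; ring⟩
  rintro q ⟨k, hk⟩
  obtain ⟨r, hr, e⟩ := k2 (Nat.card (Abelianization C1(z))) q (by rw [PiElt, hk]; exact piNat_pow_self Nat.prime_two k)
  obtain ⟨j, hj⟩ := PiNat.eq_pow hr (orderOf_pos r).ne'
  rw [e, ← orderOf_dvd_iff_pow_eq_one, hj]
  exact pow_dvd_pow 2 (Nat.le_succ_of_le (Nat.lt_two_pow_self.le.trans (hj ▸ orderOf_le_card)))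

end Cfsg.Agent.S3301
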