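import Cfsg.Statements.S3303
import Cfsg.Agent.H21.CycInt

set_option autoImplicit false
open Cfsg

namespace Cfsg.Agent.S3303

open H18 H1 H21 Subgroup

theorem aux {G : Type*} [Group G] [Finite G] (hs : Solv (⊤ : Subgroup G)) (h : CI (⊤ : Subgroup G) ⊤)
    (hO : O[{2}ᶜ]((⊤ : Subgroup G)) = ⊥) : ∃ P : Sylow 2 G, (P : Subgroup G).Normal := by
  obtain ⟨S, hS⟩ := exists_sylow Nat.prime_two (⊤ : Subgroup G)
  obtain ⟨P, rfl⟩ := hS.exists_sylow_top Nat.prime_two
  refine ⟨P, norm_top_iff.1 ?_⟩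
  by_cases hVc : Cyc O[{2}]((⊤ : Subgroup G))
  · have hF := fit_eq_pcore hO
    have h2 : PiGrp {2} (⊤ : Subgroup G) := piGrp_of_relIndex (A := ⊤ ⊓ C(F((⊤ : Subgroup G)))) inf_le_left
      (pcore_pi.of_le ((cent_sub_Fitting hs).trans hF.le)) (by
        rw [relIndex_inf_left, hF]
        intro q hq hd
        rcases hVc.prime_dvd_relIndex_C Nat.prime_two pcore_pi pcore_nml.norm hq hd with e | e
        · exact e
        · exact absurd (Nat.dvd_one.1 e) hq.one_lt.ne')
    rw [hS.eq_self h2]; exact le_N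
  · exact fun g _ => mem_N_iff_cj.2
      (h.tight hS (hS.cj_top g) hS.pcore_le (hS.cj_top g).pcore_le (Or.inl hVc))

/-- Let G be a finite solvable group in which the intersection of any two distinct Sylow 2-subgroups is cyclic. Then G/O(G) has a normal Sylow 2-subgroup, where O(G) is the largest normal subgroup of odd order. -/
theorem result {G : Type*} [Group G] [Finite G] (hs : Group.IsSolvable G)
    (hC : ∀ S T : Sylow 2 G, S ≠ T → IsCyclic ↥((S : Subgroup G) ⊓ (T : Subgroup G))) :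
    ∃ P : Sylow 2 (G ⧸ Cfsg.oddCore G), (P : Subgroup (G ⧸ Cfsg.oddCore G)).Normal := by
  have h : CI (⊤ : Subgroup G) ⊤ := fun S T hS hT hne => by
    obtain ⟨S, rfl⟩ := hS.exists_sylow_top Nat.prime_two
    obtain ⟨T, rfl⟩ := hT.exists_sylow_top Nat.prime_two
    exact ⟨hC S T fun e => hne (by rw [e]), le_top⟩
  have e : Cfsg.oddCore G = O[{2}ᶜ]((⊤ : Subgroup G)) := pPrimeCore_eq Nat.prime_two
  have h' := h.mim (f := topq (Cfsg.oddCore G)) le_rfl
  rw [inf_idem, mim_topq_top] at h'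
  have hk : PiGrp {2}ᶜ (⊤ ⊓ mker (topq (Cfsg.oddCore G))) := by
    rw [mker_topq, top_inf_eq, e]; exact pcore_pi
  have hO : O[{2}ᶜ]((⊤ : Subgroup (G ⧸ Cfsg.oddCore G))) = ⊥ := by
    rw [← mim_topq_top, ← mim_pcore le_rfl hk, mim_eq_bot_iff le_top, mker_topq, e]
  exact aux solv_of_solv h' hO

end Cfsg.Agent.S3303
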