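import Cfsg.Statements.S3305
import Cfsg.Agent.H21.CycInt

set_option autoImplicit false
open Cfsg

namespace Cfsg.Agent.S3305

open H18 H1 H21 Subgroup

/-- If any two distinct Sylow 2-subgroups of the finite group G intersect in a cyclic group, then the same holds in every quotient group G/H, H a normal subgroup of G. -/
theorem result {G : Type*} [Group G] [Finite G]
    (hC : ∀ S T : Sylow 2 G, S ≠ T → IsCyclic ↥((S : Subgroup G) ⊓ (T : Subgroup G))) (H : Subgroup G) [H.Normal] :
    ∀ S T : Sylow 2 (G ⧸ H), S ≠ T → IsCyclic ↥((S : Subgroup (G ⧸ H)) ⊓ (T : Subgroup (G ⧸ H))) := by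
  have h : CI (⊤ : Subgroup G) ⊤ := fun S T hS hT hne => by
    obtain ⟨S, rfl⟩ := hS.exists_sylow_top Nat.prime_two
    obtain ⟨T, rfl⟩ := hT.exists_sylow_top Nat.prime_two
    exact ⟨hC S T fun e => hne (by rw [e]), le_top⟩
  have h' := h.mim (f := topq H) le_rfl
  rw [inf_idem, mim_topq_top] at h'
  exact fun S T hne => (h' S T (hall_sylow_top Nat.prime_two S) (hall_sylow_top Nat.prime_two T)
    fun e => hne (Sylow.ext e)).1

end Cfsg.Agent.S3305
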