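import Cfsg.Statements.S3306
import Cfsg.Agent.H21.CycInt

set_option autoImplicit false
open Cfsg

namespace Cfsg.Agent.S3306

open H18 H1 H21 Subgroup

theorem aux {G : Type*} [Group G] [Finite G] (hns : ¬ Solv (⊤ : Subgroup G)) (h : CI (⊤ : Subgroup G) ⊤)
    (hO : O[{2}ᶜ]((⊤ : Subgroup G)) = ⊥) {N : Subgroup G} (hN : N ⊴ ⊤) (hs : Solv N) :
    Cyc N ∧ PiGrp {2} N ∧ N ≤ center G := by
  set V := O[{2}]((⊤ : Subgroup G)) with hV
  obtain ⟨S, hS⟩ := exists_sylow Nat.prime_two (⊤ : Subgroup G)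
  have hVc : Cyc V := by
    by_contra e
    have hN : ⊤ ≤ N(S) := fun g _ => mem_N_iff_cj.2
      (h.tight hS (hS.cj_top g) hS.pcore_le (hS.cj_top g).pcore_le (Or.inl e))
    exact hns (solv_of_quo hN (solv_of_two' (hS.quo_compl hN)) hS.pi.solv)
  have two : ∀ X : Subgroup G, X ≤ V → ∀ A, A ≤ N(X) → PiNat {2} (C(X).relIndex A) :=
    fun X hX A hA q hq hd => by
      rcases (hVc.of_le hX).prime_dvd_relIndex_C Nat.prime_two (pcore_pi.of_le hX) hA hq hd with e | e
      · exact e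
      · exact absurd (Nat.dvd_one.1 e) hq.one_lt.ne'
  have hFV : F(N) ≤ V := hN.fit_le_fit.trans (fit_eq_pcore hO).le
  have hN2 : PiGrp {2} N := piGrp_of_relIndex (A := N ⊓ C(F(N))) inf_le_left
    (pcore_pi.of_le ((cent_sub_Fitting hs).trans hFV))
    (by rw [relIndex_inf_left]; exact two _ hFV _ fit_nml.norm)
  have hNV : N ≤ V := le_pcore hN hN2
  refine ⟨hVc.of_le hNV, hN2, hNV.trans ?_⟩
  by_contra e
  refine hns (solv_of_CX (G0 := C(V)) ⟨fun S T hS hT hne => ⟨(h S T hS hT hne).1, ?_⟩,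
    hVc.der_cent pcore_nml.norm, fun x _ hx => ?_, fun e' => e fun v hv => ?_⟩)
  · exact cent_mono (h S T hS hT hne).1.abel le_rfl (le_inf hS.pcore_le hT.pcore_le)
  · exact hx.mem_of_nml (mem_top x) ⟨le_top, norm_C pcore_nml.norm⟩
      (two V le_rfl ⊤ pcore_nml.norm).compl_compl
  · exact mem_center_iff.2 fun g => (mem_C.1 (e' (mem_top g)) v hv).symm

/-- Let G be a finite nonsolvable group in which any two distinct Sylow 2-subgroups intersect in a cyclic group, and let N be a solvable normal subgroup of G. Then the image of N in G/O(G) is a cyclic 2-group contained in the centre of G/O(G) (O(G) the largest normal subgroup of odd order). In other words the solvable radical of G is V·O(G) with V a cyclic 2-group central modulo O(G). -/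
theorem result {G : Type*} [Group G] [Finite G] (hns : ¬ Group.IsSolvable G)
    (hC : ∀ S T : Sylow 2 G, S ≠ T → IsCyclic ↥((S : Subgroup G) ⊓ (T : Subgroup G)))
    (N : Subgroup G) [N.Normal] (hN : Group.IsSolvable ↥N) :
    IsCyclic ↥(N.map (QuotientGroup.mk' (Cfsg.oddCore G))) ∧ IsPGroup 2 ↥(N.map (QuotientGroup.mk' (Cfsg.oddCore G))) ∧
      N.map (QuotientGroup.mk' (Cfsg.oddCore G)) ≤ Subgroup.center (G ⧸ Cfsg.oddCore G) := by
  have h : CI (⊤ : Subgroup G) ⊤ := fun S T hS hT hne => by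
    obtain ⟨S, rfl⟩ := hS.exists_sylow_top Nat.prime_two
    obtain ⟨T, rfl⟩ := hT.exists_sylow_top Nat.prime_two
    exact ⟨hC S T fun e => hne (by rw [e]), le_top⟩
  have e : Cfsg.oddCore G = O[{2}ᶜ]((⊤ : Subgroup G)) := pPrimeCore_eq Nat.prime_two
  have h' := h.mim (f := topq (Cfsg.oddCore G)) le_rfl
  rw [inf_idem, mim_topq_top] at h'
  have hk : PiGrp {2}ᶜ (⊤ ⊓ mker (topq (Cfsg.oddCore G))) := by
    rw [mker_topq, top_inf_eq, e]; exact pcore_pi
  have hO : O[{2}ᶜ]((⊤ : Subgroup (G ⧸ Cfsg.oddCore G))) = ⊥ := by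
    rw [← mim_topq_top, ← mim_pcore le_rfl hk, mim_eq_bot_iff le_top, mker_topq, e]
  have hns' : ¬ Solv (⊤ : Subgroup (G ⧸ Cfsg.oddCore G)) := fun s => hns (solv_top_iff.1
    (solv_of_mim (f := topq (Cfsg.oddCore G)) le_rfl (by rwa [mim_topq_top]) (solv_of_two' hk)))
  have hN' : mim (topq (Cfsg.oddCore G)) N ⊴ ⊤ := mim_topq_top (Cfsg.oddCore G) ▸ nml_top.mim
  obtain ⟨a, b, c⟩ := aux hns' h' hO hN' (Solv.mim hN)
  rw [mim_topq] at a b c
  exact ⟨a, b.isPGroup, c⟩

end Cfsg.Agent.S3306
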