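import Cfsg.Statements.S3307
import Cfsg.Agent.H22.GWg
import Cfsg.Agent.H9.MaxClass

set_option autoImplicit false
open Cfsg

namespace Cfsg.Agent.S3307

/-- Let G be a finite nonsolvable group whose Sylow 2-subgroups are generalized quaternion and in which any two distinct Sylow 2-subgroups intersect in a cyclic group. Then the Sylow 2-subgroups are quaternion of order 8, and G has a normal subgroup G₁ of odd index containing O(G) (the largest normal subgroup of odd order) with G₁/O(G) isomorphic to SL(2,q) for some prime power q > 3 with q ≡ 3 or 5 mod 8. -/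
theorem result {G : Type*} [Group G] [Finite G] (hns : ¬ Group.IsSolvable G)
    (hQ : ∀ S : Sylow 2 G, ∃ n : ℕ, Nonempty (↥(S : Subgroup G) ≃* QuaternionGroup (2 ^ (n + 1))))
    (hC : ∀ S T : Sylow 2 G, S ≠ T → IsCyclic ↥((S : Subgroup G) ⊓ (T : Subgroup G))) :
    (∀ S : Sylow 2 G, Nonempty (↥(S : Subgroup G) ≃* QuaternionGroup 2)) ∧
    ∃ (G₁ : Subgroup G) (_ : G₁.Normal) (_ : ((Cfsg.oddCore G).subgroupOf G₁).Normal),
      Odd G₁.index ∧ Cfsg.oddCore G ≤ G₁ ∧
      ∃ (F : Type) (_ : Field F) (_ : Fintype F), (Fintype.card F % 8 = 3 ∨ Fintype.card F % 8 = 5) ∧ 3 < Fintype.card F ∧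
        Nonempty (↥G₁ ⧸ (Cfsg.oddCore G).subgroupOf G₁ ≃* Matrix.SpecialLinearGroup (Fin 2) F) := by
  open H18 H22 Subgroup in
  have q8 : ∀ S : Sylow 2 G, Nonempty (S ≃* QuaternionGroup 2) := fun S => by
    obtain ⟨_ | n, ⟨e⟩⟩ := hQ S
    · exact ⟨e⟩
    obtain ⟨x, y, -, h⟩ := H9.exists_mc_of_quaternion e
    refine (hns (solv_top_iff.1 (solv_of_nilp ((hasNormalPComplement_top_iff' Nat.prime_two).1
      ((H3.frobenius_iff S).2 fun Q hQ g hg co => ?_))))).elim
    by_cases c : Cyc Q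
    · exact zpowers_le.1 (cyc_cent c ((hall_sylow_top Nat.prime_two S).pi.of_le hQ)
        (piGrp_zpowers.2 (odd_iff.2 (Nat.coprime_two_right.1 co))) (zpowers_le.2 hg))
    have e : g • S = S := by_contra fun j => c (Cyc.of_le (hC _ _ j) (le_inf (fun a ha => ?_) hQ))
    · exact fun a ha => (h.commute_of_odd' (.inl n.succ_pos) (Sylow.smul_eq_iff_mem_normalizer.1 e)
        (Nat.coprime_two_right.1 co) (hQ ha)).symm
    exact ⟨g⁻¹ * a * g, hQ (conj_mem_N' hg ha), by simp [mul_assoc]⟩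
  refine ⟨q8, ?_⟩
  obtain ⟨S⟩ : Nonempty (Sylow 2 G) := inferInstance
  obtain ⟨e⟩ := q8 S
  obtain ⟨x, y, h⟩ := H9.exists_qData two_pos e
  have hS := hall_sylow_top Nat.prime_two S
  have n16 : ¬ 16 ∣ Nat.card G := fun j => by
    have := hS.dvd_of_piNat (piNat_pow_self Nat.prime_two 4) (by rwa [card_top])
    rw [h.card_eq] at this; omega
  obtain ⟨K, _, h1, h2⟩ := rank1_nsolv (G := G) (fun s _ t _ a b c => by
    obtain ⟨P, hP, h3⟩ := exists_sylow_le Nat.prime_two (V4_pi (sq1 a) (sq1 b) c) le_top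
    obtain ⟨P, rfl⟩ := hP.exists_sylow_top Nat.prime_two
    obtain ⟨x, y, h⟩ := H9.exists_qData two_pos (q8 P).some
    rw [h.eq_u (h3 left_mem_V4) a, h.eq_u (h3 right_mem_V4) b]) hns
  have d := card_quotient_dvd_card ((oddCore G).subgroupOf K)
  rw [← K.card_mul_index] at n16
  rcases h2 with ⟨F, _, _, h2, h3, ⟨f⟩⟩ | ⟨h2, ⟨f⟩, -⟩
  · rw [Nat.card_congr f.toEquiv, H10.card_SL2] at d
    obtain ⟨k, hk⟩ := h2
    have h8 : 8 ∣ Fintype.card F * (Fintype.card F - 1) * (Fintype.card F + 1) := by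
      obtain ⟨m, hm⟩ := Nat.even_mul_succ_self k
      exact ⟨(2 * k + 1) * m, by rw [hk, Nat.add_sub_cancel]; nlinarith⟩
    refine ⟨K, ‹_›, inferInstance, Nat.not_even_iff_odd.1 fun j => n16 (Nat.mul_dvd_mul (h8.trans d) j.two_dvd), h1,
      F, _, _, by_contra fun j => n16 (Dvd.dvd.mul_right (.trans ?_ d) _), h3, ⟨f⟩⟩
    rw [mul_assoc]
    refine Dvd.dvd.mul_left ?_ _
    rcases (by omega : Fintype.card F % 8 = 1 ∨ Fintype.card F % 8 = 7) with j | j
    exacts [Nat.mul_dvd_mul (a := 8) (c := 2) (by omega) (by omega), Nat.mul_dvd_mul (a := 2) (c := 8) (by omega) (by omega)]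
  rw [card_eq_card_quotient_mul_card_subgroup (center _), h2, Nat.card_congr f.toEquiv, nat_card_alternatingGroup] at d
  exact (n16 (Dvd.dvd.mul_right (.trans (by simp [Nat.factorial]) d) _)).elim

end Cfsg.Agent.S3307
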