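import Cfsg.Statements.S3308
import Cfsg.Agent.H4.Cor3
import Cfsg.Agent.H21.RED

set_option autoImplicit false
open Cfsg

namespace Cfsg.Agent.S3308

/-- Let G be a finite nonsolvable group in which any two distinct Sylow 2-subgroups intersect in a cyclic group, and let R be its solvable radical (the largest solvable normal subgroup). Then G has a normal subgroup G₁ of odd index containing R such that G₁/R is a non-abelian simple group isomorphic to PSL(2, 2^n) (n ≥ 2), a Suzuki group over the field with 2^(2m+1) elements (m ≥ 1), PSU(3, 2^n) (n ≥ 2), PSL(2, q) with q ≡ 3 or 5 mod 8 and q > 5, or simple of order 175560 (the order of the first Janko group). -/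
theorem result {G : Type*} [Group G] [Finite G] (hns : ¬ Group.IsSolvable G)
    (hC : ∀ S T : Sylow 2 G, S ≠ T → IsCyclic ↥((S : Subgroup G) ⊓ (T : Subgroup G)))
    (R : Subgroup G) [R.Normal] (hR : Group.IsSolvable ↥R) (hRmax : ∀ N : Subgroup G, N.Normal → Group.IsSolvable ↥N → N ≤ R) :
    ∃ (G₁ : Subgroup G) (_ : G₁.Normal) (_ : (R.subgroupOf G₁).Normal), Odd G₁.index ∧ R ≤ G₁ ∧
      IsSimpleGroup (↥G₁ ⧸ R.subgroupOf G₁) ∧ ¬ IsMulCommutative (↥G₁ ⧸ R.subgroupOf G₁) ∧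
      ((∃ (n : ℕ) (F : Type) (_ : Field F) (_ : Fintype F), 2 ≤ n ∧ Fintype.card F = 2 ^ n ∧
          Nonempty (↥G₁ ⧸ R.subgroupOf G₁ ≃* Matrix.ProjectiveSpecialLinearGroup (Fin 2) F)) ∨
      (∃ (m : ℕ) (F : Type) (_ : Field F) (_ : Fintype F), 1 ≤ m ∧ Fintype.card F = 2 ^ (2 * m + 1) ∧
          Nonempty (↥G₁ ⧸ R.subgroupOf G₁ ≃* ↥(Cfsg.Lie.Sz F (2 ^ (m + 1))))) ∨
      (∃ (n : ℕ) (F : Type) (_ : Field F) (_ : Fintype F), 2 ≤ n ∧ Fintype.card F = 4 ^ n ∧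
          Nonempty (↥G₁ ⧸ R.subgroupOf G₁ ≃* Cfsg.PSU 3 F (2 ^ n))) ∨
      (∃ (F : Type) (_ : Field F) (_ : Fintype F), (Fintype.card F % 8 = 3 ∨ Fintype.card F % 8 = 5) ∧ 5 < Fintype.card F ∧
          Nonempty (↥G₁ ⧸ R.subgroupOf G₁ ≃* Matrix.ProjectiveSpecialLinearGroup (Fin 2) F)) ∨
      Cfsg.IsJ1 (↥G₁ ⧸ R.subgroupOf G₁)) := by
    exact H4.Gs.s3308 hns hC R hR hRmax

end Cfsg.Agent.S3308
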