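import Cfsg.Statements.S3329
import Cfsg.Agent.H25.U3
-- import your own Cfsg.Agent.* helpers here

set_option autoImplicit false
open Cfsg

namespace Cfsg.Agent.S3329

/-- A 3-local characterization of the alternating group of degree 8. Let G be a finite group whose Sylow 3-subgroup D is elementary abelian of order 9, generated by y and z, and suppose: (i) C_G(D) = D and N_G(D)/D is dihedral of order 8; (ii) D is normal in C_G(y), C_G(y) has order 18, D is normal in N_G(⟨y⟩) and N_G(⟨y⟩)/D is elementary abelian of order 4; (iii) C_G(z) is isomorphic to the direct product of a cyclic group of order 3 and the alternating group of degree 5, and N_G(⟨z⟩) is isomorphic to the subgroup of index 2 of Sym(3) × Sym(5) consisting of the pairs of permutations whose signs agree. Then G is isomorphic to the alternating group of degree 8. -/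
theorem result {G : Type*} [Group G] [Finite G]
    (P : Sylow 3 G) (D : Subgroup G) (hDP : D = P) (y z : G) (hgen : Subgroup.closure {y, z} = D)
    (hcomm : IsMulCommutative D) (hcard : Nat.card D = 9) (hexp : ∀ a ∈ D, a ^ 3 = 1)
    (hC : Subgroup.centralizer (D : Set G) = D)
    (eN : Subgroup.normalizer (D : Set G) ⧸ D.subgroupOf (Subgroup.normalizer (D : Set G)) ≃* DihedralGroup 4)
    (hyn : (D.subgroupOf (Subgroup.centralizer ({y} : Set G))).Normal)
    (hycard : Nat.card (Subgroup.centralizer ({y} : Set G)) = 18)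
    (Ny : Subgroup G) (hNy : Ny = Subgroup.normalizer (Subgroup.zpowers y : Set G))
    (hyN : D ≤ Ny) [hyNn : (D.subgroupOf Ny).Normal]
    (hyNcard : Nat.card (Ny ⧸ D.subgroupOf Ny) = 4) (hyNexp : ∀ g : Ny ⧸ D.subgroupOf Ny, g ^ 2 = 1)
    (eC : Subgroup.centralizer ({z} : Set G) ≃* Multiplicative (ZMod 3) × alternatingGroup (Fin 5))
    (eL : Subgroup.normalizer (Subgroup.zpowers z : Set G) ≃*
      (((Equiv.Perm.sign).comp (MonoidHom.fst (Equiv.Perm (Fin 3)) (Equiv.Perm (Fin 5)))) *
        ((Equiv.Perm.sign).comp (MonoidHom.snd (Equiv.Perm (Fin 3)) (Equiv.Perm (Fin 5))))).ker) :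
    Nonempty (G ≃* alternatingGroup (Fin 8)) := by
  refine H25.K.a8_main ⟨H18.nml_N, hcard, H18.abel_of_comm hcomm, fun a h => (pow_three' a).symm.trans (hexp a h),
    fun g _ h => hC.le h⟩ hgen ?_ hycard ?_ eL fun h => P.not_dvd_index ?_
  · rw [Subgroup.card_eq_card_quotient_mul_card_subgroup (D.subgroupOf _), Nat.card_congr eN.toEquiv, DihedralGroup.nat_card,
      H18.card_subgroupOf H18.le_N, hcard]
  · rw [Nat.card_congr eC.toEquiv, Nat.card_prod, H2.T3.card_a5]; simp
  · rw [← D.card_mul_index, hcard, hDP] at h; omega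

end Cfsg.Agent.S3329
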