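import Cfsg.Statements.S3332
import Cfsg.Agent.H17.Dich
import Cfsg.Agent.S1221

set_option autoImplicit false
open Cfsg

namespace Cfsg.Agent.S3332

open H17 H18 Subgroup

/-- Let G be a finite group of 2-rank at least 4 with O_{2'}(G) = 1 whose Sylow 2-subgroup S has a normal abelian subgroup of rank at least 3 that is its own centralizer in S. If the centralizer of every involution of G is solvable, then O_{2'}(C_G(t)) = 1 for every involution t of G. -/
theorem result {G : Type*} [Group G] [Finite G]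
    (hrank : ¬ Cfsg.PRankLE 2 3 G) (hO : Cfsg.oddCore G = ⊥) (S : Sylow 2 G)
    (A : Subgroup G) (hAS : A ≤ S) (hAn : (A.subgroupOf S).Normal) (hAc : IsMulCommutative A)
    (hAself : (S : Subgroup G) ⊓ Subgroup.centralizer (A : Set G) = A) (hA3 : ¬ Cfsg.PRankLE 2 2 A)
    (hsol : ∀ t : G, orderOf t = 2 → Group.IsSolvable (Subgroup.centralizer ({t} : Set G))) :
    ∀ t : G, orderOf t = 2 → Cfsg.oddCore (Subgroup.centralizer ({t} : Set G)) = ⊥ := by
  have c : ∀ t : G, orderOf t = 2 → pLay 2 C1(t) = ⊥ := fun t ht => pLay_C1_of_solv (hsol t ht)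
  have hS := hall_sylow_top Nat.prime_two S
  have n : A ⊴ (S : Subgroup G) := ⟨hAS, (normal_subgroupOf_iff_le_normalizer hAS).1 hAn⟩
  have ab : Abel A := abel_of_comm hAc
  have c3 : 2 ^ 3 ≤ Nat.card Ω[2](A) := by
    rw [ab.card_omega Nat.prime_two]
    exact Nat.pow_le_pow_right two_pos ((lt_prank_iff Nat.prime_two).2 hA3)
  obtain ⟨M, W, h⟩ := exists_DS c hS ⟨_, bot_le, n.omega.le, ab.omega_elem, c3⟩
  intro t ht
  exact (map_eq_bot_iff_of_injective _ (subtype_injective _)).1 (h.eq_bot (fun t ht t2 =>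
    (big_of_nml_elem n.omega ab.omega_elem c3 ht t2).mono le_rfl h.le) hO Cfsg.Agent.S1221.result ht)

end Cfsg.Agent.S3332
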