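import Cfsg.Statements.S3333
import Cfsg.Agent.H6.Tri6

set_option autoImplicit false
open Cfsg


namespace Cfsg.Agent.S3333

open Subgroup

/-- Let G be a finite group with a Sylow 3-subgroup S of order 9 that is its own centralizer, with N_G(S)/S dihedral of order 8, and such that C_G(x) ≤ N_G(S) for every non-identity x in S. Then S is normal in G or G is isomorphic to the symmetric group of degree 6. -/
theorem result {G : Type*} [Group G] [Finite G]
    (P : Sylow 3 G) (S : Subgroup G) (hSP : S = P) (hcard : Nat.card S = 9)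
    (hC : Subgroup.centralizer (S : Set G) = S)
    (eN : Subgroup.normalizer (S : Set G) ⧸ S.subgroupOf (Subgroup.normalizer (S : Set G)) ≃* DihedralGroup 4)
    (hcent : ∀ x ∈ S, x ≠ 1 → Subgroup.centralizer ({x} : Set G) ≤ Subgroup.normalizer (S : Set G)) :
    S.Normal ∨ Nonempty (G ≃* Equiv.Perm (Fin 6)) := by
    subst hSP
    have c72 : Nat.card (normalizer ((P : Subgroup G) : Set G)) = 72 := by
      rw [card_eq_card_quotient_mul_card_subgroup ((P : Subgroup G).subgroupOf _), Nat.card_congr eN.toEquiv,
        DihedralGroup.nat_card, Nat.card_congr (subgroupOfEquivOfLe le_normalizer).toEquiv, hcard]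
    have := Fact.mk Nat.prime_two
    obtain ⟨Q, hQ⟩ := Sylow.exists_subgroup_card_pow_prime (G := normalizer ((P : Subgroup G) : Set G)) 2 (n := 3)
      (by rw [c72]; norm_num)
    let g := eN.toMonoidHom.comp ((QuotientGroup.mk' _).comp Q.subtype)
    have i : Function.Injective g := eN.injective.comp ((injective_iff_map_eq_one
      ((QuotientGroup.mk' _).comp Q.subtype)).2 fun x hx => by
        have o1 : orderOf x.1.1 ∣ 9 := hcard ▸ (P : Subgroup G).orderOf_dvd_natCard ((QuotientGroup.eq_one_iff x.1).1 hx)
        have o2 := hQ ▸ orderOf_dvd_natCard x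
        rw [Subgroup.orderOf_coe, Subgroup.orderOf_coe] at o1
        exact orderOf_eq_one_iff.1 (Nat.eq_one_of_dvd_coprimes (by norm_num) o1 o2))
    let e := MulEquiv.ofBijective g ((Nat.bijective_iff_injective_and_card g).2 ⟨i, by rw [hQ, DihedralGroup.nat_card]; rfl⟩)
    exact H6.d8_main P hcard hC hcent c72 (Q.subtype.comp e.symm.toMonoidHom) (Q.subtype_injective.comp e.symm.injective)

end Cfsg.Agent.S3333
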