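import Cfsg.Statements.S3341
import Cfsg.Agent.H6.Tri2

set_option autoImplicit false
open Cfsg


namespace Cfsg.Agent.S3341

/-- Let G be a finite simple group whose Sylow 3-subgroup S is elementary abelian of order 9, such that G has more than one conjugacy class of elements of order 3 and C_G(s) = S for every non-identity s in S. Then G is isomorphic to the alternating group of degree 6. -/
theorem result {G : Type*} [Group G] [Finite G] [IsSimpleGroup G]
    (P : Sylow 3 G) (S : Subgroup G) (hSP : S = P) (hcomm : IsMulCommutative S) (hexp : ∀ a ∈ S, a ^ 3 = 1)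
    (hcard : Nat.card S = 9)
    (hclasses : ∃ a b : G, orderOf a = 3 ∧ orderOf b = 3 ∧ ∀ g : G, g * a * g⁻¹ ≠ b)
    (hcent : ∀ s ∈ S, s ≠ 1 → Subgroup.centralizer ({s} : Set G) = S) :
    Nonempty (G ≃* alternatingGroup (Fin 6)) := by
  ---
    subst hSP
    obtain ⟨a, b, ha, hb, ab⟩ := hclasses
    have k : ∀ a : G, orderOf a = 3 → ∃ c ∈ P, c ≠ 1 ∧ IsConj a c := fun a ha => by
      obtain ⟨Q, hQ⟩ := (IsPGroup.of_card (p := 3) (n := 1) (G := Subgroup.zpowers a)
        (by rw [Nat.card_zpowers, ha, pow_one])).exists_le_sylow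
      obtain ⟨g, rfl⟩ := MulAction.exists_smul_eq G Q P
      refine ⟨g * a * g⁻¹, Subgroup.smul_mem_pointwise_smul _ (MulAut.conj g) _ (hQ (Subgroup.mem_zpowers a)), fun e => ?_,
        isConj_iff.2 ⟨g, rfl⟩⟩
      rw [conj_eq_one_iff.1 e, orderOf_one] at ha; omega
    obtain ⟨c, hc, c1, ac⟩ := k a ha
    obtain ⟨d, hd, d1, bd⟩ := k b hb
    refine (H6.cc9 P hcard hexp hcent hc hd c1 d1 fun e => ?_).resolve_left fun n => ?_
    · obtain ⟨g, hg⟩ := isConj_iff.1 ((ac.trans e).trans bd.symm)
      exact ab g hg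
    rcases n.eq_bot_or_eq_top with e | e
    · rw [e, Subgroup.card_bot] at hcard; omega
    · have : ∀ g : G, Subgroup.zpowers c ≤ Subgroup.centralizer {g} := fun g => Subgroup.zpowers_le.2
        (Subgroup.mem_centralizer_singleton_iff.2 (Subgroup.mem_centralizer_singleton_iff.1
          ((hcent c hc c1).ge (e.ge trivial))).symm)
      rcases (Subgroup.Normal.mk fun x hx g => by
        rwa [← Subgroup.mem_centralizer_singleton_iff.1 (this g hx), mul_inv_cancel_right] :
          (Subgroup.zpowers c).Normal).eq_bot_or_eq_top with f | f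
      · exact c1 (Subgroup.zpowers_eq_bot.1 f)
      · have := orderOf_dvd_of_pow_eq_one (hexp c hc)
        rw [← Nat.card_zpowers, f, ← e, hcard] at this; omega

end Cfsg.Agent.S3341
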