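import Cfsg.Statements.S3344
import Cfsg.Agent.H25.K6
-- import your own Cfsg.Agent.* helpers here

set_option autoImplicit false
open Cfsg

namespace Cfsg.Agent.S3344

/-- Let G be a finite group with an involution s, L = C_G(s) and Q = O₂(L). Suppose Q is extraspecial of order 32, L/Q is isomorphic to Sym(3), C_Q(X) = ⟨s⟩ for a Sylow 3-subgroup X of L, and s is not weakly closed in Q with respect to G (some conjugate of s other than s lies in Q). Then either G has an elementary abelian normal subgroup of order 8 with quotient isomorphic to PSL(3,2), or G is isomorphic to the alternating group of degree 8 or 9, or to the Mathieu group M₁₂. -/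
theorem result {G : Type*} [Group G] [Finite G]
    (s : G) (hs : orderOf s = 2) (L : Subgroup G) (hL : L = Subgroup.centralizer ({s} : Set G))
    (Q : Subgroup G) (hQ : Q = (Cfsg.pCore 2 L).map L.subtype)
    (hQex : Cfsg.IsExtraspecial 2 Q) (hQcard : Nat.card Q = 32)
    (e : L ⧸ Cfsg.pCore 2 L ≃* Equiv.Perm (Fin 3))
    (X : Sylow 3 L) (hCQX : Q ⊓ Subgroup.centralizer (((X : Subgroup L).map L.subtype : Subgroup G) : Set G) = Subgroup.zpowers s)
    (hnwc : ∃ g : G, g * s * g⁻¹ ∈ Q ∧ g * s * g⁻¹ ≠ s) :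
    (∃ (N : Subgroup G) (hN : N.Normal), IsMulCommutative N ∧ (∀ n ∈ N, n ^ 2 = 1) ∧ Nat.card N = 8 ∧
        Nonempty (G ⧸ N ≃* Matrix.ProjectiveSpecialLinearGroup (Fin 3) (ZMod 2))) ∨
    Nonempty (G ≃* alternatingGroup (Fin 8)) ∨ Nonempty (G ≃* alternatingGroup (Fin 9)) ∨ Cfsg.Spor.IsoM12 G := by
  subst hL hQ
  obtain ⟨x, t, h⟩ := H25.K.x3_of hs (Cfsg.pCore 2 _) hQex hQcard e X hCQX
  obtain ⟨g, h1, h2⟩ := hnwc
  obtain ⟨a, b, p, q, t, J | J, ha⟩ := h.fused h1 (H25.K.isC rfl) h2
  · exact (J.main ha).imp_right (Or.imp_right .inl)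
  · exact (J.main ha).imp_right fun h => .inr (.inr h)

end Cfsg.Agent.S3344
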