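import Cfsg.Statements.S3348
import Cfsg.Agent.H25.T1
-- import your own Cfsg.Agent.* helpers here

set_option autoImplicit false
open Cfsg

namespace Cfsg.Agent.S3348

/-- Let G be a finite group generated by isomorphic subgroups A and B such that C = A ∩ B contains a Sylow 3-subgroup of each of A and B and no non-trivial subgroup of C is normalized by both A and B. Suppose A/O₃(A) and B/O₃(B) are isomorphic to GL(2,3), that O₃(A) and O₃(B) are elementary abelian of order 9 and self-centralizing in A and B respectively (natural modules), and that for a Sylow 3-subgroup S of C the normalizer N_G(Z(S)) lies in A ∩ B. Then G is isomorphic to the Mathieu group M₁₂ or to PSL(3,3). -/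
theorem result {G : Type*} [Group G] [Finite G]
    (A B : Subgroup G) (eAB : Nonempty (A ≃* B)) (hgen : A ⊔ B = ⊤)
    (hSylA : ¬ 3 ∣ ((A ⊓ B).subgroupOf A).index) (hSylB : ¬ 3 ∣ ((A ⊓ B).subgroupOf B).index)
    (hcore : ∀ N : Subgroup G, N ≤ A ⊓ B → (∀ a ∈ A, N.map (MulAut.conj a).toMonoidHom = N) →
      (∀ b ∈ B, N.map (MulAut.conj b).toMonoidHom = N) → N = ⊥)
    (eA : A ⧸ Cfsg.pCore 3 A ≃* GL (Fin 2) (ZMod 3)) (eB : B ⧸ Cfsg.pCore 3 B ≃* GL (Fin 2) (ZMod 3))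
    (hOA : IsMulCommutative (Cfsg.pCore 3 A) ∧ (∀ x ∈ Cfsg.pCore 3 A, x ^ 3 = 1) ∧ Nat.card (Cfsg.pCore 3 A) = 9 ∧
      Subgroup.centralizer ((Cfsg.pCore 3 A : Subgroup A) : Set A) = Cfsg.pCore 3 A)
    (hOB : IsMulCommutative (Cfsg.pCore 3 B) ∧ (∀ x ∈ Cfsg.pCore 3 B, x ^ 3 = 1) ∧ Nat.card (Cfsg.pCore 3 B) = 9 ∧
      Subgroup.centralizer ((Cfsg.pCore 3 B : Subgroup B) : Set B) = Cfsg.pCore 3 B)
    (S : Sylow 3 ↥(A ⊓ B)) (Z : Subgroup G)
    (hZ : Z = ((S : Subgroup ↥(A ⊓ B)) ⊓ Subgroup.centralizer ((S : Subgroup ↥(A ⊓ B)) : Set ↥(A ⊓ B))).map (A ⊓ B).subtype)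
    (hNZ : Subgroup.normalizer (Z : Set G) ≤ A ⊓ B) :
    Cfsg.Spor.IsoM12 G ∨ Nonempty (G ≃* Matrix.ProjectiveSpecialLinearGroup (Fin 3) (ZMod 3)) := by
  obtain ⟨E, hA⟩ := H25.K.e9_of eA hOA
  obtain ⟨E', hB⟩ := H25.K.e9_of eB hOB
  have p := fun {A U : Subgroup G} (E : H25.K.E9 A U) => H18.piGrp_of_card_pow Nat.prime_three (n := 2) E.card
  have hS := H18.hall_map_sylow Nat.prime_three S
  have h1 := (H18.Hall.mk (hS.le.trans inf_le_left) hS.pi (by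
    rw [← Subgroup.relIndex_mul_relIndex _ _ _ hS.le inf_le_left]
    exact hS.idx.mul ((H18.piNat_compl_iff Nat.prime_three).2 hSylA))).nml_le E.nml (p E)
  have h2 := (H18.Hall.mk (hS.le.trans inf_le_right) hS.pi (by
    rw [← Subgroup.relIndex_mul_relIndex _ _ _ hS.le inf_le_right]
    exact hS.idx.mul ((H18.piNat_compl_iff Nat.prime_three).2 hSylB))).nml_le E'.nml (p E')
  have ne : (Cfsg.pCore 3 A).map A.subtype ≠ (Cfsg.pCore 3 B).map B.subtype := fun e => by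
    have := E.card
    rw [hcore _ (h1.trans hS.le) (fun a ha => H18.cj_eq_self (E.nml.norm ha))
      (fun a ha => H18.cj_eq_self (e ▸ E'.nml.norm ha)), Subgroup.card_bot] at this
    omega
  have hZ' : Z = (S : Subgroup ↥(A ⊓ B)).map (A ⊓ B).subtype ⊓
      Subgroup.centralizer ((S : Subgroup ↥(A ⊓ B)).map (A ⊓ B).subtype : Set G) := by
    rw [hZ]
    ext g
    constructor
    · rintro ⟨g, hg, rfl⟩
      exact ⟨⟨g, hg.1, rfl⟩, by rintro _ ⟨k, hk, rfl⟩; exact congrArg Subtype.val (hg.2 k hk)⟩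
    · rintro ⟨⟨g, hg, rfl⟩, h⟩
      exact ⟨g, ⟨hg, fun k hk => Subtype.ext (h k ⟨k, hk, rfl⟩)⟩, rfl⟩
  have l : Z ≤ (Cfsg.pCore 3 A).map A.subtype ⊓ (Cfsg.pCore 3 B).map B.subtype := hZ' ▸ fun g hg =>
    ⟨E.cen g (hS.le hg.1).1 (H18.C_anti h1 hg.2), E'.cen g (hS.le hg.1).2 (H18.C_anti h2 hg.2)⟩
  have z1 : Z ≠ ⊥ := hZ' ▸ hS.pi.nil.Z_ne_bot fun e => by
    have := E.card
    rw [le_bot_iff.1 (h1.trans e.le), Subgroup.card_bot] at this
    omega
  obtain ⟨z, hz, z1'⟩ := H18.exists_mem_ne_one' z1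
  refine H25.K.am_main E E' hA hB hgen ((h1.trans hS.le).trans inf_le_right) ((h2.trans hS.le).trans inf_le_left) ne
    (fun e => z1 (le_bot_iff.1 (e ▸ l))) (le_antisymm l (fun g hg => ?_) ▸ hNZ)
  by_contra h
  exact ne (H18.eq_of_card_eq (E.gen hg.1 (l hz).1 z1' (fun e => h (Subgroup.zpowers_le.2 hz e)) ▸
    H25.K.kl_le hg.2 (l hz).2) (E.card.trans E'.card.symm))

end Cfsg.Agent.S3348
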