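import Cfsg.Statements.S3376
import Cfsg.Agent.H3.BG4b
import Cfsg.Agent.H18.Prod

set_option autoImplicit false
open Cfsg

namespace Cfsg.Agent.S3376

open H18 Subgroup Equiv

theorem ct {σ : Perm (Fin 9)} (h : σ ^ 3 = 1) (f : ∀ x, σ x ≠ x) : σ.cycleType = Multiset.replicate 3 3 := by
  have e := Perm.cycleType_of_pow_prime_eq_one (p := 3) h
  have s := σ.sum_cycleType
  rw [e, Multiset.sum_replicate, Finset.eq_univ_iff_forall.2 fun x => Perm.mem_support.2 (f x)] at s
  rw [e, show σ.cycleType.card = 3 by simp at s; omega]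

/-- Let G be a group of order 162 = 3⁴·2 with Sylow 3-subgroup S and Sylow 2-subgroup T, having an elementary abelian normal subgroup J of order 27, such that Z = Z(S) has order 3, Z centralizes T, and C_S(T) ≠ S. Then G is isomorphic to the centralizer in Sym(9) of a product of three disjoint 3-cycles. -/
theorem result {G : Type*} [Group G] [Finite G] (hG : Nat.card G = 162)
    (S : Sylow 3 G) (T : Sylow 2 G) (J : Subgroup G) [hJn : J.Normal] (hJcomm : IsMulCommutative J)
    (hJexp : ∀ a ∈ J, a ^ 3 = 1) (hJcard : Nat.card J = 27)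
    (Z : Subgroup G) (hZ : Z = (S : Subgroup G) ⊓ Subgroup.centralizer ((S : Subgroup G) : Set G)) (hZcard : Nat.card Z = 3)
    (hZT : Z ≤ Subgroup.centralizer ((T : Subgroup G) : Set G))
    (hST : (S : Subgroup G) ⊓ Subgroup.centralizer ((T : Subgroup G) : Set G) ≠ S) :
    Nonempty (G ≃* Subgroup.centralizer ({Equiv.swap (0 : Fin 9) 1 * Equiv.swap 1 2 * Equiv.swap 3 4 * Equiv.swap 4 5 * Equiv.swap 6 7 * Equiv.swap 7 8} : Set (Equiv.Perm (Fin 9)))) := by
  have hS := hall_sylow_top Nat.prime_three S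
  have hT := hall_sylow_top Nat.prime_two T
  have cS : Nat.card (S : Subgroup G) = 81 := by rw [S.card_eq_multiplicity, hG]; decide +kernel
  have cT : Nat.card (T : Subgroup G) = 2 := by rw [T.card_eq_multiplicity, hG]; decide +kernel
  have nS : (S : Subgroup G).Normal := normal_of_index_eq_two (by have := (S : Subgroup G).card_mul_index; rw [cS] at this; omega)
  have eJ : Elem 3 J := elem_iff.2 ⟨hJcomm, hJexp⟩
  have T3 : PiGrp {3}ᶜ (T : Subgroup G) := hT.pi.p'_of_ne (by decide)
  have d : (S : Subgroup G) ⊓ T = ⊥ := inf_eq_bot_of_coprime' (by rw [cS, cT]; decide)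
  have m : ∀ K : Subgroup G, K.Normal → K ⊓ S ≠ ⊥ → Z ≤ K := fun K _ h => by
    have := hS.pi.nil.meet_Z (nml_inf_of_norm' norm_of_normal) h
    rw [inf_assoc, inf_of_le_right inf_le_left, ← hZ] at this
    exact inf_eq_right.1 (eq_of_card_eq inf_le_right (((Nat.dvd_prime Nat.prime_three).1
      (hZcard ▸ card_dvd inf_le_right)).resolve_left (one_lt_card this).ne' |>.trans hZcard.symm))
  have ZJ := m J hJn (by
    rw [inf_of_le_left (hS.nml_le nml_top (show PiNat {3} _ from hJcard.symm ▸ piNat_pow_self Nat.prime_three 3))]; rintro rfl; simp at hJcard)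
  have zc : Z ≤ C((⊤ : Subgroup G)) := by
    rw [← eq_top_of_card_eq (S ⊔ T : Subgroup G) (by rw [(nml_top.nrm2 le_top).card_sup_of_disj d, cS, cT, hG])]
    exact cent_sup (hZ.le.trans inf_le_right) hZT
  obtain ⟨Y, hY, nY⟩ := H3.maschke_elem Nat.prime_three eJ norm_of_normal (cent_norm (cent_symm hZT)) ZJ T3
  have cY : Nat.card Y = 9 := by have := hY.card; rw [hZcard] at this; omega
  have cH : Nat.card (Y ⊔ T : Subgroup G) = 18 := by
    rw [(nml_sup_left nY).nrm2 le_sup_right |>.card_sup_of_disj (inf_eq_bot_of_coprime' (by rw [cY, cT]; decide)), cY, cT]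
  generalize hH : Y ⊔ (T : Subgroup G) = H at cH
  have zH : ¬ Z ≤ H := fun e => by
    have := card_dvd (hY.sup.ge.trans (sup_le e (le_sup_left.trans hH.le))); rw [cH, hJcard] at this; omega
  have k : H.normalCore = ⊥ := by_contra fun e => by
    have a : H.normalCore ⊓ S = ⊥ := by_contra fun f => zH ((m _ inferInstance f).trans H.normalCore_le)
    have b := card_dvd (le_top (a := H.normalCore ⊔ S))
    rw [(nml_top.nrm2 le_top).card_sup_of_disj a, card_top, hG, cS] at b
    have c : Nat.card H.normalCore = 2 := by have := one_lt_card e; have := Nat.le_of_dvd (by decide) b; omega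
    have t := eq_of_card_eq (hT.nml_le nml_top (show PiNat {2} _ from c.symm ▸ piNat_self Nat.prime_two)) (c.trans cT.symm)
    exact hST (inf_eq_left.2 (cent_of_inf_eq_bot (t ▸ norm_of_normal) norm_of_normal d))
  let e : G ⧸ H ≃ Fin 9 := Finite.equivFinOfCardEq (by have := H.card_mul_index; rw [index, cH] at this; omega)
  let ψ := e.permCongrHom.toMonoidHom.comp (MulAction.toPermHom G (G ⧸ H))
  have i : Function.Injective ψ := e.permCongrHom.injective.comp ((MonoidHom.ker_eq_bot_iff _).1 (H.normalCore_eq_ker ▸ k))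
  obtain ⟨z, hz, zH⟩ := SetLike.not_le_iff_exists.1 zH
  have h1 := ct (σ := ψ z) (by rw [← map_pow, hJexp z (ZJ hz), map_one]) fun x f => by
    obtain ⟨g, rfl⟩ := e.surjective.comp QuotientGroup.mk_surjective x
    have : ((z * g : G) : G ⧸ H) = g := e.injective (by simpa [ψ] using f)
    rw [mem_C.1 (zc hz) g (mem_top g) |>.symm, eq_comm, QuotientGroup.eq] at this
    exact zH (by simpa using this)
  generalize hτ : Equiv.swap (0 : Fin 9) 1 * Equiv.swap 1 2 * Equiv.swap 3 4 * Equiv.swap 4 5 * Equiv.swap 6 7 * Equiv.swap 7 8 = τ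
  have h2 := ct (σ := τ) (by subst hτ; decide) (by subst hτ; decide)
  obtain ⟨c, hc⟩ := isConj_iff.1 (Perm.isConj_iff_cycleType_eq.2 (h1.trans h2.symm))
  refine ⟨MulEquiv.ofBijective (((MulAut.conj c).toMonoidHom.comp ψ).codRestrict C1(τ) fun g => mem_C1.2 ?_)
    ((Nat.bijective_iff_injective_and_card _).2 ⟨fun x y e => i ((MulAut.conj c).injective (congrArg Subtype.val e)), ?_⟩)⟩
  · simp [← hc, mul_assoc, ← map_mul, ← mul_assoc (ψ _), mem_C.1 (zc hz) g (mem_top g)]
  · rw [hG, Perm.nat_card_centralizer, h2]; decide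

end Cfsg.Agent.S3376
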