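import Cfsg.Statements.S3389
import Cfsg.Agent.H1.SylowIn

set_option autoImplicit false
open Cfsg

namespace Cfsg.Agent.S3389

open MulAction H1
open scoped Pointwise

/-- Let G be a finite group acting faithfully and transitively on a finite set Ω with fixity k ≥ 1: every non-identity element fixes at most k points and some non-identity element fixes exactly k points. Then |Z(G)| divides k; if k = 2 then |G| is even; and for every prime p > k dividing |G| and every point α, either p does not divide |G_α| or G_α contains a Sylow p-subgroup of G. -/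
theorem result {G : Type*} [Group G] [Finite G] {Ω : Type*} [Fintype Ω] [MulAction G Ω] [FaithfulSMul G Ω]
    (htr : MulAction.IsPretransitive G Ω) (k : ℕ) (hk : 1 ≤ k)
    (hfix : ∀ g : G, g ≠ 1 → Nat.card (MulAction.fixedBy Ω g) ≤ k) (hex : ∃ g : G, g ≠ 1 ∧ Nat.card (MulAction.fixedBy Ω g) = k) :
    Nat.card (Subgroup.center G) ∣ k ∧ (k = 2 → 2 ∣ Nat.card G) ∧
      ∀ (p : ℕ), p.Prime → k < p → p ∣ Nat.card G → ∀ α : Ω,
        ¬ p ∣ Nat.card (MulAction.stabilizer G α) ∨ ¬ p ∣ (MulAction.stabilizer G α).index := by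
  classical
  obtain ⟨g, hg1, hg⟩ := hex
  have hcz : ∀ z ∈ Subgroup.center G, ∀ ω : Ω, z • ω = ω → z = 1 := fun z hz ω h => by
    apply FaithfulSMul.eq_of_smul_eq_smul (α := Ω)
    intro x
    obtain ⟨y, rfl⟩ := exists_smul_eq G ω x
    rw [one_smul, ← mul_smul, ← Subgroup.mem_center_iff.1 hz y, mul_smul, h]
  refine ⟨?_, fun hk2 => ?_, fun p hp hkp hd α => ?_⟩
  · letI : MulAction (Subgroup.center G) (fixedBy Ω g) :=
      { smul := fun z x => ⟨z.1 • x.1, by
          rw [mem_fixedBy, ← mul_smul, Subgroup.mem_center_iff.1 z.2 g, mul_smul, show g • x.1 = x.1 from x.2]⟩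
        one_smul := fun x => Subtype.ext (one_smul G x.1)
        mul_smul := fun a b x => Subtype.ext (mul_smul a.1 b.1 x.1) }
    rw [← hg, Nat.card_congr (MulAction.selfEquivOrbitsQuotientProd (G := Subgroup.center G) (X := fixedBy Ω g)
      (fun x => eq_bot_iff.2 fun z hz => Subtype.ext (hcz z z.2 x.1
        (congrArg (fun y : fixedBy Ω g => y.1) (mem_stabilizer_iff.1 hz))))), Nat.card_prod]
    exact Dvd.intro_left _ rfl
  · subst hk2
    obtain ⟨⟨α, hα⟩, ⟨β, hβ⟩, hne, huniv⟩ := Nat.card_eq_two_iff.1 hg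
    have hne' : α ≠ β := fun h => hne (Subtype.ext h)
    have two : ∀ h : G, h ≠ 1 → h • α = α → h • β = β → ∀ x, h • x = x → x = α ∨ x = β := by
      intro h h1 h2 h3 x hx
      by_contra hc
      push Not at hc
      have h4 := hfix h h1
      have h5 : ({α, β, x} : Set Ω) ⊆ fixedBy Ω h := by
        rintro _ (rfl | rfl | rfl) <;> assumption
      have h6 := Set.ncard_le_ncard h5
      rw [Set.ncard_eq_three.2 ⟨α, β, x, hne', hc.1.symm, hc.2.symm, rfl⟩] at h6
      rw [Nat.card_coe_set_eq] at h4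
      omega
    by_contra hodd
    have swap : ∀ n : G, n • α = β → n • β = α → False := fun n h1 h2 => by
      have h3 : Odd (orderOf n) := Nat.odd_iff.2 (Nat.two_dvd_ne_zero.1 fun h => hodd (h.trans (orderOf_dvd_natCard n)))
      obtain ⟨j, hj⟩ := h3
      have h4 : n ^ 2 ∈ stabilizer G α := by rw [mem_stabilizer_iff, pow_two, mul_smul, h1, h2]
      have h5 : n ^ orderOf n ∈ stabilizer G α := by rw [pow_orderOf_eq_one]; exact one_mem _
      rw [hj, pow_succ, pow_mul] at h5
      exact hne' ((mem_stabilizer_iff.1 ((Subgroup.mul_mem_cancel_left _ (pow_mem h4 j)).1 h5)).symm.trans h1)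
    have fixβ : ∀ (h n : G), h ≠ 1 → h • α = α → h • β = β → n * h = h * n → n • α = α → n • β = β := by
      intro h n h1 h2 h3 h4 h5
      refine (two h h1 h2 h3 (n • β) (by rw [← mul_smul, ← h4, mul_smul, h3])).resolve_left fun e => ?_
      exact hne' (smul_left_cancel n (h5.trans e.symm))
    obtain ⟨p, hp, hpd⟩ := Nat.exists_prime_and_dvd (n := orderOf g) (by simpa using hg1)
    haveI : Fact p.Prime := ⟨hp⟩
    obtain ⟨x, hx, hxo⟩ := exists_prime_orderOf_mem (H := Subgroup.zpowers g) hp (by rwa [Nat.card_zpowers])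
    have hx1 : x ≠ 1 := by rintro rfl; rw [orderOf_one] at hxo; exact hp.one_lt.ne hxo
    have hxα : x ∈ stabilizer G α := Subgroup.zpowers_le_of_mem (H := stabilizer G α) hα hx
    have hxβ : x ∈ stabilizer G β := Subgroup.zpowers_le_of_mem (H := stabilizer G β) hβ hx
    obtain ⟨P, hP, hxP⟩ := exists_isSylowIn_ge (p := p) (U := Subgroup.zpowers x) (K := stabilizer G α)
      (IsPGroup.of_card (n := 1) (by rw [Nat.card_zpowers, hxo, pow_one])) (Subgroup.zpowers_le_of_mem hxα)
    have hxP' := hxP (Subgroup.mem_zpowers x)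
    haveI : Nontrivial P := ⟨⟨x, hxP'⟩, 1, fun h => hx1 (congrArg Subtype.val h)⟩
    haveI := hP.isPGroup.center_nontrivial
    obtain ⟨⟨z, hz⟩, hz1⟩ := exists_ne (1 : Subgroup.center P)
    have hz1' : (z : G) ≠ 1 := fun h => hz1 (Subtype.ext (Subtype.ext h))
    have hzc : ∀ y ∈ P, y * z = z * y := fun y hy => congrArg Subtype.val (Subgroup.mem_center_iff.1 hz ⟨y, hy⟩)
    have hzβ := fixβ x z hx1 hxα hxβ (hzc x hxP').symm (hP.le z.2)
    have hPβ : P ≤ stabilizer G β := fun y hy => fixβ z y hz1' (hP.le z.2) hzβ (hzc y hy) (hP.le hy)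
    obtain ⟨t, rfl⟩ := exists_smul_eq G α β
    have h1 : IsSylowIn p (MulAut.conj t • P) (stabilizer G (t • α)) := by
      rw [stabilizer_smul_eq_stabilizer_map_conj]; exact hP.conj t
    have h2 : IsSylowIn p P (stabilizer G (t • α)) :=
      isSylowIn_of_card_le h1 hP.isPGroup hPβ (card_conj_smul t P).le
    obtain ⟨y, hy, hy'⟩ := h1.exists_conj h2
    rw [conj_smul_conj_smul, conj_smul_eq_iff] at hy'
    have h3 : (y * t) • α = t • α := by rw [mul_smul]; exact hy
    refine swap (y * t) h3 ((two x hx1 hxα hxβ _ ?_).resolve_right fun e => hne' (smul_left_cancel _ (h3.trans e.symm)))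
    have h4 := hPβ (inv_conj_mem_of_mem_normalizer hy' hxP')
    rw [mem_stabilizer_iff, mul_smul, mul_smul, inv_smul_eq_iff] at h4
    exact h4
  · haveI : Fact p.Prime := ⟨hp⟩
    by_contra hc
    push Not at hc
    obtain ⟨Q, hQ⟩ := exists_isSylowIn p (stabilizer G α)
    have hQ1 := hQ.ne_bot hc.1
    suffices IsSylowIn p Q ⊤ from this.not_dvd (by
      rw [Subgroup.relIndex_top_right]; exact hc.2.trans (Subgroup.index_dvd_of_le hQ.le))
    apply isSylowIn_of_normalizer
    obtain ⟨R, hR, hQR⟩ := exists_isSylowIn_ge (K := ⊤ ⊓ Subgroup.normalizer (Q : Set G)) hQ.isPGroup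
      (le_inf le_top Subgroup.le_normalizer)
    suffices R = Q from this ▸ hR
    refine hQ.eq_of_le hR.isPGroup hQR fun r hr => ?_
    obtain ⟨⟨x, hx⟩, hx1⟩ := Subgroup.ne_bot_iff_exists_ne_one.1 hQ1
    have hx1' : x ≠ 1 := fun h => hx1 (Subtype.ext h)
    have h1 : orbit R α ⊆ fixedBy Ω x := by
      rintro _ ⟨s, rfl⟩
      have h4 := hQ.le (inv_conj_mem_of_mem_normalizer (hR.le s.2).2 hx)
      rw [mem_stabilizer_iff, mul_smul, mul_smul, inv_smul_eq_iff] at h4
      exact h4
    have h2 := (Set.ncard_le_ncard h1).trans (hfix x hx1')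
    obtain ⟨j, hj⟩ := hR.isPGroup.index (stabilizer R α)
    rw [← index_stabilizer, hj] at h2
    rcases j with _ | j
    · have : (⟨r, hr⟩ : R) ∈ stabilizer R α := by
        rw [Subgroup.index_eq_one.1 hj]; trivial
      exact this
    · have := Nat.le_self_pow (n := j + 1) (by omega) p
      omega

end Cfsg.Agent.S3389
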