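import Cfsg.Statements.S3390
import Cfsg.Agent.H27.Ru1
import Cfsg.Agent.H27.Control
import Cfsg.Agent.H3.Rank2b
import Mathlib.GroupTheory.SpecificGroups.KleinFour

set_option autoImplicit false
open Cfsg

namespace Cfsg.Agent.S3390

open H26 H27 Subgroup

open MulAction

section
variable {G : Type*} [Group G] [Finite G]

theorem ds {S : Subgroup G} (hS : IsPGroup 2 S) {t z : G} (ht : t ∈ S) (hz : z ∈ S) (t2 : t * t = 1) (z2 : z * z = 1)
    (t1 : t ≠ 1) (z1 : z ≠ 1) (hne : z ≠ t) (hc : z * t = t * z) (h4 : Nat.card (S ⊓ centralizer {t} : Subgroup G) ≤ 4) :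
    (∃ n : ℕ, Nonempty (S ≃* DihedralGroup n)) ∨ IsQuasiDihedral S := by
  let U : Subgroup S :=
    { carrier := {u | u.1 * u.1 = 1 ∧ u.1 ∈ centralizer (closure {t, z} : Set G) ⊓ closure {t, z}}
      one_mem' := ⟨by simp, one_mem _⟩
      mul_mem' := fun {a b} ha hb => ⟨by
        rw [coe_mul, mul_assoc, ← mul_assoc b.1, ha.2.1 _ hb.2.2, mul_assoc, hb.1, mul_one, ha.1], mul_mem ha.2 hb.2⟩
      inv_mem' := fun {a} ha => ⟨by rw [coe_inv, ← mul_inv_rev, ha.1, inv_one], inv_mem ha.2⟩ }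
  have h1 : ∀ y ∈ ({t, z} : Set G), y ∈ centralizer (closure {t, z} : Set G) ⊓ closure {t, z} := fun y hy =>
    ⟨by
      rw [centralizer_closure]
      rintro a (rfl | rfl) <;> rcases hy with rfl | rfl <;> simp [hc], subset_closure hy⟩
  have h2 : 2 < Nat.card U := by
    have := Fintype.ofFinite U
    rw [Nat.card_eq_fintype_card, Fintype.two_lt_card_iff]
    exact ⟨1, ⟨⟨t, ht⟩, t2, h1 t (by simp)⟩, ⟨⟨z, hz⟩, z2, h1 z (by simp)⟩, fun e => t1 (congrArg (·.1.1) e).symm,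
      fun e => z1 (congrArg (·.1.1) e).symm, fun e => hne (congrArg (·.1.1) e).symm⟩
  by_cases hab : IsMulCommutative S
  · have h3 : Nat.card S ≤ 4 := (Subgroup.card_le_of_le (le_inf le_rfl fun a ha => mem_centralizer_singleton_iff.2
      (congrArg Subtype.val (hab.is_comm.comm ⟨a, ha⟩ ⟨t, ht⟩)))).trans h4
    obtain ⟨n, hn⟩ := (hS.to_subgroup U).exists_card_eq
    have h5 : 4 ≤ Nat.card U := by
      rw [hn] at h2 ⊢
      rcases n with _ | _ | n
      · omega
      · omega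
      · exact Nat.pow_le_pow_right two_pos (show 2 ≤ n + 2 by omega)
    have h6 : U = ⊤ := eq_top_of_le_card _ (by omega)
    have h7 : Nat.card S = 4 := by have := card_le_card_group U; omega
    have : Nontrivial S := Finite.one_lt_card_iff_nontrivial.1 (by omega)
    have : IsKleinFour S := ⟨h7, (Monoid.exponent_eq_prime_iff Nat.prime_two).2 fun u u1 =>
      orderOf_eq_prime (by rw [pow_two]; exact Subtype.ext (h6.ge (mem_top u)).1) u1⟩
    exact Or.inl ⟨2, IsKleinFour.nonempty_mulEquiv⟩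
  obtain ⟨k, x, e⟩ := H9.mc_of_card_centralizer (hS.to_subgroup ⊤) (mem_top (⟨t, ht⟩ : S)) (by
    refine le_trans (Nat.card_le_card_of_injective (fun a => (⟨a.1.1, a.1.2, mem_centralizer_singleton_iff.2
      (congrArg Subtype.val (mem_centralizer_singleton_iff.1 a.2.2))⟩ : (S ⊓ centralizer {t} : Subgroup G)))
      fun a b e => Subtype.ext (Subtype.ext (congrArg (·.1) e))) h4)
    fun e => hab ⟨⟨fun a b => congrArg Subtype.val (e.is_comm.comm ⟨a, trivial⟩ ⟨b, trivial⟩)⟩⟩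
  refine (H3.mc_rank_two e fun h => ?_).imp_left fun ⟨m, _, h⟩ => ⟨m, h⟩
  have := H3.card_le_of_rank h (U := U) fun x hx => Subtype.ext hx.1
  omega

omit [Finite G] in
theorem fixmod {X : Type*} [Finite X] [MulAction G X] {r : ℕ} [Fact r.Prime] {y : G} (hy : y ^ r = 1) :
    Nat.card X ≡ Nat.card (fixedBy X y) [MOD r] := by
  classical
  have := Fintype.ofFinite X
  have h := Equiv.Perm.card_fixedPoints_modEq (f := (fun w => y • w : X → X)) (p := r) (n := 1) (by
    rw [pow_one]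
    funext w
    change (toPermHom G X y)^[r] w = w
    rw [Equiv.Perm.iterate_eq_pow, ← map_pow, hy, map_one]; rfl)
  rw [Nat.card_eq_fintype_card, Nat.card_eq_fintype_card]
  convert h
  rfl

variable {Ω : Type*} [Finite Ω] [MulAction G Ω]

omit [Finite G] in
theorem three (hfix : ∀ g : G, g ≠ 1 → Nat.card (fixedBy Ω g) ≤ 2) {g : G} (hg : g ≠ 1) {a b c : Ω} (ha : g • a = a)
    (hb : g • b = b) (hc : g • c = c) (hab : a ≠ b) : c = a ∨ c = b := by
  by_contra h
  push Not at h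
  have := Fintype.ofFinite (fixedBy Ω g)
  have h1 := hfix g hg
  rw [Nat.card_eq_fintype_card, ← not_lt, Fintype.two_lt_card_iff] at h1
  exact h1 ⟨⟨a, ha⟩, ⟨b, hb⟩, ⟨c, hc⟩, fun e => hab (congrArg Subtype.val e), fun e => h.1 (congrArg Subtype.val e).symm,
    fun e => h.2 (congrArg Subtype.val e).symm⟩

omit [Finite G] [Finite Ω] in
theorem card_orb (L : Subgroup G) (ω : Ω) : Nat.card (orbit L ω) = (L ⊓ stabilizer G ω).relIndex L := by
  rw [inf_relIndex_left, Nat.card_congr (orbitEquivQuotientStabilizer L ω)]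
  rfl

omit [Finite G] in
theorem n2 (hfix : ∀ g : G, g ≠ 1 → Nat.card (fixedBy Ω g) ≤ 2) {t : G} (ht : t ≠ 1) {L : Subgroup G} {ω : Ω}
    (h : ∀ g ∈ L, t • g • ω = g • ω) : Nat.card L ≤ 2 * Nat.card (L ⊓ stabilizer G ω : Subgroup G) := by
  rw [← Ru.card_rel (inf_le_left : L ⊓ stabilizer G ω ≤ L), ← card_orb, mul_comm]
  refine Nat.mul_le_mul_right _ (le_trans (Nat.card_mono (Set.toFinite _) ?_) (hfix t ht))
  rintro _ ⟨g, rfl⟩
  exact h g g.2

theorem exz {S T : Subgroup G} (hS : IsPGroup 2 S) (h : T ≤ S) (hn : S ≤ normalizer T) (h1 : T ≠ ⊥) :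
    ∃ z ∈ T, z * z = 1 ∧ z ≠ 1 ∧ ∀ s ∈ S, z * s = s * z := by
  have := hS.isNilpotent
  have h2 := H1.inf_centralizer_ne_bot_of_isNilpotent h hn h1
  obtain ⟨z, hz⟩ := exists_prime_orderOf_dvd_card' 2 (dvd_card_of_ne_bot (hS.to_le (inf_le_left.trans h)) h2)
  refine ⟨z, z.2.1, ?_, fun e => ?_, fun s hs => (z.2.2 s hs).symm⟩
  · have := pow_orderOf_eq_one z
    rw [hz, pow_two] at this
    exact congrArg Subtype.val this
  · rw [show z = 1 from Subtype.ext e, orderOf_one] at hz; omega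

end

/-- Let G be a finite group acting faithfully and transitively on a finite set Ω with fixity 2 (every non-identity element fixes at most two points, and some fixes exactly two). Let α ∈ Ω and S a Sylow 2-subgroup of G. Then one of the following holds: the stabilizer S_α of α in S is trivial; S is dihedral or semidihedral and either |S_α| = 2 or |S : S_α| = 2; |S| ≥ 4, S has exactly one orbit of size 2 on Ω, every other S-orbit is regular, and G has a normal subgroup of index 2 or of index |S| which is a Frobenius group; or S ≤ G_α. -/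
theorem result {G : Type*} [Group G] [Finite G] {Ω : Type*} [Fintype Ω] [MulAction G Ω] [FaithfulSMul G Ω] (htr : MulAction.IsPretransitive G Ω)
    (hfix : ∀ g : G, g ≠ 1 → Nat.card (MulAction.fixedBy Ω g) ≤ 2) (hex : ∃ g : G, g ≠ 1 ∧ Nat.card (MulAction.fixedBy Ω g) = 2) (α : Ω) (S : Sylow 2 G) :
    (S : Subgroup G) ⊓ MulAction.stabilizer G α = ⊥ ∨
    (((∃ n : ℕ, Nonempty (↥(S : Subgroup G) ≃* DihedralGroup n)) ∨ Cfsg.IsQuasiDihedral ↥(S : Subgroup G)) ∧
       (Nat.card ↥((S : Subgroup G) ⊓ MulAction.stabilizer G α) = 2 ∨ ((S : Subgroup G) ⊓ MulAction.stabilizer G α).relIndex (S : Subgroup G) = 2)) ∨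
    (4 ≤ Nat.card (S : Subgroup G) ∧
       (∃ ω : Ω, Nat.card (MulAction.orbit ↥(S : Subgroup G) ω) = 2 ∧
          ∀ ω' : Ω, ω' ∉ MulAction.orbit ↥(S : Subgroup G) ω → Nat.card (MulAction.orbit ↥(S : Subgroup G) ω') = Nat.card (S : Subgroup G)) ∧
       ∃ N : Subgroup G, N.Normal ∧ (N.index = 2 ∨ N.index = Nat.card (S : Subgroup G)) ∧ (∃ H : Subgroup ↥N, Cfsg.IsFrobeniusComplement H)) ∨
    (S : Subgroup G) ≤ MulAction.stabilizer G α := by
  set T := (S : Subgroup G) ⊓ stabilizer G α with hT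
  have hS := S.isPGroup'
  by_cases h1 : T = ⊥
  · exact Or.inl h1
  by_cases h4 : (S : Subgroup G) ≤ stabilizer G α
  · exact Or.inr (Or.inr (Or.inr h4))
  right
  have hlt : T < S := lt_of_le_of_ne inf_le_left fun e => h4 (inf_eq_left.1 e)
  obtain ⟨⟨t, ht⟩, t1⟩ := ne_bot_iff_exists_ne_one.1 h1
  replace t1 : t ≠ 1 := fun e => t1 (Subtype.ext e)
  have hfx : ∀ n ∈ normalizer (T : Set G), ∀ y ∈ T, y • n • α = n • α := fun n hn y hy => by
    have := ((mem_normalizer_iff''.1 hn y).1 hy).2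
    rw [← inv_smul_eq_iff, ← mul_smul, ← mul_smul] at *
    exact this
  have hc := Ru.card_rel (inf_le_left : T ≤ S)
  have := hS.isNilpotent
  by_cases h2 : T.relIndex S ≠ 2
  · have hN := n2 hfix t1 (L := (S : Subgroup G) ⊓ normalizer (T : Set G)) (ω := α) fun g hg => hfx g hg.2 t ht
    have hN2 : (S : Subgroup G) ⊓ normalizer (T : Set G) ⊓ stabilizer G α = T :=
      le_antisymm (fun g hg => ⟨hg.1.1, hg.2⟩) fun g hg => ⟨⟨hg.1, le_normalizer hg⟩, hg.2⟩
    rw [hN2] at hN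
    have hr : 2 < T.relIndex S := by
      have : T.relIndex S ≠ 0 := index_ne_zero_of_finite
      have : T.relIndex S ≠ 1 := fun e => hlt.not_ge (relIndex_eq_one.1 e)
      omega
    have hp : 0 < Nat.card T := Nat.card_pos
    have a1 := H1.lt_inf_normalizer_of_isNilpotent hlt
    set N := (S : Subgroup G) ⊓ normalizer (T : Set G) with hNd
    have a2 := H1.lt_inf_normalizer_of_isNilpotent (lt_of_le_of_ne (inf_le_left : N ≤ S) fun e => by
      have e' : N = S := e
      rw [e'] at hN; nlinarith)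
    obtain ⟨n, hn, hnT⟩ := SetLike.exists_of_lt a1
    obtain ⟨g, hg, hgN⟩ := SetLike.exists_of_lt a2
    have a3 : ∀ y ∈ T, g * y * g⁻¹ ∈ T → y = 1 := fun y hy h => by
      by_contra y1
      rcases three hfix (conj_eq_one_iff.not.2 y1) h.2 (hfx n hn.2 _ h) (c := g • α)
        (by rw [mul_smul, inv_smul_smul, mul_smul, hy.2]) (fun e => hnT ⟨hn.1, e.symm⟩) with e | e
      · exact hgN (a1.le ⟨hg.1, e⟩)
      · exact hgN (by
          rw [← mul_inv_cancel_left n g]
          exact N.mul_mem hn (a1.le (⟨(S : Subgroup G).mul_mem ((S : Subgroup G).inv_mem hn.1) hg.1, by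
            refine mem_stabilizer_iff.2 ?_
            rw [mul_smul, e, inv_smul_smul]⟩ : n⁻¹ * g ∈ T)))
    have a4 : ∀ y ∈ T, y ≠ 1 → t * y = 1 := fun y hy y1 => a3 _ (mul_mem ht hy) (by
      have := Ru.idx_two a1.le hN ((mem_normalizer_iff.1 hg.2 _).1 (a1.le ht)) ((mem_normalizer_iff.1 hg.2 _).1 (a1.le hy))
        (fun e => t1 (a3 _ ht e)) fun e => y1 (a3 _ hy e)
      simpa [mul_assoc] using this)
    have a5 : Nat.card T = 2 := (Nat.card_eq_two_iff' 1).2 ⟨⟨t, ht⟩, fun e => t1 (congrArg Subtype.val e),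
      fun y hy => Subtype.ext (mul_left_cancel ((a4 _ y.2 fun e => hy (Subtype.ext e)).trans (a4 _ ht t1).symm))⟩
    have a6 : Nat.card ((S : Subgroup G) ⊓ centralizer {t} : Subgroup G) ≤ 4 := by
      have := n2 hfix t1 (L := (S : Subgroup G) ⊓ centralizer {t}) (ω := α) fun g hg => by
        rw [← mul_smul, ← mem_centralizer_singleton_iff.1 hg.2, mul_smul, ht.2]
      have b : Nat.card ((S : Subgroup G) ⊓ centralizer {t} ⊓ stabilizer G α : Subgroup G) ≤ Nat.card T :=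
        Subgroup.card_le_of_le fun g hg => ⟨hg.1.1, hg.2⟩
      omega
    obtain ⟨z, b1, b2, b3, b4⟩ := exz hS le_rfl le_normalizer (fun e => h4 (e ▸ bot_le))
    refine Or.inl ⟨ds hS ht.1 b1 (a4 t ht t1) b2 t1 b3 ?_ (b4 t ht.1) a6, Or.inl a5⟩
    rintro rfl
    have : Nat.card S ≤ Nat.card ((S : Subgroup G) ⊓ centralizer {z} : Subgroup G) :=
      Subgroup.card_le_of_le fun g hg => ⟨hg, mem_centralizer_singleton_iff.2 (b4 g hg).symm⟩
    nlinarith
  push Not at h2
  have hd : Nat.card S ≤ 2 * Nat.card T := by rw [← hc, h2, mul_comm]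
  have hn : (S : Subgroup G) ≤ normalizer (T : Set G) :=
    (normal_subgroupOf_iff_le_normalizer inf_le_left).1 (normal_of_index_eq_two h2)
  obtain ⟨x, hx, hxT⟩ := SetLike.exists_of_lt hlt
  have hxα : α ≠ x • α := fun e => hxT ⟨hx, e.symm⟩
  have hTω : ∀ ω, ω ∉ orbit (S : Subgroup G) α → ∀ y ∈ T, y • ω = ω → y = 1 := fun ω hω y hy e => by
    by_contra y1
    rcases three hfix y1 hy.2 (hfx x (hn hx) y hy) e hxα with e | e
    · exact hω (by rw [e]; exact mem_orbit_self α)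
    · exact hω ⟨⟨x, hx⟩, e.symm⟩
  by_cases h3 : ∃ ω, ω ∉ orbit (S : Subgroup G) α ∧ ∃ u ∈ (S : Subgroup G), u ≠ 1 ∧ u • ω = ω
  · obtain ⟨ω, hω, u, hu, u1, e⟩ := h3
    have huT : u ∉ T := fun h => u1 (hTω ω hω u h e)
    have a1 : ∀ y ∈ (S : Subgroup G), y • ω = ω → y ≠ 1 → u * y = 1 := fun y hy e2 y1 =>
      hTω ω hω _ (Ru.idx_two inf_le_left hd hu hy huT fun h => y1 (hTω ω hω y h e2)) (by rw [mul_smul, e2, e])
    obtain ⟨z, b1, b2, b3, b4⟩ := exz hS inf_le_left hn h1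
    refine Or.inl ⟨ds hS hu b1.1 (a1 u hu e u1) b2 u1 b3 (fun e => huT (e ▸ b1)) (b4 u hu) ?_, Or.inr h2⟩
    have := n2 hfix u1 (L := (S : Subgroup G) ⊓ centralizer {u}) (ω := ω) fun g hg => by
      rw [← mul_smul, ← mem_centralizer_singleton_iff.1 hg.2, mul_smul, e]
    have b : Nat.card ((S : Subgroup G) ⊓ centralizer {u} ⊓ stabilizer G ω : Subgroup G) = 2 :=
      (Nat.card_eq_two_iff' 1).2 ⟨⟨u, ⟨hu, mem_centralizer_singleton_iff.2 rfl⟩, e⟩, fun e => u1 (congrArg Subtype.val e),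
        fun y hy => Subtype.ext (mul_left_cancel ((a1 _ y.2.1.1 y.2.2 fun e => hy (Subtype.ext e)).trans (a1 u hu e u1).symm))⟩
    omega
  push Not at h3
  have hreg : ∀ ω, ∀ u ∈ (S : Subgroup G), u ≠ 1 → u • ω = ω → ω ∈ orbit (S : Subgroup G) α := fun ω u hu u1 e =>
    by_contra fun h => h3 ω h u hu u1 e
  have hmem : ∀ u ∈ (S : Subgroup G), ∀ ω, u • ω = ω → u ∈ T := fun u hu ω e => by
    by_cases u1 : u = 1
    · exact u1 ▸ one_mem _
    obtain ⟨s, rfl⟩ := hreg ω u hu u1 e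
    refine (mem_normalizer_iff''.1 (hn s.2) u).2 ⟨(S : Subgroup G).mul_mem ((S : Subgroup G).mul_mem ((S : Subgroup G).inv_mem s.2) hu) s.2,
      mem_stabilizer_iff.2 ?_⟩
    rw [mul_smul, mul_smul, inv_smul_eq_iff]
    exact e
  have hfoc := focal_le (isSyl_top S) (T := T) fun a ha g _ hg => by
    by_cases e : a ∈ T
    · exact mul_mem (inv_mem e) (hmem _ hg (g • α) (by rw [mul_smul, inv_smul_smul, mul_smul, e.2]))
    · exact Ru.idx_two inf_le_left hd (inv_mem ha) hg (fun h => e (by simpa using T.inv_mem h)) fun e2 => e (hmem a ha (g⁻¹ • α) (by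
        rw [← inv_smul_eq_iff, inv_inv] ; rw [← mul_smul, ← mul_smul]; exact e2.2))
  let f : G →* Abelianization G := Abelianization.of
  have hf : ∀ s ∈ (S : Subgroup G), f s ∈ T.map f → s ∈ T := by
    rintro s hs ⟨y, hy, e⟩
    simpa using T.mul_mem hy (hfoc ⟨(S : Subgroup G).mul_mem ((S : Subgroup G).inv_mem hy.1) hs, QuotientGroup.eq.1 e⟩)
  set m := ((S : Subgroup G).map f).index with hm
  have hmo : Odd m := Nat.not_even_iff_odd.1 fun e => S.not_dvd_index
    (e.two_dvd.trans (index_map_dvd _ QuotientGroup.mk_surjective))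
  have hodd : ∀ {L H : Subgroup G}, L ≤ H → Nat.card H ≤ 2 * Nat.card L → ∀ y ∈ H, ∀ k, Odd k → y ^ k ∈ L → y ∈ L := by
    rintro L H a b y hy _ ⟨k, rfl⟩ h
    by_contra e
    rw [pow_succ, pow_mul, pow_two, L.mul_mem_cancel_left (pow_mem (Ru.idx_two a b hy hy e e) k)] at h
    exact e h
  set N := (T.map f).comap ((powMonoidHom m).comp f) with hN
  have hNn : N.Normal := Normal.comap inferInstance _
  have hNS : ∀ s ∈ (S : Subgroup G), s ∈ N ↔ s ∈ T := fun s hs =>
    ⟨fun h => hodd inf_le_left hd s hs m hmo (hf _ (pow_mem hs m) (by rw [map_pow]; exact h)),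
      fun h => pow_mem (mem_map_of_mem f h) m⟩
  have hN2 : N.index = 2 := index_eq_two_iff.2 ⟨x, fun b => by
    obtain ⟨s, hs, e⟩ := pow_index_mem ((S : Subgroup G).map f) (f b)
    have a1 : b ∈ N ↔ s ∈ T := ⟨fun h => hf s hs (e ▸ h), fun h => show f b ^ m ∈ T.map f from e ▸ mem_map_of_mem f h⟩
    have a2 : b * x ∈ N ↔ s * x ^ m ∈ T := by
      have : f (b * x) ^ m = f (s * x ^ m) := by rw [map_mul, map_mul, mul_pow, e, map_pow]
      exact ⟨fun h => hf _ (mul_mem hs (pow_mem hx m)) (this ▸ h), fun h => show f (b * x) ^ m ∈ T.map f from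
        this ▸ mem_map_of_mem f h⟩
    have a3 : x ^ m ∉ T := fun h => hxT (hodd inf_le_left hd x hx m hmo h)
    rw [a1, a2]
    by_cases h : s ∈ T
    · exact Or.inr ⟨h, fun h2 => a3 ((T.mul_mem_cancel_left h).1 h2)⟩
    · exact Or.inl ⟨Ru.idx_two inf_le_left hd hs (pow_mem hx m) h a3, h⟩⟩
  have hst : stabilizer G α ≤ N := fun g hg => by
    obtain ⟨k, o, ho, e⟩ := Nat.exists_eq_two_pow_mul_odd (orderOf_pos g).ne'
    obtain ⟨h, -, hh⟩ := (isSyl_top S).exists_conj_mem (x := g ^ o) trivial (k := k)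
      (by rw [← pow_mul, mul_comm, ← e, pow_orderOf_eq_one])
    refine hodd le_top (by rw [card_top, ← N.card_mul_index, hN2, mul_comm]) g trivial o ho ?_
    simpa [mul_assoc] using hNn.conj_mem' _ ((hNS _ hh).2 (hmem _ hh (h • α) (by
      rw [mul_smul, inv_smul_smul, mul_smul, (stabilizer G α).pow_mem hg o]))) h
  refine Or.inr (Or.inl ⟨by have := (one_lt_card_iff_ne_bot T).2 h1; nlinarith, ⟨α, (card_orb _ _).trans h2,
    fun ω hω => ?_⟩, N, hNn, Or.inl hN2, (stabilizer G α).subgroupOf N, fun e => t1 ?_, fun e => t1 ?_, fun g hg => ?_⟩)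
  · rw [card_orb, show (S : Subgroup G) ⊓ stabilizer G ω = ⊥ from
      eq_bot_iff.2 fun u hu => by_contra fun u1 => hω (hreg ω u hu.1 u1 hu.2), relIndex_bot_left]
  · exact congrArg Subtype.val (mem_bot.1 (e.le (show (⟨t, hst ht.2⟩ : N) ∈ _ from ht.2)))
  · refine FaithfulSMul.eq_of_smul_eq_smul (α := Ω) fun ω => ?_
    obtain ⟨g, rfl⟩ := htr.exists_smul_eq α ω
    have : (g⁻¹ * t * g) • α = α := e.ge (mem_top (⟨_, hNn.conj_mem' _ (hst ht.2) g⟩ : N))
    rw [mul_smul, mul_smul, inv_smul_eq_iff] at this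
    rw [this, one_smul]
  refine eq_bot_iff.2 fun y hy => by_contra fun y1 => ?_
  have hgα : α ≠ (g : G) • α := fun e => hg e.symm
  obtain ⟨r, hr, hry⟩ := Nat.exists_prime_and_dvd (orderOf_eq_one_iff.not.2 y1)
  have := Fact.mk hr
  set w := y ^ (orderOf y / r) with hw
  have hwo : orderOf w = r := orderOf_pow_orderOf_div (orderOf_pos y).ne' hry
  have w1 : (w : G) ≠ 1 := fun e => by rw [show w = 1 from Subtype.ext e, orderOf_one] at hwo; exact hr.one_lt.ne hwo
  have wr : w ^ r = 1 := hwo ▸ pow_orderOf_eq_one w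
  have hw' := pow_mem hy (orderOf y / r)
  have a1 : (w : G) • α = α := hw'.1
  have a2 : (w : G) • (g : G) • α = (g : G) • α := by
    have : ((g : G)⁻¹ * w * g) • α = α := by
      have h := mem_pointwise_smul_iff_inv_smul_mem.1 hw'.2
      rw [← hw] at h
      clear_value w
      simpa using mem_subgroupOf.1 h
    rwa [mul_smul, mul_smul, inv_smul_eq_iff] at this
  by_cases r2 : r = 2
  · subst r2
    obtain ⟨h, -, hh⟩ := (isSyl_top S).exists_conj_mem (x := w) trivial (k := 1) (congrArg Subtype.val wr)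
    obtain ⟨s1, e1⟩ := hreg (h • α) _ hh (conj_eq_one_iff.not.2 w1) (by rw [mul_smul, inv_smul_smul, mul_smul, a1])
    obtain ⟨s2, e2⟩ := hreg (h • (g : G) • α) _ hh (conj_eq_one_iff.not.2 w1) (by rw [mul_smul, inv_smul_smul, mul_smul, a2])
    have b1 : h⁻¹ * s1 ∈ N := hst (by rw [mem_stabilizer_iff, mul_smul, inv_smul_eq_iff]; exact e1)
    have b2 : (g : G)⁻¹ * (h⁻¹ * s2) ∈ N := hst (by
      rw [mem_stabilizer_iff, mul_smul, mul_smul, inv_smul_eq_iff, inv_smul_eq_iff]; exact e2)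
    have b3 : ((s1 : G)⁻¹ * s2) • α = α := ((hNS _ (mul_mem (inv_mem s1.2) s2.2)).1 (by
      simpa [mul_assoc] using mul_mem (inv_mem b1) (mul_mem g.2 b2))).2
    rw [mul_smul, inv_smul_eq_iff] at b3
    exact hgα (MulAction.injective h (e1.symm.trans (b3.symm.trans e2)))
  have c1 := fixmod (X := orbit N α) wr
  have c2 := fixmod (X := orbit N α) (y := ⟨_, hNn.conj_mem' _ w.2 x⟩) (r := r) (Subtype.ext (by
    have : (w : G) ^ r = 1 := congrArg Subtype.val wr
    change (x⁻¹ * w * x) ^ r = 1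
    rw [show x⁻¹ * w * x = x⁻¹ * w * x⁻¹⁻¹ by rw [inv_inv], conj_pow, this]; simp))
  have c3 : IsEmpty (fixedBy (orbit N α) (⟨_, hNn.conj_mem' _ w.2 x⟩ : N)) := ⟨fun ⟨⟨_, n, rfl⟩, hn⟩ => by
    have d1 : (x⁻¹ * w * x) • (n : G) • α = (n : G) • α := congrArg Subtype.val hn
    rw [mul_smul, mul_smul, inv_smul_eq_iff] at d1
    refine hxT ((hNS x hx).1 ?_)
    rcases three hfix w1 a1 a2 d1 hgα with e | e
    · exact (N.mul_mem_cancel_right n.2).1 (hst (by rw [mem_stabilizer_iff, mul_smul, e]))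
    · exact (N.mul_mem_cancel_left (inv_mem g.2)).1 ((N.mul_mem_cancel_right n.2).1 (hst (by
        rw [mem_stabilizer_iff, mul_smul, mul_smul, e, inv_smul_smul])))⟩
  rw [@Nat.card_of_isEmpty _ c3] at c2
  have c4 := (Nat.modEq_zero_iff_dvd.1 (c1.symm.trans c2))
  have : Nonempty (fixedBy (orbit N α) w) := ⟨⟨⟨α, mem_orbit_self α⟩, Subtype.ext a1⟩⟩
  have c5 := Nat.le_of_dvd Nat.card_pos c4
  have c6 := (Nat.card_le_card_of_injective (fun a : fixedBy (orbit N α) w => (⟨a.1.1, congrArg Subtype.val a.2⟩ : fixedBy Ω (w : G)))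
    fun a b e => Subtype.ext (Subtype.ext (congrArg (·.1) e))).trans (hfix _ w1)
  have := hr.two_le
  omega

end Cfsg.Agent.S3390
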