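import Cfsg.Statements.S3391
import Cfsg.Agent.H13.SzSub2
import Cfsg.Agent.H13.SzModel

set_option autoImplicit false
open Cfsg

namespace Cfsg.Agent.S3391

section
open H13 H13.Sz MulAction

variable {F : Type*} [Field F] [Fintype F] {m : ℕ} [IsSz F m]

theorem commutator_mem_U {x y : Cfsg.Sz F m} (hx : x ∈ B F m) (hy : y ∈ B F m) :
    x * y * x⁻¹ * y⁻¹ ∈ U F m := by
  obtain ⟨a, b, s, rfl⟩ := mem_B_iff.mp hx
  obtain ⟨c, d, t, rfl⟩ := mem_B_iff.mp hy
  have h1 : h m s * h m t * (h m s)⁻¹ = h m t := by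
    rw [h_mul_h, mul_comm, ← h_mul_h, mul_inv_cancel_right]
  have : u m a b * h m s * (u m c d * h m t) * (u m a b * h m s)⁻¹ * (u m c d * h m t)⁻¹ =
      u m a b * (h m s * u m c d * (h m s)⁻¹) *
        ((h m s * h m t * (h m s)⁻¹) * (u m a b)⁻¹ * (h m t)⁻¹) * (u m c d)⁻¹ := by group
  rw [this, h1]
  exact mul_mem (mul_mem (mul_mem (u_mem_U _ _) (conj_mem_U (H_le_B (h_mem_H s)) (u_mem_U _ _)))
    (conj_mem_U (H_le_B (h_mem_H t)) (inv_mem (u_mem_U _ _)))) (inv_mem (u_mem_U _ _))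

theorem mem_of_sq {M : Subgroup (Cfsg.Sz F m)} {L : Subgroup (Cfsg.Sz F m)}
    (h : ∀ l ∈ L, l * l ∈ M) {x : Cfsg.Sz F m} (hx : x ∈ L) (ht : Odd (orderOf x)) : x ∈ M := by
  obtain ⟨k, hk⟩ := ht
  have := h _ (pow_mem hx (k + 1))
  rwa [← pow_add, show k + 1 + (k + 1) = orderOf x + 1 by omega, pow_succ, pow_orderOf_eq_one,
    one_mul] at this

variable {Ω : Type*} [Fintype Ω] [MulAction (Cfsg.Sz F m) Ω]

theorem three (hfix : ∀ g : Cfsg.Sz F m, g ≠ 1 → Nat.card (fixedBy Ω g) ≤ 2) {α : Ω}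
    {x : Cfsg.Sz F m} (hx : x ≠ 1) {a b c : Cfsg.Sz F m} (ha : a⁻¹ * x * a ∈ stabilizer _ α)
    (hb : b⁻¹ * x * b ∈ stabilizer _ α) (hc : c⁻¹ * x * c ∈ stabilizer _ α) :
    a⁻¹ * b ∈ stabilizer _ α ∨ a⁻¹ * c ∈ stabilizer _ α ∨ b⁻¹ * c ∈ stabilizer _ α := by
  have key : ∀ a : Cfsg.Sz F m, a⁻¹ * x * a ∈ stabilizer _ α → a • α ∈ fixedBy Ω x := by
    intro a ha
    rwa [mem_stabilizer_iff, mul_smul, mul_smul, inv_smul_eq_iff] at ha
  by_contra h
  push Not at h
  simp only [mem_stabilizer_iff, mul_smul, inv_smul_eq_iff] at h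
  have := (Set.two_lt_ncard_iff (s := fixedBy Ω x)).mpr ⟨_, _, _, key a ha, key b hb, key c hc,
    fun h' => h.1 h'.symm, fun h' => h.2.1 h'.symm, fun h' => h.2.2 h'.symm⟩
  exact this.not_ge (hfix x hx)

theorem sq_mem (hfix : ∀ g : Cfsg.Sz F m, g ≠ 1 → Nat.card (fixedBy Ω g) ≤ 2) {α : Ω}
    {x : Cfsg.Sz F m} (hx : x ≠ 1) {L : Subgroup (Cfsg.Sz F m)}
    (hL : ∀ l ∈ L, l⁻¹ * x * l ∈ stabilizer _ α) : ∀ l ∈ L, l * l ∈ stabilizer _ α := by
  intro l hl
  rcases three hfix hx (hL _ (inv_mem hl)) (hL _ (one_mem L)) (hL _ hl) with h | h | h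
  · simpa using mul_mem h h
  · simpa using h
  · simpa using mul_mem h h

theorem even_case (hfix : ∀ g : Cfsg.Sz F m, g ≠ 1 → Nat.card (fixedBy Ω g) ≤ 2) {α : Ω}
    {x : Cfsg.Sz F m} (hx : x ≠ 1) (hU : x ∈ U F m) (hα : x ∈ stabilizer _ α) :
    B F m ≤ stabilizer _ α := by
  obtain ⟨b, hb0, hb⟩ : ∃ b, b ≠ 0 ∧ u m 0 b ∈ stabilizer (Cfsg.Sz F m) α := by
    obtain ⟨a, b, rfl⟩ := hU
    by_cases ha : a = 0
    · subst ha
      exact ⟨b, fun h => hx (by simp [h]), hα⟩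
    · exact ⟨_, mul_ne_zero (th_eq_zero.not.mpr ha) ha, u_sq (m := m) a b ▸ pow_mem hα 2⟩
  have h1 := sq_mem hfix (u_zero_ne_one hb0) (L := U F m) (by
    rintro _ ⟨c, d, rfl⟩
    rwa [mul_assoc, u_comm_iff.mpr (by simp), inv_mul_cancel_left])
  have h2 : ∀ c, u m 0 c ∈ stabilizer (Cfsg.Sz F m) α := by
    intro c
    obtain ⟨k, rfl⟩ := mul_th_surjective (m := m) c
    have := h1 _ (u_mem_U k 0)
    rwa [← sq, u_sq, mul_comm] at this
  have h3 := sq_mem hfix (u_zero_ne_one hb0) (L := B F m) (by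
    intro l hl
    obtain ⟨c, d, s, hs⟩ := mem_B_iff.mp (inv_mem hl)
    have := uh_conj_u_zero (m := m) c d s b
    rw [← hs, inv_inv] at this
    rw [this]
    exact h2 _)
  have h4 : ∀ y ∈ B F m, y ∉ U F m → y ∈ stabilizer (Cfsg.Sz F m) α := fun y hy hyU =>
    mem_of_sq h3 hy (tor_of_mem_B hy hyU).2
  intro y hy
  by_cases hyU : y ∈ U F m
  · obtain ⟨s, hs⟩ := exists_unit_ne_one (F := F)
    have h5 : h m s ∉ U F m := fun h => hs (h_mem_U_iff.mp h)
    have h6 := h4 (y * h m s) (mul_mem hy (H_le_B (h_mem_H s))) fun h =>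
      h5 (by simpa using mul_mem (inv_mem hyU) h)
    simpa using mul_mem h6 (inv_mem (h4 _ (H_le_B (h_mem_H s)) h5))
  · exact h4 y hy hyU

theorem odd_case (hfix : ∀ g : Cfsg.Sz F m, g ≠ 1 → Nat.card (fixedBy Ω g) ≤ 2) {α : Ω}
    (hT : ∀ x ∈ stabilizer (Cfsg.Sz F m) α, x ≠ 1 → Tor x)
    {x : Cfsg.Sz F m} (hx : x ≠ 1) (hα : x ∈ stabilizer _ α) :
    Nat.card (stabilizer (Cfsg.Sz F m) α) = Fintype.card F - 1 := by
  have ht := hT x hα hx
  have h1 : Subgroup.centralizer {x} ≤ stabilizer _ α := fun y hy =>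
    mem_of_sq (sq_mem hfix hx (L := Subgroup.centralizer {x}) fun l hl => by
      rwa [mul_assoc, ← Subgroup.mem_centralizer_singleton_iff.mp hl, inv_mul_cancel_left])
      hy (ht.odd_card.of_dvd_nat (Subgroup.orderOf_dvd_natCard _ hy))
  have hxx : x ∈ Subgroup.centralizer {x} := Subgroup.mem_centralizer_singleton_iff.mpr rfl
  have h2 : stabilizer _ α = Subgroup.centralizer {x} := by
    refine le_antisymm ?_ h1
    have hZ : IsZGroup (stabilizer (Cfsg.Sz F m) α) := by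
      rw [isZGroup_iff]
      intro p hp P
      have : Fact p.Prime := ⟨hp⟩
      have h3 : IsPGroup p (P.1.map (stabilizer (Cfsg.Sz F m) α).subtype) := P.2.map _
      by_cases hp2 : p = 2
      · subst hp2
        have : Subsingleton P := ⟨fun a b => by
          by_contra hab
          obtain ⟨k, hk⟩ := P.2 (a⁻¹ * b)
          have h4 := hT _ (a⁻¹ * b).1.2 fun h => hab (inv_mul_eq_one.mp (Subtype.ext (Subtype.ext h)))
          have h5 : (a⁻¹ * b).1.1 ^ 2 ^ k = 1 := congrArg (fun z => z.1.1) hk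
          exact h4.1 (orderOf_eq_one_iff.mp (((Nat.coprime_two_right.mpr h4.2).pow_right k).eq_one_of_dvd
            (orderOf_dvd_of_pow_eq_one h5)))⟩
        infer_instance
      · have := isCyclic_of_isPGroup hp2 h3
        exact isCyclic_of_surjective _
          (P.1.equivMapOfInjective _ (stabilizer (Cfsg.Sz F m) α).subtype_injective).symm.surjective
    rcases local_of_isSolvable (M := stabilizer (Cfsg.Sz F m) α) inferInstance with
      ⟨p, hp⟩ | ⟨z, -, hz, h3⟩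
    · obtain ⟨k, rfl⟩ := exists_smul_eq (Cfsg.Sz F m) (ptInf F m) p
      rw [stabilizer_eq_cj] at hp
      intro y hy
      rw [Subgroup.mem_centralizer_singleton_iff]
      by_contra hne
      have h4 := commutator_mem_U (mem_cj.mp (hp hy)) (mem_cj.mp (hp hα))
      have h5 := hT _ (mul_mem (mul_mem (mul_mem hy hα) (inv_mem hy)) (inv_mem hα)) fun h => hne (by
        rwa [mul_inv_eq_one, mul_inv_eq_iff_eq_mul] at h)
      apply (h5.conj k⁻¹).not_mem_U
      convert h4 using 1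
      group
    · intro y hy
      by_cases hy1 : y = 1
      · simp [hy1]
      rw [hz.centralizer_eq (hz.mem_of_mem_normalizer ht (h3 hα)) hx]
      exact hz.mem_of_mem_normalizer (hT y hy hy1) (h3 hy)
  rw [h2]
  rcases ht.cases with he | ⟨k, s, hs, rfl⟩
  · exfalso
    let T := (Subgroup.centralizer {x}).subgroupOf
      (Subgroup.normalizer (Subgroup.centralizer {x} : Set (Cfsg.Sz F m)))
    have h3 : T.index = 4 := by
      have h4 := T.index_mul_card
      rw [Nat.card_congr (Subgroup.subgroupOfEquivOfLe Subgroup.le_normalizer).toEquiv,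
        he.card_normalizer] at h4
      exact Nat.eq_of_mul_eq_mul_right Nat.card_pos h4
    have := Fintype.ofFinite (_ ⧸ T)
    obtain ⟨a, b, c, hab, hac, hbc⟩ := (Fintype.two_lt_card_iff (α := _ ⧸ T)).mp (by
      rw [← Nat.card_eq_fintype_card, ← Subgroup.index, h3]
      norm_num)
    obtain ⟨a, rfl⟩ := QuotientGroup.mk_surjective a
    obtain ⟨b, rfl⟩ := QuotientGroup.mk_surjective b
    obtain ⟨c, rfl⟩ := QuotientGroup.mk_surjective c
    have key : ∀ a : Subgroup.normalizer (Subgroup.centralizer {x} : Set (Cfsg.Sz F m)),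
        (a : Cfsg.Sz F m)⁻¹ * x * a ∈ stabilizer _ α := fun a => h1 (by
      simpa using (Subgroup.mem_normalizer_iff.mp (inv_mem a.2) x).mp hxx)
    rw [Ne, QuotientGroup.eq] at hab hac hbc
    have h4 := three hfix hx (key a) (key b) (key c)
    rw [h2] at h4
    rcases h4 with h | h | h
    · exact hab h
    · exact hac h
    · exact hbc h
  · rw [card_centralizer_conj, centralizer_h hs, card_H]

theorem main [IsPretransitive (Cfsg.Sz F m) Ω]
    (hfix : ∀ g : Cfsg.Sz F m, g ≠ 1 → Nat.card (fixedBy Ω g) ≤ 2)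
    (hex : ∃ g : Cfsg.Sz F m, g ≠ 1 ∧ Nat.card (fixedBy Ω g) = 2) :
    (Fintype.card Ω = Fintype.card F ^ 2 + 1 ∧ IsMultiplyPretransitive (Cfsg.Sz F m) Ω 2) ∨
    (Fintype.card Ω = Fintype.card F ^ 2 * (Fintype.card F ^ 2 + 1) ∧
      ∀ α : Ω, Nat.card (stabilizer (Cfsg.Sz F m) α) = Fintype.card F - 1) := by
  obtain ⟨g, hg, h2⟩ := hex
  obtain ⟨α, β, hαβ, h3⟩ := Set.ncard_eq_two.mp h2
  have hα : g ∈ stabilizer (Cfsg.Sz F m) α := by
    have : α ∈ fixedBy Ω g := by simp [h3]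
    exact this
  by_cases hT : ∀ x ∈ stabilizer (Cfsg.Sz F m) α, x ≠ 1 → Tor x
  · right
    have h4 := odd_case hfix hT hg hα
    constructor
    · have h5 := (stabilizer (Cfsg.Sz F m) α).index_mul_card
      rw [index_stabilizer_of_transitive, h4, card_Sz, Nat.card_eq_fintype_card] at h5
      have := eight_le_card (F := F)
      exact Nat.eq_of_mul_eq_mul_right (by omega) h5
    · intro γ
      obtain ⟨k, rfl⟩ := exists_smul_eq (Cfsg.Sz F m) α γ
      rw [← h4]
      exact Nat.card_congr (stabilizerEquivStabilizer (g := k) (a := α) rfl).symm.toEquiv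
  · left
    push Not at hT
    obtain ⟨x, hx, hx1, hxT⟩ := hT
    obtain ⟨k, a, ha, ha1, rfl⟩ := (tor_or_conj_U hx1).resolve_left hxT
    have h4 : B F m ≤ stabilizer _ (k⁻¹ • α) := even_case hfix ha1 ha (by
      rwa [mem_stabilizer_iff, mul_smul, mul_smul, ← eq_inv_smul_iff] at hx)
    generalize k⁻¹ • α = γ at h4
    have h5 : stabilizer (Cfsg.Sz F m) γ = B F m := by
      have : Nontrivial (Cfsg.suzukiOvoid F m) := ⟨⟨_, _, pt_ne_ptInf (0 : F) 0⟩⟩
      have hB : IsCoatom (B F m) := IsPreprimitive.isCoatom_stabilizer_of_isPreprimitive _ _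
      refine (hB.le_iff.mp h4).resolve_left fun h => hαβ ?_
      obtain ⟨k, rfl⟩ := exists_smul_eq (Cfsg.Sz F m) γ α
      obtain ⟨l, rfl⟩ := exists_smul_eq (Cfsg.Sz F m) γ β
      rw [show k • γ = γ from (h ▸ Subgroup.mem_top k : k ∈ stabilizer _ γ),
        show l • γ = γ from (h ▸ Subgroup.mem_top l : l ∈ stabilizer _ γ)]
    have key : ∀ k l : Cfsg.Sz F m, k • γ = l • γ ↔ k • ptInf F m = l • ptInf F m := by
      intro k l
      rw [← inv_smul_eq_iff, ← mul_smul, ← mem_stabilizer_iff, h5, mem_stabilizer_iff, mul_smul,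
        inv_smul_eq_iff]
    constructor
    · rw [← Nat.card_eq_fintype_card, ← index_stabilizer_of_transitive (Cfsg.Sz F m) γ, h5, index_B]
    · rw [is_two_pretransitive_iff]
      intro a b c d hab hcd
      obtain ⟨a, rfl⟩ := exists_smul_eq (Cfsg.Sz F m) γ a
      obtain ⟨b, rfl⟩ := exists_smul_eq (Cfsg.Sz F m) γ b
      obtain ⟨c, rfl⟩ := exists_smul_eq (Cfsg.Sz F m) γ c
      obtain ⟨d, rfl⟩ := exists_smul_eq (Cfsg.Sz F m) γ d
      rw [Ne, key] at hab hcd
      obtain ⟨g, h6, h7⟩ := is_two_pretransitive_iff.mp (instTwoTransitive (F := F) (m := m)) hab hcd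
      exact ⟨g, by rw [← mul_smul, key, mul_smul, h6], by rw [← mul_smul, key, mul_smul, h7]⟩

end


/-- Let q = 2^{2m+1} ≥ 8 and let G be isomorphic to the Suzuki group Sz(q). If G acts faithfully and transitively on a finite set Ω with fixity 2 (every non-identity element fixes at most two points, and some fixes exactly two), then either |Ω| = q² + 1 and the action is 2-transitive, or |Ω| = q²(q² + 1) and the point stabilizers have order q − 1. -/
theorem result {G : Type*} [Group G] [Finite G] (F : Type) [Field F] [Fintype F] (m : ℕ) (hm : 1 ≤ m) (hF : Fintype.card F = 2 ^ (2 * m + 1))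
    (e : G ≃* ↥(Cfsg.Lie.Sz F (2 ^ (m + 1)))) {Ω : Type*} [Fintype Ω] [MulAction G Ω] [FaithfulSMul G Ω] (htr : MulAction.IsPretransitive G Ω)
    (hfix : ∀ g : G, g ≠ 1 → Nat.card (MulAction.fixedBy Ω g) ≤ 2) (hex : ∃ g : G, g ≠ 1 ∧ Nat.card (MulAction.fixedBy Ω g) = 2) :
    (Fintype.card Ω = Fintype.card F ^ 2 + 1 ∧ MulAction.IsMultiplyPretransitive G Ω 2) ∨
    (Fintype.card Ω = Fintype.card F ^ 2 * (Fintype.card F ^ 2 + 1) ∧ ∀ α : Ω, Nat.card (MulAction.stabilizer G α) = Fintype.card F - 1) := by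
  have : H13.Sz.IsSz F m := ⟨hm, hF⟩
  let f : Cfsg.Sz F m ≃* G := (H13.Sz.lieEquiv F m).trans e.symm
  letI : MulAction (Cfsg.Sz F m) Ω := MulAction.compHom Ω f.toMonoidHom
  have hs : ∀ (g : Cfsg.Sz F m) (a : Ω), g • a = f g • a := fun _ _ => rfl
  have : MulAction.IsPretransitive (Cfsg.Sz F m) Ω := ⟨fun a b => by
    obtain ⟨g, hg⟩ := htr.exists_smul_eq a b
    exact ⟨f.symm g, by rw [hs, f.apply_symm_apply, hg]⟩⟩
  obtain ⟨g, hg, h2⟩ := hex
  rcases main (m := m) (Ω := Ω) (fun g hg => hfix (f g) (by simpa using hg))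
    ⟨f.symm g, by simpa using hg, by
      rw [← h2]
      congr 1
      change (MulAction.fixedBy Ω (f (f.symm g)) : Type _) = _
      rw [f.apply_symm_apply]⟩ with ⟨h3, h4⟩ | ⟨h3, h4⟩
  · refine Or.inl ⟨h3, ?_⟩
    rw [MulAction.is_two_pretransitive_iff] at h4 ⊢
    intro a b c d hab hcd
    obtain ⟨k, hk⟩ := h4 hab hcd
    exact ⟨f k, hk⟩
  · refine Or.inr ⟨h3, fun α => ?_⟩
    rw [← h4 α]
    refine Nat.card_congr ⟨fun x => ⟨f.symm x, ?_⟩, fun x => ⟨f x, x.2⟩, fun x => by simp,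
      fun x => by simp⟩
    rw [MulAction.mem_stabilizer_iff, hs, f.apply_symm_apply]
    exact x.2

end Cfsg.Agent.S3391
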