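import Cfsg.Statements.S3396
import Cfsg.Agent.H13.CitJ

set_option autoImplicit false
open Cfsg

namespace Cfsg.Agent.S3396

/-- Let G be a finite group whose order has at least three distinct prime divisors, and suppose every nonidentity element of G has order a power of 2 or a prime other than 5. Then G is isomorphic to PSL₂(7) (here F is any field with 7 elements). In particular a finite group whose set of element orders is {1, 2, 3, 4, 7} is PSL₂(7). -/
theorem result {G : Type*} [Group G] [Finite G]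
    {F : Type*} [Field F] [Fintype F] (hF : Fintype.card F = 7)
    (h3 : 3 ≤ (Nat.card G).primeFactors.card)
    (hord : ∀ g : G, g ≠ 1 → (∃ k : ℕ, orderOf g = 2 ^ k) ∨ ((orderOf g).Prime ∧ orderOf g ≠ 5)) :
    Nonempty (G ≃* Matrix.ProjectiveSpecialLinearGroup (Fin 2) F) := by
  have h : ∀ g : G, g ≠ 1 → IsPrimePow (orderOf g) := fun g hg => by
    obtain ⟨k, e⟩ | e := hord g hg
    · exact e ▸ Nat.prime_two.isPrimePow.pow (by rintro rfl; exact hg (orderOf_eq_one_iff.1 e))
    · exact e.1.isPrimePow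
  have hs : ¬ H18.Solv (⊤ : Subgroup G) := fun hs => by
    have := H13.eppo_two_primes h hs
    rw [Subgroup.card_top] at this
    omega
  have n5 : ¬ H13.Sp G 5 := by
    rintro ⟨x, e⟩
    obtain ⟨k, e'⟩ | e' := hord x (by rintro rfl; simp at e)
    · exact absurd (Nat.prime_five.dvd_of_dvd_pow (dvd_of_eq (e ▸ e'))) (by decide)
    · exact e'.2 e
  have n9 : ¬ H13.Sp G 9 := by
    rintro ⟨x, e⟩
    obtain ⟨k, e'⟩ | e' := hord x (by rintro rfl; simp at e)
    · exact absurd (Nat.prime_three.dvd_of_dvd_pow (n := k) (by rw [← e', e]; decide)) (by decide : ¬ 3 ∣ 2)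
    · exact absurd (e ▸ e'.1) (by decide)
  have h' : ∀ n, Odd n → n ≠ 1 → H13.Sp G n → IsPrimePow n := fun n _ h1 hn => H13.eppo_sp h hn h1
  have hQ : H18.PiGrp {2} (pCore 2 G) := H18.pCore_eq (G := G) Nat.prime_two ▸ H18.pcore_pi
  have h'' : ∀ n, Odd n → n ≠ 1 → H13.Sp (G ⧸ pCore 2 G) n → IsPrimePow n := fun n ho h1 hn =>
    h' n ho h1 ((H13.sp_quot _ hQ ho).2 hn)
  have n5' := mt (H13.sp_prime Nat.prime_five).2 n5
  obtain (⟨K, _, _, ⟨k, hk, hK⟩, ⟨e⟩⟩ | ⟨K, _, _, m, hm, hK, ⟨e⟩⟩) | ⟨-, hf | hf | hf⟩ :=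
    (H13.cit_of_eppo h).classify' hs (pCore 2 G) (H18.pCore_eq Nat.prime_two)
  · have sp := fun n ho => ((H13.sp_quot _ hQ ho).trans (H13.sp_congr e)).trans (H13.sp_psl_even (n := n) hk hK)
    obtain rfl | rfl := H13.eppo_psl_even h'' hk hK e
    exacts [(n5 ((sp _ (by decide)).2 (by decide))).elim, (n9 ((sp _ (by decide)).2 (by decide))).elim]
  · refine (n5' (Dvd.dvd.trans ?_ (Subgroup.card_quotient_dvd_card (pCore 2 G)))).elim
    rw [Nat.card_congr e.toEquiv, H13.card_sz hm hK]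
    exact ((H13.five_dvd m).mul_left _).mul_right _
  · obtain ⟨K, _, _, hK | hK | hK, ⟨e⟩⟩ := hf.eppo h'
    · exact (H13.psl_congr (hK.trans hF.symm)).map e.trans
    · exact (n5' (by rw [Nat.card_congr e.toEquiv, H13.card_psl 360 hK rfl]; decide)).elim
    · exact (n9 ((H13.sp_congr e).2 (by simpa [hK] using H13.sp_psl_plus (F := K)))).elim
  · exact (n5' (by rw [hf.card]; decide)).elim
  · exact (n5' (by rw [hf.card]; decide)).elim

end Cfsg.Agent.S3396
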