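import Cfsg.Statements.S3406
import Cfsg.Agent.H1.Wc
import Cfsg.Agent.H9.Hv1
import Cfsg.Agent.H13.CitJ
import Cfsg.Agent.H21.Crit
import Cfsg.Agent.S0252
import Cfsg.Agent.S0253
import Cfsg.Agent.S0254

set_option autoImplicit false
open Cfsg

namespace Cfsg.Agent.S3406

open H18 H13 Subgroup MulAction
open scoped MatrixGroups

variable {G : Type*} [Group G] [Finite G]

theorem two_primes {X : Subgroup G} (h : ¬ Solv X) : ∃ x ∈ X, ∃ y ∈ X, (orderOf x).Prime ∧ (orderOf y).Prime ∧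
    orderOf x ≠ 2 ∧ orderOf y ≠ 2 ∧ orderOf y ≠ orderOf x := by
  have ex : ∀ p, p.Prime → ∃ x ∈ X, (orderOf x).Prime ∧ orderOf x ≠ 2 ∧ orderOf x ≠ p := fun p hp => by
    by_contra! c
    refine h (H21.solv_paqb Nat.prime_two hp fun q hq hd => or_iff_not_imp_left.2 ?_)
    obtain ⟨x, hx, rfl⟩ := cauchy hq hd
    exact c x hx hq
  obtain ⟨x, hx, h1, h2, -⟩ := ex 2 Nat.prime_two
  obtain ⟨y, hy, h3, h4, h5⟩ := ex _ h1
  exact ⟨x, hx, y, hy, h1, h3, h2, h4, h5⟩

theorem psl_case (six : ∀ a b c d : ℕ, Sp G a → Sp G b → Sp G c → Sp G d → ¬ [1, 2, a, b, c, d].Nodup)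
    {F : Type} [Field F] [Fintype F] (h4 : 4 ≤ Fintype.card F) (e : G ≃* PSL(2, F)) :
    Nonempty (G ≃* ↥(alternatingGroup (Fin 5))) ∨ Nonempty (G ≃* ↥(alternatingGroup (Fin 6))) ∨
      (∃ (F : Type) (_ : Field F) (_ : Fintype F), (Fintype.card F = 7 ∨ Fintype.card F = 8) ∧
        Nonempty (G ≃* PSL(2, F))) := by
  suffices h : Fintype.card F = 4 ∨ Fintype.card F = 5 ∨ Fintype.card F = 9 ∨ Fintype.card F = 7 ∨
      Fintype.card F = 8 by
    rcases h with h | h | h | h
    · exact .inl ((S0252.result h).map e.trans)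
    · exact .inl ((S0253.result h).map e.trans)
    · exact .inr (.inl ((S0254.result h).map e.trans))
    · exact .inr (.inr ⟨F, _, _, h, ⟨e⟩⟩)
  by_contra! c
  obtain ⟨p, hp⟩ := CharP.exists F
  obtain ⟨⟨k, k0⟩, hp', hk⟩ := FiniteField.card F p
  have hk : Fintype.card F = p ^ k := hk
  have pd : p ∣ Fintype.card F := hk ▸ dvd_pow_self _ k0.ne'
  rcases hp'.eq_two_or_odd' with rfl | ho
  · have k4 : 4 ≤ k := by
      by_contra h
      interval_cases k <;> omega
    have h16 : 2 ^ 4 ≤ 2 ^ k := Nat.pow_le_pow_right (by decide) k4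
    have s : ∀ n, n ∣ 2 ^ k + 1 ∨ n ∣ 2 ^ k - 1 → Sp G n := fun n h =>
      (sp_congr e).2 ((sp_psl_even (by omega) hk).2 (.inr h))
    rcases three_dvd k with ⟨a, h⟩ | ⟨a, h⟩
    · exact six 3 a _ _ (s _ (.inl ⟨a, h⟩)) (s _ (.inl ⟨3, by omega⟩)) (s _ (.inl dvd_rfl)) (s _ (.inr dvd_rfl))
        (by simp only [List.nodup_cons, List.mem_cons, List.not_mem_nil, List.nodup_nil, and_true, or_false, not_false_eq_true]; omega)
    · exact six 3 a _ _ (s _ (.inr ⟨a, h⟩)) (s _ (.inr ⟨3, by omega⟩)) (s _ (.inl dvd_rfl)) (s _ (.inr dvd_rfl))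
        (by simp only [List.nodup_cons, List.mem_cons, List.not_mem_nil, List.nodup_nil, and_true, or_false, not_false_eq_true]; omega)
  have qo : Odd (Fintype.card F) := hk ▸ ho.pow
  have s : ∀ n, n ∣ p ∨ n ∣ (Fintype.card F + 1) / 2 ∨ n ∣ (Fintype.card F - 1) / 2 → Sp G n := fun n h =>
    (sp_congr e).2 ((sp_psl_odd hp' pd h4 qo).2 h)
  have p2 := hp'.two_le
  have p1 : ∀ n m, p ∣ n → p ∣ m → n ≠ m + 1 := fun n m h1 h2 e =>
    hp'.not_dvd_one ((Nat.dvd_add_right h2).1 (e ▸ h1))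
  have a1 := p1 _ (4 * p) pd (dvd_mul_left ..)
  have a2 := p1 (4 * p) _ (dvd_mul_left ..) pd
  have a3 := p1 _ (2 * p) pd (dvd_mul_left ..)
  have a4 := p1 (2 * p) _ (dvd_mul_left ..) pd
  rw [Nat.odd_iff] at ho qo
  generalize Fintype.card F = q at *
  rcases (by omega : q % 4 = 1 ∨ q % 4 = 3) with h | h
  · exact six p ((q - 1) / 4) _ _ (s _ (.inl dvd_rfl)) (s _ (.inr (.inr ⟨2, by omega⟩))) (s _ (.inr (.inl dvd_rfl)))
      (s _ (.inr (.inr dvd_rfl)))
      (by simp only [List.nodup_cons, List.mem_cons, List.not_mem_nil, List.nodup_nil, and_true, or_false, not_false_eq_true]; omega)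
  · exact six p ((q + 1) / 4) _ _ (s _ (.inl dvd_rfl)) (s _ (.inr (.inl ⟨2, by omega⟩))) (s _ (.inr (.inl dvd_rfl)))
      (s _ (.inr (.inr dvd_rfl)))
      (by simp only [List.nodup_cons, List.mem_cons, List.not_mem_nil, List.nodup_nil, and_true, or_false, not_false_eq_true]; omega)

/-- A non-abelian finite simple group on whose elements the full automorphism group has at most five orbits is isomorphic to the alternating group of degree 5 or 6, to PSL(2, 7) or to PSL(2, 8). -/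
theorem result {G : Type*} [Group G] [Finite G] [IsSimpleGroup G] (hG : ¬ IsMulCommutative G)
    (h5 : Nat.card (MulAction.orbitRel.Quotient (MulAut G) G) ≤ 5) :
    Nonempty (G ≃* ↥(alternatingGroup (Fin 5))) ∨ Nonempty (G ≃* ↥(alternatingGroup (Fin 6))) ∨
      (∃ (F : Type) (_ : Field F) (_ : Fintype F), (Fintype.card F = 7 ∨ Fintype.card F = 8) ∧
        Nonempty (G ≃* Matrix.ProjectiveSpecialLinearGroup (Fin 2) F)) := by
  classical
  have hns : ¬ Solv (⊤ : Subgroup G) := H1.not_solv_top hG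
  have s2 : Sp G 2 := (sp_prime Nat.prime_two).2 (by
    by_contra c; exact hns (H21.solv_of_odd ((piNat_compl_iff Nat.prime_two).2 (by rwa [card_top]))))
  have six : ∀ a b c d : ℕ, Sp G a → Sp G b → Sp G c → Sp G d → ¬ [1, 2, a, b, c, d].Nodup := by
    intro a b c d ha hb hc hd hn
    let f : orbitRel.Quotient (MulAut G) G → ℕ := Quotient.lift orderOf fun a b ⟨e, he⟩ => by
      rw [← he]; exact e.orderOf_eq b
    have h6 : [1, 2, a, b, c, d].toFinset.card ≤ 5 := by
      refine le_trans ?_ h5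
      rw [← Set.ncard_coe_finset, ← Set.ncard_univ]
      refine (Set.ncard_le_ncard (t := f '' Set.univ) (fun n hn => ?_)).trans (Set.ncard_image_le)
      obtain ⟨x, rfl⟩ : Sp G n := by
        simp only [List.coe_toFinset, List.mem_cons, List.not_mem_nil, or_false, Set.mem_setOf_eq] at hn
        rcases hn with rfl | rfl | rfl | rfl | rfl | rfl <;> first | assumption | exact sp_one
      exact ⟨Quotient.mk _ x, trivial, rfl⟩
    rw [List.toFinset_card_of_nodup hn] at h6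
    simp at h6
  by_cases s4 : Sp G 4
  · obtain ⟨x, -, y, -, h1, h2, h3, h4, h6⟩ := two_primes hns
    have o1 := h1.eq_two_or_odd
    have o2 := h2.eq_two_or_odd
    have o3 := h1.two_le
    have o4 := h2.two_le
    have hC : CIT G := cit_of_graph fun r hr r2 h => six 4 _ _ _ s4 ⟨x, rfl⟩ ⟨y, rfl⟩ h (by
      have := hr.two_le
      simp only [List.nodup_cons, List.mem_cons, List.not_mem_nil, List.nodup_nil, and_true, or_false, not_false_eq_true]; omega)
    rcases hC.classify_simple hns with (⟨F, _, _, ⟨n, hn, hF⟩, ⟨e⟩⟩ | ⟨F, _, _, m, hm, hF, ⟨e⟩⟩) |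
      ⟨F, _, _, h7, -, -, ⟨e⟩⟩ | h
    · exact psl_case six (hF ▸ four_le hn) e
    · have a1 : 2 ^ (m + 1 + 1) ≤ 2 ^ (2 * m + 1) := Nat.pow_le_pow_right (by decide) (by omega)
      have a2 := four_le (k := m + 1) (by omega)
      rw [pow_succ] at a1
      have s := fun n => (sp_congr (n := n) e).trans (sp_sz hm hF)
      exact absurd (by simp only [List.nodup_cons, List.mem_cons, List.not_mem_nil, List.nodup_nil, and_true, or_false, not_false_eq_true]; omega)
        (six 4 _ _ _ s4 ((s _).2 (.inr (.inl dvd_rfl))) ((s _).2 (.inr (.inr (.inl dvd_rfl))))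
          ((s _).2 (.inr (.inr (.inr dvd_rfl)))))
    · exact psl_case six (by omega) e
    · have s : ∀ p, p.Prime → p ∣ 20160 → Sp G p := fun p hp hd => (sp_prime hp).2 (h.card ▸ hd)
      exact absurd (by decide) (six 4 3 5 7 s4 (s 3 (by norm_num) (by decide)) (s 5 (by norm_num) (by decide))
        (s 7 (by norm_num) (by decide)))
  obtain ⟨S, hS⟩ := exists_sylow Nat.prime_two (⊤ : Subgroup G)
  have sq : ∀ x ∈ S, x * x = 1 := fun x hx => by
    obtain ⟨k, hk⟩ := (hS.pi.elt hx).eq_pow (orderOf_pos x).ne'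
    rw [← pow_two, ← orderOf_dvd_iff_pow_eq_one, hk]
    by_contra c
    have k2 : 2 ≤ k := by
      by_contra h
      interval_cases k <;> simp at c
    exact s4 (Sp.of_dvd ⟨x, hk⟩ (pow_dvd_pow 2 k2))
  have hA : H1.AbS S ⊤ := ⟨hS, cent_iff.2 fun a ha b hb => H9.comm_of_sq (sq a ha) (sq b hb) (sq _ (mul_mem ha hb))⟩
  rcases hA.w2_of_solv hG (fun t ht => by
    by_contra c
    obtain ⟨x, hx, y, hy, h1, h2, h3, h4, h6⟩ := two_primes c
    have o1 := h1.eq_two_or_odd
    have o2 := h2.eq_two_or_odd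
    have o3 := h1.two_le
    have o4 := h2.two_le
    refine six _ _ _ _ ⟨x, rfl⟩ ⟨y, rfl⟩ (sp_mul (mem_C1.1 hx) (ht ▸ (Nat.coprime_primes h1 Nat.prime_two).2 h3))
      (sp_mul (mem_C1.1 hy) (ht ▸ (Nat.coprime_primes h2 Nat.prime_two).2 h4)) ?_
    simp only [ht, List.nodup_cons, List.mem_cons, List.not_mem_nil, List.nodup_nil, and_true, or_false, not_false_eq_true]; omega) with
    ⟨F, _, _, -, h, ⟨e⟩⟩ | ⟨k, hk, F, _, _, h, ⟨e⟩⟩
  · exact psl_case six (by omega) e
  · exact psl_case six (h ▸ four_le hk) e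

end Cfsg.Agent.S3406
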