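import Cfsg.Statements.S3412
import Cfsg.Agent.H2.IdM
import Cfsg.Agent.H10.GWs
import Cfsg.Agent.S1001
import Cfsg.Agent.H23.Thompson
import Cfsg.Agent.H8.SelfCent

set_option autoImplicit false
open Cfsg

open H18 H2 H22 Subgroup
open scoped MatrixGroups commutatorElement

namespace Cfsg.Agent.S3412

theorem data {G : Type*} [Group G] [Finite G] {x : G} (hx : orderOf x = 13) (hC : C1(x) = zpowers x) :
    ∃ n, n % 13 = 1 ∧ (zpowers x).relIndex N(zpowers x) ∣ 12 ∧
      Nat.card G = n * ((zpowers x).relIndex N(zpowers x) * 13) := by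
  have : Fact (Nat.Prime 13) := ⟨by norm_num⟩
  obtain ⟨P, hP⟩ := H8.SelfCent.exists_sylow this.out hx hC
  have S : H10.SC P := ⟨by rw [hP, card_zpowers', hx], by rw [hP]; exact C_zpowers.trans hC⟩
  have h1 := S.card_G rfl
  have h2 := H10.relIndex_centralizer_dvd S.hP
  rw [S.hC, hP] at h1 h2
  exact ⟨_, card_sylow_modEq_one 13 G, h2, h1⟩

theorem simple {G : Type*} [Group G] [Finite G] (hc : Nat.card G = 5616) {x : G} (hx : orderOf x = 13)
    (hC : C1(x) = zpowers x) : IsSimpleGroup G := by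
  have p13 : Nat.Prime 13 := by norm_num
  have k : ∀ n e m : ℕ, n % 13 = 1 → e ∣ 12 → n * e = m → (m = 432 → e = 3) ∧ m ≠ 16 ∧ (m = 144 → e = 1) :=
    fun n e m h1 h2 h3 => by
      have := Nat.le_of_dvd (by norm_num) h2
      interval_cases e <;> omega
  have s : ∀ M : Subgroup G, M.Normal → ¬ 13 ∣ Nat.card M → M = ⊥ := fun M hM d => by
    have m := H8.SelfCent.card_mod p13 hx hC M d
    have d1 : Nat.card M ∣ 432 := ((p13.coprime_iff_not_dvd.2 d).symm).dvd_of_dvd_mul_left
      ((card_subgroup_dvd_card M).trans (by rw [hc]))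
    rcases (by decide +kernel : ∀ n ∈ Nat.divisors 432, n % 13 = 1 → n = 1 ∨ n = 27 ∨ n = 144) _
      (Nat.mem_divisors.2 ⟨d1, by norm_num⟩) m with e | e | e
    · exact card_eq_one.1 e
    · obtain ⟨n, h1, h2, h3⟩ := data (H8.SelfCent.quotient_orderOf p13 hx M d)
        (H8.SelfCent.quotient_centralizer p13 hx hC M d)
      have := M.card_mul_index
      rw [index_eq_card, h3, e, hc, ← mul_assoc n] at this
      exact ((k n _ _ h1 h2 rfl).2.1 (by omega)).elim
    · have n := H23.thompson_prime (K := M) (R := zpowers x) norm_of_normal (by rw [card_zpowers', hx]; exact p13)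
        (by rw [C_zpowers, hC]; exact H8.SelfCent.inf_eq_bot p13 hx M d)
      have h := n.pcore_hall (π := {3})
      have : O[{3}](M).Normal := (nml_top.pcore).normal
      have h1 := H8.SelfCent.card_mod p13 hx hC O[{3}](M) fun j => d (j.trans (card_dvd pcore_le))
      have h2 := h.dvd_of_piNat (piNat_pow_self Nat.prime_three 2) (by rw [e]; norm_num)
      have h3 := e ▸ card_dvd h.le
      have h4 := h.pi.not_dvd Nat.prime_two (by norm_num)
      have := Nat.le_of_dvd (by norm_num) h3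
      exfalso
      exact (by decide +kernel : ∀ n ∈ Nat.divisors 144, n % 13 = 1 → 3 ^ 2 ∣ n → 2 ∣ n) _
        (Nat.mem_divisors.2 ⟨h3, by norm_num⟩) h1 h2 |> h4
  have : Nontrivial G := Finite.one_lt_card_iff_nontrivial.1 (by omega)
  refine ⟨fun M hM => or_iff_not_imp_left.2 fun m1 => by_contra fun m2 => ?_⟩
  have d : 13 ∣ Nat.card M := by_contra fun d => m1 (s M hM d)
  have le := H8.SelfCent.zpowers_le_of_dvd p13 hx hC M d
  have fr := H8.SelfCent.normalizer_sup_eq_top p13 hx hC M le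
  obtain ⟨n, h1, h2, h3⟩ := data hx hC
  have i := relIndex_dvd_left (H := N(zpowers x)) le
  rw [(k n _ _ h1 h2 rfl).1 (by rw [← mul_assoc] at h3; omega), ← relIndex_sup_of_norm norm_of_normal, fr,
    relIndex_top_right, Nat.dvd_prime Nat.prime_three, index_eq_one] at i
  have c := M.card_mul_index
  rw [i.resolve_left m2, hc] at c
  have xM := le (mem_zpowers x)
  have hx' : orderOf (⟨x, xM⟩ : M) = 13 := (orderOf_coe _).symm.trans hx
  have hC' : C1((⟨x, xM⟩ : M)) = zpowers ⟨x, xM⟩ := le_antisymm (fun g hg => by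
    obtain ⟨k, e⟩ : (g : G) ∈ zpowers x := hC ▸ mem_C1.2 (congrArg Subtype.val (mem_C1.1 hg))
    exact ⟨k, Subtype.ext e⟩) (zpowers_le.2 C1_self)
  obtain ⟨n, h1, h2, h3⟩ := data hx' hC'
  obtain ⟨h4, h5⟩ := H8.SelfCent.index_commutator_of_relIndex_eq_one p13 hx' hC'
    ((k n _ _ h1 h2 rfl).2.2 (by rw [← mul_assoc] at h3; omega))
  have h6 := s ⁅M, M⁆ inferInstance (by rwa [← map_subtype_commutator, card_map_subtype])
  rw [← map_subtype_commutator, map_eq_bot_iff_of_injective _ M.subtype_injective] at h6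
  rw [h6, index_bot] at h4
  omega

set_option synthInstance.maxSize 2000 in
set_option synthInstance.maxHeartbeats 200000 in
theorem mat (m : Matrix (Fin 3) (Fin 3) (ZMod 3))
    (ca : !![1, 1, 0; 1, 0, 0; 0, 0, 2] * m = m * !![1, 1, 0; 1, 0, 0; 0, 0, 2])
    (cb : !![1, 2, 0; 0, 2, 0; 0, 0, 2] * m = m * !![1, 2, 0; 0, 2, 0; 0, 0, 2]) (hd : m.det = 1) :
    m = 1 ∨ m = !![2, 0, 0; 0, 2, 0; 0, 0, 1] := by
  rw [Matrix.det_fin_three] at hd
  rw [Matrix.eta_fin_three m, Matrix.mul_fin_three, Matrix.mul_fin_three] at ca cb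
  rw [Matrix.eta_fin_three m, Matrix.one_fin_three]
  simp only [EmbeddingLike.apply_eq_iff_eq, Matrix.vecCons_inj, and_true, one_mul, zero_mul, mul_one, mul_zero,
    add_zero, zero_add] at ca cb ⊢
  revert ca cb hd
  generalize m 0 0 = a, m 0 1 = b, m 0 2 = c, m 1 0 = d, m 1 1 = e, m 1 2 = f, m 2 0 = g, m 2 1 = h, m 2 2 = i
  revert a b c d e f g h i
  decide +kernel

theorem cent (u v : PSL(3, ZMod 3)) (u1 : u ≠ 1) (v1 : v ≠ 1) (h : 16 ∣ Nat.card (C1(u) ⊓ C1(v) : Subgroup _)) :
    u = v := by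
  let π : SL(3, ZMod 3) →* PSL(3, ZMod 3) := QuotientGroup.mk' _
  let a : SL(3, ZMod 3) := ⟨!![1, 1, 0; 1, 0, 0; 0, 0, 2], by decide +kernel⟩
  let b : SL(3, ZMod 3) := ⟨!![1, 2, 0; 0, 2, 0; 0, 0, 2], by decide +kernel⟩
  have inj : Function.Injective π := by
    rw [← MonoidHom.ker_eq_bot_iff, QuotientGroup.ker_mk', ← card_eq_one, H10.card_center_SL]
    simp
  have pa : PiGrp {2} (zpowers (π a)) := PiElt.zpowers ((piNat_pow_self Nat.prime_two 3).of_dvd
    (orderOf_dvd_of_pow_eq_one (by rw [← map_pow, show a ^ 2 ^ 3 = 1 by decide +kernel, map_one])))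
  have pb : PiGrp {2} (zpowers (π b)) := (piElt_of_pow_eq_one Nat.prime_two
    (by rw [← map_pow, show b ^ 2 = 1 by decide +kernel, map_one])).zpowers
  have n : π b ∈ N(zpowers (π a)) := mem_N_of_cj_le (by
    rw [cj_zpowers, ← map_inv, ← map_mul, ← map_mul, show b * a * b⁻¹ = a ^ 3 by decide +kernel, map_pow]
    exact zpowers_le.2 (npow_mem_zpowers _ _))
  obtain ⟨T, hT, le⟩ := exists_sylow_le Nat.prime_two (pb.sup_norm pa (zpowers_le.2 n)) le_top
  obtain ⟨R, hR⟩ := exists_sylow Nat.prime_two (C1(u) ⊓ C1(v))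
  have h1 := hR.dvd_of_piNat (piNat_pow_self Nat.prime_two 4) h
  have h2 : Nat.card T ∣ 2 ^ 4 := PiNat.dvd_of_dvd_mul (n := 351) hT.pi ((piNat_compl_iff Nat.prime_two).2 (by norm_num))
    ((card_subgroup_dvd_card T).trans (by rw [Id.card_L33]; norm_num))
  obtain ⟨g, -, e⟩ := sylow_conj Nat.prime_two
    (hT.of_card_le le_top hR.pi (Nat.le_of_dvd card_pos' (h2.trans h1))) hT
  have key : ∀ w : PSL(3, ZMod 3), w ≠ 1 → R ≤ C1(w) → g * w * g⁻¹ = π (a ^ 4) := fun w w1 hw => by
    obtain ⟨m, hm⟩ := QuotientGroup.mk'_surjective _ (g * w * g⁻¹)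
    have c : ∀ d, π d ∈ T → d * m = m * d := fun d hd => inj (by
      rw [map_mul, map_mul, show π m = _ from hm, ← mem_C1, ← cj_C1]
      exact cj_mono hw (e ▸ hd))
    rw [← hm]
    rcases mat m (congrArg Subtype.val (c a (le (mem_sup_right (mem_zpowers _)))))
      (congrArg Subtype.val (c b (le (mem_sup_left (mem_zpowers _))))) m.2 with j | j
    · rw [show m = 1 from Subtype.ext j, map_one] at hm
      exact (w1 (conj_eq_one_iff'.1 hm.symm)).elim
    · exact congrArg π (Subtype.ext (j.trans (by decide +kernel)))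
  exact (MulAut.conj g).injective ((key u u1 (hR.le.trans inf_le_left)).trans (key v v1 (hR.le.trans inf_le_right)).symm)

/-- Let H be a finite group whose commuting graph (vertices the non-identity elements, two joined when they commute) is isomorphic to that of PSL_3(3): there is a bijection between the non-identity elements of H and of PSL_3(3) under which two elements commute exactly when their images do. Then H ≅ PSL_3(3). -/
theorem result {H : Type*} [Group H] [Finite H]
    (f : {h : H // h ≠ 1} ≃ {g : Matrix.ProjectiveSpecialLinearGroup (Fin 3) (ZMod 3) // g ≠ 1})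
    (hf : ∀ x y : {h : H // h ≠ 1}, (x : H) * y = y * x ↔ ((f x) : Matrix.ProjectiveSpecialLinearGroup (Fin 3) (ZMod 3)) * (f y) = (f y) * (f x)) :
    Nonempty (H ≃* Matrix.ProjectiveSpecialLinearGroup (Fin 3) (ZMod 3)) := by
  classical
  have hM := Id.card_L33
  have : IsSimpleGroup PSL(3, ZMod 3) := H10.PSL_isSimpleGroup (by simp)
  let e : H ≃ PSL(3, ZMod 3) := (Equiv.optionSubtypeNe 1).symm.trans (f.optionCongr.trans (Equiv.optionSubtypeNe 1))
  have e1 : e 1 = 1 := by simp [e]
  have e2 : ∀ x : {h : H // h ≠ 1}, e x = f x := fun x => by simp [e, Equiv.optionSubtypeNe_symm_of_ne x.2]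
  have he : ∀ x y : H, x * y = y * x ↔ e x * e y = e y * e x := fun x y => by
    by_cases hx : x = 1
    · simp [hx, e1]
    by_cases hy : y = 1
    · simp [hy, e1]
    rw [e2 ⟨x, hx⟩, e2 ⟨y, hy⟩]
    exact hf ⟨x, hx⟩ ⟨y, hy⟩
  have ne : ∀ x : H, x ≠ 1 → e x ≠ 1 := fun x hx j => hx (e.injective (j.trans e1.symm))
  have hc := (Nat.card_congr e).trans hM
  have p13 : Nat.Prime 13 := by norm_num
  have c13 : ∀ x : H, x ≠ 1 → 13 ∣ Nat.card C1(x) → Nat.card C1(x) = 13 := fun x x1 d => by
    have k : Nat.card C1(x) = Nat.card C1(e x) := Nat.card_congr (e.subtypeEquiv fun y => by simp only [mem_C1, he])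
    rw [k] at d ⊢
    obtain ⟨w, hw, o⟩ := cauchy p13 d
    have c := Cfsg.Agent.S1001.result 13 3 4 p13 hM w o
    have k : Nat.card (zpowers w) = 13 := card_zpowers'.trans o
    rw [C1_eq_of_prime (k ▸ p13) (c ▸ mem_C1_comm.1 hw) (ne x x1), C_zpowers, c, k]
  obtain ⟨x, -, hx⟩ := cauchy p13 (H := (⊤ : Subgroup H)) (by rw [card_top, hc]; norm_num)
  have := simple hc hx (eq_of_card_eq (zpowers_le.2 C1_self) (by
    rw [card_zpowers', hx, c13 x (by rintro rfl; simp at hx) (hx ▸ orderOf_dvd_card C1_self)])).symm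
  have nc : ¬ IsMulCommutative H := H10.not_comm_of_simple_of_not_prime (by rw [hc]; norm_num)
  obtain ⟨S⟩ : Nonempty (Sylow 2 H) := inferInstance
  have hS : Nat.card S = 16 := by
    rw [S.card_eq_multiplicity, hc, show 5616 = 2 ^ 4 * 351 by norm_num,
      Nat.factorization_mul_apply_of_coprime (by norm_num), Nat.prime_two.factorization_pow,
      Nat.factorization_eq_zero_of_not_dvd (by norm_num)]
    simp
  have r2 : PRankLE 2 2 H := fun A hA h => by
    by_contra! hl
    have pA : PiGrp {2} A := piGrp_of_elt fun a ha => piElt_of_pow_eq_one Nat.prime_two (h a ha)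
    obtain ⟨T, hT, le⟩ := exists_sylow_le Nat.prime_two pA le_top
    have cT := (hT.card_eq (hall_sylow_top Nat.prime_two S)).trans hS
    have k : Nat.card (A ⊓ C(T) : Subgroup H) ≤ 2 := by
      by_contra! j
      have := Fintype.ofFinite (A ⊓ C(T) : Subgroup H)
      rw [Nat.card_eq_fintype_card] at j
      obtain ⟨u, v, w, h1, h2, h3⟩ := Fintype.two_lt_card_iff.1 j
      have key : ∀ u v : (A ⊓ C(T) : Subgroup H), u ≠ 1 → v ≠ 1 → u = v := fun u v u1 v1 =>
        Subtype.ext (e.injective (cent _ _ (ne u fun j => u1 (Subtype.ext j)) (ne v fun j => v1 (Subtype.ext j)) (by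
          rw [← Nat.card_congr (e.subtypeEquiv (p := (· ∈ C1((u : H)) ⊓ C1((v : H)))) fun y => by
            simp only [mem_inf, mem_C1, he]), ← cT]
          exact card_dvd (le_inf (le_C1_iff.2 u.2.2) (le_C1_iff.2 v.2.2)))))
      by_cases j : u = 1
      · exact h3 (key _ _ (j ▸ h1.symm) (j ▸ h2.symm))
      by_cases j' : v = 1
      · exact h2 (key _ _ j (j' ▸ h3.symm))
      · exact h1 (key _ _ j j')
    have i := H18.card_mul_relIndex le
    have ab := abel_of_comm hA
    by_cases j : T ≤ A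
    · rw [inf_eq_left.2 (ab.trans (C_anti j))] at k; omega
    have i2 : A.relIndex T = 2 := by
      have := one_lt_relIndex j
      obtain ⟨n, hn⟩ := pA.card_eq_pow
      have : 2 ^ 3 ∣ Nat.card A := hn ▸ pow_dvd_pow 2 (by
        by_contra! l; rw [hn] at hl; exact absurd ((Nat.pow_lt_pow_iff_right one_lt_two).1 hl) (by omega))
      have := Nat.le_of_dvd card_pos' this
      nlinarith
    obtain ⟨s, hs, sA⟩ := SetLike.not_le_iff_exists.1 j
    have c : A ⊓ C1(s) ≤ A ⊓ C(T) := fun a ha => ⟨ha.1, mem_C.2 fun t ht => by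
      by_cases j : t ∈ A
      · exact comm_of_cent ab j ha.1
      · have := comm_of_cent ab (H9.mul_mem_of_relIndex_two i2 (inv_mem hs) ht (by simpa using sA) j) ha.1
        calc _ = s * (s⁻¹ * t * a) := by group
          _ = s * a * s⁻¹ * t := by rw [this]; group
          _ = _ := by rw [← mem_C1.1 ha.2]; group⟩
    have nA := (norm_of_relIndex_two le i2).norm
    have sq : ∀ a ∈ A, a⁻¹ = a := fun a ha => inv_eq_of_mul_eq_one_right (by rw [← sq, h a ha])
    have := H3.card_le_mul_of_comm (A := A) (x := s) (K := A ⊓ C1(s)) fun a ha => by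
      have m := conj_mem nA hs ha
      have ss := comm_of_cent ab (H9.mul_mem_of_relIndex_two i2 hs hs sA sA) ha
      rw [commutatorElement_def, sq a ha, mul_assoc, mul_assoc, ← mul_assoc s]
      refine ⟨mul_mem ha m, mem_C1.2 ?_⟩
      calc _ = a * s * a := by group
        _ = s * (s⁻¹ * a * s * a) := by group
        _ = s * ((s * s)⁻¹ * (s * a * s⁻¹) * (s * s) * a) := by group
        _ = _ := by
          rw [mul_assoc _ _ (s * s), ← comm_of_cent ab (H9.mul_mem_of_relIndex_two i2 hs hs sA sA) m,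
            inv_mul_cancel_left, comm_of_cent ab m ha]
    have := (card_le c).trans k
    nlinarith
  have := Fintype.ofFinite (GaloisField 2 4)
  have hF : Fintype.card (GaloisField 2 4) = 16 := by
    rw [← Nat.card_eq_fintype_card, GaloisField.card 2 4 (by norm_num)]; rfl
  obtain ⟨P⟩ : Nonempty (Sylow 2 (PSU 3 (GaloisField 2 4) 4)) := inferInstance
  rcases Cfsg.Agent.S0516.result nc r2 S hF P with ⟨n, hn, ⟨e⟩⟩ | h | ⟨n, -, e, -⟩ | ⟨⟨e⟩⟩
  · rcases H10.card_of_kn (gw_sylow nc S e) with ⟨q, -, ⟨k, rfl⟩, -, h⟩ | h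
    · rw [hc, Nat.add_sub_cancel] at h
      rcases le_or_gt k 10 with j | j <;> nlinarith [Nat.mul_le_mul j j]
    · omega
  · obtain ⟨k, x, y, q⟩ := exists_qd h
    have o := q.mc.orderOf_u
    have : Group.IsSolvable (centralizer ({x ^ 2 ^ (k + 1 + 1)} : Set H)) := by
      refine H21.solv_paqb Nat.prime_two Nat.prime_three fun r hr hd => ?_
      have d : r ∣ 2 ^ 4 * 3 ^ 3 * 13 := (hd.trans (card_subgroup_dvd_card _)).trans (by rw [hc]; norm_num)
      simp only [hr.dvd_mul, Nat.prime_dvd_prime_iff_eq hr p13] at d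
      rcases d with (d | d) | rfl
      · exact Or.inl ((Nat.prime_dvd_prime_iff_eq hr Nat.prime_two).1 (hr.dvd_of_dvd_pow d))
      · exact Or.inr ((Nat.prime_dvd_prime_iff_eq hr Nat.prime_three).1 (hr.dvd_of_dvd_pow d))
      · have := orderOf_dvd_card (C1_self (x := x ^ 2 ^ (k + 1 + 1)))
        rw [c13 _ (fun e => by simp [e] at o) hd, o] at this
        omega
    obtain ⟨π, hπ⟩ := cz_sd q (simple_no2 nc)
    exact (id_sd hπ).resolve_right (by omega)
  · rw [hS, pow_succ, pow_mul] at e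
    rcases le_or_gt n 1 with j | j
    · interval_cases n <;> omega
    · have := Nat.pow_le_pow_right (show 0 < 2 ^ 2 by norm_num) j
      omega
  · have := (Cfsg.Agent.S1141.result (n := 2) le_rfl hF P).1
    have := ((Nat.card_congr e.toEquiv).trans this).symm.trans hS
    omega


end Cfsg.Agent.S3412
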