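import Cfsg.Statements.S3495
import Cfsg.Agent.H1.Basic

set_option autoImplicit false
open Cfsg

namespace Cfsg.Agent.S3495

open MulAction H1

/-- Let a finite group G act faithfully and primitively on a finite set Ω with non-trivial point stabilizers, each acting primitively on every one of its orbits (an extremely primitive group), and suppose G has an elementary abelian normal p-subgroup N acting regularly on Ω (affine type). Then every non-trivial subgroup M of a point stabilizer G_α that is normal in G_α has the same orbits on Ω as G_α, and normalizes no subgroup of N other than 1 and N. -/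
theorem result {G : Type*} [Group G] [Finite G] {Ω : Type*} [Fintype Ω] [MulAction G Ω] [FaithfulSMul G Ω] (hprim : MulAction.IsPreprimitive G Ω) (hH : ∀ α : Ω, MulAction.stabilizer G α ≠ ⊥) (hep : ∀ (α : Ω) (ω : Ω), MulAction.IsPreprimitive (MulAction.stabilizer G α) (MulAction.orbit (MulAction.stabilizer G α) ω))
    (N : Subgroup G) [N.Normal] (hNc : IsMulCommutative N) (p : ℕ) (hp : p.Prime) (hNp : ∀ n ∈ N, n ^ p = 1)
    (hNtr : MulAction.IsPretransitive N Ω) (hNreg : ∀ ω : Ω, MulAction.stabilizer N ω = ⊥) (α : Ω) (M : Subgroup G) (hM : M ≠ ⊥) (hMle : M ≤ MulAction.stabilizer G α)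
    (hMn : MulAction.stabilizer G α ≤ Subgroup.normalizer (M : Set G)) :
    (∀ ω : Ω, MulAction.orbit M ω = MulAction.orbit (MulAction.stabilizer G α) ω) ∧
    (∀ L : Subgroup G, L ≤ N → M ≤ Subgroup.normalizer (L : Set G) → L = ⊥ ∨ L = N) := by
  set S := stabilizer G α with hS
  have hNS : ∀ n ∈ N, n ∈ S → n = 1 := fun n hn h => by
    have : (⟨n, hn⟩ : N) ∈ stabilizer N α := h
    rw [hNreg] at this
    exact congrArg Subtype.val this
  have hNc' : ∀ a ∈ N, ∀ b ∈ N, a * b = b * a := isMulCommutative_iff.1 hNc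
  haveI : Nontrivial Ω := by
    by_contra hc
    rw [not_nontrivial_iff_subsingleton] at hc
    exact hH α (eq_bot_iff.2 fun g _ => FaithfulSMul.eq_of_smul_eq_smul (α := Ω) fun x => Subsingleton.elim _ _)
  have hmax : IsCoatom S := IsPreprimitive.isCoatom_stabilizer_of_isPreprimitive G α
  have gen : ∀ L : Subgroup G, L ≤ N → S ≤ Subgroup.normalizer (L : Set G) → L = ⊥ ∨ L = N := by
    intro L hL hn
    by_cases hb : L = ⊥
    · exact Or.inl hb
    have h1 : L ⊔ S = ⊤ := hmax.2 _ (lt_of_le_of_ne le_sup_right fun e => hb (eq_bot_iff.2 fun x hx =>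
      hNS x (hL hx) (e ▸ Subgroup.mem_sup_left hx)))
    refine Or.inr (le_antisymm hL fun n hn' => ?_)
    obtain ⟨l, hl, s, hs, rfl⟩ := (mem_sup_of_le_normalizer hn).1 (h1 ▸ Subgroup.mem_top n)
    rw [hNS s ((Subgroup.mul_mem_cancel_left _ (hL hl)).1 hn') hs, mul_one]
    exact hl
  have conj : ∀ s ∈ S, ∀ n : G, (s * n * s⁻¹) • α = s • n • α := fun s hs n => by
    rw [mul_smul, mul_smul, mem_stabilizer_iff.1 (inv_mem hs)]
  have inj : ∀ a ∈ N, ∀ b ∈ N, a • α = b • α → a = b := fun a ha b hb h => by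
    have := hNS (b⁻¹ * a) (mul_mem (inv_mem hb) ha) (by rw [mem_stabilizer_iff, mul_smul, h, inv_smul_smul])
    exact (inv_mul_eq_one.1 this).symm
  have horb : ∀ ω : Ω, orbit M ω = orbit S ω := by
    intro ω
    obtain ⟨⟨n, hn⟩, rfl⟩ := exists_smul_eq N α ω
    change orbit M (n • α) = orbit S (n • α)
    refine Set.Subset.antisymm (by rintro _ ⟨m, rfl⟩; exact ⟨⟨m, hMle m.2⟩, rfl⟩) ?_
    haveI := hep α (n • α)
    haveI : (M.subgroupOf S).Normal := (Subgroup.normal_subgroupOf_iff_le_normalizer hMle).2 hMn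
    by_cases hf : fixedPoints (M.subgroupOf S) (orbit S (n • α)) = Set.univ
    · have h1 : ∀ m ∈ M, m * n * m⁻¹ = n := fun m hm => by
        have h2 : (⟨n • α, mem_orbit_self _⟩ : orbit S (n • α)) ∈ fixedPoints (M.subgroupOf S) (orbit S (n • α)) :=
          hf ▸ Set.mem_univ _
        have h3 : m • n • α = n • α := congrArg Subtype.val (h2 ⟨⟨m, hMle hm⟩, hm⟩)
        exact inj _ ((inferInstance : N.Normal).conj_mem n hn m) _ hn (by rw [conj m (hMle hm), h3])
      rcases gen (N ⊓ Subgroup.centralizer (M : Set G)) inf_le_left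
        (le_normalizer_inf (Subgroup.le_normalizer_of_normal) (le_normalizer_centralizer hMn)) with h | h
      · have : n ∈ (⊥ : Subgroup G) := h ▸ ⟨hn, fun m hm => mul_inv_eq_iff_eq_mul.1 (h1 m hm)⟩
        rw [Subgroup.mem_bot.1 this, one_smul]
        rintro _ ⟨s, rfl⟩
        exact ⟨1, (one_smul _ _).trans (s.2 : s.1 • α = α).symm⟩
      · refine absurd (eq_bot_iff.2 fun m hm => FaithfulSMul.eq_of_smul_eq_smul (α := Ω) fun x => ?_) hM
        obtain ⟨⟨k, hk⟩, rfl⟩ := exists_smul_eq N α x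
        have h4 : k ∈ N ⊓ Subgroup.centralizer (M : Set G) := h.symm ▸ hk
        change m • k • α = (1 : G) • k • α
        rw [one_smul, ← mul_smul, h4.2 m hm, mul_smul, mem_stabilizer_iff.1 (hMle hm)]
    · haveI := IsQuasiPreprimitive.isPretransitive_of_normal (G := S) (X := orbit S (n • α)) hf
      intro x hx
      obtain ⟨m, hm⟩ := exists_smul_eq (M.subgroupOf S) (⟨n • α, mem_orbit_self _⟩ : orbit S (n • α)) ⟨x, hx⟩
      exact ⟨⟨m.1.1, m.2⟩, congrArg Subtype.val hm⟩
  refine ⟨horb, fun L hL hML => gen L hL fun s hs => mem_normalizer_of_conj_mem fun l hl => ?_⟩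
  obtain ⟨m, hm⟩ : s • l • α ∈ orbit M (l • α) := horb _ ▸ ⟨⟨s, hs⟩, rfl⟩
  have h1 := inj _ ((inferInstance : N.Normal).conj_mem l (hL hl) s) _
    ((inferInstance : N.Normal).conj_mem l (hL hl) m) (by rw [conj s hs, conj m (hMle m.2)]; exact hm.symm)
  rw [h1]
  exact conj_mem_of_mem_normalizer (hML m.2) hl

end Cfsg.Agent.S3495
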