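import Cfsg.Statements.S3504
import Mathlib

set_option autoImplicit false
open Cfsg

namespace Cfsg.Agent.S3504

open Equiv Equiv.Perm

theorem ct {n : ℕ} {g : Perm (Fin n)} (hp : (orderOf g).Prime) (h : ∀ i, g i ≠ i) :
    orderOf g ∣ n ∧ g.cycleType = Multiset.replicate (n / orderOf g) (orderOf g) := by
  obtain ⟨k, hk⟩ := cycleType_prime_order hp
  have h1 := sum_cycleType g
  rw [hk, Multiset.sum_replicate, smul_eq_mul, Finset.eq_univ_of_forall (fun i => mem_support.2 (h i)),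
    Finset.card_univ, Fintype.card_fin] at h1
  refine ⟨Dvd.intro_left _ h1, ?_⟩
  rw [hk]
  congr 1
  exact (Nat.div_eq_of_eq_mul_left hp.pos h1.symm).symm

theorem ex {n p : ℕ} (hn : 0 < n) (hp : p.Prime) (h : p ∣ n) :
    ∃ g : Perm (Fin n), orderOf g = p ∧ ∀ i, g i ≠ i := by
  obtain ⟨k, rfl⟩ := h
  obtain ⟨g, hg⟩ := (exists_with_cycleType_iff (Fin (p * k)) (m := Multiset.replicate k p)).2
    ⟨by simp [mul_comm], fun a ha => by rw [Multiset.eq_of_mem_replicate ha]; exact hp.two_le⟩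
  refine ⟨g, ?_, fun i => mem_support.1 ?_⟩
  · rw [← lcm_cycleType, hg]
    have : k ≠ 0 := by rintro rfl; simp at hn
    obtain ⟨k, rfl⟩ := Nat.exists_eq_succ_of_ne_zero this
    refine Nat.dvd_antisymm (Multiset.lcm_dvd.2 fun a ha => by rw [Multiset.eq_of_mem_replicate ha])
      (Multiset.dvd_lcm (Multiset.mem_replicate.2 ⟨this, rfl⟩))
  · rw [Finset.eq_univ_of_card g.support (by rw [← sum_cycleType, hg]; simp [mul_comm])]
    exact Finset.mem_univ _

/-- For n ≥ 5, the fixed-point-free permutations of prime order in the symmetric group of degree n form a single conjugacy class if and only if n is a prime power. -/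
theorem result (n : ℕ) (hn : 5 ≤ n) :
    Nat.card {c : ConjClasses (Equiv.Perm (Fin n)) // ∃ g : Equiv.Perm (Fin n), ConjClasses.mk g = c ∧ (orderOf g).Prime ∧ ∀ i : Fin n, g i ≠ i} = 1 ↔ IsPrimePow n := by
  rw [isPrimePow_iff_unique_prime_dvd, Nat.card_eq_one_iff_exists]
  constructor
  · rintro ⟨⟨c, g, rfl, hp, hg⟩, hc⟩
    refine ⟨orderOf g, ⟨hp, (ct hp hg).1⟩, fun q ⟨hq, hqn⟩ => ?_⟩
    obtain ⟨k, rfl, hk⟩ := ex (by omega) hq hqn
    have := congrArg Subtype.val (hc ⟨_, k, rfl, hq, hk⟩)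
    obtain ⟨u, hu⟩ := ConjClasses.mk_eq_mk_iff_isConj.1 this
    exact hu.orderOf_eq
  · rintro ⟨p, ⟨hp, hpn⟩, hu⟩
    obtain ⟨g, rfl, hg⟩ := ex (by omega) hp hpn
    refine ⟨⟨_, g, rfl, hp, hg⟩, ?_⟩
    rintro ⟨_, k, rfl, hk, hk'⟩
    refine Subtype.ext (ConjClasses.mk_eq_mk_iff_isConj.2 (isConj_iff_cycleType_eq.2 ?_))
    rw [(ct hk hk').2, (ct hp hg).2, hu _ ⟨hk, (ct hk hk').1⟩]

end Cfsg.Agent.S3504
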