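import Cfsg.Statements.S3508
import Mathlib

set_option autoImplicit false
open Cfsg

namespace Cfsg.Agent.S3508

open MulAction

theorem unip {p : ℕ} [Fact p.Prime] {V : Type*} [AddCommGroup V] [Module (ZMod p) V] [Finite V] {m r k : ℕ}
    (hV : Nat.card V = p ^ m) (U : Module.End (ZMod p) (V × ZMod p)) (h1 : U ^ p ^ r = 1) (hk : m < p ^ k) :
    U ^ p ^ k = 1 := by
  have hp : p.Prime := Fact.out
  have hV : Module.finrank (ZMod p) V = m := by
    have h1 := Module.natCard_eq_pow_finrank (K := ZMod p) (V := V)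
    rw [Nat.card_zmod, hV] at h1
    exact (Nat.pow_right_injective hp.two_le h1).symm
  haveI : CharP (Module.End (ZMod p) (V × ZMod p)) p :=
    charP_of_injective_algebraMap (algebraMap (ZMod p) _).injective p
  have h2 : IsNilpotent (U - 1) := ⟨p ^ r, by rw [sub_pow_char_pow_of_commute _ _ (Commute.one_right U), h1]; simp⟩
  have h3 : (U - 1) ^ (m + 1) = 0 := by
    have := LinearMap.aeval_self_charpoly (U - 1)
    rwa [h2.charpoly_eq_X_pow_finrank, Module.finrank_prod, hV, Module.finrank_self, map_pow,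
      Polynomial.aeval_X] at this
  have := pow_eq_zero_of_le (show m + 1 ≤ p ^ k from hk) h3
  rwa [sub_pow_char_pow_of_commute _ _ (Commute.one_right U), one_pow, sub_eq_zero] at this

/-- Let a finite group G act faithfully on a set Ω with p ^ m points (p prime) and have an elementary abelian normal p-subgroup N acting regularly on Ω (so G is a group of affine transformations of an m-dimensional space over the field with p elements). If G contains an element of order p ^ r with r ≥ 1, then p ^ (r − 1) ≤ m. In particular an element of order p ^ m forces m ≤ 2, and m ≤ 1 when p is odd. -/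
theorem result {G : Type*} [Group G] [Finite G] {Ω : Type*} [Fintype Ω] [MulAction G Ω] [FaithfulSMul G Ω] (p m : ℕ) (hp : p.Prime) (hcard : Fintype.card Ω = p ^ m)
    (N : Subgroup G) [N.Normal] (hNc : IsMulCommutative N) (hNp : ∀ n ∈ N, n ^ p = 1)
    (hNtr : MulAction.IsPretransitive N Ω) (hNreg : ∀ ω : Ω, MulAction.stabilizer N ω = ⊥)
    (g : G) (r : ℕ) (hr : 1 ≤ r) (hg : orderOf g = p ^ r) :
    p ^ (r - 1) ≤ m ∧ (r = m → m ≤ 2 ∧ (2 < p → m ≤ 1)) := by
  haveI : Fact p.Prime := ⟨hp⟩
  suffices h : p ^ (r - 1) ≤ m by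
    refine ⟨h, ?_⟩
    rintro rfl
    obtain ⟨r, rfl⟩ : ∃ s, r = s + 1 := ⟨r - 1, by omega⟩
    simp only [Nat.add_sub_cancel] at h
    refine ⟨?_, fun h2 => ?_⟩
    · by_contra hc
      obtain ⟨s, rfl⟩ : ∃ s, r = s + 2 := ⟨r - 2, by omega⟩
      have h1 : 2 ^ (s + 2) ≤ p ^ (s + 2) := Nat.pow_le_pow_left hp.two_le _
      have h2 := Nat.lt_two_pow_self (n := s)
      rw [pow_add] at h1; omega
    · by_contra hc
      obtain ⟨s, rfl⟩ : ∃ s, r = s + 1 := ⟨r - 1, by omega⟩
      have h1 : 3 ^ (s + 1) ≤ p ^ (s + 1) := Nat.pow_le_pow_left h2 _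
      have h2 := Nat.lt_pow_self (n := s) (show 1 < 3 by norm_num)
      rw [pow_succ] at h1; omega
  by_contra hlt
  push Not at hlt
  obtain ⟨α⟩ : Nonempty Ω := Fintype.card_pos_iff.1 (hcard ▸ pow_pos hp.pos m)
  letI : CommGroup N := { (inferInstance : Group N) with mul_comm := hNc.is_comm.comm }
  letI : Module (ZMod p) (Additive N) := AddCommGroup.zmodModule (fun x => by
    apply Additive.toMul.injective
    exact Subtype.ext (by simpa using hNp _ x.toMul.2))
  have hb : Function.Bijective fun n : N => n • α := ⟨fun a b h => by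
    have : b⁻¹ * a ∈ stabilizer N α := by
      rw [mem_stabilizer_iff, mul_smul, show a • α = b • α from h, inv_smul_smul]
    rw [hNreg] at this
    exact (inv_mul_eq_one.1 this).symm, surjective_smul N α⟩
  have hV : Nat.card (Additive N) = p ^ m := by
    rw [show Nat.card (Additive N) = Nat.card N from rfl, Nat.card_eq_of_bijective _ hb,
      Nat.card_eq_fintype_card, hcard]
  obtain ⟨a, ha⟩ := hb.2 (g • α)
  let A : Additive N →ₗ[ZMod p] Additive N :=
    (MonoidHom.toAdditive (MulAut.conjNormal g : MulAut N).toMonoidHom).toZModLinearMap p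
  let U : Module.End (ZMod p) (Additive N × ZMod p) :=
    (A.coprod (LinearMap.toSpanSingleton _ _ (Additive.ofMul a))).prod (LinearMap.snd _ _ _)
  have hU : ∀ (k : ℕ) (v : Additive N), ((U ^ k) (v, 1)).2 = 1 ∧
      ((U ^ k) (v, 1)).1.toMul • α = g ^ k • v.toMul • α := by
    intro k v
    induction k with
    | zero => simp
    | succ k ih =>
      rw [pow_succ', Module.End.mul_apply, pow_succ', mul_smul, ← ih.2]
      refine ⟨ih.1, ?_⟩
      generalize (U ^ k) (v, 1) = w at ih
      obtain ⟨w, c⟩ := w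
      obtain rfl : c = 1 := ih.1
      have : (U (w, 1)).1.toMul = MulAut.conjNormal g w.toMul * a := by simp [U, A]
      rw [this, mul_smul, show a • α = g • α from ha]
      show (g * w.toMul * g⁻¹ : G) • g • α = g • (w.toMul : G) • α
      simp [mul_smul]
  have h1 : U ^ p ^ r = 1 := by
    have h2 : ∀ v, (U ^ p ^ r) (v, 1) = (v, 1) := fun v => Prod.ext (Additive.toMul.injective (hb.1 (by
      have := (hU (p ^ r) v).2
      rwa [← hg, pow_orderOf_eq_one, one_smul, hg] at this))) (hU _ v).1
    refine LinearMap.ext fun ⟨v, c⟩ => ?_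
    have : (v, c) = (v, (1 : ZMod p)) + (c - 1) • ((0 : Additive N), (1 : ZMod p)) := by simp
    rw [this, map_add, map_smul, h2, h2]; rfl
  have h4 := unip hV U h1 hlt
  have h5 : g ^ p ^ (r - 1) = 1 := FaithfulSMul.eq_of_smul_eq_smul (α := Ω) fun x => by
    obtain ⟨v, rfl⟩ := hb.2 x
    have := (hU (p ^ (r - 1)) (Additive.ofMul v)).2
    rw [h4] at this
    rw [one_smul]; exact this.symm
  have h6 := orderOf_dvd_of_pow_eq_one h5
  rw [hg, Nat.pow_dvd_pow_iff_le_right hp.one_lt] at h6
  omega

end Cfsg.Agent.S3508
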