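import Cfsg.Statements.S3511
import Cfsg.Agent.H29.Basic

set_option autoImplicit false
open Cfsg

namespace Cfsg.Agent.S3511

/-- Let a finite group G act faithfully on a set Ω. If every element of G of square-free order has a regular cycle (an orbit of the cyclic group it generates with trivial stabilizer), then every element of G has a regular cycle. -/
theorem result {G : Type*} [Group G] [Finite G] {Ω : Type*} [MulAction G Ω] [FaithfulSMul G Ω]
    (h : ∀ g : G, Squarefree (orderOf g) → ∃ ω : Ω, MulAction.stabilizer (Subgroup.zpowers g) ω = ⊥) (g : G) :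
    ∃ ω : Ω, MulAction.stabilizer (Subgroup.zpowers g) ω = ⊥ := by
  set n := orderOf g with hn
  have hn0 : n ≠ 0 := (orderOf_pos g).ne'
  set m := UniqueFactorizationMonoid.radical n with hm
  obtain ⟨d, hd⟩ : m ∣ n := UniqueFactorizationMonoid.radical_dvd_self
  have hd0 : d ≠ 0 := by rintro rfl; exact hn0 (by simpa using hd)
  have hm0 : m ≠ 0 := by intro h0; rw [h0] at hd; exact hn0 (by simpa using hd)
  have ho : orderOf (g ^ d) = m := by
    rw [orderOf_pow' _ hd0, ← hn, hd, Nat.gcd_mul_left_left, Nat.mul_div_cancel _ (Nat.pos_of_ne_zero hd0)]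
  obtain ⟨ω, hω⟩ := h (g ^ d) (by rw [ho]; exact UniqueFactorizationMonoid.squarefree_radical)
  refine ⟨ω, ?_⟩
  by_contra hne
  obtain ⟨⟨y, hy⟩, hyω, hyp⟩ := H29.exists_orderOf_prime_mem hne
  rw [← Subgroup.orderOf_coe] at hyp
  have hyω' : y • ω = ω := hyω
  simp only at hyp
  have hdvd : orderOf y ∣ m := by
    rw [hm, UniqueFactorizationMonoid.dvd_radical_iff_of_irreducible hyp.prime.irreducible hn0, hn]
    exact orderOf_dvd_of_mem_zpowers hy
  obtain ⟨k, rfl⟩ := (mem_powers_iff_mem_zpowers.mpr hy)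
  have h1 : n ∣ k * m := by
    rw [hn, orderOf_dvd_iff_pow_eq_one, pow_mul, ← orderOf_dvd_iff_pow_eq_one]
    exact hdvd
  rw [hd, mul_comm k m] at h1
  obtain ⟨e, he⟩ := Nat.dvd_of_mul_dvd_mul_left (Nat.pos_of_ne_zero hm0) h1
  have h2 : g ^ k ∈ Subgroup.zpowers (g ^ d) := by
    rw [he, pow_mul]; exact Subgroup.pow_mem _ (Subgroup.mem_zpowers _) _
  have h3 : (⟨g ^ k, h2⟩ : Subgroup.zpowers (g ^ d)) ∈ MulAction.stabilizer (Subgroup.zpowers (g ^ d)) ω := hyω'
  rw [hω, Subgroup.mem_bot] at h3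
  have h4 : g ^ k = 1 := congrArg Subtype.val h3
  simp only [h4, orderOf_one] at hyp
  exact Nat.not_prime_one hyp

end Cfsg.Agent.S3511
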