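import Cfsg.Statements.S3514
import Cfsg.Agent.H1.Basic

set_option autoImplicit false
open Cfsg

namespace Cfsg.Agent.S3514

theorem card_orb {G V : Type*} [Group G] [MulAction G V] (K : Subgroup G) (v : V) :
    Nat.card {u : V | ∃ k ∈ K, k • v = u} = (MulAction.stabilizer G v).relIndex K := by
  have h1 : {u : V | ∃ k ∈ K, k • v = u} = MulAction.orbit K v := by
    ext u; exact ⟨fun ⟨k, hk, h⟩ => ⟨⟨k, hk⟩, h⟩, fun ⟨k, h⟩ => ⟨k, k.2, h⟩⟩
  rw [h1, Nat.card_coe_set_eq, ← MulAction.index_stabilizer]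
  rfl

/-- Let p be a prime, V a finite vector space over the field with p elements, and H a group of linear transformations of V all of whose orbits on V have size coprime to p. (i) Every normal subgroup K of H has all its orbits on V of size coprime to p. (ii) If N is a group of linear transformations of V of order coprime to p that is normalized by H, then the group generated by N and H has all its orbits on V of size coprime to p. -/
theorem result (p : ℕ) [Fact p.Prime] {V : Type*} [AddCommGroup V] [Module (ZMod p) V] [Finite V]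
    (H : Subgroup (V ≃ₗ[ZMod p] V)) (hH : ∀ v : V, ¬ p ∣ Nat.card {u : V | ∃ h ∈ H, h v = u}) :
    (∀ K : Subgroup (V ≃ₗ[ZMod p] V), K ≤ H → H ≤ Subgroup.normalizer (K : Set (V ≃ₗ[ZMod p] V)) →
        ∀ v : V, ¬ p ∣ Nat.card {u : V | ∃ k ∈ K, k v = u}) ∧
    (∀ N : Subgroup (V ≃ₗ[ZMod p] V), ¬ p ∣ Nat.card N → H ≤ Subgroup.normalizer (N : Set (V ≃ₗ[ZMod p] V)) →
        ∀ v : V, ¬ p ∣ Nat.card {u : V | ∃ x ∈ N ⊔ H, x v = u}) := by
  haveI : Finite (V ≃ₗ[ZMod p] V) := Finite.of_injective _ (DFunLike.coe_injective (F := V ≃ₗ[ZMod p] V))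
  have e := fun K v => card_orb (G := V ≃ₗ[ZMod p] V) (V := V) K v
  simp only [LinearEquiv.smul_def] at e
  simp only [e] at hH ⊢
  refine ⟨fun K hK hn v hd => hH v (hd.trans ?_), fun N hN hn v hd => ?_⟩
  · set S := MulAction.stabilizer (V ≃ₗ[ZMod p] V) v
    have h1 := H1.card_sup_mul_card_inf (N := K) (H := S ⊓ H) (inf_le_right.trans hn)
    have h2 := H1.card_inf_mul_relIndex S K
    have h3 := H1.card_mul_relIndex (H := S ⊓ H) (K := K ⊔ S ⊓ H) le_sup_right
    have h4 : K ⊓ (S ⊓ H) = S ⊓ K := by rw [inf_comm, inf_assoc, inf_eq_right.2 hK]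
    rw [h4, ← h3, ← h2] at h1
    have h5 : (S ⊓ H).relIndex (K ⊔ S ⊓ H) = S.relIndex K := by
      apply Nat.eq_of_mul_eq_mul_left (Nat.mul_pos (Nat.card_pos (α := ↥(S ⊓ H))) (Nat.card_pos (α := ↥(S ⊓ K))))
      linarith
    rw [← h5, ← Subgroup.inf_relIndex_right S H]
    exact Dvd.intro _ (Subgroup.relIndex_mul_relIndex _ _ _ le_sup_right (sup_le hK inf_le_right))
  · set S := MulAction.stabilizer (V ≃ₗ[ZMod p] V) v
    have h1 : S.relIndex (N ⊔ H) ∣ (S ⊓ H).relIndex (N ⊔ H) := Subgroup.relIndex_dvd_of_le_left _ inf_le_left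
    rw [← Subgroup.relIndex_mul_relIndex (S ⊓ H) H _ inf_le_right le_sup_right, Subgroup.inf_relIndex_right] at h1
    rcases (Nat.Prime.dvd_mul Fact.out).1 (hd.trans h1) with h | h
    · exact hH v h
    · apply hN (h.trans _)
      have h2 := H1.card_sup_dvd hn
      rw [← H1.card_mul_relIndex (le_sup_right : H ≤ N ⊔ H), mul_comm (Nat.card N)] at h2
      exact Nat.dvd_of_mul_dvd_mul_left Nat.card_pos h2

end Cfsg.Agent.S3514
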