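import Cfsg.Statements.S3515
import Cfsg.Agent.H29.Aff3

set_option autoImplicit false
open Cfsg

namespace Cfsg.Agent.S3515

theorem four : ∀ τ : Equiv.Perm (Fin 2 → ZMod 2), τ 0 = 0 → τ (Pi.single 0 1) = Pi.single 0 1 →
    τ (Pi.single 1 1) = Pi.single 1 1 → τ = 1 := by decide +kernel

/-- Every primitive affine permutation group of degree p² is 3-closed. Let p be a prime and G a group of permutations of the plane V = F_p² consisting of affine maps x ↦ Ax + b, containing all translations, and acting primitively on V. Then any permutation σ of V that agrees on every triple of points with some element of G (σ preserves every G-orbit on ordered triples) already lies in G. -/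
theorem result (p : ℕ) [Fact p.Prime] (G : Subgroup (Equiv.Perm (Fin 2 → ZMod p)))
    (haff : (G : Set (Equiv.Perm (Fin 2 → ZMod p))) ⊆ {τ : Equiv.Perm (Fin 2 → ZMod p) | ∃ (A : (Fin 2 → ZMod p) ≃ₗ[ZMod p] (Fin 2 → ZMod p)) (b : Fin 2 → ZMod p), ∀ x, τ x = A x + b})
    (htrans : ∀ b : Fin 2 → ZMod p, ∃ g ∈ G, ∀ x, g x = x + b) (hprim : MulAction.IsPreprimitive G (Fin 2 → ZMod p))
    (σ : Equiv.Perm (Fin 2 → ZMod p)) (hσ : (∀ t : Fin 3 → (Fin 2 → ZMod p), ∃ g ∈ G, ∀ i, σ (t i) = g (t i))) : σ ∈ G := by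
  obtain ⟨g, hg, h⟩ := hσ ![0, Pi.single 0 1, Pi.single 1 1]
  have h0 : σ 0 = g 0 := h 0
  have h1 : σ (Pi.single 0 1) = g (Pi.single 0 1) := h 1
  have h2 : σ (Pi.single 1 1) = g (Pi.single 1 1) := h 2
  suffices σ = g from this ▸ hg
  by_cases hp : p = 2
  · subst hp
    have := four (g⁻¹ * σ) (by simp [h0]) (by simp [h1]) (by simp [h2])
    exact (inv_mul_eq_one.1 this).symm
  obtain ⟨A, hA⟩ := H29.affine_of_triples (F := ZMod p) (by
    intro h
    exact hp ((Nat.prime_dvd_prime_iff_eq Fact.out Nat.prime_two).1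
      ((ZMod.natCast_eq_zero_iff 2 p).1 (by exact_mod_cast h)))) σ (fun t => by
    obtain ⟨k, hk, h⟩ := hσ t
    obtain ⟨A, b, hA⟩ := haff hk
    exact ⟨A, b, fun i => (h i).trans (hA _)⟩)
  obtain ⟨B, b, hB⟩ := haff hg
  have hb : σ 0 = b := by rw [h0, hB]; simp
  rw [hA, hB, hb, add_left_inj] at h1 h2
  ext1 x
  rw [hA, hB, hb, add_left_inj]
  have : x = x 0 • Pi.single 0 1 + x 1 • Pi.single 1 1 := by
    ext i; fin_cases i <;> simp
  rw [this, map_add, map_add, map_smul, map_smul, map_smul, map_smul, h1, h2]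

end Cfsg.Agent.S3515
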