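import Cfsg.Statements.S3516
import Cfsg.Agent.H29.Aff3

set_option autoImplicit false
open Cfsg

namespace Cfsg.Agent.S3516

/-- Let p be an odd prime, d ≥ 3, and G a group of affine permutations x ↦ Ax + b of V = F_p^d containing all translations and all maps x ↦ Ax with A of determinant 1. Then the 3-closure of G is the full affine group: a permutation σ of V agrees on every triple of points with some element of G if and only if σ is an affine map. -/
theorem result (p : ℕ) [Fact p.Prime] (hp : p ≠ 2) (d : ℕ) (hd : 3 ≤ d) (G : Subgroup (Equiv.Perm (Fin d → ZMod p)))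
    (haff : (G : Set (Equiv.Perm (Fin d → ZMod p))) ⊆ {τ : Equiv.Perm (Fin d → ZMod p) | ∃ (A : (Fin d → ZMod p) ≃ₗ[ZMod p] (Fin d → ZMod p)) (b : Fin d → ZMod p), ∀ x, τ x = A x + b})
    (htrans : ∀ b : Fin d → ZMod p, ∃ g ∈ G, ∀ x, g x = x + b)
    (hsl : ∀ A : (Fin d → ZMod p) ≃ₗ[ZMod p] (Fin d → ZMod p), LinearMap.det (A : (Fin d → ZMod p) →ₗ[ZMod p] (Fin d → ZMod p)) = 1 → ∃ g ∈ G, ∀ x, g x = A x)
    (σ : Equiv.Perm (Fin d → ZMod p)) :
    (∀ t : Fin 3 → (Fin d → ZMod p), ∃ g ∈ G, ∀ i, σ (t i) = g (t i)) ↔ σ ∈ {τ : Equiv.Perm (Fin d → ZMod p) | ∃ (A : (Fin d → ZMod p) ≃ₗ[ZMod p] (Fin d → ZMod p)) (b : Fin d → ZMod p), ∀ x, τ x = A x + b} := by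
  constructor
  · intro hσ
    obtain ⟨A, hA⟩ := H29.affine_of_triples (F := ZMod p) (by
      intro h
      exact hp ((Nat.prime_dvd_prime_iff_eq Fact.out Nat.prime_two).1
        ((ZMod.natCast_eq_zero_iff 2 p).1 (by exact_mod_cast h)))) σ (fun t => by
      obtain ⟨k, hk, h⟩ := hσ t
      obtain ⟨A, b, hA⟩ := haff hk
      exact ⟨A, b, fun i => (h i).trans (hA _)⟩)
    exact ⟨A, _, hA⟩
  rintro ⟨A, b, hA⟩ t
  let W : Submodule (ZMod p) (Fin d → ZMod p) := Submodule.span (ZMod p) {t 1 - t 0, t 2 - t 0}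
  have hW : W < ⊤ := by
    refine lt_top_iff_ne_top.2 fun h => ?_
    have h1 : Module.finrank (ZMod p) W ≤ 2 := by
      have := finrank_span_finset_le_card (R := ZMod p) ({t 1 - t 0, t 2 - t 0} : Finset (Fin d → ZMod p))
      rw [Set.finrank, Finset.coe_pair] at this
      exact this.trans Finset.card_le_two
    rw [h] at h1
    simp at h1
    omega
  obtain ⟨φ, hφ, hφW⟩ := W.exists_le_ker_of_lt_top hW
  obtain ⟨w, hw⟩ : ∃ w, φ w = 1 := LinearMap.surjective hφ 1
  have hc : LinearMap.det (A : (Fin d → ZMod p) →ₗ[ZMod p] (Fin d → ZMod p)) ≠ 0 :=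
    (LinearEquiv.isUnit_det' A).ne_zero
  set c := LinearMap.det (A : (Fin d → ZMod p) →ₗ[ZMod p] (Fin d → ZMod p))
  have hu : IsUnit (1 + φ ((c⁻¹ - 1) • w)) := by simp [hw, hc]
  let D := LinearEquiv.dilatransvection hu
  obtain ⟨g, hg, hg'⟩ := hsl (D.trans A) (by
    rw [LinearEquiv.coe_trans, LinearMap.det_comp, LinearEquiv.dilatransvection.coe_toLinearMap,
      LinearMap.transvection.det]
    simp [hw]
    exact mul_inv_cancel₀ hc)
  obtain ⟨k, hk, hk'⟩ := htrans (A (t 0) + b - A (D (t 0)))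
  refine ⟨k * g, mul_mem hk hg, fun i => ?_⟩
  have h1 : D (t i - t 0) = t i - t 0 := by
    have : t i - t 0 ∈ W := by
      fin_cases i
      · simp
      · exact Submodule.subset_span (by simp)
      · exact Submodule.subset_span (by simp)
    rw [LinearEquiv.dilatransvection.apply, show φ (t i - t 0) = 0 from hφW this]; simp
  have h2 := congrArg A h1
  simp only [map_sub] at h2
  rw [Equiv.Perm.mul_apply, hk', hg', hA, LinearEquiv.trans_apply]
  linear_combination (exp := 1) -h2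

end Cfsg.Agent.S3516
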