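import Cfsg.Statements.S3517
import Cfsg.Agent.H29.Aff3

set_option autoImplicit false
open Cfsg

namespace Cfsg.Agent.S3517

theorem li2 {V : Type*} [AddCommGroup V] [Module (ZMod 2) V] {u v : V} (hu : u ≠ 0) (hv : v ≠ 0) (h : u ≠ v) :
    LinearIndependent (ZMod 2) ![u, v] := by
  rw [LinearIndependent.pair_iff' hu]
  intro a
  have : a = 0 ∨ a = 1 := by revert a; decide
  rcases this with rfl | rfl
  · simpa using hv.symm
  · simpa using h

theorem ex1 {V : Type*} [AddCommGroup V] [Module (ZMod 2) V] {u u' : V} (h : u = 0 ↔ u' = 0) :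
    ∃ A : V ≃ₗ[ZMod 2] V, A u = u' := by
  by_cases hu : u = 0
  · exact ⟨1, by rw [h.1 hu, hu, map_zero]⟩
  obtain ⟨A, hA⟩ := H29.exists_linearEquiv_of_li (F := ZMod 2) (u := fun _ : Unit => u) (v := fun _ => u')
    (linearIndependent_unique_iff.2 hu) (linearIndependent_unique_iff.2 (mt h.2 hu))
  exact ⟨A, hA ()⟩

theorem ex2 {V : Type*} [AddCommGroup V] [Module (ZMod 2) V] {u v u' v' : V} (h1 : u = 0 ↔ u' = 0)
    (h2 : v = 0 ↔ v' = 0) (h3 : u = v ↔ u' = v') : ∃ A : V ≃ₗ[ZMod 2] V, A u = u' ∧ A v = v' := by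
  by_cases hu : u = 0
  · obtain ⟨A, hA⟩ := ex1 h2
    exact ⟨A, by rw [h1.1 hu, hu, map_zero], hA⟩
  by_cases hv : v = 0
  · obtain ⟨A, hA⟩ := ex1 h1
    exact ⟨A, hA, by rw [h2.1 hv, hv, map_zero]⟩
  by_cases h : u = v
  · obtain ⟨A, hA⟩ := ex1 h1
    exact ⟨A, hA, by rw [← h3.1 h, ← h, hA]⟩
  obtain ⟨A, hA⟩ := H29.exists_linearEquiv_of_li (li2 hu hv h) (li2 (mt h1.2 hu) (mt h2.2 hv) (mt h3.2 h))
  exact ⟨A, hA 0, hA 1⟩

/-- For d ≥ 3, the 3-closure of the affine group AGL_d(2) acting on F_2^d is the full symmetric group: every permutation of F_2^d agrees on every ordered triple of points with some affine map (AGL_d(2) is 3-transitive). -/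
theorem result (d : ℕ) (hd : 3 ≤ d) (σ : Equiv.Perm (Fin d → ZMod 2)) (t : Fin 3 → (Fin d → ZMod 2)) :
    ∃ (A : (Fin d → ZMod 2) ≃ₗ[ZMod 2] (Fin d → ZMod 2)) (b : Fin d → ZMod 2), ∀ i, σ (t i) = A (t i) + b := by
  obtain ⟨A, h1, h2⟩ := ex2 (u := t 1 - t 0) (v := t 2 - t 0) (u' := σ (t 1) - σ (t 0)) (v' := σ (t 2) - σ (t 0))
    (by simp [sub_eq_zero]) (by simp [sub_eq_zero]) (by simp)
  rw [map_sub] at h1 h2
  refine ⟨A, σ (t 0) - A (t 0), fun i => ?_⟩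
  fin_cases i
  · simp
  · show σ (t 1) = A (t 1) + _
    linear_combination (exp := 1) -h1
  · show σ (t 2) = A (t 2) + _
    linear_combination (exp := 1) -h2

end Cfsg.Agent.S3517
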