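import Cfsg.Statements.S3518
import Cfsg.Agent.H16.PrimeDeg2

set_option autoImplicit false
open Cfsg

namespace Cfsg.Agent.S3518


/-- Closures of subgroups of the one-dimensional affine group. Let p be a prime and G a group of permutations of F_p lying in the affine group AGL₁(p) = {x ↦ ax + b, a ≠ 0} and containing all translations. (1) If G is a proper subgroup of AGL₁(p), then G is 2-closed: a permutation of F_p agreeing on every ordered pair of points with some element of G lies in G. (2) Every permutation of F_p agrees on every ordered pair with some element of AGL₁(p) (the 2-closure of AGL₁(p) is the symmetric group). (3) AGL₁(p) is 3-closed: a permutation agreeing on every ordered triple with some affine map is affine. -/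
theorem result (p : ℕ) [Fact p.Prime] (G : Subgroup (Equiv.Perm (ZMod p))) (hG : G ≤ Cfsg.affineGroup (ZMod p))
    (htrans : ∀ b : ZMod p, ∃ g ∈ G, ∀ x, g x = x + b) :
    (G ≠ Cfsg.affineGroup (ZMod p) → ∀ σ : Equiv.Perm (ZMod p), (∀ t : Fin 2 → ZMod p, ∃ g ∈ G, ∀ i, σ (t i) = g (t i)) → σ ∈ G) ∧
    (∀ σ : Equiv.Perm (ZMod p), (∀ t : Fin 2 → ZMod p, ∃ g ∈ Cfsg.affineGroup (ZMod p), ∀ i, σ (t i) = g (t i))) ∧
    (∀ σ : Equiv.Perm (ZMod p), (∀ t : Fin 3 → ZMod p, ∃ g ∈ Cfsg.affineGroup (ZMod p), ∀ i, σ (t i) = g (t i)) → σ ∈ Cfsg.affineGroup (ZMod p)) := by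
  have hp : p.Prime := Fact.out
  have two : ∀ (σ : Equiv.Perm (ZMod p)) (x y : ZMod p), ∃ g ∈ Cfsg.affineGroup (ZMod p), σ x = g x ∧ σ y = g y :=
    fun σ x y => by
      have mk : ∀ a b : ZMod p, a ≠ 0 → ∃ g ∈ Cfsg.affineGroup (ZMod p), ∀ x, g x = a * x + b := fun a b a0 =>
        ⟨(Equiv.mulLeft₀ a a0).trans (Equiv.addRight b), ⟨Units.mk0 a a0, b, fun _ => rfl⟩, fun _ => rfl⟩
      by_cases h : x = y
      · obtain ⟨g, hg, e⟩ := mk 1 (σ x - x) one_ne_zero
        exact ⟨g, hg, by simp [e], by simp [e, h]⟩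
      have h' := sub_ne_zero.2 h
      obtain ⟨g, hg, e⟩ := mk ((σ x - σ y) / (x - y)) (σ x - (σ x - σ y) / (x - y) * x)
        (div_ne_zero (sub_ne_zero.2 (σ.injective.ne h)) h')
      exact ⟨g, hg, by simp [e], by rw [e]; field_simp; ring⟩
  refine ⟨fun hne σ hσ => ?_, fun σ t => ?_, fun σ hσ => ?_⟩
  · let C : Subgroup (Equiv.Perm (ZMod p)) :=
      { carrier := {σ | ∀ x y, ∃ g ∈ G, σ x = g x ∧ σ y = g y}
        one_mem' := fun x y => ⟨1, one_mem _, rfl, rfl⟩
        mul_mem' := fun {σ τ} h1 h2 x y => by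
          obtain ⟨g, hg, e1, e2⟩ := h2 x y
          obtain ⟨k, hk, e3, e4⟩ := h1 (g x) (g y)
          exact ⟨k * g, mul_mem hk hg, by simp [e1, e3], by simp [e2, e4]⟩
        inv_mem' := fun {σ} h x y => by
          obtain ⟨g, hg, e1, e2⟩ := h (σ⁻¹ x) (σ⁻¹ y)
          exact ⟨g⁻¹, inv_mem hg, by simpa [Equiv.eq_symm_apply] using e1.symm,
            by simpa [Equiv.eq_symm_apply] using e2.symm⟩ }
    have GC : G ≤ C := fun g hg x y => ⟨g, hg, rfl, rfl⟩
    have ext : ∀ g ∈ Cfsg.affineGroup (ZMod p), g ∈ C → g ∈ G := by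
      rintro g ⟨a, b, e⟩ hg
      obtain ⟨k, hk, e1, e2⟩ := hg 0 1
      obtain ⟨c, d, e'⟩ := hG hk
      simp only [e, e', mul_zero, zero_add, mul_one] at e1 e2
      rwa [show g = k from Equiv.ext fun x => by rw [e1, add_left_inj] at e2; rw [e, e', e1, e2]]
    have : MulAction.IsPretransitive C (ZMod p) := ⟨fun x y => by
      obtain ⟨g, hg, e⟩ := htrans (y - x)
      exact ⟨⟨g, GC hg⟩, (e x).trans (by simp)⟩⟩
    have : Group.IsSolvable C := by_contra fun h => hne (le_antisymm hG fun g hg => ext g hg fun x y => by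
      have h2 := H16.burnside_prime_degree (G := C) (ZMod.card p) h
      obtain ⟨k, e1, e2⟩ := H16.exists_smul2 h2 (zero_ne_one (α := ZMod p)) (g.injective.ne zero_ne_one)
      obtain ⟨u, hu, e3, e4⟩ := k.2 0 1
      obtain ⟨⟨a, b, e⟩, c, d, e'⟩ := And.intro hg (hG hu)
      have e5 : b = d := by simpa [e, e'] using e1.symm.trans e3
      have e6 : (a : ZMod p) = c := by simpa [e, e', e5] using e2.symm.trans e4
      exact ⟨u, hu, by rw [e, e', e5, e6], by rw [e, e', e5, e6]⟩)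
    obtain ⟨t, ht, e⟩ := htrans 1
    have tn : ∀ (n : ℕ) x, (t ^ n) x = x + n := fun n x => by
      induction n with
      | zero => simp
      | succ n ih => rw [pow_succ', Equiv.Perm.mul_apply, e, ih]; simp [add_assoc]
    have hC : σ ∈ C := fun x y => by
      obtain ⟨g, hg, e⟩ := hσ ![x, y]
      exact ⟨g, hg, e 0, e 1⟩
    obtain ⟨P, hP⟩ := (H16.isPGroup_zpowers_of_pow_eq_one (p := p) (n := 1) (g := (⟨t, GC ht⟩ : C))
      (Subtype.ext (Equiv.ext fun x => by simpa using tn p x))).exists_le_sylow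
    have hP' : Subgroup.zpowers (⟨t, GC ht⟩ : C) = P := Subgroup.eq_of_le_of_card_ge hP (by
      rw [(H16.prime_degree_sylow (α := ZMod p) (Nat.card_zmod p) P).1, Nat.card_zpowers]
      exact (orderOf_eq_prime (x := (⟨t, GC ht⟩ : C)) (Subtype.ext (Equiv.ext fun x => by simpa using tn p x)) fun h =>
        one_ne_zero (α := ZMod p) (by simpa [e] using congrArg (fun g : C => g.1 0) h)).ge)
    obtain ⟨n, hn⟩ := (mem_powers_iff_mem_zpowers.2 (hP'.ge ((H16.sylow_normal_of_solvable (α := ZMod p)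
      (Nat.card_zmod p) P).conj_mem _ (hP (Subgroup.mem_zpowers _)) ⟨σ, hC⟩)))
    have h1 : ∀ x, σ (x + 1) = σ x + n := fun x => by
      simpa [tn, e] using (congrArg (fun g : C => g.1 (σ x)) hn).symm
    have h2 : ∀ k : ℕ, σ k = n * k + σ 0 := fun k => by
      induction k with
      | zero => simp
      | succ k ih => rw [Nat.cast_succ, h1, ih]; ring
    refine ext σ ⟨Units.mk0 n fun h => one_ne_zero (σ.injective (by simpa [h] using h2 1)), σ 0, fun x => ?_⟩ hC
    simpa using h2 x.val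
  · obtain ⟨g, hg, e1, e2⟩ := two σ (t 0) (t 1)
    exact ⟨g, hg, fun i => by fin_cases i <;> assumption⟩
  · obtain ⟨g, ⟨a, b, e⟩, h⟩ := hσ ![0, 1, 1]
    refine ⟨a, b, fun x => ?_⟩
    obtain ⟨k, ⟨c, d, e'⟩, h'⟩ := hσ ![0, 1, x]
    have e5 : b = d := by simpa [e, e'] using (h 0).symm.trans (h' 0)
    have e6 : (a : ZMod p) = c := by simpa [e, e', e5] using (h 1).symm.trans (h' 1)
    rw [e5, e6, ← e']
    exact h' 2

end Cfsg.Agent.S3518
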