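import Cfsg.Statements.S3524
import Mathlib

set_option autoImplicit false
open Cfsg

namespace Cfsg.Agent.S3524

/-- A permutation group with a base is closed at one level above the base size. Let G be a group of permutations of a set Ω and suppose some k points α₁, …, α_k are fixed simultaneously only by the identity of G (a base of size k). Then G is (k+1)-closed: a permutation of Ω that agrees on every (k+1)-tuple of points with some element of G belongs to G. -/
theorem result {Ω : Type*} (G : Subgroup (Equiv.Perm Ω)) (k : ℕ) (α : Fin k → Ω)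
    (hbase : ∀ g ∈ G, (∀ i, g (α i) = α i) → g = 1) (σ : Equiv.Perm Ω)
    (hσ : ∀ t : Fin (k + 1) → Ω, ∃ g ∈ G, ∀ i, σ (t i) = g (t i)) : σ ∈ G := by
  have key : ∀ ω : Ω, ∃ g ∈ G, (∀ i, σ (α i) = g (α i)) ∧ σ ω = g ω := by
    intro ω
    obtain ⟨g, hg, h⟩ := hσ (Fin.cons ω α)
    refine ⟨g, hg, fun i => ?_, ?_⟩
    · simpa using h i.succ
    · simpa using h 0
  by_cases hΩ : Nonempty Ω
  · obtain ⟨ω₀⟩ := hΩ
    obtain ⟨g₀, hg₀, h₀, -⟩ := key ω₀
    have : σ = g₀ := by
      ext ω
      obtain ⟨g, hg, h1, h2⟩ := key ω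
      have h3 : g₀⁻¹ * g = 1 := by
        apply hbase _ (G.mul_mem (G.inv_mem hg₀) hg)
        intro i
        simp only [Equiv.Perm.coe_mul, Function.comp_apply]
        rw [← h1, h₀]
        simp
      have h4 : g = g₀ := by
        have := inv_mul_eq_one.mp h3
        exact this.symm
      rw [h2, h4]
    rw [this]; exact hg₀
  · have : σ = 1 := by
      ext ω; exact absurd ⟨ω⟩ hΩ
    rw [this]; exact G.one_mem

end Cfsg.Agent.S3524
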