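import Cfsg.Statements.S3532
import Cfsg.Agent.H11.Semi

set_option autoImplicit false
open Cfsg

namespace Cfsg.Agent.S3532

/-- Let q ≥ 4 be a prime power and L = PSL(2,q). There is a finite solvable group with the same set of element orders as L × L (so L × L is not determined by its spectrum). -/
theorem result {F : Type*} [Field F] [Fintype F] (hF : 4 ≤ Fintype.card F) :
    ∃ (H : Type) (_ : Group H) (_ : Finite H), Group.IsSolvable H ∧
      Set.range (orderOf : H → ℕ) = Set.range (orderOf : Matrix.ProjectiveSpecialLinearGroup (Fin 2) F × Matrix.ProjectiveSpecialLinearGroup (Fin 2) F → ℕ) := by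
  obtain ⟨p, _⟩ := CharP.exists F
  have := Fact.mk (CharP.char_is_prime F p)
  obtain ⟨n, hp, hn⟩ := FiniteField.card F p
  obtain ⟨c, hc⟩ : ∃ c, Fintype.card F = c + 1 := ⟨_, (Nat.sub_add_cancel Fintype.card_pos).symm⟩
  have h := (H11.lu_psl (F := F) (ι := Fin 2) p).two (H11.char_dvd_card p) (B := c + 2) (C := c)
    (by simp [hc]; rw [abs_of_nonneg (by positivity)]; ring) (by simp [hc])
  have d1 := Nat.gcd_dvd_right 2 c
  have d2 := d1.add (Nat.gcd_dvd_left 2 c)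
  obtain ⟨X, _, _, a1, a2⟩ := H11.exists_frobGrp (F := F) p (N := c / Nat.gcd 2 c)
    (by simpa [hc] using Nat.div_dvd_of_dvd d1)
  obtain ⟨Y, _, _, b1, b2⟩ := H11.exists_frobGrp (F := GaloisField p (n * 2)) p
    (N := (c + 2) / Nat.gcd 2 c) ((Nat.div_dvd_of_dvd d2).trans ⟨c, by
      rw [GaloisField.card _ _ (by simp), pow_mul, ← hn, hc]; exact Nat.sub_eq_of_eq_add (by ring)⟩)
  refine ⟨X × Y, inferInstance, inferInstance, inferInstance, Set.Subset.antisymm ?_ ?_⟩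
  · rintro _ ⟨⟨x, y⟩, rfl⟩
    obtain ⟨g, hg⟩ := (h _).2 (((a2 _).1 ⟨x, rfl⟩).imp_right .inr)
    obtain ⟨k, hk⟩ := (h _).2 (((b2 _).1 ⟨y, rfl⟩).imp_right .inl)
    exact ⟨(g, k), by simp [Prod.orderOf_mk, hg, hk]⟩
  rintro _ ⟨⟨g, k⟩, rfl⟩
  obtain ⟨x, hx⟩ := (a2 _).2 (.inl dvd_rfl)
  obtain ⟨x', hx'⟩ := (a2 _).2 (.inr dvd_rfl)
  obtain ⟨y, hy⟩ := (b2 _).2 (.inl dvd_rfl)
  obtain ⟨y', hy'⟩ := (b2 _).2 (.inr dvd_rfl)
  have key : ∀ (x : X) (y : Y), orderOf g ∣ orderOf x ∨ orderOf g ∣ orderOf y →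
      orderOf k ∣ orderOf x ∨ orderOf k ∣ orderOf y → orderOf (g, k) ∈ Set.range (orderOf : X × Y → ℕ) :=
    fun x y h1 h2 => H11.mem_range_of_dvd (g := (x, y)) (by
      simp only [Prod.orderOf_mk]
      exact Nat.lcm_dvd (h1.elim (·.trans (Nat.dvd_lcm_left _ _)) (·.trans (Nat.dvd_lcm_right _ _)))
        (h2.elim (·.trans (Nat.dvd_lcm_left _ _)) (·.trans (Nat.dvd_lcm_right _ _))))
  have h1 := (h _).1 ⟨g, rfl⟩
  have h2 := (h _).1 ⟨k, rfl⟩
  have := key x y'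
  have := key x' y
  have := key x' y'
  simp only [hx, hx', hy, hy'] at *
  tauto

end Cfsg.Agent.S3532
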