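import Cfsg.Statements.S3547
import Cfsg.Agent.H29.Der

set_option autoImplicit false
open Cfsg

namespace Cfsg.Agent.S3547

open MulAction H29

/-- Let G act faithfully and transitively on a finite set Ω, let D be the subgroup generated by the derangements, and let r_G and r_D be the numbers of orbits of G and of D on ordered pairs of points (the permutation ranks). Then r_D − 1 = (r_G − 1)·[G : D]. -/
theorem result {G Ω : Type*} [Group G] [Finite G] [MulAction G Ω] [FaithfulSMul G Ω] [Finite Ω]
    (htrans : MulAction.IsPretransitive G Ω) :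
    Nat.card (MulAction.orbitRel.Quotient ↥(Subgroup.closure {g : G | ∀ ω : Ω, g • ω ≠ ω}) (Ω × Ω)) - 1 =
      (Nat.card (MulAction.orbitRel.Quotient G (Ω × Ω)) - 1) * (Subgroup.closure {g : G | ∀ ω : Ω, g • ω ≠ ω}).index := by
  classical
  haveI := Fintype.ofFinite G
  have h1 := sum_fix_top (G := G) (Ω × Ω)
  rw [← Finset.sum_filter_add_sum_filter_not _ (· ∈ derG G Ω), sum_fix] at h1
  have h2 : ∀ g ∈ Finset.univ.filter (· ∉ derG G Ω), Nat.card (fixedBy (Ω × Ω) g) = 1 := fun g hg => by
    have h3 := der_main.2 g (Finset.mem_filter.1 hg).2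
    have h4 : fixedBy (Ω × Ω) g = fixedBy Ω g ×ˢ fixedBy Ω g := by
      ext x; simp [Prod.ext_iff]
    rw [h4, Nat.card_congr (Equiv.Set.prod _ _), Nat.card_prod, h3]
  rw [Finset.sum_congr rfl h2, Finset.sum_const, smul_eq_mul, mul_one] at h1
  have h4 := card_filter_not_mem (derG G Ω)
  have h5 : 0 < Nat.card (derG G Ω) := Nat.card_pos
  have h6 := (derG G Ω).card_mul_index
  change Nat.card (orbitRel.Quotient (derG G Ω) (Ω × Ω)) - 1 =
    (Nat.card (orbitRel.Quotient G (Ω × Ω)) - 1) * (derG G Ω).index
  generalize Nat.card (orbitRel.Quotient (derG G Ω) (Ω × Ω)) = a at *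
  generalize Nat.card (orbitRel.Quotient G (Ω × Ω)) = b at *
  generalize Nat.card (derG G Ω) = d at *
  generalize (derG G Ω).index = i at *
  generalize (Finset.univ.filter (· ∉ derG G Ω)).card = t at *
  generalize Nat.card G = g at *
  apply Nat.eq_of_mul_eq_mul_left h5
  subst h6
  rw [Nat.sub_mul, Nat.mul_sub, Nat.mul_sub]
  have e1 : d * (b * i) = b * (d * i) := by ring
  have e2 : d * a = a * d := by ring
  rw [e1, e2]
  simp only [one_mul, mul_one]
  omega

end Cfsg.Agent.S3547
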