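import Cfsg.Statements.S3548
import Cfsg.Agent.H16.Der

set_option autoImplicit false
open Cfsg

namespace Cfsg.Agent.S3548


/-- Let G act faithfully and transitively on a finite set with n ≥ 2 points and let D be the subgroup generated by the derangements. Then the index of D in G divides n − 1, and if it equals n − 1 then n is a prime power. -/
theorem result {G Ω : Type*} [Group G] [Finite G] [MulAction G Ω] [FaithfulSMul G Ω] [Finite Ω]
    (htrans : MulAction.IsPretransitive G Ω) (hΩ : 2 ≤ Nat.card Ω) :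
    (Subgroup.closure {g : G | ∀ ω : Ω, g • ω ≠ ω}).index ∣ Nat.card Ω - 1 ∧
    ((Subgroup.closure {g : G | ∀ ω : Ω, g • ω ≠ ω}).index = Nat.card Ω - 1 → IsPrimePow (Nat.card Ω)) := by
  have : Nontrivial Ω := Finite.one_lt_card_iff_nontrivial.1 hΩ
  obtain ⟨a, b, hab⟩ := exists_pair_ne Ω
  refine ⟨H16.index_dvd_card_pred _ H16.der_fix a, fun e => ?_⟩
  obtain ⟨_, h2⟩ := H16.fix_one_of (H16.der G Ω) H16.der_fix
  have k : ∀ x y : Ω, x ≠ y → MulAction.orbit (MulAction.stabilizer G x) y = {x}ᶜ ∧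
      H16.der G Ω ⊓ MulAction.stabilizer G x ≤ MulAction.stabilizer G y := fun x y h => by
    have h3 : MulAction.orbit (MulAction.stabilizer G x) y ⊆ {x}ᶜ := by
      rintro _ ⟨g, rfl⟩ e
      exact h (smul_left_cancel g (g.2.trans (Eq.symm e)))
    have h4 := Subgroup.relIndex_mul_relIndex (MulAction.stabilizer G y ⊓ MulAction.stabilizer G x)
      (H16.der G Ω ⊓ MulAction.stabilizer G x) _ (fun g hg =>
        ⟨by_contra fun hd => h (h2 g hd _ _ hg.2 hg.1), hg.2⟩) inf_le_right
    have h5 := Set.ncard_le_ncard h3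
    have h6 : ({x}ᶜ : Set Ω).ncard = Nat.card Ω - 1 := by simp [Set.ncard_compl {x}]
    rw [Subgroup.inf_relIndex_right, Subgroup.inf_relIndex_right, ← Subgroup.relIndex_sup_right _ (H16.der G Ω),
      H16.sup_eq_top_of_transitive, Subgroup.relIndex_top_right, e, ← H16.ncard_orbit_subgroup] at h4
    have h7 : (MulAction.stabilizer G y ⊓ MulAction.stabilizer G x).relIndex
        (H16.der G Ω ⊓ MulAction.stabilizer G x) = 1 := le_antisymm (Nat.le_of_mul_le_mul_right
      (by omega) (show 0 < Nat.card Ω - 1 by omega)) (Nat.pos_of_ne_zero Subgroup.index_ne_zero_of_finite)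
    exact ⟨Set.eq_of_subset_of_ncard_le h3 (by rw [h7] at h4; omega),
      (Subgroup.relIndex_eq_one.1 h7).trans inf_le_left⟩
  obtain ⟨-, p, hp, -, j, hj, e⟩ := H16.regular_normal_elementary (MulAction.is_two_pretransitive_iff.2
    fun {x y z w} h h' => by
      obtain ⟨g, rfl⟩ := MulAction.exists_smul_eq G x z
      obtain ⟨u, hu⟩ := (k _ _ ((MulAction.injective g).ne h)).1.ge h'.symm
      exact ⟨u * g, (mul_smul ..).trans u.2, (mul_smul ..).trans hu⟩) (H16.der G Ω) a
    (H16.stabilizer_bot_of_forall fun g hg e => H16.eq_one_of_forall_smul (α := Ω) fun y => by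
      by_cases h : a = y
      · exact h ▸ e
      · exact (k a y h).2 ⟨hg, e⟩)
  exact ⟨p, j, hp.prime, hj, e.symm⟩

end Cfsg.Agent.S3548
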