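import Cfsg.Statements.S3549
import Cfsg.Agent.H16.Der

set_option autoImplicit false
open Cfsg

namespace Cfsg.Agent.S3549


/-- Let G act faithfully, transitively but imprimitively on a finite set with n points, and let D be the subgroup generated by the derangements. Then the index of D in G is at most √n − 1. -/
theorem result {G Ω : Type*} [Group G] [Finite G] [MulAction G Ω] [FaithfulSMul G Ω] [Finite Ω]
    (htrans : MulAction.IsPretransitive G Ω) (himp : ¬ MulAction.IsPreprimitive G Ω) :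
    ((Subgroup.closure {g : G | ∀ ω : Ω, g • ω ≠ ω}).index : ℝ) ≤ Real.sqrt (Nat.card Ω) - 1 := by
  have : Nontrivial Ω := not_subsingleton_iff_nontrivial.1 fun _ => himp .of_subsingleton
  obtain ⟨a, b, hab⟩ := exists_pair_ne Ω
  obtain ⟨K, h1, h2⟩ : ∃ K, MulAction.stabilizer G a < K ∧ K ≠ ⊤ := by_contra fun h => himp
    ((MulAction.isCoatom_stabilizer_iff_preprimitive G a).1 ⟨fun e => by
      obtain ⟨g, rfl⟩ := MulAction.exists_smul_eq G a b
      exact hab (e.ge (Subgroup.mem_top g)).symm, by simpa using h⟩)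
  have h3 := H16.index_dvd_card_pred (Ω := G ⧸ K) (H16.der G Ω) (fun g hg => by
    obtain ⟨x, hx⟩ := H16.der_fix g hg
    obtain ⟨u, rfl⟩ := MulAction.exists_smul_eq G a x
    exact ⟨(u : G ⧸ K), QuotientGroup.eq.2 (h1.le (show _ • a = a by
      rw [mul_smul, inv_smul_eq_iff]; exact ((mul_smul g u a).trans hx).symm))⟩) (1 : G)
  have h4 := H16.index_dvd_pred (H16.der G Ω) H16.der_fix a (MulAction.orbit K a \ {a}) (by simp)
    fun g hg x hx => ⟨MulAction.mem_orbit_of_mem_orbit (⟨g, h1.le hg⟩ : K) hx.1,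
      fun e => hx.2 (smul_left_cancel g (Eq.trans e hg.symm))⟩
  rw [Set.ncard_sdiff_singleton_of_mem (MulAction.mem_orbit_self a), H16.ncard_orbit_subgroup] at h4
  rw [← MulAction.index_stabilizer_of_transitive G a, ← Subgroup.relIndex_mul_index h1.le]
  exact H16.le_sqrt_sub_one h4 h3 (Nat.one_lt_iff_ne_zero_and_ne_one.2 ⟨Subgroup.index_ne_zero_of_finite,
    fun e => h1.not_ge (Subgroup.relIndex_eq_one.1 e)⟩) (Subgroup.one_lt_index_of_ne_top h2)

end Cfsg.Agent.S3549
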