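import Cfsg.Statements.S3560
import Cfsg.Agent.H10.Ham

set_option autoImplicit false
open Cfsg

namespace Cfsg.Agent.S3560

/-- Let K be a finite group isomorphic to a direct product of r ≥ 2 groups all of the same order m ≥ 3. Then K is not a B-group: there is a primitive but not doubly transitive permutation group (on some finite set) containing a regular subgroup isomorphic to K. -/
theorem result {K : Type*} [Group K] [Finite K] {ι : Type*} [Fintype ι] (F : ι → Type*) [∀ i, Group (F i)]
    (hr : 2 ≤ Fintype.card ι) (m : ℕ) (hm : 3 ≤ m) (hcard : ∀ i, Nat.card (F i) = m) (e : K ≃* (∀ i, F i)) :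
    ∃ (n : ℕ) (G R : Subgroup (Equiv.Perm (Fin n))), R ≤ G ∧ Nonempty (↥R ≃* K) ∧
      MulAction.IsPretransitive ↥R (Fin n) ∧ (∀ a : Fin n, MulAction.stabilizer ↥R a = ⊥) ∧
      MulAction.IsPreprimitive ↥G (Fin n) ∧ ¬ MulAction.IsMultiplyPretransitive ↥G (Fin n) 2 := by
  classical
  haveI hfin : ∀ i, Finite (F i) := fun i => Nat.finite_of_card_ne_zero (by rw [hcard i]; omega)
  have φ : ∀ i, F i ≃ Fin m := fun i => (Finite.equivFinOfCardEq (hcard i))
  set n := Fintype.card (ι → Fin m) with hn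
  have ψ : Fin n ≃ (ι → Fin m) := (Fintype.equivFin (ι → Fin m)).symm
  let τ : K → ι → Equiv.Perm (Fin m) := fun k i => (φ i).permCongr (Equiv.mulLeft (e k i))
  let ρ : K →* Equiv.Perm (Fin n) :=
    { toFun := fun k => (H10.Ham.el ψ 1 (τ k) : Equiv.Perm (Fin n))
      map_one' := by
        ext a
        congr 1
        apply ψ.injective
        have := H10.Ham.el_smul ψ 1 (τ 1) a
        refine this.trans ?_
        funext i; simp [H10.Ham.wr_apply, τ]
      map_mul' := by
        intro k l
        ext a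
        congr 1
        apply ψ.injective
        have h1 := H10.Ham.el_smul ψ 1 (τ (k * l)) a
        have h2 := H10.Ham.el_smul ψ 1 (τ k) (H10.Ham.el ψ 1 (τ l) • a)
        have h3 := H10.Ham.el_smul ψ 1 (τ l) a
        refine h1.trans (Eq.trans ?_ h2.symm)
        rw [h3]
        funext i; simp [H10.Ham.wr_apply, τ, mul_assoc] }
  have hρ : ∀ k a i, ψ (ρ k a) i = φ i (e k i * (φ i).symm (ψ a i)) := by
    intro k a i
    have := H10.Ham.el_smul ψ 1 (τ k) a
    have h2 : ψ (ρ k a) = _ := this
    rw [h2]; simp [H10.Ham.wr_apply, τ]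
  have hfree : ∀ k a, ρ k a = a → k = 1 := by
    intro k a h
    apply e.injective
    funext i
    have := hρ k a i
    rw [h] at this
    have h2 := congrArg (φ i).symm this
    simp only [Equiv.symm_apply_apply] at h2
    rw [map_one]
    simpa using h2.symm
  have hne : Nonempty (Fin n) := ⟨ψ.symm (fun _ => ⟨0, by omega⟩)⟩
  have hinj : Function.Injective ρ := by
    rw [injective_iff_map_eq_one]
    intro k hk
    obtain ⟨a⟩ := hne
    exact hfree k a (by rw [hk]; rfl)
  haveI : Nontrivial (Fin m) := Fin.nontrivial_iff_two_le.mpr (by omega)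
  refine ⟨n, H10.Ham.aut ψ, ρ.range, ?_, ⟨(MonoidHom.ofInjective hinj).symm⟩, ⟨fun a b => ?_⟩, fun a => ?_,
    H10.Ham.prim ψ (by simpa using hm), H10.Ham.not_two ψ hr⟩
  · rintro _ ⟨k, rfl⟩
    exact (H10.Ham.el ψ 1 (τ k)).2
  · refine ⟨⟨ρ (e.symm (fun i => (φ i).symm (ψ b i) * ((φ i).symm (ψ a i))⁻¹)), _, rfl⟩, ?_⟩
    apply ψ.injective
    funext i
    have := hρ (e.symm (fun i => (φ i).symm (ψ b i) * ((φ i).symm (ψ a i))⁻¹)) a i
    refine Eq.trans this ?_
    simp
  · rw [eq_bot_iff]
    rintro ⟨_, k, rfl⟩ hk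
    have : k = 1 := hfree k a hk
    subst this
    simp

end Cfsg.Agent.S3560
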