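import Cfsg.Statements.S3571
import Cfsg.Agent.H16.Jordan
import Cfsg.Agent.H23.Spec
import Cfsg.Agent.H2.AutAlt

set_option autoImplicit false
open Cfsg

namespace Cfsg.Agent.S3571

open scoped Pointwise
section
open Equiv Equiv.Perm Subgroup MulAction

theorem pow_le (y : ℕ) : ∀ m, y ≤ m → m ^ y ≤ y ^ y * m.choose y := by
  induction y with
  | zero => simp
  | succ y ih =>
    intro m h
    obtain ⟨m, rfl⟩ : ∃ k, m = k + 1 := ⟨m - 1, by omega⟩
    rw [pow_succ (y + 1), mul_assoc, mul_comm (y + 1), ← Nat.add_one_mul_choose_eq, pow_succ, mul_comm (m + 1),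
      ← mul_assoc]
    refine Nat.mul_le_mul_right _ ?_
    rcases Nat.eq_zero_or_pos y with rfl | hy
    · simp
    refine Nat.le_of_mul_le_mul_right (c := y ^ y) ?_ (by positivity)
    calc (m + 1) ^ y * y ^ y = ((m + 1) * y) ^ y := (mul_pow ..).symm
      _ ≤ (m * (y + 1)) ^ y := Nat.pow_le_pow_left (by nlinarith) _
      _ = m ^ y * (y + 1) ^ y := mul_pow ..
      _ ≤ y ^ y * m.choose y * (y + 1) ^ y := Nat.mul_le_mul_right _ (ih m (by omega))
      _ = _ := by ring

theorem count_le (j : ℕ) : Nat.count Nat.Prime (2 * j + 10) ≤ j + 4 := by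
  induction j with
  | zero => decide
  | succ j ih =>
    rw [show 2 * (j + 1) + 10 = 2 * j + 10 + 1 + 1 by ring, Nat.count_succ, Nat.count_succ,
      if_neg (c := Nat.Prime (2 * j + 10)) fun h => by have := h.eq_two_or_odd; omega]
    split_ifs <;> omega

theorem sylv {m k r : ℕ} (hr : r.Prime) (h1 : r ≤ k) (h2 : 2 * k ≤ m) (h3 : r * r ≤ m)
    (h : ∀ p, p.Prime → p ∣ m.choose k → p ≤ r) : False := by
  have h4 := hr.two_le
  have a1 : m.choose r ≤ m.choose k := by
    clear h
    induction k, h1 using Nat.le_induction with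
    | base => rfl
    | succ k _ ih => exact (ih (by omega)).trans (Nat.choose_le_succ_of_lt_half_left (by omega))
  have a2 : m.choose k ≤ m ^ Nat.count Nat.Prime (r + 1) := by
    have h0 : m.choose k ≠ 0 := (Nat.choose_pos (by omega)).ne'
    rw [← Nat.prod_factorization_pow_eq_self h0, Finsupp.prod]
    refine (Finset.prod_le_pow_card _ _ m fun p _ => Nat.pow_factorization_choose_le (by omega)).trans
      (Nat.pow_le_pow_right (by omega) ?_)
    rw [Nat.count_eq_card_filter_range]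
    refine Finset.card_le_card fun p hp => ?_
    rw [Nat.support_factorization, Nat.mem_primeFactors] at hp
    exact Finset.mem_filter.2 ⟨Finset.mem_range.2 (Nat.lt_succ_of_le (h p hp.1 hp.2.1)), hp.1⟩
  have a3 := a1.trans a2
  have a4 := (pow_le r m (by omega)).trans (Nat.mul_le_mul_left _ a3)
  by_cases h9 : 9 ≤ r
  · obtain ⟨j, rfl⟩ : ∃ j, r = 2 * j + 9 := ⟨(r - 9) / 2, by have := hr.eq_two_or_odd; omega⟩
    have a5 := Nat.pow_le_pow_left (a4.trans (Nat.mul_le_mul_left _ (Nat.pow_le_pow_right (by omega) (count_le j)))) 2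
    rw [mul_pow, sq ((2 * j + 9) ^ _), ← mul_pow] at a5
    have a6 := a5.trans (Nat.mul_le_mul_right _ (Nat.pow_le_pow_left h3 _))
    rw [← pow_mul, ← pow_mul, ← pow_add, Nat.pow_le_pow_iff_right (by omega)] at a6
    omega
  by_cases hm : m < 100
  · rw [Nat.choose_eq_descFactorial_div_factorial] at a3
    exact (show ∀ r < 9, r.Prime → ∀ m < 100, r * r ≤ m →
      ¬ m.descFactorial r / r.factorial ≤ m ^ Nat.count Nat.Prime (r + 1) by decide +kernel) r (by omega) hr m hm h3 a3
  obtain ⟨b1, b2⟩ := (show ∀ r < 9, r.Prime → Nat.count Nat.Prime (r + 1) ≤ r ∧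
    r ^ r < 100 ^ (r - Nat.count Nat.Prime (r + 1)) by decide +kernel) r (by omega) hr
  obtain ⟨d, hd⟩ := Nat.exists_eq_add_of_le' b1
  generalize Nat.count Nat.Prime (r + 1) = c at *
  rw [show r - c = d by omega] at b2
  generalize r ^ r = e at *
  rw [hd, pow_add] at a4
  exact (b2.trans_le (Nat.pow_le_pow_left (by omega) _)).not_ge (Nat.le_of_mul_le_mul_right a4 (Nat.pow_pos (by omega)))

theorem mod_lt {m k r : ℕ} (hr : r.Prime) (h2 : 2 * k ≤ m) (hd : r ∣ m.choose k)
    (h : ∀ p, p.Prime → p ∣ m.choose k → p ≤ r) : m % r < k % r ∧ (r = 2 → 5 ≤ m → 4 ∣ m) := by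
  have := Fact.mk hr
  have a1 : k < r ∨ m < r * r := by
    by_contra! e
    exact sylv hr e.1 h2 e.2 h
  have a2 : ∀ a b, a < r → b ≤ a → ¬ r ∣ a.choose b := fun a b h1 h2 h3 =>
    (hr.dvd_factorial.1 (h3.trans (Nat.choose_mul_factorial_mul_factorial h2 ▸
      (dvd_mul_right _ _).mul_right _))).not_gt h1
  have a3 : m % r < k % r := by
    by_contra! e
    have a4 := (Nat.Prime.dvd_mul hr).1 (((Choose.choose_modEq_choose_mod_mul_choose_div_nat (p := r)).dvd_iff
      dvd_rfl).1 hd) |>.resolve_left (a2 _ _ (Nat.mod_lt _ hr.pos) e)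
    rcases a1 with a1 | a1
    · rw [Nat.div_eq_of_lt a1, Nat.choose_zero_right, Nat.dvd_one] at a4
      exact hr.ne_one a4
    · exact a2 _ _ (Nat.div_lt_of_lt_mul a1) (Nat.div_le_div_right (by omega)) a4
  refine ⟨a3, ?_⟩
  rintro rfl h5
  obtain rfl : k = 1 := by omega
  rw [Nat.choose_one_right] at h hd
  obtain ⟨j, rfl⟩ := hd
  obtain ⟨p, hp, e⟩ := Nat.exists_prime_and_dvd (n := j) (by omega)
  obtain rfl := (h p hp (e.mul_left _)).antisymm hp.two_le
  exact Nat.mul_dvd_mul_left 2 e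

variable {α : Type*} [Fintype α] [DecidableEq α] {K : Subgroup (alternatingGroup α)} {r : ℕ}

/-- an element of order `r` with no conjugate in `K` -/
def Der (K : Subgroup (alternatingGroup α)) (r : ℕ) : Prop := ∃ x, orderOf x = r ∧ ∀ σ, σ * x * σ⁻¹ ∉ K

theorem der_a (hr : r.Prime) (h1 : r ∣ K.index) (h2 : ¬ r ∣ Nat.card K) : Der K r := by
  have := Fact.mk hr
  obtain ⟨x, hx⟩ := exists_prime_orderOf_dvd_card' r (h1.trans K.index_dvd_card)
  refine ⟨x, hx, fun σ h => h2 ?_⟩
  rw [← hx, ← (MulAut.conj σ).orderOf_eq]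
  exact orderOf_dvd_natCard _ h

theorem fix (hr : r.Prime) (h : ¬ r ∣ K.index) {x : alternatingGroup α} (hx : orderOf x = r) : ∃ σ, σ * x * σ⁻¹ ∈ K := by
  have := Fact.mk hr
  obtain ⟨q, hq⟩ := (IsPGroup.of_card (G := zpowers x) (p := r) (n := 1)
    (by rw [Nat.card_zpowers, hx, pow_one])).nonempty_fixed_point_of_prime_not_dvd_card (alternatingGroup α ⧸ K) h
  obtain ⟨σ, rfl⟩ := QuotientGroup.mk_surjective q
  have := QuotientGroup.eq.1 (hq ⟨x, mem_zpowers x⟩).symm
  exact ⟨σ⁻¹, by rwa [inv_inv, mul_assoc]⟩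

theorem der_I {s : Finset α} (hs : K ≤ stabilizer _ s) (hr : r.Prime) (h1 : Fintype.card α % r < s.card % r)
    (h2 : r = 2 → 4 ∣ Fintype.card α) : Der K r := by
  have := Fact.mk hr
  have a1 : r ≤ Fintype.card α := by
    by_contra! e
    rw [Nat.mod_eq_of_lt e] at h1
    exact h1.not_ge ((Nat.mod_le _ _).trans s.card_le_univ)
  have a2 : Fintype.card α / r ≠ 0 := (Nat.div_pos a1 hr.pos).ne'
  obtain ⟨x, hx⟩ := (exists_with_cycleType_iff α (m := Multiset.replicate (Fintype.card α / r) r)).2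
    ⟨by simpa using Nat.div_mul_le_self _ _, fun a ha => Multiset.eq_of_mem_replicate ha ▸ hr.two_le⟩
  have a3 : orderOf x = r := by
    rw [← lcm_cycleType, hx]
    exact Nat.dvd_antisymm (Multiset.lcm_dvd.2 fun a ha => (Multiset.eq_of_mem_replicate ha).dvd)
      (Multiset.dvd_lcm (Multiset.mem_replicate.2 ⟨a2, rfl⟩))
  have a4 : sign x = 1 := by
    rw [sign_of_cycleType, hx, Multiset.sum_replicate, Multiset.card_replicate, smul_eq_mul, ← Nat.mul_succ]
    refine Even.neg_one_pow (hr.eq_two_or_odd'.elim (fun e => Even.mul_right ?_ _) fun e => e.add_one.mul_left _)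
    obtain ⟨j, e2⟩ := h2 e
    exact ⟨j, by rw [e]; omega⟩
  refine ⟨⟨x, a4⟩, (orderOf_coe _).symm.trans a3, fun σ h => ?_⟩
  have b1 : ∀ a, (σ.1 * x * σ.1⁻¹) a ∈ s ↔ a ∈ s := mem_stabilizer_finset.1 (hs h)
  have b2 : (σ.1 * x * σ.1⁻¹) ^ r = 1 := by rw [conj_pow, ← a3, pow_orderOf_eq_one]; simp
  have b3 : (σ.1 * x * σ.1⁻¹).support.card = Fintype.card α / r * r := by
    rw [card_support_conj, ← sum_cycleType, hx]; simp
  generalize σ.1 * x * σ.1⁻¹ = y at b1 b2 b3
  have b4 := card_compl_support_modEq (p := r) (n := 1) (σ := y.subtypePerm b1) (by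
    rw [pow_one, subtypePerm_pow]; ext a; simp [b2])
  have b5 : (y.subtypePerm b1).supportᶜ.card ≤ y.supportᶜ.card :=
    Finset.card_le_card_of_injOn Subtype.val (fun a ha => by simpa [Subtype.ext_iff] using ha)
      Subtype.val_injective.injOn
  rw [Finset.card_compl y.support, b3, mul_comm, ← Nat.mod_def] at b5
  rw [Fintype.card_coe, Nat.ModEq] at b4
  exact h1.not_ge (b4 ▸ (Nat.mod_le _ _).trans b5)

theorem half (hr : r.Prime) (h1 : r ∣ K.index) (h2 : r ∣ Nat.card K) : 2 * r ≤ Fintype.card α := by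
  by_contra! e
  exact H23.not_pow_dvd_card_alt hr hr.two_le e (by rw [sq, ← K.index_mul_card]; exact mul_dvd_mul h1 h2)

theorem cyc {p : ℕ} (hp : p.Prime) (h2 : p ≠ 2) (h : p ≤ Fintype.card α) : ∃ x : alternatingGroup α, orderOf x = p ∧
    ∀ σ : alternatingGroup α, (σ * x * σ⁻¹).1.IsCycle ∧ (σ * x * σ⁻¹).1.support.card = p := by
  obtain ⟨x, hx⟩ := (exists_with_cycleType_iff α (m := {p})).2 ⟨by simpa, by simpa using hp.two_le⟩
  have hc : x.IsCycle := card_cycleType_eq_one.1 (by rw [hx]; rfl)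
  have hs : x.support.card = p := by rw [← sum_cycleType, hx]; simp
  exact ⟨⟨x, by rw [mem_alternatingGroup, hc.sign, hs, (hp.odd_of_ne_two h2).neg_one_pow, neg_neg]⟩,
    (orderOf_coe _).symm.trans (hc.orderOf.trans hs), fun σ => ⟨hc.conj, card_support_conj.trans hs⟩⟩

theorem der_P (h5 : 5 ≤ Fintype.card α) {H : Subgroup (Perm α)} (hH : K = H.subgroupOf _) (hK : K ≠ ⊤)
    (ht : IsPretransitive H α) (hr : r.Prime) (h1 : r ∣ K.index) (hm : ∀ s, s.Prime → s ∣ K.index → s ≤ r) :
    Der K r := by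
  classical
  by_cases h2 : r ∣ Nat.card K
  swap
  · exact der_a hr h1 h2
  have a1 := half hr h1 h2
  obtain ⟨p, hp, a2, a3⟩ := Nat.exists_prime_lt_and_le_two_mul (Fintype.card α / 2) (by omega)
  obtain ⟨x, x1, x2⟩ := cyc (α := α) hp (by omega) (by omega)
  obtain ⟨σ, hσ⟩ := fix hp (fun k => by have := hm p hp k; omega) x1
  have pr : IsPreprimitive H α := by
    have := isPretransitive_of_isCycle_mem (x2 σ).1 (G := H) (by rw [hH] at hσ; exact hσ)
    have e : Nat.card (SubMulAction.ofFixingSubgroup H ((σ * x * σ⁻¹).1.support : Set α)ᶜ) = p := by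
      rw [Nat.card_eq_fintype_card, Fintype.card_subtype, ← (x2 σ).2]
      congr 1
      ext x
      simp [SubMulAction.mem_ofFixingSubgroup_iff]
    have := IsPreprimitive.of_prime_card (G := fixingSubgroup H ((σ * x * σ⁻¹).1.support : Set α)ᶜ) (e ▸ hp)
    refine IsPreprimitive.of_card_lt
      (f := SubMulAction.ofFixingSubgroup_equivariantMap H ((σ * x * σ⁻¹).1.support : Set α)ᶜ) ?_
    rw [← Nat.card_coe_set_eq, Nat.card_range_of_injective SubMulAction.ofFixingSubgroup_equivariantMap_injective, e,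
      Nat.card_eq_fintype_card]
    omega
  have no : ¬ alternatingGroup α ≤ H := fun k => hK (hH.trans (subgroupOf_eq_top.2 k))
  have no3 : ∀ g : alternatingGroup α, g ∈ K → g.1.support.card ≠ 3 := fun g hg e => no
    (alternatingGroup_le_of_isPreprimitive_of_isThreeCycle_mem pr (card_support_eq_three_iff.1 e) (by rw [hH] at hg; exact hg))
  by_cases e : r = 2
  · obtain ⟨y, y1, y2⟩ := cyc (α := α) Nat.prime_three (by omega) (by omega)
    obtain ⟨τ, hτ⟩ := fix Nat.prime_three (fun k => by have := hm 3 Nat.prime_three k; omega) y1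
    exact absurd (y2 τ).2 (no3 _ hτ)
  · obtain ⟨y, y1, y2⟩ := cyc (α := α) hr e (by omega)
    have := hr.two_le
    exact ⟨y, y1, fun τ hτ => no (H16.jordan_prime_cycle pr hr (by omega) (y2 τ).1 (y2 τ).2 (by rw [hH] at hτ; exact hτ))⟩

theorem intr [Nonempty α] {H : Subgroup (Perm α)} (h : ¬ IsPretransitive H α) :
    ∃ s : Finset α, 1 ≤ s.card ∧ 2 * s.card ≤ Fintype.card α ∧ H ≤ stabilizer _ s := by
  classical
  obtain ⟨a⟩ := ‹Nonempty α›
  rw [isPretransitive_iff_orbit_eq_univ a] at h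
  have h1 : ∀ g ∈ H, ∀ b, g • b ∈ (orbit H a).toFinset ↔ b ∈ (orbit H a).toFinset := fun g hg b => by
    rw [Set.mem_toFinset, Set.mem_toFinset]
    exact ⟨fun k => inv_smul_smul (⟨g, hg⟩ : H) b ▸ mem_orbit_of_mem_orbit (⟨g, hg⟩ : H)⁻¹ k,
      mem_orbit_of_mem_orbit (⟨g, hg⟩ : H)⟩
  have h2 : 1 ≤ (orbit H a).toFinset.card := Finset.card_pos.2 ⟨a, Set.mem_toFinset.2 (mem_orbit_self a)⟩
  have h3 : (orbit H a).toFinset.card < Fintype.card α := Finset.card_lt_univ_of_notMem
    (x := (Set.ne_univ_iff_exists_notMem _ |>.1 h).choose) fun k =>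
      (Set.ne_univ_iff_exists_notMem _ |>.1 h).choose_spec (Set.mem_toFinset.1 k)
  by_cases k : 2 * (orbit H a).toFinset.card ≤ Fintype.card α
  · exact ⟨_, h2, k, fun g hg => mem_stabilizer_finset.2 (h1 g hg)⟩
  · exact ⟨(orbit H a).toFinsetᶜ, by rw [Finset.card_compl]; omega, by rw [Finset.card_compl]; omega,
      fun g hg => mem_stabilizer_finset.2 fun b => by rw [Finset.mem_compl, Finset.mem_compl, h1 g hg]⟩

theorem idx (h5 : 5 ≤ Fintype.card α) (s : Finset α) :
    (stabilizer (alternatingGroup α) s).index = (Fintype.card α).choose s.card := by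
  have := Set.powersetCard.isPretransitive_alternatingGroup (α := α) (n := s.card)
    (by rw [Nat.card_eq_fintype_card]; omega)
  rw [← Nat.card_eq_fintype_card, ← Set.powersetCard.card,
    ← index_stabilizer_of_transitive (alternatingGroup α) (⟨s, rfl⟩ : Set.powersetCard α s.card)]
  congr 1
  ext g
  rw [mem_stabilizer_iff, mem_stabilizer_iff, Subtype.ext_iff]
  rfl

theorem six (h6 : Fintype.card α = 6) (hK : K ≠ ⊤) (hr : r.Prime) (h1 : r ∣ K.index)
    (hm : ∀ s, s.Prime → s ∣ K.index → s ≤ r) : Der K r := by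
  have : Nonempty α := Fintype.card_pos_iff.1 (by omega)
  by_cases h2 : r ∣ Nat.card K
  swap
  · exact der_a hr h1 h2
  have a1 := half hr h1 h2
  by_cases ht : IsPretransitive (K.map (alternatingGroup α).subtype) α
  · exact der_P (by omega) (comap_map_eq_self_of_injective (alternatingGroup α).subtype_injective K).symm hK ht hr h1 hm
  obtain ⟨s, b1, b2, b3⟩ := intr ht
  have b4 : K ≤ stabilizer _ s := fun g hg => b3 ⟨g, hg, rfl⟩
  have b5 := index_dvd_of_le b4
  rw [idx (by omega), h6] at b5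
  have b6 : ¬ 5 ∣ K.index := fun k => by have := hm 5 Nat.prime_five k; omega
  have b7 : s.card ≤ 3 := by omega
  refine der_I b4 hr ?_ ?_ <;> interval_cases s.card
  all_goals first
    | exact absurd (Dvd.dvd.trans (by decide) b5) b6
    | have := hm 3 Nat.prime_three (Dvd.dvd.trans (by decide) b5)
      obtain rfl : r = 3 := by omega
      omega

end


/-- Let G be an almost simple group whose socle is an alternating group of degree m ≥ 5 (G has a normal subgroup T isomorphic to that alternating group with trivial centralizer), acting faithfully and primitively on a finite set Ω with at least two points, and let r be the largest prime divisor of the number of points. Then G contains an element of order r fixing no point. -/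
theorem result {G Ω : Type*} [Group G] [Finite G] [MulAction G Ω] [FaithfulSMul G Ω] [Finite Ω]
    (T : Subgroup G) (hT : T.Normal) (hTc : Subgroup.centralizer (T : Set G) = ⊥) (m : ℕ) (hm : 5 ≤ m)
    (eT : ↥T ≃* ↥(alternatingGroup (Fin m))) (hprim : MulAction.IsPreprimitive G Ω) (hΩ : 2 ≤ Nat.card Ω)
    (r : ℕ) (hr : r.Prime) (hrd : r ∣ Nat.card Ω) (hmax : ∀ s : ℕ, s.Prime → s ∣ Nat.card Ω → s ≤ r) :
    ∃ g : G, orderOf g = r ∧ ∀ ω : Ω, g • ω ≠ ω := by
  let ψ : alternatingGroup (Fin m) →* G := T.subtype.comp eT.symm.toMonoidHom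
  have : Nontrivial Ω := Finite.one_lt_card_iff_nontrivial.1 hΩ
  obtain ⟨ω⟩ : Nonempty Ω := inferInstance
  have tr : MulAction.IsPretransitive T Ω := MulAction.IsQuasiPreprimitive.isPretransitive_of_normal fun h => by
    have : Nontrivial (alternatingGroup (Fin m)) := alternatingGroup.nontrivial_of_three_le_card (by simp; omega)
    obtain ⟨x, hx⟩ := exists_ne (1 : alternatingGroup (Fin m))
    refine hx (eT.symm.map_eq_one_iff.1 (Subtype.ext (eq_of_smul_eq_smul (α := Ω) fun a => ?_)))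
    exact (h.ge (Set.mem_univ a) (eT.symm x)).trans (one_smul _ _).symm
  have tr' : ∀ a b : Ω, ∃ σ, ψ σ • a = b := fun a b => let ⟨t, e⟩ := tr.exists_smul_eq a b; ⟨eT t, (congrArg (· • a) (eT.symm_apply_apply t)).trans e⟩
  let K := (MulAction.stabilizer G ω).comap ψ
  have hi : K.index = Nat.card Ω := by
    let := MulAction.compHom Ω ψ
    have : MulAction.IsPretransitive (alternatingGroup (Fin m)) Ω := ⟨tr'⟩
    exact MulAction.index_stabilizer_of_transitive (alternatingGroup (Fin m)) ω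
  have hK : K ≠ ⊤ := fun e => by rw [e, Subgroup.index_top] at hi; omega
  rw [← hi] at hrd hmax
  suffices h : Der K r by
    obtain ⟨x, h1, h2⟩ := h
    refine ⟨ψ x, (orderOf_injective ψ (T.subtype_injective.comp eT.symm.injective) x).trans h1, fun a e => ?_⟩
    obtain ⟨σ, rfl⟩ := tr' ω a
    refine h2 σ⁻¹ (show ψ _ • ω = ω from ?_)
    rw [inv_inv, map_mul, map_mul, mul_smul, mul_smul, e, map_inv, inv_smul_smul]
  by_cases h6 : m = 6
  · exact six (by simpa using h6) hK hr hrd hmax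
  let e := MulEquiv.ofBijective _ (H2.conjNormal_alt_bijective (α := Fin m) (by simp; omega) (by simpa using h6))
  let φ : G →* Equiv.Perm (Fin m) :=
    e.symm.toMonoidHom.comp ((MulAut.congr eT).toMonoidHom.comp (MulAut.conjNormal (H := T)))
  have inj : Function.Injective φ := (injective_iff_map_eq_one φ).2 fun g hg => hTc.le fun t ht => by
    have h1 : MulAut.conjNormal g = (1 : MulAut T) := (MulAut.congr eT).map_eq_one_iff.1 (e.symm.map_eq_one_iff.1 hg)
    have := congrArg Subtype.val (DFunLike.congr_fun h1 ⟨t, ht⟩)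
    rw [MulAut.conjNormal_apply] at this
    exact (mul_inv_eq_iff_eq_mul.1 this).symm
  have φψ : ∀ a, φ (ψ a) = a := fun a => e.symm_apply_eq.2 (MulEquiv.ext fun b => by
    have : MulAut.conjNormal (ψ a) (eT.symm b) = eT.symm (a * b * a⁻¹) := Subtype.ext (by simp [ψ])
    change eT (MulAut.conjNormal (ψ a) (eT.symm b)) = _
    rw [this, eT.apply_symm_apply]
    exact Subtype.ext (MulAut.conjNormal_apply _ _).symm)
  have hH : K = ((MulAction.stabilizer G ω).map φ).subgroupOf _ := Subgroup.ext fun a =>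
    ⟨fun h => ⟨_, h, φψ a⟩, fun ⟨g, h1, h2⟩ => show ψ a ∈ _ from inj (h2.trans (φψ a).symm) ▸ h1⟩
  by_cases ht : MulAction.IsPretransitive ((MulAction.stabilizer G ω).map φ) (Fin m)
  · exact der_P (by simpa using hm) hH hK ht hr hrd hmax
  have : Nonempty (Fin m) := ⟨⟨0, by omega⟩⟩
  obtain ⟨s, b1, b2, b3⟩ := intr ht
  have b4 := idx (by simpa using hm) s
  have b5 : ∀ a, ψ a ∈ (MulAction.stabilizer _ s).comap φ ↔ a ∈ MulAction.stabilizer (alternatingGroup (Fin m)) s :=
    fun a => by rw [Subgroup.mem_comap, φψ]; rfl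
  have b6 : K = MulAction.stabilizer _ s := Subgroup.ext fun a => by
    rw [← b5, (MulAction.IsPreprimitive.isCoatom_stabilizer_of_isPreprimitive G ω).le_iff_eq
      (fun k => ?_) |>.1 (Subgroup.map_le_iff_le_comap.1 b3)]
    · rfl
    rw [(Subgroup.eq_top_iff' _).2 fun a => (b5 a).1 (k.ge trivial), Subgroup.index_top, eq_comm,
      Nat.choose_eq_one_iff] at b4
    omega
  rw [b6, b4] at hrd hmax
  obtain ⟨c1, c2⟩ := mod_lt hr b2 hrd hmax
  exact der_I b6.le hr c1 fun k => c2 k (by simpa using hm)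

end Cfsg.Agent.S3571
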