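import Cfsg.Statements.S3572
import Cfsg.Agent.H9.DB3

set_option autoImplicit false
open Cfsg

namespace Cfsg.Agent.S3572

/-- A finite primitive permutation group containing a dihedral subgroup that acts regularly (transitively with trivial point stabilizers) is doubly transitive. -/
theorem result {G Ω : Type*} [Group G] [Finite G] [MulAction G Ω] [FaithfulSMul G Ω] [Finite Ω]
    (hprim : MulAction.IsPreprimitive G Ω) (D : Subgroup G) (m : ℕ) (hD : Nonempty (↥D ≃* DihedralGroup m))
    (hDreg : MulAction.IsPretransitive ↥D Ω ∧ ∀ a : Ω, MulAction.stabilizer ↥D a = ⊥) :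
    MulAction.IsMultiplyPretransitive G Ω 2 := by
---
  obtain ⟨e⟩ := hD
  obtain ⟨h1, h2⟩ := hDreg
  have : Finite (DihedralGroup m) := .of_equiv _ e.toEquiv
  have : NeZero m := ⟨by rintro rfl; exact not_finite (DihedralGroup 0)⟩
  rcases isEmpty_or_nonempty Ω with h | ⟨⟨a⟩⟩
  · exact ⟨fun x => h.elim (x 0)⟩
  have ρ : H10.Reg (D.subtype.comp e.symm.toMonoidHom) a :=
    (show Function.Bijective fun x : D => (x : G) • a from ⟨fun x y e => inv_mul_eq_one.1
      ((h2 a).le (by rw [MulAction.mem_stabilizer_iff, mul_smul, inv_smul_eq_iff]; exact e.symm)),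
      MulAction.exists_smul_eq D a⟩).comp e.symm.bijective
  have d : H9.DB.DH (fun c : Multiplicative (ZMod m) => DihedralGroup.r c.toAdd)
      fun c => .sr c.toAdd :=
    ⟨fun _ _ => rfl, fun _ _ => by simp [sub_eq_neg_add], fun _ _ => rfl,
      fun _ _ => by simp [sub_eq_neg_add], by rintro (_ | _) (_ | _) h <;> simp_all, by
      rintro (i | i)
      exacts [⟨.inl (.ofAdd i), rfl⟩, ⟨.inr (.ofAdd i), rfl⟩]⟩
  by_cases hC : 1 < Fintype.card (Multiplicative (ZMod m))
  · exact d.two ρ hC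
  have := Fintype.card_le_one_iff_subsingleton.1 (not_lt.1 hC)
  refine ρ.two_of fun x y hx hy => ?_
  obtain ⟨c, rfl⟩ := (d.cases x).resolve_left fun ⟨c, hc⟩ =>
    hx (hc.symm.trans (d.r_eq.2 (Subsingleton.elim _ _)))
  obtain ⟨c', rfl⟩ := (d.cases y).resolve_left fun ⟨c, hc⟩ =>
    hy (hc.symm.trans (d.r_eq.2 (Subsingleton.elim _ _)))
  rw [Subsingleton.elim c c']
  exact H10.Reg.E.refl _

end Cfsg.Agent.S3572
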