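import Cfsg.Statements.S3573


set_option autoImplicit false
open Cfsg

open Equiv Finset

namespace Cfsg.Agent.S3573

theorem key (n k r : ℕ) (hr : r.Prime) (hkn : k ≤ n) (hrn : r ≤ n) :
    (∀ σ : Perm (Fin n), orderOf σ = r → ∃ s : Finset (Fin n), s.card = k ∧ s.image σ = s) ↔
      k % r ≤ n % r := by
  have := Fact.mk hr
  constructor
  · intro h
    obtain ⟨σ, hσ⟩ := (Perm.exists_with_cycleType_iff (Fin n) (m := Multiset.replicate (n / r) r)).2
      ⟨by simpa using Nat.div_mul_le_self n r, fun a ha => Multiset.eq_of_mem_replicate ha ▸ hr.two_le⟩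
    have ho : orderOf σ = r := by
      refine Nat.dvd_antisymm ?_ (Perm.dvd_of_mem_cycleType (hσ ▸ Multiset.mem_replicate.2
        ⟨(Nat.div_pos hrn hr.pos).ne', rfl⟩))
      rw [← Perm.lcm_cycleType, hσ, Multiset.lcm_dvd]
      exact fun a ha => Multiset.eq_of_mem_replicate ha ▸ dvd_rfl
    obtain ⟨s, rfl, hs⟩ := h σ ho
    have h1 : ∀ x, σ x ∈ s ↔ x ∈ s := fun x => by
      conv_lhs => rw [← hs]
      exact σ.injective.mem_finset_image
    have h2 := Perm.card_compl_support_modEq (p := r) (n := 1) (σ := σ.subtypePerm h1)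
      (by rw [pow_one, Perm.subtypePerm_pow]; ext x; simp [← ho])
    have h3 : #(σ.subtypePerm h1).supportᶜ ≤ #σ.supportᶜ :=
      card_le_card_of_injOn Subtype.val (fun x hx => by simpa [Subtype.ext_iff] using hx)
        Subtype.val_injective.injOn
    have h4 := Nat.div_add_mod n r
    rw [card_compl σ.support, ← Perm.sum_cycleType, hσ, Multiset.sum_replicate, smul_eq_mul,
      Fintype.card_fin, mul_comm] at h3
    rw [Fintype.card_coe] at h2
    exact (h2.symm.le.trans (Nat.mod_le _ _)).trans (by omega)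
  · intro h σ ho
    obtain ⟨m, hm⟩ := Perm.cycleType_prime_order (ho ▸ hr)
    rw [ho] at hm
    have h1 := Perm.sum_cycleType σ
    have h2 : #σ.cycleFactorsFinset = m + 1 := by
      simpa [Perm.cycleType_def] using congrArg Multiset.card hm
    have h3 : ∀ c ∈ σ.cycleFactorsFinset, #c.support = r := fun c hc =>
      Multiset.eq_of_mem_replicate (hm ▸ (show #c.support ∈ σ.cycleType from
        Multiset.mem_map_of_mem (card ∘ Perm.support) (mem_def.1 hc)))
    rw [hm, Multiset.sum_replicate, smul_eq_mul] at h1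
    have h4 : (m + 1) * r ≤ n := by simpa [h1] using card_le_univ σ.support
    obtain ⟨j, t, hj, ht, rfl⟩ : ∃ j t, j ≤ m + 1 ∧ t ≤ n - (m + 1) * r ∧ k = j * r + t := by
      rcases le_total (k / r) (m + 1) with e | e
      · refine ⟨k / r, k % r, e, h.trans ?_, (Nat.div_add_mod' k r).symm⟩
        rw [← Nat.sub_add_cancel h4, Nat.add_mul_mod_self_right, Nat.add_sub_cancel]
        exact Nat.mod_le _ _
      · have := (Nat.le_div_iff_mul_le hr.pos).1 e
        exact ⟨m + 1, k - (m + 1) * r, le_rfl, by omega, by omega⟩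
    obtain ⟨T, hT, rfl⟩ := exists_subset_card_eq (h2 ▸ hj)
    obtain ⟨U, hU, rfl⟩ := exists_subset_card_eq (s := σ.supportᶜ) (n := t)
      (by rwa [card_compl, ← h1, Fintype.card_fin])
    refine ⟨T.biUnion Perm.support ∪ U, ?_, eq_of_subset_of_card_le (fun x hx => ?_)
      (card_image_of_injective _ σ.injective).ge⟩
    · rw [card_union_of_disjoint, card_biUnion fun a ha b hb ab =>
        (σ.cycleFactorsFinset_pairwise_disjoint (hT ha) (hT hb) ab).disjoint_support,
        sum_const_nat fun c hc => h3 c (hT hc)]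
      exact disjoint_left.2 fun x hx hx' => by
        obtain ⟨c, hc, hx⟩ := mem_biUnion.1 hx
        exact mem_compl.1 (hU hx') (Perm.mem_cycleFactorsFinset_support_le (hT hc) hx)
    · obtain ⟨x, hy, rfl⟩ := mem_image.1 hx
      rcases mem_union.1 hy with e | e
      · obtain ⟨c, hc, e⟩ := mem_biUnion.1 e
        refine mem_union_left _ (mem_biUnion.2 ⟨c, hc, ?_⟩)
        rw [← (Perm.mem_cycleFactorsFinset_iff.1 (hT hc)).2 x e]
        exact Perm.apply_mem_support.2 e
      · rwa [Perm.notMem_support.1 (mem_compl.1 (hU e))]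

/-- Let 1 ≤ k with 2k < n and consider the symmetric group of degree n acting on the k-subsets of an n-set. Let r be a prime dividing the number C(n,k) of k-subsets. If r is odd, then every permutation of order r fixes some k-subset if and only if r ≤ k and the remainder of k modulo r is at most the remainder of n modulo r. If r = 2, then every involution fixes some k-subset if and only if k is even or n is odd. -/
theorem result (n k : ℕ) (hk : 1 ≤ k) (hkn : 2 * k < n) (r : ℕ) (hr : r.Prime) (hrd : r ∣ Nat.choose n k) :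
    (r ≠ 2 → ((∀ σ : Equiv.Perm (Fin n), orderOf σ = r → ∃ s : Finset (Fin n), s.card = k ∧ s.image σ = s) ↔
      (r ≤ k ∧ k % r ≤ n % r))) ∧
    (r = 2 → ((∀ σ : Equiv.Perm (Fin n), orderOf σ = 2 → ∃ s : Finset (Fin n), s.card = k ∧ s.image σ = s) ↔
      (Even k ∨ Odd n))) := by
  have := Fact.mk hr
  have hkn' : k ≤ n := by omega
  have h0 : ∀ a b, b ≤ a → r ∣ a.choose b → r ≤ a := fun a b h e =>
    hr.dvd_factorial.1 (Nat.choose_mul_factorial_mul_factorial h ▸ (e.mul_right _).mul_right _)
  have H := key n k r hr hkn' (h0 n k hkn' hrd)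
  refine ⟨fun _ => H.trans (and_iff_right_of_imp fun h => ?_).symm, ?_⟩
  · by_contra! e
    have h1 := Choose.choose_modEq_choose_mod_mul_choose_div_nat (n := n) (k := k) (p := r)
    rw [Nat.div_eq_of_lt e, Nat.choose_zero_right, mul_one] at h1
    exact (h0 _ _ h ((h1.dvd_iff dvd_rfl).1 hrd)).not_gt (Nat.mod_lt _ hr.pos)
  · rintro rfl
    rw [H, Nat.even_iff, Nat.odd_iff]
    omega

end Cfsg.Agent.S3573
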