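import Cfsg.Statements.S3575


set_option autoImplicit false
open Cfsg

open Equiv Finset

namespace Cfsg.Agent.S3575

/-- `σ` fixes a partition into `b` parts of size `a` -/
def Fixes (a b : ℕ) {α : Type*} (σ : Perm α) : Prop :=
  ∃ f : α → Fin b, (∀ j : Fin b, Nat.card {x : α // f x = j} = a) ∧
    ∃ π : Perm (Fin b), ∀ x : α, f (σ x) = π (f x)

theorem Fixes.of_equiv {a b : ℕ} {α β : Type*} {σ : Perm α} {τ : Perm β} (e : α ≃ β)
    (h : ∀ x, e (σ x) = τ (e x)) (hτ : Fixes a b τ) : Fixes a b σ := by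
  obtain ⟨f, hf, π, hπ⟩ := hτ
  refine ⟨fun x => f (e x), fun j => ?_, π, fun x => by simp only [h, hπ]⟩
  rw [← hf j]
  exact Nat.card_congr (e.subtypeEquiv fun _ => Iff.rfl)

theorem dvd_supp {α : Type*} [Fintype α] [DecidableEq α] {r : ℕ} [Fact r.Prime] {σ : Perm α}
    (h : σ ^ r = 1) : r ∣ #σ.support := by
  rw [← Perm.sum_cycleType, Perm.cycleType_of_pow_prime_eq_one h, Multiset.sum_replicate]
  exact Dvd.intro_left _ rfl

theorem exists_supp (α : Type*) [Fintype α] [DecidableEq α] (r c : ℕ) [hr : Fact r.Prime]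
    (h : r * c ≤ Fintype.card α) : ∃ σ : Perm α, σ ^ r = 1 ∧ #σ.support = r * c := by
  obtain ⟨σ, hσ⟩ := (Perm.exists_with_cycleType_iff α (m := Multiset.replicate c r)).2
    ⟨by simpa [mul_comm] using h, fun a ha => by
      rw [Multiset.eq_of_mem_replicate ha]; exact hr.out.two_le⟩
  refine ⟨σ, Perm.pow_prime_eq_one_iff.2 fun d hd => ?_, ?_⟩
  · rw [hσ] at hd; exact Multiset.eq_of_mem_replicate hd
  · rw [← Perm.sum_cycleType, hσ]; simp [mul_comm]

theorem conj_of_supp {α β : Type*} [Fintype α] [DecidableEq α] [Fintype β] [DecidableEq β]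
    {r : ℕ} [hr : Fact r.Prime] {σ : Perm α} {τ : Perm β} (hc : Fintype.card α = Fintype.card β)
    (hσ : σ ^ r = 1) (hτ : τ ^ r = 1) (hs : #σ.support = #τ.support) :
    ∃ e : α ≃ β, ∀ x, e (σ x) = τ (e x) := by
  let e := Fintype.equivOfCardEq hc
  let τ' : Perm α := e.symm.permCongrHom τ
  have h1 : τ' ^ r = 1 := by rw [← map_pow, hτ, map_one]
  have h2 : #τ'.support = #τ.support := by
    refine card_equiv e fun x => ?_
    simp [τ', Equiv.symm_apply_eq]
  have h3 : IsConj σ τ' := by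
    rw [Perm.isConj_iff_cycleType_eq, Perm.cycleType_of_pow_prime_eq_one hσ,
      Perm.cycleType_of_pow_prime_eq_one h1]
    congr 1
    rw [← h2, ← Perm.sum_cycleType, ← Perm.sum_cycleType, Perm.cycleType_of_pow_prime_eq_one hσ,
      Perm.cycleType_of_pow_prime_eq_one h1, Multiset.sum_replicate, Multiset.sum_replicate] at hs
    exact Nat.eq_of_mul_eq_mul_right hr.out.pos hs
  obtain ⟨c, hc⟩ := isConj_iff.1 h3
  refine ⟨c.trans e, fun x => ?_⟩
  have := congrArg (fun g : Perm α => e (g (c x))) hc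
  simpa [τ'] using this

theorem exists_dist {ι : Type*} [DecidableEq ι] (S : Finset ι) (q : ℕ) :
    ∀ n, n ≤ #S * q → ∃ c : ι → ℕ, (∀ j, c j ≤ q) ∧ ∑ j ∈ S, c j = n := by
  induction S using Finset.induction_on with
  | empty => intro n hn; exact ⟨fun _ => 0, fun _ => Nat.zero_le _, by simpa using hn.antisymm' (by simp)⟩
  | insert a S ha ih =>
    intro n hn
    rw [card_insert_of_notMem ha, add_mul, one_mul] at hn
    obtain ⟨c, hc, hs⟩ := ih (n - q) (by omega)
    refine ⟨Function.update c a (min n q), fun j => ?_, ?_⟩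
    · rcases eq_or_ne j a with rfl | h
      · simp
      · rw [Function.update_of_ne h]; exact hc j
    · rw [sum_insert ha, Function.update_self, sum_congr rfl
        (fun j hj => Function.update_of_ne (ne_of_mem_of_not_mem hj ha) _ _), hs]
      omega

theorem suf {a b r s t : ℕ} [hr : Fact r.Prime] (h1 : s * r ≤ b) (h2 : s * a ≤ t)
    (h3 : t ≤ s * a + (b - s * r) * (a / r)) :
    ∃ τ : Perm (Fin b × Fin a), τ ^ r = 1 ∧ #τ.support = r * t ∧ Fixes a b τ := by
  classical
  obtain ⟨π, hπ, hπs⟩ := exists_supp (Fin b) r s (by simpa [mul_comm] using h1)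
  obtain ⟨c, hc, hcs⟩ := exists_dist π.supportᶜ (a / r) (t - s * a) (by
    rw [card_compl, hπs, Fintype.card_fin, mul_comm r s]; omega)
  have hg : ∀ j : Fin b, ∃ σ : Perm (Fin a), σ ^ r = 1 ∧ #σ.support = r * c j := fun j =>
    exists_supp (Fin a) r (c j) (by
      rw [Fintype.card_fin]
      exact (Nat.mul_le_mul_left _ (hc j)).trans (Nat.mul_div_le a r))
  choose g hg hgs using hg
  let g' : Fin b → Perm (Fin a) := fun j => if π j = j then g j else 1
  let τ : Perm (Fin b × Fin a) := (Equiv.prodCongrRight g').trans (Equiv.prodCongr π (Equiv.refl _))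
  have hτ : ∀ j i, τ (j, i) = (π j, g' j i) := fun j i => rfl
  have hg' : ∀ j, g' (π j) = g' j := by
    intro j
    by_cases h : π j = j
    · rw [h]
    · simp [g', h]
  have hτn : ∀ (n : ℕ) j i, (τ ^ n) (j, i) = ((π ^ n) j, (g' j ^ n) i) := by
    intro n
    induction n with
    | zero => intro j i; rfl
    | succ n ih =>
      intro j i
      rw [pow_succ, Perm.mul_apply, hτ, ih, hg', pow_succ, pow_succ]; rfl
  refine ⟨τ, ?_, ?_, Prod.fst, fun j => ?_, π, fun ⟨j, i⟩ => rfl⟩
  · ext1 ⟨j, i⟩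
    rw [hτn, hπ]
    by_cases h : π j = j <;> simp [g', h, hg]
  · rw [card_eq_sum_card_fiberwise (f := Prod.fst) (t := univ) (fun _ _ => mem_univ _),
      ← sum_add_sum_compl π.support]
    have e1 : ∀ j ∈ π.support, #{x ∈ τ.support | x.1 = j} = a := by
      intro j hj
      rw [Perm.mem_support] at hj
      conv_rhs => rw [← Fintype.card_fin a, ← card_univ]
      refine card_bij' (fun x _ => x.2) (fun i _ => (j, i)) (fun _ _ => mem_univ _)
        (fun i _ => ?_) (fun x hx => ?_) (fun _ _ => rfl)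
      · simp [hτ, hj]
      · rw [← (mem_filter.1 hx).2]
    have e2 : ∀ j ∈ π.supportᶜ, #{x ∈ τ.support | x.1 = j} = r * c j := by
      intro j hj
      rw [mem_compl, Perm.notMem_support] at hj
      rw [← hgs]
      refine card_bij' (fun x _ => x.2) (fun i _ => (j, i)) (fun x hx => ?_)
        (fun i hi => ?_) (fun x hx => ?_) (fun _ _ => rfl)
      · obtain ⟨j', i⟩ := x
        obtain ⟨h1, rfl⟩ := mem_filter.1 hx
        simpa [hτ, g', hj] using h1
      · simpa [hτ, g', hj] using hi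
      · rw [← (mem_filter.1 hx).2]
    rw [sum_congr rfl e1, sum_congr rfl e2, sum_const, ← mul_sum, hcs, hπs, smul_eq_mul, mul_assoc,
      ← mul_add]
    congr 1
    omega
  · conv_rhs => rw [← Nat.card_fin a]
    exact Nat.card_congr ⟨fun x => x.1.2, fun i => ⟨(j, i), rfl⟩,
      fun ⟨⟨j', i⟩, h⟩ => by subst h; rfl, fun _ => rfl⟩

theorem nec {α : Type*} [Fintype α] [DecidableEq α] {a b r t : ℕ} [hr : Fact r.Prime] (ha : 0 < a)
    {σ : Perm α} (hσ : σ ^ r = 1) (ht : #σ.support = r * t) (h : Fixes a b σ) :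
    ∃ s, s * r ≤ b ∧ s * a ≤ t ∧ t ≤ s * a + (b - s * r) * (a / r) := by
  classical
  obtain ⟨f, hf, π, hπ⟩ := h
  have hn : ∀ (n : ℕ) x, f ((σ ^ n) x) = (π ^ n) (f x) := by
    intro n
    induction n with
    | zero => intro x; rfl
    | succ n ih => intro x; rw [pow_succ', pow_succ', Perm.mul_apply, Perm.mul_apply, hπ, ih]
  have hπr : π ^ r = 1 := by
    ext1 j
    obtain ⟨⟨x, rfl⟩⟩ := (Nat.card_pos_iff.1 (by rw [hf j]; exact ha)).1
    rw [← hn, hσ]; rfl
  obtain ⟨s, hs⟩ := dvd_supp hπr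
  have hb : s * r ≤ b := by
    have := card_le_univ π.support
    rwa [hs, Fintype.card_fin, mul_comm] at this
  have hf' : ∀ j, #{x | f x = j} = a := fun j => by
    rw [← hf j, Nat.card_eq_fintype_card, Fintype.card_subtype]
  rw [card_eq_sum_card_fiberwise (f := f) (t := univ) (fun _ _ => mem_univ _),
    ← sum_add_sum_compl π.support] at ht
  have e1 : ∀ j ∈ π.support, #{x ∈ σ.support | f x = j} = a := by
    intro j hj
    rw [← hf' j]
    congr 1
    ext x
    simp only [mem_filter, mem_univ, true_and, Perm.mem_support, and_iff_right_iff_imp]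
    rintro rfl hx
    rw [Perm.mem_support, ← hπ, hx] at hj
    exact hj rfl
  have e2 : ∀ j ∈ π.supportᶜ, #{x ∈ σ.support | f x = j} ≤ r * (a / r) := by
    intro j hj
    rw [mem_compl, Perm.notMem_support] at hj
    have hp : ∀ x, f (σ x) = j ↔ f x = j := fun x => by
      rw [hπ]; conv_lhs => rw [← hj]
      exact π.injective.eq_iff
    have h1 : (σ.subtypePerm hp : Perm {x // f x = j}) ^ r = 1 := by
      ext x
      simp [Perm.subtypePerm_pow, hσ]
    obtain ⟨c, hc⟩ := dvd_supp h1
    have h2 : #{x ∈ σ.support | f x = j} = r * c := by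
      rw [← hc]
      refine card_bij' (fun x hx => ⟨x, (mem_filter.1 hx).2⟩) (fun x _ => x.1) (fun x hx => ?_)
        (fun x hx => ?_) (fun _ _ => rfl) (fun _ _ => rfl)
      · simpa [Subtype.ext_iff] using (mem_filter.1 hx).1
      · simpa [Subtype.ext_iff, x.2] using hx
    have h3 : #{x ∈ σ.support | f x = j} ≤ a := by
      rw [← hf' j]
      exact card_le_card fun x hx => by simp [(mem_filter.1 hx).2]
    rw [h2] at h3 ⊢
    exact Nat.mul_le_mul_left _ ((Nat.le_div_iff_mul_le hr.out.pos).2 (by rwa [mul_comm]))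
  have e3 := sum_le_card_nsmul _ _ _ e2
  rw [sum_congr rfl e1, sum_const, hs, smul_eq_mul] at ht
  rw [card_compl, hs, Fintype.card_fin, smul_eq_mul] at e3
  refine ⟨s, hb, Nat.le_of_mul_le_mul_left ?_ hr.out.pos, Nat.le_of_mul_le_mul_left ?_ hr.out.pos⟩
  · rw [← ht, mul_assoc]; exact Nat.le_add_right _ _
  · rw [← ht, mul_add, mul_assoc, mul_comm s r, mul_left_comm r (b - r * s)]
    exact Nat.add_le_add_left e3 _

theorem arith (a b r : ℕ) (ha : 2 ≤ a) (hb : 2 ≤ b) (hr : 2 ≤ r) (hab : r ≤ a * b) :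
    (∀ t, 1 ≤ t → r * t ≤ a * b → ∃ s, s * r ≤ b ∧ s * a ≤ t ∧ t ≤ s * a + (b - s * r) * (a / r)) ↔
      (r ≤ a ∧ (a % r = 0 ∨ (b % r = 0 ∧ a % r = 1) ∨
        (a % r ≠ 0 ∧ b % r ≠ 0 ∧ (b % r) * (a % r) < r ∧
          (b < r ∨ (b % r + r) * (a % r) ≤ (b % r) * a + r)))) := by
  have hr0 : 0 < r := by omega
  obtain ⟨A, l, hl, rfl⟩ : ∃ A l, l < r ∧ a = r * A + l :=
    ⟨a / r, a % r, Nat.mod_lt _ hr0, (Nat.div_add_mod a r).symm⟩
  obtain ⟨B, k, hk, rfl⟩ : ∃ B k, k < r ∧ b = r * B + k :=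
    ⟨b / r, b % r, Nat.mod_lt _ hr0, (Nat.div_add_mod b r).symm⟩
  have e1 : (r * A + l) / r = A := by
    rw [Nat.mul_add_div hr0, Nat.div_eq_of_lt hl, add_zero]
  have e2 : (r * A + l) % r = l := by rw [Nat.mul_add_mod, Nat.mod_eq_of_lt hl]
  have e3 : (r * B + k) % r = k := by rw [Nat.mul_add_mod, Nat.mod_eq_of_lt hk]
  rw [e1, e2, e3]
  have key : ∀ s t, (s * r ≤ r * B + k ∧ s * (r * A + l) ≤ t ∧
      t ≤ s * (r * A + l) + (r * B + k - s * r) * A) ↔
      (s ≤ B ∧ s * (r * A + l) ≤ t ∧ t ≤ (r * B + k) * A + s * l) := by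
    intro s t
    have h1 : s * r ≤ r * B + k ↔ s ≤ B := by
      constructor
      · intro h
        by_contra h'
        nlinarith
      · intro h; nlinarith
    rw [h1]
    refine and_congr_right fun h => and_congr_right fun _ => ?_
    obtain ⟨d, hd⟩ := Nat.exists_eq_add_of_le (h1.2 h)
    rw [hd, Nat.add_sub_cancel_left]
    have : s * (r * A + l) + d * A = (s * r + d) * A + s * l := by ring
    rw [this]
  simp only [key]
  have hmid : (r ≤ r * A + l ∧ (l = 0 ∨ (k = 0 ∧ l = 1) ∨ (l ≠ 0 ∧ k ≠ 0 ∧ k * l < r ∧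
      (r * B + k < r ∨ (k + r) * l ≤ k * (r * A + l) + r)))) ↔
      (1 ≤ A ∧ k * l < r ∧ (B = 0 ∨ l ≤ k * A + 1)) := by
    have h1 : r ≤ r * A + l ↔ 1 ≤ A := by
      constructor
      · intro h
        by_contra h'
        have : A = 0 := by omega
        subst this
        omega
      · intro h; nlinarith
    have h2 : r * B + k < r ↔ B = 0 := by
      constructor
      · intro h
        by_contra h'
        have : 1 ≤ B := by omega
        nlinarith
      · rintro rfl; omega
    have h3 : (k + r) * l ≤ k * (r * A + l) + r ↔ l ≤ k * A + 1 := by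
      have a1 : (k + r) * l = k * l + r * l := by ring
      have a2 : k * (r * A + l) + r = k * l + r * (k * A + 1) := by ring
      rw [a1, a2, Nat.add_le_add_iff_left, Nat.mul_le_mul_left_iff hr0]
    rw [h1, h2, h3]
    refine and_congr_right fun _ => ⟨?_, ?_⟩
    · rintro (rfl | ⟨rfl, rfl⟩ | ⟨-, -, h, h'⟩)
      · exact ⟨by omega, Or.inr (by omega)⟩
      · exact ⟨by omega, Or.inr (by omega)⟩
      · exact ⟨h, h'⟩
    · rintro ⟨h, h'⟩
      by_cases hl0 : l = 0
      · exact Or.inl hl0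
      by_cases hk0 : k = 0
      · subst hk0
        refine Or.inr (Or.inl ⟨rfl, ?_⟩)
        rcases h' with rfl | h' <;> omega
      · exact Or.inr (Or.inr ⟨hl0, hk0, h, h'⟩)
  rw [hmid]
  constructor
  · intro H
    refine ⟨?_, ?_, ?_⟩
    · obtain ⟨s, -, h2, h3⟩ := H 1 le_rfl (by omega)
      have : s = 0 := by
        by_contra h
        have : 1 ≤ s := by omega
        nlinarith
      subst this
      by_contra h
      have : A = 0 := by omega
      subst this
      omega
    · by_contra h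
      obtain ⟨s, h1, -, h3⟩ := H ((r * B + k) * A + B * l + 1) (by omega) (by nlinarith)
      nlinarith
    · by_contra h
      push Not at h
      obtain ⟨B, rfl⟩ : ∃ C, B = C + 1 := ⟨B - 1, by omega⟩
      obtain ⟨t, ht⟩ : ∃ t, (B + 1) * (r * A + l) = t + 1 := ⟨(B + 1) * (r * A + l) - 1, by
        have : 1 ≤ (B + 1) * (r * A + l) := by nlinarith
        omega⟩
      obtain ⟨s, h1, h2, h3⟩ := H t (by nlinarith) (by nlinarith)
      have : s ≤ B := by
        by_contra h'
        have : s = B + 1 := by omega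
        subst this
        omega
      nlinarith [Nat.mul_le_mul_right l this]
  · rintro ⟨hA, hkl, h⟩ t ht1 ht
    have h1 : t ≤ (r * B + k) * A + B * l := by
      by_contra h'
      have : (r * B + k) * A + B * l + 1 ≤ t := by omega
      nlinarith [Nat.mul_le_mul_left r this]
    by_cases h2 : B * (r * A + l) ≤ t
    · exact ⟨B, le_rfl, h2, h1⟩
    have hpos : 0 < r * A + l := by omega
    have h3 : t / (r * A + l) < B := by
      rw [Nat.div_lt_iff_lt_mul hpos]; omega
    have h4 := Nat.div_mul_le_self t (r * A + l)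
    have h5 := Nat.lt_div_mul_add (a := t) hpos
    refine ⟨t / (r * A + l), h3.le, h4, ?_⟩
    generalize t / (r * A + l) = s at h3 h4 h5
    have h6 : l ≤ k * A + 1 := h.resolve_left (by omega)
    nlinarith [Nat.mul_le_mul_right (r * A) (show s + 1 ≤ B from h3)]

/-- Let a, b ≥ 2 and consider the symmetric group of degree a·b acting on the partitions of an (a·b)-set into b parts of size a (encoded as maps onto a b-element set all of whose fibres have a elements; a permutation fixes such a partition when it permutes the fibres). Let r be a prime dividing the number (ab)!/((a!)^b·b!) of such partitions, and let ℓ and k be the remainders of a and b modulo r. Then every permutation of order r fixes some such partition if and only if r ≤ a and one of the following holds: ℓ = 0; or k = 0 and ℓ = 1; or ℓ and k are non-zero, k·ℓ < r, and either b < r or (k + r)·ℓ ≤ k·a + r. -/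
theorem result (a b : ℕ) (ha : 2 ≤ a) (hb : 2 ≤ b) (r : ℕ) (hr : r.Prime)
    (hrd : r ∣ (a * b).factorial / (a.factorial ^ b * b.factorial)) :
    (∀ σ : Equiv.Perm (Fin (a * b)), orderOf σ = r →
        ∃ f : Fin (a * b) → Fin b, (∀ j : Fin b, Nat.card {x : Fin (a * b) // f x = j} = a) ∧
          ∃ π : Equiv.Perm (Fin b), ∀ x : Fin (a * b), f (σ x) = π (f x)) ↔
      (r ≤ a ∧ (a % r = 0 ∨ (b % r = 0 ∧ a % r = 1) ∨
        (a % r ≠ 0 ∧ b % r ≠ 0 ∧ (b % r) * (a % r) < r ∧ (b < r ∨ (b % r + r) * (a % r) ≤ (b % r) * a + r)))) := by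
  classical
  haveI := Fact.mk hr
  have hab : r ≤ a * b := by
    rw [← hr.dvd_factorial]
    refine hrd.trans (Nat.div_dvd_of_dvd ⟨Nat.uniformBell b a, ?_⟩)
    rw [mul_comm a b, ← Nat.uniformBell_mul_eq b (show a ≠ 0 by omega)]
    ring
  rw [← arith a b r ha hb hr.two_le hab]
  constructor
  · intro H t ht1 ht
    obtain ⟨σ, hσ, hs⟩ := exists_supp (Fin (a * b)) r t (by simpa using ht)
    refine nec (by omega) hσ hs (H σ (orderOf_eq_prime hσ ?_))
    rintro rfl
    rw [Perm.support_one, card_empty] at hs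
    exact absurd hs.symm (Nat.mul_pos hr.pos ht1).ne'
  · intro H σ hσ
    have h1 : σ ^ r = 1 := by rw [← hσ, pow_orderOf_eq_one]
    obtain ⟨t, ht⟩ := dvd_supp h1
    have ht1 : 1 ≤ t := by
      by_contra h
      have : t = 0 := by omega
      rw [this, mul_zero, card_eq_zero, Perm.support_eq_empty_iff] at ht
      rw [ht, orderOf_one] at hσ
      exact hr.ne_one hσ.symm
    obtain ⟨s, h2, h3, h4⟩ := H t ht1 (by simpa [ht] using card_le_univ σ.support)
    obtain ⟨τ, hτ, hτs, hF⟩ := suf h2 h3 h4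
    obtain ⟨e, he⟩ := conj_of_supp (by simp [mul_comm]) h1 hτ (ht.trans hτs.symm)
    exact hF.of_equiv e he

end Cfsg.Agent.S3575
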