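import Cfsg.Statements.S3590
import Cfsg.Agent.H11.Shp3

set_option autoImplicit false
open Cfsg

namespace Cfsg.Agent.S3590

/-- Let F be a finite field of characteristic 2. Then PSp(8,F) is not determined by its set of element orders, not even up to finitely many groups: for every bound there is a finite group of larger order with exactly the same set of element orders as PSp(8,F). -/
theorem result {F : Type*} [Field F] [Fintype F]
    [CharP F 2] (M : ℕ) :
    ∃ (H : Type) (_ : Group H) (_ : Fintype H), M < Fintype.card H ∧ Set.range (orderOf : H → ℕ) = Set.range (orderOf : Cfsg.PSp 4 F → ℕ) := by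
  obtain ⟨c, hc⟩ := H11.exists_aniso_poly (F := F)
  have hS := H11.sMinus_nondeg 3 (H11.aniso_of_poly hc)
  obtain ⟨X, _, _, h1, -, h2⟩ := H11.exists_big 2 ((H11.PForm.iEH (H11.sMinus 3 F 1 c)).comp (commutator _).subtype) M
  refine ⟨X, ‹_›, ‹_›, h1, Set.ext fun N => ?_⟩
  rw [H11.psp_iff 2 (.inl (CharP.cast_eq_zero F 2)), (hS.shp_eight (H11.finrank_minus_fun 3)
    (H11.sMinus_not_hasTS 3 (H11.aniso_of_poly hc))).2]
  exact H11.ext_iff 2 hS (.inr (.inl (by simp))) fun m => by simp only [Subgroup.orderOf_coe]; exact h2 m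

end Cfsg.Agent.S3590
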