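import Cfsg.Statements.S3592
import Cfsg.Agent.H2.IdP

set_option autoImplicit false
open Cfsg

open H5 H10 H18 Subgroup

namespace Cfsg.Agent.S3592

theorem aux (n : ℕ) : Nat.card {g : Cfsg.Spor.M11 // orderOf g = n} % 11 = 0 ∨
    Nat.card {g : Cfsg.Spor.M11 // orderOf g = n} = 1 ∨ Nat.card {g : Cfsg.Spor.M11 // orderOf g = n} = 1440 := by
  have := H14.isM11.1
  have hM := H14.isM11.2
  have : Finite Cfsg.Spor.M11 := Nat.finite_of_card_ne_zero (by omega)
  obtain ⟨P⟩ : Nonempty (Sylow 11 Cfsg.Spor.M11) := inferInstance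
  obtain ⟨S, hn, -⟩ := H2.M11.syl11 hM P
  by_cases h1 : n = 1
  · subst h1
    simp only [orderOf_eq_one_iff]
    exact .inr (.inl Nat.card_unique)
  by_cases h11 : n = 11
  · subst h11
    rw [card_orderOf_eq_prime P S.hP, hn]
    simp
  have := H2.M11.cnt_mod P.isPGroup' n
  rw [S.hC, (Nat.card_eq_zero (α := {g : (P : Subgroup Cfsg.Spor.M11) // orderOf g = n})).2 (.inl ⟨fun ⟨g, hg⟩ => by
    have := orderOf_dvd_natCard g
    rw [hg, S.hP, Nat.dvd_prime (by norm_num)] at this
    omega⟩)] at this
  exact .inl this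

/-- Let M be the Mathieu group M₁₁ (order 7920). If a finite group G has the same order as M and the same set of values of the function 'number of elements of order n' (taken over the element orders n that occur), then G is isomorphic to M. -/
theorem result {G : Type*} [Group G] [Finite G]
    (hcard : Nat.card G = Nat.card ↥Cfsg.Spor.M11)
    (hnse : {c : ℕ | 0 < c ∧ ∃ n : ℕ, c = Nat.card {g : G // orderOf g = n}} =
      {c : ℕ | 0 < c ∧ ∃ n : ℕ, c = Nat.card {g : ↥Cfsg.Spor.M11 // orderOf g = n}}) :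
    Nonempty (G ≃* ↥Cfsg.Spor.M11) := by
  classical
  have hc := hcard.trans H14.isM11.2
  have k : ∀ n, 0 < Nat.card {g : G // orderOf g = n} → Nat.card {g : G // orderOf g = n} % 11 = 0 ∨
      Nat.card {g : G // orderOf g = n} = 1 ∨ Nat.card {g : G // orderOf g = n} = 1440 := fun n h => by
    obtain ⟨-, m, e⟩ := hnse.le ⟨h, n, rfl⟩
    rw [e]; exact aux m
  obtain ⟨P⟩ : Nonempty (Sylow 11 G) := inferInstance
  have hP := card_sylow_eq_prime (m := 720) hc (by norm_num) P
  have k1 := k 11
  have n2 : _ % 11 = 1 := card_sylow_modEq_one 11 G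
  have hN := H2.M11.idx_N P
  rw [card_orderOf_eq_prime P hP] at k1
  rw [show Nat.card (Sylow 11 G) = 144 by omega, hc] at hN
  have := H2.M11.disc hc (A := {11}) rfl (b := 2) (by simp) Nat.prime_two (by norm_num) fun a ha b hb ap bp g o => by
    obtain rfl : a = 11 := ha
    obtain ⟨Q, hQ⟩ := exists_sylow_eq_zpowers P hP (g := g ^ b) (by
      rw [orderOf_pow_of_dvd bp.ne_zero (o ▸ dvd_mul_left _ _), o, Nat.mul_div_cancel _ bp.pos])
    have hN' := H2.M11.idx_N Q
    have le : zpowers g ≤ 𝐂[(Q : Subgroup G)] := by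
      rw [hQ, C_zpowers, zpowers_le]; exact mem_C1.2 (Commute.self_pow g b)
    have d1 := card_dvd le
    have d2 := card_dvd (centralizer_le_normalizer ((Q : Subgroup G) : Set G))
    rw [show Nat.card 𝐍[(Q : Subgroup G)] = 11 * 5 by
      rw [show Nat.card (Sylow 11 G) = 144 by omega, hc] at hN'; omega] at d2
    rw [card_zpowers', o] at d1
    obtain rfl := (Nat.prime_dvd_prime_iff_eq bp Nat.prime_five).1
      (Nat.dvd_of_mul_dvd_mul_left (by norm_num) (d1.trans d2))
    have e := H18.eq_of_card_eq le (by rw [card_zpowers', o]; exact Nat.dvd_antisymm d1 d2)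
    have m := H2.M11.cnt_mod Q.isPGroup' 55
    have := Fintype.ofFinite (zpowers g)
    rw [← e, Nat.card_eq_fintype_card (α := {x : zpowers g // _}), Fintype.card_subtype,
      IsCyclic.card_orderOf_eq_totient (by rw [← Nat.card_eq_fintype_card, card_zpowers', o]),
      show Nat.totient 55 = 40 by decide +kernel] at m
    have := k 55
    unfold Nat.ModEq at m
    omega
  exact H2.m11_iso hc

end Cfsg.Agent.S3592
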