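import Cfsg.Statements.S3599
import Cfsg.Agent.H11.Semi

set_option autoImplicit false
open Cfsg

namespace Cfsg.Agent.S3599

open scoped commutatorElement

theorem frob {p q : ℕ} (hp : p.Prime) (hq : q.Prime) (h : p ≠ q) : ∃ (X : Type) (_ : Group X) (_ : Finite X),
    (∀ m, m ∈ Set.range (orderOf : X → ℕ) ↔ m = 1 ∨ m = p ∨ m = q) ∧ ∀ x y : X, ⁅x ^ q, y⁆ ^ p = 1 := by
  have := Fact.mk hp
  have := Fact.mk hq
  let F := GaloisField p (q - 1)
  obtain ⟨z, hz⟩ := exists_prime_orderOf_dvd_card' (G := Fˣ) q (by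
    rw [Nat.card_units, GaloisField.card _ _ (Nat.sub_ne_zero_of_lt hq.one_lt), ← Nat.totient_prime hq]
    exact (Nat.modEq_iff_dvd' (Nat.one_le_pow _ _ hp.pos)).1
      (Nat.ModEq.pow_totient ((Nat.coprime_primes hp hq).2 h)).symm)
  let φ : Subgroup.zpowers z →* _ := (MulAutMultiplicative F).symm.toMonoidHom.comp
    ((DistribMulAction.toAddAut Fˣ F).comp (Subgroup.zpowers z).subtype)
  have c : Nat.card (Subgroup.zpowers z) = q := by rw [Nat.card_zpowers, hz]
  refine ⟨Multiplicative F ⋊[φ] Subgroup.zpowers z, inferInstance, .of_equiv _ SemidirectProduct.equivProd.symm,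
    fun m => (H11.mem_range_sd p (fun g => Algebra.lmul F F g.1.1) (fun _ _ => rfl) m).trans ⟨?_, ?_⟩, fun x y => ?_⟩
  · rintro ⟨g, rfl | ⟨rfl, h4⟩⟩
    · exact ((Nat.dvd_prime hq).1 ((orderOf_dvd_natCard g).trans c.dvd)).imp_right .inr
    obtain rfl : g = 1 := by
      by_contra h3
      refine h4 ?_
      have := congrArg (Algebra.lmul F F) (H11.sum_pow_eq_zero (a := g.1.1)
        (sub_ne_zero.2 fun e => h3 (Subtype.ext (Units.ext e))).isUnit)
      rwa [map_sum, map_zero, orderOf_units, Subgroup.orderOf_coe] at this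
    simp
  · rintro (rfl | rfl | rfl)
    exacts [⟨1, by simp⟩, ⟨1, .inr ⟨by simp, fun e => by simpa using congr($e 1)⟩⟩, ⟨⟨z, Subgroup.mem_zpowers z⟩, .inl (by simp [hz])⟩]
  · have : x ^ q ∈ (SemidirectProduct.rightHom (φ := φ)).ker := by
      rw [MonoidHom.mem_ker, map_pow, ← orderOf_dvd_iff_pow_eq_one]
      exact (orderOf_dvd_natCard _).trans c.dvd
    have : ⁅x ^ q, y⁆ ∈ (SemidirectProduct.rightHom (φ := φ)).ker := by
      rw [MonoidHom.mem_ker, map_commutatorElement, this, commutatorElement_one_left]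
    rw [← SemidirectProduct.range_inl_eq_ker_rightHom] at this
    obtain ⟨v, e⟩ := this
    rw [← e, ← map_pow, show v ^ p = 1 from Multiplicative.toAdd.injective (by simp), map_one]

/-- a law forcing a normal Sylow subgroup -/
def L (G : Type*) [Group G] (p : ℕ) : Prop := ∃ M, p.Coprime M ∧ ∀ x y : G, ⁅x ^ M, y⁆ ^ p = 1

theorem L.inj {G H : Type*} [Group G] [Group H] {p : ℕ} (h : L G p) (f : H →* G) (hf : Function.Injective f) :
    L H p := h.imp fun _ h => ⟨h.1, fun x y => hf (by simpa using h.2 (f x) (f y))⟩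

theorem L.sur {G H : Type*} [Group G] [Group H] {p : ℕ} (h : L G p) (f : G →* H) (hf : Function.Surjective f) :
    L H p := h.imp fun _ h => ⟨h.1, fun x y => by
      obtain ⟨x, rfl⟩ := hf x
      obtain ⟨y, rfl⟩ := hf y
      simpa using congrArg f (h.2 x y)⟩

theorem L.pow {G : Type*} [Group G] {p : ℕ} (h : L G p) {x : G} (hx : orderOf x = p) (y : G) : ⁅x, y⁆ ^ p = 1 := by
  obtain ⟨M, h1, h2⟩ := h
  obtain ⟨k, hk⟩ := exists_pow_eq_self_of_coprime (x := x) (n := M) (hx ▸ h1.symm)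
  rw [← hk, ← pow_mul, mul_comm, pow_mul]
  exact h2 _ _

/-- A finite group is critical with respect to a set Ω of natural numbers when its set of element orders is Ω while no proper section H/N (H a subgroup, N normal in H, (H, N) ≠ (whole group, 1)) has Ω as its set of element orders. Let s ≥ 1 and let p(j,0), p(j,1) (j < s) be 2s pairwise distinct primes, and let Ω be the set of all products c(0)·…·c(s−1) with each c(j) ∈ {1, p(j,0), p(j,1)}. Then there are 2^s pairwise non-isomorphic finite groups critical with respect to Ω. -/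
theorem result (s : ℕ) (hs : 1 ≤ s) (p : Fin s → Fin 2 → ℕ)
    (hp : ∀ j i, (p j i).Prime) (hinj : ∀ j i j' i', p j i = p j' i' → j = j' ∧ i = i') :
    ∃ (G : Fin (2 ^ s) → Type) (_ : ∀ a, Group (G a)) (_ : ∀ a, Fintype (G a)),
      (∀ a b, a ≠ b → ¬ Nonempty (G a ≃* G b)) ∧
      ∀ a, Set.range (orderOf : (G a) → ℕ) = {m : ℕ | ∃ c : Fin s → ℕ, (∀ j, c j = 1 ∨ c j = p j 0 ∨ c j = p j 1) ∧ m = ∏ j, c j} ∧
      ∀ (H : Subgroup (G a)) (N : Subgroup ↥H) [N.Normal], (H ≠ ⊤ ∨ N ≠ ⊥) → Set.range (orderOf : (↥H ⧸ N) → ℕ) ≠ {m : ℕ | ∃ c : Fin s → ℕ, (∀ j, c j = 1 ∨ c j = p j 0 ∨ c j = p j 1) ∧ m = ∏ j, c j} := by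
  classical
  have cp : ∀ j i j' i', ¬ (j = j' ∧ i = i') → (p j i).Coprime (p j' i') := fun j i j' i' h =>
    (Nat.coprime_primes (hp _ _) (hp _ _)).2 (mt (hinj _ _ _ _) h)
  set Ω := {m : ℕ | ∃ c : Fin s → ℕ, (∀ j, c j = 1 ∨ c j = p j 0 ∨ c j = p j 1) ∧ m = ∏ j, c j}
  have ex : ∀ ε : Fin s → Fin 2, ∃ n, ∃ (G : Type) (_ : Group G) (_ : Finite G), Nat.card G = n ∧
      Set.range (orderOf : G → ℕ) = Ω ∧ ∀ j, L G (p j (ε j)) := fun ε => by
    have ne : ∀ t : Fin 2, t ≠ t + 1 := by decide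
    choose X _ _ h1 h2 using fun j => frob (hp j (ε j)) (hp j (ε j + 1)) fun e => ne _ (hinj _ _ _ _ e).2
    have h3 : ∀ j m, m ∈ Set.range (orderOf : X j → ℕ) ↔ m = 1 ∨ m = p j 0 ∨ m = p j 1 := fun j m => by
      rw [h1]; generalize ε j = t; fin_cases t <;> simp; tauto
    have o : ∀ x : ∀ j, X j, orderOf x = ∏ j, orderOf (x j) := fun x => by
      rw [Pi.orderOf, Finset.lcm_eq_prod fun i _ j _ h => ?_]
      rcases (h3 i _).1 ⟨x i, rfl⟩ with a | a | a <;> rcases (h3 j _).1 ⟨x j, rfl⟩ with b | b | b <;>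
        simp only [Function.onFun, a, b, Nat.coprime_one_left_iff, Nat.coprime_one_right_iff] <;>
        exact cp _ _ _ _ fun e => h e.1
    refine ⟨_, ∀ j, X j, inferInstance, inferInstance, rfl, Set.ext fun m => ⟨?_, ?_⟩, fun j =>
      ⟨∏ x ∈ Finset.univ.erase (j, ε j), p x.1 x.2, Nat.Coprime.prod_right fun x hx => cp _ _ _ _ fun e =>
        (Finset.mem_erase.1 hx).1 (Prod.ext e.1.symm e.2.symm), fun x y => funext fun i => ?_⟩⟩
    · rintro ⟨x, rfl⟩
      exact ⟨_, fun j => (h3 j _).1 ⟨x j, rfl⟩, o x⟩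
    · rintro ⟨c, hc, rfl⟩
      choose x hx using fun j => (h3 j _).2 (hc j)
      exact ⟨x, by simp [o, hx]⟩
    have d : ∀ t, ¬ (i = j ∧ t = ε j) → p i t ∣ ∏ x ∈ Finset.univ.erase (j, ε j), p x.1 x.2 := fun t h =>
      Finset.dvd_prod_of_mem (fun x : Fin s × Fin 2 => p x.1 x.2) (a := (i, t)) (by simpa using h)
    change ⁅x i ^ _, y i⁆ ^ _ = 1
    by_cases e : i = j
    · subst e
      obtain ⟨c, hc⟩ := d (ε i + 1) fun h => ne _ h.2.symm
      rw [hc, mul_comm, pow_mul, h2]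
    rw [orderOf_dvd_iff_pow_eq_one.1 (show orderOf (x i) ∣ _ by
      rcases (h3 i _).1 ⟨x i, rfl⟩ with a | a | a <;> simp [a, d, e]), commutatorElement_one_left, one_pow]
  choose G _ _ h1 h2 h3 using fun ε => Nat.find_spec (ex ε)
  refine ⟨fun a => G (finFunctionFinEquiv.symm a), inferInstance, fun _ => .ofFinite _, fun a b ab ⟨e⟩ => ?_,
    fun a => ⟨h2 _, fun H N _ h k => Nat.find_min (ex _) ?_ ⟨H ⧸ N, _, inferInstance, rfl, k, fun j =>
      ((h3 _ j).inj _ H.subtype_injective).sur _ (QuotientGroup.mk'_surjective N)⟩⟩⟩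
  · obtain ⟨j, hj⟩ := Function.ne_iff.1 (finFunctionFinEquiv.symm.injective.ne ab)
    have l1 := h3 (finFunctionFinEquiv.symm a) j
    have l2 := (h3 _ j).inj e.toMonoidHom e.injective
    have := h2 (finFunctionFinEquiv.symm a)
    generalize finFunctionFinEquiv.symm a j = t, finFunctionFinEquiv.symm b j = u at hj l1 l2
    have m : ∀ t, p j t ∈ Ω := fun t => ⟨Pi.mulSingle j (p j t), fun i => by
      by_cases e : i = j
      · subst e; fin_cases t <;> simp
      · simp [e], by simp⟩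
    rw [← this] at m
    obtain ⟨x, hx⟩ := m t
    obtain ⟨y, hy⟩ := m u
    have c := cp j t j u fun h => hj h.2
    have : Commute x y := commutatorElement_eq_one_iff_commute.1 (orderOf_eq_one_iff.1 (Nat.eq_one_of_dvd_coprimes c
      (orderOf_dvd_of_pow_eq_one (l1.pow hx y)) (by
        rw [← orderOf_inv, commutatorElement_inv]; exact orderOf_dvd_of_pow_eq_one (l2.pow hy x))))
    obtain ⟨c', k, e⟩ : orderOf (x * y) ∈ Ω := ‹_ = Ω› ▸ ⟨_, rfl⟩
    rw [this.orderOf_mul_eq_mul_orderOf_of_coprime (by rwa [hx, hy]), hx, hy] at e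
    have f : ∀ v, p j v ∣ ∏ i, c' i → c' j = p j v := fun v h => by
      obtain ⟨i, -, h⟩ := ((hp j v).prime.dvd_finsetProd_iff _).1 h
      rcases k i with a | a | a <;> rw [a] at h
      · exact absurd h (hp _ _).not_dvd_one
      all_goals
        obtain ⟨rfl, rfl⟩ := hinj _ _ _ _ ((Nat.prime_dvd_prime_iff_eq (hp _ _) (hp _ _)).1 h)
        exact a
    exact hj (hinj _ _ _ _ ((f t (e ▸ dvd_mul_right _ _)).symm.trans (f u (e ▸ dvd_mul_left _ _)))).2
  · rw [← h1]
    rcases h with h | h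
    · exact (Nat.card_le_card_of_surjective _ (QuotientGroup.mk'_surjective N)).trans_lt
        (H.card_le_card_group.lt_of_ne fun e => h (Subgroup.eq_top_of_card_eq _ e))
    · refine lt_of_lt_of_le ?_ H.card_le_card_group
      rw [← N.index_mul_card]
      exact lt_mul_of_one_lt_right Nat.card_pos (N.one_lt_card_iff_ne_bot.2 h)

end Cfsg.Agent.S3599
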