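import Cfsg.Statements.S3600
import Cfsg.Agent.H13.Hig3

set_option autoImplicit false
open Cfsg

namespace Cfsg.Agent.S3600

open Matrix Subgroup H13 in
open scoped MatrixGroups in
theorem section_exists {G K : Type*} [Group G] [Finite G] [Field K] [Fintype K] (hK : Fintype.card K = 4)
    (h : ∀ n, Sp G n → n ≤ 5) (π : G →* SL(2, K)) (s : Function.Surjective π) (hQ : ∀ q ∈ π.ker, q ^ 2 = 1) :
    ∃ σ : SL(2, K) →* G, ∀ g, π (σ g) = g := by
  have h2 := two_eq_zero_of_card (n := 2) hK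
  haveI := psl_simple (F := K) hK.ge
  obtain ⟨e⟩ := H10.equiv_A5_of_simple (card_psl 60 hK rfl)
  obtain ⟨f, sf, hf⟩ := exists_sl_of_psl h2 (QuotientGroup.quotientBot (G := PSL(2, K)))
  let E := (MulEquiv.ofBijective f ⟨(MonoidHom.ker_eq_bot_iff f).1 hf, sf⟩).symm.trans e
  let ψ := E.toMonoidHom.comp π
  have sψ : Function.Surjective ψ := E.surjective.comp s
  have kψ : ∀ {g}, ψ g = 1 → g ∈ π.ker := fun e => E.map_eq_one_iff.1 e
  have od : ∀ (p : ℕ) (g : G), p.Prime → 3 ≤ p → ψ g ^ p = 1 → ψ g ≠ 1 → g ^ p = 1 := fun p g hp h3 e1 e2 => by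
    haveI := Fact.mk hp
    obtain ⟨c, hc⟩ := orderOf_eq_prime e1 e2 ▸ orderOf_map_dvd ψ g
    have := h _ ⟨g, rfl⟩
    have := orderOf_pos g
    obtain rfl : c = 1 := by
      rcases c with _ | _ | c
      · omega
      · rfl
      · nlinarith
    rw [← mul_one p, ← hc, pow_orderOf_eq_one]
  obtain ⟨x0, hx⟩ : ∃ x : alternatingGroup (Fin 5), x ^ 3 = 1 ∧ x ≠ 1 ∧ H10.a5a * x * H10.a5a⁻¹ = x⁻¹ := by decide
  obtain ⟨x, rfl⟩ := sψ x0
  obtain ⟨t, ht⟩ := sψ H10.a5a
  obtain ⟨b, hb⟩ := sψ H10.a5b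
  have x3 := od 3 x Nat.prime_three le_rfl hx.1 hx.2.1
  have fp : ∀ q ∈ π.ker, x⁻¹ * q * x⁻¹⁻¹ = q → q = 1 := fun q hq e => by
    have c : Commute x q := by rw [inv_inv, mul_assoc, inv_mul_eq_iff_eq_mul] at e; exact e.symm
    have := od 3 (x * q) Nat.prime_three le_rfl (by simpa [ψ, show π q = 1 from hq] using hx.1)
      (by simpa [ψ, show π q = 1 from hq] using hx.2.1)
    rw [c.mul_pow, x3, one_mul, pow_succ, hQ q hq, one_mul] at this
    exact this
  obtain ⟨a, ha, e⟩ := conj_of_fpf fp (kψ (g := x * (t * x * t⁻¹)) (by simp [ht, hx.2.2]))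
  rw [inv_mul_cancel_left] at e
  have a1 : ψ a = 1 := by simp [ψ, show π a = 1 from ha]
  have ht' : ψ (a⁻¹ * t) = H10.a5a := by simp [a1, ht]
  have e' : a⁻¹ * t * x * (a⁻¹ * t)⁻¹ = x⁻¹ := by
    calc _ = a⁻¹ * (t * x * t⁻¹) * a := by group
      _ = _ := by rw [e]; group
  generalize a⁻¹ * t = u at ht' e'
  have u2 : u ^ 2 = 1 := fp _ (kψ (by rw [map_pow, ht']; decide)) (by
    rw [pow_two]
    calc _ = u * x * u⁻¹ * (u * u) * x := by rw [e', inv_inv]
      _ = u * (x * (u * x * u⁻¹)) * u := by group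
      _ = _ := by rw [e']; group)
  obtain ⟨φ, h1, h3⟩ := H10.exists_hom_A5 u2 (od 3 b Nat.prime_three le_rfl (by rw [hb]; decide) (by rw [hb]; decide))
    (od 5 _ Nat.prime_five (by norm_num) (by rw [map_mul, ht', hb]; decide) (by rw [map_mul, ht', hb]; decide))
  have : ψ.comp φ = MonoidHom.id _ := MonoidHom.eq_of_eqOn_dense H10.closure_a5 (by
    rintro _ (rfl | rfl)
    · simp [h1, ht']
    · simp [h3, hb])
  exact ⟨φ.comp E.toMonoidHom, fun g => E.injective (DFunLike.congr_fun this (E g))⟩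

open Matrix Subgroup H13 in
open scoped MatrixGroups in
theorem aff {K : Type*} [Field K] {A : Subgroup SL(3, K)}
    (hA : A = closure {M : SL(3, K) | M.1 2 0 = 0 ∧ M.1 2 1 = 0 ∧ M.1 2 2 = 1}) :
    ∃ (β : A →* SL(2, K)) (v : A → Fin 2 → K), Function.Surjective β ∧ (∀ a b, v (a * b) = v a + (β a).1 *ᵥ v b) ∧
      (∀ a, β a = 1 → v a = 0 → a = 1) ∧ ((2 : K) = 0 → Sp A 4) := by
  have m : ∀ M ∈ A, M.1 2 0 = 0 ∧ M.1 2 1 = 0 ∧ M.1 2 2 = 1 := fun M hM => by
    rw [hA] at hM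
    have k : ∀ {M N : SL(3, K)}, M.1 2 0 = 0 ∧ M.1 2 1 = 0 ∧ M.1 2 2 = 1 → ∀ i, (M * N).1 2 i = N.1 2 i := fun {M N} h i => by
      change (M.1 * N.1) 2 i = _
      simp [mul_apply, Fin.sum_univ_three, h]
    induction hM using closure_induction with
    | mem M h => exact h
    | one => simp
    | mul M N _ _ h1 h2 => simpa only [k h1] using h2
    | inv M _ h => simp [← k (N := M⁻¹) h]
  refine ⟨MonoidHom.mk' (fun M => H10.slMk (M.1.1 0 0) (M.1.1 0 1) (M.1.1 1 0) (M.1.1 1 1) (by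
    have := M.1.2
    rw [det_fin_three] at this
    simpa [m _ M.2] using this)) fun M N => Subtype.ext ?_, fun M => ![M.1.1 0 2, M.1.1 1 2], fun g => ?_, fun M N => ?_,
      fun M h1 h2 => Subtype.ext (Subtype.ext ?_), fun h2 => ?_⟩
  · change !![(M.1.1 * N.1.1) 0 0, (M.1.1 * N.1.1) 0 1; (M.1.1 * N.1.1) 1 0, (M.1.1 * N.1.1) 1 1] = !![_, _; _, _] * !![_, _; _, _]
    simp [mul_apply, Fin.sum_univ_three, m _ N.2]
  · refine ⟨⟨⟨!![g.1 0 0, g.1 0 1, 0; g.1 1 0, g.1 1 1, 0; 0, 0, 1], ?_⟩, hA.ge (Subgroup.subset_closure ⟨rfl, rfl, rfl⟩)⟩, Subtype.ext ?_⟩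
    · simpa [det_fin_three] using H10.sl_det g
    · exact (eta_fin_two g.1).symm
  · change ![(M.1.1 * N.1.1) 0 2, (M.1.1 * N.1.1) 1 2] = _ + !![_, _; _, _] *ᵥ _
    ext i
    fin_cases i <;> simp [mul_apply, Fin.sum_univ_three, m _ N.2, add_comm, mul_comm]
  · have e := fun i j => congrArg (fun z : SL(2, K) => z.1 i j) h1
    have := m _ M.2
    ext i j
    fin_cases i <;> fin_cases j
    exacts [e 0 0, e 0 1, congrFun h2 0, e 1 0, e 1 1, congrFun h2 1, this.1, this.2.1, this.2.2]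
  · let M : SL(3, K) := ⟨!![1, 1, 0; 0, 1, 1; 0, 0, 1], by simp [det_fin_three]⟩
    have e : (M ^ 2).1 = !![1, 0, 1; 0, 1, 0; 0, 0, 1] := by
      rw [pow_two]
      change M.1 * M.1 = _
      simp [M, one_add_one_eq_two, h2]
    refine ⟨⟨M, hA ▸ Subgroup.subset_closure ⟨rfl, rfl, rfl⟩⟩, ?_⟩
    rw [← orderOf_coe]
    refine orderOf_eq_prime_pow (p := 2) (n := 1) (fun h => ?_) (Subtype.ext ?_)
    · simpa [show M ^ 2 = 1 from h] using congrFun (congrFun e 0) 2
    · change (M ^ (2 * 2)).1 = 1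
      rw [pow_mul, pow_two]
      change (M ^ 2).1 * (M ^ 2).1 = _
      simp [e, one_add_one_eq_two, h2, one_fin_three]


/-- A finite group is critical with respect to a set Ω of natural numbers when its set of element orders is Ω while no proper section has Ω as its set of element orders. A finite group critical with respect to {1, 2, 3, 4, 5} (the set of element orders of the alternating group of degree 6) is isomorphic either to the alternating group of degree 6 or to the affine group F² ⋊ SL(2,F) over the field F with four elements (realised as the matrices of SL(3,F) with last row (0, 0, 1)). -/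
theorem result {G : Type*} [Group G] [Finite G]
    (hcrit : Set.range (orderOf : G → ℕ) = ({1, 2, 3, 4, 5} : Set ℕ) ∧
      ∀ (H : Subgroup G) (N : Subgroup ↥H) [N.Normal], (H ≠ ⊤ ∨ N ≠ ⊥) → Set.range (orderOf : (↥H ⧸ N) → ℕ) ≠ ({1, 2, 3, 4, 5} : Set ℕ)) :
    Nonempty (G ≃* alternatingGroup (Fin 6)) ∨
      ∃ (F : Type) (_ : Field F) (_ : Fintype F), Fintype.card F = 4 ∧
        Nonempty (G ≃* ↥(Subgroup.closure {M : Matrix.SpecialLinearGroup (Fin 3) F |
          (M : Matrix (Fin 3) (Fin 3) F) 2 0 = 0 ∧ (M : Matrix (Fin 3) (Fin 3) F) 2 1 = 0 ∧ (M : Matrix (Fin 3) (Fin 3) F) 2 2 = 1})) := by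
  have k : ∀ n, H13.Sp G n ↔ n ∈ ({1, 2, 3, 4, 5} : Set ℕ) := fun n => Set.ext_iff.1 hcrit.1 n
  have h5 : ∀ n, H13.Sp G n → n ≤ 5 := fun n e => by have := (k n).1 e; simp at this; omega
  obtain e | ⟨K, _, _, hK, π, s, n, θ, inj, rg, eq⟩ := H13.spec_five h5 ((k 2).2 (by simp)) ((k 3).2 (by simp))
    ((k 5).2 (by simp))
  · exact Or.inl e
  have h2 := H13.two_eq_zero_of_card (n := 2) hK
  have el := rg ▸ (H13.elem_of_higman h2 θ).2
  obtain ⟨σ, hσ⟩ := section_exists hK h5 π s el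
  obtain ⟨β, v, sβ, hv, h1, h4⟩ := aff (K := K) rfl
  have c60 : Nat.card (Matrix.SpecialLinearGroup (Fin 2) K) = 60 := by rw [H10.card_SL2, hK]
  have tk : ∀ w, π (θ w) = 1 := fun w => (rg ▸ ⟨w, rfl⟩ : θ w ∈ π.ker)
  cases n with
  | zero =>
    have : Function.Injective π := (MonoidHom.ker_eq_bot_iff π).1 (rg ▸ eq_bot_iff.2 (by
      rintro _ ⟨w, rfl⟩; rw [Subsingleton.elim w 1, map_one]; exact one_mem _))
    obtain ⟨f, sf, hf⟩ := H13.exists_sl_of_psl h2
      (QuotientGroup.quotientBot (G := Matrix.ProjectiveSpecialLinearGroup (Fin 2) K))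
    exact absurd ((H13.sp_psl_even le_rfl hK).1 ((((k 4).2 (by simp)).of_injective π this).of_equiv
      (MulEquiv.ofBijective f ⟨(MonoidHom.ker_eq_bot_iff f).1 hf, sf⟩).symm)) (by decide)
  | succ n =>
    let Φ : _ →* G := MonoidHom.mk' (fun a => θ (.ofAdd fun _ => v a) * σ (β a)) fun a b => by
      have := eq (σ (β a)) fun _ => v b
      rw [hσ] at this
      rw [hv, map_mul, map_mul, show (fun _ : Fin (n + 1) => v a + (β a).1.mulVec (v b)) = (fun _ => v a) +
        fun _ => (β a).1.mulVec (v b) from rfl, ofAdd_add, map_mul, this]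
      group
    have iΦ : Function.Injective Φ := (injective_iff_map_eq_one Φ).2 fun a e => by
      have e : θ (.ofAdd fun _ => v a) * σ (β a) = 1 := e
      have e1 := congrArg π e
      rw [map_mul, tk, hσ, one_mul, map_one] at e1
      rw [e1, map_one, mul_one, ← map_one θ] at e
      exact h1 a e1 (congrFun (Multiplicative.ofAdd.injective (inj e)) 0)
    refine Or.inr ⟨K, inferInstance, inferInstance, hK, ⟨(MulEquiv.ofBijective Φ ⟨iΦ, ?_⟩).symm⟩⟩
    by_contra ns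
    refine hcrit.2 Φ.range ⊥ (Or.inl (mt MonoidHom.range_eq_top.1 ns)) (Set.ext fun m => ?_)
    refine ((H13.sp_congr QuotientGroup.quotientBot).trans (H13.sp_congr (MonoidHom.ofInjective iΦ).symm)).trans
      ⟨fun e => (k m).1 (e.of_injective Φ iΦ), ?_⟩
    have p : ∀ p, p.Prime → p ∣ 60 → _ := fun p hp hd => ((H13.sp_prime hp).2 (c60 ▸ hd)).of_surjective β sβ
    rintro (rfl | rfl | rfl | rfl | rfl)
    exacts [H13.sp_one, p 2 Nat.prime_two (by norm_num), p 3 Nat.prime_three (by norm_num), h4 h2, p 5 Nat.prime_five (by norm_num)]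

end Cfsg.Agent.S3600
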