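import Cfsg.Statements.S3619
import Cfsg.Agent.H5.Jor

set_option autoImplicit false
open Cfsg

namespace Cfsg.Agent.S3619
open H5

/-- Let G act faithfully on a finite set in such a way that every non-trivial normal subgroup of G is transitive (G is quasiprimitive). Let Γ be a subset with more than one point and not the whole set, such that the pointwise stabilizer of the complement of Γ acts transitively on Γ (a Jordan set). If that pointwise stabilizer acts primitively on Γ, then G is k-fold transitive where k is one more than the number of points outside Γ (the Jordan set is a trivial one). -/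
theorem result {G Ω : Type*} [Group G] [Finite G] [MulAction G Ω] [FaithfulSMul G Ω] [Finite Ω]
    (hqp : ∀ N : Subgroup G, N.Normal → N ≠ ⊥ → MulAction.IsPretransitive ↥N Ω)
    (Γ : Set Ω) (hΓ1 : 1 < Γ.ncard) (hΓ2 : Γ.ncard < Nat.card Ω)
    (hJ : MulAction.IsPretransitive ↥(fixingSubgroup G Γᶜ) ↥(SubMulAction.ofFixingSubgroup G Γᶜ))
    (hJp : MulAction.IsPreprimitive ↥(fixingSubgroup G Γᶜ) ↥(SubMulAction.ofFixingSubgroup G Γᶜ)) :
    MulAction.IsMultiplyPretransitive G Ω (Nat.card Ω - Γ.ncard + 1) := by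
  classical
  letI := Fintype.ofFinite Ω
  have c0 := Set.ncard_add_ncard_compl Γ
  have hF : Fl G Γ.toFinsetᶜ := ⟨by
      rw [compl_compl, ← Set.ncard_eq_toFinset_card']; exact hΓ1, fun x hx y hy => by
    obtain ⟨⟨g, g1⟩, g2⟩ := hJ.exists_smul_eq ⟨x, fun k => k (by simpa using hx)⟩ ⟨y, fun k => k (by simpa using hy)⟩
    exact ⟨g, fun z hz => (mem_fixingSubgroup_iff G).1 g1 z (by simpa using hz),
      congrArg Subtype.val g2⟩⟩
  obtain ⟨M, π, t, pr, hπ, hs, hf⟩ := hF.qp_setup hqp
  have hp : MulAction.IsPreprimitive G Ω := by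
    by_contra hn
    obtain ⟨x, y, hx, hy, ne, e⟩ := hF.pair hπ hs hf fun k => hn (prim_of_inj hπ hs k)
    let j : SubMulAction.ofFixingSubgroup G Γᶜ →ₑ[(Subtype.val : fixingSubgroup G Γᶜ → G)] G ⧸ M :=
      ⟨fun z => π z, fun g z => hπ g z⟩
    have hb : MulAction.IsBlock (fixingSubgroup G Γᶜ) (j ⁻¹' {π x}) :=
      MulAction.IsBlock.preimage (φ := (Subtype.val : fixingSubgroup G Γᶜ → G)) j
        MulAction.IsBlock.singleton
    rcases hb.subsingleton_or_eq_univ with k | k
    · exact ne (congrArg Subtype.val (k (x := ⟨x, fun k => k (by simpa using hx)⟩) rfl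
        (y := ⟨y, fun k => k (by simpa using hy)⟩) e.symm))
    · refine hF.not_const hπ hs hf (s := π x) fun z hz => ?_
      have : (⟨z, fun k => k (by simpa using hz)⟩ : SubMulAction.ofFixingSubgroup G Γᶜ) ∈ j ⁻¹' {π x} :=
        k ▸ Set.mem_univ _
      exact this
  have := (hp.isMultiplyPreprimitive (s := Γᶜ) (n := Nat.card Ω - Γ.ncard - 1) (by omega)
    (by omega) hJp).isMultiplyPretransitive
  rwa [show Nat.card Ω - Γ.ncard - 1 + 2 = Nat.card Ω - Γ.ncard + 1 by omega] at this

end Cfsg.Agent.S3619
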