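import Cfsg.Statements.S3620
import Cfsg.Agent.H5.Jor

set_option autoImplicit false
open Cfsg

namespace Cfsg.Agent.S3620
open H5

/-- Let G act faithfully on a finite set in such a way that every non-trivial normal subgroup of G is transitive (G is quasiprimitive). Let Γ be a subset with more than one point and fewer than half of the points, such that the pointwise stabilizer of the complement of Γ acts transitively on Γ. Then G induces every even permutation of the set (G is the alternating or the symmetric group). -/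
theorem result {G Ω : Type*} [Group G] [Finite G] [MulAction G Ω] [FaithfulSMul G Ω] [Fintype Ω] [DecidableEq Ω]
    (hqp : ∀ N : Subgroup G, N.Normal → N ≠ ⊥ → MulAction.IsPretransitive ↥N Ω)
    (Γ : Set Ω) (hΓ1 : 1 < Γ.ncard) (hΓ2 : 2 * Γ.ncard < Fintype.card Ω)
    (hJ : MulAction.IsPretransitive ↥(fixingSubgroup G Γᶜ) ↥(SubMulAction.ofFixingSubgroup G Γᶜ)) :
    ∀ σ : Equiv.Perm Ω, Equiv.Perm.sign σ = 1 → ∃ x : G, (MulAction.toPerm x : Equiv.Perm Ω) = σ := by
  classical
  rw [Set.ncard_eq_toFinset_card'] at hΓ1 hΓ2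
  have hF : Fl G Γ.toFinsetᶜ := ⟨by rw [compl_compl]; exact hΓ1, fun x hx y hy => by
    obtain ⟨⟨g, g1⟩, g2⟩ := hJ.exists_smul_eq ⟨x, fun k => k (by simpa using hx)⟩ ⟨y, fun k => k (by simpa using hy)⟩
    exact ⟨g, fun z hz => (mem_fixingSubgroup_iff G).1 g1 z (by simpa using hz),
      congrArg Subtype.val g2⟩⟩
  have c : Fintype.card Ω < 2 * Γ.toFinsetᶜ.card := by rw [Finset.card_compl]; omega
  exact hF.alt (hF.qp_prim hqp c) c

end Cfsg.Agent.S3620
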