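import Cfsg.Statements.S3627
import Cfsg.Agent.H6.J1Loc
import Mathlib.GroupTheory.SemidirectProduct

set_option autoImplicit false
open Cfsg



namespace Cfsg.Agent.S3627

/-- the sign action -/
def act (k : ℕ) : ℤˣ →* MulAut (Multiplicative (Fin k → ZMod 7)) where
  toFun u := AddEquiv.toMultiplicative (DistribMulAction.toAddEquiv (Fin k → ZMod 7) u)
  map_one' := by ext; simp
  map_mul' u v := by ext; simp [mul_smul, smul_comm u v]

/-- generalized dihedral group -/
abbrev D (k : ℕ) : Type := Multiplicative (Fin k → ZMod 7) ⋊[act k] ℤˣ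

theorem card_D (k : ℕ) : Nat.card (D k) = 7 ^ k * 2 := by
  rw [SemidirectProduct.card]; simp

theorem pow_D {k : ℕ} (d : D k) : d ^ 2 = 1 ∨ d ^ 7 = 1 := by
  obtain ⟨n, u⟩ := d
  rcases Int.units_eq_one_or u with rfl | rfl
  · right
    have : n ^ 7 = 1 := by
      apply Multiplicative.toAdd.injective
      ext i
      simp only [toAdd_pow, Pi.smul_apply, toAdd_one, Pi.zero_apply]
      generalize n.toAdd i = a
      revert a; decide
    rw [show (⟨n, 1⟩ : D k) = SemidirectProduct.inl n from rfl, ← map_pow, this, map_one]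
  · left
    rw [sq]
    ext i
    · show n.toAdd i + (-1 : ℤˣ) • n.toAdd i = 0
      simp
    · simp

theorem ord_D {k : ℕ} (d : D k) : orderOf d = 1 ∨ orderOf d = 2 ∨ orderOf d = 7 := by
  rcases pow_D d with h | h
  · rcases (Nat.dvd_prime Nat.prime_two).1 (orderOf_dvd_of_pow_eq_one h) with e | e <;> simp [e]
  · rcases (Nat.dvd_prime (by norm_num)).1 (orderOf_dvd_of_pow_eq_one h) with e | e <;> simp [e]

theorem exists_D (k : ℕ) {n : ℕ} (h : n = 1 ∨ n = 2 ∨ n = 7) : ∃ d : D (k + 1), orderOf d = n := by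
  have : Finite (D (k + 1)) := Nat.finite_of_card_ne_zero (by rw [card_D]; positivity)
  rcases h with rfl | rfl | rfl
  · exact ⟨1, orderOf_one⟩
  · have := Nat.fact_prime_two
    exact exists_prime_orderOf_dvd_card' 2 (by rw [card_D]; simp)
  · have := Fact.mk (show Nat.Prime 7 by norm_num)
    exact exists_prime_orderOf_dvd_card' 7 (by rw [card_D, pow_succ, mul_assoc, mul_comm]; exact ⟨2 * 7 ^ k, by ring⟩)

open H6.J1 in
theorem arith : ∀ a ∈ spec, ∀ b ∈ spec, ∀ c ∈ spec, ∀ d ∈ spec, a = 7 ∨ b = 7 ∨ c = 7 ∨ d = 7 ∨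
    (fun L => L.gcd 15 ∈ spec ∧ L.gcd 11 ∈ spec ∧ L.gcd 19 ∈ spec ∧ (L.gcd 2 = 1 ∨ L.gcd 2 = 2) ∧
      (L.gcd 15).lcm ((L.gcd 11).lcm ((L.gcd 19).lcm (L.gcd 2))) = L) (a.lcm (b.lcm (c.lcm d))) := by
  decide +kernel

/-- Let J be the first Janko group. Then there are finite groups of arbitrarily large order with exactly the same set of element orders as J × J × J × J. -/
theorem result (N : ℕ) : ∃ (H : Type) (_ : Group H) (_ : Fintype H), N < Fintype.card H ∧
      Set.range (orderOf : H → ℕ) = Set.range (orderOf : ↥Cfsg.Spor.J1 × ↥Cfsg.Spor.J1 × ↥Cfsg.Spor.J1 × ↥Cfsg.Spor.J1 → ℕ) := by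
  have : Finite (D (N + 1)) := Nat.finite_of_card_ne_zero (by rw [card_D]; positivity)
  refine ⟨Spor.J1 × Spor.J1 × Spor.J1 × D (N + 1), inferInstance, Fintype.ofFinite _, ?_, ?_⟩
  · rw [← @Nat.card_eq_fintype_card _ (_)]
    simp only [Nat.card_prod, H6.J1.card_J1, card_D]
    have := Nat.lt_pow_self (n := N + 1) (show 1 < 7 by norm_num)
    omega
  ext n
  constructor
  · rintro ⟨⟨a, b, c, d⟩, rfl⟩
    obtain ⟨d', hd⟩ := H6.J1.exists_order (orderOf d) (by rcases ord_D d with e | e | e <;> simp [e, H6.J1.spec])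
    exact ⟨(a, b, c, d'), by simp only [Prod.orderOf_mk, hd]⟩
  · rintro ⟨⟨a, b, c, d⟩, rfl⟩
    obtain ⟨s, hs⟩ := exists_D N (n := 7) (by simp)
    simp only [Prod.orderOf_mk]
    rcases arith _ (H6.J1.order_mem a) _ (H6.J1.order_mem b) _ (H6.J1.order_mem c) _ (H6.J1.order_mem d) with
      e | e | e | e | ⟨h1, h2, h3, h4, e⟩
    · exact ⟨(d, b, c, s), by simp only [Prod.orderOf_mk, hs, e]; ac_rfl⟩
    · exact ⟨(a, d, c, s), by simp only [Prod.orderOf_mk, hs, e]; ac_rfl⟩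
    · exact ⟨(a, b, d, s), by simp only [Prod.orderOf_mk, hs, e]; ac_rfl⟩
    · exact ⟨(a, b, c, s), by simp only [Prod.orderOf_mk, hs, e]⟩
    · obtain ⟨a', ha⟩ := H6.J1.exists_order _ h1
      obtain ⟨b', hb⟩ := H6.J1.exists_order _ h2
      obtain ⟨c', hc⟩ := H6.J1.exists_order _ h3
      obtain ⟨d', hd⟩ := exists_D N (h4.imp_right Or.inl)
      exact ⟨(a', b', c', d'), by simp only [Prod.orderOf_mk, ha, hb, hc, hd, e]⟩

end Cfsg.Agent.S3627
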