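import Cfsg.Statements.S3639
import Cfsg.Agent.H13.SzModel
import Cfsg.Agent.H13.SzLocal
import Cfsg.Agent.H13.PrimeGraph

set_option autoImplicit false
open Cfsg

namespace Cfsg.Agent.S3639

open H13 H13.Sz Matrix in
theorem fpf {F : Type*} [Field F] [Fintype F] {m : ℕ} [IsSz F m] {x : Cfsg.Sz F m} {s : ℕ}
    (hs : s.Prime) (hs2 : s ≠ 2) (hx : orderOf x = s) (v : Fin 4 → F) (hv : mat x *ᵥ v = v) :
    v = 0 := by
  have h1 : x ≠ 1 := by
    rintro rfl
    exact hs.one_lt.ne (by simpa using hx)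
  rcases trichotomy h1 with h2 | ⟨k, a, ha, ha1, rfl⟩ | ⟨k, a, ⟨t, rfl⟩, ha1, rfl⟩
  · by_contra h0
    rcases irreducible_of_prime hs hx (hx ▸ h2.orderOf_dvd) (Submodule.span F {v}) (by
      intro w hw
      obtain ⟨c, rfl⟩ := Submodule.mem_span_singleton.mp hw
      rw [mulVec_smul, hv]
      exact hw) with h3 | h3
    · exact h0 (Submodule.span_singleton_eq_bot.mp h3)
    · have := finrank_span_singleton (K := F) h0
      rw [h3, finrank_top] at this
      simp at this
  · exfalso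
    rw [← MulAut.conj_apply, MulEquiv.orderOf_eq] at hx
    obtain ⟨n, hn⟩ := isPGroup_U (⟨a, ha⟩ : U F m)
    have h2 : a ^ 2 ^ n = 1 := congrArg Subtype.val hn
    have := orderOf_dvd_of_pow_eq_one h2
    rw [hx] at this
    exact hs2 ((Nat.prime_dvd_prime_iff_eq hs Nat.prime_two).mp (hs.dvd_of_dvd_pow this))
  · have ht : (t : F) ≠ 1 := by
      intro h
      apply ha1
      rw [show t = 1 from Units.ext h, map_one]
    have ht' : (t : F) * th m (t : F) ≠ 1 := fun h => ht (eq_one_of_mul_th h)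
    have h3 : hMat m t *ᵥ (mat k⁻¹ *ᵥ v) = mat k⁻¹ *ᵥ v := by
      conv_rhs => rw [← hv]
      rw [mulVec_mulVec, mulVec_mulVec, ← mat_mul, ← mat_h, ← mat_mul]
      simp [mul_assoc]
    have h4 : mat k⁻¹ *ᵥ v = 0 := by
      generalize mat k⁻¹ *ᵥ v = z at h3
      have h5 : ∀ c y : F, c ≠ 1 → c * y = y → y = 0 := by
        intro c y hc h
        by_contra hy
        exact hc (mul_right_cancel₀ hy (by rw [h, one_mul]))
      ext i
      have h6 := congrFun h3 i
      fin_cases i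
      · exact h5 _ _ ht' (by simpa [hMat, mulVec, dotProduct, Fin.sum_univ_four] using h6)
      · exact h5 _ _ ht (by simpa [hMat, mulVec, dotProduct, Fin.sum_univ_four] using h6)
      · exact h5 _ _ (inv_ne_one.mpr ht)
          (by simpa [hMat, mulVec, dotProduct, Fin.sum_univ_four] using h6)
      · exact h5 _ _ (inv_ne_one.mpr ht')
          (by simpa [hMat, mulVec, dotProduct, Fin.sum_univ_four] using h6)
    have h5 : mat k *ᵥ (mat k⁻¹ *ᵥ v) = v := by
      rw [mulVec_mulVec, ← mat_mul]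
      simp
    rw [← h5, h4, mulVec_zero]


/-- Let S be the Suzuki group over the field with q = 2^(2m+1) ≥ 8 elements. Then there are finite groups of arbitrarily large order with the same prime graph as S. -/
theorem result {F : Type*} [Field F] [Fintype F] {m : ℕ} (hm : 1 ≤ m) (hF : Fintype.card F = 2 ^ (2 * m + 1)) (N : ℕ) :
    ∃ (H : Type) (_ : Group H) (_ : Fintype H), N < Fintype.card H ∧ ((∀ r : ℕ, r.Prime → (r ∣ Nat.card ↥(Cfsg.Lie.Sz F (2 ^ (m + 1))) ↔ r ∣ Nat.card H)) ∧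
      (∀ r s : ℕ, r.Prime → s.Prime → r ≠ s → ((∃ x : ↥(Cfsg.Lie.Sz F (2 ^ (m + 1))), orderOf x = r * s) ↔ (∃ y : H, orderOf y = r * s)))) := by
  have : H13.Sz.IsSz F m := ⟨hm, hF⟩
  have : Fact (Nat.Prime 2) := ⟨Nat.prime_two⟩
  obtain ⟨H, _, _, h1, h2⟩ := H13.exists_large_samePrimeGraph_of_module (G := Cfsg.Sz F m) 2
    (by
      rw [H13.Sz.card_Sz, hF]
      exact ((dvd_pow (dvd_pow_self 2 (by omega)) (by omega)).mul_right _).mul_right _)
    (H13.Sz.matHom F m) (fun s hs hs2 => Or.inr fun x hx v hv => fpf hs hs2 hx v hv) N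
  have := Fintype.ofFinite H
  exact ⟨H, inferInstance, inferInstance, by rwa [← Nat.card_eq_fintype_card],
    (H13.SamePrimeGraph.of_equiv (H13.Sz.lieEquiv F m).symm).trans h2⟩

end Cfsg.Agent.S3639
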