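import Cfsg.Statements.S3641
import Cfsg.Agent.H17.SN17

set_option autoImplicit false
open Cfsg

namespace Cfsg.Agent.S3641

open H17.SN Subgroup MulAction MatrixGroups

/-- Let G be a finite group with trivial centre whose set of Sylow numbers (numbers of Sylow r-subgroups, r over the prime divisors of its order) is exactly {18, 136, 153}. Then G is isomorphic to PSL(2, 17) or to PGL(2, 17). -/
theorem result {G : Type*} [Group G] [Finite G] (hZ : Subgroup.center G = ⊥) (hNS : {c : ℕ | ∃ r : ℕ, r.Prime ∧ r ∣ Nat.card G ∧ c = Nat.card (Sylow r G)} = ({18, 136, 153} : Set ℕ))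
    {F : Type*} [Field F] [Fintype F] (hF : Fintype.card F = 17) :
    Nonempty (G ≃* Matrix.ProjectiveSpecialLinearGroup (Fin 2) F) ∨ Nonempty (G ≃* (GL (Fin 2) F ⧸ Subgroup.center (GL (Fin 2) F))) := by
  have ex : ∀ c ∈ ({18, 136, 153} : Set ℕ), c ∣ Nat.card G := fun c hc => by
    obtain ⟨r, hr, -, rfl⟩ := hNS.ge hc
    have := Fact.mk hr
    exact H29.card_sylow_dvd
  have val : ∀ r [Fact r.Prime], r ∣ Nat.card G → (Nat.card (Sylow r G) = 18 ∨ Nat.card (Sylow r G) = 136 ∨
      Nat.card (Sylow r G) = 153) ∧ Nat.card (Sylow r G) % r = 1 := fun r _ hr =>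
    ⟨hNS.le ⟨r, Fact.out, hr, rfl⟩, Eq.trans (card_sylow_modEq_one r G) (Nat.mod_eq_of_lt (Fact.out : r.Prime).one_lt)⟩
  have v2 := val 2 ((by norm_num : 2 ∣ 18).trans (ex _ (by simp)))
  have v3 := val 3 ((by norm_num : 3 ∣ 18).trans (ex _ (by simp)))
  have v17 := val 17 ((by norm_num : 17 ∣ 136).trans (ex _ (by simp)))
  obtain ⟨h1, h2⟩ := top17 (G := G) (by omega)
  let φ := toPermHom G (Sylow 17 G)
  have kn : ∀ P : Sylow 17 G, φ.ker ≤ normalizer (P : Set G) := fun P k hk =>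
    Sylow.smul_eq_iff_mem_normalizer.1 (congrArg (fun f : Equiv.Perm _ => f P) hk)
  obtain ⟨f, hf⟩ : ∃ f : PSL(2, ZMod 17) →* φ.range, Function.Injective f := by
    rcases h1 with ⟨⟨e⟩⟩ | ⟨⟨e⟩⟩
    · exact ⟨e.symm.toMonoidHom.comp Matrix.ProjectiveSpecialLinearGroup.toPGL,
        e.symm.injective.comp Matrix.ProjectiveSpecialLinearGroup.toPGL_injective⟩
    · exact ⟨e.symm.toMonoidHom, e.symm.injective⟩
  have k0 : φ.ker = ⊥ := ker_bot hZ fun r hr R => by
    have := Fact.mk hr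
    by_cases d : r ∣ Nat.card G
    swap
    · have : (R : Subgroup G) = ⊥ := by
        rw [← card_eq_one, R.card_eq_multiplicity, Nat.factorization_eq_zero_of_not_dvd d, pow_zero]
      exact le_top.trans (normalizer_eq_top_iff.2 (this ▸ inferInstance : (R : Subgroup G).Normal)).ge
    by_cases c2 : r = 2
    · subst c2
      exact φ.ker_rangeRestrict ▸ ker_le φ.rangeRestrict_surjective (le_trans (by rw [psl17.1]; omega) (syl_le 2 f hf)) R
    by_cases c3 : r = 3
    · subst c3
      exact φ.ker_rangeRestrict ▸ ker_le φ.rangeRestrict_surjective (le_trans (by rw [psl17.2]; omega) (syl_le 3 f hf)) R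
    by_cases c17 : r = 17
    · subst c17; exact kn R
    have nd : ¬ r ∣ φ.ker.index := fun k => by
      have := (index_ker φ ▸ k).trans h2
      rw [show 4896 = 2 ^ 5 * 3 ^ 2 * 17 from rfl, hr.dvd_mul, hr.dvd_mul] at this
      rcases this with (k | k) | k
      · exact c2 ((Nat.prime_dvd_prime_iff_eq hr Nat.prime_two).1 (hr.dvd_of_dvd_pow k))
      · exact c3 ((Nat.prime_dvd_prime_iff_eq hr Nat.prime_three).1 (hr.dvd_of_dvd_pow k))
      · exact c17 ((Nat.prime_dvd_prime_iff_eq hr Fact.out).1 k)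
    obtain ⟨P⟩ : Nonempty (Sylow 17 G) := inferInstance
    obtain ⟨v, w⟩ := val r d
    have := not_dvd P R ((H29.syl_le_of_index _ nd R).trans (kn P)) (by omega) fun k => c2
      ((Nat.prime_dvd_prime_iff_eq hr Nat.prime_two).1 (hr.dvd_of_dvd_pow (n := 4)
        ((Nat.modEq_iff_dvd' (by norm_num)).1 k.symm)))
    have e : Nat.card (Sylow r G) = 18 := by omega
    exact absurd ((Nat.prime_dvd_prime_iff_eq (q := 17) hr Fact.out).1 ((Nat.modEq_iff_dvd' (by norm_num)).1
      (e ▸ card_sylow_modEq_one r G).symm)) c17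
  have e := MonoidHom.ofInjective (φ.ker_eq_bot_iff.1 k0)
  have i : ZMod 17 ≃+* F := FiniteField.ringEquivOfCardEq ((ZMod.card 17).trans hF.symm)
  rcases h1 with ⟨⟨j⟩⟩ | ⟨⟨j⟩⟩
  · exact .inr ((H10.PGL2_congr i).map fun k => (e.trans j).trans k)
  · exact .inl ((H10.PSL2_congr i).map fun k => (e.trans j).trans k)

end Cfsg.Agent.S3641
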