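import Cfsg.Statements.S3648
import Cfsg.Agent.H26.Nse

set_option autoImplicit false
open Cfsg
open scoped MatrixGroups

namespace Cfsg.Agent.S3648

open Subgroup
open scoped Pointwise commutatorElement

/-- For a finite group X let nse(X) be the set of values of the function 'number of elements of order k' over the element orders k that occur. Let F be a finite field of odd order q > 3 and P = PGL(2, F) = GL(2, F) modulo its centre. If G is a finite group with the same order as P and nse(G) = nse(P), then G is isomorphic to P. -/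
theorem result {F : Type*} [Field F] [Fintype F] (hodd : Odd (Fintype.card F)) (h3 : 3 < Fintype.card F)
    {G : Type*} [Group G] [Finite G] (hcard : Nat.card G = Nat.card (GL (Fin 2) F ⧸ Subgroup.center (GL (Fin 2) F)))
    (hnse : {c : ℕ | 0 < c ∧ ∃ n : ℕ, c = Nat.card {g : G // orderOf g = n}} = {c : ℕ | 0 < c ∧ ∃ n : ℕ, c = Nat.card {g : (GL (Fin 2) F ⧸ Subgroup.center (GL (Fin 2) F)) // orderOf g = n}}) :
    Nonempty (G ≃* (GL (Fin 2) F ⧸ Subgroup.center (GL (Fin 2) F))) := by
    classical
    obtain ⟨p, _, ⟨f, f0⟩, hp, e⟩ := FiniteField.card' F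
    obtain ⟨r, hr⟩ : ∃ r, Fintype.card F = r + 1 := ⟨_, (Nat.sub_add_cancel Fintype.card_pos).symm⟩
    obtain ⟨f, rfl⟩ := Nat.exists_eq_add_of_lt f0
    have dp : p ∣ Fintype.card F := e ▸ dvd_pow_self p f0.ne'
    have p2 : p ≠ 2 := by rintro rfl; exact Nat.not_even_iff_odd.2 hodd (even_iff_two_dvd.2 dp)
    have cL : Nat.card PGL(2, F) = (r + 1) * (r * (r + 2)) := by rw [H10.card_PGL2, hr, Nat.add_sub_cancel, mul_assoc]
    have : Finite PGL(2, F) := Nat.finite_of_card_ne_zero (by rw [cL]; have : 0 < r := by omega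
                                                              positivity)
    have hL : H326.PQ PGL(2, F) p r := ⟨hp, p2, ⟨f, by simpa [hr] using e⟩, cL⟩
    have hG : H326.PQ G p r := ⟨hp, p2, hL.pw, hcard.trans cL⟩
    obtain ⟨d, c⟩ := hL.of_sing (H326.pgl_sing hp p2 dp)
    have e2 := H326.oc_two_eq hG.two_dvd hL.two_dvd hnse
    obtain ⟨d', c'⟩ := hG.transfer (e2 ▸ d 2 (by simp) p2.symm) fun k => by
      obtain z | z := (H326.oc G k).eq_zero_or_pos
      · simp [z]
      obtain ⟨-, j, hj⟩ := hnse.le ⟨z, k, rfl⟩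
      rw [show H326.oc G k = H326.oc PGL(2, F) j from hj]
      by_cases j1 : j = 1
      · exact .inl (by rw [j1, H326.oc_one])
      by_cases jp : j = p
      exacts [.inr (.inl (jp ▸ c)), .inr (.inr (d j j1 jp))]
    obtain ⟨K, _, _, k, j⟩ := hG.pgl (hG.sing d' c') c' (by
      rw [e2, ← hr]
      exact H326.pgl_inv (Ring.two_ne_zero (ringChar.eq F p ▸ p2)))
    exact H10.equiv_PGL2_of_card_eq (k.trans hr.symm) j

end Cfsg.Agent.S3648
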