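import Cfsg.Statements.S3662
import Cfsg.Agent.H9.PG
import Cfsg.Agent.H12.SpG2
import Cfsg.Agent.S1059
import Cfsg.Agent.H13.PrimeGraph
import Cfsg.Agent.H24.MSRep

set_option autoImplicit false
open Cfsg

namespace Cfsg.Agent.S3662

section
open H12 H13 Cfsg.Lie Matrix StSys
variable (F : Type*) [Field F] [Fintype F]

/-- the seven-dimensional representation -/
noncomputable def r7 : chevG2.group F →* GL (Fin 7) F :=
  (H24.r3_of_finite (repG2.sys F)).lift.comp
    (MulEquiv.ofBijective (r3_gr (D := chevG2) (F := F)).lift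
      ⟨lift_gr_inj (smithG2.ker_eq_bot (by decide) _), H24.lift_surjective _ grS_T⟩).symm.toMonoidHom

theorem r7_x (r : Φ chevG2) (t : F) :
    ((r7 F ((grS chevG2 F).x r t) : GL (Fin 7) F) : Matrix _ _ F) = repX e7 e27 F r t := by
  rw [← r3_gr.lift_x r t]
  have : (MulEquiv.ofBijective (r3_gr (D := chevG2) (F := F)).lift
      ⟨lift_gr_inj (smithG2.ker_eq_bot (by decide) _), H24.lift_surjective _ grS_T⟩).symm
      (r3_gr.lift ((stS chevG2 F).x r t)) = (stS chevG2 F).x r t :=
    (MulEquiv.symm_apply_eq _).2 rfl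
  simp only [r7, MonoidHom.comp_apply, MulEquiv.coe_toMonoidHom]
  rw [this, R3.lift_x]
  rfl

variable [CharP F 2]

theorem col3 (g : chevG2.group F) (i : Fin 7) (hi : i ≠ 3) :
    (r7 F g).1 i 3 = 0 := by
  have h2 : (2 : F) = 0 := CharP.ofNat_eq_zero F 2
  revert i
  refine (grS chevG2 F).gen_induction (P := Set.univ)
    (Q := fun g => ∀ i, i ≠ 3 → (r7 F g).1 i 3 = 0)
    (fun i hi => by simp [one_apply, hi]) (fun g _ r _ t e i hi => ?_) (by rw [← T, grS_T]; trivial)
  have k : ∀ j : Fin 7, j ≠ 3 → repX e7 e27 F r t j 3 = 0 := by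
    have k1 : ∀ r : Fin 12, ∀ j : Fin 7, spC (e7 r) j 3 % 2 = 0 ∧ spC (e27 r) j 3 = 0 := by
      decide +kernel
    intro j hj
    obtain ⟨k2, k3⟩ := k1 r j
    obtain ⟨c, hc⟩ := Int.dvd_of_emod_eq_zero k2
    simp only [repX, Matrix.add_apply, Matrix.smul_apply, spM_apply, one_apply, if_neg hj]
    erw [hc, k3]
    simp [h2]
  first
  | (rw [map_mul, Units.val_mul, r7_x, Matrix.mul_apply]
     refine Finset.sum_eq_zero fun j _ => ?_
     by_cases hj : j = 3
     · rw [hj, k i hi, zero_mul]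
     · rw [e j hj, mul_zero])
  | (rw [map_mul, Units.val_mul, r7_x, Matrix.mul_apply]
     refine Finset.sum_eq_zero fun j _ => ?_
     by_cases hj : j = 3
     · rw [hj, e i hi, zero_mul]
     · rw [k j hj, mul_zero])

/-- the six-dimensional representation -/
noncomputable def r6 : chevG2.group F →* Matrix (Fin 6) (Fin 6) F where
  toFun g := (r7 F g).1.submatrix (Fin.succAbove 3) (Fin.succAbove 3)
  map_one' := by
    rw [map_one, Units.val_one, submatrix_one _ Fin.succAbove_right_injective]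
  map_mul' g h := by
    ext i j
    rw [map_mul, Units.val_mul, submatrix_apply, Matrix.mul_apply, Matrix.mul_apply,
      Fin.sum_univ_succAbove _ 3, col3 F g _ (Fin.succAbove_ne _ _), zero_mul, zero_add]
    rfl

theorem r6_x (r : Φ chevG2) : r6 F ((grS chevG2 F).x r 1) =
    (ZMod.castHom (dvd_refl 2) F).mapMatrix
      ((repX e7 e27 (ZMod 2) r 1).submatrix (Fin.succAbove 3) (Fin.succAbove 3)) := by
  have := map_repX (e := e7) (e2 := e27) (ZMod.castHom (dvd_refl 2) F) r 1
  rw [map_one] at this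
  change (r7 F _).1.submatrix _ _ = _
  rw [r7_x, ← this]
  rfl

/-- an element of order seven -/
def A7 : Matrix (Fin 6) (Fin 6) (ZMod 2) := !![1, 0, 0, 0, 0, 1; 1, 1, 0, 1, 0, 1; 0, 0, 1, 0, 1, 0;
  0, 0, 1, 1, 1, 0; 1, 0, 0, 0, 1, 1; 1, 1, 0, 1, 1, 0]
/-- the inverse of `A7 - 1` -/
def M7 : Matrix (Fin 6) (Fin 6) (ZMod 2) := !![1, 0, 0, 0, 1, 0; 0, 1, 1, 0, 0, 1; 0, 0, 1, 1, 0, 0;
  0, 1, 0, 0, 1, 0; 0, 0, 1, 0, 0, 0; 1, 0, 0, 0, 0, 0]

theorem MA7 : M7 * (A7 - 1) = 1 ∧ A7 ^ 7 = 1 := by decide +kernel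

theorem exists7 : ∃ y, r6 F y = (ZMod.castHom (dvd_refl 2) F).mapMatrix A7 :=
  ⟨(grS chevG2 F).x (rG 0) 1 * (grS chevG2 F).x (rG 4) 1 * (grS chevG2 F).x (rG 9) 1, by
    rw [map_mul, map_mul, r6_x, r6_x, r6_x, ← map_mul, ← map_mul]
    congr 1
    decide +kernel⟩
end

/-- The prime graph of a finite group has the prime divisors of its order as vertices, two distinct primes p, q being joined when the group has an element of order pq; two groups have the same prime graph when they have the same prime divisors and the same joined pairs. Let F be the field with 4 elements and L the Chevalley group of type G₂ over F. There are finite groups of arbitrarily large order with the same prime graph as L. -/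
theorem result {F : Type*} [Field F] [Fintype F] (hF : Fintype.card F = 4) (N : ℕ) :
    ∃ (H : Type) (_ : Group H) (_ : Finite H), N < Nat.card H ∧
      ((∀ p : ℕ, p.Prime → (p ∣ Nat.card ↥(Cfsg.Lie.chevG2.group F) ↔ p ∣ Nat.card H)) ∧
      (∀ p q : ℕ, p.Prime → q.Prime → p ≠ q → ((∃ g : ↥(Cfsg.Lie.chevG2.group F), orderOf g = p * q) ↔ (∃ g : H, orderOf g = p * q)))) := by
  classical
  have : CharP F 2 := charP_of_card_eq_prime_pow (f := 2) hF
  have : Fact (Nat.Prime 2) := ⟨Nat.prime_two⟩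
  have hc := Cfsg.Agent.S1059.result hF
  have hfin : Finite (Cfsg.Lie.chevG2.group F) := Nat.finite_of_card_ne_zero (by rw [hc]; norm_num)
  have hs := (H12.simple_of_mem (D := Cfsg.Lie.chevG2) (F := F) (by simp) fun _ => by
    obtain ⟨a, ha⟩ : ∃ a : F, a ∉ ({0, 1} : Finset F) := by
      apply Finset.exists_mem_notMem_of_card_lt_card (s := {0, 1}) (t := Finset.univ) _ |>.imp
        fun a ha => ha.2
      exact Finset.card_le_two.trans_lt (by simp [hF])
    exact ⟨a, by simpa using ha⟩).1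
  obtain ⟨y, hy⟩ := exists7 F
  let c := (ZMod.castHom (dvd_refl 2) F).mapMatrix (m := Fin 6)
  have hM : c M7 * (r6 F y - 1) = 1 := by
    rw [hy, ← map_one c, ← map_sub, ← map_mul, MA7.1]
  have hy1 : r6 F y ≠ 1 := by
    intro h
    rw [h, sub_self, mul_zero] at hM
    exact zero_ne_one hM
  have inj : Function.Injective (r6 F) := by
    rw [← MonoidHom.ker_eq_bot_iff]
    refine (hs.eq_bot_or_eq_top_of_normal _ inferInstance).resolve_right fun h => hy1 ?_
    exact (h ▸ Subgroup.mem_top y : y ∈ (r6 F).ker)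
  have hy7 : orderOf y = 7 := by
    have : Fact (Nat.Prime 7) := ⟨by norm_num⟩
    rw [← orderOf_injective _ inj]
    refine orderOf_eq_prime ?_ hy1
    rw [hy, ← map_pow, MA7.2, map_one]
  obtain ⟨-, -, -, o4, o5⟩ := H12.G2_orders 2 hF
  obtain ⟨H, _, _, h1, h2⟩ := H13.exists_large_samePrimeGraph_of_module 2 (by rw [hc]; norm_num)
    (r6 F) (fun s hs hs2 => by
      by_cases h3 : s = 3
      · left; rw [h3]; exact o4
      by_cases h5 : s = 5
      · left; rw [h5]; exact o5
      right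
      intro x hx v hv
      by_cases h7 : s = 7
      · refine H9.fpf_of_sylow (fun g v => (r6 F g).mulVec v)
          (fun x y v => by rw [map_mul, Matrix.mulVec_mulVec]) (fun v => by simp) (fun _ => by simp)
          (s := 7) (by norm_num) (by rw [hc]; norm_num) hy7 (fun w hw => ?_) (h7 ▸ hx) v hv
        have : (r6 F y - 1).mulVec w = 0 := by rw [Matrix.sub_mulVec, hw]; simp
        rw [← Matrix.one_mulVec w, ← hM, ← Matrix.mulVec_mulVec, this, Matrix.mulVec_zero]
      by_cases h13 : s = 13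
      · refine H9.fpf_of_count (r6 F x) hs (by rw [← map_pow, ← hx, pow_orderOf_eq_one, map_one])
          (fun h => hs.one_lt.ne' (by rw [← hx, inj (h.trans (map_one _).symm), orderOf_one]))
          (fun d d0 d6 => ?_) v hv
        rw [hF, h13]
        simp only [Fintype.card_fin] at d6 ⊢
        interval_cases d <;> decide
      exfalso
      have h := hx ▸ orderOf_dvd_natCard x
      rw [hc, show 4 ^ 6 * (4 ^ 2 - 1) * (4 ^ 6 - 1) = 2 ^ 12 * 3 ^ 3 * 5 ^ 2 * 7 * 13 by norm_num] at h
      simp only [hs.dvd_mul] at h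
      rcases h with (((h | h) | h) | h) | h
      · exact hs2 ((Nat.prime_dvd_prime_iff_eq hs (by norm_num)).1 (hs.dvd_of_dvd_pow h))
      · exact h3 ((Nat.prime_dvd_prime_iff_eq hs (by norm_num)).1 (hs.dvd_of_dvd_pow h))
      · exact h5 ((Nat.prime_dvd_prime_iff_eq hs (by norm_num)).1 (hs.dvd_of_dvd_pow h))
      · exact h7 ((Nat.prime_dvd_prime_iff_eq hs (by norm_num)).1 h)
      · exact h13 ((Nat.prime_dvd_prime_iff_eq hs (by norm_num)).1 h)) N
  exact ⟨H, inferInstance, inferInstance, h1, h2⟩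

end Cfsg.Agent.S3662
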