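import Cfsg.Statements.S3663
import Cfsg.Agent.H9.PG
import Cfsg.Agent.H9.Weil
import Cfsg.Agent.S0278
import Cfsg.Agent.S0279
import Cfsg.Agent.H13.PrimeGraph

set_option autoImplicit false
open Cfsg

namespace Cfsg.Agent.S3663

open Matrix

theorem z45 : (4 : ZMod 5) ≠ 0 ∧ ((13 : ℕ) : ZMod 5) ≠ 0 := by decide

theorem exists_large_sub {G K n : Type*} [Group G] [Finite G] [Field K]
    [Finite K] [Fintype n] [DecidableEq n] (p : ℕ) [hp : Fact p.Prime] [CharP K p]
    (hG : p ∣ Nat.card G) (ρ : G →* Matrix n n K) (N : Matrix n n K) (hN : N ≠ 0)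
    (hc : ∀ g, ρ g * N = N * ρ g)
    (h : ∀ s : ℕ, s.Prime → s ≠ p → (∃ x : G, orderOf x = p * s) ∨
      ∀ x : G, orderOf x = s → ∀ v, ρ x *ᵥ (N *ᵥ v) = N *ᵥ v → N *ᵥ v = 0) (M : ℕ) :
    ∃ (H : Type) (_ : Group H) (_ : Finite H), M < Nat.card H ∧ H13.SamePrimeGraph G H := by
  let W : Submodule K (n → K) := LinearMap.range (toLin' N)
  have hW : ∀ g, ∀ w ∈ W, ρ g *ᵥ w ∈ W := by
    rintro g _ ⟨v, rfl⟩
    exact ⟨ρ g *ᵥ v, by simp [hc]⟩
  let φ : G →* MulAut (Multiplicative W) :=
    { toFun g :=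
        { toFun v := Multiplicative.ofAdd ⟨ρ g *ᵥ v.toAdd.1, hW _ _ v.toAdd.2⟩
          invFun v := Multiplicative.ofAdd ⟨ρ g⁻¹ *ᵥ v.toAdd.1, hW _ _ v.toAdd.2⟩
          left_inv v := by simp [← map_mul]
          right_inv v := by simp [← map_mul]
          map_mul' v w := by
            rw [← ofAdd_add]; congr 1; apply Subtype.ext; simp [mulVec_add] }
      map_one' := by ext; simp
      map_mul' a b := by ext; simp }
  have : Nontrivial W := by
    rw [Submodule.nontrivial_iff_ne_bot, Ne, LinearMap.range_eq_bot]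
    intro k
    exact hN (toLin'.injective (k.trans (map_zero _).symm))
  refine H13.exists_large_samePrimeGraph (V := Multiplicative W) (fun v => ⟨1, ?_⟩) hG φ
    (fun s hs hsp => (h s hs hsp).imp id fun h2 x hx v hv => ?_) M
  · rw [pow_one]
    apply Multiplicative.toAdd.injective
    ext i
    simp
  · obtain ⟨w, hw⟩ := v.toAdd.2
    have h3 : ρ x *ᵥ v.toAdd.1 = v.toAdd.1 := congrArg (fun t : Multiplicative W => t.toAdd.1) hv
    apply Multiplicative.toAdd.injective
    apply Subtype.ext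
    rw [← hw] at h3 ⊢
    exact h2 x hx w h3

section
set_option linter.unusedSectionVars false
variable {F : Type*} [Field F] [Fintype F]

/-- the matrix of an element of `SU` -/
noncomputable def mt : Cfsg.SU 3 F 4 →* Matrix (Fin 3) (Fin 3) F := (Cfsg.slToMat 3 F).comp (Cfsg.SU 3 F 4).subtype

theorem mt_inj : Function.Injective (mt (F := F)) := fun _ _ h => Subtype.ext (Subtype.ext h)

theorem herm_add (h2 : CharP F 2) (u v w : Fin 3 → F) :
    hermForm 3 F 4 u (v + w) = hermForm 3 F 4 u v + hermForm 3 F 4 u w := by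
  have : Fact (Nat.Prime 2) := ⟨Nat.prime_two⟩
  have := add_pow_char_pow (R := F) (p := 2) (n := 2)
  simp only [hermForm, Pi.add_apply, ← Finset.sum_add_distrib]
  refine Finset.sum_congr rfl fun i _ => ?_
  rw [show 4 = 2 ^ 2 from rfl, this, mul_add]

theorem mk_su (A : Matrix (Fin 3) (Fin 3) F) (h2 : CharP F 2) (hd : A.det = 1)
    (hA : Aᵀ * A.map (· ^ 4) = 1) : ∃ g : Cfsg.SU 3 F 4, mt g = A := by
  have : Fact (Nat.Prime 2) := ⟨Nat.prime_two⟩
  refine ⟨⟨⟨A, hd⟩, fun u v => ?_⟩, rfl⟩
  change hermForm 3 F 4 (A *ᵥ u) (A *ᵥ v) = _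
  let σ := iterateFrobenius F 2 2
  have hσ : ∀ x, σ x = x ^ 4 := fun x => iterateFrobenius_def _ _ _
  have e : ∀ u v : Fin 3 → F, hermForm 3 F 4 u v = u ⬝ᵥ (σ ∘ v) := fun u v => by
    simp [hermForm, dotProduct, hσ]
  have e2 : σ ∘ (A *ᵥ v) = A.map σ *ᵥ (σ ∘ v) := by
    funext i; exact RingHom.map_mulVec σ A v i
  have e3 : A.map σ = A.map (· ^ 4) := by ext; simp [hσ]
  rw [e, e, e2, ← vecMul_transpose, dotProduct_mulVec, vecMul_vecMul, e3, hA, vecMul_one]

theorem orders (h2 : CharP F 2) {a : F} (ha : a ^ 5 = 1) (ha1 : a ≠ 1) :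
    (∃ x : Cfsg.SU 3 F 4, orderOf x = 5 * 2) ∧ ∃ x : Cfsg.SU 3 F 4, orderOf x = 5 * 3 := by
  have two : (2 : F) = 0 := CharP.ofNat_eq_zero F 2
  have f2 : Fact (Nat.Prime 2) := ⟨Nat.prime_two⟩
  have f3 : Fact (Nat.Prime 3) := ⟨Nat.prime_three⟩
  have f5 : Fact (Nat.Prime 5) := ⟨Nat.prime_five⟩
  obtain ⟨d, hd⟩ := mk_su (F := F) !![a ^ 3, a ^ 3 + a, a ^ 3 + a; a ^ 3 + a, a ^ 3, a ^ 3 + a;
      a ^ 3 + a, a ^ 3 + a, a ^ 3] h2 (by simp [det_fin_three]; grind) (by
    ext i j; fin_cases i <;> fin_cases j <;> simp [Matrix.mul_apply, Fin.sum_univ_three] <;> grind)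
  obtain ⟨s, hs⟩ := mk_su (F := F) !![0, 1, 0; 1, 0, 0; 0, 0, 1] h2 (by simp [det_fin_three]; grind) (by
    ext i j; fin_cases i <;> fin_cases j <;> simp [Matrix.mul_apply, Fin.sum_univ_three])
  obtain ⟨t, ht⟩ := mk_su (F := F) !![0, 1, 0; 0, 0, 1; 1, 0, 0] h2 (by simp [det_fin_three]) (by
    ext i j; fin_cases i <;> fin_cases j <;> simp [Matrix.mul_apply, Fin.sum_univ_three])
  have od : orderOf d = 5 := by
    refine orderOf_eq_prime (mt_inj ?_) fun h => ?_
    · have e2 : mt d * mt d = !![a, a + a ^ 2, a + a ^ 2; a + a ^ 2, a, a + a ^ 2;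
          a + a ^ 2, a + a ^ 2, a] := by
        rw [hd]; ext i j; fin_cases i <;> fin_cases j <;> simp <;> grind
      have e4 : mt d * mt d * (mt d * mt d) = !![a ^ 2, a ^ 4 + a ^ 2, a ^ 4 + a ^ 2;
          a ^ 4 + a ^ 2, a ^ 2, a ^ 4 + a ^ 2; a ^ 4 + a ^ 2, a ^ 4 + a ^ 2, a ^ 2] := by
        rw [e2]; ext i j; fin_cases i <;> fin_cases j <;> simp <;> grind
      rw [map_pow, map_one, show mt d ^ 5 = mt d * mt d * (mt d * mt d) * mt d by
        simp only [pow_succ, pow_zero, one_mul, mul_assoc], e4, hd]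
      ext i j; fin_cases i <;> fin_cases j <;> simp <;> grind
    · rw [h, map_one] at hd
      have := congrFun (congrFun hd 0) 0
      simp at this
      grind
  have os : orderOf s = 2 := by
    refine orderOf_eq_prime (mt_inj ?_) fun h => ?_
    · rw [map_pow, map_one, hs, pow_two]
      ext i j; fin_cases i <;> fin_cases j <;> simp
    · rw [h, map_one] at hs
      have := congrFun (congrFun hs 0) 0
      simp at this
  have ot : orderOf t = 3 := by
    refine orderOf_eq_prime (mt_inj ?_) fun h => ?_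
    · rw [map_pow, map_one, ht, pow_succ, pow_two]
      ext i j; fin_cases i <;> fin_cases j <;> simp
    · rw [h, map_one] at ht
      have := congrFun (congrFun ht 0) 0
      simp at this
  have c1 : Commute d s := mt_inj (by
    rw [map_mul, map_mul, hd, hs]; ext i j; fin_cases i <;> fin_cases j <;> simp)
  have c2 : Commute d t := mt_inj (by
    rw [map_mul, map_mul, hd, ht]; ext i j; fin_cases i <;> fin_cases j <;> simp)
  exact ⟨⟨_, by rw [c1.orderOf_mul_eq_mul_orderOf_of_coprime (by rw [od, os]; norm_num), od, os]⟩,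
    ⟨_, by rw [c2.orderOf_mul_eq_mul_orderOf_of_coprime (by rw [od, ot]; norm_num), od, ot]⟩⟩

/-- the matrices of `SU × Z` -/
noncomputable def rho (ζ : Fˣ) : Cfsg.SU 3 F 4 × Subgroup.zpowers ζ →* Matrix (Fin 3) (Fin 3) F where
  toFun g := ((g.2 : Fˣ) : F) • mt g.1
  map_one' := by simp
  map_mul' a b := by simp [smul_smul, mul_comm]

theorem exists_ell (hF : Fintype.card F = 16) (h2 : CharP F 2) :
    ∃ (l : F →+ ZMod 2) (x : F), l x ≠ l (x ^ 4) := by
  classical
  have : ∃ x : F, x ^ 4 ≠ x := by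
    by_contra hc
    push Not at hc
    have h1 : (Finset.univ : Finset F).val ⊆ (Polynomial.X ^ 4 - Polynomial.X : Polynomial F).roots := by
      intro x _
      rw [Polynomial.mem_roots (FiniteField.X_pow_card_sub_X_ne_zero F (by norm_num))]
      simp [hc]
    have h3 := Polynomial.card_le_degree_of_subset_roots h1
    rw [FiniteField.X_pow_card_sub_X_natDegree_eq F (by norm_num)] at h3
    simp [hF] at h3
  obtain ⟨x, hx⟩ := this
  let _ := ZMod.algebra F 2
  by_contra hc
  push Not at hc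
  apply hx
  rw [← sub_eq_zero, ← Module.forall_dual_apply_eq_zero_iff (ZMod 2)]
  intro φ
  rw [map_sub, sub_eq_zero]
  exact (hc φ.toAddMonoidHom x).symm
end

/-- The prime graph of a finite group has the prime divisors of its order as vertices, two distinct primes p, q being joined when the group has an element of order pq; two groups have the same prime graph when they have the same prime divisors and the same joined pairs. Let F be the field with 16 elements and L = PSU(3,4) realised over F. There are finite groups of arbitrarily large order with the same prime graph as L. -/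
theorem result {F : Type*} [Field F] [Fintype F] (hF : Fintype.card F = 16) (N : ℕ) :
    ∃ (H : Type) (_ : Group H) (_ : Finite H), N < Nat.card H ∧
      ((∀ p : ℕ, p.Prime → (p ∣ Nat.card (Cfsg.PSU 3 F 4) ↔ p ∣ Nat.card H)) ∧
      (∀ p q : ℕ, p.Prime → q.Prime → p ≠ q → ((∃ g : (Cfsg.PSU 3 F 4), orderOf g = p * q) ↔ (∃ g : H, orderOf g = p * q)))) := by
  classical
  have h2 : CharP F 2 := charP_of_card_eq_prime_pow (f := 4) hF
  have two : (2 : F) = 0 := CharP.ofNat_eq_zero F 2
  have f5 : Fact (Nat.Prime 5) := ⟨Nat.prime_five⟩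
  have hc : Nat.card (Cfsg.SU 3 F 4) = 62400 := by
    have := Cfsg.Agent.S0278.result (q := 4) hF 3 (by norm_num)
    simp [Finset.prod_range_succ] at this
    norm_num at this
    rw [Nat.card_eq_fintype_card]
    omega
  have hz : Subgroup.center (Cfsg.SU 3 F 4) = ⊥ :=
    Subgroup.card_eq_one.1 (Cfsg.Agent.S0279.result (q := 4) hF 3 le_rfl)
  obtain ⟨ζ, hζ⟩ := exists_prime_orderOf_dvd_card (G := Fˣ) 5 (by rw [Fintype.card_units, hF]; norm_num)
  have z5 : ∀ a : Subgroup.zpowers ζ, a ^ 5 = 1 := fun a => by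
    have := pow_card_eq_one' (x := a)
    rwa [Nat.card_zpowers, hζ] at this
  have z5' : ∀ a : Subgroup.zpowers ζ, ((a : Fˣ) : F) ^ 5 = 1 := fun a => by
    have := congrArg (fun t : Subgroup.zpowers ζ => ((t : Fˣ) : F)) (z5 a)
    simpa using this
  have z1 : ∀ a : Subgroup.zpowers ζ, ((a : Fˣ) : F) = 1 → a = 1 := fun a h =>
    Subtype.ext (Units.ext h)
  have ζ1 : (⟨ζ, Subgroup.mem_zpowers ζ⟩ : Subgroup.zpowers ζ) ≠ 1 := fun h => by
    have : ζ = 1 := congrArg Subtype.val h
    rw [this] at hζ; simp at hζ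
  obtain ⟨l, x0, hl⟩ := exists_ell hF h2
  let _ : DistribMulAction (Cfsg.SU 3 F 4 × Subgroup.zpowers ζ) (Fin 3 → F) :=
    DistribMulAction.compHom _ (rho ζ)
  have sm : ∀ (g : Cfsg.SU 3 F 4 × Subgroup.zpowers ζ) (v : Fin 3 → F),
      g • v = ((g.2 : Fˣ) : F) • (mt g.1 *ᵥ v) := fun g v => by
    rw [← smul_mulVec]; rfl
  have sf : ∀ a : Subgroup.zpowers ζ, a ≠ 1 → ∀ v : Fin 3 → F,
      ((1, a) : Cfsg.SU 3 F 4 × Subgroup.zpowers ζ) • v = v → v = 0 := by
    intro a ha v hv
    rw [sm, map_one, one_mulVec] at hv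
    have : (((a : Fˣ) : F) - 1) • v = 0 := by rw [sub_smul, one_smul]; exact sub_eq_zero.2 hv
    exact (smul_eq_zero.1 this).resolve_left fun k => ha (z1 a (sub_eq_zero.1 k))
  let B : (Fin 3 → F) →+ (Fin 3 → F) →+ ZMod 2 := AddMonoidHom.mk'
    (fun u => AddMonoidHom.mk' (fun v => l (hermForm 3 F 4 u v)) fun v w => by
      rw [herm_add h2, map_add]) fun u u' => by
      ext v
      simp [hermForm, add_mul, Finset.sum_add_distrib]
  have hB : ∀ u v, B u v = l (hermForm 3 F 4 u v) := fun _ _ => rfl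
  have p16 : ∀ x : F, x ^ 16 = x := fun x => by rw [← hF]; exact FiniteField.pow_card x
  have D : H9.Weil.WD B ((1, ⟨ζ, Subgroup.mem_zpowers ζ⟩) : Cfsg.SU 3 F 4 × Subgroup.zpowers ζ) 5 := by
    refine ⟨fun v => ?_, fun v hv => ?_, fun g u v => ?_, Nat.prime_five, ?_, fun g => ?_, sf _ ζ1⟩
    · funext i; simp [CharTwo.add_self_eq_zero]
    · obtain ⟨i, hi⟩ := Function.ne_iff.1 hv
      have hi : v i ≠ 0 := hi
      refine ⟨Pi.single i ((x0 / v i) ^ 4), ?_⟩
      have e1 : hermForm 3 F 4 v (Pi.single i ((x0 / v i) ^ 4)) = x0 := by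
        rw [hermForm, Finset.sum_eq_single i]
        · simp only [Pi.single_eq_same, ← pow_mul, p16]; field_simp
        · intro j _ hj; simp [hj]
        · simp
      have e2 : hermForm 3 F 4 (Pi.single i ((x0 / v i) ^ 4)) v = x0 ^ 4 := by
        rw [hermForm, Finset.sum_eq_single i]
        · simp only [Pi.single_eq_same]; field_simp
        · intro j _ hj; simp [hj]
        · simp
      rw [hB, hB, e1, e2]; exact hl
    · rw [hB, hB, sm, sm, ← g.1.2 u v]
      congr 1
      simp only [hermForm, Pi.smul_apply, smul_eq_mul]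
      refine Finset.sum_congr rfl fun i _ => ?_
      change _ = (mt g.1 *ᵥ u) i * (mt g.1 *ᵥ v) i ^ 4
      linear_combination ((mt g.1 *ᵥ u) i * (mt g.1 *ᵥ v) i ^ 4) * z5' g.2
    · exact Prod.ext (one_pow _) (z5 _)
    · exact Prod.ext (by simp) (mul_comm _ _)
  let Nm := ∑ a : Subgroup.zpowers ζ, D.rep (1, a)
  have cZ : Fintype.card (Subgroup.zpowers ζ) = 5 := by rw [Fintype.card_zpowers, hζ]
  have hN : Nm ≠ 0 := by
    intro h
    have h1 := congrFun (congrFun h ![1, 1, 0]) 0
    have w0 : (![1, 1, 0] : Fin 3 → F) ≠ 0 := fun k => by simpa using congrFun k 0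
    simp only [Nm] at h1
    rw [Matrix.sum_apply, ← Finset.add_sum_erase _ _ (Finset.mem_univ 1),
      Finset.sum_congr rfl (g := fun _ => (1 : ZMod 5))] at h1
    · rw [show ((1, 1) : Cfsg.SU 3 F 4 × Subgroup.zpowers ζ) = 1 from rfl, map_one, one_apply_ne w0] at h1
      simp [cZ] at h1
      exact absurd h1 z45.1
    · intro a ha
      have a1 : ((a : Fˣ) : F) + 1 ≠ 0 := fun k => Finset.ne_of_mem_erase ha (z1 a (by grind))
      rw [D.rep_apply]
      simp only [H9.Weil.Om, of_apply, add_zero, map_zero, H9.Weil.sg_zero, mul_one, H9.Weil.co]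
      have e : ∀ v : Fin 3 → F, ((1, a) : Cfsg.SU 3 F 4 × Subgroup.zpowers ζ) • v + v =
          (((a : Fˣ) : F) + 1) • v := fun v => by rw [sm, map_one, one_mulVec, add_smul, one_smul]
      rw [Finset.sum_eq_single ((((a : Fˣ) : F) + 1)⁻¹ • ![1, 1, 0])]
      · rw [e, smul_inv_smul₀ a1, if_pos rfl, hB]
        have : hermForm 3 F 4 ![1, 1, 0] ((((a : Fˣ) : F) + 1)⁻¹ • ![1, 1, 0]) = 0 := by
          simp [hermForm, Fin.sum_univ_three, CharTwo.add_self_eq_zero]
        rw [this]; simp
      · intro b _ hb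
        rw [e, if_neg]
        intro k
        exact hb (by rw [← k, inv_smul_smul₀ a1])
      · simp
  obtain ⟨o2, o3⟩ := orders h2 (z5' ⟨ζ, Subgroup.mem_zpowers ζ⟩) (fun k => ζ1 (z1 _ k))
  obtain ⟨H, _, _, h1, h3⟩ := exists_large_sub 5 (by rw [hc]; norm_num)
    (D.rep.comp (MonoidHom.inl _ _)) Nm hN (fun g => by
      simp only [Nm, Finset.mul_sum, Finset.sum_mul, MonoidHom.comp_apply, ← map_mul]
      simp) (fun s hs hs5 => by
      by_cases k2 : s = 2
      · left; rw [k2]; exact o2
      by_cases k3 : s = 3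
      · left; rw [k3]; exact o3
      right
      intro x hx v hv
      have k13 : s = 13 := by
        have h := hx ▸ orderOf_dvd_natCard x
        rw [hc, show 62400 = 2 ^ 6 * 3 * 5 ^ 2 * 13 by norm_num] at h
        simp only [hs.dvd_mul] at h
        rcases h with ((h | h) | h) | h
        · exact absurd ((Nat.prime_dvd_prime_iff_eq hs (by norm_num)).1 (hs.dvd_of_dvd_pow h)) k2
        · exact absurd ((Nat.prime_dvd_prime_iff_eq hs (by norm_num)).1 h) k3
        · exact absurd ((Nat.prime_dvd_prime_iff_eq hs (by norm_num)).1 (hs.dvd_of_dvd_pow h)) hs5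
        · exact (Nat.prime_dvd_prime_iff_eq hs (by norm_num)).1 h
      subst k13
      have cU : Fintype.card (Subgroup.zpowers x) = 13 := by rw [Fintype.card_zpowers, hx]
      have u13 : ∀ y : Subgroup.zpowers x, y ^ 13 = 1 := fun y => by rw [← cU]; exact pow_card_eq_one
      have S := D.sum_rep (m := 64) (by simp [hF]) (by norm_num) (by norm_num)
        (C := Subgroup.zpowers x × Subgroup.zpowers ζ) (by rw [Fintype.card_prod, cU, cZ])
        ((Subgroup.zpowers x).subtype.prodMap (MonoidHom.id _)) (by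
          rintro ⟨y, a⟩ hne w hw
          by_cases hy : y = 1
          · subst hy
            exact sf a (fun k => hne (by rw [k]; rfl)) w hw
          · have e : ∀ k : ℕ, (((Subgroup.zpowers x).subtype.prodMap (MonoidHom.id _)) (y, a)) ^ k • w = w := by
              intro k
              induction k with
              | zero => simp
              | succ k ih => rw [pow_succ, mul_smul, hw, ih]
            have e5 := e 65
            have e6 := e 40
            rw [← map_pow, Prod.pow_mk, show 40 = 13 * 3 + 1 from rfl, pow_succ, pow_mul, u13,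
              show 13 * 3 + 1 = 5 * 8 from rfl, pow_mul, z5, one_pow, one_pow, one_mul, sm] at e6
            refine H9.fpf_of_count (mt (y : Cfsg.SU 3 F 4)) hs ?_ ?_ (fun d d0 d3 => ?_) w (by simpa using e6)
            · rw [← map_pow, ← Subgroup.coe_pow, u13]; simp
            · intro k
              exact hy (Subtype.ext (mt_inj (k.trans (map_one _).symm)))
            · rw [hF]
              simp only [Fintype.card_fin] at d3 ⊢
              interval_cases d <;> decide)
      rw [Fintype.sum_prod_type] at S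
      have fx : ∀ y : Subgroup.zpowers x, D.rep ((y : Cfsg.SU 3 F 4), 1) *ᵥ (Nm *ᵥ v) = Nm *ᵥ v := by
        rintro ⟨y, hy⟩
        obtain ⟨k, rfl⟩ := mem_powers_iff_mem_zpowers.2 hy
        simp only
        clear hy
        induction k with
        | zero => rw [pow_zero, show ((1, 1) : Cfsg.SU 3 F 4 × Subgroup.zpowers ζ) = 1 from rfl,
            map_one, one_mulVec]
        | succ k ih =>
          rw [show ((x ^ (k + 1), 1) : Cfsg.SU 3 F 4 × Subgroup.zpowers ζ) = (x ^ k, 1) * (x, 1) from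
            Prod.ext (pow_succ _ _) (mul_one _).symm, map_mul, ← mulVec_mulVec]
          have hv' : D.rep (x, 1) *ᵥ (Nm *ᵥ v) = Nm *ᵥ v := hv
          rw [hv']
          exact ih
      have S2 : ∑ y : Subgroup.zpowers x, D.rep ((y : Cfsg.SU 3 F 4), 1) *ᵥ (Nm *ᵥ v) = 0 := by
        have : ∀ y : Subgroup.zpowers x, D.rep ((y : Cfsg.SU 3 F 4), 1) * Nm =
            ∑ a : Subgroup.zpowers ζ, D.rep (((Subgroup.zpowers x).subtype.prodMap (MonoidHom.id _)) (y, a)) := by
          intro y
          simp only [Nm, Finset.mul_sum, ← map_mul]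
          simp
        simp only [mulVec_mulVec, this]
        rw [← sum_mulVec, S, zero_mulVec]
      simp only [fx, Finset.sum_const, Finset.card_univ, cU] at S2
      rw [← Nat.cast_smul_eq_nsmul (ZMod 5)] at S2
      exact (smul_eq_zero.1 S2).resolve_left z45.2) N
  exact ⟨H, inferInstance, inferInstance, h1, (H13.SamePrimeGraph.of_equiv
    ((QuotientGroup.quotientMulEquivOfEq hz).trans QuotientGroup.quotientBot)).trans h3⟩

end Cfsg.Agent.S3663
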