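import Cfsg.Statements.S3669
import Cfsg.Agent.H24.PSL2Deg
import Cfsg.Agent.H23.FT1
import Cfsg.Agent.H16.SL25
import Cfsg.Agent.H6.Extension
import Cfsg.Agent.H10.PSL2Max
import Cfsg.Agent.H10.Small

set_option autoImplicit false
open Cfsg

namespace Cfsg.Agent.S3669


/-- The character degree graph of a finite group has as vertices the primes dividing some irreducible complex character degree, two distinct primes being joined when their product divides some irreducible character degree; two groups have the same character degree graph when they have the same vertices and the same joined pairs. A finite group of order 60 with the same character degree graph as the alternating group A₅ (whose character degrees are 1, 3, 4, 5, so the graph has vertices 2, 3, 5 and no edges) is isomorphic to A₅. -/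
theorem result {G : Type*} [Group G] [Finite G] (hcard : Nat.card G = 60)
    (hΓ : Cfsg.degreePrimes G = Cfsg.degreePrimes (alternatingGroup (Fin 5)) ∧ Cfsg.degreeGraph G = Cfsg.degreeGraph (alternatingGroup (Fin 5))) : Nonempty (G ≃* alternatingGroup (Fin 5)) := by
  classical
  refine H16.equiv_A5_of_not_solvable hcard fun hs => ?_
  have := Fintype.ofFinite (GaloisField 2 2)
  have c : Fintype.card (GaloisField 2 2) = 4 := by
    rw [← Nat.card_eq_fintype_card, GaloisField.card 2 2 two_ne_zero]; rfl
  have := Matrix.ProjectiveSpecialLinearGroup.rank_two_simple (F := GaloisField 2 2)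
    (Nat.card_eq_fintype_card.trans c).ge
  obtain ⟨e⟩ := H10.equiv_A5_of_simple (H10.card_PSL2_of 60 c rfl)
  obtain ⟨-, _, ⟨χ, rfl⟩, h⟩ : 5 ∈ degreePrimes G := by
    rw [hΓ.1, H24.degreePrimes_eq c.ge (by omega) (.inl ⟨e.symm⟩), c]
    exact ⟨Nat.prime_five, by norm_num⟩
  have := Fact.mk Nat.prime_five
  obtain ⟨P⟩ : Nonempty (Sylow 5 G) := inferInstance
  have hP : Nat.card P = 5 := by
    rw [P.card_eq_multiplicity, hcard, show Nat.factorization 60 5 = 1 by decide +kernel]; rfl
  obtain ⟨K, hK, PK⟩ := H23.hall_superset (π := {2}ᶜ) (H := ⊤) (X := (P : Subgroup G)) inferInstance le_top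
    (by simp [H18.PiGrp, hP, H18.piNat_prime Nat.prime_five])
  have h1 : Nat.card K = 15 := Nat.dvd_antisymm (hK.pi.dvd_of_dvd_mul (n := 4) (k := 15)
    (H18.piNat_pow_self Nat.prime_two 2).compl_compl (K.card_subgroup_dvd_card.trans hcard.dvd))
    (hK.dvd_of_piNat ((H18.piNat_compl_iff Nat.prime_two).2 (by decide)) (by simp [hcard]))
  have h2 : K.index = 4 := by have := K.card_mul_index; rw [h1, hcard] at this; omega
  have h3 : (P : Subgroup G).relIndex K = 3 := by have := H18.card_mul_relIndex PK; rw [h1, hP] at this; omega
  have h4 : K ≤ Subgroup.normalizer (P : Set G) := (Subgroup.normal_subgroupOf_iff_le_normalizer PK).1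
    (Subgroup.normal_of_index_eq_minFac_card (by rw [h1]; exact h3.trans (by norm_num)))
  have h5 : Nat.card (Sylow 5 G) ∣ 4 := P.card_eq_index_normalizer ▸ h2 ▸ Subgroup.index_dvd_of_le h4
  have h6 := card_sylow_modEq_one 5 G
  have h7 : Nat.card (Sylow 5 G) = 1 := by
    have := Nat.le_of_dvd (by decide) h5
    unfold Nat.ModEq at h6
    omega
  have _ := (Nat.card_eq_one_iff_unique.1 h7).1
  have _ := P.normal_of_subsingleton
  have h8 := h.trans (H6.ito_degree_dvd (P : Subgroup G) (fun a ha b hb => H18.abel_of_prime (by rw [hP]; exact this.out) hb a ha) χ.2)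
  exact P.not_dvd_index h8

end Cfsg.Agent.S3669
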