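import Cfsg.Statements.S3670
import Cfsg.Agent.H3.DegU33
import Mathlib.FieldTheory.Finite.GaloisField

set_option autoImplicit false
open Cfsg

namespace Cfsg.Agent.S3670

/-- The character degree graph of a finite group has as vertices the primes dividing some irreducible complex character degree, two distinct primes being joined when their product divides some irreducible character degree; two groups have the same character degree graph when they have the same vertices and the same joined pairs. Let F be the field with 9 elements and L = PSU(3,3) realised over F (order 6048). There is a finite solvable group of order 6048 with the same character degree graph as L; so L is not determined by its order together with its character degree graph. -/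
theorem result {F : Type*} [Field F] [Fintype F] (hF : Fintype.card F = 9) :
    ∃ (H : Type) (_ : Group H) (_ : Fintype H), Group.IsSolvable H ∧ Nat.card H = 6048 ∧ Cfsg.degreePrimes H = Cfsg.degreePrimes (Cfsg.PSU 3 F 3) ∧ Cfsg.degreeGraph H = Cfsg.degreeGraph (Cfsg.PSU 3 F 3) := by
  obtain ⟨S⟩ := H15.StdU33.std hF
  obtain ⟨a1, a2⟩ := H3.graph_6048 S.card (H3.DU.d6 hF) (H3.DU.d14 hF) (H3.DU.d21 hF)
  have : Fact (Nat.Prime 2) := ⟨Nat.prime_two⟩
  obtain ⟨χ, h1, e1⟩ := H3.aff_deg (GaloisField 2 3) (AddChar.FiniteField.primitiveChar_to_Complex_isPrimitive _)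
  obtain ⟨ψ, h2, e2⟩ := H3.aff_deg (ZMod 9) (ZMod.isPrimitive_stdAddChar 9)
  have c1 : Nat.card (GaloisField 2 3) = 8 := GaloisField.card 2 3 (by decide)
  have c2 : Nat.card (GaloisField 2 3)ˣ = 7 := by rw [Nat.card_units, c1]
  have c3 : Nat.card (ZMod 9)ˣ = 6 := by rw [Nat.card_eq_fintype_card, ZMod.card_units_eq_totient]; decide
  let H := (H3.AffR (GaloisField 2 3) × H3.AffR (ZMod 9)) × Multiplicative (ZMod 2)
  have c : Nat.card H = 6048 := by
    simp only [H, Nat.card_prod, H3.card_affR, c1, c2, c3, Nat.card_zmod, Nat.card_congr Multiplicative.toAdd]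
  have d : 42 ∈ charDegrees H := ⟨⟨_, H5.Cfsg.IsIrrCharacter.prod_mul (H5.Cfsg.IsIrrCharacter.prod_mul h1 h2)
    H5.isIrrCharacter_one⟩, H5.charDegree_eq_of_apply_one (by
      simp only [Prod.fst_one, Prod.snd_one, e1, e2, c2, c3]; norm_num)⟩
  obtain ⟨b1, b2⟩ := H3.graph_6048 c ⟨_, d, by decide⟩ ⟨_, d, by decide⟩ ⟨_, d, by decide⟩
  have := H3.solv_affR (GaloisField 2 3)
  have := H3.solv_affR (ZMod 9)
  exact ⟨H, inferInstance, Fintype.ofFinite H, inferInstance, c, b1.trans a1.symm,
    SimpleGraph.ext (funext₂ fun p q => propext ((b2 p q).trans (a2 p q).symm))⟩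

end Cfsg.Agent.S3670
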