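import Cfsg.Statements.S3678
import Cfsg.Agent.H13.SL2Graph

set_option autoImplicit false
open Cfsg

namespace Cfsg.Agent.S3678

/-- The prime graph of a finite group has the prime divisors of its order as vertices, two distinct primes p, q being joined when the group has an element of order pq; two groups have the same prime graph when they have the same prime divisors and the same joined pairs. Let F be the field with 7 elements. There are finite groups of arbitrarily large order with the same prime graph as PSL(2,F) (the graph on {2, 3, 7} with no edges, which is also the prime graph of PSL(2,8)). -/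
theorem result {F : Type*} [Field F] [Fintype F] (hF : Fintype.card F = 7) (N : ℕ) :
    ∃ (H : Type) (_ : Group H) (_ : Finite H), N < Nat.card H ∧
      ((∀ p : ℕ, p.Prime → (p ∣ Nat.card (Matrix.ProjectiveSpecialLinearGroup (Fin 2) F) ↔ p ∣ Nat.card H)) ∧
      (∀ p q : ℕ, p.Prime → q.Prime → p ≠ q → ((∃ g : (Matrix.ProjectiveSpecialLinearGroup (Fin 2) F), orderOf g = p * q) ↔ (∃ g : H, orderOf g = p * q)))) := by
  have : Fact (Nat.Prime 2) := ⟨Nat.prime_two⟩
  let K := GaloisField 2 3
  have : Fintype K := Fintype.ofFinite K
  have hK : Fintype.card K = 8 := by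
    rw [← Nat.card_eq_fintype_card, GaloisField.card 2 3 (by norm_num)]
    norm_num
  obtain ⟨H, _, _, h1, h2⟩ := H13.exists_large_samePrimeGraph_SL2 K N
  refine ⟨H, inferInstance, inferInstance, h1, (H13.samePrimeGraph_of_no_edges ?_
    (H13.PSL2_seven_orders hF) (H13.SL2_eight_orders hK)).trans h2⟩
  intro r hr
  have h3 := H10.card_PSL2 (F := F)
  rw [hF] at h3
  have h4 : Nat.card (Matrix.ProjectiveSpecialLinearGroup (Fin 2) F) = 168 := by
    norm_num at h3
    omega
  rw [h4, H10.card_SL2, hK]
  refine ⟨fun h => h.trans (by norm_num), fun h => hr.dvd_of_dvd_pow (n := 2) (h.trans (by norm_num))⟩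

end Cfsg.Agent.S3678
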