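import Cfsg.Statements.S3680
import Cfsg.Agent.H16.MinNormal
import Cfsg.Agent.H16.Centralizer

set_option autoImplicit false
open Cfsg

namespace Cfsg.Agent.S3680


/-- The socle of a finite primitive permutation group. Let a finite group G act faithfully and primitively on a set Ω, and let N be the subgroup generated by the minimal normal subgroups of G. Then either N is an elementary abelian p-group for some prime p and acts regularly on Ω (transitively with trivial point stabilizers), or N is isomorphic to a direct product of m ≥ 1 copies of a non-abelian simple group. -/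
theorem result {G Ω : Type*} [Group G] [Finite G] [MulAction G Ω] [FaithfulSMul G Ω] [Finite Ω]
    (hprim : MulAction.IsPreprimitive G Ω) (N : Subgroup G)
    (hN : N = sSup {V : Subgroup G | V.Normal ∧ V ≠ ⊥ ∧ ∀ M : Subgroup G, M.Normal → M ≤ V → M = ⊥ ∨ M = V}) :
    (∃ p : ℕ, p.Prime ∧ IsMulCommutative N ∧ (∀ x : N, x ^ p = 1) ∧
      MulAction.IsPretransitive N Ω ∧ ∀ ω : Ω, MulAction.stabilizer N ω = ⊥) ∨
    (∃ (T : Type) (_ : Group T) (m : ℕ), 1 ≤ m ∧ IsSimpleGroup T ∧ ¬ IsMulCommutative T ∧ Nonempty (N ≃* (Fin m → T))) := by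
  by_cases hG : (⊤ : Subgroup G) = ⊥
  · have h : ∀ g : G, g = 1 := fun g => Subgroup.mem_bot.1 (hG ▸ Subgroup.mem_top g)
    refine Or.inl ⟨2, Nat.prime_two, ⟨⟨fun a b => Subtype.ext (by rw [h (a * b : N), h (b * a : N)])⟩⟩,
      fun x => Subtype.ext (h _), ⟨fun x y => ?_⟩, fun ω => eq_bot_iff.2 fun x _ => Subtype.ext (h _)⟩
    obtain ⟨g, hg⟩ := MulAction.exists_smul_eq G x y
    exact ⟨1, by rw [← hg, h g, one_smul, one_smul]⟩
  obtain ⟨M, hMn, hM, -, hmin⟩ := H16.exists_minimal_normal_le (⊤ : Subgroup G) hG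
  have : Nonempty Ω := by
    by_contra h
    exact hG (eq_bot_iff.2 fun g _ => H16.eq_one_of_forall_smul (α := Ω) fun a => (h ⟨a⟩).elim)
  have := H16.isPretransitive_of_normal (α := Ω) M hM
  have key : ∀ M' : Subgroup G, M'.Normal → M' ≠ ⊥ → (∀ L : Subgroup G, L.Normal → L ≤ M' → L = ⊥ ∨ L = M') →
      (∀ m ∈ M, ∀ n ∈ M', m * n = n * m) → N = M ⊔ M' := fun M' hn h0 hm hc => by
    have := H16.isPretransitive_of_normal (α := Ω) M' h0
    refine hN.trans (le_antisymm (sSup_le fun L hL => ?_) (sup_le (le_sSup ⟨hMn, hM, hmin⟩) (le_sSup ⟨hn, h0, hm⟩)))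
    by_cases e : M = L
    · exact e ▸ le_sup_left
    · have := hL.1
      exact le_sup_of_le_right fun x hx => H16.mem_of_commute_transitive (α := Ω) M M' hc fun m hm =>
        H16.commute_of_minimal_normal hmin hL.2.2 e m hm x hx
  by_cases hc : ∀ m ∈ M, ∀ n ∈ M, m * n = n * m
  · obtain rfl : N = M := (key M hMn hM hmin hc).trans (sup_idem M)
    obtain ⟨p, hp, h⟩ := H16.exists_prime_pow_eq_one_of_minimal_normal N hM hmin hc
    exact Or.inl ⟨p, hp, ⟨⟨fun a b => Subtype.ext (hc a a.2 b b.2)⟩⟩, fun x => Subtype.ext (h x x.2), this,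
      H16.stabilizer_eq_bot_of_commute N N hc⟩
  obtain ⟨T, _, m, hT, hm, ⟨e⟩⟩ := H16.exists_pi_of_minimal_normal M hM hmin
  have hT' : ¬ IsMulCommutative T := fun h => hc fun a ha b hb => congrArg Subtype.val
    (e.injective (a₁ := ⟨a, ha⟩ * ⟨b, hb⟩) (a₂ := ⟨b, hb⟩ * ⟨a, ha⟩) (by
      rw [map_mul, map_mul]; exact funext fun i => h.is_comm.comm _ _))
  right
  by_cases hu : ∀ L : Subgroup G, L.Normal → L ≠ ⊥ → (∀ K : Subgroup G, K.Normal → K ≤ L → K = ⊥ ∨ K = L) → M = L
  · obtain rfl : N = M := hN.trans (le_antisymm (sSup_le fun L hL => (hu L hL.1 hL.2.1 hL.2.2).ge)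
      (le_sSup ⟨hMn, hM, hmin⟩))
    exact ⟨T, _, m, hm, hT, hT', ⟨e⟩⟩
  push Not at hu
  obtain ⟨L, hL, h0, h1, h2⟩ := hu
  have hc' := H16.commute_of_minimal_normal hmin h1 h2
  have := H16.isPretransitive_of_normal (α := Ω) L h0
  obtain ⟨f⟩ := H16.nonempty_mulEquiv_of_commute (α := Ω) M L hc'
  obtain ⟨g⟩ := H16.nonempty_sup_equiv M L (disjoint_iff.2 ((hmin _ inferInstance inf_le_left).resolve_right
    fun e => hc fun a ha b hb => hc' a ha b (e.ge hb).2))
  let c : (Fin m ⊕ Fin m → T) ≃* (Fin m → T) × (Fin m → T) :=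
    { Equiv.sumArrowEquivProdArrow _ _ _ with map_mul' := fun x y => rfl }
  rw [key L hL h0 h1 hc']
  exact ⟨T, _, m + m, by omega, hT, hT', ⟨g.symm.trans ((e.prodCongr (f.symm.trans e)).trans
    (c.symm.trans (MulEquiv.arrowCongr finSumFinEquiv (MulEquiv.refl T))))⟩⟩

end Cfsg.Agent.S3680
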