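import Cfsg.Statements.S3682
import Cfsg.Agent.H17.TW

set_option autoImplicit false
open Cfsg

namespace Cfsg.Agent.S3682

open Subgroup H17

/-- Wielandt's bound toward the Sims conjecture. Let a finite group G act faithfully and primitively on a set Ω, let a and b be points, and suppose the orbit of b under the stabilizer of a has length d ≥ 2. Then there are a prime p and a normal p-subgroup P of the stabilizer of a, all of whose elements fix b, such that the index of P in the stabilizer of a divides d! · ((d - 1)!)^d. -/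
theorem result {G Ω : Type*} [Group G] [Finite G] [MulAction G Ω] [FaithfulSMul G Ω] [Finite Ω]
    (hprim : MulAction.IsPreprimitive G Ω) (a b : Ω) (d : ℕ) (hd : Nat.card (MulAction.orbit (MulAction.stabilizer G a) b) = d) (h2 : 2 ≤ d) :
    ∃ p : ℕ, p.Prime ∧ ∃ P : Subgroup (MulAction.stabilizer G a), P.Normal ∧ IsPGroup p P ∧ (∀ g : P, ((g : MulAction.stabilizer G a) : G) • b = b) ∧
      P.index ∣ Nat.factorial d * (Nat.factorial (d - 1)) ^ d := by
  obtain ⟨hM, ⟨g, hg⟩, hne, e⟩ := prim_data hprim a b hd h2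
  have hc : Nat.card (MulAction.stabilizer G a) = Nat.card (MulAction.stabilizer G b) := by rw [hg, card_cj]
  rw [← e]
  set M := MulAction.stabilizer G a
  set N := MulAction.stabilizer G b
  by_cases h : cor M (cor M (M ⊓ N) ⊓ cor N (M ⊓ N)) = ⊥ ∨ cor N (cor M (M ⊓ N) ⊓ cor N (M ⊓ N)) = ⊥
  · refine ⟨2, Nat.prime_two, ⊥, inferInstance, IsPGroup.of_bot, fun x => ?_, ?_⟩
    · rw [mem_bot.1 x.2]; exact one_smul G b
    · rw [index_bot]; exact tw_card hc h
  · obtain ⟨h1, h3⟩ := not_or.1 h
    obtain ⟨p, hp, -, -, c1, -⟩ := tw_main hM (hg ▸ hne) (hg ▸ h1) (hg ▸ h3)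
    rw [← hg] at c1
    refine ⟨p, hp, (cor M (cor M (M ⊓ N) ⊓ cor N (M ⊓ N))).subgroupOf M,
      (normal_subgroupOf_iff_le_normalizer (cor_le _ _)).2 (le_normalizer_cor _ _),
      c1.of_equiv (subgroupOfEquivOfLe (cor_le _ _)).symm, fun x => ?_, tw_bound hc⟩
    exact cor_le N (M ⊓ N) (cor_le' _ _ x.2).2

end Cfsg.Agent.S3682
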