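import Cfsg.Statements.S3683
import Cfsg.Agent.H29.Basic

set_option autoImplicit false
open Cfsg

namespace Cfsg.Agent.S3683

/-- Let a finite group G act faithfully and primitively on a set Ω, and suppose the stabilizer of a point a fixes a second point b ≠ a (a suborbit of length 1 other than {a}). Then the stabilizer of a is trivial and G is cyclic of prime order. -/
theorem result {G Ω : Type*} [Group G] [Finite G] [MulAction G Ω] [FaithfulSMul G Ω] [Finite Ω]
    (hprim : MulAction.IsPreprimitive G Ω) (a b : Ω) (hab : a ≠ b) (hfix : ∀ g : G, g • a = a → g • b = b) :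
    MulAction.stabilizer G a = ⊥ ∧ IsCyclic G ∧ (Nat.card G).Prime := by
  haveI : Nontrivial Ω := ⟨⟨a, b, hab⟩⟩
  have ha := MulAction.IsPreprimitive.isCoatom_stabilizer_of_isPreprimitive G a
  have hb := MulAction.IsPreprimitive.isCoatom_stabilizer_of_isPreprimitive G b
  have hle : MulAction.stabilizer G a ≤ MulAction.stabilizer G b := fun g hg => hfix g hg
  have heq : MulAction.stabilizer G a = MulAction.stabilizer G b := (ha.le_iff.mp hle).resolve_left hb.1 |>.symm
  obtain ⟨g, hg⟩ := hprim.toIsPretransitive.exists_smul_eq a b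
  have hgN : g ∈ Subgroup.normalizer (MulAction.stabilizer G a : Set G) := by
    rw [← H9.map_conj_eq_iff]
    conv_rhs => rw [heq, ← hg, MulAction.stabilizer_smul_eq_stabilizer_map_conj]
  have hN : Subgroup.normalizer (MulAction.stabilizer G a : Set G) = ⊤ := by
    apply ha.2
    refine lt_of_le_of_ne Subgroup.le_normalizer fun h => ?_
    rw [← h, MulAction.mem_stabilizer_iff, hg] at hgN
    exact hab hgN.symm
  rw [Subgroup.normalizer_eq_top_iff] at hN
  have hbot : MulAction.stabilizer G a = ⊥ := by
    rw [eq_bot_iff]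
    intro x hx
    rw [Subgroup.mem_bot]
    apply FaithfulSMul.eq_of_smul_eq_smul (α := Ω)
    intro c
    obtain ⟨h, rfl⟩ := hprim.toIsPretransitive.exists_smul_eq a c
    rw [one_smul, ← MulAction.mem_stabilizer_iff, H29.mem_stabilizer_smul_iff]
    simpa using hN.conj_mem x hx h⁻¹
  rw [hbot] at ha
  obtain ⟨x, -, hx⟩ := H29.exists_orderOf_prime_mem (H := (⊤ : Subgroup G)) ha.1.symm
  have hz : Subgroup.zpowers x = ⊤ := by
    apply ha.2
    rw [bot_lt_iff_ne_bot, Ne, Subgroup.zpowers_eq_bot]
    rintro rfl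
    rw [orderOf_one] at hx
    exact Nat.not_prime_one hx
  refine ⟨hbot, ⟨⟨x, fun y => ?_⟩⟩, ?_⟩
  · show y ∈ Subgroup.zpowers x
    rw [hz]; trivial
  · rw [← Subgroup.card_top, ← hz, Nat.card_zpowers]; exact hx

end Cfsg.Agent.S3683
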