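import Cfsg.Statements.S3684
import Cfsg.Agent.H9.Dihedral

set_option autoImplicit false
open Cfsg

open Subgroup MulAction

namespace Cfsg.Agent.S3684

/-- Let a finite group G act faithfully and primitively on a set Ω, and suppose the stabilizer of a point a has an orbit of length 2. Then the stabilizer of a has order 2 and G is isomorphic to the dihedral group of order 2p for some prime p. -/
theorem result {G Ω : Type*} [Group G] [Finite G] [MulAction G Ω] [FaithfulSMul G Ω] [Finite Ω]
    (hprim : MulAction.IsPreprimitive G Ω) (a b : Ω) (h2 : Nat.card (MulAction.orbit (MulAction.stabilizer G a) b) = 2) :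
    Nat.card (MulAction.stabilizer G a) = 2 ∧ ∃ p : ℕ, p.Prime ∧ Nonempty (G ≃* DihedralGroup p) := by
  have hcore : ∀ N : Subgroup G, N.Normal → N ≤ stabilizer G a → N = ⊥ := fun N hN h =>
    eq_bot_iff.2 fun x hx => eq_of_smul_eq_smul (α := Ω) fun y => by
      obtain ⟨g, rfl⟩ := exists_smul_eq G a y
      have : (g⁻¹ * x * g) • a = a := h (hN.conj_mem' x hx g)
      rw [mul_smul, mul_smul, inv_smul_eq_iff] at this
      rwa [one_smul]
  have i1 : (stabilizer G b).relIndex (stabilizer G a) = 2 := by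
    rw [← h2, Nat.card_coe_set_eq, ← index_stabilizer]; rfl
  have hab : ¬ stabilizer G a ≤ stabilizer G b := fun h => by simp [relIndex_eq_one.2 h] at i1
  have : Nontrivial Ω := ⟨a, b, fun e => hab (e ▸ le_rfl)⟩
  have hc : ∀ x : Ω, (stabilizer G x).index = Nat.card Ω := fun x => index_stabilizer_of_transitive G x
  have i2 : (stabilizer G a).relIndex (stabilizer G b) = 2 := by
    have e1 := relIndex_mul_index (inf_le_left (a := stabilizer G a) (b := stabilizer G b))
    have e2 := relIndex_mul_index (inf_le_right (a := stabilizer G a) (b := stabilizer G b))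
    rw [inf_relIndex_left, i1, hc] at e1
    rw [inf_relIndex_right, hc, ← e1] at e2
    exact Nat.eq_of_mul_eq_mul_right Nat.card_pos e2
  have hco := fun x : Ω => IsPreprimitive.isCoatom_stabilizer_of_isPreprimitive G x
  have hsup : stabilizer G b ⊔ stabilizer G a = ⊤ := (hco b).2 _ (left_lt_sup.2 hab)
  have hb : stabilizer G a ⊓ stabilizer G b = ⊥ := hcore _ (normalizer_eq_top_iff.1 (top_le_iff.1
    (hsup ▸ sup_le ((normal_subgroupOf_iff_le_normalizer inf_le_right).1
      (normal_of_index_eq_two ((inf_relIndex_right _ _).trans i2)))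
      ((normal_subgroupOf_iff_le_normalizer inf_le_left).1
      (normal_of_index_eq_two ((inf_relIndex_left _ _).trans i1)))))) inf_le_left
  have c1 : Nat.card (stabilizer G a) = 2 := by
    rw [← i1, ← inf_relIndex_left, hb, relIndex_bot_left]
  have c2 : Nat.card (stabilizer G b) = 2 := by
    rw [← i2, ← inf_relIndex_right, hb, relIndex_bot_left]
  have hz : ∀ K : Subgroup G, Nat.card K = 2 → ∃ s, orderOf s = 2 ∧ zpowers s = K := fun K hK => by
    obtain ⟨s, hs⟩ := exists_prime_orderOf_dvd_card' (G := K) 2 hK.symm.dvd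
    rw [← orderOf_coe] at hs
    exact ⟨s, hs, eq_of_le_of_card_ge (zpowers_le.2 s.2) (by rw [Nat.card_zpowers, hs, hK])⟩
  obtain ⟨s, hs, es⟩ := hz _ c1
  obtain ⟨t, ht, et⟩ := hz _ c2
  have hst : closure {t, s} = ⊤ := by
    rw [← hsup, ← es, ← et, zpowers_eq_closure, zpowers_eq_closure, ← Subgroup.closure_union]; rfl
  obtain ⟨e⟩ := H9.nonempty_closure_pair_equiv_dihedral ht hs
  have e := ((MulEquiv.subgroupCongr hst).trans topEquiv).symm.trans e
  have s2 : s⁻¹ = s := inv_eq_of_mul_eq_one_left (by rw [← sq, ← hs, pow_orderOf_eq_one])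
  have t2 : t⁻¹ = t := inv_eq_of_mul_eq_one_left (by rw [← sq, ← ht, pow_orderOf_eq_one])
  obtain ⟨p, hp, hpn⟩ := Nat.exists_prime_and_dvd (n := orderOf (t * s)) fun h => hab (by
    rw [← es, ← et, ← t2, eq_inv_of_mul_eq_one_right (orderOf_eq_one_iff.1 h)])
  refine ⟨c1, _, ?_, ⟨e⟩⟩
  set d := (t * s) ^ (orderOf (t * s) / p)
  have hd : orderOf d = p := orderOf_pow_orderOf_div (orderOf_pos _).ne' hpn
  have hn : ∀ x, x * (t * s) * x⁻¹ = (t * s)⁻¹ → x ∈ normalizer (zpowers d : Set G) := fun x hx =>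
    mem_normalizer_fintype fun y ⟨k, hk⟩ => by
      rw [← hk, ← conj_zpow, ← conj_pow, hx, inv_pow, inv_zpow]
      exact inv_mem (zpow_mem_zpowers _ _)
  have hN : (zpowers d).Normal := normalizer_eq_top_iff.1 (top_le_iff.1 (hst ▸ (closure_le _).2
    (Set.pair_subset (hn t (by rw [mul_inv_rev, s2, ← mul_assoc, mul_eq_one_iff_inv_eq.2 t2, one_mul]))
      (hn s (by rw [mul_inv_rev, t2, mul_assoc, mul_assoc, mul_inv_cancel, mul_one, s2])))))
  have h3 : stabilizer G a ⊔ zpowers d = ⊤ := (hco a).2 _ (left_lt_sup.2 fun h =>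
    hp.one_lt.ne' (by rw [← hd, zpowers_eq_bot.1 (hcore _ hN h), orderOf_one]))
  have h4 : (zpowers d).index ≤ 2 := by
    rw [← relIndex_top_right, ← h3, relIndex_sup_right, ← c1]
    exact Nat.le_of_dvd Nat.card_pos (relIndex_dvd_card _ _)
  have h5 := (zpowers d).index_mul_card
  rw [Nat.card_zpowers, hd, Nat.card_congr e.toEquiv, DihedralGroup.nat_card] at h5
  have := Nat.le_of_dvd (orderOf_pos _) hpn
  have : orderOf (t * s) = p := by nlinarith
  rwa [this]

end Cfsg.Agent.S3684
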