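import Cfsg.Statements.S3687
import Cfsg.Agent.H19.Knapp

set_option autoImplicit false
open Cfsg

namespace Cfsg.Agent.S3687

/-- Let a finite group G act faithfully and primitively on a set Ω, let a and b be points such that the orbit Δ of b under the stabilizer H of a has d ≥ 6 elements, and suppose that the permutation group induced by H on Δ contains the alternating group of Δ (the image of H in the symmetric group of Δ has index at most 2) while H does not act faithfully on Δ. Then either H induces exactly the alternating group of Δ and H is isomorphic to the direct product of the alternating groups of degrees d and d - 1; or H induces the full symmetric group of Δ and H is isomorphic to one of: the direct product of the symmetric groups of degrees d and d - 1, the direct product of the symmetric group of degree d with the alternating group of degree d - 1, or the subgroup of the direct product of the symmetric groups of degrees d and d - 1 consisting of the pairs of permutations with equal signs. -/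
theorem result {G Ω : Type*} [Group G] [Finite G] [MulAction G Ω] [FaithfulSMul G Ω] [Finite Ω]
    (hprim : MulAction.IsPreprimitive G Ω) (a b : Ω) (d : ℕ) (hd : Nat.card (MulAction.orbit (MulAction.stabilizer G a) b) = d) (h6 : 6 ≤ d)
    (halt : (MulAction.toPermHom (MulAction.stabilizer G a) (MulAction.orbit (MulAction.stabilizer G a) b)).range.index ≤ 2)
    (hunf : ¬ Function.Injective (MulAction.toPermHom (MulAction.stabilizer G a) (MulAction.orbit (MulAction.stabilizer G a) b))) :
    ((MulAction.toPermHom (MulAction.stabilizer G a) (MulAction.orbit (MulAction.stabilizer G a) b)).range.index = 2 ∧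
      Nonempty (MulAction.stabilizer G a ≃* alternatingGroup (Fin d) × alternatingGroup (Fin (d - 1)))) ∨
    ((MulAction.toPermHom (MulAction.stabilizer G a) (MulAction.orbit (MulAction.stabilizer G a) b)).range = ⊤ ∧
      (Nonempty (MulAction.stabilizer G a ≃* Equiv.Perm (Fin d) × Equiv.Perm (Fin (d - 1))) ∨
       Nonempty (MulAction.stabilizer G a ≃* Equiv.Perm (Fin d) × alternatingGroup (Fin (d - 1))) ∨
       Nonempty (MulAction.stabilizer G a ≃* ((Equiv.Perm.sign.comp (MonoidHom.fst (Equiv.Perm (Fin d)) (Equiv.Perm (Fin (d - 1))))) *
         (Equiv.Perm.sign.comp (MonoidHom.snd (Equiv.Perm (Fin d)) (Equiv.Perm (Fin (d - 1)))))).ker))) := by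
  classical
  obtain ⟨hM, ⟨g, hg⟩, hne, e⟩ := H17.prim_data hprim a b hd (by omega)
  let ε := Finite.equivFinOfCardEq hd
  set φ := MulAction.toPermHom (MulAction.stabilizer G a) (MulAction.orbit (MulAction.stabilizer G a) b) with hφ
  have hi : (ε.permCongrHom.toMonoidHom.comp φ).range.index = φ.range.index := by
    rw [MonoidHom.range_comp]; exact Subgroup.index_map_equiv φ.range ε.permCongrHom
  have := H19.Kn.knapp h6 hM (hg ▸ hne) (hg ▸ e) (ε.permCongrHom.toMonoidHom.comp φ) (ε ⟨b, MulAction.mem_orbit_self b⟩)
    (fun x => by
      rw [← hg, MulAction.mem_stabilizer_iff]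
      change ε (x • ε.symm (ε _)) = _ ↔ _
      rw [Equiv.symm_apply_apply, ε.apply_eq_iff_eq, Subtype.ext_iff]
      rfl)
    (Equiv.Perm.alternatingGroup_le_of_index_le_two (hi ▸ halt))
    fun h => hunf (Function.Injective.of_comp (f := ε.permCongrHom) h)
  have nt : Nontrivial (Fin d) := Fin.nontrivial_iff_two_le.2 (by omega)
  refine this.imp (fun h => ⟨?_, h.2⟩) fun h => ⟨?_, h.2⟩
  · rw [← hi, h.1, alternatingGroup.index_eq_two]
  · rw [← Subgroup.index_eq_one, ← hi, h.1, Subgroup.index_top]

end Cfsg.Agent.S3687
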