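import Cfsg.Statements.S3693
import Cfsg.Agent.H17.TW

set_option autoImplicit false
open Cfsg

namespace Cfsg.Agent.S3693

open Subgroup H17

/-- Let a finite group G act faithfully and primitively on a set Ω, let a and b be points such that the orbit Δ of b under the stabilizer H of a has length d ≥ 2, and consider the permutation group induced on Δ by the elements of H fixing b. If that induced group has trivial Fitting subgroup (no non-trivial nilpotent normal subgroup), then the two-point stabilizer of a and b has trivial Fitting subgroup and the order of H divides d! · ((d - 1)!)^d. -/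
theorem result {G Ω : Type*} [Group G] [Finite G] [MulAction G Ω] [FaithfulSMul G Ω] [Finite Ω]
    (hprim : MulAction.IsPreprimitive G Ω) (a b : Ω) (d : ℕ) (hd : Nat.card (MulAction.orbit (MulAction.stabilizer G a) b) = d) (h2 : 2 ≤ d)
    (hF : Cfsg.fittingSubgroup ↥(((MulAction.stabilizer G b).subgroupOf (MulAction.stabilizer G a)).map (MulAction.toPermHom (MulAction.stabilizer G a) (MulAction.orbit (MulAction.stabilizer G a) b))) = ⊥) :
    Cfsg.fittingSubgroup ↥(MulAction.stabilizer G a ⊓ MulAction.stabilizer G b) = ⊥ ∧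
      Nat.card (MulAction.stabilizer G a) ∣ Nat.factorial d * (Nat.factorial (d - 1)) ^ d := by
  obtain ⟨hM, ⟨g, hg⟩, hne, e⟩ := prim_data hprim a b hd h2
  have hc : Nat.card (MulAction.stabilizer G a) = Nat.card (MulAction.stabilizer G b) := by rw [hg, card_cj]
  rw [← e]
  set M := MulAction.stabilizer G a with hMd
  set N := MulAction.stabilizer G b with hNd
  have h1 : fit (M ⊓ N) ≤ cor M (M ⊓ N) := by
    have h3 := map_fit_le (MulAction.toPermHom M (MulAction.orbit M b)) (N.subgroupOf M)
    rw [fit.eq_1 (Subgroup.map _ _), hF, Subgroup.map_bot, le_bot_iff, Subgroup.map_eq_bot_iff, ← inf_subgroupOf_left,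
      fit_subgroupOf_of_le inf_le_left] at h3
    intro x hx
    have hxM : x ∈ M := (fit_le _ hx).1
    refine mem_cor.2 ⟨hxM, fun m hm => ⟨M.mul_mem (M.mul_mem hm hxM) (M.inv_mem hm), ?_⟩⟩
    have h4 : MulAction.toPermHom M (MulAction.orbit M b) ⟨x, hxM⟩ = 1 := h3 hx
    have h5 := congrArg Subtype.val (Equiv.congr_fun h4 ⟨_, MulAction.mem_orbit b (⟨m, hm⟩⁻¹ : M)⟩)
    change x • m⁻¹ • b = m⁻¹ • b at h5
    change (m * x * m⁻¹) • b = b
    rw [mul_smul, mul_smul, h5, smul_inv_smul]
  have h3 : ∀ (q : ℕ) [Fact q.Prime], oP q (M ⊓ N) = ⊥ := fun q _ => by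
    have h4 := (oP_le_fit q (M ⊓ N)).trans h1
    rw [hg] at hne h4 ⊢
    exact oP_eq_bot_of_conj hM hne h4
  refine ⟨(map_eq_bot_iff_of_injective _ (subtype_injective _)).1
    (le_bot_iff.1 (fit_le_of_forall_oP_le fun q _ => (h3 q).le)), ?_⟩
  refine tw_card hc (or_iff_not_imp_left.2 fun h4 => by_contra fun h5 => ?_)
  obtain ⟨p, hp, -, -, c1, -⟩ := tw_main hM (hg ▸ hne) (hg ▸ h4) (hg ▸ h5)
  have := Fact.mk hp
  rw [← hg] at c1
  exact h4 (le_bot_iff.1 (h3 p ▸ le_oP ((cor_le' _ _).trans (inf_le_left.trans (cor_le' _ _)))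
    (inf_le_left.trans (le_normalizer_cor _ _)) c1))

end Cfsg.Agent.S3693
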