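import Cfsg.Statements.S3696


set_option autoImplicit false
open Cfsg

namespace Cfsg.Agent.S3696

theorem amgm {ι : Type*} (s : Finset ι) (z : ι → ℕ) :
    (∏ i ∈ s, z i) * s.card ^ s.card ≤ (∑ i ∈ s, z i) ^ s.card := by
  rcases Nat.eq_zero_or_pos s.card with h0 | hpos
  · have : s = ∅ := Finset.card_eq_zero.1 h0
    subst this; simp
  have hc : (0 : ℝ) < s.card := by exact_mod_cast hpos
  have h := Real.geom_mean_le_arith_mean s (fun _ => (1 : ℝ)) (fun i => (z i : ℝ))
    (fun _ _ => zero_le_one) (by simpa using hpos) (fun _ _ => Nat.cast_nonneg _)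
  simp only [Real.rpow_one, Finset.sum_const, nsmul_eq_mul, mul_one, one_mul] at h
  have hP : (0 : ℝ) ≤ ∏ i ∈ s, (z i : ℝ) := Finset.prod_nonneg fun _ _ => Nat.cast_nonneg _
  have h2 := pow_le_pow_left₀ (Real.rpow_nonneg hP _) h s.card
  rw [Real.rpow_inv_natCast_pow hP hpos.ne', div_pow, le_div_iff₀ (pow_pos hc _)] at h2
  exact_mod_cast h2

theorem sum_le_prod {ι : Type*} (s : Finset ι) (z : ι → ℕ) (hz : ∀ i, 1 < z i) :
    ∑ i ∈ s, z i ≤ ∏ i ∈ s, z i := by
  classical
  induction s using Finset.induction_on with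
  | empty => simp
  | insert a s ha ih =>
    rw [Finset.sum_insert ha, Finset.prod_insert ha]
    rcases s.eq_empty_or_nonempty with rfl | ⟨b, hb⟩
    · simp
    · have h2 : 2 ≤ ∏ i ∈ s, z i := by
        calc 2 ≤ z b := hz b
          _ ≤ ∏ i ∈ s, z i := Finset.single_le_prod' (fun i _ => (hz i).le) hb
      have := Nat.add_le_mul (hz a) h2
      omega

theorem greedy {A : Type*} [Group A] [Finite A] {T : Type*} (K : T → Subgroup A) (p : ℕ)
    (hp : p.Prime) (hK : ∀ x, (∀ t, x ∈ K t) → x = 1) :
    ∀ (m : ℕ) (V : Subgroup A), Nat.card V = p ^ m →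
      ∃ S : Finset T, S.card ≤ m ∧ ∀ x ∈ V, (∀ t ∈ S, x ∈ K t) → x = 1 := by
  classical
  intro m
  induction m using Nat.strong_induction_on with
  | _ m ih =>
    intro V hV
    by_cases h : ∀ t, V ≤ K t
    · exact ⟨∅, by simp, fun x hx _ => hK x fun t => h t hx⟩
    push Not at h
    obtain ⟨t, ht⟩ := h
    have hd : Nat.card (V ⊓ K t : Subgroup A) ∣ p ^ m := hV ▸ Subgroup.card_dvd_of_le inf_le_left
    obtain ⟨j, hj, hj'⟩ := (Nat.dvd_prime_pow hp).1 hd
    have hlt : j < m := by
      rcases hj.lt_or_eq with h | h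
      · exact h
      · exfalso
        apply ht
        have : V ⊓ K t = V := Subgroup.eq_of_le_of_card_ge inf_le_left (by rw [hV, hj', h])
        rw [← this]; exact inf_le_right
    obtain ⟨S, hS, hS'⟩ := ih j hlt _ hj'
    refine ⟨insert t S, (Finset.card_insert_le _ _).trans (by omega), fun x hx h => ?_⟩
    exact hS' x ⟨hx, h t (Finset.mem_insert_self _ _)⟩ fun u hu => h u (Finset.mem_insert_of_mem hu)

theorem core {A : Type*} [CommGroup A] [Finite A] {T : Type*} [Fintype T] (n : T → ℕ)
    (hn : ∀ t, 1 < n t) (f : ∀ t, A →* Multiplicative (ZMod (n t))) (p : ℕ) (hp : p.Prime)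
    (hA : IsPGroup p A) (hf : ∀ x, (∀ t, f t x = 1) → x = 1) (k : ℕ)
    (hk : Nat.card {x : A // x ^ p = 1} = p ^ k) :
    Nat.card A * k ^ k ≤ (∑ t, n t) ^ k := by
  classical
  haveI : ∀ t, NeZero (n t) := fun t => ⟨by have := hn t; omega⟩
  obtain ⟨S, hS, hS'⟩ := greedy (fun t => (f t).ker) p hp hf k (powMonoidHom p : A →* A).ker hk
  -- joint injectivity on all of A
  have inj : ∀ x, (∀ t ∈ S, f t x = 1) → x = 1 := by
    intro x hx
    by_contra hne
    obtain ⟨j, hj⟩ := (haveI : Fact p.Prime := ⟨hp⟩; IsPGroup.iff_orderOf.1 hA x)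
    rcases j with _ | j
    · exact hne (orderOf_eq_one_iff.1 (by simpa using hj))
    have h1 : x ^ p ^ j = 1 := by
      apply hS'
      · show (x ^ p ^ j) ^ p = 1
        rw [← pow_mul, ← pow_succ, ← hj, pow_orderOf_eq_one]
      · intro t ht
        show f t _ = 1
        rw [map_pow, hx t ht, one_pow]
    have := orderOf_dvd_of_pow_eq_one h1
    rw [hj, Nat.pow_dvd_pow_iff_le_right hp.one_lt] at this
    omega
  have inj' : ∀ x y, (∀ t ∈ S, f t x = f t y) → x = y := by
    intro x y h
    have := inj (x * y⁻¹) fun t ht => by rw [map_mul, map_inv, h t ht, mul_inv_cancel]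
    exact mul_inv_eq_one.1 this
  have hA' : Nat.card A ≤ ∏ t ∈ S, n t := by
    have := Nat.card_le_card_of_injective (fun x : A => fun t : S => f t x)
      (fun x y h => inj' x y fun t ht => congrFun h ⟨t, ht⟩)
    rw [Nat.card_pi] at this
    simp only [Nat.card_congr Multiplicative.toAdd, Nat.card_zmod] at this
    rwa [Finset.prod_coe_sort S n] at this
  have hk' : k ≤ S.card := by
    have := Nat.card_le_card_of_injective
      (fun x : {x : A // x ^ p = 1} => fun t : S =>
        (⟨f t x, by rw [← map_pow, x.2, map_one]⟩ : {y : Multiplicative (ZMod (n t)) // y ^ p = 1}))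
      (fun x y h => Subtype.ext (inj' x y fun t ht => congrArg Subtype.val (congrFun h ⟨t, ht⟩)))
    rw [Nat.card_pi, hk] at this
    have h2 : ∏ t : S, Nat.card {y : Multiplicative (ZMod (n t)) // y ^ p = 1} ≤ p ^ S.card := by
      have := Finset.prod_le_pow_card Finset.univ
        (fun t : S => Nat.card {y : Multiplicative (ZMod (n t)) // y ^ p = 1}) p (fun t _ => by
          have := IsCyclic.card_pow_eq_one_le (α := Multiplicative (ZMod (n t))) hp.pos
          rwa [Nat.card_eq_fintype_card, Fintype.card_subtype])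
      simpa using this
    exact (Nat.pow_le_pow_iff_right hp.one_lt).1 (this.trans h2)
  have hc : S.card = k := le_antisymm hS hk'
  have := amgm S n
  rw [hc] at this
  calc Nat.card A * k ^ k ≤ (∏ t ∈ S, n t) * k ^ k := Nat.mul_le_mul_right _ hA'
    _ ≤ (∑ t ∈ S, n t) ^ k := this
    _ ≤ _ := Nat.pow_le_pow_left (Finset.sum_le_sum_of_subset (Finset.subset_univ _)) _

/-- Let p be a prime, Ω a finite set with n ≥ p elements, and A an abelian p-subgroup of the symmetric group on Ω whose elements of order dividing p number p^k (so k is the rank of A). Then |A| · k^k ≤ n^k, that is, |A| ≤ (n/k)^k. -/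
theorem result {Ω : Type*} [Fintype Ω] [DecidableEq Ω]
    (p : ℕ) (hp : p.Prime) (hn : p ≤ Fintype.card Ω) (A : Subgroup (Equiv.Perm Ω)) (hA : IsPGroup p A) (hab : IsMulCommutative A)
    (k : ℕ) (hk : Nat.card {x : A // x ^ p = 1} = p ^ k) :
    Nat.card A * k ^ k ≤ Fintype.card Ω ^ k := by
  classical
  letI : CommGroup A := { (inferInstance : Group A) with mul_comm := hab.is_comm.comm }
  have hq : ∀ ω : MulAction.orbitRel.Quotient A Ω,
      ∃ (ι : Type) (_ : Fintype ι) (n : ι → ℕ), (∀ i, 1 < n i) ∧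
        Nonempty ((A ⧸ MulAction.stabilizer A ω.out) ≃* ((i : ι) → Multiplicative (ZMod (n i)))) :=
    fun ω => CommGroup.equiv_prod_multiplicative_zmod_of_finite _
  choose ι fι n hn e using hq
  letI : Fintype (MulAction.orbitRel.Quotient A Ω) := Fintype.ofFinite _
  have h := core (A := A) (T := Σ ω, ι ω) (fun t => n t.1 t.2) (fun t => hn _ _)
    (fun t => (Pi.evalMonoidHom _ t.2).comp ((e t.1).some.toMonoidHom.comp (QuotientGroup.mk' _)))
    p hp hA (by
      intro x hx
      have h1 : ∀ ω : MulAction.orbitRel.Quotient A Ω, x ∈ MulAction.stabilizer A ω.out := by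
        intro ω
        rw [← QuotientGroup.eq_one_iff]
        apply (e ω).some.injective
        rw [map_one]
        funext i
        exact hx ⟨ω, i⟩
      apply Subtype.ext
      ext a
      have h2 : a ∈ MulAction.orbit A (Quotient.mk (MulAction.orbitRel A Ω) a).out :=
        (MulAction.orbitRel_apply.1 ((MulAction.orbitRel A Ω).symm (Quotient.mk_out a)))
      obtain ⟨g, hg⟩ := h2
      have h3 := h1 (Quotient.mk (MulAction.orbitRel A Ω) a)
      rw [MulAction.mem_stabilizer_iff] at h3
      have : x • a = a := by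
        rw [← hg]
        simp only
        rw [smul_smul, mul_comm, ← smul_smul, h3]
      exact this) k hk
  refine h.trans (Nat.pow_le_pow_left ?_ _)
  rw [Fintype.sum_sigma, ← Nat.card_eq_fintype_card,
    Nat.card_congr (MulAction.selfEquivSigmaOrbitsQuotientStabilizer A Ω), Nat.card_sigma]
  refine Finset.sum_le_sum fun ω _ => ?_
  rw [Nat.card_congr (e ω).some.toEquiv, Nat.card_pi]
  simp only [Nat.card_congr Multiplicative.toAdd, Nat.card_zmod]
  exact sum_le_prod _ _ (hn ω)

end Cfsg.Agent.S3696
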