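import Cfsg.Statements.S3701
import Cfsg.Agent.H6.Tri

set_option autoImplicit false
open Cfsg


namespace Cfsg.Agent.S3701

open Equiv

def gens : List (Perm (Fin 9)) := [swap 0 1 * swap 1 2, swap 3 4 * swap 4 5, swap 6 7 * swap 7 8, swap 0 1 * swap 3 4,
  swap 0 1 * swap 6 7]

def pa (p : Fin 3 × Fin 3 × Fin 3) : Perm (Fin 9) :=
  (swap 0 1 * swap 1 2) ^ p.1.1 * (swap 3 4 * swap 4 5) ^ p.2.1.1 * (swap 6 7 * swap 7 8) ^ p.2.2.1

def pb (p : (Fin 3 × Fin 3 × Fin 3) × Fin 2 × Fin 2) : Perm (Fin 9) :=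
  pa p.1 * (swap 0 1 * swap 3 4) ^ p.2.1.1 * (swap 0 1 * swap 6 7) ^ p.2.2.1

def nx (n : Fin 5) (d : Fin 3) (p : (Fin 3 × Fin 3 × Fin 3) × Fin 2 × Fin 2) : (Fin 3 × Fin 3 × Fin 3) × Fin 2 × Fin 2 :=
  ![((p.1.1 + d, p.1.2), p.2), ((p.1.1, p.1.2.1 + d, p.1.2.2), p.2), ((p.1.1, p.1.2.1, p.1.2.2 + d), p.2),
    ((-p.1.1, -p.1.2.1, p.1.2.2), p.2.1 + 1, p.2.2), ((-p.1.1, p.1.2.1, -p.1.2.2), p.2.1, p.2.2 + 1)] n

theorem f0 : ∀ (n : Fin 5) p, gens[n] * pb p = pb (nx n 1 p) ∧ gens[n]⁻¹ * pb p = pb (nx n 2 p) := by decide +kernel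

theorem f1 : ∀ x ∈ gens, ∀ p, (∃ q, x * pb p = pb q) ∧ ∃ q, x⁻¹ * pb p = pb q := fun x hx p => by
  obtain ⟨n, rfl⟩ := List.mem_iff_get.1 hx
  exact ⟨⟨_, (f0 n p).1⟩, _, (f0 n p).2⟩

theorem f2 : ∀ p, pb p ^ 6 = 1 ∧ (pb p ^ 3 = 1 → pb p = pa p.1) := by decide +kernel
theorem f3 : ∀ p q, pa p * pa q = pa q * pa p := by decide +kernel

/-- Let H₀ ≤ Sym(9) be generated by the 3-cycles (1 2 3), (4 5 6), (7 8 9) and the involutions (1 2)(4 5), (1 2)(7 8) (a group of order 108, elementary abelian of order 27 extended by a four-group). Let G be a finite group with a subgroup H ≅ H₀, and T ≤ H of order 27 (a Sylow 3-subgroup of H) with N_G(T) = H and C_G(t) ≤ H for every t ≠ 1 in T. Then G = H. -/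
theorem result {G : Type*} [Group G] [Finite G] (H : Subgroup G)
    (hH : Nonempty (↥H ≃* ↥(Subgroup.closure ({Equiv.swap (0 : Fin 9) 1 * Equiv.swap 1 2, Equiv.swap (3 : Fin 9) 4 * Equiv.swap 4 5, Equiv.swap (6 : Fin 9) 7 * Equiv.swap 7 8,
        Equiv.swap (0 : Fin 9) 1 * Equiv.swap 3 4, Equiv.swap (0 : Fin 9) 1 * Equiv.swap 6 7} : Set (Equiv.Perm (Fin 9))))))
    (T : Subgroup G) (hTH : T ≤ H) (hT : Nat.card T = 27) (hN : Subgroup.normalizer (T : Set G) = H)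
    (hC : ∀ t ∈ T, t ≠ 1 → Subgroup.centralizer ({t} : Set G) ≤ H) : H = ⊤ := by
    obtain ⟨e⟩ := hH
    have nf : ∀ g : H, ∃ p, (e g : Perm (Fin 9)) = pb p := fun g => by
      refine Subgroup.closure_induction_left (p := fun x _ => ∃ p, x = pb p) ⟨0, by decide⟩ ?_ ?_ (e g).2
      · rintro x hx _ - ⟨p, rfl⟩
        exact (f1 x (by simpa [gens] using hx) p).1
      · rintro x hx _ - ⟨p, rfl⟩
        exact (f1 x (by simpa [gens] using hx) p).2
    choose c hc using nf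
    have inj : Function.Injective fun g : H => (e g : Perm (Fin 9)) := Subtype.val_injective.comp e.injective
    have k1 : ∀ g : H, (g : G) ^ 3 = 1 → (e g : Perm (Fin 9)) = pa (c g).1 := fun g h => by
      rw [hc]; refine (f2 _).2 ?_
      rw [← hc, ← Subgroup.coe_pow, ← map_pow, show g ^ 3 = 1 from Subtype.ext h, map_one, Subgroup.coe_one]
    have k2 : ∀ t ∈ T, t ^ 3 = 1 := fun t ht => by
      have a : (⟨t, hTH ht⟩ : H) ^ 6 = 1 := inj (by
      simp only [map_pow, Subgroup.coe_pow, hc, (f2 _).1, map_one, Subgroup.coe_one])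
      have b : (⟨t, ht⟩ : T) ^ 27 = 1 := hT ▸ pow_card_eq_one'
      exact pow_gcd_eq_one.2 ⟨congrArg Subtype.val a, congrArg Subtype.val b⟩
    have h : H6.TS T H :=
      { le := hTH
        cube := k2
        comm := fun s hs t ht => congrArg Subtype.val (inj (a₁ := ⟨s, hTH hs⟩ * ⟨t, hTH ht⟩) (a₂ := ⟨t, hTH ht⟩ * ⟨s, hTH hs⟩)
          (by simp only [map_mul, Subgroup.coe_mul]; rw [k1 _ (k2 s hs), k1 _ (k2 t ht), f3]))
        norm := fun g => hN ▸ ⟨fun k j hj => (Subgroup.mem_normalizer_iff.1 k j).1 hj,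
          fun k => Subgroup.mem_normalizer_fintype k⟩
        cent := fun t ht t1 g k => hC t ht t1 (Subgroup.mem_centralizer_singleton_iff.2 k)
        syl := fun g hg g3 => by
          have i : Function.Injective fun t : T => (c ⟨t, hTH t.2⟩).1 := fun s t k => Subtype.ext (congrArg (fun x : H => (x : G))
            (inj (a₁ := ⟨s, hTH s.2⟩) (a₂ := ⟨t, hTH t.2⟩) (by
              beta_reduce; rw [k1 _ (k2 s s.2), k1 _ (k2 t t.2)]; exact congrArg pa k)))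
          obtain ⟨t, ht⟩ := ((Nat.bijective_iff_injective_and_card _).2 ⟨i, by simp [hT]⟩).2 (c ⟨g, hg⟩).1
          have := inj (a₁ := ⟨t, hTH t.2⟩) (a₂ := ⟨g, hg⟩) (by
            beta_reduce; rw [k1 _ (k2 t t.2), k1 _ g3]; exact congrArg pa ht)
          exact (congrArg Subtype.val this ▸ t.2 : ((⟨g, hg⟩ : H) : G) ∈ T) }
    obtain ⟨n, hn⟩ := Subgroup.card_dvd_of_le hTH
    have := Nat.card_le_card_of_injective c fun a b k => inj (by simp [hc, k])
    refine h.eq_top hn ?_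
    rw [hn, hT] at this
    rw [hT]
    have : n ≤ 4 := by simp at this; omega
    interval_cases n <;> norm_num

end Cfsg.Agent.S3701
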