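import Cfsg.Statements.S3702
import Cfsg.Agent.H6.N9e

set_option autoImplicit false
open Cfsg


namespace Cfsg.Agent.S3702

/-- Let K ≤ Sym(9) be generated by (1 2 3), (1 4 7)(2 5 8)(3 6 9), (1 2)(4 5) and (1 4)(2 5)(3 6)(7 8) (the normalizer in Alt(9) of the elementary abelian group generated by (1 2 3), (4 5 6), (7 8 9)). Let G be a finite group with a subgroup H ≅ K and J = O₃(H). If C_G(j) ≤ H for every j ≠ 1 in J and J is strongly closed in H with respect to G (a G-conjugate of an element of J lying in H lies in J), then G = H. -/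
theorem result {G : Type*} [Group G] [Finite G] (H : Subgroup G)
    (hH : Nonempty (↥H ≃* ↥(Subgroup.closure ({Equiv.swap (0 : Fin 9) 1 * Equiv.swap 1 2,
        Equiv.swap (0 : Fin 9) 3 * Equiv.swap 3 6 * (Equiv.swap (1 : Fin 9) 4 * Equiv.swap 4 7) * (Equiv.swap (2 : Fin 9) 5 * Equiv.swap 5 8),
        Equiv.swap (0 : Fin 9) 1 * Equiv.swap 3 4, Equiv.swap (0 : Fin 9) 3 * Equiv.swap 1 4 * Equiv.swap 2 5 * Equiv.swap 6 7} : Set (Equiv.Perm (Fin 9))))))
    (J : Subgroup G) (hJ : J = (Cfsg.pCore 3 ↥H).map H.subtype)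
    (hC : ∀ j ∈ J, j ≠ 1 → Subgroup.centralizer ({j} : Set G) ≤ H) (hsc : Cfsg.IsStronglyClosed J H) : H = ⊤ := by
  ---
    obtain ⟨e⟩ : Nonempty (H ≃* H6.N9.K) := by
      unfold H6.N9.K
      rwa [H6.N9.gl, Matrix.range_cons, Matrix.range_cons, Matrix.range_cons, Matrix.range_cons, Matrix.range_empty,
        Set.union_empty, Set.singleton_union, Set.singleton_union, Set.singleton_union]
    let ψ : H6.N9.K →* G := H.subtype.comp e.symm.toMonoidHom
    have r : ψ.range = H := by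
      rw [MonoidHom.range_comp, MonoidHom.range_eq_top.2 e.symm.surjective, ← MonoidHom.range_eq_map, H.range_subtype]
    have k : (ψ.comp H6.N9.j0).range = J := by
      rw [hJ, MonoidHom.range_comp, ← Subgroup.map_map]
      congr 1
      refine le_antisymm (le_sSup ⟨H6.N9.j0_normal.map _ e.symm.surjective, IsPGroup.map (IsPGroup.of_card (n := 3) ?_) _⟩)
        (sSup_le fun N hN x hx => ⟨e x, H6.N9.le_j0 _ (hN.1.map e.toMonoidHom e.surjective) (hN.2.map _) ⟨x, hx, rfl⟩, by simp⟩)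
      rw [← Nat.card_congr (H6.N9.j0.ofInjective H6.N9.j0_inj).toEquiv]; simp
    have inj : Function.Injective ψ := H.subtype_injective.comp e.symm.injective
    rw [← r]
    refine H6.N9.top inj (fun m m1 g h => r ▸ hC _ (k ▸ ⟨m, rfl⟩) ((map_ne_one_iff (ψ.comp H6.N9.j0) (inj.comp H6.N9.j0_inj)).2 m1)
      (Subgroup.mem_centralizer_singleton_iff.2 h)) fun m g h => ?_
    rw [k]
    exact hsc.2 _ (k ▸ ⟨m, rfl⟩) g (r ▸ h)

end Cfsg.Agent.S3702
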