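import Cfsg.Statements.S3708
import Cfsg.Agent.H11.Phan5

set_option autoImplicit false
open Cfsg

namespace Cfsg.Agent.S3708

/-- Phan's recognition of unitary groups. Let F be a finite field with q² elements, q > 4, and n ≥ 2. Let G be a group generated by subgroups U_0, …, U_{n−1}, each isomorphic to the special unitary group SU(2, q²) (determinant-one isometries of the standard Hermitian form in two variables over F), and let D_i ≤ U_i be cyclic subgroups of order q + 1. Suppose that U_i and U_j commute elementwise whenever the indices differ by at least 2, that the subgroup generated by U_i and U_{i+1} is isomorphic to SU(3, q²) for each i, and that D_i and D_j commute elementwise for all i, j. Then G is a homomorphic image of SU(n+1, q²). (Generation of G by the U_i is part of the hypothesis; G is not assumed finite.) -/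
theorem result {G : Type*} [Group G] (n : ℕ) (hn : 2 ≤ n)
    (F : Type*) [Field F] [Fintype F] (q : ℕ) (hq : 4 < q) (hF : Fintype.card F = q ^ 2)
    (U : Fin n → Subgroup G) (e : ∀ i, ↥(Cfsg.SU 2 F q) ≃* ↥(U i)) (hgen : ⨆ i, U i = ⊤)
    (D : Fin n → Subgroup G) (hD : ∀ i, D i ≤ U i ∧ IsCyclic ↥(D i) ∧ Nat.card ↥(D i) = q + 1)
    (h1 : ∀ i j : Fin n, (i : ℕ) + 2 ≤ j → ∀ x ∈ U i, ∀ y ∈ U j, x * y = y * x)
    (h2 : ∀ i j : Fin n, (i : ℕ) + 1 = j → Nonempty (↥(U i ⊔ U j) ≃* ↥(Cfsg.SU 3 F q)))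
    (h3 : ∀ i j : Fin n, i ≠ j → ∀ x ∈ D i, ∀ y ∈ D j, x * y = y * x) :
    ∃ f : ↥(Cfsg.SU (n + 1) F q) →* G, Function.Surjective f := by
  obtain ⟨σ, hq', hσ, hne⟩ := H11.exists_frob hF
  rcases hn.eq_or_lt with rfl | hn
  · obtain ⟨θ⟩ := h2 0 1 rfl
    refine ⟨(U 0 ⊔ U 1).subtype.comp θ.symm.toMonoidHom, fun g => ?_⟩
    have : g ∈ U 0 ⊔ U 1 := (iSup_le (fun i => by fin_cases i <;> simp) : ⨆ i, U i ≤ U 0 ⊔ U 1) (hgen ▸ Subgroup.mem_top g)
    exact ⟨θ ⟨g, this⟩, by simp⟩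
  have hd : ∀ i, ∃ d ∈ D i, orderOf d = q + 1 := fun i => by
    obtain ⟨-, hc, hk⟩ := hD i
    obtain ⟨d, hd⟩ := IsCyclic.exists_ofOrder_eq_natCard (α := D i)
    exact ⟨d, d.2, by rw [Subgroup.orderOf_coe, hd, hk]⟩
  choose d d1 d2 using hd
  refine H11.phan_main (hq := hq') (hσ := hσ) hne hF hq.le hn U (fun i j => U i ⊔ U j) h1 (fun i j h => ?_) (by rw [hgen, top_sup_eq])
  obtain ⟨θ⟩ := h2 i j h
  exact H11.exists_stP hq' hσ hne hF hq.le (e i) (e j) θ ((hD i).1 (d1 i)) ((hD j).1 (d1 j)) (d2 i) (d2 j)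
    (h3 i j (by rintro rfl; omega) _ (d1 i) _ (d1 j))

end Cfsg.Agent.S3708
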