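import Cfsg.Statements.S3710
import Cfsg.Agent.H11.Phan7

set_option autoImplicit false
open Cfsg

namespace Cfsg.Agent.S3710

/-- Recognition of unitary groups over the field with 9 elements from a weak Phan system. Let F be a field with 9 elements and n ≥ 4. Let G be a group with subgroups U_0, …, U_{n−1}, each isomorphic to SU(2, 9), and, for consecutive indices, subgroups V_{i,i+1} in which U_i and U_{i+1} form a standard pair (via an isomorphism from SU(3, 9) or PSU(3, 9) carrying the block-diagonal subgroups, or their images, onto U_i and U_{i+1}); suppose U_i and U_j commute elementwise whenever the indices differ by at least 2, that G is generated by the U_i and the V_{i,i+1}, and moreover that for each i the subgroup generated by V_{i,i+1} and V_{i+1,i+2} is a homomorphic image of SU(4, 9). Then G is a homomorphic image of SU(n+1, 9). (G is not assumed finite.) -/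
theorem result {G : Type*} [Group G] (n : ℕ) (hn : 4 ≤ n)
    (F : Type*) [Field F] [Fintype F] (hF : Fintype.card F = 9)
    (U : Fin n → Subgroup G) (e : ∀ i, ↥(Cfsg.SU 2 F 3) ≃* ↥(U i))
    (V : Fin n → Fin n → Subgroup G)
    (h1 : ∀ i j : Fin n, (i : ℕ) + 2 ≤ j → ∀ x ∈ U i, ∀ y ∈ U j, x * y = y * x)
    (h2 : ∀ i j : Fin n, (i : ℕ) + 1 = j → Cfsg.IsStandardUnitaryPair (V i j) (U i) (U j) F 3)
    (hgen : (⨆ i, U i) ⊔ (⨆ (i : Fin n) (j : Fin n) (_ : (i : ℕ) + 1 = j), V i j) = ⊤)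
    (h4 : ∀ i j k : Fin n, (i : ℕ) + 1 = j → (j : ℕ) + 1 = k →
      ∃ g : ↥(Cfsg.SU 4 F 3) →* ↥(V i j ⊔ V j k), Function.Surjective g) :
    ∃ f : ↥(Cfsg.SU (n + 1) F 3) →* G, Function.Surjective f := by
  obtain ⟨σ, hq, hσ, hne⟩ := H11.exists_frob (q := 3) (hF.trans (by norm_num))
  have hF' : Fintype.card F = 3 ^ 2 := hF
  have h3 : (3 : F) = 0 := by
    have := FiniteField.cast_card_eq_zero F
    rw [hF', Nat.cast_pow, pow_eq_zero_iff two_ne_zero] at this; exact_mod_cast this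
  have hb : ∃ ν : F, σ ν = ν ∧ ν ≠ 0 ∧ ν ≠ 1 := ⟨-1, by simp, by simp, fun e => one_ne_zero (by linear_combination h3 + e : (1 : F) = 0)⟩
  have hV : ∀ i j : Fin n, (i : ℕ) + 1 = j → V i j = U i ⊔ U j := fun i j h =>
    (H11.stP_of_pair hq hσ (h2 i j h)).elim fun _ h => h.eq_sup (hσ := hσ) hne hb
  have h5 : ∀ i j k : Fin n, (j : ℕ) + 1 = k → ((i : ℕ) + 2 ≤ j ∨ (k : ℕ) + 2 ≤ i) → ∀ x ∈ U i, ∀ y ∈ V j k, x * y = y * x := by
    intro i j k e h x hx y hy
    rw [hV j k e] at hy
    refine (Subgroup.mem_centralizer_singleton_iff.1 ((sup_le (fun y hy => ?_) fun y hy => ?_ : _ ≤ Subgroup.centralizer {x}) hy)).symm <;>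
      rw [Subgroup.mem_centralizer_singleton_iff] <;> rcases h with h | h
    exacts [(h1 _ _ h x hx y hy).symm, h1 _ _ (by omega) y hy x hx, (h1 _ _ (by omega) x hx y hy).symm, h1 _ _ h y hy x hx]
  refine H11.phan_small (hq := hq) (hσ := hσ) hne hF' (fun x hx => ?_) (fun φ ψ _ _ e0 e1 x => ?_) (by omega) U V (fun i j k e e' => ?_) h5
    (fun i j k l e e' h x hx y hy => ?_) hgen
  · rw [hq] at hx
    have : x * (x - 1) * (x + 1) = 0 := by linear_combination hx
    simpa [sub_eq_zero, add_eq_zero_iff_eq_neg, or_assoc] using this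
  · exact H11.su3_gen (hq := hq) (hσ := hσ) (hne := hne) hb (M := φ.eqLocus ψ) e0 e1 x
  · obtain ⟨φ, h⟩ := H11.stP_of_pair hq hσ (h2 i j e)
    obtain ⟨ψ, h'⟩ := H11.stP_of_pair hq hσ (h2 j k e')
    obtain ⟨g, hg⟩ := h4 i j k e e'
    obtain ⟨g, g1, g2⟩ := H11.exists_su4 (hσ := hσ) hne hF' h g hg
    exact H11.exists_win3 (hσ := hσ) hne hF' rfl h h' (h1 i k (by omega)) g g1 g2
  · rw [hV i j e] at hx
    refine Subgroup.mem_centralizer_singleton_iff.1 ((sup_le (fun x hx => ?_) fun x hx => ?_ : _ ≤ Subgroup.centralizer {y}) hx) <;>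
      exact Subgroup.mem_centralizer_singleton_iff.2 (h5 _ k l e' (.inl (by omega)) x hx y hy)

end Cfsg.Agent.S3710
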