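import Cfsg.Statements.S3713
import Cfsg.Agent.H11.SpAm
import Cfsg.Agent.H11.Mat

set_option autoImplicit false
open Cfsg

namespace Cfsg.Agent.S3713

open H11 H11.PForm in
theorem cpt {G G' H : Type*} [Group G] [Group G'] [Group H] (ε : G ≃* G') {A B : Subgroup G} {A' B' : Subgroup G'}
    (hA : ∀ g, g ∈ A ↔ ε g ∈ A') (hB : ∀ g, g ∈ B ↔ ε g ∈ B') (α : A →* H) (β : B →* H)
    (h : ∃ Ψ : ↥(A ⊔ B) →* H, (∀ g (hg : g ∈ A), Ψ ⟨g, Subgroup.mem_sup_left hg⟩ = α ⟨g, hg⟩) ∧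
      ∀ g (hg : g ∈ B), Ψ ⟨g, Subgroup.mem_sup_right hg⟩ = β ⟨g, hg⟩) :
    Cpt A' (fun g => ofHom α (ε.symm g)) B' (fun g => ofHom β (ε.symm g)) := by
  obtain ⟨Ψ, h1, h2⟩ := h
  have a : ∀ g ∈ A', ε.symm g ∈ A := fun g hg => (hA _).2 (by simpa)
  have b : ∀ g ∈ B', ε.symm g ∈ B := fun g hg => (hB _).2 (by simpa)
  refine ⟨(A ⊔ B).comap ε.symm.toMonoidHom, fun g => ofHom Ψ (ε.symm g), fun x hx y hy => ?_,
    fun g hg => Subgroup.mem_sup_left (a g hg), fun g hg => Subgroup.mem_sup_right (b g hg), fun g hg => ?_, fun g hg => ?_⟩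
  · simp only [map_mul]; exact homOn_ofHom Ψ _ hx _ hy
  · simp only; rw [ofHom_apply _ (a g hg), ofHom_apply _ (Subgroup.mem_sup_left (a g hg)), h1]
  · simp only; rw [ofHom_apply _ (b g hg), ofHom_apply _ (Subgroup.mem_sup_right (b g hg)), h2]

open H11 H11.PForm in
theorem homOn {G G' H : Type*} [Group G] [Group G'] [Group H] (ε : G ≃* G') {A : Subgroup G} {A' : Subgroup G'}
    (hA : ∀ g, g ∈ A ↔ ε g ∈ A') (α : A →* H) : HomOn A' (fun g => ofHom α (ε.symm g)) := fun x hx y hy => by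
  simp only [map_mul]; exact homOn_ofHom α _ ((hA _).2 (by simpa)) _ ((hA _).2 (by simpa))

/-- A presentation of the symplectic group as the universal completion of an amalgam of small subgroups. Let F be a field with more than two elements, n ≥ 2, and Sp the group of 2n × 2n matrices over F preserving the standard alternating form, acting on column vectors; write e_k, f_k for the standard basis vectors of the two halves (a hyperbolic basis). For each k let S_k be the subgroup of Sp fixing e_l and f_l for all l ≠ k (a copy of SL(2, F) on the plane of e_k, f_k), and for each i with i + 1 < n let M_i be the subgroup fixing every e_l and fixing f_l for all l other than i, i+1 (an abelian group isomorphic to the additive group of F³). Then Sp is the universal completion of the amalgam formed by the S_k, the M_i and the subgroups generated by two of them: for every group H and homomorphisms σ_k : S_k → H, μ_i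 : M_i → H such that for each pair of these subgroups some homomorphism on the subgroup they generate restricts to the given ones, there is exactly one homomorphism Sp → H restricting to every σ_k and μ_i. -/
theorem result
    (F : Type*) [Field F] (hF : ∃ a : F, a ≠ 0 ∧ a ≠ 1) (n : ℕ) (hn : 2 ≤ n)
    (S M : Fin n → Subgroup ↥(Matrix.symplecticGroup (Fin n) F))
    (hS : ∀ j : Fin n, S j = Subgroup.closure {A : ↥(Matrix.symplecticGroup (Fin n) F) | ∀ k : Fin n, k ≠ j →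
      ((A : ↥(Matrix.symplecticGroup (Fin n) F)) : Matrix (Fin n ⊕ Fin n) (Fin n ⊕ Fin n) F).mulVec (Pi.single (Sum.inl k) (1 : F)) = (Pi.single (Sum.inl k) (1 : F)) ∧ ((A : ↥(Matrix.symplecticGroup (Fin n) F)) : Matrix (Fin n ⊕ Fin n) (Fin n ⊕ Fin n) F).mulVec (Pi.single (Sum.inr k) (1 : F)) = (Pi.single (Sum.inr k) (1 : F))})
    (hM : ∀ i : Fin n, (i : ℕ) + 1 < n → M i = Subgroup.closure {A : ↥(Matrix.symplecticGroup (Fin n) F) |
      (∀ k : Fin n, ((A : ↥(Matrix.symplecticGroup (Fin n) F)) : Matrix (Fin n ⊕ Fin n) (Fin n ⊕ Fin n) F).mulVec (Pi.single (Sum.inl k) (1 : F)) = (Pi.single (Sum.inl k) (1 : F))) ∧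
        ∀ k : Fin n, (k : ℕ) ≠ i → (k : ℕ) ≠ (i : ℕ) + 1 → ((A : ↥(Matrix.symplecticGroup (Fin n) F)) : Matrix (Fin n ⊕ Fin n) (Fin n ⊕ Fin n) F).mulVec (Pi.single (Sum.inr k) (1 : F)) = (Pi.single (Sum.inr k) (1 : F))})
    {H : Type*} [Group H] (σ : ∀ j : Fin n, ↥(S j) →* H) (μ : ∀ i : Fin n, ↥(M i) →* H)
    (hSS : ∀ j l : Fin n, j ≠ l → ∃ Ψ : ↥(S j ⊔ S l) →* H,
      (∀ (g : ↥(Matrix.symplecticGroup (Fin n) F)) (hg : g ∈ S j), Ψ ⟨g, Subgroup.mem_sup_left hg⟩ = σ j ⟨g, hg⟩) ∧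
        (∀ (g : ↥(Matrix.symplecticGroup (Fin n) F)) (hg : g ∈ S l), Ψ ⟨g, Subgroup.mem_sup_right hg⟩ = σ l ⟨g, hg⟩))
    (hMM : ∀ i i' : Fin n, i ≠ i' → (i : ℕ) + 1 < n → (i' : ℕ) + 1 < n → ∃ Ψ : ↥(M i ⊔ M i') →* H,
      (∀ (g : ↥(Matrix.symplecticGroup (Fin n) F)) (hg : g ∈ M i), Ψ ⟨g, Subgroup.mem_sup_left hg⟩ = μ i ⟨g, hg⟩) ∧
        (∀ (g : ↥(Matrix.symplecticGroup (Fin n) F)) (hg : g ∈ M i'), Ψ ⟨g, Subgroup.mem_sup_right hg⟩ = μ i' ⟨g, hg⟩))
    (hMS : ∀ i j : Fin n, (i : ℕ) + 1 < n → ∃ Ψ : ↥(M i ⊔ S j) →* H,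
      (∀ (g : ↥(Matrix.symplecticGroup (Fin n) F)) (hg : g ∈ M i), Ψ ⟨g, Subgroup.mem_sup_left hg⟩ = μ i ⟨g, hg⟩) ∧
        (∀ (g : ↥(Matrix.symplecticGroup (Fin n) F)) (hg : g ∈ S j), Ψ ⟨g, Subgroup.mem_sup_right hg⟩ = σ j ⟨g, hg⟩)) :
    ∃! Φ : ↥(Matrix.symplecticGroup (Fin n) F) →* H,
      (∀ (j : Fin n) (g : ↥(Matrix.symplecticGroup (Fin n) F)) (hg : g ∈ S j), Φ g = σ j ⟨g, hg⟩) ∧
        (∀ (i : Fin n), (i : ℕ) + 1 < n → ∀ (g : ↥(Matrix.symplecticGroup (Fin n) F)) (hg : g ∈ M i), Φ g = μ i ⟨g, hg⟩) := by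
  classical
  let e : ℕ → Fin n ⊕ Fin n → F := fun i => if h : i < n then Pi.single (.inl ⟨i, h⟩) 1 else 0
  let f : ℕ → Fin n ⊕ Fin n → F := fun i => if h : i < n then -Pi.single (.inr ⟨i, h⟩) 1 else 0
  have he : ∀ i (h : i < n), e i = Pi.single (.inl ⟨i, h⟩) 1 := fun i h => dif_pos h
  have hf : ∀ i (h : i < n), f i = -Pi.single (.inr ⟨i, h⟩) 1 := fun i h => dif_pos h
  have B : (H11.stdSymp n F).HB n e f := by
    refine ⟨fun i h => ⟨trivial, trivial, ?_⟩, fun i h j h' => ?_, fun i h j h' => ?_, fun i h j h' hij => ?_, fun x hx => ?_⟩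
    · rw [he i h, hf i h, H11.stdSymp_single_inl]; simp
    · rw [he i h, he j h', H11.stdSymp_single_inl]; simp
    · rw [hf i h, hf j h']; simp [H11.stdSymp_single_inr]
    · rw [he i h, hf j h', H11.stdSymp_single_inl]; simp [hij]
    · ext (i | i)
      · simpa [hf i i.2, H11.stdSymp_single_inr] using (hx i i.2).2
      · simpa [he i i.2, H11.stdSymp_single_inl] using (hx i i.2).1
  let ε := H11.spEquiv n F
  have mS : ∀ (j : Fin n) g, g ∈ S j ↔ ε g ∈ (H11.stdSymp n F).hbS e f j := fun j g => by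
    refine SetLike.ext_iff.1 ((hS j).trans (Subgroup.closure_eq_of_le (K := ((H11.stdSymp n F).hbS e f j).comap ε.toMonoidHom)
      (fun A hA => (B.mem_S j.2).2 fun k hk h => ?_) fun A hA => Subgroup.subset_closure fun k hk => ?_)) g
    · have := hA ⟨k, hk⟩ fun h' => h (congrArg Fin.val h')
      rw [he k hk, hf k hk, map_neg]
      exact ⟨this.1, congrArg Neg.neg this.2⟩
    · have := (B.mem_S j.2).1 hA k k.2 fun h => hk (Fin.ext h)
      rw [he k k.2, hf k k.2, map_neg, neg_inj] at this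
      exact this
  have mM : ∀ (i : Fin n), (i : ℕ) + 1 < n → ∀ g, g ∈ M i ↔ ε g ∈ (H11.stdSymp n F).hbM e i := fun i hi g => by
    refine SetLike.ext_iff.1 ((hM i hi).trans (Subgroup.closure_eq_of_le (K := ((H11.stdSymp n F).hbM e i).comap ε.toMonoidHom)
      (fun A hA => (B.mem_M hi).2 ⟨fun k hk => ?_, fun k hk h1 h2 => ?_⟩)
      fun A hA => Subgroup.subset_closure ⟨fun k => ?_, fun k h1 h2 => ?_⟩)) g
    · rw [he k hk]; exact hA.1 ⟨k, hk⟩
    · rw [hf k hk, map_neg]; exact congrArg Neg.neg (hA.2 ⟨k, hk⟩ h1 h2)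
    · have := ((B.mem_M hi).1 hA).1 k k.2
      rwa [he k k.2] at this
    · have := ((B.mem_M hi).1 hA).2 k k.2 h1 h2
      rwa [hf k k.2, map_neg, neg_inj] at this
  obtain ⟨Φ, h1, h2, h3⟩ := B.amalgam (H := H) hF (H11.stdSymp_nondeg n)
    (σ := fun j g => if h : j < n then H11.ofHom (σ ⟨j, h⟩) (ε.symm g) else 1)
    (μ := fun j g => if h : j < n then H11.ofHom (μ ⟨j, h⟩) (ε.symm g) else 1)
    (fun j hj => by simp only [dif_pos hj]; exact homOn ε (mS ⟨j, hj⟩) _)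
    (fun j hj => by simp only [dif_pos (Nat.lt_of_succ_lt hj)]; exact homOn ε (mM ⟨j, _⟩ hj) _)
    (fun j hj l hl h => by
      simp only [dif_pos hj, dif_pos hl]; exact cpt ε (mS ⟨j, hj⟩) (mS ⟨l, hl⟩) _ _ (hSS _ _ fun h' => h (congrArg Fin.val h')))
    (fun j l hj hl h => by
      simp only [dif_pos (Nat.lt_of_succ_lt hj), dif_pos (Nat.lt_of_succ_lt hl)]
      exact cpt ε (mM ⟨j, _⟩ hj) (mM ⟨l, _⟩ hl) _ _ (hMM _ _ (fun h' => h (congrArg Fin.val h')) hj hl))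
    (fun j hj l hl => by
      simp only [dif_pos (Nat.lt_of_succ_lt hj), dif_pos hl]; exact cpt ε (mM ⟨j, _⟩ hj) (mS ⟨l, hl⟩) _ _ (hMS _ _ hj))
    (n - 1) 0 (by omega)
  have top : ∀ g, g ∈ (H11.stdSymp n F).fix (H11.PForm.hbU F e f 0) := fun g => H11.PForm.mem_fix_hbU.2 (by simp)
  refine existsUnique_of_exists_of_unique ⟨MonoidHom.mk' (fun g => Φ (ε g)) fun a b => by rw [map_mul, h1 _ (top _) _ (top _)],
    fun j g hg => ?_, fun i hi g hg => ?_⟩ fun Φ₁ Φ₂ p₁ p₂ => MonoidHom.ext fun g => ?_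
  · rw [MonoidHom.mk'_apply, h2 j j.2 (Nat.zero_le _) _ ((mS j g).1 hg), dif_pos j.2, ε.symm_apply_apply, H11.ofHom_apply _ hg]
  · rw [MonoidHom.mk'_apply, h3 i hi (Nat.zero_le _) _ ((mM i hi g).1 hg), dif_pos i.2, ε.symm_apply_apply, H11.ofHom_apply _ hg]
  · have := B.gen hF (H11.stdSymp_nondeg n) (M := (Φ₁.eqLocus Φ₂).comap ε.symm.toMonoidHom) (n - 1) 0 (by omega)
      (fun j hj _ a ha => (p₁.1 ⟨j, hj⟩ _ ((mS _ _).2 (by simpa using ha))).trans (p₂.1 ⟨j, hj⟩ _ _).symm)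
      (fun i hi _ => (p₁.2 ⟨i, Nat.lt_of_succ_lt hi⟩ hi _ ((mM _ hi _).2 (by
        rw [MulEquiv.coe_toMonoidHom, ε.apply_symm_apply]; exact Subgroup.subset_closure (.inl ⟨1, by simp⟩)))).trans (p₂.2 _ hi _ _).symm) (top (ε g))
    exact (show g ∈ Φ₁.eqLocus Φ₂ by simpa using this)

end Cfsg.Agent.S3713
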