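import Cfsg.Statements.S4208
import Cfsg.Agent.H1.Harv2

set_option autoImplicit false
open Cfsg

namespace Cfsg.Agent.S4208

open H18 Subgroup

/-- Let `P` be a group of order `p^n` whose Frattini subgroup has index `p^r`. Then the order of the automorphism group of `P` divides `p^(r(n-r)) · (p^r - 1)(p^r - p) ⋯ (p^r - p^(r-1))`. -/
theorem result {P : Type*} [Group P] [Finite P] {p n r : ℕ} [Fact p.Prime] (hP : Nat.card P = p ^ n) (hr : (frattini P).index = p ^ r) : Nat.card (MulAut P) ∣ p ^ (r * (n - r)) * ∏ i ∈ Finset.range r, (p ^ r - p ^ i) := by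
  have hp : p.Prime := Fact.out
  have hG : IsPGroup p P := .of_card hP
  have hc := (frattini P).card_mul_index
  rw [hr, hP] at hc
  have hle : r ≤ n := (Nat.pow_dvd_pow_iff_le_right hp.one_lt).1 (Dvd.intro_left _ hc)
  have hΦ : Nat.card (frattini P) = p ^ (n - r) :=
    Nat.eq_of_mul_eq_mul_right (pow_pos hp.pos r) (by rw [hc, ← pow_add, Nat.sub_add_cancel hle])
  let S : SubMulAction (MulAut P) (Fin r → P) := ⟨H1.Gen (frattini P) r, fun α v hv => by
    have := congrArg (map α.toMonoidHom) hv
    rwa [Subgroup.map_sup, characteristic_iff_map_eq.1 inferInstance α, MonoidHom.map_closure,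
      map_top_of_surjective _ α.surjective, ← Set.range_comp] at this⟩
  have := H1.card_dvd_of_free S fun v hv α h => H1.eq_one_of_gen hv h
  rw [show Nat.card S = _ from H1.card_gen hG le_rfl hr, hP, hΦ] at this
  convert this using 1
  rw [mul_comm r, pow_mul, ← Finset.card_range r, ← Finset.prod_const, Finset.card_range, ← Finset.prod_mul_distrib]
  exact Finset.prod_congr rfl fun i _ => by rw [Nat.mul_sub, ← pow_add, Nat.sub_add_cancel hle]

end Cfsg.Agent.S4208
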