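import Cfsg.Statements.S3716
import Cfsg.Agent.H6.Tri6
import Cfsg.Agent.S4208

set_option autoImplicit false
open Cfsg


namespace Cfsg.Agent.S3716

open Subgroup

/-- Let G be a finite group with an elementary abelian Sylow 3-subgroup M of order 9 which is self-centralizing (C_G(M) = M), let N = N_G(M), and suppose C_G(g) ≤ N for every nonidentity g ∈ M. If the Sylow 2-subgroups of N are dihedral of order 8, then G is not simple. -/
theorem result {G : Type*} [Group G] [Finite G] (M : Sylow 3 G) (hM9 : Nat.card ↥(M : Subgroup G) = 9)
    (hMel : ∀ m ∈ (M : Subgroup G), m ^ 3 = 1)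
    (hCM : Subgroup.centralizer ((M : Subgroup G) : Set G) = (M : Subgroup G))
    (N : Subgroup G) (hN : N = Subgroup.normalizer ((M : Subgroup G) : Set G))
    (hCg : ∀ g ∈ (M : Subgroup G), g ≠ 1 → Subgroup.centralizer ({g} : Set G) ≤ N)
    (hS : ∀ S : Sylow 2 ↥N, Nonempty (↥(S : Subgroup ↥N) ≃* DihedralGroup 4)) :
    ¬ IsSimpleGroup G := by
    subst hN
    intro hG
    have := Fact.mk Nat.prime_two
    obtain ⟨S⟩ : Nonempty (Sylow 2 (normalizer ((M : Subgroup G) : Set G))) := inferInstance
    obtain ⟨e⟩ := hS S
    have c72 : Nat.card (normalizer ((M : Subgroup G) : Set G)) = 72 := by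
      have a : Nat.card (MulAut (M : Subgroup G)) ∣ 48 := by
        obtain ⟨r, hr, k⟩ := (Nat.dvd_prime_pow Nat.prime_three (m := 2)).1 (hM9 ▸ (frattini (M : Subgroup G)).index_dvd_card)
        refine (Cfsg.Agent.S4208.result (p := 3) (n := 2) hM9 k).trans ?_
        interval_cases r <;> decide
      have b := (M : Subgroup G).normalizerMonoidHom.range.card_subgroup_dvd_card.trans a
      rw [← index_ker, normalizerMonoidHom_ker, hCM] at b
      have c := ((M : Subgroup G).subgroupOf (normalizer ((M : Subgroup G) : Set G))).card_mul_index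
      have d := (M.subtype le_normalizer).not_dvd_index
      have f := (S : Subgroup (normalizer ((M : Subgroup G) : Set G))).card_mul_index
      have g := S.not_dvd_index
      rw [Nat.card_congr (subgroupOfEquivOfLe le_normalizer).toEquiv, hM9] at c
      rw [Nat.card_congr e.toEquiv, DihedralGroup.nat_card] at f
      rw [Sylow.coe_subtype] at d
      generalize ((M : Subgroup G).subgroupOf (normalizer ((M : Subgroup G) : Set G))).index = k at *
      have := Nat.le_of_dvd (by norm_num) b
      interval_cases k <;> omega
    rcases H6.d8_main M hM9 hCM hCg c72 ((S : Subgroup _).subtype.comp e.symm.toMonoidHom)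
      ((subtype_injective _).comp e.symm.injective) with k | ⟨⟨f⟩⟩
    · rcases k.eq_bot_or_eq_top with k | k
      · simp [k] at hM9
      · have := card_le_of_le (le_top.trans k.ge : normalizer ((M : Subgroup G) : Set G) ≤ M)
        omega
    have := f.symm.isSimpleGroup
    rcases (alternatingGroup.normal (α := Fin 6)).eq_bot_or_eq_top with k | k
    · have := two_mul_nat_card_alternatingGroup (α := Fin 6)
      simp [k, Fintype.card_perm, Nat.factorial] at this
    · exact absurd (k ▸ alternatingGroup.index_eq_two (α := Fin 6)) (by simp)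

end Cfsg.Agent.S3716
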