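import Cfsg.Statements.S3718
import Cfsg.Agent.S3406

set_option autoImplicit false
open Cfsg

namespace Cfsg.Agent.S3718

open H18 H13 Subgroup MulAction
open scoped MatrixGroups

variable {G : Type*} [Group G] [Finite G]

theorem psl_case (one : ∀ a b : ℕ, Sp G a → Sp G b → 1 < a → 1 < b → a ≠ b → a.Prime ∨ b.Prime)
    {F : Type} [Field F] [Fintype F] (h4 : 4 ≤ Fintype.card F) (e : G ≃* PSL(2, F)) :
    (∃ (F : Type) (_ : Field F) (_ : Fintype F), (Fintype.card F = 5 ∨ Fintype.card F = 7 ∨ Fintype.card F = 8 ∨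
      Fintype.card F = 9 ∨ Fintype.card F = 11 ∨ Fintype.card F = 13 ∨ Fintype.card F = 16) ∧
        Nonempty (G ≃* PSL(2, F))) ∨
    (∃ (F : Type) (_ : Field F) (_ : Fintype F), ∃ n r s : ℕ, r.Prime ∧ s.Prime ∧ 3 ^ n - 1 = 2 * r ∧ 3 ^ n + 1 = 4 * s ∧
        Fintype.card F = 3 ^ n ∧ Nonempty (G ≃* PSL(2, F))) ∨
    (∃ (F : Type) (_ : Field F) (_ : Fintype F), ∃ n r : ℕ, (2 ^ n - 1).Prime ∧ r.Prime ∧ 2 ^ n + 1 = 3 * r ∧
        Fintype.card F = 2 ^ n ∧ Nonempty (G ≃* PSL(2, F))) := by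
  have mul : ∀ a b c : ℕ, Sp G (a * b) → Sp G c → 1 < a → 1 < b → 1 < c → c ≠ a * b → c.Prime :=
    fun a b c h1 h2 ha hb hc ne => (one _ _ h2 h1 hc (by nlinarith) ne).resolve_right
      (Nat.not_prime_mul ha.ne' hb.ne')
  have mul' : ∀ a b : ℕ, Sp G (a * b) → 1 < a → 1 < b → b.Prime := fun a b h ha hb =>
    mul a b b h (h.of_dvd (dvd_mul_left _ _)) ha hb hb (by nlinarith)
  have p3 : ∀ r, r.Prime → r % 3 = 0 → r = 3 := fun r hr h =>
    ((Nat.prime_dvd_prime_iff_eq Nat.prime_three hr).1 (by omega)).symm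
  obtain ⟨p, hp⟩ := CharP.exists F
  obtain ⟨⟨k, k0⟩, hp', hk⟩ := FiniteField.card F p
  have hk : Fintype.card F = p ^ k := hk
  have pd : p ∣ Fintype.card F := hk ▸ dvd_pow_self _ k0.ne'
  rcases hp'.eq_two_or_odd' with rfl | ho
  · have k2 : 2 ≤ k := by
      by_contra h
      interval_cases k; omega
    have s1 := (sp_congr e).2 ((sp_psl_even k2 hk).2 (.inr (.inl dvd_rfl)))
    have s2 := (sp_congr e).2 ((sp_psl_even k2 hk).2 (.inr (.inr dvd_rfl)))
    obtain ⟨j, rfl | rfl⟩ := k.even_or_odd'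
    · by_cases c : j = 1
      · subst c
        haveI := Fact.mk Nat.prime_five
        obtain ⟨f⟩ := S0252.result hk
        obtain ⟨f'⟩ := S0253.result (ZMod.card 5)
        exact .inl ⟨ZMod 5, _, _, .inl (ZMod.card 5), ⟨e.trans (f.trans f'.symm)⟩⟩
      have := four_le (k := j) (by omega)
      have e1 : 2 ^ (2 * j) - 1 = (2 ^ j + 1) * (2 ^ j - 1) := by rw [← Nat.sq_sub_sq, one_pow, pow_mul']
      rw [e1] at s2
      have a := p3 _ (mul' _ _ s2 (by omega) (by omega))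
      have b := p3 _ (mul' _ _ (mul_comm (2 ^ j + 1) _ ▸ s2) (by omega) (by omega))
      have := three_dvd j
      refine .inl ⟨F, inferInstance, inferInstance, ?_, ⟨e⟩⟩
      rw [hk, pow_mul', show 2 ^ j = 4 by omega]; decide
    have := four_le k2
    obtain ⟨r, hr⟩ : 3 ∣ 2 ^ (2 * j + 1) + 1 := by
      rw [pow_succ, pow_mul]
      have : (2 ^ 2) ^ j % 3 = 1 := by simp [Nat.pow_mod]
      omega
    rw [hr] at s1
    exact .inr (.inr ⟨F, _, _, _, r, mul _ _ _ s1 s2 (by omega) (by omega) (by omega) (by omega),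
      mul' _ _ s1 (by omega) (by omega), hr, hk, ⟨e⟩⟩)
  have qo : Odd (Fintype.card F) := hk ▸ ho.pow
  have s1 := (sp_congr e).2 ((sp_psl_odd hp' pd h4 qo).2 (.inr (.inl dvd_rfl)))
  have s2 := (sp_congr e).2 ((sp_psl_odd hp' pd h4 qo).2 (.inr (.inr dvd_rfl)))
  have h3 : Fintype.card F % 3 = 0 → p = 3 := fun h => ((Nat.prime_dvd_prime_iff_eq Nat.prime_three hp').1
    (Nat.prime_three.dvd_of_dvd_pow (hk ▸ Nat.dvd_of_mod_eq_zero h))).symm
  rw [Nat.odd_iff] at qo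
  by_cases c : Fintype.card F = 5 ∨ Fintype.card F = 7 ∨ Fintype.card F = 8 ∨
      Fintype.card F = 9 ∨ Fintype.card F = 11 ∨ Fintype.card F = 13 ∨ Fintype.card F = 16
  · exact .inl ⟨F, _, _, c, ⟨e⟩⟩
  rcases (by omega : Fintype.card F % 4 = 1 ∨ Fintype.card F % 4 = 3) with h | h
  · rw [show (Fintype.card F - 1) / 2 = 2 * ((Fintype.card F - 1) / 4) by omega] at s2
    have a := p3 _ (mul _ _ _ s2 s1 (by omega) (by omega) (by omega) (by omega))
    have b := mul' _ _ s2 (by omega) (by omega)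
    have b' := p3 _ b
    obtain rfl := h3 (by rcases (by omega : (Fintype.card F - 1) / 4 % 3 = 1 ∨ (Fintype.card F - 1) / 4 % 3 = 2) with
      h | h <;> omega)
    have : 3 ^ k % 8 = 1 ∨ 3 ^ k % 8 = 3 := by
      obtain ⟨j, rfl | rfl⟩ := k.even_or_odd' <;> simp [pow_succ, pow_mul, Nat.pow_mod, Nat.mul_mod]
    have := b.eq_two_or_odd
    omega
  · rw [show (Fintype.card F + 1) / 2 = 2 * ((Fintype.card F + 1) / 4) by omega] at s1
    have a := mul _ _ _ s1 s2 (by omega) (by omega) (by omega) (by omega)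
    have b := mul' _ _ s1 (by omega) (by omega)
    have a' := p3 _ a
    have b' := p3 _ b
    obtain rfl := h3 (by rcases (by omega : (Fintype.card F + 1) / 4 % 3 = 1 ∨ (Fintype.card F + 1) / 4 % 3 = 2) with
      h | h <;> omega)
    exact .inr (.inl ⟨F, _, _, k, _, _, a, b, by omega, by omega, hk, ⟨e⟩⟩)

/-- Let G be a finite simple group whose set of element orders contains at most one composite number (at most one element order that is neither 1 nor a prime). Then G is cyclic of prime order, or isomorphic to PSL₂(q) for q ∈ {5, 7, 8, 9, 11, 13, 16}, to PSL₃(4), to the Suzuki group Sz(8), to PSL₂(3ⁿ) with (3ⁿ − 1)/2 and (3ⁿ + 1)/4 both prime, or to PSL₂(2ⁿ) with 2ⁿ − 1 and (2ⁿ + 1)/3 both prime. -/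
theorem result {G : Type*} [Group G] [Finite G] [IsSimpleGroup G]
    (h1 : {n : ℕ | n ∈ Set.range (orderOf : G → ℕ) ∧ 1 < n ∧ ¬ n.Prime}.Subsingleton) :
    (Nat.card G).Prime ∨
    (∃ (F : Type) (_ : Field F) (_ : Fintype F), (Fintype.card F = 5 ∨ Fintype.card F = 7 ∨ Fintype.card F = 8 ∨ Fintype.card F = 9 ∨
        Fintype.card F = 11 ∨ Fintype.card F = 13 ∨ Fintype.card F = 16) ∧ Nonempty (G ≃* Matrix.ProjectiveSpecialLinearGroup (Fin 2) F)) ∨
    (∃ (F : Type) (_ : Field F) (_ : Fintype F), Fintype.card F = 4 ∧ Nonempty (G ≃* Matrix.ProjectiveSpecialLinearGroup (Fin 3) F)) ∨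
    (∃ (F : Type) (_ : Field F) (_ : Fintype F), Fintype.card F = 8 ∧ Nonempty (G ≃* ↥(Cfsg.Lie.Sz F 4))) ∨
    (∃ (F : Type) (_ : Field F) (_ : Fintype F), ∃ n r s : ℕ, r.Prime ∧ s.Prime ∧ 3 ^ n - 1 = 2 * r ∧ 3 ^ n + 1 = 4 * s ∧
        Fintype.card F = 3 ^ n ∧ Nonempty (G ≃* Matrix.ProjectiveSpecialLinearGroup (Fin 2) F)) ∨
    (∃ (F : Type) (_ : Field F) (_ : Fintype F), ∃ n r : ℕ, (2 ^ n - 1).Prime ∧ r.Prime ∧ 2 ^ n + 1 = 3 * r ∧
        Fintype.card F = 2 ^ n ∧ Nonempty (G ≃* Matrix.ProjectiveSpecialLinearGroup (Fin 2) F)) := by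
  classical
  by_cases hG : IsMulCommutative G
  · letI : CommGroup G := { (inferInstance : Group G) with mul_comm := hG.is_comm.comm }
    exact .inl IsSimpleGroup.prime_card
  have hns : ¬ Solv (⊤ : Subgroup G) := H1.not_solv_top hG
  have one : ∀ a b : ℕ, Sp G a → Sp G b → 1 < a → 1 < b → a ≠ b → a.Prime ∨ b.Prime := fun a b ha hb a1 b1 ne => by
    by_contra! c
    exact ne (h1 ⟨ha, a1, c.1⟩ ⟨hb, b1, c.2⟩)
  have psl := fun {F : Type} [Field F] [Fintype F] (h4 : 4 ≤ Fintype.card F) (e : G ≃* PSL(2, F)) => psl_case one h4 e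
  refine .inr ?_
  by_cases s4 : Sp G 4
  · have hC : CIT G := cit_of_graph fun r hr r2 h => by
      have := hr.two_le
      exact (one _ _ s4 h (by decide) (by omega) (by omega)).elim (by decide) (Nat.not_prime_mul (by decide) hr.ne_one)
    rcases hC.classify_simple hns with (⟨F, _, _, ⟨n, hn, hF⟩, ⟨e⟩⟩ | ⟨F, i1, i2, m, hm, hF, ⟨e⟩⟩) |
      ⟨F, _, _, h7, -, -, ⟨e⟩⟩ | h
    · exact (psl (hF ▸ four_le hn) e).imp_right (.inr ∘ .inr)
    · have a1 : 2 ^ (m + 1 + 1) ≤ 2 ^ (2 * m + 1) := Nat.pow_le_pow_right (by decide) (by omega)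
      have a2 := four_le (k := m + 1) (by omega)
      rw [pow_succ] at a1
      have s := fun n => (sp_congr (n := n) e).trans (sp_sz hm hF)
      have p1 := (one _ _ s4 ((s _).2 (.inr (.inr (.inl dvd_rfl)))) (by decide) (by omega) (by omega)).resolve_left
        (by decide)
      have p2 := (one _ _ s4 ((s _).2 (.inr (.inr (.inr dvd_rfl)))) (by decide) (by omega) (by omega)).resolve_left
        (by decide)
      have h5 := five_dvd m
      rw [← sz_mul, Nat.prime_five.dvd_mul, Nat.prime_dvd_prime_iff_eq Nat.prime_five p1,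
        Nat.prime_dvd_prime_iff_eq Nat.prime_five p2] at h5
      obtain rfl : m = 1 := by
        by_contra c
        have : 2 ^ 3 ≤ 2 ^ (m + 1) := Nat.pow_le_pow_right (by decide) (by omega)
        omega
      exact .inr (.inr (.inl ⟨F, i1, i2, hF, ⟨e⟩⟩))
    · exact (psl (by omega) e).imp_right (.inr ∘ .inr)
    · exact .inr (.inl h)
  obtain ⟨S, hS⟩ := exists_sylow Nat.prime_two (⊤ : Subgroup G)
  have sq : ∀ x ∈ S, x * x = 1 := fun x hx => by
    obtain ⟨k, hk⟩ := (hS.pi.elt hx).eq_pow (orderOf_pos x).ne'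
    rw [← pow_two, ← orderOf_dvd_iff_pow_eq_one, hk]
    by_contra c
    have k2 : 2 ≤ k := by
      by_contra h
      interval_cases k <;> simp at c
    exact s4 (Sp.of_dvd ⟨x, hk⟩ (pow_dvd_pow 2 k2))
  have hA : H1.AbS S ⊤ := ⟨hS, cent_iff.2 fun a ha b hb => H9.comm_of_sq (sq a ha) (sq b hb) (sq _ (mul_mem ha hb))⟩
  rcases hA.w2_of_solv hG (fun t ht => by
    by_contra c
    obtain ⟨x, hx, y, hy, h1, h2, h3, h4, h6⟩ := S3406.two_primes c
    have o3 := h1.two_le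
    have o4 := h2.two_le
    have := one _ _ (sp_mul (mem_C1.1 hx) (ht ▸ (Nat.coprime_primes h1 Nat.prime_two).2 h3))
      (sp_mul (mem_C1.1 hy) (ht ▸ (Nat.coprime_primes h2 Nat.prime_two).2 h4)) (by rw [ht]; omega) (by rw [ht]; omega)
      (by rw [ht]; omega)
    exact this.elim (Nat.not_prime_mul (by omega) (by omega)) (Nat.not_prime_mul (by omega) (by omega))) with
    ⟨F, _, _, -, h, ⟨e⟩⟩ | ⟨k, hk, F, _, _, h, ⟨e⟩⟩
  · exact (psl (by omega) e).imp_right (.inr ∘ .inr)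
  · exact (psl (h ▸ four_le hk) e).imp_right (.inr ∘ .inr)

end Cfsg.Agent.S3718
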