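import Cfsg.Statements.S3728
import Cfsg.Agent.H29.Three
import Cfsg.Agent.H29.Hom

set_option autoImplicit false
open Cfsg

namespace Cfsg.Agent.S3728

open H18 Subgroup H29

theorem dvd {G X : Type*} [Group G] [Group X] [Finite G]
    (h : ∀ M : Subgroup G, IsCoatom M → Nat.card M ∣ Nat.card X)
    (hp : ∀ p k : ℕ, p.Prime → Nat.card G ≠ p ^ k) : Nat.card G ∣ Nat.card X :=
  (Nat.dvd_iff_prime_pow_dvd_dvd _ _).2 fun p k pp d => by
    obtain ⟨P, -, e⟩ := exists_sub_card_pow (H := (⊤ : Subgroup G)) pp (by rwa [card_top])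
    obtain ⟨M, a, b⟩ := (eq_top_or_exists_le_coatom P).resolve_left fun a => hp p k pp (by rw [← e, a, card_top])
    exact (e ▸ card_dvd b).trans (h M a)

section
open H13.Sz
variable {F : Type*} [Field F] [Fintype F] {m : ℕ} [hF : IsSz F m]

theorem coatom_B : IsCoatom (B F m) :=
  ⟨fun e => w_not_mem_B (e.ge (mem_top (w F m))), fun _ h => by_contra fun e =>
    h.not_ge (H27.le_B_of_U_le (U_le_B.trans h.le) e)⟩

theorem index_of_odd {M : Subgroup (Cfsg.Sz F m)} (h : IsCoatom M) (o : ¬ 2 ∣ M.index) :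
    M.index = Fintype.card F ^ 2 + 1 := by
  obtain ⟨P, hP⟩ := exists_sylow Nat.prime_two M
  obtain ⟨g, -, rfl⟩ := sylow_conj Nat.prime_two (hall_sylow_top Nat.prime_two (sylowU F m))
    (hP.of_idx le_top ((piNat_compl_iff Nat.prime_two).2 (by simpa using o)))
  have c := H18.IsCoatom.cj h g⁻¹
  rw [← index_B (m := m), ← H18.index_cj (g := g⁻¹),
    (c.le_iff_eq coatom_B.1).1 (H27.le_B_of_U_le (cj_le_iff.1 hP.le) c.1)]

theorem not_pow {n p k : ℕ} (hp : p.Prime) (h : Nat.card (B F m) ∣ n) : n ≠ p ^ k := by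
  rintro rfl
  have h8 := eight_le_card (F := F)
  rw [card_B] at h
  obtain ⟨i, -, e⟩ := (Nat.dvd_prime_pow hp).1 ((Dvd.intro_left _ rfl).trans h)
  have a : 2 ∣ p ^ k := ((dvd_pow_self 2 (by omega)).trans (hF.card.symm.dvd.trans
    (dvd_pow_self _ two_ne_zero))).trans ((Dvd.intro _ rfl).trans h)
  obtain rfl := (Nat.prime_dvd_prime_iff_eq Nat.prime_two hp).1 (Nat.prime_two.dvd_of_dvd_pow a)
  have := odd_card_sub_one (F := F)
  rcases i with _ | i
  · omega
  · rw [e, pow_succ] at this; exact absurd this (by simp)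

theorem not_prime {M : Subgroup (Cfsg.Sz F m)} (h : IsCoatom M) : ¬ M.index.Prime := fun hp => by
  by_cases e : 2 ∣ M.index
  · rw [Nat.prime_dvd_prime_iff_eq Nat.prime_two hp] at e
    obtain a | a := (normal_of_index_eq_two e.symm).eq_bot_or_eq_top
    · have := card_subgroup_dvd_card (U F m)
      rw [a, index_bot] at e
      rw [← e, card_U] at this
      have := Nat.le_of_dvd two_pos this
      nlinarith [eight_le_card (F := F)]
    · exact h.1 a
  rw [index_of_odd h e] at hp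
  obtain ⟨k, hk⟩ : ∃ k, m = k + 1 := ⟨m - 1, by have := hF.hm; omega⟩
  have e : Fintype.card F ^ 2 = 4 * 16 ^ m := by
    rw [hF.card, ← pow_mul, show 16 = 2 ^ 4 from rfl, ← pow_mul, show 4 = 2 ^ 2 from rfl, ← pow_add]; congr 1; ring
  have : 16 ^ m % 5 = 1 := by rw [Nat.pow_mod]; simp
  have := (Nat.prime_dvd_prime_iff_eq Nat.prime_five hp).1 (by omega)
  nlinarith [eight_le_card (F := F)]

end

/-- Let q = 2^(2m+1) with m ≥ 1 and let G be a finite group whose set of orders of maximal subgroups equals that of the Suzuki group Sz(q). Then G is isomorphic to Sz(q). -/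
theorem result {G : Type*} [Group G] [Finite G] {F : Type*} [Field F] [Fintype F] (m : ℕ) (hm : 1 ≤ m)
    (hF : Fintype.card F = 2 ^ (2 * m + 1))
    (h : {k : ℕ | ∃ M : Subgroup G, IsCoatom M ∧ k = Nat.card ↥M} = {k : ℕ | ∃ M : Subgroup ↥(Cfsg.Lie.Sz F (2 ^ (m + 1))), IsCoatom M ∧ k = Nat.card ↥M}) :
    Nonempty (G ≃* ↥(Cfsg.Lie.Sz F (2 ^ (m + 1)))) := by
  have hs : H13.Sz.IsSz F m := ⟨hm, hF⟩
  let e := H13.Sz.lieEquiv F m
  have h1 : ∀ M : Subgroup G, IsCoatom M → ∃ K : Subgroup (Cfsg.Sz F m), IsCoatom K ∧ Nat.card M = Nat.card K :=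
    fun M a => let ⟨K, b, c⟩ := h.le ⟨M, a, rfl⟩
      ⟨e.symm.mapSubgroup K, (OrderIso.isCoatom_iff e.symm.mapSubgroup K).2 b, c.trans (Nat.card_congr (e.symm.subgroupMap K).toEquiv)⟩
  have h2 : ∀ K : Subgroup (Cfsg.Sz F m), IsCoatom K → ∃ M : Subgroup G, IsCoatom M ∧ Nat.card K = Nat.card M :=
    fun K a => h.ge ⟨e.mapSubgroup K, (OrderIso.isCoatom_iff e.mapSubgroup K).2 a, Nat.card_congr (e.subgroupMap K).toEquiv⟩
  obtain ⟨M, -, hM⟩ := h2 _ coatom_B
  have c : Nat.card G = Nat.card (Cfsg.Sz F m) := Nat.dvd_antisymm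
    (dvd (fun M a => let ⟨K, _, c⟩ := h1 M a; c ▸ card_subgroup_dvd_card K)
      fun _ _ hp => not_pow hp (hM ▸ card_subgroup_dvd_card M))
    (dvd (fun M a => let ⟨K, _, c⟩ := h2 M a; c ▸ card_subgroup_dvd_card K)
      fun _ _ hp => not_pow hp (card_subgroup_dvd_card _))
  have h3 : ∀ M : Subgroup G, IsCoatom M → ∃ K : Subgroup (Cfsg.Sz F m), IsCoatom K ∧ M.index = K.index := fun M a =>
    let ⟨K, b, d⟩ := h1 M a
    ⟨K, b, Nat.eq_of_mul_eq_mul_left (Nat.card_pos (α := M)) (by rw [card_mul_index, d, card_mul_index, c])⟩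
  obtain ⟨N, _, s⟩ := exists_simple_quot (M := (⊤ : Subgroup G)) fun a => by
    have := Finite.one_lt_card (α := Cfsg.Sz F m)
    rw [← c, ← card_top, a, card_bot] at this
    exact this.false
  let f := (QuotientGroup.mk' N).comp (topEquiv (G := G)).symm.toMonoidHom
  have hf : Function.Surjective f := (QuotientGroup.mk'_surjective N).comp topEquiv.symm.surjective
  have h4 : ∀ M : Subgroup ((⊤ : Subgroup G) ⧸ N), IsCoatom M →
      ∃ K : Subgroup (Cfsg.Sz F m), IsCoatom K ∧ M.index = K.index := fun M a =>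
    index_comap_of_surjective M hf ▸ h3 _ (isCoatom_comap_of_surjective hf a)
  by_cases a : IsMulCommutative ((⊤ : Subgroup G) ⧸ N)
  · let _ : CommGroup ((⊤ : Subgroup G) ⧸ N) := { (inferInstance : Group _) with mul_comm := a.1.1 }
    obtain ⟨K, b, d⟩ := h4 ⊥ isCoatom_bot
    exact absurd (d ▸ index_bot (G := (⊤ : Subgroup G) ⧸ N) ▸ IsSimpleGroup.prime_card) (not_prime b)
  obtain ⟨L, _, _, l, _, ⟨g⟩⟩ := H27.isoSuzuki_iff.1 (sz_of_three _ a fun k =>
    H27.not_three_dvd_Sz (c ▸ k.trans (card_dvd_of_surjective f hf)))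
  obtain ⟨K, b, d⟩ := h4 _ ((isCoatom_comap g).2 coatom_B)
  rw [index_comap_of_surjective _ g.surjective, H13.Sz.index_B] at d
  rw [index_of_odd b (by rw [← d, ← even_iff_two_dvd, Nat.not_even_iff_odd]; exact H13.Sz.odd_card_sq_add_one)] at d
  have q : Fintype.card L = Fintype.card F := Nat.pow_left_injective two_ne_zero (Nat.add_right_cancel d)
  let j := FiniteField.ringEquivOfCardEq q
  refine ⟨(MulEquiv.ofBijective ((H13.Sz.szMap m l (j : L →+* F)).comp (g.toMonoidHom.comp f))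
    (((H13.Sz.szMap_surjective j.surjective).comp (g.surjective.comp hf)).bijective_of_nat_card_le c.le)).trans e⟩

end Cfsg.Agent.S3728
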