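import Cfsg.Statements.S3797
import Cfsg.Agent.H9.Tho2
import Cfsg.Agent.H21.Crit

set_option autoImplicit false
open Cfsg

namespace Cfsg.Agent.S3797

open Subgroup H18 H1

theorem homocyclic {S : Type*} [CommGroup S] [Finite S] (hS : IsPGroup 2 S)
    (h : ∀ x y : S, x ≠ 1 → x ^ 2 = 1 → y ≠ 1 → y ^ 2 = 1 → ∃ a : MulAut S, a x = y) :
    ∃ m r : ℕ, Nonempty (S ≃* (Fin r → Multiplicative (ZMod (2 ^ m)))) := by
  classical
  obtain ⟨ι, _, n, h1, ⟨e⟩⟩ := CommGroup.equiv_prod_multiplicative_zmod_of_finite S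
  let g : ι → S := fun i => e.symm (Pi.mulSingle i (Multiplicative.ofAdd 1))
  have og : ∀ i, orderOf (g i) = n i := fun i => by
    rw [MulEquiv.orderOf_eq, orderOf_piMulSingle, orderOf_ofAdd_eq_addOrderOf, ZMod.addOrderOf_one]
  have hk : ∀ i, ∃ k, n i = 2 ^ (k + 1) := fun i => by
    obtain ⟨k, hk⟩ := (IsPGroup.iff_orderOf.1 hS) (g i)
    rw [og] at hk
    cases k with
    | zero => have := h1 i; omega
    | succ k => exact ⟨k, hk⟩
  choose k hk using hk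
  have t1 : ∀ i, g i ^ 2 ^ k i ≠ 1 := fun i e => by
    have := orderOf_dvd_of_pow_eq_one e
    rw [og, hk, Nat.pow_dvd_pow_iff_le_right one_lt_two] at this; omega
  have t2 : ∀ i, (g i ^ 2 ^ k i) ^ 2 = 1 := fun i => by rw [← pow_mul, ← pow_succ, ← hk, ← og, pow_orderOf_eq_one]
  have le : ∀ i j, k j ≤ k i := fun i j => by
    by_contra! lt
    obtain ⟨a, ha⟩ := h _ _ (t1 j) (t2 j) (t1 i) (t2 i)
    have : NeZero (n i) := ⟨(h1 i).ne_bot⟩
    have := congrFun (congrArg e ha) i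
    simp only [map_pow, Pi.pow_apply, g, MulEquiv.apply_symm_apply, Pi.mulSingle_eq_same] at this
    rw [orderOf_dvd_iff_pow_eq_one.1 ((_root_.orderOf_dvd_natCard _).trans (by
      rw [Nat.card_congr Multiplicative.toAdd, Nat.card_zmod, hk]; exact pow_dvd_pow _ lt))] at this
    have := orderOf_dvd_of_pow_eq_one this.symm
    rw [orderOf_ofAdd_eq_addOrderOf, ZMod.addOrderOf_one, hk, Nat.pow_dvd_pow_iff_le_right one_lt_two] at this; omega
  obtain ⟨m, hm⟩ : ∃ m, n = fun _ => 2 ^ m := by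
    rcases isEmpty_or_nonempty ι with _ | ⟨⟨i⟩⟩
    · exact ⟨0, Subsingleton.elim _ _⟩
    · exact ⟨k i + 1, funext fun j => by rw [hk, le_antisymm (le i j) (le j i)]⟩
  subst hm
  exact ⟨m, _, ⟨e.trans (MulEquiv.arrowCongr (Fintype.equivFin ι) (MulEquiv.refl _))⟩⟩

/-- Let G be a finite solvable group of even order whose Sylow 2-subgroups contain more than one involution, and suppose all involutions of G are conjugate. Then G has 2-length at most 1, and a Sylow 2-subgroup S of G is either homocyclic (a direct product of cyclic groups of one common order) or a non-abelian 2-group with more than one involution admitting a solvable group of automorphisms transitive on its involutions. -/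
theorem result {G : Type*} [Group G] [Finite G] (hG : Group.IsSolvable G) (heven : Even (Nat.card G)) (S : Sylow 2 G) (htwo : ∃ x y : G, x ∈ (S : Subgroup G) ∧ y ∈ (S : Subgroup G) ∧ x ≠ y ∧ x ≠ 1 ∧ x ^ 2 = 1 ∧ y ≠ 1 ∧ y ^ 2 = 1) (hconj : ∀ x y : G, x ≠ 1 → x ^ 2 = 1 → y ≠ 1 → y ^ 2 = 1 → IsConj x y) : Cfsg.PLengthLE 2 1 G ∧ ((∃ m r : ℕ, Nonempty (↥(S : Subgroup G) ≃* (Fin r → Multiplicative (ZMod (2 ^ m))))) ∨ (¬ IsMulCommutative (S : Subgroup G) ∧ ∃ Y : Subgroup (MulAut ↥(S : Subgroup G)), Group.IsSolvable Y ∧ ∀ x y : ↥(S : Subgroup G), x ≠ 1 → x ^ 2 = 1 → y ≠ 1 → y ^ 2 = 1 → ∃ a ∈ Y, a x = y)) := by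
  have p2 := Nat.prime_two
  have hS := hall_sylow_top p2 S
  set O := O[{2}ᶜ]((⊤ : Subgroup G))
  have nO : O ⊴ ⊤ := pcore_nml
  have tN : ∀ x : G, x ∈ N(O) := fun x => nO.norm (mem_top x)
  have tq : ⊤ ⫽ O = ⊤ := top_unique (quo_N.ge.trans (mim_mono le_top))
  have inj : ∀ {x : G}, PiElt {2} x → cs O x = 1 → x = 1 := fun {x} h e =>
    h.eq_one' (pcore_pi.elt ((cs_eq_one_iff (tN x)).1 e))
  have lift : ∀ z : Coset O, z ≠ 1 → z * z = 1 → ∃ x : G, x ≠ 1 ∧ x ^ 2 = 1 ∧ cs O x = z := fun z z1 z2 => by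
    obtain ⟨x, -, -, px, rfl⟩ := exists_piElt_lift (f := coset O) (A := ⊤) (z := z) (by rw [tq]; trivial)
      (piElt_of_pow_eq_one p2 (by rw [pow_two, z2]))
    exact ⟨x, fun e => z1 (by rw [e, mfun_one]), inj (px.pow' 2) (by rw [pow_two, mfun_mul (tN x) (tN x), z2]), rfl⟩
  have sq : ∀ {x : G}, x ^ 2 = 1 → cs O x * cs O x = 1 := fun {x} e => by
    rw [← mfun_mul (tN x) (tN x), ← pow_two, e, mfun_one]
  have pe : ∀ {x : G}, x ^ 2 = 1 → PiElt {2} x := piElt_of_pow_eq_one p2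
  obtain ⟨x, y, hx, hy, xy, x1, x2, y1, y2⟩ := htwo
  obtain ⟨h1, h2⟩ := H9.one_class_closed (G := Coset O) (S := S ⫽ O) (tq ▸ (solv_top_iff.2 hG).mim)
    (by rw [← tq]; exact pcore_quo_pcore) (fun a b a1 a2 b1 b2 => by
      obtain ⟨a, a3, a4, rfl⟩ := lift a a1 a2
      obtain ⟨b, b3, b4, rfl⟩ := lift b b1 b2
      obtain ⟨g, rfl⟩ := isConj_iff.1 (hconj a b a3 a4 b3 b4)
      exact ⟨cs O g, (mfun_conj (tN g) (tN a)).symm⟩)
    (fun e => x1 (inj (pe x2) e)) (sq x2) (fun e => y1 (inj (pe y2) e)) (sq y2)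
    (fun e => xy (inv_mul_eq_one.1 ((hS.pi.elt (mul_mem (inv_mem hx) hy)).eq_one'
      (pcore_pi.elt ((cs_eq_iff (tN x) (tN y)).1 e))))) (tq ▸ hS.mim nO.norm)
  refine ⟨(pl1_top_iff p2).1 (hS.idx_of_le ((mim_le_iff fun g _ => tN g).1 (by rw [tq]; exact h1))), ?_⟩
  have cen : ∀ v ∈ (S : Subgroup G), v ^ 2 = 1 → (S : Subgroup G) ≤ C1(v) := fun v hv v2 s hs => by
    have := mem_C1.1 (h2 _ (sq v2) (mfun_mem_mim hs))
    rw [← mfun_mul (tN s) (tN v), ← mfun_mul (tN v) (tN s), cs_eq_iff (tN _) (tN _)] at this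
    exact mem_C1.2 (inv_mul_eq_one.1 ((hS.pi.elt (mul_mem (inv_mem (mul_mem hs hv)) (mul_mem hv hs))).eq_one'
      (pcore_pi.elt this)))
  have tr : ∀ a b : (S : Subgroup G), a ≠ 1 → a ^ 2 = 1 → b ≠ 1 → b ^ 2 = 1 →
      ∃ f ∈ (S : Subgroup G).normalizerMonoidHom.range, f a = b := fun a b a1 a2 b1 b2 => by
    have a2' : (a : G) ^ 2 = 1 := congrArg Subtype.val a2
    have b2' : (b : G) ^ 2 = 1 := congrArg Subtype.val b2
    obtain ⟨g, hg⟩ := isConj_iff.1 (hconj a b (fun e => a1 (Subtype.ext e)) a2' (fun e => b1 (Subtype.ext e)) b2')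
    obtain ⟨n, hn, e⟩ := H21.burnside_fusion p2 hS (cen a a.2 a2') (mem_top g) (hg ▸ cen b b.2 b2')
    exact ⟨_, ⟨⟨n, hn.2⟩, rfl⟩, Subtype.ext (e.trans hg)⟩
  by_cases ab : IsMulCommutative (S : Subgroup G)
  · let : CommGroup (S : Subgroup G) := { (inferInstance : Group (S : Subgroup G)) with mul_comm := ab.is_comm.comm }
    exact .inl (homocyclic S.isPGroup' fun a b a1 a2 b1 b2 => (tr a b a1 a2 b1 b2).imp fun _ h => h.2)
  · exact .inr ⟨ab, _, Group.isSolvable_of_surjective (MonoidHom.rangeRestrict_surjective _), tr⟩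

end Cfsg.Agent.S3797
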