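import Cfsg.Statements.S3798
import Cfsg.Agent.H1.Harv3

set_option autoImplicit false
open Cfsg

namespace Cfsg.Agent.S3798

open H18 H1 Subgroup SemidirectProduct

universe u

theorem core {G : Type u} [Group G] [Finite G] {p : ℕ} (hp : p.Prime) (h2 : p ≠ 2) {H : Subgroup G}
    (hs : PiSep {p} H) (hO : O[{p}ᶜ](H) = ⊥)
    (ht : ∀ x ∈ H, ∀ y ∈ H, orderOf x = p → orderOf y = p → ∃ a ∈ N(H), a * x * a⁻¹ ∈ zpowers y) :
    PL1 p H := by
  have key : ∀ W ≤ H, W ≠ ⊥ → PiGrp {p} W → N(H) ≤ N(W) → ∀ x ∈ H, orderOf x = p → x ∈ W :=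
    fun W h1 h0 hW hn x hx xp => by
      obtain ⟨y, hy, yp⟩ := cauchy hp (hW.dvd_card h0)
      obtain ⟨a, ha, e⟩ := ht x hx y (h1 hy) xp yp
      have := conj_mem_N' (hn ha) (zpowers_le.2 hy e)
      rwa [show a⁻¹ * (a * x * a⁻¹) * a = x by group] at this
  rw [PL1, pcore2_eq_of_bot hO, piNat_compl_iff hp]
  intro hd
  set Q := O[{p}](H) with hQ
  have QH : Q ⊴ H := pcore_nml
  have Qp : PiGrp {p} Q := pcore_pi
  set T := O2[{p},{p}ᶜ](H) with hT
  have TH : T ⊴ H := pcore2_nml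
  have h1 : Hall {p} Q T := ⟨pcore_le_pcore2, Qp, pcore2_idx⟩
  obtain ⟨R, hR⟩ := h1.exists_compl (TH.le.trans QH.norm)
  have RH := hR.le.trans TH.le
  have e1 : Q ⊔ R = T := h1.sup_compl hR
  have cp : Cop R Q := cop_of_pi' (RH.trans QH.norm) hR.pi Qp (Or.inr Qp.solv)
  have ne : Q ≠ H := fun e => by
    rw [e, relIndex_self] at hd
    exact hp.one_lt.ne' (Nat.dvd_one.1 hd)
  have h3 : Q ⊓ C(T) = ⊥ := by
    by_contra h0
    have k1 : R ≤ C(Q) := coprime_odd_faithful_Ohm1 hp h2 Qp cp.norm hR.pi fun x hx e => by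
      by_cases x1 : x = 1
      · exact x1 ▸ one_mem _
      exact C_anti hR.le (key _ (inf_le_left.trans QH.le) h0 Qp.inf_left
        (norm_inf (norm_pcore le_rfl) (norm_C (norm_pcore2 le_rfl))) x (QH.le hx)
        (have := Fact.mk hp; orderOf_eq_prime e x1)).2
    have k2 : T = Q := e1 ▸ sup_eq_left.2 ((le_inf RH k1).trans (hs.cent_pcore_le hO))
    obtain ⟨M, hM, M0, e⟩ := (hs.mim (f := coset Q)).exists_nml fun e =>
      ne (QH.le.antisymm ((quo_eq_bot_iff QH.norm).1 e))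
    rcases e with e | e
    · exact M0 (eq_bot_iff.2 (pcore_quo_pcore (π := {p}) (H := H) ▸ le_pcore hM e))
    · have := le_pcore hM e
      rw [← quo_pcore2, ← hT, k2, quo_self] at this
      exact M0 (eq_bot_iff.2 this)
  have Q0 : Q ≠ ⊥ := fun e => by
    have := hs.cent_pcore_le hO
    rw [← hQ, e, C_bot, inf_top_eq] at this
    exact ne (QH.le.antisymm (e ▸ this))
  have h4 := key _ (inf_le_left.trans QH.le) (Qp.nil.Z_ne_bot Q0) Qp.inf_left (norm_Z (norm_pcore le_rfl))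
  have h5 : Q ⊔ H ⊓ N(R) = H := by
    refine le_antisymm (sup_le QH.le inf_le_left) ?_
    conv_lhs => rw [← (hs.mono TH.le).compl.frattini_arg TH hR, ← e1]
    exact sup_le (sup_le_sup_left (le_inf RH le_N) _) le_sup_right
  rw [← h5, sup_comm, relIndex_sup_of_norm (inf_le_left.trans QH.norm)] at hd
  obtain ⟨x, hx, xp⟩ := cauchy hp (hd.trans relIndex_dvd)
  have k1 := h4 x hx.1 xp
  have k2 : x ∈ Q ⊓ C(R) := cp.inf_N ▸ ⟨k1.1, hx.2⟩
  have k3 : x ∈ Q ⊓ C(T) := ⟨k1.1, by rw [← e1, C_sup]; exact ⟨k1.2, k2.2⟩⟩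
  rw [h3, mem_bot] at k3
  rw [k3, orderOf_one] at xp
  exact hp.one_lt.ne xp

theorem amb {G : Type u} [Group G] [Finite G] {p : ℕ} (hp : p.Prime) (h2 : p ≠ 2) {H : Subgroup G}
    (hs : PiSep {p} H)
    (ht : ∀ x ∈ H, ∀ y ∈ H, orderOf x = p → orderOf y = p → ∃ a ∈ N(H), a * x * a⁻¹ ∈ zpowers y) :
    PL1 p H := by
  have WH : O[{p}ᶜ](H) ⊴ H := pcore_nml
  refine pl1_of_quo WH pcore_pi (core hp h2 hs.mim pcore_quo_pcore fun x hx y hy xp yp => ?_)
  have lift : ∀ x ∈ H ⫽ O[{p}ᶜ](H), orderOf x = p → ∃ z ∈ H, orderOf z = p ∧ cs O[{p}ᶜ](H) z = x :=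
    fun x hx xp => by
      obtain ⟨z, hz, zD, zp, e⟩ := exists_piElt_lift hx (π := {p}) (by rw [PiElt, xp]; exact piNat_self hp)
      refine ⟨z, hz, ?_, e⟩
      rw [← orderOf_mfun zD (by rw [mker_coset]; exact zp.zpowers.inf_eq_bot pcore_pi), e, xp]
  obtain ⟨x, hx', xp', rfl⟩ := lift x hx xp
  obtain ⟨y, hy', yp', rfl⟩ := lift y hy yp
  obtain ⟨a, ha, e⟩ := ht x hx' y hy' xp' yp'
  have aN := norm_pcore (π := {p}ᶜ) le_rfl ha
  refine ⟨cs _ a, mim_norm le_rfl (mfun_mem_mim ha), ?_⟩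
  rw [← mfun_conj aN (WH.norm hx'), ← mim_zpowers (WH.norm hy')]
  exact mfun_mem_mim e

/-- The Gaschütz–Yen Theorem: let G be a finite p-soluble group, p an odd prime dividing its order, such that the automorphism group of G permutes the subgroups of G of order p transitively. Then G has p-length at most 1. -/
theorem result {G : Type*} [Group G] [Finite G] {p : ℕ} [Fact p.Prime] (hp : p ≠ 2) (hdvd : p ∣ Nat.card G) (hG : Cfsg.IsPSolvable p G) (htrans : ∀ U V : Subgroup G, Nat.card U = p → Nat.card V = p → ∃ a : MulAut G, U.map a.toMonoidHom = V) : Cfsg.PLengthLE p 1 G := by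
  have hp' : p.Prime := Fact.out
  let φ : MulAut G →* MulAut G := MonoidHom.id _
  have h1 : PiSep {p} (hl φ ⊤) := by
    have := ((isPSolvable_iff_piSep hp').1 hG).mim (f := (inl (φ := φ)).comp (⊤ : Subgroup G).subtype)
    convert this using 1
    rw [mim, subgroupOf_self, ← map_map, ← MonoidHom.range_eq_map, subtype_range, hl]
  have h2 := amb hp' hp h1 fun x hx y hy xp yp => by
    obtain ⟨x, -, rfl⟩ := mem_hl.1 hx
    obtain ⟨y, -, rfl⟩ := mem_hl.1 hy
    rw [orderOf_inl] at xp yp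
    obtain ⟨a, e⟩ := htrans (zpowers x) (zpowers y) (card_zpowers'.trans xp) (card_zpowers'.trans yp)
    refine ⟨inr a, hr_norm_top (inr_mem_hr.2 (mem_top a)), ?_⟩
    rw [inr_conj_inl, ← hl_zpowers, inl_mem_hl, ← e]
    exact ⟨x, mem_zpowers x, rfl⟩
  let e := (hlEquiv φ ⊤).symm.trans topEquiv
  have h3 := h2.mim (f := e.toMonoidHom)
  rw [mim, subgroupOf_self, map_top_of_surjective _ e.surjective] at h3
  exact (pl1_top_iff hp').1 h3

end Cfsg.Agent.S3798
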