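import Cfsg.Statements.S3802
import Cfsg.Agent.H2.Subnormal

set_option autoImplicit false
open Cfsg

namespace Cfsg.Agent.S3802

/-- Let G be a finite group, M a maximal subgroup of G and N a subnormal subgroup of G contained in M. Then N is contained in every conjugate of M, that is, N lies in the core of M in G. -/
theorem result {G : Type*} [Group G] [Finite G] (M N : Subgroup G) (hM : IsCoatom M) (hN : N.IsSubnormal) (hNM : N ≤ M) :
    N ≤ Subgroup.normalCore M := by
  let S₀ : Set (Subgroup G) := {U | U.IsSubnormal ∧ U ≤ M}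
  have hK : (sSup S₀).IsSubnormal := H2.isSubnormal_sSup fun U hU => hU.1
  have hKM : sSup S₀ ≤ M := sSup_le fun U hU => hU.2
  have hMK : M ≤ Subgroup.normalizer ((sSup S₀ : Subgroup G) : Set G) :=
    H2.le_normalizer_sSup fun U hU k hk =>
      ⟨H2.subnIn_top_iff.mp ((H2.subnIn_top_iff.mpr hU.1).conj_of_mem (Subgroup.mem_top k)),
        H2.conj_le_of_mem hU.2 hk⟩
  have hn : (sSup S₀).Normal := by
    rw [← Subgroup.normalizer_eq_top_iff]
    by_contra hne
    have h1 : Subgroup.normalizer ((sSup S₀ : Subgroup G) : Set G) = M :=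
      ((hM.le_iff.mp hMK).resolve_left hne)
    obtain ⟨X, hX, hX0, hXn⟩ := H2.exists_normalizing_of_ssubset (K := ⊤) (S := {U | U.IsSubnormal}) (S₀ := S₀)
      (fun U hU => H2.subnIn_top_iff.mpr hU)
      (fun U hU g hg => H2.subnIn_top_iff.mp ((H2.subnIn_top_iff.mpr hU).conj_of_mem hg))
      ⟨fun U hU => hU.1, fun h => hM.1 (top_le_iff.mp (h Subgroup.IsSubnormal.top).2)⟩
    exact hX0 ⟨hX, h1 ▸ hXn⟩
  exact (le_sSup (show N ∈ S₀ from ⟨hN, hNM⟩)).trans (Subgroup.normal_le_normalCore.mpr hKM)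

end Cfsg.Agent.S3802
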