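import Cfsg.Statements.S3803
import Cfsg.Agent.H21.HSub

set_option autoImplicit false
open Cfsg

namespace Cfsg.Agent.S3803

open H18 H21 Subgroup

/-- Let P be a 2-subgroup and A a subgroup of odd order of a finite group, with A normalizing P. Let D ≤ P with 1 < |D| < |P|. If every subgroup of P of order |D|, and also every subgroup of P of order 4 in case |D| = 2, is normalized by A, then A centralizes P. -/
theorem result {X : Type*} [Group X] [Finite X] (P A D : Subgroup X) (hP : IsPGroup 2 P) (hA : Odd (Nat.card A))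
    (hAP : A ≤ Subgroup.normalizer (P : Set X)) (hDP : D ≤ P) (hD1 : 1 < Nat.card D) (hD2 : Nat.card D < Nat.card P)
    (hinv : ∀ E : Subgroup X, E ≤ P → (Nat.card E = Nat.card D ∨ (Nat.card D = 2 ∧ Nat.card E = 4)) → A ≤ Subgroup.normalizer (E : Set X)) :
    A ≤ Subgroup.centralizer (P : Set X) := by
  have hp := Nat.prime_two
  have hP' := piGrp_of_isPGroup hp hP
  have hA' : ¬ 2 ∣ Nat.card A := hA.not_two_dvd_nat
  exact cent_of_inv hp hP' hAP le_rfl ((piNat_compl_iff hp).2 hA') (triv_of_large hp hP' le_rfl fun q hq hd =>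
    lt_of_le_of_ne hq.two_le fun e => hA' (e ▸ hd)) (hP'.of_le hDP) hD1 hD2 hinv

end Cfsg.Agent.S3803
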