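import Cfsg.Statements.S3815
import Cfsg.Agent.H1.Cores

set_option autoImplicit false
open Cfsg

namespace Cfsg.Agent.S3815

/-- Let G be a finite group, p a prime and d ∈ G an element of order prime to p. If dg has order prime to p for every element g ∈ G of order prime to p, then d ∈ O_{p'}(G). -/
theorem result {G : Type*} [Group G] [Finite G] {p : ℕ} [Fact p.Prime]
    (d : G) (hd : (orderOf d).Coprime p)
    (h : ∀ g : G, (orderOf g).Coprime p → (orderOf (d * g)).Coprime p) :
    d ∈ Cfsg.pPrimeCore p G := by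
  have hpp : p.Prime := Fact.out
  let D₀ : Submonoid G :=
    { carrier := {x | ∀ g : G, (orderOf g).Coprime p → (orderOf (x * g)).Coprime p}
      one_mem' := fun g hg => by rwa [one_mul]
      mul_mem' := fun {a b} ha hb g hg => by rw [mul_assoc]; exact ha _ (hb g hg) }
  let D : Subgroup G :=
    { D₀ with
      inv_mem' := fun {a} ha => by
        have : a⁻¹ = a ^ (orderOf a - 1) := by
          rw [inv_eq_iff_mul_eq_one, ← pow_succ', Nat.sub_add_cancel (orderOf_pos a), pow_orderOf_eq_one]
        rw [this]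
        exact D₀.pow_mem ha _ }
  have : D.Normal := ⟨fun a ha x g hg => by
    have h1 := ha (x⁻¹ * g * x) (by
      rwa [show x⁻¹ * g * x = MulAut.conj x⁻¹ g by simp, MulEquiv.orderOf_eq])
    rwa [show x * a * x⁻¹ * g = MulAut.conj x (a * (x⁻¹ * g * x)) by simp [mul_assoc], MulEquiv.orderOf_eq]⟩
  refine H1.le_pPrimeCore (N := D) ?_ h
  rw [Nat.coprime_comm, hpp.coprime_iff_not_dvd]
  intro hd
  obtain ⟨x, hx, hx'⟩ := H1.exists_prime_orderOf_mem hpp hd
  have := hx 1 (by simp)
  rw [mul_one, hx', Nat.coprime_self] at this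
  exact hpp.ne_one this

end Cfsg.Agent.S3815
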