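import Cfsg.Statements.S3816
import Cfsg.Agent.H7.FixCop
import Mathlib.GroupTheory.SemidirectProduct

set_option autoImplicit false
open Cfsg

namespace Cfsg.Agent.S3816

open H5 H7

/-- Let p be an odd prime, H a finite solvable group of order prime to p, and x an automorphism of H of order p (so P = ⟨x⟩ has prime order p > 2 and acts coprimely on H). For h ∈ H let [h, P] be the subgroup generated by the commutators h⁻¹·xⁱ(h), and let [H, P] be the subgroup generated by all of these. Then the fixed points of x in [H, P] are generated by the fixed points of x in the subgroups [h, P], h ∈ H. -/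
theorem result {H : Type*} [Group H] [Finite H]
    [Group.IsSolvable H] {p : ℕ} [Fact p.Prime] (hp : p ≠ 2) (hcop : (Nat.card H).Coprime p)
    (x : MulAut H) (hx : orderOf x = p) :
    Subgroup.closure {c : H | ∃ h : H, ∃ i : ℕ, c = h⁻¹ * (x ^ i) h} ⊓ (x : H →* H).eqLocus (MonoidHom.id H) =
      ⨆ h : H, Subgroup.closure {c : H | ∃ i : ℕ, c = h⁻¹ * (x ^ i) h} ⊓ (x : H →* H).eqLocus (MonoidHom.id H) := by
  classical
  let φ : Subgroup.zpowers x →* MulAut H := (Subgroup.zpowers x).subtype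
  let Γ := H ⋊[φ] Subgroup.zpowers x
  haveI : Finite Γ := Finite.of_equiv _ SemidirectProduct.equivProd.symm
  let ι : H →* Γ := SemidirectProduct.inl
  let x0 : Subgroup.zpowers x := ⟨x, Subgroup.mem_zpowers x⟩
  let s : Γ := SemidirectProduct.inr x0
  have hι : Function.Injective ι := SemidirectProduct.inl_injective
  have hs : ∀ (i : ℕ) (h : H), s ^ i * ι h * (s ^ i)⁻¹ = ι ((x ^ i) h) := by
    intro i h
    have := SemidirectProduct.inl_aut (φ := φ) (x0 ^ i) h
    rw [map_inv, map_pow (SemidirectProduct.inr : _ →* Γ)] at this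
    exact this.symm
  have hos : orderOf s = p := by
    rw [orderOf_injective _ SemidirectProduct.inr_injective, ← hx]
    exact (Subgroup.orderOf_coe x0).symm
  haveI : ι.range.Normal := by
    rw [SemidirectProduct.range_inl_eq_ker_rightHom]; infer_instance
  have htop : ι.range ⊔ Subgroup.zpowers s = ⊤ := by
    rw [eq_top_iff]
    intro g _
    rw [← SemidirectProduct.inl_left_mul_inr_right g]
    refine Subgroup.mul_mem_sup ⟨_, rfl⟩ ?_
    obtain ⟨k, hk⟩ := Subgroup.mem_zpowers_iff.1 g.right.2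
    refine ⟨k, ?_⟩
    dsimp only
    rw [← map_zpow]
    congr 1
    exact Subtype.ext hk
  have hcm : ∀ h : H, cmS s (ι h) =
      (Subgroup.closure {c : H | ∃ i : ℕ, c = h⁻¹ * (x ^ i) h}).map ι := by
    intro h
    rw [MonoidHom.map_closure, cmS]
    congr 1
    ext c
    constructor
    · rintro ⟨i, rfl⟩
      exact ⟨_, ⟨i, rfl⟩, by rw [hs, map_mul, map_inv]⟩
    · rintro ⟨_, ⟨i, rfl⟩, rfl⟩
      exact ⟨i, by rw [hs, map_mul, map_inv]⟩
  have hce : ∀ h : H, ι h ∈ Subgroup.centralizer {s} ↔ x h = h := by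
    intro h
    have := hs 1 h
    simp only [pow_one] at this
    rw [Subgroup.mem_centralizer_singleton_iff, ← hι.eq_iff, ← this, mul_inv_eq_iff_eq_mul, eq_comm]
  have key := fix_cop ι.range s (hos ▸ (Fact.out : p.Prime).odd_of_ne_two hp)
    (by rwa [hos, ← Nat.card_congr (MonoidHom.ofInjective hι).toEquiv]) htop
  refine le_antisymm ?_ (iSup_le fun h => inf_le_inf_right _ (Subgroup.closure_mono ?_))
  · intro c hc
    have h1 : ι c ∈ ⨆ g ∈ ι.range, cmS s g := by
      have : Subgroup.closure {c : H | ∃ h : H, ∃ i : ℕ, c = h⁻¹ * (x ^ i) h} ≤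
          (⨆ g ∈ ι.range, cmS s g).comap ι := by
        refine (Subgroup.closure_le _).2 ?_
        rintro _ ⟨h, i, rfl⟩
        refine (le_iSup₂_of_le (f := fun g (_ : g ∈ ι.range) => cmS s g) (ι h) ⟨h, rfl⟩ le_rfl) ?_
        rw [hcm]
        exact Subgroup.mem_map_of_mem _ (Subgroup.subset_closure ⟨i, rfl⟩)
      exact this hc.1
    have h2 := key ⟨h1, (hce c).2 hc.2⟩
    have h3 : (⨆ g ∈ ι.range, cmS s g ⊓ Subgroup.centralizer {s}) ≤
        (⨆ h : H, Subgroup.closure {c : H | ∃ i : ℕ, c = h⁻¹ * (x ^ i) h} ⊓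
          (x : H →* H).eqLocus (MonoidHom.id H)).map ι := by
      refine iSup₂_le ?_
      rintro _ ⟨h, rfl⟩ y hy
      obtain ⟨hy1, hy2⟩ := hy
      rw [hcm] at hy1
      obtain ⟨z, hz, rfl⟩ := hy1
      refine Subgroup.mem_map_of_mem _ (Subgroup.mem_iSup_of_mem h ⟨hz, (hce z).1 hy2⟩)
    obtain ⟨z, hz, e⟩ := h3 h2
    exact hι e ▸ hz
  · rintro _ ⟨i, rfl⟩
    exact ⟨h, i, rfl⟩

end Cfsg.Agent.S3816
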