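import Cfsg.Statements.S3818
import Cfsg.Agent.H27.Fx4
import Cfsg.Agent.H4.PSol2

set_option autoImplicit false
open Cfsg

namespace Cfsg.Agent.S3818

open H26 H27 Subgroup

/-- Let G be a finite solvable group and P a subgroup of G of prime order p > 3 whose conjugates generate G. Let V be a faithful irreducible representation of G over a field of positive characteristic, finite-dimensional. Then the subspace of V fixed by P has dimension less than half the dimension of V. -/
theorem result {G : Type*} [Group G] [Finite G] [Group.IsSolvable G]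
    {p : ℕ} [Fact p.Prime] (hp : 3 < p) (P : Subgroup G) (hP : Nat.card P = p) (hgen : Subgroup.normalClosure (P : Set G) = ⊤)
    {k : Type*} [Field k] (ℓ : ℕ) [Fact ℓ.Prime] [CharP k ℓ]
    {V : Type*} [AddCommGroup V] [Module k V] [FiniteDimensional k V]
    (ρ : Representation k G V) [ρ.IsIrreducible] (hfaith : Function.Injective ρ) :
    2 * Module.finrank k ↥(⨅ g : ↥P, LinearMap.ker (ρ (g : G) - LinearMap.id)) < Module.finrank k V := by
  have hi : Fx.Irr ρ := fun U hU => by
    rcases eq_bot_or_eq_top (⟨U, fun g v hv => hU g v hv⟩ : Subrepresentation ρ) with h | h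
    · exact Or.inl (congrArg Subrepresentation.toSubmodule h)
    · exact Or.inr (congrArg Subrepresentation.toSubmodule h)
  have : Nontrivial V := by
    by_contra h
    rw [not_nontrivial_iff_subsingleton] at h
    exact (bot_ne_top (α := Subrepresentation ρ)) (Subrepresentation.toSubmodule_injective (Subsingleton.elim _ _))
  have hP1 : P ≠ ⊥ := fun e => by rw [e, card_bot] at hP; omega
  obtain ⟨⟨x, hxP⟩, hx1⟩ := ne_bot_iff_exists_ne_one.1 hP1
  have hz : ∀ g ∈ P, g ∈ zpowers x := fun g hg => by
    obtain ⟨i, hi⟩ := mem_zpowers_iff.1 (mem_zpowers_of_prime_card hP hx1 (g' := ⟨g, hg⟩))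
    exact ⟨i, congrArg Subtype.val hi⟩
  have hx : x ^ p = 1 := by
    have := pow_card_eq_one' (x := (⟨x, hxP⟩ : P))
    rw [hP] at this
    exact congrArg Subtype.val this
  have h4 : p ≠ 4 := by rintro rfl; exact absurd (Fact.out : Nat.Prime 4) (by norm_num)
  have hn : normalClosure {x} = ⊤ := by
    rw [eq_top_iff, ← hgen]
    exact normalClosure_le_normal fun g hg =>
      (zpowers_le (H := normalClosure {x})).2 (subset_normalClosure (Set.mem_singleton x)) (hz g hg)
  have h1 := Fx.half_faith (p := p) ℓ hi hfaith (by omega) hx (fun e => hx1 (Subtype.ext e)) hn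
  have h2 : (⨅ g : ↥P, LinearMap.ker (ρ (g : G) - LinearMap.id)) ≤ LinearMap.ker (ρ x - LinearMap.id) :=
    iInf_le (fun g : ↥P => LinearMap.ker (ρ (g : G) - LinearMap.id)) ⟨x, hxP⟩
  have h3 := Submodule.finrank_mono h2
  omega

end Cfsg.Agent.S3818
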