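import Cfsg.Statements.S3819
import Cfsg.Agent.H18.BG1

set_option autoImplicit false
open Cfsg

namespace Cfsg.Agent.S3819

open H18 H1 Subgroup
open scoped commutatorElement

/-- Let G be a finite group with Sylow p-subgroup P and H = O_{p'}(G), and suppose G = PH and the commutator subgroup [H, P] is solvable. Let q be a prime and z an element of q-power order of C_H(P). Then (O_{q'}(C_H(z)) ∩ O_{q'}(C_H(P))) · [O_{q'}(C_H(z)), P] ≤ O_{q'}(H). -/
theorem result {G : Type*} [Group G] [Finite G] {p : ℕ} [Fact p.Prime]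
    (P : Sylow p G) (hPH : Cfsg.pPrimeCore p G ⊔ (P : Subgroup G) = ⊤)
    (hsol : Group.IsSolvable ↥⁅Cfsg.pPrimeCore p G, (P : Subgroup G)⁆)
    {q : ℕ} [Fact q.Prime] (z : G) (hzH : z ∈ Cfsg.pPrimeCore p G) (hzP : z ∈ Subgroup.centralizer ((P : Subgroup G) : Set G))
    (hz : ∃ k : ℕ, orderOf z = q ^ k) :
    ((Cfsg.pPrimeCore q ↥(Cfsg.pPrimeCore p G ⊓ Subgroup.centralizer ({z} : Set G))).map
        (Cfsg.pPrimeCore p G ⊓ Subgroup.centralizer ({z} : Set G)).subtype ⊓
      (Cfsg.pPrimeCore q ↥(Cfsg.pPrimeCore p G ⊓ Subgroup.centralizer ((P : Subgroup G) : Set G))).map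
        (Cfsg.pPrimeCore p G ⊓ Subgroup.centralizer ((P : Subgroup G) : Set G)).subtype) ⊔
    ⁅(Cfsg.pPrimeCore q ↥(Cfsg.pPrimeCore p G ⊓ Subgroup.centralizer ({z} : Set G))).map
        (Cfsg.pPrimeCore p G ⊓ Subgroup.centralizer ({z} : Set G)).subtype, (P : Subgroup G)⁆ ≤
    (Cfsg.pPrimeCore q ↥(Cfsg.pPrimeCore p G)).map (Cfsg.pPrimeCore p G).subtype := by
  have hp : p.Prime := Fact.out
  have hq : q.Prime := Fact.out
  rw [pPrimeCore_map hq, pPrimeCore_map hq, pPrimeCore_map hq]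
  rw [pPrimeCore_eq hp] at hsol hzH ⊢
  set H := O[{p}ᶜ]((⊤ : Subgroup G)) with hH
  set K := ⁅H, (P : Subgroup G)⁆ with hK
  have hHn : H ⊴ ⊤ := pcore_nml
  have hcop : Cop (P : Subgroup G) H :=
    cop_p'core le_top (piGrp_of_isPGroup hp P.isPGroup')
  have hKH : K ⊴ H := ⟨comm_le_left (le_top.trans hHn.2), norm_comm_left⟩
  have hKt : K ⊴ ⊤ := ⟨le_top, by
    rw [← hPH, pPrimeCore_eq hp]
    exact sup_le norm_comm_left norm_comm_right⟩
  have hzq : PiElt {q} z := by
    obtain ⟨k, hk⟩ := hz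
    change PiNat _ _
    rw [hk]
    exact piNat_pow_self hq k
  have key : ∀ x ∈ O[{q}ᶜ](H ⊓ C1(z)), x ∈ O[{q}ᶜ](K ⊔ (zpowers z ⊔ zpowers x)) := by
    intro x hx
    have hx' := pcore_le hx
    have hs : Solv (K ⊔ (zpowers z ⊔ zpowers x)) :=
      Solv.sup hsol (Abel.sup abel_zpowers abel_zpowers (by
        rw [C_zpowers, zpowers_le]
        exact mem_C1_comm.mp hx'.2)).solv (hKt.nrm2 le_top)
    refine p'core_cent_pgroup hs (le_sup_left.trans le_sup_right) hzq.zpowers ?_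
    rw [C_zpowers]
    refine inf_pcore_le (inf_le_inf_right _ (sup_le hKH.1 (sup_le ?_ ?_))) ⟨⟨?_, hx'.2⟩, hx⟩
    · exact zpowers_le.mpr hzH
    · exact zpowers_le.mpr hx'.1
    · exact mem_sup_right (mem_sup_right (mem_zpowers x))
  have hO : O[{q}ᶜ](K) ⊴ ⊤ := hKt.pcore
  refine sup_le (fun x hx => ?_) (fun x hx => ?_)
  · haveI := hO.normal
    haveI := hKt.normal
    set Y := (C(K.map (QuotientGroup.mk' O[{q}ᶜ](K)))).comap (QuotientGroup.mk' O[{q}ᶜ](K)) with hY
    haveI : (K.map (QuotientGroup.mk' O[{q}ᶜ](K))).Normal :=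
      Normal.map inferInstance _ (QuotientGroup.mk'_surjective _)
    haveI : Y.Normal := Normal.comap inferInstance _
    have hYm : ∀ y, y ∈ Y ↔ ∀ k ∈ K, ⁅k, y⁆ ∈ O[{q}ᶜ](K) := by
      intro y
      rw [hY, mem_comap, mem_C]
      constructor
      · intro h k hk
        rw [← QuotientGroup.eq_one_iff]
        change QuotientGroup.mk' _ _ = 1
        rw [map_commutatorElement, commutatorElement_eq_one_iff_mul_comm]
        exact h _ ⟨k, hk, rfl⟩
      · rintro h _ ⟨k, hk, rfl⟩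
        rw [← commutatorElement_eq_one_iff_mul_comm, ← map_commutatorElement]
        exact (QuotientGroup.eq_one_iff _).mpr (h k hk)
    set W := O[{q}ᶜ](H ⊓ C((P : Subgroup G))) ⊓ Y with hW
    have h1 : O[{q}ᶜ](K) ⊔ W ≤ O[{q}ᶜ](H) := by
      refine le_pcore ⟨sup_le (pcore_le.trans hKH.1) (inf_le_left.trans (pcore_le.trans inf_le_left)),
        ?_⟩ (PiGrp.sup_norm' pcore_pi (PiGrp.inf_left pcore_pi) norm_of_normal)
      refine hcop.comm_sup.ge.trans (sup_le ?_ (norm_sup norm_of_normal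
        (norm_inf pcore_nml.2 norm_of_normal)))
      refine norm_of_comm_le (comm_sup_le' ((comm_le_right norm_of_normal).trans le_sup_left) ?_
        (le_norm le_sup_left) (le_norm le_sup_right))
      refine le_trans (commutator_le.mpr fun k hk y hy => (hYm y).mp hy.2 k hk) le_sup_left
    refine h1 (mem_sup_right ⟨hx.2, (hYm x).mpr fun k hk => ?_⟩)
    refine inf_pcore_le (le_sup_left (b := zpowers z ⊔ zpowers x)) ⟨?_, ?_⟩
    · exact comm_le_left (A := zpowers x) norm_of_normal (commutator_mem_commutator hk (mem_zpowers x))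
    · exact comm_le_right pcore_nml.2 (commutator_mem_commutator (mem_sup_left hk) (key x hx.1))
  · have h1 : x ∈ O[{q}ᶜ](H ⊓ C1(z)) :=
      comm_le_left (norm_pcore (norm_inf (le_top.trans hHn.2) (norm_C1 (le_C1_iff.mpr hzP)))) hx
    have h2 : x ∈ K := comm_mono (pcore_le.trans inf_le_left) le_rfl hx
    exact hKH.pcore_le_pcore (inf_pcore_le (le_sup_left (b := zpowers z ⊔ zpowers x)) ⟨h2, key x h1⟩)

end Cfsg.Agent.S3819
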