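import Cfsg.Statements.S3820
import Cfsg.Agent.H2.Conj

set_option autoImplicit false
open Cfsg

namespace Cfsg.Agent.S3820

open scoped Pointwise

/-- Call a subgroup H of G pronormal if H and gHg⁻¹ are conjugate inside ⟨H, gHg⁻¹⟩ for every g ∈ G. Let S ≤ H ≤ G be subgroups of a finite group with S pronormal in G (for instance S a Sylow subgroup). Then H is pronormal in G if and only if H and gHg⁻¹ are conjugate inside ⟨H, gHg⁻¹⟩ for every g ∈ N_G(S). In particular H is pronormal whenever N_G(S) ≤ H. -/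
theorem result {G : Type*} [Group G] [Finite G] (S H : Subgroup G) (hSH : S ≤ H)
    (hS : Cfsg.IsPronormal S) :
    Cfsg.IsPronormal H ↔
      ∀ g ∈ Subgroup.normalizer (S : Set G), ∃ w ∈ H ⊔ H.map (MulAut.conj g).toMonoidHom,
        H.map (MulAut.conj g).toMonoidHom = H.map (MulAut.conj w).toMonoidHom := by
  refine ⟨fun h g _ => h g, fun h g => ?_⟩
  simp only [Cfsg.IsPronormal, ← H2.conj_eq_map] at *
  obtain ⟨w, hw, e⟩ := hS g
  have hw' : w ∈ H ⊔ MulAut.conj g • H := sup_le_sup hSH (H2.conj_mono g hSH) hw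
  obtain ⟨u, hu, e'⟩ := h (w⁻¹ * g) (by rw [← H2.conj_eq_iff, ← H2.conj_conj, e, H2.conj_inv_conj])
  refine ⟨w * u, mul_mem hw' ((sup_le le_sup_left ?_ : _ ≤ H ⊔ MulAut.conj g • H) hu), ?_⟩
  · rw [← H2.conj_conj]
    exact H2.conj_le_of_mem le_sup_right (inv_mem hw')
  · rw [← H2.conj_conj, ← e', H2.conj_conj, mul_inv_cancel_left]

end Cfsg.Agent.S3820
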