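import Cfsg.Statements.S3821
import Cfsg.Agent.H2.Conj

set_option autoImplicit false
open Cfsg

namespace Cfsg.Agent.S3821

open scoped Pointwise

/-- Let A be a normal subgroup of the finite group G and H a subgroup of A. Then H is pronormal in G (H and gHg⁻¹ conjugate inside ⟨H, gHg⁻¹⟩ for every g ∈ G) if and only if H is pronormal in A and G = A · N_G(H). -/
theorem result {G : Type*} [Group G] [Finite G] (A H : Subgroup G) [A.Normal] (hHA : H ≤ A) :
    Cfsg.IsPronormal H ↔ (Cfsg.IsPronormal (H.subgroupOf A) ∧ A ⊔ Subgroup.normalizer (H : Set G) = ⊤) := by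
  simp only [Cfsg.IsPronormal, ← H2.conj_eq_map]
  have hle : ∀ g : G, H ⊔ MulAut.conj g • H ≤ A := fun g => sup_le hHA (H2.conj_le_of_normal g hHA)
  have key : ∀ a w : A, (w ∈ H.subgroupOf A ⊔ MulAut.conj a • H.subgroupOf A ∧
      MulAut.conj a • H.subgroupOf A = MulAut.conj w • H.subgroupOf A) ↔
      ((w : G) ∈ H ⊔ MulAut.conj (a : G) • H ∧ MulAut.conj (a : G) • H = MulAut.conj (w : G) • H) := by
    intro a w
    rw [← H2.conj_subgroupOf, ← H2.conj_subgroupOf,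
      ← Subgroup.subgroupOf_sup hHA (H2.conj_le_of_normal _ hHA), Subgroup.mem_subgroupOf,
      Subgroup.subgroupOf_inj, inf_eq_left.mpr (H2.conj_le_of_normal _ hHA),
      inf_eq_left.mpr (H2.conj_le_of_normal _ hHA)]
  constructor
  · intro h
    refine ⟨fun a => ?_, eq_top_iff.mpr fun g _ => ?_⟩
    · obtain ⟨w, hw, e⟩ := h a
      exact ⟨⟨w, hle _ hw⟩, (key _ _).mpr ⟨hw, e⟩⟩
    · obtain ⟨w, hw, e⟩ := h g
      rw [← mul_inv_cancel_left w g]
      refine Subgroup.mul_mem_sup (hle _ hw) ?_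
      rw [← H2.conj_eq_iff, ← H2.conj_conj, e, H2.conj_inv_conj]
  · rintro ⟨h1, h2⟩ g
    have hg : g ∈ A ⊔ Subgroup.normalizer (H : Set G) := h2 ▸ Subgroup.mem_top g
    rw [← SetLike.mem_coe, Subgroup.normal_mul] at hg
    obtain ⟨a, ha, n, hn, rfl⟩ := hg
    obtain ⟨w, hw⟩ := h1 ⟨a, ha⟩
    refine ⟨w, ?_⟩
    rw [← H2.conj_conj, H2.conj_eq_of_mem_normalizer hn]
    exact (key ⟨a, ha⟩ w).mp hw

end Cfsg.Agent.S3821
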