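import Cfsg.Statements.S3825
import Mathlib
import Cfsg.Agent.H1.Basic

set_option autoImplicit false
open Cfsg

namespace Cfsg.Agent.S3825

open scoped commutatorElement

/-- Let U be a subgroup of a finite group H and w an involution of H normalizing U and commuting with exactly two elements of U, the identity and y. If V is a non-cyclic elementary abelian 2-subgroup of U containing y which is normal in U and invariant under w, then V is a Sylow 2-subgroup of U, V has order 4, and U/V is abelian. -/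
theorem result {H : Type*} [Group H] [Finite H] (U : Subgroup H) (w : H) (hw : orderOf w = 2)
    (hwU : w ∈ Subgroup.normalizer (U : Set H)) (y : H) (hy : y ≠ 1) (hyU : y ∈ U)
    (hfix : ∀ u ∈ U, w * u * w⁻¹ = u ↔ (u = 1 ∨ u = y))
    (V : Subgroup H) (hVU : V ≤ U) (hVn : (V.subgroupOf U).Normal) (hVw : ∀ v ∈ V, w * v * w⁻¹ ∈ V)
    (hVe : Cfsg.IsElementaryAbelian 2 V) (hVc : ¬ IsCyclic ↥V) (hyV : y ∈ V) :
    ¬ 2 ∣ V.relIndex U ∧ Nat.card ↥V = 4 ∧ ⁅U, U⁆ ≤ V := by
  have hw2 : w * w = 1 := by rw [← sq, ← hw, pow_orderOf_eq_one]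
  have hww : ∀ x : H, w * (w * x * w⁻¹) * w⁻¹ = x := fun x => by
    calc _ = (w * w) * x * (w * w)⁻¹ := by group
      _ = x := by rw [hw2]; simp
  have hsq : ∀ v ∈ V, v * v = 1 := fun v hv => by rw [← sq]; exact hVe.2 v hv
  have hcomm := H1.isMulCommutative_iff.mp hVe.1
  have hker : V ⊓ Subgroup.centralizer {w} = Subgroup.zpowers y := by
    apply le_antisymm
    · rintro v ⟨hv, hv'⟩
      rcases (hfix v (hVU hv)).mp (by
        rw [← Subgroup.mem_centralizer_singleton_iff.mp hv', mul_inv_cancel_right]) with rfl | rfl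
      · exact one_mem _
      · exact Subgroup.mem_zpowers _
    · rw [Subgroup.zpowers_le]
      exact ⟨hyV, Subgroup.mem_centralizer_singleton_iff.mpr
        (mul_inv_eq_iff_eq_mul.mp ((hfix y hyU).mpr (Or.inr rfl))).symm⟩
  have hoy : orderOf y = 2 := orderOf_eq_prime (hVe.2 y hyV) hy
  have hf : ∀ v ∈ V, v * (w * v * w⁻¹) = 1 ∨ v * (w * v * w⁻¹) = y := fun v hv =>
    (hfix _ (hVU (mul_mem hv (hVw v hv)))).mp (by
      rw [← conj_mul, hww, hcomm _ (hVw v hv) v hv])
  obtain ⟨x, hx, hxy⟩ : ∃ x ∈ V, x ∉ Subgroup.zpowers y := by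
    by_contra! h
    exact hVc (isCyclic_of_injective _ (Subgroup.inclusion_injective h))
  have hx' : w * x * w⁻¹ = x * y := by
    rcases hf x hx with h | h
    · exfalso
      apply hxy
      rw [← hker]
      refine ⟨hx, Subgroup.mem_centralizer_singleton_iff.mpr ?_⟩
      rw [← hsq x hx, mul_right_inj, mul_inv_eq_iff_eq_mul] at h
      exact h.symm
    · rw [← h, ← mul_assoc, hsq x hx, one_mul]
  let φ : U →* U := (U.normalizerMonoidHom ⟨w, hwU⟩).toMonoidHom
  let ψ : U ⧸ V.subgroupOf U →* U ⧸ V.subgroupOf U := QuotientGroup.map _ _ φ fun v hv => hVw v hv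
  have hψ : MonoidHom.FixedPointFree ψ := by
    intro q hq
    obtain ⟨⟨u, hu⟩, rfl⟩ := QuotientGroup.mk_surjective q
    rw [QuotientGroup.eq_one_iff]
    have h1 : u⁻¹ * (w * u * w⁻¹) ∈ V :=
      QuotientGroup.eq (s := V.subgroupOf U) (a := ⟨u, hu⟩) (b := φ ⟨u, hu⟩) |>.mp hq.symm
    have h2 := hf _ h1
    have h3 : u⁻¹ * (w * u * w⁻¹) * (w * (u⁻¹ * (w * u * w⁻¹)) * w⁻¹) = 1 := by
      calc _ = u⁻¹ * (w * (w * u * w⁻¹) * w⁻¹) := by group
        _ = 1 := by rw [hww, inv_mul_cancel]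
    rw [← hsq _ h1, mul_right_inj] at h3
    have hV : ∀ z ∈ U, w * z * w⁻¹ = z → z ∈ V := fun z hz h => by
      rcases (hfix z hz).mp h with rfl | rfl
      · exact one_mem _
      · exact hyV
    rcases (hfix _ (hVU h1)).mp h3 with h | h
    · exact hV u hu (inv_mul_eq_one.mp h).symm
    · show u ∈ V
      refine (V.mul_mem_cancel_right hx).mp (hV _ (mul_mem hu (hVU hx)) ?_)
      rw [← conj_mul, hx', inv_mul_eq_iff_eq_mul.mp h, hcomm x hx y hyV, mul_assoc, ← mul_assoc y, hsq y hyV,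
        one_mul]
  have hψ2 : Function.Involutive ψ := by
    intro q
    obtain ⟨⟨u, hu⟩, rfl⟩ := QuotientGroup.mk_surjective q
    exact congrArg QuotientGroup.mk (Subtype.ext (hww u))
  refine ⟨?_, ?_, ?_⟩
  · rw [← even_iff_two_dvd, Nat.not_even_iff_odd]
    exact hψ.odd_card_of_involutive hψ2
  · have h1 : (Subgroup.zpowers y).relIndex V = 2 := by
      rw [Subgroup.relIndex, Subgroup.index_eq_two_iff]
      refine ⟨⟨x, hx⟩, fun ⟨b, hb⟩ => ?_⟩
      have hm : ∀ v ∈ V, v ∈ Subgroup.zpowers y ↔ w * v * w⁻¹ = v := fun v hv => by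
        rw [← hker, Subgroup.mem_inf, Subgroup.mem_centralizer_singleton_iff, mul_inv_eq_iff_eq_mul]
        exact ⟨fun h => h.2.symm, fun h => ⟨hv, h.symm⟩⟩
      simp only [Subgroup.mem_subgroupOf, MulMemClass.mk_mul_mk]
      rw [hm _ (mul_mem hb hx), hm _ hb, ← conj_mul, hx']
      have h0 : ∀ v ∈ V, v * y ≠ v := fun v _ h => hy (by simpa using h)
      rcases hf b hb with h | h
      · have h' : w * b * w⁻¹ = b := by rw [← hsq b hb, mul_right_inj] at h; exact h
        rw [h']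
        refine Or.inr ⟨rfl, fun h2 => ?_⟩
        rw [mul_right_inj] at h2
        exact h0 x hx h2
      · have h' : w * b * w⁻¹ = b * y := by rw [← h, ← mul_assoc, hsq b hb, one_mul]
        rw [h']
        refine Or.inl ⟨?_, h0 b hb⟩
        rw [hcomm x hx y hyV, mul_assoc, ← mul_assoc y, hsq y hyV, one_mul]
    rw [← H1.card_mul_relIndex (Subgroup.zpowers_le.mpr hyV), h1, Nat.card_zpowers, hoy]
  · rw [Subgroup.commutator_le]
    intro a ha b hb
    have := (hψ.commute_all_of_involutive hψ2 ((⟨a, ha⟩ : U) : U ⧸ V.subgroupOf U) (⟨b, hb⟩ : U)).commutator_eq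
    exact (QuotientGroup.eq_one_iff (N := V.subgroupOf U) ⁅(⟨a, ha⟩ : U), ⟨b, hb⟩⁆).mp this

end Cfsg.Agent.S3825
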