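import Cfsg.Statements.S3835
import Cfsg.Agent.H21.Alt
import Cfsg.Agent.H27.Qd

set_option autoImplicit false
open Cfsg

namespace Cfsg.Agent.S3835

open H18 H21 Subgroup Equiv H27

theorem not_inv {p : ℕ} [Fact p.Prime] {n : ℕ} (h : n < p ^ 2) :
    ¬ Cfsg.Involves ↥(Cfsg.qd p) ↥(alternatingGroup (Fin n)) := fun c => by
  have hp : p.Prime := Fact.out
  obtain ⟨T, -, h1, h2⟩ := (H4.involves_subgroup_iff.1 c).exists_isPGroup isPGroup_qdS fun e => by
    have := congrArg Subtype.val (e.1.1 ⟨_, 1, 0, 0, rfl⟩ ⟨_, 0, 0, 1, rfl⟩)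
    simp only [coe_mul, qu_mul, qe_eq_iff] at this
    simp at this
  exact h2 (abel_of_card_lt_sq hp (piGrp_of_isPGroup hp h1) (by simpa using h)).comm

def S (p : ℕ) : SubMulAction (qd p) (Fin 3 → ZMod p) where
  carrier := {v | v 2 = 1}
  smul_mem' := fun g v hv => by
    obtain ⟨a, b, c, d, x, y, h, rfl⟩ := exists_qe g
    have hv : v 2 = 1 := hv
    show (Matrix.mulVec _ v) 2 = 1
    simp [qe, Matrix.mulVec, dotProduct, Fin.sum_univ_three, hv]

/-- Let p be an odd prime and n a natural number. The alternating group of degree n has a subgroup isomorphic to Qd(p) (the natural semidirect product of an elementary abelian group of order p² by SL₂(p)) if and only if n ≥ p²; and if n < p² then Qd(p) is not even involved in it. -/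
theorem result {p : ℕ} [Fact p.Prime] (hp : p ≠ 2) (n : ℕ) : ((∃ H : Subgroup (alternatingGroup (Fin n)), Nonempty (↥H ≃* ↥(Cfsg.qd p))) ↔ p ^ 2 ≤ n) ∧ (n < p ^ 2 → ¬ Cfsg.Involves ↥(Cfsg.qd p) ↥(alternatingGroup (Fin n))) := by
  classical
  have hp' : p.Prime := Fact.out
  refine ⟨⟨fun ⟨H, ⟨e⟩⟩ => by_contra fun c => not_inv (not_le.1 c) ⟨H, ⊥, inferInstance, ⟨?_⟩⟩, fun h => ?_⟩, not_inv⟩
  · exact ((QuotientGroup.quotientMulEquivOfEq (by simp)).trans QuotientGroup.quotientBot).trans e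
  have odd : ∀ (u : ℤˣ) k, u ^ p ^ k = 1 → u = 1 := fun u k e => by
    rwa [Int.units_pow_eq_pow_mod_two, Nat.odd_iff.1 (hp'.odd_of_ne_two hp).pow, pow_one] at e
  have := Fintype.ofFinite (S p)
  refine (exists_alt_hom (β := Fin n) (MulAction.toPermHom (qd p) (S p)) ?_ ?_ ?_).elim fun f hf =>
    ⟨f.range, ⟨(MonoidHom.ofInjective hf).symm⟩⟩
  · refine (injective_iff_map_eq_one _).2 fun g hg => ?_
    obtain ⟨a, b, c, d, x, y, h, rfl⟩ := exists_qe g
    have e : ∀ v : Fin 3 → ZMod p, v 2 = 1 → Matrix.mulVec (qe a b c d x y h).1.1 v = v := fun v hv =>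
      congrArg Subtype.val (Equiv.ext_iff.1 hg ⟨v, hv⟩)
    have e1 := e ![0, 0, 1] rfl
    have e2 := e ![1, 0, 1] rfl
    have e3 := e ![0, 1, 1] rfl
    rw [qe_one, qe_eq_iff]
    simp [qe, funext_iff, Fin.forall_fin_succ, Matrix.mulVec, dotProduct, Fin.sum_univ_three] at e1 e2 e3
    simp_all
  · intro g
    set χ := Perm.sign.comp (MulAction.toPermHom (qd p) (S p))
    obtain ⟨v, A, e⟩ := H4.mem_qd_iff.1 g.2
    have : g = (H4.qdT _).codRestrict _ H4.qdT_mem v * (H4.qdL _).codRestrict _ H4.qdL_mem A := Subtype.ext e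
    show χ g = 1
    rw [this, map_mul, odd (χ _) 1 (by
      rw [← map_pow, ← map_pow, show v ^ p ^ 1 = 1 from Multiplicative.toAdd.injective (by ext i; simp), map_one,
        map_one]), one_mul]
    have : pElementClosure p ⊤ ≤ (χ.comp ((H4.qdL _).codRestrict _ H4.qdL_mem)).ker := by
      refine (closure_le _).2 ?_
      rintro B ⟨-, k, hk⟩
      exact odd _ k (by rw [← map_pow, ← hk, pow_orderOf_eq_one, map_one])
    exact this (H4.pElementClosure_SL2.ge (mem_top A))
  · let e : S p ≃ ZMod p × ZMod p :=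
      ⟨fun v => (v.1 0, v.1 1), fun w => ⟨![w.1, w.2, 1], rfl⟩, fun v => Subtype.ext (by
        ext i; fin_cases i <;> first | rfl | exact v.2.symm), fun w => rfl⟩
    rw [Fintype.card_congr e]
    simpa [pow_two] using h

end Cfsg.Agent.S3835
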