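import Cfsg.Statements.S3836
import Cfsg.Agent.H1.Cores

set_option autoImplicit false
open Cfsg

namespace Cfsg.Agent.S3836

/-- Let G be a finite group that is p-stable in the normalizer form: for every p-subgroup Q and every x ∈ N_G(Q) with [Q, x, x] = 1, the image of x in N_G(Q)/C_G(Q) lies in O_p(N_G(Q)/C_G(Q)). Then every subgroup of G is p-stable in the same sense. -/
theorem result {G : Type*} [Group G] [Finite G] {p : ℕ} [Fact p.Prime] (hst : Cfsg.IsNormalizerPStable p G) (H : Subgroup G) : Cfsg.IsNormalizerPStable p ↥H := by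
  intro P hP g hg h
  let P' := P.map H.subtype
  have hN : ∀ x : H, x ∈ Subgroup.normalizer (P : Set H) → (x : G) ∈ Subgroup.normalizer (P' : Set G) :=
    fun x hx => Subgroup.le_normalizer_map H.subtype ⟨x, hx, rfl⟩
  have h1 := hst P' (hP.map _) g (hN g hg) (by
    rw [← H.subtype_apply, ← MonoidHom.map_zpowers, ← Subgroup.map_commutator, ← Subgroup.map_commutator, h,
      Subgroup.map_bot])
  let f0 : Subgroup.normalizer (P : Set H) →* Subgroup.normalizer (P' : Set G) :=
    (H.subtype.comp (Subgroup.subtype _)).codRestrict _ fun x => hN x x.2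
  have hc : ∀ x : Subgroup.normalizer (P : Set H), (x : H) ∈ Subgroup.centralizer (P : Set H) ↔
      (f0 x : G) ∈ Subgroup.centralizer (P' : Set G) := fun x =>
    ⟨by rintro hx _ ⟨y, hy, rfl⟩; exact congrArg Subtype.val (hx y hy),
      fun hx y hy => Subtype.ext (hx y ⟨y, hy, rfl⟩)⟩
  let f := QuotientGroup.map ((Subgroup.centralizer (P : Set H)).subgroupOf _)
    ((Subgroup.centralizer (P' : Set G)).subgroupOf _) f0 fun x hx => (hc x).mp hx
  have hf : f.ker = ⊥ := by
    rw [eq_bot_iff]
    intro q hq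
    obtain ⟨x, rfl⟩ := QuotientGroup.mk_surjective q
    exact (QuotientGroup.eq_one_iff x).mpr ((hc x).mpr ((QuotientGroup.eq_one_iff (f0 x)).mp hq))
  exact H1.comap_pCore_le (f := f) (hf ▸ IsPGroup.of_bot) h1

end Cfsg.Agent.S3836
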