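import Cfsg.Statements.S3838
import Cfsg.Agent.H3.Frobenius
import Cfsg.Agent.H3.Tate

set_option autoImplicit false
open Cfsg

open Subgroup H3

namespace Cfsg.Agent.S3838

theorem aux {G : Type*} [Group G] [Finite G] {p : ℕ} [Fact p.Prime] (P : Sylow p G)
    (hN : HasNormalPComplement p (normalizer ((P : Subgroup G) : Set G))) (Q : Subgroup G) [Q.Normal]
    (h1 : ∀ x ∈ P, ∀ y ∈ P, x * y * x⁻¹ * y⁻¹ ∈ Q) (h2 : Q ≤ (frattini P).map (P : Subgroup G).subtype) :
    HasNormalPComplement p G := by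
  refine hasNormalPComplement_of_le_frattini P ((le_inf (pResidual_inf_le_commutator P.isPGroup') inf_le_right).trans
    ((commutator_inf_sylow_le P fun x hx g hg => ?_).trans h2))
  let π := QuotientGroup.mk' Q
  have k : ∀ x ∈ P, ∀ y ∈ P, π x * π y = π y * π x := fun x hx y hy => by
    have := (QuotientGroup.eq_one_iff _).2 (h1 x hx y hy)
    simpa [mul_inv_eq_iff_eq_mul, π] using this
  obtain ⟨n, hn, h, hh, e⟩ := exists_normalizer_mul_of_sylow_le (g := g⁻¹) P
    (H := (centralizer {π (g * x * g⁻¹)}).comap π) (fun y hy => mem_centralizer_singleton_iff.2 (k y hy _ hg))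
    fun y hy => mem_centralizer_singleton_iff.2 (by
      simp only [inv_inv, map_mul, map_inv, conj_mul, k y hy x hx])
  obtain ⟨_, ⟨c, hc, rfl⟩, u, hu, rfl⟩ := exists_map_subtype_pResidual_mul
    (isSylowIn_of_le P le_normalizer).not_dvd hn
  have h3 := mem_centralizer_of_hasNormalPComplement_subgroup hN le_normalizer P.isPGroup' c.2 c.2
    (by rw [orderOf_coe]; exact (mem_pResidual_iff_of_hasNormalPComplement hN).1 hc)
  rw [← QuotientGroup.eq]
  change π x = π _
  have e1 : π x = π c * (π u * (π h * π (g * x * g⁻¹) * (π h)⁻¹) * (π u)⁻¹) * (π c)⁻¹ := by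
    have := congrArg π e
    simp only [map_mul, map_inv, coe_subtype] at this ⊢
    calc _ = (π g)⁻¹ * (π g * π x * (π g)⁻¹) * (π g)⁻¹⁻¹ := by group
      _ = _ := by nth_rewrite 1 [this]; nth_rewrite 2 [this]; group
  rw [e1, mem_centralizer_singleton_iff.1 hh, mul_inv_cancel_right, k u hu.1 _ hg, mul_inv_cancel_right, ← map_mul,
    ← h3 _ hg, map_mul, mul_inv_cancel_right]

/-- Let G be a finite group with Sylow p-subgroup P such that N_G(P) has a normal p-complement. Then N_G(Q) has a normal p-complement for every subgroup Q with [P, P] ≤ Q ≤ Φ(P). -/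
theorem result {G : Type*} [Group G] [Finite G] {p : ℕ} [Fact p.Prime] (P : Sylow p G) (hN : Cfsg.HasNormalPComplement p ↥(Subgroup.normalizer ((P : Subgroup G) : Set G))) (Q : Subgroup G) (h1 : (commutator ↥(P : Subgroup G)).map (P : Subgroup G).subtype ≤ Q) (h2 : Q ≤ (frattini ↥(P : Subgroup G)).map (P : Subgroup G).subtype) : Cfsg.HasNormalPComplement p ↥(Subgroup.normalizer (Q : Set G)) := by
  have k : ∀ x ∈ P, ∀ y ∈ P, x * y * x⁻¹ * y⁻¹ ∈ Q := fun x hx y hy =>
    h1 ⟨_, commutator_mem_commutator (mem_top (⟨x, hx⟩ : (P : Subgroup G))) (mem_top ⟨y, hy⟩), rfl⟩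
  have hP : (P : Subgroup G) ≤ normalizer (Q : Set G) := le_normalizer_of_forall_conj_mem fun g hg x hx => by
    simpa using mul_mem (k g hg x (map_subtype_le _ (h2 hx))) hx
  refine aux (P.subtype hP) (hasNormalPComplement_of_injective (((normalizer (Q : Set G)).subtype.comp
    (Subgroup.subtype _)).codRestrict _ fun x => mem_normalizer_of_forall_conj_mem fun y hy =>
      conj_mem_of_mem_normalizer x.2 (x := ⟨y, hP hy⟩) hy) ((MonoidHom.injective_codRestrict _ _ _).2
      (Subtype.val_injective.comp Subtype.val_injective)) hN) (Q.subgroupOf _) (fun x hx y hy => k _ hx _ hy)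
    fun x hx => ?_
  obtain ⟨u, hu, e⟩ := h2 hx
  exact ⟨(subgroupOfEquivOfLe hP).symm u, frattini_le_comap_frattini_of_surjective
    (φ := (subgroupOfEquivOfLe hP).symm.toMonoidHom) (MulEquiv.surjective _) hu, Subtype.ext e⟩

end Cfsg.Agent.S3838
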