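import Cfsg.Statements.S3839
import Cfsg.Agent.H22.Dih

set_option autoImplicit false
open Cfsg

open H18 Subgroup

namespace Cfsg.Agent.S3839

section
variable {G : Type*} [Group G] [Finite G] {Q U K : Subgroup G} {p : ℕ} {g k n : G}

/-- the elements acting trivially on `Q / U` -/
def St (Q U : Subgroup G) (h : N(Q) ≤ N(U)) : Subgroup G where
  carrier := {x | x ∈ N(Q) ∧ ∀ q ∈ Q, x * q * x⁻¹ * q⁻¹ ∈ U}
  one_mem' := ⟨one_mem _, fun q _ => by simp⟩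
  mul_mem' {a b} ha hb := ⟨mul_mem ha.1 hb.1, fun q hq => by
    simpa [mul_assoc] using mul_mem (conj_mem h ha.1 (hb.2 q hq)) (ha.2 q hq)⟩
  inv_mem' {a} ha := ⟨inv_mem ha.1, fun q hq => by
    simpa [mul_assoc] using inv_mem (ha.2 _ (conj_mem_N' ha.1 hq))⟩

theorem St_nml (h : N(Q) ≤ N(U)) : St Q U h ⊴ N(Q) :=
  ⟨fun _ hx => hx.1, fun g hg => mem_N_of_finite fun x hx =>
    ⟨mul_mem (mul_mem hg hx.1) (inv_mem hg), fun q hq => by
      simpa [mul_assoc] using conj_mem h hg (hx.2 _ (conj_mem_N' hg hq))⟩⟩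

omit [Finite G] in
theorem pow_mul_mem (hk : k ∈ K) (hn : n ∈ N(K)) (m : ℕ) : (k * n) ^ m * (n ^ m)⁻¹ ∈ K := by
  induction m with
  | zero => simp
  | succ m ih => simpa [pow_succ', mul_assoc] using mul_mem hk (conj_mem_N hn ih)

end

/-- A Frobenius normal p-complement criterion relative to a strongly closed subgroup. Let G be a finite group, S a Sylow p-subgroup and D a subgroup of S strongly closed in S with respect to G. Then G has a normal p-complement if and only if N_G(U) has a normal p-complement for every subgroup U of D with C_D(U) ≤ U. -/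
theorem result {G : Type*} [Group G] [Finite G] {p : ℕ} [Fact p.Prime] (S : Sylow p G) (D : Subgroup G) (hD : Cfsg.IsStronglyClosed D (S : Subgroup G)) : Cfsg.HasNormalPComplement p G ↔ ∀ U : Subgroup G, U ≤ D → D ⊓ Subgroup.centralizer (U : Set G) ≤ U → Cfsg.HasNormalPComplement p ↥(Subgroup.normalizer (U : Set G)) := by
  have hp : p.Prime := Fact.out
  refine ⟨fun h U _ _ => H3.hasNormalPComplement_subgroup h _, fun h => ?_⟩
  refine (hasNormalPComplement_top_iff' hp).2 (H22.nilp_of_frob hp fun Q₀ _ h0 g₀ _ h1 h2 => ?_)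
  by_contra h3
  obtain ⟨Q₁, ⟨a1, g₁, a2, a3, a4⟩, hm⟩ := exists_max_card
    (fun Q : Subgroup G => PiGrp {p} Q ∧ ∃ g ∈ N(Q), PiElt {p}ᶜ g ∧ g ∉ C(Q)) ⟨h0, g₀, h1, h2, h3⟩
  have hS := hall_sylow_top hp S
  obtain ⟨R₁, hR, b1⟩ := exists_sylow_le hp a1 (le_N (H := Q₁))
  obtain ⟨c, -, hc⟩ := sylow_le_cj hp hS hR.pi le_top
  obtain ⟨Q, R, g, pQ, hR, QR, RS, gN, pg, gC, e⟩ : ∃ (Q R : Subgroup G) (g : G), PiGrp {p} Q ∧ Hall {p} R N(Q) ∧ Q ≤ R ∧
      R ≤ S ∧ g ∈ N(Q) ∧ PiElt {p}ᶜ g ∧ g ∉ C(Q) ∧ Nat.card Q₁ = Nat.card Q :=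
    ⟨cj c Q₁, cj c R₁, c * g₁ * c⁻¹, a1.cj c, by rw [← cj_N]; exact hR.cj c, cj_mono b1, hc,
      by rw [← cj_N]; exact conj_mem_cj a2, a3.conj c, by rwa [← cj_C, conj_mem_cj_iff], card_cj.symm⟩
  rw [e] at hm
  have QS := QR.trans RS
  have nD : (S : Subgroup G) ≤ N(D) := fun s hs => mem_N_of_finite fun x hx =>
    hD.2 x hx s (mul_mem (mul_mem hs (hD.1 hx)) (inv_mem hs))
  have nU : N(Q) ≤ N(Q ⊓ D) := fun s hs => mem_N_of_finite fun x hx =>
    ⟨conj_mem_N hs hx.1, hD.2 x hx.2 s (QS (conj_mem_N hs hx.1))⟩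
  have hK := (St_nml nU).inf (nml_cent nU)
  set K := St Q (Q ⊓ D) nU ⊓ (N(Q) ⊓ C(Q ⊓ D))
  have hT := hR.inf_nml hK
  by_cases TQ : R ⊓ K ≤ Q
  · have nW : Q ≤ N(D ⊓ C(Q ⊓ D)) := norm_inf (QS.trans nD) (norm_C (le_N.trans nU))
    have WQ : D ⊓ C(Q ⊓ D) ≤ Q := by
      refine le_sup_right.trans ((hS.pi.of_le (sup_le QS (inf_le_left.trans hD.1))).nil.eq_of_norm_le
        le_sup_left fun x hx => ?_).ge
      obtain ⟨q, hq, w, hw, rfl⟩ := (mem_sup_of_norm nW).1 hx.1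
      have wN : w ∈ N(Q) := (mul_mem_cancel_left (le_N hq)).1 hx.2
      refine mul_mem hq (TQ ⟨?_, ⟨wN, fun y hy => ⟨Q.mul_mem (conj_mem_N wN hy) (Q.inv_mem hy), ?_⟩⟩, wN, hw.2⟩)
      · exact (hR.eq_of_le (K := S ⊓ N(Q)) (le_inf RS hR.le) inf_le_right
          (hS.pi.of_le inf_le_left)).le ⟨hD.1 hw.1, wN⟩
      · simpa [mul_assoc] using mul_mem hw.1 (conj_mem nD (QS hy) (D.inv_mem hw.1))
    have := (hasNormalPComplement_iff hp).1 (h _ inf_le_right (le_inf WQ inf_le_left))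
    have gO := this.mem_of_nml pcore_nml.norm (nU gN) pg
    refine gC (mem_C.2 fun y hy => ?_)
    have : y⁻¹ * (g * y * g⁻¹) ∈ Q ⊓ O[{p}ᶜ](N(Q ⊓ D)) := ⟨Q.mul_mem (Q.inv_mem hy) (conj_mem_N gN hy), by
      simpa [mul_assoc] using mul_mem (conj_mem' pcore_nml.norm (nU (le_N hy)) gO) (inv_mem gO)⟩
    rw [pQ.inf_eq_bot pcore_pi, mem_bot, inv_mul_eq_one, eq_mul_inv_iff_mul_eq] at this
    exact this
  obtain ⟨k, hk, n, hn, rfl⟩ := frattini_elt hp hT (hK.norm gN)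
  have nN : n ∈ N(Q) := (mul_mem_cancel_left (hK.le hk)).1 gN
  have b2 : piPart {p}ᶜ n ∈ C(Q) := by
    by_contra c
    refine TQ (le_sup_right.trans (eq_of_le_of_card_ge le_sup_left (hm (Q ⊔ R ⊓ K)
      ⟨hR.pi.of_le (sup_le QR inf_le_left), _, piPart_mem (norm_sup (H := zpowers n)
        (zpowers_le.2 nN) (zpowers_le.2 hn) (mem_zpowers n)), piElt_piPart,
        fun e => c (C_anti le_sup_left e)⟩)).ge)
  have b3 : piPart {p}ᶜ n ∈ K := ⟨⟨C_le_N b2, fun y hy => by simp [← mem_C.1 b2 y hy]⟩,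
    C_le_N b2, C_anti inf_le_left b2⟩
  have b4 : k * n ∈ K := by
    obtain ⟨m, hm⟩ := exists_pow_eq_self_of_coprime (PiNat.coprime (piElt_piPart (x := n)) pg)
    refine hm ▸ pow_mem ((mul_mem_cancel_right (inv_mem ?_)).1 (pow_mul_mem hk (hK.norm nN) _)) m
    nth_rw 1 [← piPart_mul_compl (π := {p}) (x := n)]
    rw [Commute.mul_pow piPart_comm_piPart, pow_orderOf_eq_one, one_mul]
    exact pow_mem b3 _
  generalize k * n = g at b4 gC pg
  refine gC (mem_C.2 fun y hy => ?_)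
  have u := b4.1.2 y hy
  have b5 : ∀ m : ℕ, g ^ m * y * (g ^ m)⁻¹ = (g * y * g⁻¹ * y⁻¹) ^ m * y := fun m => by
    induction m with
    | zero => simp
    | succ m ih =>
      rw [pow_succ', mul_inv_rev, mul_assoc g, mul_assoc g, ← mul_assoc _ _ g⁻¹, ih, pow_succ,
        ← mul_assoc, ← mul_assoc, ← mem_C.1 b4.2.2 _ (pow_mem u m)]
      group
  have := b5 (orderOf g)
  rw [pow_orderOf_eq_one, one_mul, inv_one, mul_one, eq_comm, mul_eq_right] at this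
  have := (pQ.elt u.1).eq_one' (PiNat.of_dvd pg (orderOf_dvd_of_pow_eq_one this))
  rwa [mul_inv_eq_one, mul_inv_eq_iff_eq_mul, eq_comm] at this

end Cfsg.Agent.S3839
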