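import Cfsg.Statements.S3857
import Cfsg.Agent.H21.FrobB
import Cfsg.Agent.H23.Thompson
import Cfsg.Agent.H18.BG1
import Cfsg.Agent.H1.BG3a

set_option autoImplicit false
open Cfsg

namespace Cfsg.Agent.S3857

open H18 H21 H1 Subgroup

def NC (π : Set ℕ) (G : Type*) [Group G] : Prop :=
  ∀ x y : G, PiElt π x → PiElt πᶜ y → x * y = y * x → x = 1 ∨ y = 1

theorem aux {G : Type*} [Group G] [Finite G] {π : Set ℕ} (hs : Solv (⊤ : Subgroup G)) (h : NC π G)
    (H0 : O[π]((⊤ : Subgroup G)) ≠ ⊥) (H1 : ¬ PiGrp π (⊤ : Subgroup G)) :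
    (∃ C : Subgroup G, Cfsg.IsFrobeniusComplement C) ∨
    (∃ (H K : Subgroup G) (_ : H.Normal), K.Normal ∧ H < K ∧
      (∃ C : Subgroup ↥K, Cfsg.IsFrobeniusComplement C ∧ Cfsg.frobeniusKernel C = (H.subgroupOf K : Set ↥K)) ∧
      (∃ C : Subgroup (G ⧸ H), Cfsg.IsFrobeniusComplement C ∧
        Cfsg.frobeniusKernel C = (K.map (QuotientGroup.mk' H) : Set (G ⧸ H)))) := by
  set H := O[π]((⊤ : Subgroup G)) with hH
  have nH : H ⊴ ⊤ := pcore_nml
  have := nH.normal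
  have reg : ∀ R : Subgroup G, PiGrp πᶜ R → Semireg H R := fun R hR y hy y1 => eq_bot_iff.2 fun x hx =>
    (h x y (pcore_pi.elt hx.1) (hR.elt hy) (mem_C1.1 hx.2)).resolve_right y1
  have split : ∀ U : Subgroup (G ⧸ H), PiGrp πᶜ U → ∃ R, SD H R (mpre (topq H) U) ∧ PiGrp πᶜ R ∧
      mim (topq H) R = U := fun U hU => by
    have l : H ≤ mpre (topq H) U := (mker_topq H).ge.trans mker_le_mpre
    have u : U ≤ mim (topq H) ⊤ := by rw [mim_topq_top]; exact le_top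
    have i : H.relIndex (mpre (topq H) U) = Nat.card U := by
      conv_rhs => rw [← mim_mpre u, card_mim le_top, mker_topq]
    obtain ⟨R, hR⟩ := (show Hall π H (mpre (topq H) U) from ⟨l, pcore_pi, i ▸ hU⟩).exists_sd norm_of_normal
    refine ⟨R, hR, by rw [PiGrp, ← hR.relIndex, i]; exact hU, ?_⟩
    rw [← mim_mpre u, ← hR.sup, mim_sup le_top le_top, mim_eq_bot_of_le (mker_topq H).ge, bot_sup_eq]
  have hq : NC π (G ⧸ H) := fun x y hx hy e => or_iff_not_imp_right.2 fun y1 => by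
    obtain ⟨R, h1, h2, h3⟩ := split _ hy.zpowers
    have c := mim_inf_cent (f := topq H) (A := R) (K := ⊤) le_top le_top
      (by rw [mker_topq, top_inf_eq]; exact cop_of_pi' h1.norm h2 pcore_pi (Or.inl (hs.of_le le_top))) (by simp)
    rw [h3, mim_topq_top, C_zpowers] at c
    obtain ⟨a, ha, -, a1, rfl⟩ := exists_piElt_lift (c.ge ⟨mem_top x, mem_C1.2 e⟩) hx
    obtain ⟨b, hb, b1⟩ := exists_mem_ne_one' (H := R) fun e => y1 (by
      rw [e, mim_bot] at h3; exact eq_one_of_eq_bot h3.symm (mem_zpowers y))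
    rw [(h a b a1 (h2.elt hb) (ha.2 b hb).symm).resolve_right b1, mfun_one]
  have sq : Solv (⊤ : Subgroup (G ⧸ H)) := mim_topq_top H ▸ hs.mim
  have O0 : O[π]((⊤ : Subgroup (G ⧸ H))) = ⊥ := by
    rw [← mim_topq_top H, ← mim_pcore le_top (by rw [mker_topq]; exact pcore_pi.inf_right)]
    exact mim_eq_bot_of_le (mker_topq H).ge
  have T0 : (⊤ : Subgroup (G ⧸ H)) ≠ ⊥ := fun e => H1 (pcore_pi.of_le (by
    rw [← mim_topq_top H, mim_eq_bot_iff le_top, mker_topq] at e; exact e))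
  obtain ⟨q, M, hq', -, M0, eM, nM, -⟩ := sq.exists_elem_norm T0 (A := ⊤) (by simp)
  have M' : PiGrp πᶜ M := (eM.pi hq').of_p fun c => M0 (le_bot_iff.1 (O0 ▸ le_pcore ⟨le_top, nM⟩ ((eM.pi hq').of_p c)))
  have cent : ∀ y : G ⧸ H, y ≠ 1 → PiElt πᶜ y → PiGrp πᶜ C1(y) := fun y y1 hy =>
    piGrp_of_prime_elt fun x hx ho c => ho.ne_one (by
      rw [(hq x y ((piNat_prime ho).2 c) hy (mem_C1.1 hx)).resolve_right y1, orderOf_one])
  set K := O[πᶜ]((⊤ : Subgroup (G ⧸ H)))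
  have der : ⁅(⊤ : Subgroup (G ⧸ H)), ⊤⁆ ≤ K := by
    obtain ⟨R, h1, h2, h3⟩ := split M M'
    have d : R ⊓ mker (topq H) = ⊥ := by rw [mker_topq]; exact h1.inf'
    have : Cyc M := h3 ▸ (cyc_of_semireg_abel ((abel_mim_iff le_top d).1 (h3 ▸ eM.abel)) h1.norm H0 (reg R h2)).mim
    obtain ⟨y, hy, y1⟩ := exists_mem_ne_one' M0
    exact (this.der_cent nM).trans (le_pcore ⟨le_top, norm_C nM⟩ ((cent y y1 (M'.elt hy)).of_le (C_le_C1 hy)))
  have hK : Hall πᶜ K ⊤ := by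
    obtain ⟨R, hR⟩ := H23.hall_exists πᶜ sq
    exact hR.pcore_hall (norm_of_der_le (der.trans hR.pcore_le) le_top)
  have K0 : K ≠ ⊥ := fun e => M0 (le_bot_iff.1 (e ▸ le_pcore ⟨le_top, nM⟩ M'))
  obtain ⟨R, h1, h2, h3⟩ := split K pcore_pi
  have R0 : R ≠ ⊥ := fun e => K0 (by rw [← h3, e, mim_bot])
  have fr : Frob (mpre (topq H) K) H R := ⟨h1, H0, R0, reg R h2⟩
  by_cases e : K = ⊤
  · refine Or.inl ⟨R, (H21.isFrobeniusComplement_of_frob (K := H) ?_).1⟩
    rwa [e, mpre_topq, comap_top] at fr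
  obtain ⟨C, hC⟩ := H23.exists_frob_of_cent (pcore_nml : K ⊴ ⊤) K0 e fun k hk k1 =>
    hK.le_pcore le_top (cent k k1 (pcore_pi.elt hk)).inf_right
  have := (pcore_nml : K ⊴ ⊤).normal
  refine Or.inr ⟨H, mpre (topq H) K, inferInstance, by rw [mpre_topq]; infer_instance,
    lt_of_le_of_ne h1.le_left fun e => R0 (h1.eq_left_iff.1 e), ⟨_, isFrobeniusComplement_subgroupOf fr⟩, C, ?_⟩
  rw [mpre_topq, map_comap_eq_self_of_surjective (QuotientGroup.mk'_surjective H)]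
  exact H21.isFrobeniusComplement_of_frob hC

/-- A finite solvable group whose prime graph (prime divisors of the order, two distinct primes joined when there is an element of order their product) is disconnected is a Frobenius group or a 2-Frobenius group (it has normal subgroups H < K with K a Frobenius group with kernel H and G/H a Frobenius group with kernel K/H). -/
theorem result {G : Type*} [Group G] [Finite G] (hsol : Group.IsSolvable G)
    (hdisc : (∃ A : Set ℕ, (∃ a ∈ A, a.Prime ∧ a ∣ Nat.card G) ∧ (∃ b ∉ A, b.Prime ∧ b ∣ Nat.card G) ∧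
      ∀ a ∈ A, ∀ b ∉ A, a.Prime → b.Prime → a ∣ Nat.card G → b ∣ Nat.card G → ¬ ∃ g : G, orderOf g = a * b)) :
    (∃ C : Subgroup G, Cfsg.IsFrobeniusComplement C) ∨
    (∃ (H K : Subgroup G) (_ : H.Normal), K.Normal ∧ H < K ∧
      (∃ C : Subgroup ↥K, Cfsg.IsFrobeniusComplement C ∧ Cfsg.frobeniusKernel C = (H.subgroupOf K : Set ↥K)) ∧
      (∃ C : Subgroup (G ⧸ H), Cfsg.IsFrobeniusComplement C ∧ Cfsg.frobeniusKernel C = (K.map (QuotientGroup.mk' H) : Set (G ⧸ H)))) := by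
  obtain ⟨π, ⟨a, a1, a2, a3⟩, ⟨b, b1, b2, b3⟩, h⟩ := hdisc
  have hs := solv_top_iff.2 hsol
  have nc : NC π G := fun x y hx hy e => by
    by_contra! c
    obtain ⟨x', x1, x2⟩ := exists_prime_pow_elt c.1
    obtain ⟨y', y1, y2⟩ := exists_prime_pow_elt c.2
    have p1 := hx.of_mem_zpowers x1
    have p2 := hy.of_mem_zpowers y1
    refine h _ (p1 _ x2 dvd_rfl) _ (p2 _ y2 dvd_rfl) x2 y2 (orderOf_dvd_natCard _) (orderOf_dvd_natCard _)
      ⟨x' * y', Commute.orderOf_mul_eq_mul_orderOf_of_coprime ?_ (p1.coprime p2)⟩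
    exact mem_C1.1 (C1_le_of_mem_zpowers y1 (mem_C1_comm.1 (C1_le_of_mem_zpowers x1 (mem_C1.2 e.symm))))
  obtain ⟨p, hp, h0⟩ := hs.exists_pcore_ne_bot (ne_bot_of_prime_dvd a2 (by simpa using a3))
  by_cases e : p ∈ π
  · exact aux hs nc (fun c => h0 (le_bot_iff.1 (c ▸ pcore_sub (by simpa using e))))
      fun c => b1 (c b b2 (by simpa using b3))
  · exact aux (π := πᶜ) hs (fun x y hx hy e => (nc y x hy.of_compl_compl hx e.symm).symm)
      (fun c => h0 (le_bot_iff.1 (c ▸ pcore_sub (by simpa using e)))) fun c => c a a2 (by simpa using a3) a1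

end Cfsg.Agent.S3857
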