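import Cfsg.Statements.S3858
import Cfsg.Agent.H21.AlmostSimple
import Cfsg.Agent.H3.PGrpBasic

set_option autoImplicit false
open Cfsg

namespace Cfsg.Agent.S3858

open scoped Pointwise

/-- Let G be a finite group with a normal non-abelian simple subgroup T whose centralizer is trivial (G almost simple with socle T), r a prime and R a Sylow r-subgroup of G meeting T nontrivially. Then R lies in exactly one maximal subgroup of G if and only if G has exactly one conjugacy class of maximal subgroups whose index is prime to r. -/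
theorem result {G : Type*} [Group G] [Finite G] (T : Subgroup G) [T.Normal] (hT : IsSimpleGroup T) (hna : ¬ IsMulCommutative T)
    (hC : Subgroup.centralizer (T : Set G) = ⊥) {r : ℕ} [Fact r.Prime] (R : Sylow r G) (hR0 : (R : Subgroup G) ⊓ T ≠ ⊥) :
    (∃! M : Subgroup G, IsCoatom M ∧ (R : Subgroup G) ≤ M) ↔
      ((∃ M : Subgroup G, IsCoatom M ∧ ¬ r ∣ M.index) ∧
        ∀ M₁ M₂ : Subgroup G, IsCoatom M₁ → ¬ r ∣ M₁.index → IsCoatom M₂ → ¬ r ∣ M₂.index → ∃ g : G, M₂ = M₁.map (MulAut.conj g).toMonoidHom) := by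
  simp only [← H2.conj_eq_map]
  have hidx : ∀ M : Subgroup G, (R : Subgroup G) ≤ M → ¬ r ∣ M.index := fun M hM hd =>
    R.not_dvd_index (hd.trans (Subgroup.index_dvd_of_le hM))
  constructor
  · rintro ⟨M, ⟨hM, hRM⟩, hu⟩
    refine ⟨⟨M, hM, hidx M hRM⟩, fun M₁ M₂ h₁ h₁' h₂ h₂' => ?_⟩
    obtain ⟨g₁, e₁⟩ := H21.exists_sylow_le_conj R h₁'
    obtain ⟨g₂, e₂⟩ := H21.exists_sylow_le_conj R h₂'
    have := (hu _ ⟨H21.isCoatom_conj h₁ g₁, e₁⟩).trans (hu _ ⟨H21.isCoatom_conj h₂ g₂, e₂⟩).symm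
    exact ⟨g₂⁻¹ * g₁, by rw [← H2.conj_conj, this, H2.conj_inv_conj]⟩
  · rintro ⟨-, h⟩
    obtain ⟨M, hM, hle⟩ := H3.exists_isCoatom_ge (H21.normalizer_inf_ne_top T hT hna R.isPGroup' hR0)
    have h1 : Subgroup.normalizer ((R : Subgroup G) : Set G) ≤ M :=
      (H1.le_normalizer_inf le_rfl Subgroup.le_normalizer_of_normal).trans hle
    have h2 : (R : Subgroup G) ≤ M := Subgroup.le_normalizer.trans h1
    refine ⟨M, ⟨hM, h2⟩, fun M' hM' => ?_⟩
    obtain ⟨g, rfl⟩ := h M M' hM (hidx M h2) hM'.1 (hidx M' hM'.2)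
    obtain ⟨n, hn, e⟩ := H21.exists_conj_normalizer_sylow R h2 hM'.2
    rw [e, H2.conj_eq_of_mem (h1 hn)]

end Cfsg.Agent.S3858
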