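import Cfsg.Statements.S3859
import Cfsg.Agent.H21.AlmostSimple
import Cfsg.Agent.H3.PGrpBasic

set_option autoImplicit false
open Cfsg

namespace Cfsg.Agent.S3859

open scoped Pointwise

/-- Let G be a finite group with a normal non-abelian simple subgroup T whose centralizer is trivial (G almost simple with socle T), r a prime and R a Sylow r-subgroup of G meeting T nontrivially. If R lies in exactly one maximal subgroup of G, then G/T is an r-group. -/
theorem result {G : Type*} [Group G] [Finite G] (T : Subgroup G) [T.Normal] (hT : IsSimpleGroup T) (hna : ¬ IsMulCommutative T)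
    (hC : Subgroup.centralizer (T : Set G) = ⊥) {r : ℕ} [Fact r.Prime] (R : Sylow r G) (hR0 : (R : Subgroup G) ⊓ T ≠ ⊥)
    (huniq : ∃! M : Subgroup G, IsCoatom M ∧ (R : Subgroup G) ≤ M) : IsPGroup r (G ⧸ T) := by
  obtain ⟨M, ⟨hM, hRM⟩, hu⟩ := huniq
  have h1 : (R : Subgroup G) ⊔ T = ⊤ := by
    by_contra h
    obtain ⟨M₁, hM₁, h₁⟩ := H3.exists_isCoatom_ge h
    obtain ⟨M₂, hM₂, h₂⟩ := H3.exists_isCoatom_ge (H21.normalizer_inf_ne_top T hT hna R.isPGroup' hR0)
    rw [hu M₁ ⟨hM₁, le_sup_left.trans h₁⟩] at h₁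
    rw [hu M₂ ⟨hM₂, (H1.le_normalizer_inf Subgroup.le_normalizer Subgroup.le_normalizer_of_normal).trans h₂⟩]
      at h₂
    have := ((H1.isSylowIn_top R).inf (L := T) le_top Subgroup.le_normalizer_of_normal).frattini_sup
      (L := ⊤) le_top Subgroup.le_normalizer_of_normal
    exact hM.1 (top_le_iff.mp (this.ge.trans (sup_le (le_sup_right.trans h₁) (inf_le_right.trans h₂))))
  have h2 : (R : Subgroup G).map (QuotientGroup.mk' T) = ⊤ := by
    rw [← Subgroup.comap_injective (QuotientGroup.mk'_surjective T) |>.eq_iff, H1.comap_map_mk', h1,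
      Subgroup.comap_top]
  exact (h2 ▸ R.isPGroup'.map _).of_equiv Subgroup.topEquiv

end Cfsg.Agent.S3859
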