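import Cfsg.Statements.S3864
import Cfsg.Agent.H2.GWBlk

set_option autoImplicit false
open Cfsg

open H18 H22 Subgroup

namespace Cfsg.Agent.S3864

section
variable {G : Type*} [Group G] [Finite G] {S : Subgroup G} {t x v : G} {m n : ℕ}

omit [Finite G] in
theorem nc_eq (c : Fin n → G) (h1 : ∀ i, orderOf (c i) = m) (h2 : ∀ i j, IsConj (c i) (c j) → i = j)
    (h3 : ∀ t, orderOf t = m → ∃ i, IsConj (c i) t) :
    Nat.card {C : ConjClasses G // ∃ t : G, ConjClasses.mk t = C ∧ orderOf t = m} = n :=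
  (Nat.card_eq_of_bijective (fun i => (⟨_, c i, rfl, h1 i⟩ : {C : ConjClasses G // ∃ t : G,
    ConjClasses.mk t = C ∧ orderOf t = m})) ⟨fun i j e => h2 i j (ConjClasses.mk_eq_mk_iff_isConj.1
      (congrArg Subtype.val e)), by
      rintro ⟨_, t, rfl, ht⟩
      exact (h3 t ht).imp fun i e => Subtype.ext (ConjClasses.mk_eq_mk_iff_isConj.2 e)⟩).symm.trans
    (Nat.card_fin n)

theorem half (h : Dih ⊤ S t x v m) (h1 : ¬ IsConj t v) : ∃ M : Subgroup G, M.index = 2 ∧ v ∉ M := by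
  rcases h.conj_or (mem_top v) h.hv with ⟨g, -, e⟩ | ⟨M, -, e, h2⟩
  · exact (h1 (isConj_iff.2 ⟨g, e⟩).symm).elim
  · exact ⟨M, by rwa [relIndex_top_right] at e, h2⟩

theorem cover (h : Dih ⊤ S t x v m) {s : G} (hs : orderOf s = 2) :
    IsConj t s ∨ IsConj v s ∨ IsConj (x * v) s := by
  obtain ⟨g, -, hg⟩ := sylow_le_cj Nat.prime_two h.syl (piGrp_zpowers.2 (pi2_of_sq (sq1 hs))) le_top
  have hg := hg (conj_mem_cj (mem_zpowers s))
  have c : ∀ a, IsConj a (g * s * g⁻¹) → IsConj a s := fun a e => e.trans (isConj_iff.2 ⟨g, rfl⟩).symm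
  by_cases e : g * s * g⁻¹ = t
  · exact .inl (c _ (e ▸ .refl _))
  obtain ⟨a, -, e | e⟩ := h.refl_cases hg (h.not_mem_of_ord (ord2_conj hs g) e)
  · exact .inr (.inl (c _ (isConj_iff.2 ⟨a, e.symm⟩)))
  · exact .inr (.inr (c _ (isConj_iff.2 ⟨a, e.symm⟩)))

theorem compl (h : Dih ⊤ S t x v m) (h1 : ¬ IsConj t v) (h2 : ¬ IsConj t (x * v)) :
    Hall {2}ᶜ O[{2}ᶜ]((⊤ : Subgroup G)) ⊤ := by
  obtain ⟨M, e, hM⟩ := half h h1
  obtain ⟨K, e', hK⟩ := half h.xv h2
  have := normal_of_index_eq_two e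
  have := normal_of_index_eq_two e'
  have k := cyc_nilp (h.syl.inf_nml (K := M ⊓ K) nml_top) ((cyc_zpowers (x := x)).of_le fun s hs => by
    by_contra c
    obtain ⟨a, -, rfl | rfl⟩ := h.refl_cases hs.1 c
    · exact hM (by simpa [mul_assoc] using ‹M.Normal›.conj_mem _ hs.2.1 a⁻¹)
    · exact hK (by simpa [mul_assoc] using ‹K.Normal›.conj_mem _ hs.2.2 a⁻¹))
  refine (k.of_idx le_top (PiNat.compl_compl ?_)).pcore_hall (norm_pcore nml_top.norm)
  exact PiNat.relIndex_inf nml_top.norm (by rw [relIndex_top_right, e]; exact piNat_self Nat.prime_two)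
    (by rw [relIndex_top_right, e']; exact piNat_self Nat.prime_two)

omit [Finite G] in
theorem sub (h : Dih ⊤ S t x v m) {K : Subgroup G} (h1 : x ∈ K) (h2 : v ∈ K) : Odd K.index := by
  rw [← odd_iff, ← relIndex_top_right]
  exact h.syl.idx_of_le (h.sup_eq ▸ sup_le (zpowers_le.2 h1) (zpowers_le.2 h2))

theorem two (h : Dih ⊤ S t x v m) (hm : 4 ≤ m) (h1 : IsConj t v) (h2 : ¬ IsConj t (x * v)) :
    Nat.card {C : ConjClasses G // ∃ g : G, ConjClasses.mk g = C ∧ orderOf g = 2} = 2 ∧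
    (∃ N : Subgroup G, N.Normal ∧ N.index = 2) ∧ ∀ N : Subgroup G, N.Normal → N.index ≠ 4 := by
  refine ⟨nc_eq ![t, x * v] (by simp [Fin.forall_fin_two, h.ht, h.xv.hv]) (by
    simp only [Fin.forall_fin_two, Matrix.cons_val_zero, Matrix.cons_val_one, h2, mt IsConj.symm h2]
    simp) fun s hs => (cover h hs).elim (⟨0, ·⟩) fun e => e.elim (⟨0, h1.trans ·⟩) (⟨1, ·⟩),
    (half h.xv h2).imp fun M e => ⟨normal_of_index_eq_two e.1, e.1⟩, fun N hN e => ?_⟩
  have hc : IsMulCommutative (G ⧸ N) :=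
    IsPGroup.isMulCommutative_of_card_eq_prime_sq (p := 2) e
  have k : ∀ a ∈ zpowers x, a * a ∈ N := fun a ha => (QuotientGroup.eq_one_iff _).1 (by
    have := congrArg (QuotientGroup.mk' N) (h.conj_refl ha)
    rw [map_mul, map_mul, hc.is_comm.comm (QuotientGroup.mk' N a), map_inv, mul_inv_cancel_right,
      map_mul, eq_comm, mul_eq_right] at this
    exact this)
  obtain ⟨y, hy, rfl, -⟩ := h.exists_four hm
  obtain ⟨g, rfl⟩ := isConj_iff.1 h1
  have o := sub h (K := N ⊔ zpowers x) (mem_sup_right (mem_zpowers x))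
    (mem_sup_left (hN.conj_mem _ (k y hy) g))
  have h3 := relIndex_mul_index (le_sup_left (a := N) (b := zpowers x))
  have h4 : N.relIndex (zpowers x) ∣ 2 := by
    rw [relIndex, ← QuotientGroup.ker_mk' N, subgroupOf, MonoidHom.comap_ker, index_ker,
      MonoidHom.range_comp, range_subtype, MonoidHom.map_zpowers, Nat.card_zpowers,
      orderOf_dvd_iff_pow_eq_one, sq, ← map_mul]
    exact (QuotientGroup.eq_one_iff _).2 (k x (mem_zpowers x))
  rw [relIndex_sup_left, e] at h3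
  have := (Nat.Coprime.pow_left 2 o.coprime_two_left).dvd_of_dvd_mul_right h3.symm.dvd
  exact absurd (this.trans h4) (by decide)

end

/-- Let G be a finite group whose Sylow 2-subgroups are dihedral of order 2 ^ n with n ≥ 3, and count the conjugacy classes of involutions of G. Then exactly one of the following holds: there is one class of involutions and no normal subgroup of index 2; there are two classes of involutions, a normal subgroup of index 2 and none of index 4; there are three classes of involutions and G has a normal 2-complement. -/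
theorem result {G : Type*} [Group G] [Finite G] (P : Sylow 2 G) (n : ℕ) (hn : 3 ≤ n) (hdih : Nonempty (↥(P : Subgroup G) ≃* DihedralGroup (2 ^ (n - 1)))) : (Nat.card {C : ConjClasses G // ∃ g : G, ConjClasses.mk g = C ∧ orderOf g = 2} = 1 ∧ ∀ N : Subgroup G, N.Normal → N.index ≠ 2) ∨ (Nat.card {C : ConjClasses G // ∃ g : G, ConjClasses.mk g = C ∧ orderOf g = 2} = 2 ∧ (∃ N : Subgroup G, N.Normal ∧ N.index = 2) ∧ ∀ N : Subgroup G, N.Normal → N.index ≠ 4) ∨ (Nat.card {C : ConjClasses G // ∃ g : G, ConjClasses.mk g = C ∧ orderOf g = 2} = 3 ∧ Cfsg.HasNormalPComplement 2 G) := by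
  obtain ⟨e⟩ := hdih
  have hm : 4 ≤ 2 ^ (n - 1) := Nat.pow_le_pow_right (n := 2) two_pos (show 2 ≤ n - 1 by omega)
  obtain ⟨t, x, v, h⟩ := H2.dih_of_equiv (hall_sylow_top Nat.prime_two P) e (by omega)
  by_cases h1 : IsConj t v <;> by_cases h2 : IsConj t (x * v)
  · refine .inl ⟨nc_eq (fun _ : Fin 1 => t) (fun _ => h.ht) (fun _ _ _ => Subsingleton.elim _ _)
      fun s hs => ⟨0, (cover h hs).elim id fun e => e.elim h1.trans h2.trans⟩, fun N hN e => ?_⟩
    obtain ⟨y, -, rfl, -⟩ := h.exists_four hm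
    have k : ∀ s, IsConj (y * y) s → s ∈ N := fun s c => by
      obtain ⟨g, rfl⟩ := isConj_iff.1 c
      exact hN.conj_mem _ (mul_self_mem_of_index_two e y) g
    have := sub h ((mul_mem_cancel_right (k _ h1)).1 (k _ h2)) (k _ h1)
    rw [e] at this
    exact absurd this (by decide)
  · exact .inr (.inl (two h hm h1 h2))
  · refine .inr (.inl (two h.xv hm h2 fun c => h1 (c.trans (isConj_iff.2 ⟨x, ?_⟩).symm)))
    rw [h.conj_refl (mem_zpowers x), mul_assoc]
  · have k := compl h h1 h2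
    have h3 : ¬ IsConj v (x * v) := fun c => by
      obtain ⟨g, c⟩ := isConj_iff.1 c
      obtain ⟨s, hs, e⟩ := (nilp_sd k h.syl).conj_in h.vS (mem_top g) (c ▸ h.xv.vS)
      exact h.not_conj_S hs (e.trans c)
    refine .inr (.inr ⟨nc_eq ![t, v, x * v] (by simp [Fin.forall_fin_succ, h.ht, h.hv, h.xv.hv])
      (fun i j => ?_) fun s hs => (cover h hs).elim (⟨0, ·⟩) fun e => e.elim (⟨1, ·⟩) (⟨2, ·⟩),
      (hasNormalPComplement_top_iff' Nat.prime_two).2 k⟩)
    have := mt IsConj.symm h1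
    have := mt IsConj.symm h2
    have := mt IsConj.symm h3
    fin_cases i <;> fin_cases j <;> simp [*, -isConj_iff]

end Cfsg.Agent.S3864
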