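import Cfsg.Statements.S3867
import Cfsg.Agent.H1.Harv1

set_option autoImplicit false
open Cfsg

namespace Cfsg.Agent.S3867

open H18 Subgroup

theorem key {G : Type*} [Group G] [Finite G] {p : ℕ} (hp : p.Prime) {P : Subgroup G} (hP : Hall {p} P ⊤)
    (K : Subgroup G) [K.Normal] : Nat.card (Sylow p (G ⧸ K)) = (N(P) ⊔ K).index := by
  let f : (⊤ : Subgroup G) →* G ⧸ K := (QuotientGroup.mk' K).comp (⊤ : Subgroup G).subtype
  have hf : Function.Surjective f := fun x => by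
    obtain ⟨y, rfl⟩ := QuotientGroup.mk'_surjective K x
    exact ⟨⟨y, trivial⟩, rfl⟩
  have hk : mker f = K := by
    ext x
    rw [mem_mker, mfun_of_mem (mem_top x)]
    simp [f]
  rw [H1.card_sylow_mim hf hp hP, hk, relIndex_top_right]
  congr 1
  refine le_antisymm (fun g hg => ?_) (sup_le (norm_sup le_rfl norm_of_normal) (le_norm le_sup_right))
  obtain ⟨k, hk, n, hn, rfl⟩ := frattini_elt hp (hP.of_le le_sup_left le_top) hg
  exact mul_mem (sup_le_sup_right le_N K hk) (mem_sup_left hn)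

/-- Let M and N be nontrivial normal subgroups of the finite group G with M ⊓ N trivial, and let p be a prime. Writing n(X) for the number of Sylow p-subgroups of a group X, one has n(G) · n(G/MN) = n(G/M) · n(G/N). -/
theorem result {G : Type*} [Group G] [Finite G] (p : ℕ) [Fact p.Prime] (M N : Subgroup G) [M.Normal] [N.Normal] (hM : M ≠ ⊥) (hN : N ≠ ⊥) (hMN : M ⊓ N = ⊥) : Nat.card (Sylow p G) * Nat.card (Sylow p (G ⧸ (M ⊔ N))) = Nat.card (Sylow p (G ⧸ M)) * Nat.card (Sylow p (G ⧸ N)) := by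
  have hp : p.Prime := Fact.out
  obtain ⟨P, hP⟩ := exists_sylow hp (⊤ : Subgroup G)
  rw [key hp hP, key hp hP, key hp hP, H1.card_sylow_top hp hP, ← sup_assoc]
  have h1 : (P ⊔ M) ⊓ (P ⊔ N) = P := by
    refine hP.eq_of_le (le_inf le_sup_left le_sup_left) le_top (piGrp_of_elt fun x hx => ?_)
    obtain ⟨a, ha, m, hm, e1⟩ := (mem_sup_of_norm norm_of_normal).mp hx.1
    obtain ⟨b, hb, n, hn, e2⟩ := (mem_sup_of_norm norm_of_normal).mp hx.2
    obtain ⟨k, hk⟩ := hP.pi.card_eq_pow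
    have h : ∀ (K : Subgroup G) [K.Normal], ∀ a ∈ P, ∀ m ∈ K, (a * m) ^ p ^ k ∈ K := by
      intro K _ a ha m hm
      rw [← QuotientGroup.eq_one_iff, QuotientGroup.mk_pow, QuotientGroup.mk_mul,
        (QuotientGroup.eq_one_iff m).mpr hm, mul_one, ← QuotientGroup.mk_pow, ← hk,
        pow_card_eq_one_of_mem ha, QuotientGroup.mk_one]
    have : x ^ p ^ k = 1 := eq_one_of_eq_bot hMN ⟨e1 ▸ h M a ha m hm, e2 ▸ h N b hb n hn⟩
    exact (piNat_pow_self hp k).of_dvd (orderOf_dvd_of_pow_eq_one this)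
  have h2 : (N(P) ⊔ M) ⊓ N = N(P) ⊓ N := by
    refine le_antisymm (le_inf ?_ inf_le_right) (inf_le_inf_right _ le_sup_left)
    conv_rhs => rw [← h1]
    exact norm_inf (inf_le_left.trans (sup_le (norm_sup le_rfl norm_of_normal) (le_norm le_sup_right)))
      (inf_le_right.trans (le_norm le_sup_right))
  have h3 := Nrm2.card_sup (A := N(P) ⊔ M) (B := N) (Or.inl norm_of_normal)
  have h4 := Nrm2.card_sup (A := N(P)) (B := N) (Or.inl norm_of_normal)
  rw [h2] at h3
  have i1 := (N(P)).index_mul_card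
  have i2 := (N(P) ⊔ M).index_mul_card
  have i3 := (N(P) ⊔ N).index_mul_card
  have i4 := (N(P) ⊔ M ⊔ N).index_mul_card
  have h5 : Nat.card (N(P) ⊔ M ⊔ N : Subgroup G) * Nat.card N(P) =
      Nat.card (N(P) ⊔ M : Subgroup G) * Nat.card (N(P) ⊔ N : Subgroup G) := by
    refine Nat.eq_of_mul_eq_mul_right (card_pos' (H := N(P) ⊓ N)) ?_
    rw [mul_right_comm, h3, mul_assoc, mul_assoc, h4, mul_comm (Nat.card N)]
  refine Nat.eq_of_mul_eq_mul_right (Nat.mul_pos (card_pos' (H := N(P) ⊔ M ⊔ N)) (card_pos' (H := N(P)))) ?_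
  conv_rhs => rw [h5, mul_mul_mul_comm, i2, i3]
  rw [mul_comm (Nat.card (N(P) ⊔ M ⊔ N : Subgroup G)), mul_mul_mul_comm, i1, i4]

end Cfsg.Agent.S3867
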