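import Cfsg.Statements.S3878
import Cfsg.Agent.H18.Nil
import Cfsg.Agent.H16.Jordan
import Mathlib.GroupTheory.Perm.Cycle.PossibleTypes

set_option autoImplicit false
open Cfsg

namespace Cfsg.Agent.S3878

open H18 Subgroup MulAction Equiv
open scoped Pointwise

theorem main {p q r : ℕ} (hp : p.Prime) (hq : q.Prime) (hr : r.Prime) (lt : q < p) {n : ℕ} (hn : n = p ^ (r + 1))
    (H : Subgroup (Perm (Fin n))) (h1 : ¬ r ∣ Nat.card H)
    (h2 : ∀ s, s = p ∨ s = q → ∀ X, PiGrp {s} X → ∃ g, cj g X ≤ H) : False := by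
  classical
  have cyc : ∀ s k : ℕ, s = p ∨ s = q → k ≠ 0 → s ^ k ≤ n → ∃ c ∈ H, c.IsCycle ∧ c.support.card = s ^ k := by
    intro s k hs k0 hk
    have hs' : s.Prime := by rcases hs with rfl | rfl <;> assumption
    obtain ⟨c, hc⟩ := (Perm.exists_with_cycleType_iff (Fin n) (m := {s ^ k})).2
      ⟨by simpa using hk, by simpa using Nat.succ_le_of_lt (Nat.one_lt_pow k0 hs'.one_lt)⟩
    have c1 : c.IsCycle := Perm.card_cycleType_eq_one.1 (by simp [hc])
    have c2 : c.support.card = s ^ k := by rw [← Perm.sum_cycleType, hc]; simp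
    obtain ⟨g, hg⟩ := h2 s hs (zpowers c) (piGrp_of_card_pow hs' (by rw [card_zpowers', c1.orderOf, c2]))
    exact ⟨_, hg (conj_mem_cj (mem_zpowers c)), c1.conj, by rw [Perm.card_support_conj, c2]⟩
  have r2 := hr.two_le
  have q2 := hq.two_le
  have n1 : r + 1 < n := hn ▸ Nat.lt_pow_self hp.one_lt
  have n2 : p * 3 ≤ n := by
    calc p * 3 ≤ p * p ^ r := Nat.mul_le_mul_left _ (le_trans (by omega) (Nat.le_self_pow (by omega) p))
      _ = n := by rw [hn, pow_succ']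
  obtain ⟨c0, m0, c01, c02⟩ := cyc p (r + 1) (Or.inl rfl) (by omega) hn.ge
  have tr : IsPretransitive H (Fin n) := ⟨fun x y => by
    have e : c0.support = Finset.univ := Finset.eq_univ_of_card _ (by simpa [← hn] using c02)
    obtain ⟨i, hi⟩ := c01.exists_pow_eq (Perm.mem_support.1 (e ▸ Finset.mem_univ x))
      (Perm.mem_support.1 (e ▸ Finset.mem_univ y))
    exact ⟨⟨c0 ^ i, pow_mem m0 i⟩, hi⟩⟩
  obtain ⟨c, mc, c1, c2⟩ := cyc q (Nat.log q n) (Or.inr rfl) (Nat.log_pos hq.one_lt (by omega)).ne'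
    (Nat.pow_log_le_self q (by omega))
  have pr : IsPreprimitive H (Fin n) := ⟨fun {B} hB => by
    by_contra c3
    rw [IsTrivialBlock, not_or, Set.not_subsingleton_iff] at c3
    obtain ⟨x, hx, -⟩ := id c1
    obtain ⟨y, hy⟩ := c3.1.nonempty
    obtain ⟨g, hg⟩ := exists_smul_eq H y x
    have hB' := hB.translate g
    have x1 : x ∈ g • B := hg ▸ Set.smul_mem_smul_set hy
    have e : (g • B).ncard = B.ncard := Set.ncard_smul_set g B
    generalize g • B = D at hB' x1 e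
    obtain ⟨b, -, hb⟩ := (Nat.dvd_prime_pow hp).1
      (show B.ncard ∣ p ^ (r + 1) by simpa [← hn] using hB.ncard_dvd_card ⟨y, hy⟩)
    have b0 : b ≠ 0 := by
      rintro rfl
      exact absurd (Set.one_lt_ncard_iff_nontrivial.2 c3.1) (by rw [hb]; simp)
    have b1 : b < r + 1 := (Nat.pow_lt_pow_iff_right hp.one_lt).1 (by
      rw [← hb, ← hn]; simpa using Set.ncard_lt_ncard (Set.ssubset_univ_iff.2 c3.2))
    have fix : ∀ u ∈ H, ∀ z ∈ D, u z ∈ D → u • D = D := fun u hu z hz e =>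
      isBlock_iff_smul_eq_of_mem.1 hB' (g := ⟨u, hu⟩) hz e
    by_cases d : c • D = D
    · have : (c.support : Set (Fin n)) ⊆ D := fun z hz => by
        obtain ⟨i, rfl⟩ := c1.exists_pow_eq hx (Perm.mem_support.1 hz)
        have : c ^ i ∈ stabilizer _ D := pow_mem (mem_stabilizer_iff.2 d) i
        exact mem_stabilizer_iff.1 this ▸ Set.smul_mem_smul_set x1
      have l := Set.ncard_le_ncard this
      rw [Set.ncard_coe_finset, c2, e, hb] at l
      have l2 := Nat.lt_pow_succ_log_self hq.one_lt n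
      have l3 : p ^ (b + 1) ≤ n := hn ▸ Nat.pow_le_pow_right hp.pos b1
      rw [pow_succ] at l2 l3
      have := Nat.mul_le_mul l lt.le
      omega
    · let K := zpowers c ⊓ stabilizer (Perm (Fin n)) D
      have o : orbit K x = D := by
        ext z
        constructor
        · rintro ⟨k, rfl⟩
          exact mem_stabilizer_iff.1 k.2.2 ▸ Set.smul_mem_smul_set x1
        · intro hz
          obtain ⟨i, rfl⟩ := c1.exists_pow_eq hx (y := z) fun e => d (fix c mc z hz (e.symm ▸ hz))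
          exact ⟨⟨c ^ i, pow_mem (mem_zpowers c) i, fix _ (pow_mem mc i) x x1 hz⟩, rfl⟩
      have : p ^ b ∣ q ^ Nat.log q n := by
        rw [← hb, ← e, ← o, ← index_stabilizer, ← c2, ← c1.orderOf, ← card_zpowers']
        exact (index_dvd_card _).trans (card_dvd inf_le_left)
      exact lt.ne' ((Nat.prime_dvd_prime_iff_eq hp hq).1 (hp.dvd_of_dvd_pow ((dvd_pow_self p b0).trans this)))⟩
  obtain ⟨d, md, d1, d2⟩ := cyc q 1 (Or.inr rfl) one_ne_zero (by rw [pow_one]; omega)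
  have := H16.jordan_prime_cycle pr hq (by simp; omega) d1 (by rw [d2, pow_one]) md
  refine h1 (Dvd.dvd.trans ?_ (card_dvd this))
  have : Nontrivial (Fin n) := Fin.nontrivial_iff_two_le.2 (by omega)
  have e := two_mul_nat_card_alternatingGroup (α := Fin n)
  rw [Nat.card_perm, Nat.card_fin] at e
  by_cases r2 : r = 2
  · have : 2 * 2 ∣ n.factorial := (by decide : 2 * 2 ∣ Nat.factorial 4).trans (Nat.factorial_dvd_factorial (by omega))
    rw [← e] at this
    exact r2 ▸ Nat.dvd_of_mul_dvd_mul_left two_pos this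
  · have : r ∣ n.factorial := Nat.dvd_factorial hr.pos (by omega)
    rw [← e] at this
    exact ((Nat.coprime_primes hr Nat.prime_two).2 r2).dvd_of_dvd_mul_left this

theorem key {π : Set ℕ} (h : ∀ n, ∃ H : Subgroup (Perm (Fin n)), PiGrp π H ∧
    ∀ s, s.Prime → s ∈ π → ∀ X, PiGrp {s} X → ∃ g, cj g X ≤ H) :
    (∀ p q : ℕ, p.Prime → q.Prime → p ∈ π → q ∈ π → p = q) ∨ ∀ p : ℕ, p.Prime → p ∈ π := by
  by_contra! c
  obtain ⟨⟨p, q, hp, hq, p1, q1, ne⟩, r, hr, r1⟩ := c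
  wlog lt : q < p generalizing p q
  · exact this q p hq hp q1 p1 ne.symm (by omega)
  obtain ⟨H, h1, h2⟩ := h (p ^ (r + 1))
  exact main hp hq hr lt rfl H (h1.not_dvd hr r1) fun s hs => by rcases hs with rfl | rfl <;> apply h2 <;> assumption

theorem back {π : Set ℕ} (h : (∀ p q : ℕ, p.Prime → q.Prime → p ∈ π → q ∈ π → p = q) ∨ ∀ p : ℕ, p.Prime → p ∈ π)
    (G : Type) [Group G] [Finite G] :
    ∃ H : Subgroup G, Hall π H ⊤ ∧ ∀ X, PiGrp π X → ∃ g, cj g X ≤ H := by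
  rcases h with h | h
  · by_cases e : ∃ p, p.Prime ∧ p ∈ π
    · obtain ⟨p, hp, p1⟩ := e
      have i : ∀ q, q.Prime → (q ∈ ({p} : Set ℕ) ↔ q ∈ π) := fun q hq => ⟨fun e => e ▸ p1, fun e => h q p hq hp e p1⟩
      obtain ⟨P, hP⟩ := exists_sylow hp (⊤ : Subgroup G)
      refine ⟨P, hP.congr fun q hq _ => i q hq, fun X hX => ?_⟩
      obtain ⟨g, -, hg⟩ := sylow_le_cj hp hP ((piNat_congr i).2 hX) le_top
      exact ⟨g, hg⟩
    · have : ∀ n, PiNat πᶜ n := fun n q hq _ c => e ⟨q, hq, c⟩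
      exact ⟨⊥, hall_bot (this _), fun X hX => ⟨1, by simp [hX.eq_bot (this _)]⟩⟩
  · exact ⟨⊤, hall_self fun p hp _ => h p hp, fun _ _ => ⟨1, le_top⟩⟩

/-- For a set of primes π the following are equivalent: every finite group has a Hall π-subgroup; in every finite group the maximal π-subgroups are pairwise conjugate; π contains at most one prime or contains every prime. -/
theorem result (π : Set ℕ) :
    ((∀ (G : Type) [Group G] [Finite G], Cfsg.IsEPiGroup π G) ↔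
      ((∀ p q : ℕ, p.Prime → q.Prime → p ∈ π → q ∈ π → p = q) ∨ ∀ p : ℕ, p.Prime → p ∈ π)) ∧
    ((∀ (G : Type) [Group G] [Finite G], Cfsg.IsDPiGroup π G) ↔
      ((∀ p q : ℕ, p.Prime → q.Prime → p ∈ π → q ∈ π → p = q) ∨ ∀ p : ℕ, p.Prime → p ∈ π)) := by
  refine ⟨⟨fun h => key fun n => ?_, fun h G _ _ => ?_⟩, ⟨fun h => key fun n => ?_, fun h G _ _ => ?_⟩⟩
  · obtain ⟨H, hH⟩ := h (Perm (Fin n))
    have hH := hall_top_iff.2 hH
    refine ⟨H, hH.2, fun s hs s1 X hX => ?_⟩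
    obtain ⟨P, hP⟩ := exists_sylow hs H
    obtain ⟨g, -, hg⟩ := sylow_le_cj hs (hP.trans_p hH s1) hX le_top
    exact ⟨g, hg.trans hP.1⟩
  · obtain ⟨H, hH, -⟩ := back h G
    exact ⟨H, hall_top_iff.1 hH⟩
  · have mx : ∀ X : Subgroup (Perm (Fin n)), PiGrp π X → ∃ H, X ≤ H ∧ Maximal (IsPiSubgroup π) H := fun X hX => by
      obtain ⟨H, h1, h2, h3⟩ := exists_maximal_sub (PiGrp π) hX
      exact ⟨H, h1, h2, fun L hL e => (h3 L hL e).le⟩
    obtain ⟨H, -, hH⟩ := mx ⊥ PiGrp.bot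
    refine ⟨H, hH.1, fun s _ s1 X hX => ?_⟩
    obtain ⟨K, h1, h2⟩ := mx X (hX.of_p s1)
    obtain ⟨g, rfl⟩ := h _ K H h2 hH
    exact ⟨g, cj_mono h1⟩
  · obtain ⟨H, hH, h1⟩ := back h G
    have : ∀ K, Maximal (IsPiSubgroup π) K → ∃ g, K = cj g H := fun K hK => by
      obtain ⟨g, hg⟩ := h1 K hK.1
      exact ⟨g⁻¹, (hK.eq_of_le (hH.2.cj _) (cj_le_iff.1 hg))⟩
    intro A B hA hB
    obtain ⟨a, rfl⟩ := this A hA
    obtain ⟨b, rfl⟩ := this B hB
    exact ⟨b * a⁻¹, by rw [← cj_def, cj_cj]; simp⟩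

end Cfsg.Agent.S3878
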