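import Cfsg.Statements.S3881
import Cfsg.Agent.H21.Metacyclic2

set_option autoImplicit false
open Cfsg

namespace Cfsg.Agent.S3881

/-- Let p be an odd prime and G a finite metacyclic p-group (G has a cyclic normal subgroup with cyclic quotient). Suppose G is non-abelian with |G'| = p^n. Then for 1 ≤ i ≤ n the number of elements of G whose conjugacy class has exactly p^i elements is |Z(G)| · (p^(2i) − p^(2i−2)). -/
theorem result {G : Type*} [Group G] [Finite G] {p : ℕ} [Fact p.Prime] (hp : p ≠ 2) (hG : IsPGroup p G) (hmc : Cfsg.IsMetacyclic G) (n : ℕ) (hn : n ≠ 0) (hGn : Nat.card ↥(commutator G) = p ^ n) (i : ℕ) (hi : 1 ≤ i) (hin : i ≤ n) :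
    Nat.card {g : G // (Subgroup.centralizer ({g} : Set G)).index = p ^ i} =
      Nat.card ↥(Subgroup.center G) * (p ^ (2 * i) - p ^ (2 * i - 2)) := by
  have hpp : p.Prime := Fact.out
  obtain ⟨h1, h2⟩ := H21.meta_closure_pow hp hG hmc hGn (Nat.sub_le n i)
  obtain ⟨h3, h4⟩ := H21.meta_closure_pow hp hG hmc hGn (show n - i + 1 ≤ n by omega)
  set A := Subgroup.closure {x : G | ∃ y : G, y ^ p ^ (n - i) = x}
  set B := Subgroup.closure {x : G | ∃ y : G, y ^ p ^ (n - i + 1) = x}
  rw [Nat.sub_sub_self hin] at h2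
  rw [show n - (n - i + 1) = i - 1 by omega] at h4
  have h5 := (Subgroup.center G).card_mul_index
  rw [H21.meta_index_center hp hG hmc, hGn, ← pow_mul] at h5
  have hA : Nat.card A = Nat.card (Subgroup.center G) * p ^ (2 * i) := by
    apply Nat.eq_of_mul_eq_mul_right (pow_pos hpp.pos (2 * (n - i)))
    rw [mul_assoc, ← pow_add, ← h1, A.card_mul_index, ← h5]
    congr 2; omega
  have hB : Nat.card B = Nat.card (Subgroup.center G) * p ^ (2 * i - 2) := by
    apply Nat.eq_of_mul_eq_mul_right (pow_pos hpp.pos (2 * (n - i + 1)))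
    rw [mul_assoc, ← pow_add, ← h3, B.card_mul_index, ← h5]
    congr 2; omega
  have hBA : (B : Set G) ⊆ A := fun g hg =>
    (h2 g).mpr (((h4 g).mp hg).trans (Nat.pow_le_pow_right hpp.pos (Nat.sub_le _ _)))
  have h6 : {g : G | (Subgroup.centralizer ({g} : Set G)).index = p ^ i} = (A : Set G) \ B := by
    ext g
    obtain ⟨k, hk⟩ := hG.index (Subgroup.centralizer ({g} : Set G))
    simp only [Set.mem_setOf_eq, Set.mem_diff, SetLike.mem_coe, h2, h4, hk, Nat.pow_right_inj hpp.one_lt,
      Nat.pow_le_pow_iff_right hpp.one_lt]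
    omega
  rw [Nat.mul_sub, ← hA, ← hB]
  change Set.ncard {g : G | (Subgroup.centralizer ({g} : Set G)).index = p ^ i} = _
  rw [h6, Set.ncard_diff hBA]
  rfl

end Cfsg.Agent.S3881
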