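import Cfsg.Statements.S3883
import Cfsg.Agent.H21.Metacyclic2

set_option autoImplicit false
open Cfsg

namespace Cfsg.Agent.S3883

/-- Let p be an odd prime and G a finite metacyclic p-group (G has a cyclic normal subgroup with cyclic quotient). Suppose G is non-abelian. Then an element g of G lies outside the Frattini subgroup if and only if its centralizer C_G(g) is abelian. -/
theorem result {G : Type*} [Group G] [Finite G] {p : ℕ} [Fact p.Prime] (hp : p ≠ 2) (hG : IsPGroup p G) (hmc : Cfsg.IsMetacyclic G) (hna : ¬ IsMulCommutative G) (g : G) :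
    g ∉ frattini G ↔ IsMulCommutative ↥(Subgroup.centralizer ({g} : Set G)) := by
  have hpp : p.Prime := Fact.out
  obtain ⟨n, hn⟩ := IsPGroup.iff_card.mp (hG.to_subgroup (commutator G))
  have hn0 : 1 ≤ n := by
    rcases n with _ | n
    · rw [pow_zero, Subgroup.card_eq_one, commutator_eq_bot_iff] at hn
      exact absurd hn hna
    · omega
  obtain ⟨h1, h2⟩ := H21.meta_closure_pow hp hG hmc hn hn0
  have h3 : frattini G = Subgroup.closure {x : G | ∃ y : G, y ^ p ^ 1 = x} := by
    apply le_antisymm
    · refine H3.frattini_le_of_commutator_le_of_pow_mem (p := p) (fun x hx => ?_)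
        fun x => Subgroup.subset_closure ⟨x, by rw [pow_one]⟩
      obtain ⟨a, b, h⟩ := H21.isMetacyclic_iff.mp hmc
      rw [h.commutator_eq, ← Subgroup.zpowers_le] at hx
      refine hx.trans (Subgroup.zpowers_le.mpr ?_) (Subgroup.mem_zpowers x)
      obtain ⟨ρ, hρ, e⟩ := H21.exists_conj_eq_pow hG (h.normal.conj_mem a (Subgroup.mem_zpowers a) b)
      obtain ⟨k, hk⟩ := hρ.symm.dvd
      refine Subgroup.subset_closure ⟨a ^ k, ?_⟩
      rw [commutatorElement_def, e, pow_one, ← zpow_natCast, ← zpow_mul, mul_comm, ← hk, zpow_sub]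
      simp
    · rw [Subgroup.closure_le]
      rintro _ ⟨y, rfl⟩
      rw [pow_one]
      exact H3.pow_mem_frattini hG y
  obtain ⟨k, hk⟩ := hG.index (Subgroup.centralizer ({g} : Set G))
  rw [h3, h2, H21.meta_comm_iff_dvd hp hG hmc, hn, hk, Nat.pow_dvd_pow_iff_le_right hpp.one_lt,
    Nat.pow_le_pow_iff_right hpp.one_lt]
  omega

end Cfsg.Agent.S3883
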