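import Cfsg.Statements.S3886
import Cfsg.Agent.H21.Metacyclic2

set_option autoImplicit false
open Cfsg

namespace Cfsg.Agent.S3886

/-- Let p be an odd prime and G a finite metacyclic p-group (G has a cyclic normal subgroup with cyclic quotient). Then the largest value of |R| · |Z(R)| over subgroups R of G is |G : G'|², and the subgroups attaining it (the centrally large subgroups) are exactly the non-abelian subgroups together with the maximal abelian subgroups of G. -/
theorem result {G : Type*} [Group G] [Finite G] {p : ℕ} [Fact p.Prime] (hp : p ≠ 2) (hG : IsPGroup p G) (hmc : Cfsg.IsMetacyclic G) : Cfsg.maxCentralProduct G = (commutator G).index ^ 2 ∧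
    ∀ R : Subgroup G, Cfsg.IsCentrallyLarge R ↔ (¬ IsMulCommutative ↥R ∨ Maximal (fun K : Subgroup G => IsMulCommutative ↥K) R) := by
  have key : ∀ R : Subgroup G, IsMulCommutative R →
      Nat.card R * Nat.card (Subgroup.center R) = Nat.card R ^ 2 := fun R hR => by
    rw [Subgroup.center_eq_top, Subgroup.card_top, sq]
  have h1 : Cfsg.maxCentralProduct G = (commutator G).index ^ 2 := by
    refine IsGreatest.csSup_eq ⟨?_, ?_⟩
    · by_cases h : IsMulCommutative (⊤ : Subgroup G)
      · refine ⟨⊤, ?_⟩
        rw [key _ h]
        congr 1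
        exact (H21.meta_maximal_comm_iff hp hG hmc _).mp ⟨h, fun _ _ _ => le_top⟩
      · exact ⟨⊤, H21.meta_card_mul_card_center hp hG hmc h⟩
    · rintro _ ⟨R, rfl⟩
      by_cases h : IsMulCommutative R
      · rw [key _ h]
        exact Nat.pow_le_pow_left ((H21.meta_comm_iff hp hG hmc _).mp h) 2
      · exact (H21.meta_card_mul_card_center hp hG hmc h).le
  refine ⟨h1, fun R => ?_⟩
  rw [Cfsg.IsCentrallyLarge, h1]
  by_cases h : IsMulCommutative R
  · rw [key _ h, H21.meta_maximal_comm_iff hp hG hmc, Nat.pow_left_inj two_ne_zero]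
    simp [h]
  · simp [h, H21.meta_card_mul_card_center hp hG hmc h]

end Cfsg.Agent.S3886
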