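import Cfsg.Statements.S3898
import Cfsg.Agent.H21.Classes
import Cfsg.Agent.H17.Mann
import Cfsg.Agent.H17.Syl

set_option autoImplicit false
open Cfsg

namespace Cfsg.Agent.S3898

open H18 H21 H1 Subgroup

theorem bd {G : Type*} [Group G] [Finite G] {O Q : Subgroup G} {r m : ℕ} (_hr : r.Prime) (hO : PiGrp {r} O)
    (hn : O ≤ N(Q)) (hm : m + 1 ≤ r) : (m + 1) * kcl (Q : Set G) ≤ Nat.card Q + m * Nat.card (Q ⊓ C(O) : Subgroup G) := by
  refine mul_kcl_le (s := Q) (t := ((Q ⊓ C(O) : Subgroup G) : Set G)) (fun _ h => h.1) fun x hx c => ?_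
  have h1 : C1(x).relIndex O ≠ 1 := fun e => c ⟨hx, le_C1_iff.1 (relIndex_eq_one.1 e)⟩
  obtain ⟨s, hs, hd⟩ := Nat.exists_prime_and_dvd h1
  have h2 : s = r := hO s hs (hd.trans (relIndex_dvd_card _ _))
  refine (hm.trans (h2 ▸ Nat.le_of_dvd (Nat.pos_of_ne_zero FiniteIndex.index_ne_zero) hd)).trans ?_
  rw [← relIndex, ← H117.ncard_conj']
  refine Set.ncard_le_ncard ?_
  rintro _ ⟨o, ho, rfl⟩
  exact ⟨conj_mem_N (hn ho) hx, mk_conj o x⟩

theorem idx {G : Type*} [Group G] [Finite G] {A B : Subgroup G} {q : ℕ} (hB : PiGrp {q} B) (h : A < B) :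
    Nat.card A * q ≤ Nat.card B := by
  obtain ⟨M, h3, h4, h5⟩ := hB.exists_index_p h
  have h6 := H18.card_mul_relIndex h4.1
  rw [← h6, h5]
  exact Nat.mul_le_mul_right _ (card_le h3)

theorem key {G : Type*} [Group G] [Finite G] {Q K : Subgroup G} {q : ℕ} (hq : q.Prime) (h2 : q ≠ 2) (hQ : Hall {q} Q ⊤)
    (hK : PiGrp {2}ᶜ K) (h : Nat.card Q < 2 * kcl (Q : Set G)) : Abel Q ∧ K ⊓ N(Q) ≤ C(Q) := by
  have q3 : 3 ≤ q := by have := hq.two_le; omega
  have hA : Abel Q := by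
    by_contra hn
    obtain ⟨x, hx, x1⟩ := SetLike.not_le_iff_exists.1 hn
    have h1 := bd hq hQ.pi le_normalizer (m := 2) q3
    have h3 := idx hQ.pi (inf_lt_left.2 fun e => x1 (le_C1_iff.1 e) : Q ⊓ C1(x) < Q)
    have h4 := idx (A := Q ⊓ C(Q)) (hQ.pi.of_le (inf_le_left : Q ⊓ C1(x) ≤ Q))
      (lt_of_le_not_ge (inf_le_inf_left _ (C_le_C1 hx)) fun e => x1 (e ⟨hx, C1_self⟩).2)
    nlinarith
  refine ⟨hA, H17.le_of_forall_ppow_mem fun r hr a ha k hk => ?_⟩
  have hO : PiGrp {r} (zpowers a) := piGrp_of_isPGroup hr (H17.isPGroup_zpowers_of_pow hk)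
  have hn : zpowers a ≤ N(Q) := zpowers_le.2 ha.2
  by_cases e : r = q
  · subst e
    exact hA (hQ.le_of_norm le_top hO (Or.inl hn) (mem_zpowers a))
  by_contra c
  have h3 := idx hQ.pi (inf_lt_left.2 fun e => c (cent_symm e (mem_zpowers a)) : Q ⊓ C(zpowers a) < Q)
  have r2 : r ≠ 2 := by
    rintro rfl
    exact c (by rw [show a = 1 from mem_bot.1 ((hO.eq_bot (hK.of_le (zpowers_le.2 ha.1))).le
      (mem_zpowers a))]; exact one_mem _)
  have r3 : 3 ≤ r := by have := hr.two_le; omega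
  have n4 : ∀ s : ℕ, s.Prime → s ≠ 4 := fun s hs e => by rw [e] at hs; exact absurd hs (by decide)
  have := n4 r hr
  have := n4 q hq
  by_cases e3 : r = 3
  · have h1 := bd hr hO hn (m := 2) r3
    nlinarith [show 5 ≤ q by omega]
  · have h1 := bd hr hO hn (m := 4) (by omega)
    nlinarith

/-- Let π be a finite set of primes containing 2 and G a finite group. Write k_π(G) for the number of conjugacy classes of G consisting of π-elements (elements all of whose order's prime divisors lie in π) and |G|_π for the π-part of the order of G. If k_π(G) > |G|_π/2, then G has a normal π-complement (a normal subgroup of order prime to π whose index is a π-number) and an abelian Hall subgroup for the set of odd primes in π. -/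
theorem result {G : Type*} [Group G] [Finite G] (π : Finset ℕ) (hπ : ∀ r ∈ π, r.Prime) (h2 : 2 ∈ π)
    (hk : π.prod (fun r => r ^ (Nat.card G).factorization r) < 2 * Nat.card {c : ConjClasses G // ∀ x ∈ c.carrier, ∀ r : ℕ, r.Prime → r ∣ orderOf x → r ∈ π}) :
    (∃ N : Subgroup G, N.Normal ∧ (∀ r : ℕ, r.Prime → r ∣ Nat.card ↥N → r ∉ π) ∧ ∀ r : ℕ, r.Prime → r ∣ N.index → r ∈ π) ∧ ∃ H : Subgroup G, Cfsg.IsPiHall ((↑π : Set ℕ) \ {2}) H ∧ IsMulCommutative ↥H := by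
  have hk : _ < 2 * kpi π G := hk.trans_eq (congrArg _ card_eq_kpi)
  have k1 : ∀ q ∈ π, ∀ Q : Subgroup G, Hall {q} Q ⊤ → Nat.card Q < 2 * kpi {q} G := fun q hq Q hQ => by
    have h1 := kpi_le_kpi_mul (G := G) hπ q
    rw [← Finset.mul_prod_erase _ _ hq, ← card_top (G := G), ← Hall.card_eq_fact (hπ q hq) hQ, card_top] at hk
    exact Nat.lt_of_mul_lt_mul_right (a := ∏ r ∈ π.erase q, r ^ (Nat.card G).factorization r) (by
      rw [mul_assoc]; exact hk.trans_le (Nat.mul_le_mul_left _ h1))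
  obtain ⟨P, hP⟩ := exists_sylow Nat.prime_two (⊤ : Subgroup G)
  have hK := pnil_of_kpi_two hP (k1 2 h2 P hP)
  set K := O[{2}ᶜ]((⊤ : Subgroup G))
  have k2 : ∀ q ∈ π, q ≠ 2 → ∀ Q : Subgroup G, Hall {q} Q ⊤ → Abel Q ∧ K ⊓ N(Q) ≤ C(Q) := fun q hq n Q hQ =>
    key (hπ q hq) n hQ hK.pi (kpi_eq (hπ q hq) hQ ▸ k1 q hq Q hQ)
  have pn := hall_of_pnil (π := π) (H := K) fun q hq h hd => by
    obtain ⟨Q, hQ⟩ := exists_sylow hq K
    exact Burnside_normal_complement hq hQ (k2 q h (hK.pi q hq hd) Q (hQ.trans_p hK (hK.pi q hq hd))).2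
  obtain ⟨H, sd⟩ := pn.exists_sd pcore_nml.2
  have hH := sd.hall_compl' pn
  have hn : O[(π : Set ℕ)ᶜ](K) ⊴ ⊤ := ⟨le_top, norm_pcore pcore_nml.norm⟩
  have i1 : ∀ L ≤ K, ∀ r : ℕ, r.Prime → r ∣ L.index → r ∣ L.relIndex K ∨ r = 2 := fun L hL r hr hd => by
    rw [← relIndex_mul_index hL] at hd
    exact (hr.dvd_mul.1 hd).imp_right fun e => not_not.1 (hK.idx r hr (by rwa [relIndex_top_right]))
  have hH' : Hall ((π : Set ℕ) \ {2}) H ⊤ := ⟨le_top, fun r hr hd => ⟨hH.pi r hr hd,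
    hK.pi r hr (hd.trans (card_dvd_of_le hH.le))⟩, fun r hr hd e => by
      rw [relIndex_top_right] at hd
      exact (i1 H hH.le r hr hd).elim (fun h => hH.idx r hr h e.1) e.2⟩
  refine ⟨⟨_, hn.normal, pn.pi, fun r hr hd => (i1 _ pcore_le r hr hd).elim
    (fun h => not_not.1 (pn.idx r hr h)) fun e => e ▸ h2⟩, H, hall_top_iff.1 hH', Abel.comm ?_⟩
  have k3 : ∀ q, q.Prime → q ∣ Nat.card H → ∀ Q, Hall {q} Q H → H ⊓ N(Q) ≤ C(Q) := fun q hq hd Q hQ =>
    (inf_le_inf_right _ hH.le).trans (k2 q (hH'.pi q hq hd).1 (hH'.pi q hq hd).2 Q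
      (hQ.trans_p hH' (hH'.pi q hq hd))).2
  have hN : Nil H := nil_of_pnil fun q hq hd => by
    obtain ⟨Q, hQ⟩ := exists_sylow hq H
    exact Burnside_normal_complement hq hQ (k3 q hq hd Q hQ)
  exact hN.le_of_pcores fun q hq hd => cent_symm ((le_inf le_rfl pcore_nml.2).trans (k3 q hq hd _ hN.pcore_hall))

end Cfsg.Agent.S3898
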