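import Cfsg.Statements.S3899
import Cfsg.Agent.H21.Classes

set_option autoImplicit false
open Cfsg

namespace Cfsg.Agent.S3899

open H18 H21 H1 Subgroup

/-- Let π be a finite non-empty set of odd primes with smallest member p and G a finite group. Write k_π(G) for the number of conjugacy classes of G consisting of π-elements (elements all of whose order's prime divisors lie in π) and |G|_π for the π-part of the order of G. If k_π(G) > (p + 1)|G|_π/(2p), then G has a normal π-complement (a normal subgroup of order prime to π whose index is a π-number) and an abelian Hall π-subgroup. -/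
theorem result {G : Type*} [Group G] [Finite G] (π : Finset ℕ) (hπ : ∀ r ∈ π, r.Prime) (h2 : 2 ∉ π) (p : ℕ) (hp : p ∈ π)
    (hmin : ∀ r ∈ π, p ≤ r) (hk : (p + 1) * π.prod (fun r => r ^ (Nat.card G).factorization r) < 2 * p * Nat.card {c : ConjClasses G // ∀ x ∈ c.carrier, ∀ r : ℕ, r.Prime → r ∣ orderOf x → r ∈ π}) :
    (∃ N : Subgroup G, N.Normal ∧ (∀ r : ℕ, r.Prime → r ∣ Nat.card ↥N → r ∉ π) ∧ ∀ r : ℕ, r.Prime → r ∣ N.index → r ∈ π) ∧ ∃ H : Subgroup G, Cfsg.IsPiHall (↑π : Set ℕ) H ∧ IsMulCommutative ↥H := by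
  have hk : _ < 2 * p * kpi π G := hk.trans_eq (congrArg _ card_eq_kpi)
  have key : ∀ q ∈ π, ∀ Q : Subgroup G, Hall {q} Q ⊤ → N(Q) ≤ C(Q) := fun q hq Q hQ => by
    refine pnil_of_kpi (hπ q hq) hQ ?_
    have h1 := kpi_le_kpi_mul (G := G) hπ q
    rw [← Finset.mul_prod_erase _ _ hq, ← card_top (G := G), ← Hall.card_eq_fact (hπ q hq) hQ, card_top] at hk
    have h3 : (p + 1) * Nat.card Q < 2 * p * kpi {q} G := Nat.lt_of_mul_lt_mul_right
      (a := ∏ r ∈ π.erase q, r ^ (Nat.card G).factorization r) (by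
        rw [mul_assoc, mul_assoc]; exact hk.trans_le (Nat.mul_le_mul_left _ h1))
    have h4 := hmin q hq
    have h5 := (hπ p hp).pos
    refine Nat.lt_of_mul_lt_mul_left (a := p) ?_
    calc p * ((q + 1) * Nat.card Q) ≤ q * ((p + 1) * Nat.card Q) := by nlinarith [Nat.mul_le_mul_right (Nat.card Q) h4]
      _ < q * (2 * p * kpi {q} G) := Nat.mul_lt_mul_of_pos_left h3 (by omega)
      _ = _ := by ring
  have pn := hall_of_pnil (π := π) (H := (⊤ : Subgroup G)) fun q hq h _ => by
    obtain ⟨Q, hQ⟩ := exists_sylow hq (⊤ : Subgroup G)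
    exact Burnside_normal_complement hq hQ (inf_le_right.trans (key q h Q hQ))
  obtain ⟨H, sd⟩ := pn.exists_sd pcore_nml.2
  have hH := sd.hall_compl' pn
  refine ⟨⟨_, pcore_nml.normal, pn.pi, relIndex_top_right O[(π : Set ℕ)ᶜ]((⊤ : Subgroup G)) ▸ pn.idx.of_compl_compl⟩, H, hall_top_iff.1 hH, Abel.comm ?_⟩
  have hN : Nil H := nil_of_pnil fun q hq hd => by
    obtain ⟨Q, hQ⟩ := exists_sylow hq H
    exact Burnside_normal_complement hq hQ (inf_le_right.trans (key q (hH.pi q hq hd) Q (hQ.trans_p hH (hH.pi q hq hd))))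
  exact hN.le_of_pcores fun q hq hd => cent_symm (pcore_nml.2.trans
    (key q (hH.pi q hq hd) _ (hN.pcore_hall.trans_p hH (hH.pi q hq hd))))

end Cfsg.Agent.S3899
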