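import Cfsg.Statements.S3900
import Cfsg.Agent.H21.Crit
import Cfsg.Agent.H21.Pairing
import Cfsg.Agent.H9.SylowBasic

set_option autoImplicit false
open Cfsg

namespace Cfsg.Agent.S3900

open H18 H21 Subgroup
open scoped commutatorElement

universe u

section
variable {G : Type u} [Group G] {Q H N P E : Subgroup G} {k p : ℕ} {x g : G} {π : Set ℕ}

def W (Q H : Subgroup G) : ℕ → G → Prop
  | 0, x => x ∈ Q
  | k + 1, x => ∃ a, W Q H k a ∧ ∃ b ∈ H, x = ⁅a, b⁆

theorem W.mem (hQ : Q ⊴ H) (h : W Q H k x) : x ∈ Q := by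
  induction k generalizing x with
  | zero => exact h
  | succ k i => obtain ⟨a, ha, b, hb, rfl⟩ := h; exact comm_le_left hQ.norm (commutator_mem_commutator (i ha) hb)

theorem W.conj (hQ : Q ⊴ H) (hg : g ∈ H) (h : W Q H k x) : W Q H k (g * x * g⁻¹) := by
  induction k generalizing x with
  | zero => exact conj_mem hQ.norm hg h
  | succ k i => obtain ⟨a, ha, b, hb, rfl⟩ := h; exact ⟨_, i ha, _, conj_mem le_N hg hb, by simp [commutatorElement_def, mul_assoc]⟩

theorem W.map {K : Type u} [Group K] (f : G →* K) (h : W Q H k x) : W ⊤ ⊤ k (f x) := by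
  induction k generalizing x with
  | zero => trivial
  | succ k i => obtain ⟨a, ha, b, hb, rfl⟩ := h; exact ⟨_, i ha, _, trivial, map_commutatorElement _ _ _⟩

theorem W.lift {K : Type u} [Group K] (f : G →* K) {y : K} (h : W (Q.map f) (H.map f) k y) : ∃ x, W Q H k x ∧ f x = y := by
  induction k generalizing y with
  | zero => exact h
  | succ k i =>
    obtain ⟨a, ha, _, ⟨b, hb, rfl⟩, rfl⟩ := h
    obtain ⟨a, h, rfl⟩ := i ha
    exact ⟨_, ⟨a, h, b, hb, rfl⟩, map_commutatorElement _ _ _⟩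

theorem W.pred (hQ : Q ⊴ H) (h : W Q H (k + 1) x) : W Q H k x := by
  induction k generalizing x with
  | zero => exact h.mem hQ
  | succ k i => obtain ⟨a, ha, e⟩ := h; exact ⟨a, i ha, e⟩

theorem W.inv (h : W ⊤ ⊤ k x) : W ⊤ ⊤ k x⁻¹ := by
  cases k with
  | zero => trivial
  | succ k =>
    obtain ⟨a, ha, b, -, rfl⟩ := h
    simpa [commutatorElement_def, mul_assoc] using W.conj Nml.rfl (mem_top b) (k := k + 1) ⟨a, ha, b⁻¹, trivial, rfl⟩

theorem W.lcs (h : W ⊤ ⊤ k x) : x ∈ (⊤ : Subgroup G).lowerCentralSeries k := by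
  induction k generalizing x with
  | zero => exact h
  | succ k i => obtain ⟨a, ha, b, hb, rfl⟩ := h; exact commutator_mem_commutator (i ha) hb

theorem W_iff : (∃ f : Fin (k + 1) → G, x = ((List.ofFn f).tail).foldl (fun a b => a * b * a⁻¹ * b⁻¹) (f 0)) ↔ W ⊤ ⊤ k x := by
  induction k generalizing x with
  | zero => exact ⟨fun _ => trivial, fun _ => ⟨fun _ => x, by simp⟩⟩
  | succ k i =>
    have e : ∀ f : Fin (k + 2) → G, ((List.ofFn f).tail).foldl (fun a b => a * b * a⁻¹ * b⁻¹) (f 0) =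
        ⁅((List.ofFn (Fin.init f)).tail).foldl (fun a b => a * b * a⁻¹ * b⁻¹) (Fin.init f 0), f (Fin.last _)⁆ := fun f => by
      rw [List.ofFn_succ' f, List.concat_eq_append, List.tail_append_of_ne_nil (by simp), List.foldl_concat]; rfl
    refine ⟨fun ⟨f, h⟩ => ⟨_, i.1 ⟨_, rfl⟩, _, trivial, h.trans (e f)⟩, fun ⟨a, ha, b, _, h⟩ => ?_⟩
    obtain ⟨f, rfl⟩ := i.2 ha
    exact ⟨Fin.snoc f b, by rw [e, Fin.init_snoc, Fin.snoc_last, h]⟩

theorem le_W (hQ : Q ⊴ H) (L : ℕ → Subgroup G) (h0 : L 0 ≤ Q) (h : ∀ n, L (n + 1) ≤ ⁅L n, H⁆) : L k ≤ closure {x | W Q H k x} := by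
  induction k with
  | zero => exact fun x hx => subset_closure (h0 hx)
  | succ k i =>
    have n : H ≤ N(closure {x | W Q H (k + 1) x}) := norm_closure fun a ha b hb => W.conj hQ ha hb
    have l : closure {x | W Q H k x} ≤ H := (closure_le _).2 fun x hx => hQ.le (W.mem hQ hx)
    refine (h k).trans (commutator_le.2 fun a ha b hb => ?_)
    refine closure_induction (p := fun a _ => ⁅a, b⁆ ∈ closure {x | W Q H (k + 1) x}) (fun a ha => subset_closure ⟨a, ha, b, hb, rfl⟩)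
      (by simp) (fun a c ha _ h1 h2 => ?_) (fun a ha h1 => ?_) (i ha)
    · simpa [commutatorElement_def, mul_assoc] using mul_mem (conj_mem n (l ha) h2) h1
    · simpa [commutatorElement_def, mul_assoc] using conj_mem' n (l ha) (inv_mem h1)

theorem lcs_le [E.Normal] (h : E ⊔ P = ⊤) (l : P.lowerCentralSeries k ≤ E) : (⊤ : Subgroup G).lowerCentralSeries k ≤ E := by
  have o : ∀ {X : Subgroup G}, X.map (QuotientGroup.mk' E) = ⊥ ↔ X ≤ E := by simp [Subgroup.map_eq_bot_iff]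
  rw [← o, map_lowerCentralSeries] at l ⊢
  rwa [← h, Subgroup.map_sup, o.2 le_rfl, bot_sup_eq]

variable [Finite G]

theorem exists_inv (hQ : Q ⊴ H) (h2 : PiGrp {2} Q) (h1 : Q ≠ ⊥) (h : Q ≤ ⁅Q, H⁆) : ∃ t, W Q H k t ∧ orderOf t = 2 := by
  have l := le_W (k := k) hQ (fun _ => Q) le_rfl fun _ => h
  have o : ∀ t ∈ Q, t ≠ 1 → ∃ n : ℕ, orderOf (t ^ n) = 2 := fun t ht e => by
    obtain ⟨y, hy, d⟩ := exists_prime_pow_elt e
    obtain ⟨n, rfl⟩ := mem_powers_iff_mem_zpowers.2 hy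
    exact ⟨n, h2.elt (pow_mem ht n) _ d dvd_rfl⟩
  have x : ∀ {K : Subgroup G}, ¬ Q ≤ K → ∃ t, W Q H k t ∧ t ∉ K := fun e => by_contra fun f => e (l.trans ((closure_le _).2 fun t ht =>
    by_contra fun d => f ⟨t, ht, d⟩))
  by_cases a : Abel Q
  · have w : ∀ k t, W Q H k t → ∀ n : ℕ, W Q H k (t ^ n) := fun k => by
      induction k with
      | zero => exact fun t ht n => pow_mem ht n
      | succ k i =>
        rintro _ ⟨c, hc, b, hb, rfl⟩ n
        exact ⟨_, i c hc n, b, hb, (comm_pow_left (comm_of_cent a (hc.mem hQ) (W.mem hQ (k := k + 1) ⟨c, hc, b, hb, rfl⟩)) n).symm⟩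
    obtain ⟨t, ht, e⟩ := x (mt le_bot_iff.1 h1)
    exact (o t (ht.mem hQ) e).elim fun n d => ⟨_, w k t ht n, d⟩
  obtain ⟨U, -, ⟨h3, h4⟩, m⟩ := exists_minimal_sub (fun U => U ⊴ Q ∧ ¬ U ≤ C(Q)) ⟨Nml.rfl, a⟩
  have c : ⁅U, Q⁆ ≤ C(Q) := by_contra fun e => (h2.nil.comm_lt h3.le le_rfl h3.norm fun f => h4 (f ▸ bot_le)).ne
    (m _ ⟨h3.comm Nml.rfl, e⟩ (comm_le_left h3.norm))
  obtain ⟨u, hu, e⟩ := SetLike.not_le_iff_exists.1 h4
  obtain ⟨v, hv, e⟩ := x (mt le_C1_iff.1 e)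
  have d : ⁅v, u⁆ ∈ C(Q) := c (comm_comm.le (commutator_mem_commutator (hv.mem hQ) hu))
  obtain ⟨n, f⟩ := o ⁅v, u⁆ (der_le (commutator_mem_commutator (hv.mem hQ) (h3.le hu))) (mt commutatorElement_eq_one_iff_mul_comm.1 (mt mem_C1.2 e))
  exact ⟨_, W.pred hQ ⟨v, hv, _, hQ.le (pow_mem (h3.le hu) n), (comm_pow_right (mem_C.1 d u (h3.le hu)) n).symm⟩, f⟩

theorem pnil_quo (hp : p.Prime) [E.Normal] (h : ∀ R, PiGrp {p} R → ∀ y ∈ N(R), PiElt {p}ᶜ y → ⁅R, zpowers y⁆ ≤ E) :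
    PNil p (⊤ : Subgroup (G ⧸ E)) := by
  obtain ⟨S, hS⟩ := exists_sylow hp (⊤ : Subgroup (G ⧸ E))
  refine frob_centric hp hS fun D hD _ x hx px => ?_
  have pD := hS.pi.of_le hD
  obtain ⟨x, rfl⟩ := QuotientGroup.mk'_surjective E x
  obtain ⟨R, hR⟩ := exists_sylow hp (D.comap (QuotientGroup.mk' E))
  obtain ⟨m, hm, n, hn, rfl⟩ := frattini_elt hp hR (mem_N_of_finite (x := x) fun b hb => by simpa using conj_mem_N hx hb)
  have s : E ⊔ R = D.comap (QuotientGroup.mk' E) := sup_comm R E ▸ hR.sup_of_idx (fun y hy => by simp [(QuotientGroup.eq_one_iff y).2 hy])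
    (by conv => arg 2; arg 1; rw [← QuotientGroup.ker_mk' E]
        rw [relIndex_ker, map_comap_eq_self_of_surjective (QuotientGroup.mk'_surjective E)]; exact pD)
  have c : QuotientGroup.mk' E (piPart {p}ᶜ n) ∈ C(D) := mem_C.2 fun d hd => by
    obtain ⟨d, rfl⟩ := QuotientGroup.mk'_surjective E d
    obtain ⟨e, he, r, hr, rfl⟩ := (mem_sup_of_norm' norm_of_normal).1 (s.ge hd)
    rw [← commutatorElement_eq_one_iff_mul_comm, map_mul, show QuotientGroup.mk' E e = 1 from (QuotientGroup.eq_one_iff e).2 he, one_mul,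
      ← map_commutatorElement]
    exact (QuotientGroup.eq_one_iff _).2 (h R hR.pi _ (piPart_mem hn) piElt_piPart (commutator_mem_commutator hr (mem_zpowers _)))
  have f : ∀ (π : Set ℕ) (y : G), PiElt π (QuotientGroup.mk' E (piPart π y)) := fun π y => piElt_piPart.of_dvd (orderOf_map_dvd _ _)
  have d : QuotientGroup.mk' E (m * piPart {p} n) ∈ D := by
    rw [map_mul]
    refine mul_mem hm ((hall_of_sup pD px.zpowers (Or.inr (zpowers_le.2 hx))).mem_of_nml (sup_le le_N (zpowers_le.2 hx)) ?_ (f _ _))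
    refine zpowers_le.2 (show QuotientGroup.mk' E n ∈ _ from (mul_mem_cancel_left (mem_sup_left (mem_comap.1 hm))).1
      (by rw [← map_mul]; exact mem_sup_right (mem_zpowers _))) ?_
    exact (MonoidHom.map_zpowers (QuotientGroup.mk' E) n).le (mem_map_of_mem _ piPart_mem_zpowers)
  rw [← piPart_mul_compl (π := {p}) (x := n), ← mul_assoc, map_mul] at px ⊢
  rwa [← piPart_eq (mem_C.1 c _ d) (pD.elt d) (f _ _), piPart_eq_one px, one_mul]

def A (G : Type u) [Group G] (k : ℕ) : Prop := ∀ x y : G, W ⊤ ⊤ k x → (orderOf x).Coprime (orderOf ⁅x, y⁆) → ⁅x, y⁆ = 1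

theorem A.cent (h : A G k) (hx : W Q H k x) (px : PiElt π x) (pN : PiGrp πᶜ N) (n : x ∈ N(N)) : x ∈ C(N) := mem_C.2 fun y hy =>
  (commutatorElement_eq_one_iff_mul_comm.1 (h x y (hx.map (MonoidHom.id G)) (px.coprime (pN.elt (mul_mem (conj_mem_N n hy) (inv_mem hy)))))).symm

theorem A.le (h : A G k) (hQ : Q ⊴ H) (L : ℕ → Subgroup G) (h0 : L 0 ≤ Q) (l : ∀ n, L (n + 1) ≤ ⁅L n, H⁆) (pQ : PiGrp π Q)
    (pN : PiGrp πᶜ N) (n : Q ≤ N(N)) : L k ≤ C(N) :=
  (le_W hQ L h0 l).trans ((closure_le _).2 fun _ hx => h.cent hx (pQ.elt (hx.mem hQ)) pN (n (hx.mem hQ)))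

theorem cc (pR : PiGrp {p} P) (n : x ∈ N(P)) (px : PiElt {p}ᶜ x) : ⁅P, zpowers x⁆ ⊴ P ⊔ zpowers x ∧ PiGrp {p} ⁅P, zpowers x⁆ ∧
    ⁅P, zpowers x⁆ ≤ ⁅⁅P, zpowers x⁆, P ⊔ zpowers x⁆ :=
  ⟨⟨comm_le_of_le le_sup_left le_sup_right, sup_le norm_comm_left norm_comm_right⟩, pR.of_le (comm_le_left (zpowers_le.2 n)),
    (H1.cop_of_pi' (zpowers_le.2 n) px.zpowers pR (Or.inr pR.solv)).comm_comm.ge.trans (comm_mono le_rfl le_sup_right)⟩

theorem A.key (h : A G k) (hp : p.Prime) [N.Normal] (pN : PiGrp {p}ᶜ N) (pP : PiGrp {p} P) (l : P ≤ (⊤ : Subgroup G).lowerCentralSeries k) :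
    P ≤ C(N) := by
  have a := pnil_quo (E := C(N)) hp fun R pR y n py => h.le (cc pR n py).1 (fun _ => _) le_rfl (fun _ => (cc pR n py).2.2)
    (cc pR n py).2.1 pN norm_of_normal
  obtain ⟨S, hS⟩ := exists_sylow hp (⊤ : Subgroup G)
  have := (pcore_nml (π := {p}ᶜ) (H := (⊤ : Subgroup (G ⧸ C(N))))).normal
  have c : C(N) ≤ O[{p}ᶜ]((⊤ : Subgroup (G ⧸ C(N)))).comap (QuotientGroup.mk' _) := fun y hy => by simp [(QuotientGroup.eq_one_iff y).2 hy]
  have b := l.trans (lcs_le (sup_comm S _ ▸ hS.sup_of_idx le_top (by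
    rw [relIndex_top_right, index_comap_of_surjective _ (QuotientGroup.mk'_surjective _), ← relIndex_top_right]; exact a.idx.of_compl_compl))
    ((h.le Nml.rfl S.lowerCentralSeries le_rfl (fun _ => le_rfl) hS.pi pN norm_of_normal).trans c))
  exact fun x hx => (QuotientGroup.eq_one_iff x).1 (PiElt.eq_one' ((pP.elt hx).of_dvd (orderOf_map_dvd (QuotientGroup.mk' _) x))
    (pcore_pi.elt (b hx)))

theorem A.solv (G : Type u) [Group G] [Finite G] : A G k → Group.IsSolvable G := by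
  induction' hn : Nat.card G using Nat.strong_induction_on with n ih generalizing G
  intro h
  by_cases e : ⁅(⊤ : Subgroup G), (⊤ : Subgroup G)⁆ = ⊤
  swap
  · refine solv_top_iff.1 (solv_of_quo nml_der.norm (Abel.solv ((abel_quo_iff nml_der.norm).2 le_rfl)) (ih _ ?_ _ rfl fun x y hx c => ?_))
    · exact hn ▸ card_top (G := G) ▸ card_lt (lt_top_iff_ne_top.2 e)
    · exact Subtype.ext (h x y (hx.map (Subgroup.subtype _)) (by rwa [← orderOf_coe, ← orderOf_coe] at c))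
  have l : ∀ k, (⊤ : Subgroup G).lowerCentralSeries k = ⊤ := fun k => by
    induction k with
    | zero => rfl
    | succ k i => rwa [Subgroup.lowerCentralSeries_succ, i]
  obtain ⟨S, hS⟩ := exists_sylow Nat.prime_two (⊤ : Subgroup G)
  have := (pcore_nml (π := {2}) (H := (⊤ : Subgroup G))).normal
  have z : ⊤ ≤ C(O[{2}]((⊤ : Subgroup G))) := by
    have := hS.pi.nil
    refine (l _).ge.trans (lcs_le (P := S) (top_le_iff.1 (le_of_sylows fun p hp _ => ?_))
      ((lowerCentralSeries_eq_bot_of_nilpotencyClass_le le_rfl).le.trans bot_le))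
    by_cases d : 2 = p
    · exact d ▸ ⟨S, hS, le_sup_right⟩
    · exact (exists_sylow hp ⊤).imp fun P hP => ⟨hP, le_sup_of_le_left (h.key hp (pcore_pi.p'_of_ne d) hP.pi (le_top.trans (l k).ge))⟩
  refine solv_top_iff.1 (PNil.solv_two (frob_centric Nat.prime_two hS fun D hD _ x n px => by_contra fun d => ?_))
  obtain ⟨h1, h2, h3⟩ := cc (hS.pi.of_le hD) n px
  have h4 : ⁅D, zpowers x⁆ ≠ ⊥ := fun e => d (cent_symm (comm_eq_bot_iff.1 e) (mem_zpowers x))
  generalize ⁅D, zpowers x⁆ = Q at *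
  generalize D ⊔ zpowers x = H at *
  let f := QuotientGroup.mk' (center G)
  obtain ⟨t, ht', o⟩ := exists_inv (k := k) (Q := Q.map f) (H := H.map f) ⟨map_mono h1.le, (map_mono h1.norm).trans (le_normalizer_map f)⟩
    (h2.of_dvd (card_map_dvd _ _)) (fun e => h4 (le_bot_iff.1 (h3.trans (comm_eq_bot_iff.2 fun y hy => mem_C.2 fun b _ =>
      mem_center_iff.1 ((QuotientGroup.eq_one_iff y).1 (mem_bot.1 (e.le (mem_map_of_mem f hy)))) b).le))) (map_commutator _ _ f ▸ map_mono h3)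
  obtain ⟨t, ht, rfl⟩ := ht'.lift f
  have pt := h2.elt (ht.mem h1)
  have c : t ^ 2 ∈ center G := (QuotientGroup.eq_one_iff _).1 (by rw [← o]; exact pow_orderOf_eq_one (f t))
  have := H9.baer_suzuki (p := 2) (zpowers t) fun g => by
    have c1 : ∀ y, y * (t * t) = t * t * y := fun y => sq t ▸ mem_center_iff.1 c y
    have i : t * (t * (g * t * g⁻¹)) * t⁻¹ = t * t * (t * t) * (t * (g * t * g⁻¹))⁻¹ := by
      rw [mul_assoc (t * t), mul_inv_rev, ← mul_assoc (t * t) _ t⁻¹, ← c1 (g * t * g⁻¹)⁻¹, mul_inv_rev, mul_assoc _ (g * t)⁻¹, mul_inv_rev,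
        mul_assoc t⁻¹, c1]
      group
    generalize hw : t * (g * t * g⁻¹) = w at i
    have p4 : PiElt {2} (t * t * (t * t)) := by simpa only [← sq] using (pt.pow' 2).pow' 2
    have c4 : ∀ y, y * (t * t * (t * t)) = t * t * (t * t) * y := fun y => by rw [← mul_assoc, c1 y, mul_assoc (t * t), c1 y, ← mul_assoc (t * t)]
    have j : t * piPart {2}ᶜ w * t⁻¹ = (piPart {2}ᶜ w)⁻¹ := by
      rw [← piPart_conj, i, piPart_mul (c4 _).symm, piPart_eq_one p4.compl_compl, one_mul, eq_inv_iff_mul_eq_one, ← piPart_mul (by simp),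
        inv_mul_cancel, piPart_eq_self PiElt.one]
    have q := h.cent ht pt (piElt_piPart (x := w)).zpowers (mem_N_of_finite fun b ⟨n, e⟩ => by
      rw [← e, ← conj_zpow, j]; exact zpow_mem (inv_mem (mem_zpowers _)) n)
    rw [← mem_C.1 q _ (mem_zpowers _), mul_inv_cancel_right, eq_inv_iff_mul_eq_one, ← sq] at j
    have pw : PiElt {2} w := (piPart_eq_one_iff.1 ((piElt_of_pow_eq_one Nat.prime_two j).eq_one' piElt_piPart)).of_compl_compl
    refine PiGrp.isPGroup (PiGrp.of_le (pt.zpowers.sup_norm (pw.zpowers.sup_norm' p4.zpowers (zpowers_le.2 (C_le_N (C_zpowers.ge (mem_C1.2 (c4 w).symm)))))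
      (zpowers_le.2 (mem_N_of_finite fun b hb => ?_))) (sup_le le_sup_left ?_))
    · refine mem_comap.1 ((show zpowers w ⊔ zpowers (t * t * (t * t)) ≤ comap (MulAut.conj t).toMonoidHom
        (zpowers w ⊔ zpowers (t * t * (t * t))) from sup_le (zpowers_le.2 ?_) (zpowers_le.2 ?_)) hb)
      · exact show t * w * t⁻¹ ∈ zpowers w ⊔ zpowers (t * t * (t * t)) from i.symm ▸ mul_mem (mem_sup_right (mem_zpowers _)) (inv_mem (mem_sup_left (mem_zpowers _)))
      · exact mem_sup_right (show t * _ * t⁻¹ ∈ _ by rw [c4, mul_inv_cancel_right]; exact mem_zpowers _)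
    · rw [MonoidHom.map_zpowers, zpowers_le]
      exact (mul_mem_cancel_left (mem_sup_left (mem_zpowers t))).1 (hw ▸ mem_sup_right (mem_sup_left (mem_zpowers _)))
  have m := le_pcore nml_top (piGrp_of_isPGroup Nat.prime_two this) (le_normalClosure (mem_zpowers t))
  rw [show f t = 1 from (QuotientGroup.eq_one_iff t).2 (mem_center_iff.2 fun b => (mem_C.1 (z (mem_top b)) t m).symm)] at o
  simp at o

theorem nil_of (hs : Solv H) (h : ∀ p, p.Prime → ∀ P ≤ H, PiGrp {p} P → P ≤ C(O[{p}ᶜ](H))) : Nil H := by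
  refine nil_of_sylow_norm fun p hp _ => (exists_sylow hp H).imp fun P hP => ⟨hP, ?_⟩
  have n : H ⊓ C(O[{p}ᶜ](H)) ⊴ H := pcore_nml.cent
  have s := hP.of_le (le_inf hP.le (h p hp P hP.le hP.pi)) inf_le_left
  have : H ⊓ C(O[{p}ᶜ](H)) ≤ N(P) := le_of_sylows fun q hq _ => by
    by_cases d : q = p
    · exact ⟨P, by rw [d]; exact s, le_N⟩
    refine (exists_sylow hq _).imp fun Q hQ => ⟨hQ, cent_norm (cent_symm (s.le.trans (inf_le_right.trans (C_anti ?_))))⟩
    refine le_pcore_of_le_fit (le_trans (le_inf (hQ.le.trans inf_le_left) ?_) (cent_sub_Fitting hs)) (hQ.pi.p'_of_ne d)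
    rw [← fit_nil.pcore_sup (π := {p}), pcore_fit]
    exact cent_sup ((h q hq Q (hQ.le.trans inf_le_left) hQ.pi).trans (C_anti (pcore_sub (by simpa using d))))
      (hQ.le.trans (inf_le_right.trans (C_anti pcore_fit_le)))
  exact (frattini_arg hp n s).ge.trans (sup_le this inf_le_right)
end

/-- A criterion of Baumslag–Wiegold type for a term of the lower central series. Let G be a finite group and k ≥ 0; call an element a left-normed commutator value of length k + 1 when it has the form [[…[x₀, x₁], …], x_k] with k + 1 entries (for k = 0, any element), where [a, b] = aba⁻¹b⁻¹. Then the (k+1)-st term γ_{k+1}(G) of the lower central series (γ₁(G) = G) is nilpotent if and only if for every two such values x, y of coprime orders, either every prime dividing o(x)·o(y) divides o(xy), or o(x)·o(y) ≤ o(xy). -/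
theorem result {G : Type*} [Group G] [Finite G] (k : ℕ) :
    Group.IsNilpotent ↥((⊤ : Subgroup G).lowerCentralSeries k) ↔
      ∀ x y : G, (∃ f : Fin (k + 1) → G, x = ((List.ofFn f).tail).foldl (fun a b => a * b * a⁻¹ * b⁻¹) (f 0)) → (∃ f : Fin (k + 1) → G, y = ((List.ofFn f).tail).foldl (fun a b => a * b * a⁻¹ * b⁻¹) (f 0)) → (orderOf x).Coprime (orderOf y) →
        (∀ r : ℕ, r.Prime → r ∣ orderOf x * orderOf y → r ∣ orderOf (x * y)) ∨ orderOf x * orderOf y ≤ orderOf (x * y) := by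
  simp only [W_iff]
  refine ⟨fun h x y hx hy c => Or.inr (Commute.orderOf_mul_eq_mul_orderOf_of_coprime ?_ c).ge, fun h => ?_⟩
  · exact comm_of_cent (Nil.cent_coprime h (zpowers_le.2 hx.lcs) (zpowers_le.2 hy.lcs) (by simpa)) (mem_zpowers x) (mem_zpowers y)
  have a : A G k := fun x y hx c => by
    have e : orderOf (x⁻¹ * ⁅x, y⁆) = orderOf x := by
      rw [show x⁻¹ * ⁅x, y⁆ = y * x⁻¹ * y⁻¹ by simp [commutatorElement_def, mul_assoc], ← MulAut.conj_apply, MulEquiv.orderOf_eq, orderOf_inv]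
    rcases h _ _ hx.inv (W.pred Nml.rfl ⟨x, hx, y, trivial, rfl⟩) (by rwa [orderOf_inv]) with d | d
    · exact orderOf_eq_one_iff.1 (Nat.eq_one_iff_not_exists_prime_dvd.2 fun r hr f =>
        hr.ne_one (Nat.eq_one_of_dvd_coprimes c (e ▸ d r hr (f.mul_left _)) f))
    · rw [e, orderOf_inv] at d
      have := orderOf_pos x; have := orderOf_pos ⁅x, y⁆
      exact orderOf_eq_one_iff.1 (by nlinarith)
  have := a.solv
  refine nil_of solv_of_solv fun p hp P l pP => ?_
  have := (nml_top (K := (⊤ : Subgroup G).lowerCentralSeries k)).pcore (π := {p}ᶜ) |>.normal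
  exact a.key hp pcore_pi pP l

end Cfsg.Agent.S3900
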