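import Cfsg.Statements.S3901
import Cfsg.Agent.H21.Crit
import Cfsg.Agent.S0215

set_option autoImplicit false
open Cfsg

namespace Cfsg.Agent.S3901

open H18 H21 Subgroup

theorem four {Q : Type*} [Group Q] [Finite Q] (ns : ¬ Group.IsSolvable Q) (h : ∀ x : Q, ∃ p, PiElt {p} x) :
    ∃ a b : Q, orderOf a = 2 ∧ orderOf b = 2 ∧ a * b ≠ 1 ∧ (a * b) ^ 2 = 1 := by
  have p2 := Nat.prime_two
  obtain ⟨P⟩ : Nonempty (Sylow 2 Q) := inferInstance
  have hP := hall_sylow_top p2 P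
  have h1 : (P : Subgroup Q) ≠ ⊥ := fun e => ns (solv_top_iff.1 (solv_of_odd (e ▸ hP).compl_of_eq_bot))
  obtain ⟨u, hu, u2⟩ := cauchy p2 ((hP.pi.of_le inf_le_left).dvd_card (hP.pi.nil.Z_ne_bot h1))
  have uu : u * u = 1 := by rw [← pow_two, ← u2, pow_orderOf_eq_one]
  by_cases c : ∀ g : Q, g * u * g⁻¹ ∈ P → g * u * g⁻¹ = u
  · obtain ⟨M, nM, oM, hM⟩ := S0215.result P u u2 hu.1 c
    have oM' : PiGrp {2}ᶜ M := (piNat_compl_iff p2).2 (Nat.two_dvd_ne_zero.2 (Nat.odd_iff.1 oM))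
    have : ¬ PiGrp {2} (⊤ : Subgroup (Q ⧸ M)) := fun c => ns (solv_top_iff.1 (solv_of_mim (f := topq M) le_rfl
      (mim_topq_top M ▸ c.solv) (by rw [mker_topq, top_inf_eq]; exact solv_of_odd oM')))
    obtain ⟨r, hr, hd, r2⟩ := exists_prime_not_mem this
    obtain ⟨y, -, hy⟩ := cauchy hr hd
    obtain ⟨y, rfl⟩ := QuotientGroup.mk_surjective y
    have e : (u : Q ⧸ M) * y = y * u := by
      have := (QuotientGroup.eq_one_iff _).2 (hM y)
      simpa [mul_assoc, mul_inv_eq_one, mul_inv_eq_iff_eq_mul, ← mul_assoc] using this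
    have hu' : PiElt {2} (u : Q ⧸ M) := piElt_of_pow_eq_one p2 (by rw [pow_two, ← QuotientGroup.mk_mul, uu]; rfl)
    have hy' : PiElt {2}ᶜ (y : Q ⧸ M) := by rw [PiElt, hy]; exact (piNat_prime hr).2 r2
    obtain ⟨p, hp⟩ := h (u * y)
    have h2 : PiElt {p} ((u : Q ⧸ M) * y) := hp.of_dvd (orderOf_map_dvd (QuotientGroup.mk' M) _)
    have h3 := (h2.of_mem_zpowers (mem_zpowers_mul_right e hu' hy')).eq_of_dvd hr (hy ▸ dvd_rfl)
    have h4 := hu'.eq_one' ((h2.of_mem_zpowers (mem_zpowers_mul_left e hu' hy')).p'_of_ne (h3 ▸ r2))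
    exact absurd (u2 ▸ dvd_rfl) ((piNat_compl_iff p2).1 (oM'.elt ((QuotientGroup.eq_one_iff _).1 h4)))
  · push Not at c
    obtain ⟨g, h2, h3⟩ := c
    have e := mem_C.1 hu.2 _ h2
    refine ⟨u, g * u * g⁻¹, u2, by rw [orderOf_conj, u2], fun c => h3 (mul_left_cancel (c.trans uu.symm)), ?_⟩
    rw [(show Commute u (g * u * g⁻¹) from e.symm).mul_pow, conj_pow, pow_two, uu]; simp

/-- Let N be a non-trivial normal subgroup of the finite group G such that every element of G outside N has prime power order. If N is not solvable, then G/N is solvable. -/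
theorem result {G : Type*} [Group G] [Finite G] (N : Subgroup G) [N.Normal] (hN : N ≠ ⊥) (hns : ¬ Group.IsSolvable ↥N)
    (h : ∀ x : G, x ∉ N → IsPrimePow (orderOf x)) : Group.IsSolvable (G ⧸ N) := by
  by_contra ns
  have p2 := Nat.prime_two
  have pe : ∀ x : G, x ∉ N → ∃ p, PiElt {p} x := fun x hx => by
    obtain ⟨p, k, hp, -, hk⟩ := h x hx
    exact ⟨p, by rw [PiElt, ← hk]; exact piNat_pow_self hp.nat_prime k⟩
  have fpf : ∀ {r : ℕ} {x z : G}, x ∉ N → PiElt {r} x → z ∈ N → PiElt {r}ᶜ z → z ∈ C1(x) → z = 1 :=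
    fun {r x z} h1 h2 h3 h4 h5 => by
      obtain ⟨p, hp⟩ := pe (x * z) (by rwa [mul_mem_cancel_right h3])
      have e := (mem_C1.1 h5).symm
      by_cases c : p = r
      · exact ((c ▸ hp).of_mem_zpowers (mem_zpowers_mul_right e h2 h4)).eq_one' h4
      · exact absurd ((h2.eq_one' ((hp.of_mem_zpowers (mem_zpowers_mul_left e h2 h4)).p'_of_ne c)).symm ▸ N.one_mem) h1
  obtain ⟨p, hp, hd, p2'⟩ := exists_prime_not_mem (π := {2}) (n := Nat.card N) fun c => hns (PiGrp.solv c)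
  obtain ⟨P, hP⟩ := exists_sylow hp N
  obtain ⟨L, -, ⟨h1, h2⟩, h3⟩ := exists_minimal_sub (fun L : Subgroup G => L ≤ N(P) ∧ N ⊔ L = ⊤)
    ⟨le_rfl, by simpa using frattini_arg hp nml_top hP⟩
  have nK : L ⊓ N ⊴ L := nml_inf_of_norm norm_of_normal
  have hK : Nil (L ⊓ N) := phi_nil.of_le (le_phi inf_le_left fun M hM => by_contra fun c => by
    have : M ⊔ L ⊓ N = L := (hM.eq_or_eq le_sup_left (sup_le hM.le inf_le_left)).resolve_left
      fun e => c (e ▸ le_sup_right)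
    exact hM.ne (h3 M ⟨hM.le.trans h1, top_le_iff.1 (h2 ▸ sup_le le_sup_left
      (this ▸ sup_le le_sup_right (inf_le_right.trans le_sup_left)))⟩ hM.le))
  have lift : ∀ z : G ⧸ N, ∃ x ∈ L, (x : G ⧸ N) = z := fun z => by
    obtain ⟨g, rfl⟩ := QuotientGroup.mk_surjective z
    obtain ⟨a, ha, b, hb, rfl⟩ := (mem_sup_of_norm' norm_of_normal).1 (h2.ge (mem_top g))
    exact ⟨b, hb, by simp [(QuotientGroup.eq_one_iff a).2 ha]⟩
  obtain ⟨a, b, a2, b2, ab1, ab2⟩ := four ns fun z => by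
    obtain ⟨x, rfl⟩ := QuotientGroup.mk_surjective z
    by_cases c : x ∈ N
    · exact ⟨2, by rw [(QuotientGroup.eq_one_iff x).2 c]; exact PiElt.one⟩
    · exact (pe x c).imp fun p hp => hp.of_dvd (orderOf_map_dvd (QuotientGroup.mk' N) _)
  obtain ⟨a, ha, rfl⟩ := lift a
  obtain ⟨b, hb, rfl⟩ := lift b
  have key : ∀ Z : Subgroup G, Abel Z → PiGrp {2}ᶜ Z → Z ≤ N → L ≤ N(Z) → L ⊓ N ≤ C(Z) → Z = ⊥ := by
    intro Z z1 z2 z3 z4 z5
    have fix : ∀ x : G, orderOf (x : G ⧸ N) = 2 → ∀ z ∈ Z, z ∈ C1(x) → z = 1 := fun x hx z hz hc => by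
      have xN : x ∉ N := fun c => by simp [(QuotientGroup.eq_one_iff x).2 c] at hx
      obtain ⟨q, hq⟩ := pe x xN
      obtain rfl := hq.eq_of_dvd p2 (hx ▸ orderOf_map_dvd (QuotientGroup.mk' N) _)
      exact fpf xN hq (z3 hz) (z2.elt hz) hc
    have inv : ∀ x ∈ L, orderOf (x : G ⧸ N) = 2 → ∀ z ∈ Z, x * z * x⁻¹ = z⁻¹ := fun x hx x2 z hz => by
      have e1 := mem_C.1 (z5 (mem_inf.2 ⟨pow_mem hx 2, (QuotientGroup.eq_one_iff _).1 (by
        rw [QuotientGroup.mk_pow, ← x2, pow_orderOf_eq_one])⟩)) z hz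
      have e2 := comm_of_cent z1 hz (conj_mem z4 hx hz)
      refine eq_inv_of_mul_eq_one_right (fix x x2 _ (mul_mem hz (conj_mem z4 hx hz)) (mem_C1.2 ?_))
      calc _ = x * z * x⁻¹ * (z * x ^ 2) * x⁻¹ := by rw [e2]; group
        _ = _ := by rw [e1]; group
    refine eq_bot_iff.2 fun z hz => fix (a * b) (orderOf_eq_prime ab2 ab1) z hz (mem_C1.2 ?_)
    calc _ = a * (a⁻¹ * z * a) * b := by group
      _ = a * (b * z * b⁻¹) * b := by
        rw [inv b hb b2 z hz, show a⁻¹ * z * a = z⁻¹ by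
          have := inv a ha a2 _ (inv_mem hz)
          rw [inv_inv] at this
          rw [congrArg (fun w => a⁻¹ * w * a) this.symm]; group]
      _ = _ := by group
  have K2 : PiGrp {2} (L ⊓ N) := by_contra fun c => by
    obtain ⟨q, hq, hd, q2⟩ := exists_prime_not_mem c
    refine pcore_pi.nil.Z_ne_bot (hK.pcore_hall.ne_bot_p hq hd) (key _ abel_Z (PiGrp.inf_left (pcore_pi.p'_of_ne q2))
      (inf_le_left.trans (pcore_le.trans inf_le_right)) (norm_Z nK.pcore.2) ?_)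
    exact (hK.pcore_sup (π := {q})).ge.trans (sup_le Z_cent (cent_symm (inf_le_left.trans pcore_cent_compl)))
  obtain ⟨r, hr, rd, r2⟩ := exists_prime_not_mem (π := {2, p}) (n := Nat.card (⊤ : Subgroup (G ⧸ N)))
    fun c => ns (solv_top_iff.1 (solv_paqb p2 hp c))
  simp only [Set.mem_insert_iff, Set.mem_singleton_iff, not_or] at r2
  have : mim (topq N) L = ⊤ := eq_top_iff.2 fun z _ => by
    obtain ⟨x, hx, rfl⟩ := lift z
    exact mfun_topq N ▸ mfun_mem_mim hx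
  obtain ⟨y, hy, yr⟩ := cauchy hr ((this ▸ rd).trans card_mim_dvd)
  have y' : PiElt {r} y := by rw [PiElt, yr]; exact piNat_self hr
  have yN : y ∉ N := fun c => r2.1 ((K2.elt (mem_inf.2 ⟨hy, c⟩)).eq_of_dvd hr (yr ▸ dvd_rfl))
  have hr' : PiGrp {r}ᶜ (L ⊓ N ⊔ P) :=
    PiGrp.sup_norm (K2.p'_of_ne (Ne.symm r2.1)) (hP.pi.p'_of_ne (Ne.symm r2.2)) (inf_le_left.trans h1)
  have nil := H23.thompson_prime (K := L ⊓ N ⊔ P) (R := zpowers y) ((zpowers_le.2 hy).trans (norm_sup nK.2 h1))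
    (by rwa [card_zpowers', yr]) (eq_bot_iff.2 fun z hz => fpf yN y' (sup_le inf_le_right hP.le hz.1)
      (hr'.elt hz.1) (C_zpowers.le hz.2))
  exact hP.pi.nil.Z_ne_bot (hP.ne_bot_p hp hd) (key _ abel_Z (PiGrp.inf_left (hP.pi.p'_of_ne p2'))
    (inf_le_left.trans hP.le) (norm_Z h1)
    ((nil.cent_pi le_sup_left le_sup_right K2 (hP.pi.p'_of_ne p2')).trans (C_anti inf_le_left)))

end Cfsg.Agent.S3901
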