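import Cfsg.Statements.S3903
import Cfsg.Agent.H21.Crit

set_option autoImplicit false
open Cfsg

namespace Cfsg.Agent.S3903

open H18 H21 Subgroup

theorem pgrp {G : Type*} [Group G] [Finite G] {N : Subgroup G} (h : ∀ x : G, x ∉ N → IsPrimePow (orderOf x))
    {x : G} (hx : x ∉ N) {p : ℕ} (hp : PiElt {p} x) : PiGrp {p} C1(x) := by
  refine piGrp_of_prime_elt fun y hy yp => by_contra fun c => ?_
  have y' : PiElt {p}ᶜ y := (piNat_prime yp).2 c
  have e := (mem_C1.1 hy).symm
  obtain ⟨q, k, hq, -, hk⟩ := h (x * y) fun hN => hx (zpowers_le.2 hN (mem_zpowers_mul_left e hp y'))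
  have h1 : PiElt {q} (x * y) := by rw [PiElt, ← hk]; exact piNat_pow_self hq.nat_prime k
  have h2 := h1.of_mem_zpowers (mem_zpowers_mul_left e hp y')
  have h3 := (h1.of_mem_zpowers (mem_zpowers_mul_right e hp y')).eq_of_dvd yp dvd_rfl
  exact hx ((hp.eq_one' (h2.p'_of_ne (h3 ▸ c))).symm ▸ N.one_mem)

/-- Let N be a proper normal subgroup of the finite group G such that every element x of G outside N has prime power order and has centralizer C_G(x) a maximal subgroup of G. Then N is solvable. -/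
theorem result {G : Type*} [Group G] [Finite G] (N : Subgroup G) [N.Normal] (hN : N ≠ ⊤)
    (h : ∀ x : G, x ∉ N → IsPrimePow (orderOf x) ∧ IsCoatom (Subgroup.centralizer ({x} : Set G))) : Group.IsSolvable ↥N := by
  suffices Group.IsSolvable G from inferInstance
  by_contra ns
  have two : ∀ x : G, x ∉ N → Hall {2} C1(x) ⊤ := fun x hx => by
    obtain ⟨⟨p, k, hp, -, hk⟩, h2⟩ := h x hx
    have h3 := pgrp (fun x hx => (h x hx).1) hx (p := p) (by rw [PiElt, ← hk]; exact piNat_pow_self hp.nat_prime k)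
    by_cases e : p = 2
    · subst e
      refine sylow_of_max Nat.prime_two le_top h3 fun Q h4 h5 _ => ((h2.le_iff.1 h5).resolve_left ?_).le
      rintro rfl
      exact ns (solv_top_iff.1 h4.solv)
    · exact absurd (solv_of_nil_coatom h2 h3.nil (by simp [pcore_eq_bot_of_compl (h3.p'_of_ne e)])) ns
  obtain ⟨x, hx⟩ : ∃ x, x ∉ N := by simpa [eq_top_iff'] using hN
  set P := C1(x)
  have hP := two x hx
  have cP := (h x hx).2
  have sup : P ⊔ N = ⊤ := hP.sup_of_idx le_top (by
    rw [← piGrp_quo_iff norm_of_normal]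
    refine piGrp_of_elt fun z hz => ?_
    obtain ⟨y, -, rfl⟩ := (mem_quo norm_of_normal).1 hz
    by_cases c : y ∈ N
    · rw [cs_eq_one c]; exact PiElt.one
    · exact ((two y c).pi.elt C1_self).mfun (norm_of_normal (mem_top y)))
  have c1 : Nat.card G = P.index * Nat.card P := (P.index_mul_card).symm
  have c2 : Nat.card N = P.index * Nat.card (P ⊓ N : Subgroup G) := by
    have := Nrm2.card_sup (A := P) (B := N) (Or.inl norm_of_normal)
    rw [sup, card_top, c1] at this
    exact (Nat.eq_of_mul_eq_mul_left card_pos' (by rw [← this]; ring))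
  let Z : Set G := {z | z ∈ Z(P) ∧ z ∉ N}
  have c3 : (N : Set G)ᶜ ⊆ (fun a : (G ⧸ P) × Z => a.1.out * a.2 * a.1.out⁻¹) '' Set.univ := fun y hy => by
    obtain ⟨g, -, hg⟩ := sylow_conj Nat.prime_two hP (two y hy)
    obtain ⟨a, ha⟩ := QuotientGroup.mk_out_eq_mul P g
    have h1 : g⁻¹ * y * g ∈ Z(P) := by
      rw [← mem_cj, cj_Z, ← hg]; exact ⟨C1_self, le_C1_iff.1 le_rfl⟩
    refine ⟨(g, ⟨_, h1, fun c => hy (by simpa [mul_assoc] using conj_mem norm_of_normal (mem_top g) c)⟩), trivial, ?_⟩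
    have := conj_eq_self_of_C1 (le_C1_iff.2 h1.2 a.2)
    simp only [ha]
    calc _ = g * (a * (g⁻¹ * y * g) * (a : G)⁻¹) * g⁻¹ := by group
      _ = y := by rw [this]; group
  have c4 := (Set.ncard_le_ncard c3).trans (Set.ncard_image_le (Set.toFinite _))
  rw [Set.ncard_univ, Nat.card_prod, Set.ncard_compl, Nat.card_coe_set_eq] at c4
  have c5 : Z = (P : Set G) \ (P ⊓ N : Subgroup G) := Set.eq_of_subset_of_ncard_le
    (fun z hz => ⟨hz.1.1, fun c => hz.2 c.2⟩) (by
      rw [Set.ncard_sdiff (inf_le_left : P ⊓ N ≤ P)]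
      refine Nat.le_of_mul_le_mul_left (le_trans (le_of_eq ?_) c4) (Nat.pos_of_ne_zero index_ne_zero_of_finite)
      rw [Nat.mul_sub]
      exact congrArg₂ _ c1.symm c2.symm)
  have ab : Abel P := fun y hy => by
    have key : ∀ z ∈ P, z ∉ N → z ∈ C(P) := fun z h1 h2 => (c5.ge ⟨h1, fun c => h2 c.2⟩).1.2
    by_cases c : y ∈ N
    · exact (mul_mem_cancel_left (key x C1_self hx)).1 (key _ (mul_mem C1_self hy) (by rwa [mul_mem_cancel_right c]))
    · exact key y hy c
  exact ns (solv_of_nil_coatom cP ab.nil ((ab.mono pcore_le).der.le.trans bot_le))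

end Cfsg.Agent.S3903
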