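import Cfsg.Statements.S3906
import Cfsg.Agent.H7.KS4

set_option autoImplicit false
open Cfsg

namespace Cfsg.Agent.S3906

open H5 H7

/-- Let p be a prime and let k ≥ 3, c ≥ 0 and d ≥ 0 be integers with 2^d + 2 ≤ k. There is a bound B depending only on p, k, c and d such that the following holds for every finite group G of order prime to p and every elementary abelian subgroup A of order p^k of the automorphism group of G: if, for every non-identity a ∈ A, the d-th derived subgroup of the fixed-point subgroup C_G(a) (the 0-th derived subgroup of a group being the group itself) is nilpotent of class at most c, then the d-th derived subgroup of G is nilpotent of class at most B. -/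
theorem result (p k c d : ℕ) (hp : p.Prime) (hk : 3 ≤ k) (hd : 2 ^ d + 2 ≤ k) :
    ∃ B : ℕ, ∀ (G : Type) [Group G] [Finite G], (Nat.card G).Coprime p →
      ∀ A : Subgroup (MulAut G), Cfsg.IsElementaryAbelian p A → Nat.card ↥A = p ^ k →
        (∀ a ∈ A, a ≠ 1 → (derivedSeries ↥((a : MulAut G).toMonoidHom.eqLocus (MonoidHom.id G)) d).lowerCentralSeries c = ⊥) →
        (derivedSeries G d).lowerCentralSeries B = ⊥ := by
  haveI := Fact.mk hp
  refine ⟨KS.mf p (p ^ k) (p ^ k * (c + 1) + 1) k, fun G _ _ hG A hA hc h => ?_⟩
  obtain ⟨φ, hB, hφ⟩ := KS.exists_base hG hA hc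
  have := KS.main_der (m := c) hB hk hd fun a ha => by
    obtain ⟨x, x1, x2, e⟩ := hφ a ha
    rw [e, ← Lie.map_dser, ← Lie.map_dser, ← Subgroup.map_lowerCentralSeries, ← Subgroup.map_lowerCentralSeries,
      Lie.dser_top, h x x1 x2, Subgroup.map_bot, Subgroup.map_bot]
  rwa [H1.hl, ← Lie.map_dser, ← Subgroup.map_lowerCentralSeries, Lie.dser_top,
    Subgroup.map_eq_bot_iff_of_injective _ SemidirectProduct.inl_injective] at this

end Cfsg.Agent.S3906
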