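import Cfsg.Statements.S3910
import Cfsg.Agent.H21.Extra

set_option autoImplicit false
open Cfsg

namespace Cfsg.Agent.S3910

open H18 H21 Subgroup

/-- A finite nilpotent group in which any two abelian subgroups of the same order are conjugate is cyclic. -/
theorem result {G : Type*} [Group G] [Finite G] (hB : ∀ A B : Subgroup G, IsMulCommutative ↥A → IsMulCommutative ↥B → Nat.card ↥A = Nat.card ↥B → ∃ g : G, B = A.map (MulAut.conj g).toMonoidHom) (hnil : Group.IsNilpotent G) : IsCyclic G := by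
  have hN : Nil (⊤ : Subgroup G) := nil_top_iff.2 hnil
  refine isCyclic_of_surjective (hH := hN.cyc_of_sylow fun p hp _ => ?_) _ topEquiv.surjective
  set P := O[{p}]((⊤ : Subgroup G))
  have hP : PiGrp {p} P := pcore_pi
  have key : ∀ A B : Subgroup G, Abel A → Abel B → Nat.card A = Nat.card B → A ≤ P → A ⊴ P → B = A :=
    fun A B hA hB' e h1 h2 => by
      obtain ⟨g, rfl⟩ := hB A B hA.comm hB'.comm e
      refine cj_eq_self ((hN.pcore_sup (π := {p})).ge.trans (sup_le h2.norm
        (cent_norm (cent_symm (cent_mono pcore_cent_compl h1 le_rfl)))) (mem_top g))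
  obtain ⟨A, -, hA⟩ := H3.exists_SCN hp hP Nml.bot abel_bot
  have hA' := H3.scn_abel hA
  have hc : Cyc A := by
    by_contra hc
    obtain ⟨E, hE⟩ := (le_prank_iff hp).1 (hA'.one_lt_prank hp (hP.of_le hA.nml.le) hc)
    obtain ⟨X, x1, x2, x3⟩ := H3.exists_nml_card (n := 1) hp hP Nml.rfl
      ((Nat.pow_le_pow_right hp.pos one_le_two).trans (hE.card.ge.trans (card_le (hE.le.trans hA.nml.le))))
    rw [pow_one] at x3
    obtain ⟨Y, -, y2, y3⟩ := hE.exists_other hp x3
    exact y3 (key X Y (abel_of_prime (x3 ▸ hp)) (abel_of_prime (y2 ▸ hp)) (x3.trans y2.symm) x1 x2)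
  have h1 : P ≤ A := fun x hx => by
    obtain ⟨a, ha⟩ := (hP.of_le hA.nml.le).card_eq_pow
    obtain ⟨b, hb⟩ := (hP.of_le (zpowers_le.2 hx)).card_eq_pow
    rcases le_total a b with h | h
    · obtain ⟨U, u1, u2⟩ := exists_sub_card_pow hp (hb ▸ pow_dvd_pow p h)
      obtain rfl := key A U hA' (abel_zpowers.mono u1) (ha.trans u2.symm) hA.nml.le hA.nml
      exact hA.cent.le ⟨hx, cent_mono abel_zpowers le_rfl u1 (mem_zpowers x)⟩
    · obtain ⟨U, u1, u2⟩ := exists_sub_card_pow hp (ha ▸ pow_dvd_pow p h)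
      exact u1 ((key U _ (hA'.mono u1) abel_zpowers (u2.trans hb.symm) (u1.trans hA.nml.le)
        (hc.nml_sub u1 hA.nml)).le (mem_zpowers x))
  exact hc.of_le h1

end Cfsg.Agent.S3910
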