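import Cfsg.Statements.S3915
import Cfsg.Agent.H21.Crit
import Cfsg.Agent.H17.Comp

set_option autoImplicit false
open Cfsg

namespace Cfsg.Agent.S3915

open H18 H21 Subgroup

theorem two_elt {G : Type*} [Group G] [Finite G] {K : Subgroup G} (h : IsQuasisimple K) :
    ∃ x ∈ K, PiElt {2} x ∧ x ∉ C(K) := by
  by_contra! c
  obtain ⟨T, hT⟩ := exists_sylow Nat.prime_two K
  exact H17.qs_not_solvable h (solv_of_odd_idx nml_Z abel_Z.solv
    (hT.idx_of_le fun x hx => ⟨hT.le hx, c x (hT.le hx) (hT.pi.elt hx)⟩))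

/-- Let G be a finite group in which, for every prime p, any two cyclic p-subgroups of the same order are conjugate. If the layer E(G), the subgroup generated by the components of G, is non-trivial, then E(G)/Z(E(G)) is a non-abelian simple group. -/
theorem result {G : Type*} [Group G] [Finite G] (hP : ∀ (p : ℕ), p.Prime → ∀ A B : Subgroup G, IsCyclic ↥A → IsCyclic ↥B → IsPGroup p ↥A → Nat.card ↥A = Nat.card ↥B → ∃ g : G, B = A.map (MulAut.conj g).toMonoidHom) (hE : Cfsg.layer G ≠ ⊥) :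
    IsSimpleGroup (↥(Cfsg.layer G) ⧸ Subgroup.center ↥(Cfsg.layer G)) ∧ ¬ IsMulCommutative (↥(Cfsg.layer G) ⧸ Subgroup.center ↥(Cfsg.layer G)) := by
  have uniq : ∀ K L : Subgroup G, H17.IsComp K ⊤ → H17.IsComp L ⊤ → K = L := fun K L hK hL => by
    by_contra ne
    have c := comm_eq_bot_iff.1 ((hK.eq_or_commutator hL).resolve_left ne)
    obtain ⟨x, hx, x2, xc⟩ := two_elt (H17.isComp_top_iff.1 hK).2
    obtain ⟨y, hy, y2, yc⟩ := two_elt (H17.isComp_top_iff.1 hL).2
    have e := comm_of_cent c hx hy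
    have key : ∀ M : Subgroup G, H17.IsComp M ⊤ → ∀ z ∈ M, orderOf (x * y) ∣ orderOf z → False := fun M hM z hz hd => by
      obtain ⟨B, hB, cB⟩ : ∃ B ≤ zpowers z, Nat.card B = orderOf (x * y) := by
        obtain ⟨k, hk⟩ := (x2.mul' y2 e).eq_pow (orderOf_pos _).ne'
        rw [hk] at hd ⊢
        exact exists_sub_card_pow Nat.prime_two (by rwa [card_zpowers'])
      obtain ⟨g, hg⟩ := hP 2 Nat.prime_two B (zpowers (x * y)) (cyc_zpowers.of_le hB) cyc_zpowers
        (show PiGrp {2} B from by rw [PiGrp, cB]; exact x2.mul' y2 e).isPGroup (by rw [cB, card_zpowers'])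
      have h1 : x * y ∈ cj g M := cj_mono (hB.trans (zpowers_le.2 hz)) (by rw [cj_def, ← hg]; exact mem_zpowers _)
      have h2 : H17.IsComp (cj g M) ⊤ := hM.cj_of_mem_normalizer (by simp)
      rcases h2.eq_or_commutator hK with h3 | h3
      · have := (cent_symm c) hy
        rw [h3] at h1
        exact yc (c (by simpa using mul_mem (inv_mem hx) h1))
      · exact xc (by simpa using mul_mem (comm_eq_bot_iff.1 h3 h1) (inv_mem (cent_symm c hy)))
    obtain ⟨i, hi⟩ := x2.eq_pow (orderOf_pos _).ne'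
    obtain ⟨j, hj⟩ := y2.eq_pow (orderOf_pos _).ne'
    have d := Commute.orderOf_mul_dvd_lcm (show Commute x y from e)
    rcases le_total i j with h | h
    · exact key L hL y hy (d.trans (Nat.lcm_dvd (by rw [hi, hj]; exact pow_dvd_pow 2 h) dvd_rfl))
    · exact key K hK x hx (d.trans (Nat.lcm_dvd dvd_rfl (by rw [hi, hj]; exact pow_dvd_pow 2 h)))
  obtain ⟨K, hK⟩ : ∃ K : Subgroup G, H17.IsComp K ⊤ := by
    by_contra! c
    exact hE (H17.lay_top.symm.trans (H17.lay_eq_bot_iff.2 c))
  have : layer G = K := by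
    rw [← H17.lay_top]
    exact le_antisymm (H17.lay_le_iff.2 fun L hL => (uniq L K hL hK).le) hK.le_lay
  have q : IsQuasisimple (layer G) := this ▸ (H17.isComp_top_iff.1 hK).2
  refine ⟨q.2, fun c => H17.qs_not_solvable q ?_⟩
  refine solv_top_iff.1 (solv_of_mim (f := topq (center _)) le_rfl (abel_of_comm ?_).solv (Abel.solv ?_))
  · infer_instance
  · rw [mker_topq, top_inf_eq]; exact abel_of_comm inferInstance

end Cfsg.Agent.S3915
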