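import Cfsg.Statements.S3917
import Cfsg.Agent.H21.Extra

set_option autoImplicit false
open Cfsg

namespace Cfsg.Agent.S3917

open H18 H21 Subgroup

/-- Say that a group has self-centralizing non-cyclic subgroups when every non-cyclic subgroup H satisfies C_G(H) ≤ H. A finite abelian group with self-centralizing non-cyclic subgroups is cyclic or elementary abelian of order p² for a prime p. -/
theorem result {G : Type*} [CommGroup G] [Finite G] (hX : (∀ H : Subgroup G, ¬ IsCyclic ↥H → Subgroup.centralizer (H : Set G) ≤ H)) :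
    IsCyclic G ∨ ∃ p : ℕ, p.Prime ∧ Nat.card G = p ^ 2 ∧ Monoid.exponent G = p := by
  refine or_iff_not_imp_left.2 fun h => ?_
  have hA : Abel (⊤ : Subgroup G) := abel_top_iff.2 inferInstance
  obtain ⟨p, hp, A, hA'⟩ := hA.exists_pelem_two fun h1 => h (isCyclic_of_surjective _ topEquiv.surjective)
  obtain rfl : A = ⊤ := top_le_iff.1 ((cent_mono hA le_rfl le_top).trans (hX A (hA'.not_cyc hp le_rfl)))
  obtain ⟨x, -, hx⟩ := exists_mem_ne_one' (hA'.ne_bot hp two_ne_zero)
  exact ⟨p, hp, card_top.symm.trans hA'.card, Nat.dvd_antisymm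
    (Monoid.exponent_dvd_of_forall_pow_eq_one fun g => hA'.elem.pow g trivial)
    (hA'.elem.orderOf hp trivial hx ▸ Monoid.order_dvd_exponent x)⟩

end Cfsg.Agent.S3917
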