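import Cfsg.Statements.S3918
import Cfsg.Agent.H3.BG4a
import Cfsg.Agent.H22.Basic

set_option autoImplicit false
open Cfsg

namespace Cfsg.Agent.S3918

open H18 Subgroup

/-- Say that a group has self-centralizing non-cyclic subgroups when every non-cyclic subgroup H satisfies C_G(H) ≤ H. For an odd prime p, a finite non-abelian p-group has self-centralizing non-cyclic subgroups if and only if it has order p³. -/
theorem result {G : Type*} [Group G] [Finite G] {p : ℕ} [Fact p.Prime] (hp : p ≠ 2) (hG : IsPGroup p G) (hna : ¬ IsMulCommutative G) :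
    (∀ H : Subgroup G, ¬ IsCyclic ↥H → Subgroup.centralizer (H : Set G) ≤ H) ↔ Nat.card G = p ^ 3 := by
  have pp : p.Prime := Fact.out
  have hP : PiGrp {p} (⊤ : Subgroup G) := piGrp_of_isPGroup pp (hG.to_subgroup _)
  have ha : ¬ Abel (⊤ : Subgroup G) := fun h => hna ⟨⟨fun a b => comm_of_cent h (mem_top a) (mem_top b)⟩⟩
  constructor
  · intro h
    obtain ⟨n, hn⟩ := hP.card_eq_pow
    obtain ⟨E, hE, he⟩ := H3.ex_odd_normal_p2Elem pp hP (hn ▸ (pp.odd_of_ne_two hp).pow)
      fun c => ha c.abel
    have hC := h E (he.not_cyc pp le_rfl)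
    have hZ : Z((⊤ : Subgroup G)) ≤ E := inf_le_right.trans ((C_anti le_top).trans hC)
    have hne : Z((⊤ : Subgroup G)) ≠ E := fun e => ha (by
      have : (⊤ : Subgroup G) ≤ E := (e ▸ Z_cent).trans hC
      exact he.abel.mono this)
    have h1 := card_eq_of_lt_sq pp he.card (lt_of_le_of_ne hZ hne)
      (hP.nil.Z_ne_bot (ne_bot_of_not_abel ha))
    obtain ⟨x, hx, hx'⟩ := SetLike.exists_of_lt (lt_of_le_of_ne hZ hne)
    have h2 : Z((⊤ : Subgroup G)) ⊔ zpowers x = E := by
      refine (eq_or_eq_of_prime_relIndex ?_ le_sup_left (sup_le hZ (zpowers_le.mpr hx))).resolve_left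
        fun e => hx' (e ▸ mem_sup_right (mem_zpowers x))
      rw [relIndex_eq_of_mul hZ (n := p) (by rw [he.card, h1, pow_two])]
      exact pp
    have h3 : C1(x) = E := by
      refine le_antisymm (le_trans ?_ hC) (he.abel.trans (C_le_C1 hx))
      rw [← h2]
      exact cent_sup (le_top.trans Z_cent) C_zpowers.ge
    have h4 : E.index < p ^ 2 := by
      rw [← h3, ← H22.ncard_isConj, ← he.card, ← SetLike.coe_sort_coe, Nat.card_coe_set_eq]
      refine Set.ncard_lt_ncard ⟨fun y hy => ?_, fun e => hx' ?_⟩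
      · obtain ⟨g, rfl⟩ := isConj_iff.mp hy
        exact conj_mem hE.2 (mem_top g) hx
      · rw [isConj_one_left.mp (e E.one_mem)]
        exact one_mem _
    obtain ⟨k, hk⟩ := (hP.relIndex (A := E)).eq_pow relIndex_ne_zero
    rw [relIndex_top_right] at hk
    rw [hk, Nat.pow_lt_pow_iff_right pp.one_lt] at h4
    rw [← E.index_mul_card, hk, he.card, ← pow_add]
    obtain rfl | rfl : k = 0 ∨ k = 1 := by omega
    · exact absurd (index_eq_one.mp hk ▸ he.abel) ha
    · rfl
  · intro h H hH
    have h1 : p ^ 2 ≤ Nat.card H := by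
      obtain ⟨k, hk⟩ := (hP.of_le (le_top (a := H))).card_eq_pow
      rw [hk]
      refine Nat.pow_le_pow_right pp.pos (not_lt.mp fun c => hH ((hP.of_le le_top).cyc_of_card_le pp ?_))
      rw [hk]
      exact (Nat.pow_le_pow_right pp.pos (show k ≤ 1 by omega)).trans (pow_one p).le
    by_cases e : H = ⊤
    · exact e ▸ le_top
    have h2 : H.relIndex ⊤ = p := by
      obtain ⟨k, hk⟩ := (hP.relIndex (A := H)).eq_pow relIndex_ne_zero
      have h3 := card_mul_relIndex (le_top (a := H))
      rw [card_top, h, hk] at h3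
      have h4 : p ^ (2 + k) ≤ p ^ 3 := by
        rw [pow_add, ← h3]
        exact Nat.mul_le_mul_right _ h1
      rw [Nat.pow_le_pow_iff_right pp.one_lt] at h4
      obtain rfl | rfl : k = 0 ∨ k = 1 := by omega
      · exact absurd (top_le_iff.mp (relIndex_eq_one_iff.mp hk)) e
      · rw [hk, pow_one]
    have h3 : Abel H := abel_of_card_sq pp (by
      have h3 := card_mul_relIndex (le_top (a := H))
      rw [card_top, h, h2, pow_succ] at h3
      exact Nat.eq_of_mul_eq_mul_right pp.pos h3)
    rcases eq_or_eq_of_prime_relIndex (h2.symm ▸ pp) h3 le_top with c | c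
    · exact c.le
    · exact absurd (abel_of_relIndex_prime (cent_symm c.ge) (h2.symm ▸ pp)) ha

end Cfsg.Agent.S3918
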