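import Cfsg.Statements.S3919
import Cfsg.Agent.H9.MaxClass

set_option autoImplicit false
open Cfsg

namespace Cfsg.Agent.S3919

/-- Say that a group has self-centralizing non-cyclic subgroups when every non-cyclic subgroup H satisfies C_G(H) ≤ H. A finite non-abelian 2-group G of order 2^n has self-centralizing non-cyclic subgroups if and only if G has nilpotency class n − 1 (that is, G is dihedral, semidihedral or generalized quaternion). -/
theorem result {G : Type*} [Group G] [Finite G] (hna : ¬ IsMulCommutative G) (n : ℕ) (hG : Nat.card G = 2 ^ n) :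
    (∀ H : Subgroup G, ¬ IsCyclic ↥H → Subgroup.centralizer (H : Set G) ≤ H) ↔ (⊤ : Subgroup G).lowerCentralSeries (n - 2) ≠ ⊥ := by
  have hG' : IsPGroup 2 G := IsPGroup.of_card hG
  have hna' := H9.not_comm_top hna
  obtain ⟨m, rfl⟩ : ∃ m, n = m + 3 := ⟨n - 3, by
    by_contra h
    refine hna' (H9.isMulCommutative_of_card_le_four (hG'.to_subgroup ⊤) ?_)
    rw [Subgroup.card_top, hG]
    exact Nat.pow_le_pow_right two_pos (by omega : n ≤ 2)⟩
  change _ ↔ (⊤ : Subgroup G).lowerCentralSeries (m + 1) ≠ ⊥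
  constructor
  · intro h
    suffices h1 : ∃ k x, H9.MC (⊤ : Subgroup G) k x by
      obtain ⟨k, x, h1⟩ := h1
      have := Nat.pow_right_injective le_rfl (hG.symm.trans (Subgroup.card_top.symm.trans h1.card_eq))
      exact (by omega : k = m) ▸ h1.lcs_ne_bot
    rcases H9.cyclic_or_mc_or_normal (hG'.to_subgroup ⊤) with h1 | h1 | ⟨W, h1, h2⟩
    · exact absurd h1 (H9.not_isCyclic_of_not_comm hna')
    · exact h1.2
    · have h3 := h W (H3.not_cyc_of_pElem Nat.prime_two (H3.pElem_of_le h2 le_rfl))
      have h4 := H9.class_of_selfcent (m + 1) G hG W h2.card (le_antisymm h3 h2.elem.abel)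
      have := hG'.isNilpotent
      obtain ⟨x, h5⟩ := H9.mc_of_lcs_ne_bot (P := (⊤ : Subgroup G)) (Subgroup.card_top.trans hG)
        fun h => by
          have := Subgroup.lowerCentralSeries_eq_bot_iff_nilpotencyClass_le.1 h
          omega
      exact ⟨_, x, h5⟩
  · intro h H hH c hc
    obtain ⟨x, h1⟩ := H9.mc_of_lcs_ne_bot (Subgroup.card_top.trans hG) h
    rcases h1.sub_cases (le_top : H ≤ ⊤) with h2 | ⟨g, hg, hg', h2⟩ | ⟨j, a, h2, h3, h4⟩
    · exact absurd (Subgroup.isCyclic_of_le h2) hH
    · have hu : x ^ 2 ^ (m + 1) ∈ H := by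
        by_contra hu
        refine hH (Subgroup.isCyclic_of_le (H' := Subgroup.zpowers g) fun d hd => ?_)
        rcases h2 d hd with rfl | rfl | rfl | rfl
        exacts [one_mem _, absurd hd hu, Subgroup.mem_zpowers _,
          absurd ((Subgroup.mul_mem_cancel_right H hg).1 hd) hu]
      rcases h1.cent_out trivial hg' (Subgroup.mem_top c) (hc g hg).symm with rfl | rfl | rfl | rfl
      exacts [one_mem _, hu, hg, mul_mem hu hg]
    · obtain ⟨g, hg, hg'⟩ := h2.exists_out
      have hg2 : g ∉ Subgroup.zpowers x := fun h5 => hg' (h3.le ⟨hg, h5⟩)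
      have h5 : c ∈ Subgroup.zpowers x := h1.mem_zpowers_of_commute trivial
        (h3.ge (Subgroup.mem_zpowers a)).2 (pow_two a ▸ h2.sq_ne_one) (hc a h2.xmem).symm
      rcases h1.cent trivial hg2 h5 (hc g hg) with rfl | rfl
      exacts [one_mem _, h4 ▸ h2.umem]

end Cfsg.Agent.S3919
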