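import Cfsg.Statements.S3920
import Cfsg.Agent.H18.Cyc

set_option autoImplicit false
open Cfsg

namespace Cfsg.Agent.S3920

open H18 Subgroup DihedralGroup

/-- Say that a group has self-centralizing non-cyclic subgroups when every non-cyclic subgroup H satisfies C_G(H) ≤ H. For n ≥ 3, the dihedral group of order 2n has self-centralizing non-cyclic subgroups if and only if n is odd or a power of 2. -/
theorem result (n : ℕ) (hn : 3 ≤ n) : (∀ H : Subgroup (DihedralGroup n), ¬ IsCyclic ↥H → Subgroup.centralizer (H : Set (DihedralGroup n)) ≤ H) ↔ (Odd n ∨ ∃ k : ℕ, n = 2 ^ k) := by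
  haveI : NeZero n := ⟨by omega⟩
  have hr : ∀ i : ZMod n, r i ∈ zpowers (r (1 : ZMod n)) := fun i =>
    ⟨(i.val : ℤ), by simp⟩
  constructor
  · intro h
    by_contra hc
    push Not at hc
    obtain ⟨p, pp, hp, h2⟩ : ∃ p : ℕ, p.Prime ∧ p ∣ n ∧ p ≠ 2 := by
      by_contra hn'
      push Not at hn'
      obtain ⟨k, hk⟩ := PiNat.eq_pow (p := 2) (n := n) (fun q a b => hn' q a b) (by omega)
      exact hc.2 k hk
    obtain ⟨k, hk⟩ := hp
    have ho := pp.odd_of_ne_two h2
    obtain ⟨l, rfl⟩ : 2 ∣ k := by
      rw [← even_iff_two_dvd, ← Nat.not_odd_iff_even]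
      exact fun e => hc.1 (hk ▸ ho.mul e)
    have hl : 0 < l := Nat.pos_of_ne_zero (by rintro rfl; omega)
    let φ := ZMod.castHom (show 2 * l ∣ n from ⟨p, by rw [hk, mul_comm]⟩) (ZMod (2 * l))
    let H : Subgroup (DihedralGroup n) :=
      { carrier := {g | match g with | r i => φ i = 0 | sr i => φ i = 0}
        one_mem' := map_zero φ
        mul_mem' := by
          rintro (a | a) (b | b) ha hb
          · exact (map_add φ a b).trans (by rw [ha, hb, add_zero])
          · exact (map_sub φ b a).trans (by rw [ha, hb, sub_zero])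
          · exact (map_add φ a b).trans (by rw [ha, hb, add_zero])
          · exact (map_sub φ b a).trans (by rw [ha, hb, sub_zero])
        inv_mem' := by
          rintro (a | a) ha
          · exact (map_neg φ a).trans (by rw [ha, neg_zero])
          · exact ha }
    have h1 : ¬ IsCyclic H := fun c => by
      have := comm_of_cent (Cyc.abel c) (show r ((2 * l : ℕ) : ZMod n) ∈ H from by
        change φ _ = 0
        rw [map_natCast, ZMod.natCast_self]) (show sr 0 ∈ H from map_zero φ)
      rw [r_mul_sr, sr_mul_r, sr.injEq, zero_sub, zero_add, neg_eq_iff_add_eq_zero, ← Nat.cast_add,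
        ZMod.natCast_eq_zero_iff, hk, ← two_mul] at this
      exact h2 ((Nat.prime_dvd_prime_iff_eq pp Nat.prime_two).mp
        (Nat.dvd_of_mul_dvd_mul_right (by omega) this))
    have e : ((p * l : ℕ) : ZMod n) + (p * l : ℕ) = 0 := by
      rw [← Nat.cast_add, ZMod.natCast_eq_zero_iff, hk]
      exact ⟨1, by ring⟩
    have h3 : r ((p * l : ℕ) : ZMod n) ∈ H := h H h1 (by
      rintro (a | a) -
      · rw [r_mul_r, r_mul_r, add_comm]
      · rw [r_mul_sr, sr_mul_r, sub_eq_add_neg, neg_eq_of_add_eq_zero_right e])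
    change φ _ = 0 at h3
    rw [map_natCast, ZMod.natCast_eq_zero_iff] at h3
    exact Nat.not_even_iff_odd.mpr ho (even_iff_two_dvd.mpr (Nat.dvd_of_mul_dvd_mul_right hl h3))
  · intro h H hH
    obtain ⟨j, hj⟩ : ∃ j, sr j ∈ H := by
      by_contra c
      push Not at c
      refine hH (cyc_zpowers.of_le (show H ≤ zpowers (r 1) from ?_))
      rintro (a | a) ha
      exacts [hr a, absurd ha (c a)]
    have h1 : H ⊓ zpowers (r 1) ≠ ⊥ := fun e => hH (cyc_zpowers.of_le (show H ≤ zpowers (sr j) from by
      rintro (a | a) ha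
      · rw [eq_one_of_eq_bot e ⟨ha, hr a⟩]
        exact one_mem _
      · have := eq_one_of_eq_bot e ⟨mul_mem hj ha, hr (a - j)⟩
        rw [← inv_eq_of_mul_eq_one_right this]
        exact inv_mem (mem_zpowers _)))
    have key : ∀ k : ZMod n, k + k = 0 → r k ∈ H := by
      intro k hk
      have hk' : r k ^ 2 = 1 := by rw [pow_two, r_mul_r, hk, r_zero]
      rcases h with ho | ⟨m, hm⟩
      · have : r k ^ n = 1 := by simp
        rw [(orderOf_eq_one_iff (x := r k)).mp (Nat.eq_one_of_dvd_coprimes (Nat.coprime_two_left.2 ho)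
          (orderOf_dvd_of_pow_eq_one hk') (orderOf_dvd_of_pow_eq_one this))]
        exact one_mem _
      · exact (cyc_zpowers.omega_le_of_ne_bot (piGrp_of_card_pow Nat.prime_two
          (card_zpowers'.trans (orderOf_r_one.trans hm))) inf_le_right h1 (mem_omega (hr k) hk')).1
    rintro (a | a) ha
    · have := ha _ hj
      rw [r_mul_sr, sr_mul_r, sr.injEq] at this
      exact key a (by linear_combination this)
    · have := ha _ hj
      rw [sr_mul_sr, sr_mul_sr, r.injEq] at this
      have := mul_mem hj (key (a - j) (by linear_combination this))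
      rwa [sr_mul_r, add_sub_cancel] at this

end Cfsg.Agent.S3920
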