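import Cfsg.Statements.S3927
import Cfsg.Agent.H16.Zip2
import Mathlib.GroupTheory.SemidirectProduct

set_option autoImplicit false
open Cfsg

namespace Cfsg.Agent.S3927

open Subgroup SemidirectProduct

/-- Let G be a finite group and α an automorphism of G with [G, α] = G, that is, the elements g·α(g)⁻¹ generate G. Then for every k ≥ 1 the iterated commutators [g, α, …, α] with k entries α — the values of the k-th iterate of the map c ↦ c·α(c)⁻¹ — also generate G. -/
theorem result {G : Type*} [Group G] [Finite G] (α : MulAut G) (hG : Subgroup.closure (Set.range (fun c : G => c * (α c)⁻¹)) = ⊤) (k : ℕ) (hk : 1 ≤ k) :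
    Subgroup.closure (Set.range ((fun c : G => c * (α c)⁻¹)^[k])) = ⊤ := by
  let X := G ⋊[(zpowers α).subtype] zpowers α
  have : Finite X := Finite.of_equiv _ SemidirectProduct.equivProd.symm
  let a : X := inr ⟨α, mem_zpowers α⟩
  let g : G → G := fun c => c * (α c)⁻¹
  let f : X → X := fun c => c * a * c⁻¹ * a⁻¹
  have hcomm : ∀ β ∈ zpowers α, β * α = α * β := by
    rintro _ ⟨n, rfl⟩
    exact (Commute.refl α).zpow_left n
  have hf : ∀ x : X, f x = inl (g x.left) := by
    intro x
    have h1 : Commute (inr x.right : X) a := by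
      refine (show Commute x.right ⟨α, mem_zpowers α⟩ from Subtype.ext (hcomm _ x.right.2)).map inr
    have h2 : (inl (α x.left)⁻¹ : X) = a * (inl x.left)⁻¹ * a⁻¹ := by
      rw [← map_inv, ← map_inv, ← map_inv]
      exact inl_aut (φ := (zpowers α).subtype) ⟨α, mem_zpowers α⟩ x.left⁻¹
    change x * a * x⁻¹ * a⁻¹ = inl (x.left * (α x.left)⁻¹)
    rw [map_mul, h2]
    conv_lhs => rw [← inl_left_mul_inr_right x]
    rw [mul_assoc (inl x.left), h1.eq]
    simp only [mul_inv_rev, mul_assoc, mul_inv_cancel_left]
  have hF : H16.Full (zpowers a) ⊤ := by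
    refine ⟨le_top, fun L h1 h2 => ?_⟩
    have := H2.normal_of_top_le_normalizer h2
    have ha : a ∈ L := h1 (mem_zpowers a)
    have h3 : ∀ c : G, (inl c : X) ∈ L := by
      intro c
      have : closure (Set.range (fun c : G => c * (α c)⁻¹)) ≤ L.comap (inl : G →* X) := by
        rw [closure_le]
        rintro _ ⟨c, rfl⟩
        have := hf (inl c)
        change (inl (g c) : X) ∈ L
        rw [left_inl] at this
        rw [← this]
        exact L.mul_mem (Normal.conj_mem inferInstance a ha _) (L.inv_mem ha)
      exact this (hG ▸ mem_top c)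
    rintro x -
    rw [← inl_left_mul_inr_right x]
    refine L.mul_mem (h3 _) ?_
    obtain ⟨β, n, rfl⟩ := x.right
    have := L.zpow_mem ha n
    rwa [← map_zpow] at this
  set E := closure (Set.range g^[k]) with hE
  have hinv : ∀ β ∈ zpowers α, ∀ c ∈ E, β c ∈ E := by
    intro β hβ
    have : E ≤ E.comap β.toMonoidHom := by
      rw [hE, closure_le]
      rintro _ ⟨c, rfl⟩
      have : Function.Semiconj β g g := fun c => by
        have := congrArg (fun γ : MulAut G => γ c) (hcomm β hβ)
        simpa [g] using this
      exact subset_closure ⟨β c, ((this.iterate_right k) c).symm⟩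
    exact fun c hc => this hc
  let S : Subgroup X :=
    { carrier := {x | x.left ∈ E}
      one_mem' := E.one_mem
      mul_mem' := fun {x y} hx hy => E.mul_mem hx (hinv _ x.right.2 _ hy)
      inv_mem' := fun {x} hx => hinv _ (x.right⁻¹).2 _ (E.inv_mem hx) }
  have hS : S = ⊤ := by
    refine top_le_iff.mp ((H16.iter_comm_gen a hF k).ge.trans (sup_le ((closure_le _).mpr ?_) ?_))
    · rintro _ ⟨x, rfl⟩
      obtain ⟨j, rfl⟩ := Nat.exists_eq_succ_of_ne_zero (show k ≠ 0 by omega)
      have : Function.Semiconj (inl : G →* X) g f := fun c => by rw [hf, left_inl]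
      change (f^[j + 1] x).left ∈ E
      rw [Function.iterate_succ_apply, hf, ← (this.iterate_right j) _, left_inl]
      exact subset_closure ⟨x.left, rfl⟩
    · rw [zpowers_le]
      exact E.one_mem
  exact top_le_iff.mp fun c _ => (hS ▸ mem_top (inl c : X) : (inl c : X) ∈ S)

end Cfsg.Agent.S3927
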