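import Cfsg.Statements.S3949
import Cfsg.Agent.H18.Hall

set_option autoImplicit false
open Cfsg

namespace Cfsg.Agent.S3949

open H18 Subgroup

/-- Let G be a finite group and α an automorphism of G of order 2 such that the elements g·α(g)⁻¹ generate G. Let j be a positive integer such that 2^j divides the order of no element inverted by α. Then the set of values of the j-th iterate of the map c ↦ c·α(c)⁻¹ is exactly the set of elements of odd order inverted by α. -/
theorem result {G : Type*} [Group G] [Finite G] (α : MulAut G) (hα : orderOf α = 2) (hG : Subgroup.closure (Set.range (fun c : G => c * (α c)⁻¹)) = ⊤)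
    (j : ℕ) (hj : ∀ g : G, α g = g⁻¹ → ¬ 2 ^ j ∣ orderOf g) :
    Set.range ((fun c : G => c * (α c)⁻¹)^[j]) = {g : G | Odd (orderOf g) ∧ α g = g⁻¹} := by
  have a2 : ∀ x, α (α x) = x := fun x => by
    rw [← MulAut.mul_apply, ← pow_two, ← hα, pow_orderOf_eq_one]; rfl
  have it : ∀ n (x : G), α x = x⁻¹ → (fun c : G => c * (α c)⁻¹)^[n] x = x ^ 2 ^ n := fun n => by
    induction n with
    | zero => simp
    | succ n ih =>
      intro x hx
      rw [Function.iterate_succ_apply', ih x hx]
      simp only [map_pow, hx, inv_pow, inv_inv]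
      rw [pow_succ, pow_mul, pow_two]
  obtain ⟨j, rfl⟩ : ∃ i, j = i + 1 := Nat.exists_eq_succ_of_ne_zero (by rintro rfl; simpa using hj 1)
  ext h
  constructor
  · rintro ⟨g, rfl⟩
    have e : α (g * (α g)⁻¹) = (g * (α g)⁻¹)⁻¹ := by simp [a2]
    rw [Function.iterate_succ_apply, it j _ e]
    refine ⟨?_, by rw [map_pow, e, inv_pow]⟩
    have h1 := hj _ e
    generalize g * (α g)⁻¹ = y at h1
    rw [← Nat.not_even_iff_odd, even_iff_two_dvd, orderOf_pow]
    intro c
    obtain ⟨k, hk, e⟩ := (Nat.dvd_prime_pow Nat.prime_two).1 (Nat.gcd_dvd_right (orderOf y) (2 ^ j))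
    have c2 : 2 ^ (k + 1) ∣ orderOf y := by
      rw [← Nat.div_mul_cancel (Nat.gcd_dvd_left (orderOf y) (2 ^ j)), pow_succ']
      exact mul_dvd_mul c (e ▸ dvd_rfl)
    rcases hk.lt_or_eq with l | rfl
    · have := Nat.dvd_gcd c2 (pow_dvd_pow 2 l)
      rw [e] at this
      exact absurd ((Nat.pow_dvd_pow_iff_le_right one_lt_two).1 this) (by omega)
    · exact h1 c2
  · rintro ⟨h1, h2⟩
    obtain ⟨m, hm⟩ := exists_pow_eq_self_of_coprime (x := h) (n := 2 ^ (j + 1))
      ((Nat.coprime_two_left.2 h1).pow_left _)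
    exact ⟨h ^ m, by rw [it _ _ (by rw [map_pow, h2, inv_pow]), ← pow_mul, mul_comm, pow_mul, hm]⟩

end Cfsg.Agent.S3949
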