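import Cfsg.Statements.S3928
import Cfsg.Agent.H16.Zip3
import Cfsg.Agent.S3927
import Cfsg.Agent.S3949

set_option autoImplicit false
open Cfsg

namespace Cfsg.Agent.S3928


/-- There is a function f such that for every non-trivial finite group G and every automorphism α of G of order 2 with [G, α] = G (the elements g·α(g)⁻¹ generate G), the order of G is at most f(m), where m is the number of elements of odd order inverted by α. -/
theorem result : ∃ f : ℕ → ℕ, ∀ (G : Type) [Group G] [Finite G] [Nontrivial G] (α : MulAut G), orderOf α = 2 →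
    Subgroup.closure (Set.range (fun c : G => c * (α c)⁻¹)) = ⊤ →
      Nat.card G ≤ f (Nat.card {g : G // Odd (orderOf g) ∧ α g = g⁻¹}) := by
  choose f hf using H16.js_bound.{0}
  refine ⟨f, fun G _ _ _ α hα hG => hf _ G α.toMonoidHom (fun x => ?_) ?_ ?_⟩
  · change α (α x) = x
    rw [← MulAut.mul_apply, ← pow_two, ← hα, pow_orderOf_eq_one]
    rfl
  · have h1 := Cfsg.Agent.S3927.result α hG (Nat.card G) Nat.card_pos
    rwa [Cfsg.Agent.S3949.result α hα hG (Nat.card G) fun g _ h => by
      have := Nat.le_of_dvd Nat.card_pos (h.trans (orderOf_dvd_natCard g))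
      have := Nat.lt_two_pow_self (n := Nat.card G)
      omega] at h1
  · exact (Nat.card_coe_set_eq _).ge

end Cfsg.Agent.S3928
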