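import Cfsg.Statements.S3933
import Cfsg.Agent.H21.Crit
import Cfsg.Agent.H18.BG1

set_option autoImplicit false
open Cfsg

namespace Cfsg.Agent.S3933

open Subgroup H18
universe u

def Q (G : Type*) [Group G] : Prop :=
  ∀ (r : ℕ) [Fact r.Prime], ∃ s : ℕ, s.Prime ∧ PiNat {s} (Nat.card (Sylow r G))

theorem simple {G : Type*} [Group G] [Finite G] [IsSimpleGroup G] (h : Q G) : Group.IsSolvable G := by
  have k : ∀ r : ℕ, r.Prime → ∃ s : ℕ, s.Prime ∧ ∀ P : Subgroup G, Hall {r} P ⊤ → PiNat {s} (N(P).relIndex ⊤) := fun r hr => by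
    have := Fact.mk hr
    obtain ⟨s, h1, h2⟩ := h r
    refine ⟨s, h1, fun P hP => ?_⟩
    obtain ⟨S, rfl⟩ := hP.exists_sylow_top hr
    rwa [relIndex_top_right, S.coe_coe, ← S.card_eq_index_normalizer]
  choose! f f1 f2 using k
  by_contra ns
  have two : ∀ p q : ℕ, p.Prime → q.Prime → ¬ PiGrp {p, q} (⊤ : Subgroup G) := fun p q hp hq c =>
    ns (solv_top_iff.1 (H21.solv_paqb hp hq c))
  have nt : ∀ r : ℕ, r.Prime → r ∣ Nat.card (⊤ : Subgroup G) → ∀ P : Subgroup G, Hall {r} P ⊤ → N(P) ≠ ⊤ := fun r hr hd P hP e => by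
    rcases (norm_top_iff.1 e.ge).eq_bot_or_eq_top with c | c
    · exact hP.ne_bot_p hr hd c
    · exact two r r hr hr ((c ▸ hP.pi).sub (by simp))
  have key : ∀ r q : ℕ, r.Prime → r ∣ Nat.card (⊤ : Subgroup G) → q.Prime → q ∣ Nat.card (⊤ : Subgroup G) →
      q = f r ∨ f q = f r := fun r q hr dr hq dq => by
    by_contra! c
    obtain ⟨P, hP⟩ := exists_sylow hr (⊤ : Subgroup G)
    obtain ⟨T, hT⟩ := exists_sylow hq N(P)
    obtain ⟨S, hS⟩ := exists_sylow (f1 q hq) N(P)
    have T' := hT.of_idx le_top ((f2 r hr P hP).p'_of_ne c.1.symm)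
    have S' := hS.of_idx le_top ((f2 r hr P hP).p'_of_ne c.2.symm)
    have n : (normalClosure (T : Set G)) ≤ N(P) := by
      refine (closure_le _).2 fun x hx => ?_
      obtain ⟨a, ha, c⟩ := Group.mem_conjugatesOfSet_iff.1 hx
      obtain ⟨g, rfl⟩ := isConj_iff.1 c
      obtain ⟨s, hs, n, hn, rfl⟩ := exists_mul_of_coprime_relIndex le_top le_top ((f2 q hq T T').coprime S'.idx) (mem_top g)
      have := conj_mem_N (le_N (hS.le hs)) (hT.le (conj_mem_N hn ha))
      simpa [mul_assoc] using this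
    rcases (inferInstance : (normalClosure (T : Set G)).Normal).eq_bot_or_eq_top with e | e
    · exact T'.ne_bot_p hq dq (eq_bot_iff.2 (le_normalClosure.trans e.le))
    · exact nt r hr dr P hP (top_le_iff.1 (e ▸ n))
  have fd : ∀ r : ℕ, r.Prime → r ∣ Nat.card (⊤ : Subgroup G) → f r ∣ Nat.card (⊤ : Subgroup G) ∧ f r ≠ r := fun r hr dr => by
    obtain ⟨P, hP⟩ := exists_sylow hr (⊤ : Subgroup G)
    obtain ⟨s, hs, d⟩ := Nat.exists_prime_and_dvd (one_lt_relIndex fun e => nt r hr dr P hP (top_le_iff.1 e)).ne'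
    obtain rfl : s = f r := f2 r hr P hP s hs d
    exact ⟨d.trans relIndex_dvd, fun e => hP.idx_of_le le_N _ hs d e⟩
  obtain ⟨r, hr, dr⟩ := exists_prime_dvd_card (top_ne_bot (α := Subgroup G))
  obtain ⟨d1, -⟩ := fd r hr dr
  obtain ⟨-, n2⟩ := fd _ (f1 r hr) d1
  refine two (f r) (f (f r)) (f1 r hr) (f1 _ (f1 r hr)) fun q hq dq => ?_
  rcases key r q hr dr hq dq with e | e
  · exact Or.inl e
  · exact Or.inr ((key _ q (f1 r hr) d1 hq dq).resolve_right fun e' => n2 (e'.symm.trans e))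

theorem main (G : Type u) [Group G] [Finite G] (h : Q G) : Group.IsSolvable G := by
  induction' e : Nat.card G using Nat.strong_induction_on with n ih generalizing G
  subst e
  by_cases s : IsSimpleGroup G
  · exact simple h
  rcases subsingleton_or_nontrivial G with _ | _
  · infer_instance
  obtain ⟨K, hK, h1, h2⟩ : ∃ K : Subgroup G, K.Normal ∧ K ≠ ⊥ ∧ K ≠ ⊤ := by
    by_contra! k
    exact s ⟨fun K hK => (em (K = ⊥)).imp_right (k K hK)⟩
  have a : Group.IsSolvable K := ih _ (by simpa using card_lt h2.lt_top) K (fun r _ => by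
    obtain ⟨s, s1, s2⟩ := h r
    refine ⟨s, s1, s2.of_dvd ?_⟩
    obtain ⟨T⟩ : Nonempty (Sylow r K) := inferInstance
    obtain ⟨P, hP⟩ := T.exists_comap_subtype_eq
    rw [T.card_eq_index_normalizer, P.card_eq_index_normalizer, ← relIndex_top_right (normalizer (P : Set G))]
    refine (index_dvd_of_le (H := N((P : Subgroup G)).subgroupOf K) ?_).trans (nml_top.relIndex_dvd' le_top)
    have := le_normalizer_comap (H := (P : Subgroup G)) K.subtype
    rwa [hP] at this) rfl
  have b : Group.IsSolvable (G ⧸ K) := ih _ (by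
    rw [card_eq_card_quotient_mul_card_subgroup K]
    exact lt_mul_of_one_lt_right Nat.card_pos (one_lt_card h1)) _ (fun r _ => by
    obtain ⟨s, s1, s2⟩ := h r
    refine ⟨s, s1, s2.of_dvd ?_⟩
    obtain ⟨P⟩ : Nonempty (Sylow r G) := inferInstance
    have j := QuotientGroup.mk'_surjective K
    rw [(P.mapSurjective j).card_eq_index_normalizer, P.card_eq_index_normalizer, ← index_comap_of_surjective _ j]
    exact index_dvd_of_le (map_le_iff_le_comap.1 (le_normalizer_map _))) rfl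
  exact Group.isSolvable_of_ker_le_range K.subtype (QuotientGroup.mk' K) (by simp)

/-- If for every prime r the number of Sylow r-subgroups of the finite group G is a prime power or 1, then G is solvable. -/
theorem result {G : Type*} [Group G] [Finite G] (h : ∀ (r : ℕ) [Fact r.Prime], Nat.card (Sylow r G) = 1 ∨ IsPrimePow (Nat.card (Sylow r G))) :
    Group.IsSolvable G := by
  refine main G fun r _ => ?_
  rcases h r with e | e
  · exact ⟨2, Nat.prime_two, e ▸ .one⟩
  · obtain ⟨s, k, h1, -, h2⟩ := (isPrimePow_nat_iff _).1 e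
    exact ⟨s, h1, h2 ▸ piNat_pow_self h1 k⟩

end Cfsg.Agent.S3933
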