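import Cfsg.Statements.S3937
import Cfsg.Agent.H21.PrimPair
import Cfsg.Agent.H3.Petrescu

set_option autoImplicit false
open Cfsg

namespace Cfsg.Agent.S3937

open H18 H21 H1 Subgroup
open scoped commutatorElement

theorem fold {G : Type*} [Group G] (g x : G) (n : ℕ) :
    (List.replicate n g).foldl (fun a b => a * b * a⁻¹ * b⁻¹) x = (fun a => ⁅a, g⁆)^[n] x := by
  induction n generalizing x with
  | zero => rfl
  | succ n ih => rw [List.replicate_succ, List.foldl_cons, ih]; rfl

theorem subnIn_fit_le {G : Type*} [Group G] [Finite G] {A H : Subgroup G} (h : H2.SubnIn A H) : F(A) ≤ F(H) := by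
  induction h with
  | refl => exact le_rfl
  | step h1 h2 _ ih => exact (Nml.fit_le_fit ⟨h1, h2⟩).trans ih

/-- Baer's characterization of the Fitting subgroup: in a finite group G, an element g lies in the Fitting subgroup if and only if g is a left Engel element, that is, for every x there is n with [x, g, g, …, g] = 1 (n entries g, [a, b] = aba⁻¹b⁻¹). -/
theorem result {G : Type*} [Group G] [Finite G] (g : G) :
    g ∈ Cfsg.fittingSubgroup G ↔ ∀ x : G, ∃ n : ℕ, (List.replicate n g).foldl (fun a b => a * b * a⁻¹ * b⁻¹) x = 1 := by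
  simp only [fold]
  rw [← fit_top]
  constructor
  · intro hg x
    obtain ⟨n, hn⟩ := nil_iff_lcs.1 (fit_nil (H := (⊤ : Subgroup G)))
    have : ∀ k, (fun a => ⁅a, g⁆)^[k + 1] x ∈ (F((⊤ : Subgroup G))).lowerCentralSeries k := fun k => by
      induction k with
      | zero => exact comm_le_right fit_nml.2 (commutator_mem_commutator (mem_top x) hg)
      | succ k ih => rw [Function.iterate_succ_apply']; exact commutator_mem_commutator ih hg
    exact ⟨n + 1, eq_one_of_eq_bot hn (this n)⟩
  · intro h
    have key : ∀ K : Subgroup G, zpowers g ≤ K → H2.SubnIn (zpowers g) K := fun K => by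
      induction K using H18.card_induction with
      | ih K ih =>
      intro hK
      by_contra hn
      have ih' : ∀ V, zpowers g ≤ V → V < K → H2.SubnIn (zpowers g) V := fun V h1 h2 => ih V (card_lt h2) h1
      obtain ⟨M, h1, h2, h3⟩ := H2.zipper hK ih' hn
      have hN : K ⊓ N(M) ≤ M := h3 _ (le_inf hK (le_norm h1)) (lt_of_le_of_ne inf_le_left fun e =>
        hn ((ih' M h1 h2).trans (.of_normal h2.le (e.ge.trans inf_le_right))))
      have step : ∀ y ∈ K, ⁅y, g⁆ ∈ M → y ∈ M := fun y hy e => by
        have : zpowers g ≤ cj y⁻¹ M := zpowers_le.2 (mem_cj.2 (by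
          simpa [commutatorElement_def] using mul_mem e (h1 (mem_zpowers g))))
        have := h3 _ this (by rw [← cj_eq_self_of_mem (inv_mem hy)]; exact cj_lt_cj.2 h2)
        exact M.inv_mem_iff.1 (hN ⟨K.inv_mem hy, mem_N_of_cj_le this⟩)
      obtain ⟨x, hx, xM⟩ := SetLike.exists_of_lt h2
      obtain ⟨n, hn⟩ := h x
      have : ∀ k, (fun a => ⁅a, g⁆)^[k] x ∈ K ∧ (fun a => ⁅a, g⁆)^[k] x ∉ M := fun k => by
        induction k with
        | zero => exact ⟨hx, xM⟩
        | succ k ih =>
          rw [Function.iterate_succ_apply']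
          exact ⟨der_le (commutator_mem_commutator ih.1 (hK (mem_zpowers g))), fun e => ih.2 (step _ ih.1 e)⟩
      exact (this n).2 (hn ▸ one_mem M)
    have := subnIn_fit_le (key ⊤ le_top)
    rw [abel_zpowers.nil.fit_eq] at this
    exact this (mem_zpowers g)

end Cfsg.Agent.S3937
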