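import Cfsg.Statements.S3939
import Cfsg.Agent.H18.BG1
import Cfsg.Agent.H9.SylowBasic
import Cfsg.Agent.H3.Petrescu

set_option autoImplicit false
open Cfsg

namespace Cfsg.Agent.S3939

open H18 H1 Subgroup
open scoped commutatorElement

theorem center_ne {G : Type*} [Group G] [Finite G] {g : G} (g1 : g ≠ 1)
    (h : ∀ x : G, Nil (closure ({x, g} : Set G))) : center G ≠ ⊥ := by
  obtain ⟨y, hy, hp⟩ := exists_prime_pow_elt g1
  have := Fact.mk hp
  set p := orderOf y
  have hyp : PiElt {p} y := piNat_self hp
  have h' : ∀ x : G, Nil (closure ({x, y} : Set G)) := fun x => (h x).of_le (by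
    rw [closure_le]
    rintro _ (rfl | rfl)
    · exact subset_closure (by simp)
    · exact (zpowers_le.2 (subset_closure (by simp)) : zpowers g ≤ _) hy)
  have y1 : y ∈ O[{p}]((⊤ : Subgroup G)) := by
    refine le_pcore nml_top (piGrp_of_isPGroup hp (H9.isPGroup_normalClosure_of_pairs fun a => ?_))
      (subset_normalClosure (Set.mem_singleton y))
    rw [Set.pair_comm]
    refine ((pcore_pi (π := {p}) (H := closure {a * y * a⁻¹, y})).of_le ?_).isPGroup
    rw [closure_le]
    rintro _ (rfl | rfl)
    · exact (h' _).pcore_hall.mem_of_nml pcore_nml.2 (subset_closure (by simp)) (hyp.conj a)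
    · exact (h' _).pcore_hall.mem_of_nml pcore_nml.2 (subset_closure (by simp)) hyp
  let R : Subgroup G := closure {x | PiElt {p}ᶜ x}
  have nR : ⊤ ≤ N(R) := norm_closure fun a _ b hb => PiElt.conj hb a
  have y2 : y ∈ C(R) := le_C1_iff.1 (by
    rw [closure_le]
    intro x hx
    have := (h' x).cent_pi (zpowers_le.2 (subset_closure (by simp))) (zpowers_le.2 (subset_closure (by simp)))
      hyp.zpowers (PiElt.zpowers hx)
    exact mem_C1.2 (comm_of_cent this (mem_zpowers y) (mem_zpowers x)).symm)
  obtain ⟨P, hP⟩ := exists_sylow hp (⊤ : Subgroup G)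
  obtain ⟨z, hz, z1⟩ := exists_mem_ne_one' (hP.2.meet_cent (V := O[{p}](⊤) ⊓ C(R)) pcore_pi.inf_left
    (le_top.trans (norm_inf pcore_nml.2 (norm_C nR))) (ne_bot_of_mem ⟨y1, y2⟩ fun e => hp.ne_one (by simp [p, e])))
  refine ne_bot_of_mem (mem_center_iff.2 fun a => ?_) z1
  refine mem_C1.1 (le_of_sylows (M := ⊤) (fun q hq _ => ?_) (mem_top a))
  by_cases e : q = p
  · exact ⟨P, e ▸ hP, le_C1_iff.2 hz.2⟩
  · obtain ⟨Q, hQ⟩ := exists_sylow hq (⊤ : Subgroup G)
    exact ⟨Q, hQ, le_trans (fun x hx => subset_closure ((hQ.2.elt hx).p'_of_ne e)) (le_C1_iff.2 hz.1.2)⟩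

universe u
theorem aux (n : ℕ) : ∀ (G : Type u) [Group G] [Finite G], Nat.card G = n → ∀ g : G,
    (∀ x : G, Nil (closure ({x, g} : Set G))) → ∃ k, g ∈ Subgroup.upperCentralSeries G k := by
  induction n using Nat.strong_induction_on with
  | _ n ih =>
  intro G _ _ hn g h
  by_cases g1 : g = 1
  · exact ⟨0, by simp [g1]⟩
  obtain ⟨k, hk⟩ := ih _ (by
    rw [← hn, ← (center G).card_mul_index]
    exact lt_mul_left (Nat.pos_of_ne_zero index_ne_zero_of_finite) (one_lt_card (center_ne g1 h)))
    (G ⧸ center G) rfl g fun x => by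
      obtain ⟨x, rfl⟩ := QuotientGroup.mk_surjective x
      have := (h x).mim (f := topq (center G))
      rwa [mim_topq, MonoidHom.map_closure, Set.image_pair] at this
  exact ⟨k + 1, Subgroup.comap_upperCentralSeries_quotient_center (G := G) k ▸ hk⟩

/-- In a finite group G the set of elements g such that the subgroup generated by g and x is nilpotent for every x ∈ G is exactly the hypercenter of G (the last term of the upper central series). -/
theorem result {G : Type*} [Group G] [Finite G] (g : G) :
    (∀ x : G, Group.IsNilpotent ↥(Subgroup.closure ({x, g} : Set G))) ↔ g ∈ ⨆ n : ℕ, Subgroup.upperCentralSeries G n := by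
  constructor
  · intro h
    obtain ⟨k, hk⟩ := aux _ G rfl g h
    exact le_iSup (Subgroup.upperCentralSeries G) k hk
  · intro h x
    obtain ⟨k, hk⟩ := (mem_iSup_of_directed (Subgroup.upperCentralSeries_mono G).directed_le).1 h
    set H := closure ({x, g} : Set G)
    have h1 : H.lowerCentralSeries 1 ≤ Subgroup.upperCentralSeries G k := by
      have : H ≤ zpowers x ⊔ Subgroup.upperCentralSeries G k := by
        rw [closure_le]
        rintro _ (rfl | rfl)
        · exact (le_sup_left : _ ≤ zpowers _ ⊔ Subgroup.upperCentralSeries G k) (mem_zpowers _)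
        · exact (le_sup_right : _ ≤ zpowers x ⊔ Subgroup.upperCentralSeries G k) hk
      refine (der_mono this).trans ?_
      rw [sup_comm]
      exact (der_sup_le norm_of_normal).trans (by rw [abel_zpowers.der]; simp)
    have : ∀ i j, H.lowerCentralSeries i ≤ Subgroup.upperCentralSeries G j → H.lowerCentralSeries (i + j) = ⊥ := by
      intro i j
      induction j generalizing i with
      | zero => exact fun e => le_bot_iff.1 e
      | succ j ih =>
        intro e
        rw [← Nat.add_assoc, Nat.add_right_comm]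
        exact ih _ ((comm_mono e le_top).trans (commutator_upperCentralSeries_top_le G j))
    exact nil_iff_lcs.2 ⟨_, this _ _ h1⟩

end Cfsg.Agent.S3939
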