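import Cfsg.Statements.S3941
import Cfsg.Agent.H21.Alt
import Cfsg.Agent.H21.PClosed

set_option autoImplicit false
open Cfsg

namespace Cfsg.Agent.S3941

open H18 H21 Subgroup Equiv

/-- Let n ≥ 5 and p an odd prime with p ≤ n, and suppose that every proper subgroup of the alternating group of degree n whose order is divisible by p has a normal Sylow p-subgroup. Then n = p. -/
theorem result (n p : ℕ) (hn : 5 ≤ n) [Fact p.Prime] (hp : p ≠ 2) (hpn : p ≤ n)
    (h : ∀ H : Subgroup ↥(alternatingGroup (Fin n)), H ≠ ⊤ → p ∣ Nat.card ↥H → Cfsg.IsPClosed p ↥H) : n = p := by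
  have hp' : p.Prime := Fact.out
  by_contra ne
  obtain ⟨m, rfl⟩ : ∃ m, n = m + 1 := ⟨n - 1, by omega⟩
  obtain ⟨f, hf⟩ := exists_altEmb (α := Fin m) (β := Fin (m + 1)) (by simp)
  have e := MonoidHom.ofInjective hf
  have : Nontrivial (Fin m) := Fin.nontrivial_iff_two_le.2 (by omega)
  have : Nontrivial (Fin (m + 1)) := Fin.nontrivial_iff_two_le.2 (by omega)
  have c1 := two_mul_nat_card_alternatingGroup (α := Fin m)
  have c2 := two_mul_nat_card_alternatingGroup (α := Fin (m + 1))
  rw [Nat.card_perm, Nat.card_fin] at c1 c2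
  have d : p ∣ Nat.card (alternatingGroup (Fin m)) :=
    ((Nat.coprime_primes hp' Nat.prime_two).2 hp).dvd_of_dvd_mul_left (c1 ▸ Nat.dvd_factorial hp'.pos (by omega))
  have cl := (isPClosed_iff hp').1 (h f.range (fun t => by
    have := Nat.card_congr e.toEquiv
    rw [t, card_top] at this
    have := Nat.factorial_lt (n := m) (m := m + 1) (by omega)
    omega) (Nat.card_congr e.toEquiv ▸ d))
  have key : ∀ x y : alternatingGroup (Fin m), PiElt {p} x → PiElt {p} y → PiElt {p} (x * y) := fun x y hx hy => by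
    have o : ∀ x, orderOf (f x) = orderOf x := fun x => orderOf_injective f hf x
    have := pcore_pi.elt (mul_mem (cl.mem_of_nml pcore_nml.2 ⟨x, rfl⟩ (by rwa [PiElt, o]))
      (cl.mem_of_nml pcore_nml.2 ⟨y, rfl⟩ (by rwa [PiElt, o])))
    rwa [← map_mul, PiElt, o] at this
  by_cases m4 : m = 4
  · subst m4
    obtain rfl : p = 3 := by
      have := hp'.two_le
      interval_cases p <;> first | rfl | omega | exact absurd hp' (by decide)
    have := key ⟨swap 0 1 * swap 1 2, Perm.mem_alternatingGroup.2 (by decide)⟩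
      ⟨swap 1 2 * swap 2 3, Perm.mem_alternatingGroup.2 (by decide)⟩
      (piElt_of_pow_eq_one hp' (by decide)) (piElt_of_pow_eq_one hp' (by decide))
    exact absurd (this.eq_one' ((piElt_of_pow_eq_one Nat.prime_two (by decide)).p'_of_ne (by decide))) (by decide)
  · have := alternatingGroup.isSimpleGroup (α := Fin m) (by simp; omega)
    let K : Subgroup (alternatingGroup (Fin m)) := ⟨⟨⟨{x | PiElt {p} x}, key _ _⟩, PiElt.one⟩, PiElt.inv⟩
    have nK : K.Normal := ⟨fun x hx g => PiElt.conj hx g⟩
    obtain ⟨x, -, hx⟩ := cauchy (H := (⊤ : Subgroup (alternatingGroup (Fin m)))) hp' (by rwa [card_top])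
    rcases nK.eq_bot_or_eq_top with c | c
    · have : x ∈ K := by show PiNat {p} (orderOf x); rw [hx]; exact piNat_self hp'
      rw [c, mem_bot] at this
      rw [this, orderOf_one] at hx; exact hp'.ne_one hx.symm
    · have h2 : PiGrp {p} K := piGrp_of_elt fun x hx => hx
      rw [c, PiGrp, card_top] at h2
      refine hp (h2.eq_of_dvd Nat.prime_two (Nat.dvd_of_mul_dvd_mul_left two_pos ?_)).symm
      rw [c1]
      exact (by decide : 2 * 2 ∣ Nat.factorial 4).trans (Nat.factorial_dvd_factorial (by omega))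

end Cfsg.Agent.S3941
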