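import Cfsg.Statements.S3946
import Cfsg.Agent.H21.Kegel
import Cfsg.Agent.H4.Critical

set_option autoImplicit false
open Cfsg

namespace Cfsg.Agent.S3946

open H18 H21 Subgroup H4

/-- Call an automorphism α of order n of a group G splitting when x · α(x) · α²(x) ⋯ α^(n−1)(x) = 1 for every x ∈ G. A finite group admitting a splitting automorphism of prime order is nilpotent (this contains the case of a fixed-point-free automorphism of prime order). -/
theorem result {G : Type*} [Group G] [Finite G] (α : MulAut G) (hp : (orderOf α).Prime)
    (hsplit : ∀ x : G, (((List.range (orderOf α)).map (fun i : ℕ => (α ^ i) x)).prod = 1)) : Group.IsNilpotent G := by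
  have key : ∀ (g : G) (m : ℕ), (holL G g * holR G α) ^ m =
      holL G (((List.range m).map (fun i : ℕ => (α ^ i) g)).prod) * holR G α ^ m := fun g m => by
    induction m with
    | zero => simp
    | succ m ih =>
      rw [pow_succ, ih, List.range_succ, List.map_append, List.prod_append, map_mul, List.map_singleton,
        List.prod_singleton, ← hol_conj, map_pow, pow_succ]
      group
  have h : Nil ((⊤ : Subgroup G).map (holL G)) := kegel hp (holR_mem_normalizer α) fun k hk => by
    obtain ⟨g, -, rfl⟩ := hk
    rw [key, hsplit, ← map_pow, pow_orderOf_eq_one]; simp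
  exact nil_top_iff.1 ((Group.isNilpotent_congr (equivMapOfInjective ⊤ _ holL_injective)).2 h)

end Cfsg.Agent.S3946
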