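import Cfsg.Statements.S3947
import Cfsg.Agent.H16.Zip

set_option autoImplicit false
open Cfsg

namespace Cfsg.Agent.S3947


/-- Let G be a finite group and A a proper subgroup of G whose normal closure is G. Let Y be the join of all proper subgroups H of G that contain A and are generated by their own conjugates of A (the normal closure of A in H is H). Then either Y = G, or A is contained in exactly one maximal subgroup of G. -/
theorem result {G : Type*} [Group G] [Finite G] (A : Subgroup G) (hA : Subgroup.normalClosure (A : Set G) = ⊤) (hAG : A ≠ ⊤) :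
    sSup {H : Subgroup G | A ≤ H ∧ H ≠ ⊤ ∧ Subgroup.normalClosure ((A.subgroupOf H : Subgroup ↥H) : Set ↥H) = ⊤} = ⊤ ∨
      ∃! M : Subgroup G, IsCoatom M ∧ A ≤ M := by
  by_cases h : sSup {H : Subgroup G | A ≤ H ∧ H ≠ ⊤ ∧
      Subgroup.normalClosure ((A.subgroupOf H : Subgroup ↥H) : Set ↥H) = ⊤} = ⊤
  · exact Or.inl h
  right
  obtain ⟨M, h1, h2, h3⟩ := H16.gen_zipper (H16.full_top_iff.mpr hA) hAG h
    fun H a b => le_sSup ⟨b.1, a, (H16.full_iff b.1).mp b⟩
  refine ⟨M, ⟨⟨h2, fun K hK => ?_⟩, h1⟩, fun K hK => ?_⟩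
  · by_contra e
    exact hK.not_ge (h3 K (h1.trans hK.le) e)
  · exact (hK.1.le_iff.mp (h3 K hK.2 hK.1.1)).resolve_left h2 |>.symm

end Cfsg.Agent.S3947
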