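import Cfsg.Statements.S3972
import Cfsg.Agent.H10.Schur

set_option autoImplicit false
open Cfsg

namespace Cfsg.Agent.S3972

open MulAction Subgroup
open scoped Pointwise

/-- Let `p` be a prime, `m ≥ 2`, and `G` a transitive but not doubly transitive permutation group on `p ^ m` points containing a permutation of order `p ^ m` (necessarily a full cycle). Then `G` is imprimitive, and the normal closure in `G` of the `p ^ (m - 1)`-th power of that permutation is an intransitive normal subgroup. -/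
theorem result {Ω : Type*} [Fintype Ω] [DecidableEq Ω] (p m : ℕ) (hp : p.Prime) (hm : 2 ≤ m) (hΩ : Fintype.card Ω = p ^ m) (G : Subgroup (Equiv.Perm Ω)) (htr : MulAction.IsPretransitive G Ω) (h2 : ¬ MulAction.IsMultiplyPretransitive G Ω 2) (g : G) (hg : orderOf g = p ^ m) : ¬ MulAction.IsPreprimitive G Ω ∧ ¬ MulAction.IsPretransitive (Subgroup.normalClosure ({g ^ (p ^ (m - 1))} : Set G)) Ω := by
  have := Fact.mk hp
  have c1 : Nat.card (zpowers g) = p ^ m := by rw [Nat.card_zpowers, hg]
  have h1 : ∀ K : Subgroup (zpowers g), K ≠ ⊥ → ⟨g, mem_zpowers g⟩ ^ p ^ (m - 1) ∈ K := fun K hK => by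
    obtain ⟨i, hi, e⟩ := (Nat.dvd_prime_pow hp).1 (c1 ▸ K.index_dvd_card)
    have : i ≠ m := by
      rintro rfl
      exact hK (eq_bot_of_card_eq _ (Nat.eq_of_mul_eq_mul_left (pow_pos hp.pos i)
        (by rw [mul_one, ← e, index_mul_card, e, c1])))
    rw [show m - 1 = i + (m - 1 - i) by omega, pow_add, pow_mul, ← e]
    exact K.pow_mem (K.pow_index_mem _) _
  obtain ⟨x, hx⟩ := H16.exists_smul_ne (α := Ω) (g := g ^ p ^ (m - 1)) fun e => by
    have := Nat.le_of_dvd (pow_pos hp.pos _) (hg ▸ orderOf_dvd_of_pow_eq_one e)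
    rw [Nat.pow_le_pow_iff_right hp.one_lt] at this
    omega
  have h3 : stabilizer (zpowers g) x = ⊥ := by
    by_contra h; exact hx (h1 _ h)
  have : IsPretransitive (zpowers g) Ω := (isPretransitive_iff_orbit_eq_univ x).2
    (Set.eq_of_subset_of_ncard_le (Set.subset_univ _) (by
      rw [Set.ncard_univ, Nat.card_eq_fintype_card, hΩ, ← index_stabilizer, h3, index_bot, c1]))
  have h4 : ¬ IsPreprimitive G Ω := fun h => h2 (H10.schur (zpowers g) (fun y => by
    obtain ⟨u, rfl⟩ := exists_smul_eq (zpowers g) x y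
    rw [stabilizer_smul_eq_stabilizer_map_conj, h3, Subgroup.map_bot])
    (by rw [Nat.card_eq_fintype_card, hΩ]; exact Nat.one_lt_pow (by omega) hp.one_lt) (by
      rw [Nat.card_eq_fintype_card, hΩ]; exact fun h => absurd (Nat.Prime.eq_one_of_pow h) (by omega)))
  refine ⟨h4, fun h => h4 ⟨fun {B} hB => or_iff_not_imp_left.2 fun h5 => ?_⟩⟩
  obtain ⟨a, ha, b, hb, hab⟩ := Set.not_subsingleton_iff.1 h5
  obtain ⟨u, rfl⟩ := exists_smul_eq (zpowers g) a b
  have h6 := h1 (stabilizer (zpowers g) B) fun e => hab (by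
    rw [e.le (show u ∈ _ from hB.smul_eq_of_mem (g := u.1) ha hb), one_smul])
  have h7 : normalClosure {g ^ p ^ (m - 1)} ≤ (stabilizer G B).normalCore :=
    normalClosure_le_normal (Set.singleton_subset_iff.2 fun k => by
      obtain ⟨v, hv⟩ := exists_smul_eq (zpowers g) a (k⁻¹ • a)
      have e : k • v.1 • B = B := by
        rw [← mul_smul]
        exact hB.smul_eq_of_mem ha (by rwa [mul_smul, show v.1 • a = _ from hv, smul_inv_smul])
      have c : Commute (g ^ p ^ (m - 1)) v.1 :=
        congrArg Subtype.val (mul_comm' ((⟨g, mem_zpowers g⟩ : zpowers g) ^ p ^ (m - 1)) v :)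
      show (k * _ * k⁻¹) • B = B
      rw [mul_smul, inv_smul_eq_iff.2 e.symm, mul_smul, ← mul_smul _ v.1, c.eq, mul_smul,
        show (g ^ p ^ (m - 1)) • B = B from h6, e])
  refine Set.eq_univ_of_forall fun y => ?_
  obtain ⟨n, rfl⟩ := exists_smul_eq (normalClosure {g ^ p ^ (m - 1)}) a y
  rw [← show n.1 • B = B from normalCore_le _ (h7 n.2)]
  exact Set.smul_mem_smul_set ha

end Cfsg.Agent.S3972
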