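import Cfsg.Statements.S3982
import Cfsg.Agent.H22.Misc1

set_option autoImplicit false
open Cfsg

namespace Cfsg.Agent.S3982

/-- Let p be an odd prime and G a finite group of even order divisible by p in which the centralizer of every non-identity p-element has odd order. If some nontrivial p-subgroup of G has a normalizer of even order, then the normalizer of every Sylow p-subgroup of G has even order. -/
theorem result {G : Type*} [Group G] [Finite G] (p : ℕ) [Fact p.Prime] (hp2 : p ≠ 2) (hpG : p ∣ Nat.card G) (h2G : 2 ∣ Nat.card G) (hC : ∀ g : G, g ≠ 1 → (∃ k : ℕ, orderOf g = p ^ k) → Odd (Nat.card ↥(Subgroup.centralizer ({g} : Set G)))) (Q : Subgroup G) (hQ : IsPGroup p ↥Q) (hQ1 : Q ≠ ⊥) (hev : Even (Nat.card ↥(Subgroup.normalizer (Q : Set G)))) (P : Sylow p G) : Even (Nat.card ↥(Subgroup.normalizer ((P : Subgroup G) : Set G))) := by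
  classical
  obtain ⟨y, hyN, hy⟩ := H9.exists_involution_mem hev
  have hyy : y * y = 1 := by rw [← pow_two, ← hy, pow_orderOf_eq_one]
  obtain ⟨R, ⟨hQR, hR, hyR⟩, hmax⟩ := exists_maximal_of_wellFoundedGT (α := Subgroup G)
    (fun R => Q ≤ R ∧ IsPGroup p R ∧ y ∈ Subgroup.normalizer (R : Set G)) ⟨Q, le_rfl, hQ, hyN⟩
  have hinv : ∀ x ∈ R, y * x * y⁻¹ = x⁻¹ := by
    refine H22.inverts_of_fpf hyy hyR fun x hx h => ?_
    by_contra hx1
    have hodd := hC x hx1 (H22.orderOf_eq_pow_of_mem hR hx)
    rw [H9.odd_card_iff_forall] at hodd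
    refine hodd y ?_ hy
    rw [Subgroup.mem_centralizer_singleton_iff]
    calc y * x = (y * x * y⁻¹) * y := by group
      _ = x * y := by rw [h]
  have hcomm := H22.comm_of_inverts hinv
  obtain ⟨S, hS⟩ := hR.exists_le_sylow
  have hRS : R = S := by
    by_contra hne
    obtain ⟨g, hgS, hgR, hgN⟩ := H9.exists_mem_normalizer_of_lt S.isPGroup' (lt_of_le_of_ne hS hne)
    set C := Subgroup.centralizer (R : Set G) with hCdef
    have hRC : R ≤ C := fun a ha b hb => hcomm b hb a ha
    obtain ⟨x, hxQ, hx1⟩ := (Subgroup.bot_or_exists_ne_one Q).resolve_left hQ1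
    have hCodd : Odd (Nat.card C) := by
      refine Odd.of_dvd_nat (hC x hx1 (H22.orderOf_eq_pow_of_mem hQ hxQ)) (Subgroup.card_dvd_of_le ?_)
      exact Subgroup.centralizer_le (by simpa using hQR hxQ)
    obtain ⟨k, hk⟩ := H22.orderOf_eq_pow_of_mem S.isPGroup' hgS
    have hgC : Subgroup.zpowers g ≤ Subgroup.normalizer (C : Set G) := by
      rw [Subgroup.zpowers_le]; exact H1.normalizer_le_normalizer_centralizer R hgN
    have hHodd : Odd (Nat.card (C ⊔ Subgroup.zpowers g : Subgroup G)) := by
      refine Odd.of_dvd_nat ?_ (H1.card_sup_dvd hgC)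
      rw [Nat.card_zpowers, hk]
      exact hCodd.mul (((Fact.out : p.Prime).odd_of_ne_two hp2).pow)
    have hyH : Subgroup.zpowers y ≤
        Subgroup.normalizer ((C ⊔ Subgroup.zpowers g : Subgroup G) : Set G) := by
      rw [Subgroup.zpowers_le]
      apply H1.mem_normalizer_of_conj_mem
      have : C ⊔ Subgroup.zpowers g ≤ (C ⊔ Subgroup.zpowers g).comap (MulAut.conj y).toMonoidHom := by
        refine sup_le (fun q hq => ?_) ?_
        · exact Subgroup.mem_sup_left (H1.conj_mem_of_mem_normalizer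
            (H1.normalizer_le_normalizer_centralizer R hyR) hq)
        · rw [Subgroup.zpowers_le]
          show y * g * y⁻¹ ∈ C ⊔ Subgroup.zpowers g
          have h1 : y * g * y⁻¹ * g⁻¹ ∈ C := by
            intro a ha
            have h2 := hinv _ (H1.inv_conj_mem_of_mem_normalizer hgN ha)
            have h3 := hinv _ (R.inv_mem ha)
            have h4 : y⁻¹ = y := inv_eq_of_mul_eq_one_right hyy
            rw [h4] at h2 h3 ⊢
            have h5 : (y * g * y * g⁻¹) * a * (y * g * y * g⁻¹)⁻¹ = a := by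
              calc (y * g * y * g⁻¹) * a * (y * g * y * g⁻¹)⁻¹
                  = y * g * (y * (g⁻¹ * a * g) * y⁻¹) * g⁻¹ * y⁻¹ := by group
                _ = y * a⁻¹ * y⁻¹ := by rw [h4, h2]; group
                _ = a := by rw [h4, h3, inv_inv]
            calc a * (y * g * y * g⁻¹) = ((y * g * y * g⁻¹) * a * (y * g * y * g⁻¹)⁻¹) *
                  (y * g * y * g⁻¹) := by rw [h5]
              _ = _ := by group
          have := Subgroup.mul_mem _ (Subgroup.mem_sup_left h1)
            (Subgroup.mem_sup_right (Subgroup.mem_zpowers g) : g ∈ C ⊔ Subgroup.zpowers g)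
          simpa using this
      exact fun z hz => this hz
    obtain ⟨T, hT, hyT⟩ := H22.exists_invariant_sylIn p hyH
      (by rw [Nat.card_zpowers, hy]; exact (Nat.coprime_two_right.mpr hHodd))
      (Or.inr (H1.isSolvable_of_isMulCommutative _))
    have hHN : C ⊔ Subgroup.zpowers g ≤ Subgroup.normalizer (R : Set G) :=
      sup_le (Subgroup.centralizer_le_normalizer _) (by rwa [Subgroup.zpowers_le])
    have hRT : R ≤ T := hT.le_of_le_normalizer hR (hRC.trans le_sup_left) (hT.le.trans hHN)
    have hTR : T ≤ R := hmax ⟨hQR.trans hRT, hT.isPGroup, hyT (Subgroup.mem_zpowers y)⟩ hRT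
    have hT' : H2.SylIn p R (C ⊔ Subgroup.zpowers g) := (le_antisymm hTR hRT) ▸ hT
    apply hgR
    refine hT'.le_of_le_normalizer' (H22.isPGroup_zpowers_iff.mpr ⟨k, hk⟩) le_sup_right
      (by rwa [Subgroup.zpowers_le]) (Subgroup.mem_zpowers g)
  obtain ⟨a, rfl⟩ := MulAction.exists_smul_eq G S P
  rw [Sylow.coe_subgroup_smul, H1.normalizer_conj_smul, H1.card_conj_smul, ← hRS]
  exact H9.even_card_of_involution_mem hyR hy

end Cfsg.Agent.S3982
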