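import Cfsg.Statements.S3983
import Cfsg.Agent.H22.Misc1

set_option autoImplicit false
open scoped Pointwise
open Cfsg

namespace Cfsg.Agent.S3983

/-- Let P be a Sylow p-subgroup of the finite group G that meets each conjugate g P g⁻¹ with g outside N_G(P) trivially, and let U be a subgroup of G of order divisible by p. Then a Sylow p-subgroup Q of U has the same property inside U: Q meets each conjugate u Q u⁻¹ with u ∈ U outside N_U(Q) trivially. -/
theorem result {G : Type*} [Group G] [Finite G] (p : ℕ) [Fact p.Prime] (P : Sylow p G) (hTI : ∀ g : G, g ∉ Subgroup.normalizer ((P : Subgroup G) : Set G) → (P : Subgroup G) ⊓ (MulAut.conj g • (P : Subgroup G)) = ⊥) (U : Subgroup G) (hU : p ∣ Nat.card ↥U) (Q : Sylow p ↥U) : ∀ u : ↥U, u ∉ Subgroup.normalizer ((Q : Subgroup ↥U) : Set ↥U) → (Q : Subgroup ↥U) ⊓ (MulAut.conj u • (Q : Subgroup ↥U)) = ⊥ := by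
  intro u hu
  by_contra hne
  obtain ⟨x, hx, hx1⟩ := (Subgroup.bot_or_exists_ne_one _).resolve_left hne
  obtain ⟨h1, h2⟩ := Subgroup.mem_inf.mp hx
  obtain ⟨P1, hP1⟩ := Q.exists_comap_subtype_eq
  rw [H1.mem_conj_smul] at h2
  have hx1' : (x : G) ≠ 1 := fun e => hx1 (Subtype.ext e)
  have h3 : P1 = (u : G) • P1 := by
    refine H22.ti_sylow P hTI _ _ hx1' ?_ ?_
    · rw [← hP1] at h1; exact h1
    · rw [H22.mem_smul_sylow_iff]
      rw [← hP1] at h2; exact h2
  apply hu
  apply H1.mem_normalizer_of_conj_mem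
  intro a ha
  rw [← hP1] at ha ⊢
  show (u : G) * a * (u : G)⁻¹ ∈ (P1 : Subgroup G)
  rw [h3, H22.mem_smul_sylow_iff]
  have : (a : G) ∈ (P1 : Subgroup G) := ha
  simpa [mul_assoc] using this

end Cfsg.Agent.S3983
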