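import Cfsg.Statements.S3984
import Cfsg.Agent.H22.Misc1

set_option autoImplicit false
open scoped Pointwise
open Cfsg

namespace Cfsg.Agent.S3984

/-- Let P be a Sylow p-subgroup of the finite group G that meets each conjugate g P g⁻¹ with g outside N_G(P) trivially, and let N be a normal subgroup of G of order prime to p. Then every Sylow p-subgroup Q of G ⧸ N meets each conjugate x Q x⁻¹ with x outside its normalizer trivially. -/
theorem result {G : Type*} [Group G] [Finite G] (p : ℕ) [Fact p.Prime] (P : Sylow p G) (hTI : ∀ g : G, g ∉ Subgroup.normalizer ((P : Subgroup G) : Set G) → (P : Subgroup G) ⊓ (MulAut.conj g • (P : Subgroup G)) = ⊥) (N : Subgroup G) [N.Normal] (hN : (Nat.card ↥N).Coprime p) (Q : Sylow p (G ⧸ N)) : ∀ x : G ⧸ N, x ∉ Subgroup.normalizer ((Q : Subgroup (G ⧸ N)) : Set (G ⧸ N)) → (Q : Subgroup (G ⧸ N)) ⊓ (MulAut.conj x • (Q : Subgroup (G ⧸ N))) = ⊥ := by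
  intro x hx
  by_contra hne
  obtain ⟨q, hq, hq1⟩ := (Subgroup.bot_or_exists_ne_one _).resolve_left hne
  obtain ⟨h1, h2⟩ := Subgroup.mem_inf.mp hq
  obtain ⟨P1, hP1⟩ := Sylow.mapSurjective_surjective (QuotientGroup.mk'_surjective N) p Q
  have hQ : (Q : Subgroup (G ⧸ N)) = (P1 : Subgroup G).map (QuotientGroup.mk' N) := by
    rw [← hP1]; rfl
  obtain ⟨g, rfl⟩ := QuotientGroup.mk'_surjective N x
  rw [hQ] at h1 h2 hx
  rw [← H1.map_conj_smul] at h2
  obtain ⟨a, ha, rfl⟩ := h1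
  have h3 : a ∈ N ⊔ MulAut.conj g • (P1 : Subgroup G) := by
    rw [sup_comm, ← H1.comap_map_mk']; exact h2
  obtain ⟨k, hk⟩ := H22.orderOf_eq_pow_of_mem P1.isPGroup' ha
  obtain ⟨n, hn, h4⟩ := H1.exists_conj_le_of_le_sup N (Subgroup.zpowers a)
    (MulAut.conj g • (P1 : Subgroup G)) Subgroup.le_normalizer_of_normal
    (by rw [Nat.card_zpowers, hk]; exact hN.pow_right _)
    (Or.inr (H1.isSolvable_of_isMulCommutative _)) (by rwa [Subgroup.zpowers_le])
  have ha1 : a ≠ 1 := fun e => hq1 (by rw [e, map_one])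
  have h5 : P1 = (n⁻¹ * g) • P1 := by
    refine H22.ti_sylow P hTI _ _ ha1 ha ?_
    have := h4 (H1.conj_mem_conj_smul (Subgroup.mem_zpowers a))
    rw [H1.mem_conj_smul] at this
    rw [H22.mem_smul_sylow_iff]
    convert this using 1
    group
  have h6 : n⁻¹ * g ∈ Subgroup.normalizer ((P1 : Subgroup G) : Set G) :=
    Sylow.smul_eq_iff_mem_normalizer.mp h5.symm
  apply hx
  have h7 := Subgroup.le_normalizer_map (QuotientGroup.mk' N) (Subgroup.mem_map_of_mem _ h6)
  have h8 : QuotientGroup.mk' N (n⁻¹ * g) = QuotientGroup.mk' N g := by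
    rw [map_mul, map_inv, show QuotientGroup.mk' N n = 1 from (QuotientGroup.eq_one_iff n).mpr hn]
    simp
  rwa [h8] at h7

end Cfsg.Agent.S3984
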