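import Cfsg.Statements.S3985
import Cfsg.Agent.H22.Misc1

set_option autoImplicit false
open scoped Pointwise
open Cfsg

namespace Cfsg.Agent.S3985

/-- Let P be a cyclic Sylow p-subgroup of the finite group G. Then P meets each conjugate g P g⁻¹ with g outside N_G(P) trivially if and only if P is weakly self-centralizing: C_G(x) = C_G(P) for every non-identity x ∈ P. -/
theorem result {G : Type*} [Group G] [Finite G] (p : ℕ) [Fact p.Prime] (P : Sylow p G) (hcyc : IsCyclic ↥(P : Subgroup G)) : (∀ g : G, g ∉ Subgroup.normalizer ((P : Subgroup G) : Set G) → (P : Subgroup G) ⊓ (MulAut.conj g • (P : Subgroup G)) = ⊥) ↔ ∀ x : G, x ∈ (P : Subgroup G) → x ≠ 1 → Subgroup.centralizer ({x} : Set G) = Subgroup.centralizer ((P : Subgroup G) : Set G) := by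
  have hcomm : ∀ a ∈ (P : Subgroup G), ∀ b ∈ (P : Subgroup G), a * b = b * a :=
    H1.isMulCommutative_iff.mp inferInstance
  constructor
  · intro hTI x hx hx1
    refine le_antisymm ?_ (Subgroup.centralizer_le (Set.singleton_subset_iff.mpr hx))
    have hN : Subgroup.centralizer ({x} : Set G) ≤ Subgroup.normalizer ((P : Subgroup G) : Set G) := by
      intro g hg
      by_contra hn
      have h1 : x ∈ (P : Subgroup G) ⊓ (MulAut.conj g • (P : Subgroup G)) := by
        refine Subgroup.mem_inf.mpr ⟨hx, ?_⟩
        rw [H1.mem_conj_smul]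
        rw [Subgroup.mem_centralizer_singleton_iff] at hg
        rwa [mul_assoc, ← hg, inv_mul_cancel_left]
      rw [hTI g hn] at h1
      exact hx1 h1
    intro g hg
    obtain ⟨a, b, ha, hb, rfl, -, hao, hbo⟩ := H22.exists_p_decomp (Fact.out : p.Prime) g
    have ha' := Subgroup.zpowers_le.mpr hg ha
    have hb' := Subgroup.zpowers_le.mpr hg hb
    refine Subgroup.mul_mem _ ?_ ?_
    · have := H22.mem_sylow_of_mem_normalizer P hao (hN ha')
      exact fun c hc => hcomm c hc a this
    · exact H22.cyclic_pgroup_fixed P.isPGroup' (hN hb') hbo hx hx1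
        (Subgroup.mem_centralizer_singleton_iff.mp hb')
  · intro h g hg
    by_contra hne
    obtain ⟨x, hx, hx1⟩ := (Subgroup.bot_or_exists_ne_one _).resolve_left hne
    obtain ⟨h1, h2⟩ := Subgroup.mem_inf.mp hx
    rw [H1.mem_conj_smul] at h2
    apply hg
    apply H1.mem_normalizer_of_conj_mem
    intro y hy
    apply H22.mem_sylow_of_mem_normalizer
    · rw [H22.orderOf_conj]; exact H22.orderOf_eq_pow_of_mem P.isPGroup' hy
    · apply Subgroup.centralizer_le_normalizer
      rw [← h x h1 hx1, Subgroup.mem_centralizer_singleton_iff]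
      calc g * y * g⁻¹ * x = g * (y * (g⁻¹ * x * g)) * g⁻¹ := by group
        _ = _ := by rw [hcomm y hy _ h2]; group

end Cfsg.Agent.S3985
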