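import Cfsg.Statements.S3986
import Cfsg.Agent.H22.Misc1

set_option autoImplicit false
open Cfsg

namespace Cfsg.Agent.S3986

/-- Let p be a prime and G a finite group. Then some Sylow p-subgroup of G is a direct factor of G (it is normal and has a normal complement) if and only if every element of p-power order commutes with every element whose order is a power of a prime other than p. -/
theorem result {G : Type*} [Group G] [Finite G] (p : ℕ) [Fact p.Prime] : (∃ (P : Sylow p G) (K : Subgroup G), (P : Subgroup G).Normal ∧ K.Normal ∧ (P : Subgroup G) ⊓ K = ⊥ ∧ (P : Subgroup G) ⊔ K = ⊤) ↔ ∀ x y : G, (∃ a : ℕ, orderOf x = p ^ a) → (∃ q b : ℕ, q.Prime ∧ q ≠ p ∧ orderOf y = q ^ b) → x * y = y * x := by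
  constructor
  · rintro ⟨P, K, hP, hK, h1, h2⟩ x y hx ⟨q, b, hq, hqp, hy⟩
    have hxP := H22.mem_sylow_of_normal P hP hx
    have hc : Subgroup.IsComplement' (P : Subgroup G) K := H1.isComplement'_iff_of_normal.mpr ⟨h1, h2⟩
    have hyK : y ∈ K := by
      rw [← Subgroup.zpowers_le]
      apply H1.le_of_coprime_index
      rw [Nat.card_zpowers, hy, hc.index_eq_card, P.card_eq_multiplicity]
      exact Nat.coprime_pow_primes _ _ hq Fact.out hqp
    exact Subgroup.commute_of_normal_of_disjoint _ _ hP hK (disjoint_iff.mpr h1) x y hxP hyK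
  · intro h
    obtain ⟨P⟩ : Nonempty (Sylow p G) := inferInstance
    have hcen : ∀ y : G, ∀ q b : ℕ, q.Prime → q ≠ p → orderOf y = q ^ b →
        y ∈ Subgroup.centralizer ((P : Subgroup G) : Set G) := fun y q b hq hqp hy x hx =>
      h x y (H22.orderOf_eq_pow_of_mem P.isPGroup' hx) ⟨q, b, hq, hqp, hy⟩
    have hP : (P : Subgroup G).Normal := by
      apply H2.normal_of_top_le_normalizer
      apply H2.le_of_forall_sylIn
      intro q hq _
      by_cases hqp : q = p
      · subst hqp
        exact ⟨P, H2.sylIn_top P, Subgroup.le_normalizer⟩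
      · haveI := Fact.mk hq
        obtain ⟨Q⟩ : Nonempty (Sylow q G) := inferInstance
        refine ⟨Q, H2.sylIn_top Q, fun y hy => Subgroup.centralizer_le_normalizer _ ?_⟩
        obtain ⟨b, hb⟩ := H22.orderOf_eq_pow_of_mem Q.isPGroup' hy
        exact hcen y q b hq hqp hb
    obtain ⟨K, hK⟩ := Subgroup.exists_right_complement'_of_coprime (N := (P : Subgroup G))
      P.card_coprime_index
    have hKC : K ≤ Subgroup.centralizer ((P : Subgroup G) : Set G) := by
      intro g hg
      apply H22.mem_of_forall_primePow_mem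
      intro x _ q k hq hqg hx
      refine hcen x q k hq ?_ hx
      rintro rfl
      apply P.not_dvd_index
      rw [hK.symm.index_eq_card]
      exact hqg.trans (Subgroup.orderOf_dvd_natCard _ hg)
    obtain ⟨h1, h2⟩ := H1.isComplement'_iff_of_normal.mp hK
    refine ⟨P, K, hP, ?_, h1, h2⟩
    apply H2.normal_of_top_le_normalizer
    rw [← h2]
    exact sup_le ((Subgroup.le_centralizer_iff.mp hKC).trans (Subgroup.centralizer_le_normalizer _))
      Subgroup.le_normalizer

end Cfsg.Agent.S3986
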