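import Cfsg.Statements.S3987
import Cfsg.Agent.H22.Misc1
import Cfsg.Agent.S3986

set_option autoImplicit false
open Cfsg

namespace Cfsg.Agent.S3987

/-- Let p be a prime and G a finite group. Then some Sylow p-subgroup of G is a direct factor of G (normal with a normal complement) if and only if for every element x of p-power order and every element y whose order is a power of a prime other than p, the conjugacy class of x y has as many elements as the product of the sizes of the classes of x and of y. -/
theorem result {G : Type*} [Group G] [Finite G] (p : ℕ) [Fact p.Prime] : (∃ (P : Sylow p G) (K : Subgroup G), (P : Subgroup G).Normal ∧ K.Normal ∧ (P : Subgroup G) ⊓ K = ⊥ ∧ (P : Subgroup G) ⊔ K = ⊤) ↔ ∀ x y : G, (∃ a : ℕ, orderOf x = p ^ a) → (∃ q b : ℕ, q.Prime ∧ q ≠ p ∧ orderOf y = q ^ b) → (Subgroup.centralizer ({x * y} : Set G)).index = (Subgroup.centralizer ({x} : Set G)).index * (Subgroup.centralizer ({y} : Set G)).index := by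
  constructor
  · intro h x y hx hy
    have hc : Commute x y := (Cfsg.Agent.S3986.result p).mp h x y hx hy
    obtain ⟨P, K, hP, hK, h1, h2⟩ := h
    obtain ⟨q, b, hq, hqp, hy⟩ := hy
    have hpy : ¬ p ∣ orderOf y := by
      rw [hy]; intro hd
      exact hqp (H22.eq_of_prime_dvd_pow hq Fact.out hd).symm
    have hcomp : Subgroup.IsComplement' (P : Subgroup G) K :=
      H1.isComplement'_iff_of_normal.mpr ⟨h1, h2⟩
    rw [H22.centralizer_mul_of_coprime hc (H22.coprime_orderOf_of_pelt hx hpy)]
    apply H22.index_inf_of_coprime
    have hxP := H22.mem_sylow_of_normal P hP hx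
    have h3 : K ≤ Subgroup.centralizer ({x} : Set G) := fun k hk =>
      Subgroup.mem_centralizer_singleton_iff.mpr
        (Subgroup.commute_of_normal_of_disjoint _ _ hP hK (disjoint_iff.mpr h1) x k hxP hk).symm
    have h4 : (P : Subgroup G) ≤ Subgroup.centralizer ({y} : Set G) := fun a ha =>
      Subgroup.mem_centralizer_singleton_iff.mpr ((Cfsg.Agent.S3986.result p).mp
        ⟨P, K, hP, hK, h1, h2⟩ a y (H22.orderOf_eq_pow_of_mem P.isPGroup' ha) ⟨q, b, hq, hqp, hy⟩)
    have h5 := Subgroup.index_dvd_of_le h3
    rw [hcomp.index_eq_card] at h5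
    exact (P.card_coprime_index.coprime_dvd_left h5).coprime_dvd_right (Subgroup.index_dvd_of_le h4)
  · intro h
    apply (Cfsg.Agent.S3986.result p).mpr
    intro x y hx hy
    have h1 := h x y hx hy
    have h2 : Subgroup.centralizer ({x} : Set G) ⊓ Subgroup.centralizer {y} ≤
        Subgroup.centralizer {x * y} := by
      intro g hg
      obtain ⟨h3, h4⟩ := Subgroup.mem_inf.mp hg
      rw [Subgroup.mem_centralizer_singleton_iff] at h3 h4 ⊢
      rw [← mul_assoc, h3, mul_assoc, h4, mul_assoc]
    have h3 : Subgroup.centralizer ({x} : Set G) ⊓ Subgroup.centralizer {y} =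
        Subgroup.centralizer {x * y} := by
      by_contra hne
      have h4 := Subgroup.index_strictAnti (lt_of_le_of_ne h2 hne)
      have h5 := Subgroup.index_inf_le (H := Subgroup.centralizer ({x} : Set G))
        (K := Subgroup.centralizer ({y} : Set G))
      omega
    have h4 : x * y ∈ Subgroup.centralizer ({x * y} : Set G) :=
      Subgroup.mem_centralizer_singleton_iff.mpr rfl
    rw [← h3] at h4
    have h5 := Subgroup.mem_centralizer_singleton_iff.mp (Subgroup.mem_inf.mp h4).1
    rw [mul_assoc] at h5
    exact (mul_left_cancel h5).symm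

end Cfsg.Agent.S3987
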