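import Cfsg.Statements.S4004
import Cfsg.Agent.H21.SOT
import Cfsg.Agent.H21.Crit
import Cfsg.Agent.S4249
import Cfsg.Agent.H19.ZD

set_option autoImplicit false
open Cfsg

namespace Cfsg.Agent.S4004

set_option maxHeartbeats 1600000 in
open H21 H18 Subgroup MulAction in

/-- Let G be a finite group of odd order in which the numbers of elements of each order that occurs (the numbers #{g : o(g) = m}, m ranging over the element orders of G) take exactly three different values. Then the order of G has at most two prime divisors; and if it has exactly two, then every Sylow subgroup of G for a prime dividing its order has prime exponent, G is a Frobenius group, and some Frobenius complement of G has prime order. -/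
theorem result {G : Type*} [Group G] [Finite G] (hodd : Odd (Nat.card G)) (h : (((fun m : ℕ => Nat.card {g : G // orderOf g = m}) '' Set.range (orderOf : G → ℕ))).ncard = 3) :
    (Nat.card G).primeFactors.card ≤ 2 ∧
      ((Nat.card G).primeFactors.card = 2 →
        (∀ (p : ℕ) [Fact p.Prime] (P : Sylow p G), p ∣ Nat.card G → Monoid.exponent ↥(P : Subgroup G) = p) ∧
        ∃ C : Subgroup G, Cfsg.IsFrobeniusComplement C ∧ (Nat.card ↥C).Prime) := by
  obtain ⟨a, b, hv⟩ := so_vals h
  have l : ∀ q, q.Prime → q ∣ Nat.card G → 2 < q := fun q hq qG => hq.two_le.lt_of_ne fun e =>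
    hodd.not_two_dvd_nat (e ▸ qG)
  have nd : ∀ {p q : ℕ}, p.Prime → q.Prime → p ≠ q → ¬ p ∣ q := fun hp hq n d => n ((Nat.prime_dvd_prime_iff_eq hp hq).1 d)
  have l2 : ∀ {p : ℕ} (m : ℕ), 2 < p → 0 < m → 2 < p * m := fun m h1 h2 => by nlinarith
  have c1 : ∀ p q, p.Prime → q.Prime → p ∣ Nat.card G → q ∣ Nat.card G → p ≠ q → so G p ≠ so G q := by
    intro p q hp hq pG qG pq e
    obtain ⟨b, hv⟩ : ∃ b, ∀ m, 2 < m → so G m = 0 ∨ so G m = so G p ∨ so G m = b := by
      rcases (hv p (l p hp pG)).resolve_left (so_prime_ne hp pG) with rfl | rfl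
      · exact ⟨b, hv⟩
      · exact ⟨a, fun m hm => by have := hv m hm; tauto⟩
    have k : ∀ r s, r.Prime → s.Prime → r ∣ Nat.card G → r ≠ s → so G r = so G p → so G s = so G p →
        so G (r * s) = b ∧ r ∣ so G p + b ∧ ¬ r ∣ so G p ∧ ¬ r ∣ b := fun r s hr hs rG rs e1 e2 => by
      have k1 := e1 ▸ so_prime hr rG
      have k2 := e2 ▸ so_key hr rG (nd hr hs rs)
      have := so_no hr (l r hr rG) k1 k2
      have e3 : so G (r * s) = b := by have := hv _ (l2 s (l r hr rG) hs.pos); omega
      have n : ¬ r ∣ so G p := fun d => hr.ne_one (Nat.dvd_one.1 ((Nat.dvd_add_left d).1 k1))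
      exact ⟨e3, e3 ▸ k2, n, fun d => n ((Nat.dvd_add_left d).1 (e3 ▸ k2))⟩
    have all : ∀ r, r.Prime → r ∣ Nat.card G → so G r = so G p := fun r hr rG => by_contra fun n => by
      have eb : so G r = b := by have := hv r (l r hr rG); have := so_prime_ne hr rG; omega
      have qr : q ≠ r := by rintro rfl; exact n e.symm
      have pr : p ≠ r := by rintro rfl; exact n rfl
      obtain ⟨e1, d1, -, n1⟩ := k q p hq hp qG pq.symm e.symm rfl
      have e2 : so G (q * r) = so G p := by
        have k2 := eb ▸ so_key hq qG (nd hq hr qr)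
        rcases hv _ (l2 r (l q hq qG) hr.pos) with e' | e' | e'
        · exact absurd (by simpa [e'] using k2) n1
        · exact e'
        · rw [e', ← two_mul] at k2
          exact absurd (((hq.dvd_mul).1 k2).resolve_left fun d => (Nat.le_of_dvd two_pos d).not_gt (l q hq qG)) n1
      have k3 := so_no hp (l p hp pG) (so_prime hp pG) (e2 ▸ so_key hp pG (n := q * r) fun d =>
        (hp.dvd_mul.1 d).elim (nd hp hq pq) (nd hp hr pr))
      have k4 := so_no hr (l r hr rG) (eb ▸ so_prime hr rG) (e1 ▸ so_key hr rG (n := q * p) fun d =>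
        (hr.dvd_mul.1 d).elim (nd hr hq qr.symm) (nd hr hp pr.symm))
      have := hv _ (l2 (q * r) (l p hp pG) (Nat.mul_pos hq.pos hr.pos))
      rw [show r * (q * p) = p * (q * r) by ring] at k4
      omega
    have : Nat.card G ∣ 1 + so G p := (Nat.dvd_iff_prime_pow_dvd_dvd _ _).2 fun r j hr d => by
      rcases j with _ | j
      · simp
      have rG := (dvd_pow_self r j.succ_ne_zero).trans d
      obtain ⟨n1, n2⟩ : ¬ r ∣ so G p ∧ ¬ r ∣ b := by
        by_cases rp : r = p
        · exact (k r q hr hq rG (rp ▸ pq) (all r hr rG) e.symm).2.2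
        · exact (k r p hr hp rG rp (all r hr rG) rfl).2.2
      have := so_keyk hr d (n := 1) (by simpa using hr.ne_one)
      rw [Finset.sum_range_succ', Finset.sum_range_succ', Finset.sum_eq_zero fun i _ => ?_] at this
      · simpa [so_one, all r hr rG, add_comm] using this
      have := so_sq (G := G) hr (m := r ^ (i + 1 + 1) * 1) ⟨r ^ i, by ring⟩
      rcases hv (r ^ (i + 1 + 1) * 1) (by rw [mul_one, pow_succ']; exact l2 _ (l r hr rG) (pow_pos hr.pos _))
        with e' | e' | e'
      · exact e'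
      · exact absurd (e' ▸ this) n1
      · exact absurd (e' ▸ this) n2
    have h1 := Nat.le_of_dvd (by omega) this
    have h2 : ∑ d ∈ ({1, p, q} : Finset ℕ), so G d ≤ ∑ d ∈ (Nat.card G).divisors, so G d :=
      Finset.sum_le_sum_of_subset fun d hd => Nat.mem_divisors.2 ⟨by
        simp only [Finset.mem_insert, Finset.mem_singleton] at hd
        rcases hd with rfl | rfl | rfl; exacts [one_dvd _, pG, qG], Nat.card_pos.ne'⟩
    rw [so_sum Nat.card_pos.ne', Finset.sum_insert (by simp [hp.ne_one.symm, hq.ne_one.symm]),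
      Finset.sum_pair pq, so_one] at h2
    have := h2.trans (Finite.card_subtype_le _)
    have := so_prime_ne hq qG
    omega
  have val : ∀ p, p.Prime → p ∣ Nat.card G → so G p = a ∨ so G p = b := fun p hp pG =>
    (hv p (l p hp pG)).resolve_left (so_prime_ne hp pG)
  refine ⟨by_contra fun n => ?_, fun h2 => ?_⟩
  · obtain ⟨p, q, r, hp, hq, hr, pq, pr, qr⟩ := Finset.two_lt_card_iff.1 (not_le.1 n)
    rw [Nat.mem_primeFactors] at hp hq hr
    have := c1 p q hp.1 hq.1 hp.2.1 hq.2.1 pq
    have := c1 p r hp.1 hr.1 hp.2.1 hr.2.1 pr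
    have := c1 q r hq.1 hr.1 hq.2.1 hr.2.1 qr
    have := val p hp.1 hp.2.1
    have := val q hq.1 hq.2.1
    have := val r hr.1 hr.2.1
    omega
  have c2 : ∀ p q, p.Prime → q.Prime → p ∣ Nat.card G → q ∣ Nat.card G → p ≠ q → so G (p * q) ≠ so G p := by
    intro p q hp hq pG qG pq e
    let _ : MulAction G G := MulAction.compHom G (MulAut.conj (G := G))
    have : so G p * 2 ≤ so G (p * q) := H22.mul_le_ncard_of_fibers (fun g : G => g ^ q) {g | orderOf g = p * q}
      {g | orderOf g = p} (Set.toFinite _) 2 fun x hx => by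
      have hx : orderOf x = p := hx
      obtain ⟨P, hP⟩ := exists_sylow hp (⊤ : Subgroup G)
      have := H9.card_modEq_fix hP.pi hp (Set.toFinite {g : G | orderOf g = q}) fun r _ y hy =>
        ((MulAut.conj r).orderOf_eq y).trans hy
      obtain ⟨y, hy, yP⟩ := Set.nonempty_of_ncard_ne_zero (s := {y ∈ {g : G | orderOf g = q} | P ≤ stabilizer G y})
        fun e' => by
        rw [e'] at this
        have d := (Nat.dvd_add_left (Nat.modEq_zero_iff_dvd.1 this : p ∣ so G q)).1
          ((add_comm (so G q) _).symm ▸ e ▸ so_key hp pG (nd hp hq pq) : p ∣ so G p + so G q)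
        exact hp.ne_one (Nat.dvd_one.1 ((Nat.dvd_add_left d).1 (so_prime hp pG)))
      obtain ⟨g, -, hg⟩ := sylow_le_cj' hp hP (Q := zpowers x) (fun r hr d => by
        rw [Nat.card_zpowers, hx] at d; exact (Nat.prime_dvd_prime_iff_eq hr hp).1 d) le_top
      have c : Commute x (g * y * g⁻¹) := by
        have : g⁻¹ * x * g * y * (g⁻¹ * x * g)⁻¹ = y := yP (mem_cj.1 (hg (mem_zpowers x)))
        rw [Commute, SemiconjBy]
        conv_rhs => rw [← this]
        group
      have oy : orderOf (g * y * g⁻¹) = q := ((MulAut.conj g).orderOf_eq y).trans hy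
      generalize g * y * g⁻¹ = y at c oy
      obtain ⟨k, hk⟩ := exists_pow_eq_self_of_coprime (x := x) (n := q) (hx ▸ (Nat.coprime_primes hq hp).2 pq.symm)
      have m : ∀ y, Commute x y → orderOf y = q → x ^ k * y ∈ {g ∈ {g : G | orderOf g = p * q} | g ^ q = x} :=
        fun y c oy => by
        have o : orderOf (x ^ k) = p := by
          refine orderOf_eq_prime_iff (hp := ⟨hp⟩).2 ⟨by rw [← pow_mul, mul_comm, pow_mul, ← hx, pow_orderOf_eq_one,
            one_pow], fun e => ?_⟩
          rw [← pow_mul, mul_comm, pow_mul, e, one_pow] at hk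
          exact hp.ne_one (by rw [← hx, ← hk, orderOf_one])
        refine ⟨by rw [Set.mem_ofPred_eq, (c.pow_left k).orderOf_mul_eq_mul_orderOf_of_coprime
          (o ▸ oy ▸ (Nat.coprime_primes hp hq).2 pq), o, oy], ?_⟩
        rw [(c.pow_left k).mul_pow, ← oy, pow_orderOf_eq_one, mul_one, oy, ← pow_mul, mul_comm, pow_mul, hk]
      refine (Set.one_lt_ncard_iff (Set.toFinite _)).2 ⟨_, _, m y c oy, m y⁻¹ c.inv_right (by simpa using oy), fun e => ?_⟩
      have := orderOf_dvd_of_pow_eq_one (x := y) (n := 2) (by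
        rw [pow_two]; exact mul_eq_one_iff_eq_inv.2 (mul_left_cancel e))
      exact (Nat.le_of_dvd two_pos this).not_gt (oy ▸ l q hq qG)
    have := so_prime_ne hp pG
    omega
  have c3 : ∀ p q, p.Prime → q.Prime → p ∣ Nat.card G → q ∣ Nat.card G → p ≠ q → ∀ x : G,
      ¬ p * q ∣ orderOf x ∧ ¬ p * p ∣ orderOf x := by
    intro p q hp hq pG qG pq x
    have e1 := c1 p q hp hq pG qG pq
    have v1 := val p hp pG
    have v2 := val q hq qG
    have e : so G (p * q) = 0 := by
      have := c2 p q hp hq pG qG pq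
      have := c2 q p hq hp qG pG pq.symm
      have := hv _ (l2 q (l p hp pG) hq.pos)
      rw [mul_comm q] at *
      omega
    refine ⟨fun d => so_of_dvd (so_ne.2 ⟨x, rfl⟩) d e, fun d => ?_⟩
    have n := so_of_dvd (so_ne.2 ⟨x, rfl⟩) d
    have e2 : so G (p * p) = so G q := by
      have : so G (p * p) ≠ so G p := fun e' => hp.ne_one (Nat.dvd_one.1 ((Nat.dvd_add_left
        (e' ▸ so_sq hp dvd_rfl)).1 (so_prime hp pG)))
      have := hv _ (l2 p (l p hp pG) hp.pos)
      omega
    have := so_key hq qG (n := p * p) fun d => nd hq hp pq.symm ((hq.dvd_mul.1 d).elim id id)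
    rw [by_contra fun n : ¬ so G (q * (p * p)) = 0 => so_of_dvd n ⟨p, by ring⟩ e, e2, add_zero] at this
    exact hq.ne_one (Nat.dvd_one.1 ((Nat.dvd_add_left this).1 (so_prime hq qG)))
  have oth : ∀ p, p.Prime → p ∣ Nat.card G → ∃ q, q.Prime ∧ q ∣ Nat.card G ∧ p ≠ q ∧
      ∀ x : G, x ≠ 1 → orderOf x = p ∨ orderOf x = q := fun p hp pG => by
    obtain ⟨q, hq, e⟩ : ∃ q, q ≠ p ∧ (Nat.card G).primeFactors = {p, q} := by
      obtain ⟨x, y, xy, e⟩ := Finset.card_eq_two.1 h2
      rcases Finset.mem_insert.1 (e ▸ Nat.mem_primeFactors.2 ⟨hp, pG, Nat.card_pos.ne'⟩) with rfl | m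
      · exact ⟨y, xy.symm, e⟩
      · exact ⟨x, Finset.mem_singleton.1 m ▸ xy, by rw [e, Finset.mem_singleton.1 m, Finset.pair_comm]⟩
    have m := Nat.mem_primeFactors.1 (e.ge (show q ∈ ({p, q} : Finset ℕ) by simp))
    have pr : ∀ (x : G) r, r.Prime → r ∣ orderOf x → r = p ∨ r = q := fun x r hr d => by
      simpa using e.le (Nat.mem_primeFactors.2 ⟨hr, d.trans (orderOf_dvd_natCard x), Nat.card_pos.ne'⟩)
    refine ⟨q, m.1, m.2.1, hq.symm, fun x x1 => ?_⟩
    obtain ⟨r, hr, k, e⟩ := Nat.exists_prime_and_dvd (mt orderOf_eq_one_iff.1 x1)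
    obtain rfl : k = 1 := by_contra fun k1 => by
      obtain ⟨s, hs, d⟩ := Nat.exists_prime_and_dvd k1
      have d' : r * s ∣ orderOf x := e ▸ mul_dvd_mul_left r d
      have o1 := c3 p q hp m.1 pG m.2.1 hq.symm x
      have o2 := c3 q p m.1 hp m.2.1 pG hq x
      rcases pr x r hr ⟨k, e⟩ with rfl | rfl <;> rcases pr x s hs ((dvd_mul_left _ _).trans d') with rfl | rfl
      exacts [o1.2 d', o1.1 d', o2.1 d', o2.2 d']
    rw [e, mul_one]; exact pr x r hr ⟨1, e⟩
  refine ⟨fun p hp P pG => ?_, ?_⟩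
  · obtain ⟨q, hq, -, pq, o⟩ := oth p hp.1 pG
    have := (nontrivial_iff_ne_bot _).2 (P.ne_bot_of_dvd_card pG)
    refine (Monoid.exponent_eq_prime_iff hp.1).2 fun x x1 => ?_
    obtain ⟨k, e⟩ := IsPGroup.iff_orderOf.1 P.2 x
    exact orderOf_coe x ▸ (o x (by simpa using x1)).resolve_right fun e' =>
      pq ((Nat.prime_dvd_prime_iff_eq hq hp.1).1 (hq.dvd_of_dvd_pow (by rw [← e, ← orderOf_coe, e']))).symm
  have : Nontrivial G := Finite.one_lt_card_iff_nontrivial.1 (by_contra fun n => by
    rw [show Nat.card G = 1 by have := Nat.card_pos (α := G); omega] at h2; simp at h2)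
  have : Group.IsSolvable G := solv_top_iff.1 (solv_of_odd fun p hp d m => hodd.not_two_dvd_nat (by
    rw [Set.mem_singleton_iff.1 m] at d; simpa using d))
  obtain ⟨p, hp, d⟩ := Nat.exists_prime_and_dvd (n := Nat.card (Abelianization G))
    fun e => (Group.IsSolvable.commutator_lt_top_of_nontrivial G).ne (index_eq_one.1 e)
  have pG : p ∣ Nat.card G := d.trans (card_quotient_dvd_card _)
  obtain ⟨q, hq, qG, pq, o⟩ := oth p hp pG
  have := Fact.mk hp
  have oq : ∀ g : G, g ^ p ≠ 1 → orderOf g = q := fun g hg => (o g (by rintro rfl; simp at hg)).resolve_left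
    fun e => hg (e ▸ pow_orderOf_eq_one g)
  obtain ⟨hN, i⟩ := Cfsg.Agent.S4249.result (G := G) p hp (fun hG => by
    obtain ⟨k, e⟩ := hG.exists_card_eq
    exact nd hq hp pq.symm (hq.dvd_of_dvd_pow (e ▸ qG))) fun e => by
      obtain ⟨x, hx⟩ := exists_prime_orderOf_dvd_card' p d
      obtain ⟨g, rfl⟩ := QuotientGroup.mk_surjective x
      have : g ∈ ((powMonoidHom q).ker.comap (Abelianization.of (G := G))) := (e.ge.trans ((closure_le _).2 fun y hy => by
        change Abelianization.of y ^ q = 1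
        rw [← map_pow, ← oq y hy, pow_orderOf_eq_one, map_one])) (mem_top g)
      exact nd hp hq pq (hx ▸ orderOf_dvd_of_pow_eq_one this)
  set H := Subgroup.closure {g : G | g ^ p ≠ 1}
  have zp : ∀ {r} {y : G}, r.Prime → orderOf y = r → PiGrp {r} (zpowers y) := fun hr e s hs d => by
    rw [Nat.card_zpowers, e] at d; exact (Nat.prime_dvd_prime_iff_eq hs hr).1 d
  have hH : PiGrp {q} H := (pcore_pi (π := {q}) (H := H)).of_le ((closure_le _).2 fun y hy =>
    Nil.le_pcore hN (zpowers_le.2 (subset_closure hy)) (zp hq (oq y hy)) (mem_zpowers y))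
  have nH : ∀ g, g ∈ normalizer (H : Set G) := fun g => H19.norm_closure_of_nD fun y => by simp [conj_pow]
  obtain ⟨x, hx⟩ := exists_prime_orderOf_dvd_card' p pG
  have x1 : x ≠ 1 := fun e => hp.ne_one (by rw [← hx, e, orderOf_one])
  have d : H ⊓ zpowers x = ⊥ := hH.inf_eq_bot fun r hr d => by simpa [Set.mem_singleton_iff.1 (zp hp hx r hr d)] using pq
  have t : H ⊔ zpowers x = ⊤ := index_eq_one.1 (((Nat.dvd_prime hp).1 (i ▸ index_dvd_of_le le_sup_left)).resolve_right
    fun e => x1 (mem_bot.1 (d.le ⟨(relIndex_eq_one.1 (mul_right_cancel₀ hp.ne_zero (by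
      rw [one_mul]; nth_rewrite 1 [← e]; rw [relIndex_mul_index le_sup_left, i]))) (mem_sup_right (mem_zpowers x)),
      mem_zpowers x⟩)))
  refine ⟨zpowers x, ⟨by simpa using x1, fun e => nd hq hp pq.symm (by
    rwa [← hx, ← Nat.card_zpowers, e, card_top]), fun g hg => by_contra fun n => hg ?_⟩, by rwa [Nat.card_zpowers, hx]⟩
  have e : zpowers x ≤ cj g (zpowers x) := inf_eq_left.1 ((eq_bot_or_eq_of_prime
    (by rwa [Nat.card_zpowers, hx]) inf_le_left).resolve_left n)
  obtain ⟨k, hk, c, hc, rfl⟩ := (mem_sup_of_norm' fun g _ => nH g).1 (t.ge (mem_top g))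
  have m : k⁻¹ * x * k ∈ zpowers x := by
    simpa [mul_assoc] using mul_mem (mul_mem hc (mem_cj.1 (e (mem_zpowers x)))) (inv_mem hc)
  have cm : Commute x k := by
    have := mem_bot.1 (d.le (mem_inf.2 ⟨by simpa [mul_assoc] using mul_mem (inv_mem hk) (conj_mem_N (nH x) hk),
      mul_mem m (inv_mem (mem_zpowers x))⟩))
    rw [mul_inv_eq_one, mul_assoc, inv_mul_eq_iff_eq_mul] at this
    exact this
  by_cases k1 : k = 1
  · simpa [k1] using hc
  have ok : orderOf k = q := (o k k1).resolve_left fun e' =>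
    pq (hH p hp (e' ▸ orderOf_dvd_card hk))
  exact absurd (by rw [cm.orderOf_mul_eq_mul_orderOf_of_coprime (hx ▸ ok ▸ (Nat.coprime_primes hp hq).2 pq), hx, ok])
    (c3 p q hp hq pG qG pq (x * k)).1

end Cfsg.Agent.S4004
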