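import Cfsg.Statements.S4009
import Cfsg.Agent.H27.IterComm
import Cfsg.Agent.H23.Comm
import Cfsg.Agent.H4.Basic

set_option autoImplicit false
open Cfsg

namespace Cfsg.Agent.S4009

open H26 H27 Subgroup

open scoped commutatorElement

variable {G : Type*} [Group G] {p a b m : ℕ} {X Y Z N M R : Subgroup G}

/-- `|X : Y| ≥ p ^ a` -/
def Gap (p a : ℕ) (X Y : Subgroup G) : Prop := p ^ a * Nat.card Y ≤ Nat.card X

local notation "L" => Subgroup.lowerCentralSeries ⊤

theorem Gap.trans (h1 : Gap p a X Y) (h2 : Gap p b Y Z) : Gap p (a + b) X Z := by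
  rw [Gap, pow_add, mul_assoc]
  exact (Nat.mul_le_mul_left _ h2).trans h1

theorem comm_le_of_gen [R.Normal] (h1 : ⁅M, N⁆ ≤ R) {x y : G} (hx : x ∈ N) (hy : y ∈ N) (h2 : ⁅x, y⁆ ∈ R)
    (h3 : N ≤ zpowers x ⊔ zpowers y ⊔ M) : ⁅N, N⁆ ≤ R := by
  have e : N ≤ closure ({x, y} ∪ (M : Set G)) := h3.trans (sup_le (sup_le (zpowers_le.2 (subset_closure (by simp)))
    (zpowers_le.2 (subset_closure (by simp)))) fun g hg => subset_closure (Or.inr hg))
  refine (commutator_mono e le_rfl).trans (H23.commutator_closure_le _ _ _ fun u hu v hv => ?_)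
  rcases hu with hu | hu
  swap
  · exact h1 (commutator_mem_commutator hu hv)
  have hN : u ∈ N := by rcases hu with rfl | rfl <;> assumption
  refine (commutator_comm _ _).le.trans ((commutator_mono e le_rfl).trans (H23.commutator_closure_le _ (zpowers u) R ?_))
    (commutator_mem_commutator (mem_zpowers u) hv)
  rintro w (hw | hw) _ ⟨k, rfl⟩
  · refine (QuotientGroup.eq_one_iff _).1 ?_
    have e2 : Commute (x : G ⧸ R) y := commutatorElement_eq_one_iff_commute.1 ((QuotientGroup.eq_one_iff _).2 h2)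
    have e3 : Commute (w : G ⧸ R) u := by
      rcases hu with rfl | rfl <;> rcases hw with rfl | rfl
      exacts [Commute.refl _, e2.symm, e2, Commute.refl _]
    exact commutatorElement_eq_one_iff_commute.2 (e3.zpow_right k)
  · exact h1 (commutator_mem_commutator hw (zpow_mem hN k))

instance ic_normal [N.Normal] (i : ℕ) : (iterCommutator N ⊤ i).Normal :=
  normal_of_top_le_normalizer (self_le_normalizer_ic le_normalizer_of_normal i)

theorem ic_comm [N.Normal] (h : N ≤ L m) (i : ℕ) : ⁅iterCommutator N ⊤ i, N⁆ ≤ iterCommutator N ⊤ (i + m + 1) :=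
  (commutator_mono le_rfl h).trans
    (H23.commutator_lcs_le (iterCommutator N ⊤) (fun _ => inferInstance) ⊤ (fun _ => le_rfl) m i)

theorem ic_lcs (h : N ≤ L m) (i : ℕ) : iterCommutator N ⊤ i ≤ L (m + i) := by
  induction i with
  | zero => exact h
  | succ i ih => exact commutator_mono ih le_rfl

theorem comm_lcs (h1 : X ≤ L a) (h2 : Y ≤ L b) : ⁅X, Y⁆ ≤ L (a + b + 1) :=
  (commutator_mono h1 h2).trans (H23.commutator_lcs_le L (fun _ => inferInstance) ⊤ (fun _ => le_rfl) b a)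

variable [Finite G] [hp : Fact p.Prime]

omit hp in
theorem Gap.mono (h1 : Gap p a X Y) (h2 : Z ≤ Y) : Gap p a X Z :=
  (Nat.mul_le_mul_left _ (card_le_of_le h2)).trans h1

theorem gap_lt (hG : IsPGroup p G) (h : Y < X) : Gap p 1 X Y := by
  obtain ⟨i, hi⟩ := (hG.to_subgroup X).exists_card_eq
  obtain ⟨j, hj⟩ := (hG.to_subgroup Y).exists_card_eq
  have h1 : Nat.card Y < Nat.card X :=
    (card_le_of_le h.le).lt_of_ne fun e => h.ne (eq_of_le_of_card_ge h.le e.ge)
  rw [Gap, hi, hj, ← pow_add] at *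
  exact Nat.pow_le_pow_right hp.out.pos (by have := (Nat.pow_lt_pow_iff_right hp.out.one_lt).1 h1; omega)

theorem gap_ic (hG : IsPGroup p G) [N.Normal] (i j : ℕ) (h : iterCommutator N ⊤ (i + j) ≠ ⊥) :
    Gap p j (iterCommutator N ⊤ i) (iterCommutator N ⊤ (i + j)) := by
  induction j with
  | zero => simp [Gap]
  | succ j ih =>
    have h1 : iterCommutator N ⊤ (i + j) ≠ ⊥ := fun e => h (eq_bot_iff.2 ((ic_succ_le le_normalizer_of_normal _).trans e.le))
    exact (ih h1).trans (gap_lt hG (H4.commutator_lt_of_isPGroup (hG.to_subgroup _) (hG.to_subgroup _)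
      le_normalizer_of_normal h1))

theorem tri (hG : IsPGroup p G) [N.Normal] (h : N ≤ L m) (h0 : ⁅N, N⁆ ≠ ⊥) : Gap p (m + 3) N ⁅N, N⁆ ∨
    Gap p (m + 2) N ⁅N, N⁆ ∧ (⁅N, N⁆ ≤ L (2 * m + 2) ∨ ⁅⁅N, N⁆, ⁅N, N⁆⁆ ≤ L (4 * m + 4)) := by
  have h1 : ⁅N, N⁆ ≤ iterCommutator N ⊤ (1 + m) := by simpa only [zero_add, add_comm 1, ic_zero] using ic_comm h 0
  have g1 := gap_ic hG 1 m fun e => h0 (eq_bot_iff.2 (h1.trans e.le))
  have hM : iterCommutator N ⊤ 1 ≤ N := ic_le le_normalizer_of_normal 1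
  have lt : iterCommutator N ⊤ 1 < N := H4.commutator_lt_of_isPGroup (hG.to_subgroup _) (hG.to_subgroup _)
    le_normalizer_of_normal fun e => h0 (by rw [show N = ⊥ from e, commutator_bot_left])
  set M := iterCommutator N ⊤ 1
  obtain ⟨x, hx, hx'⟩ := SetLike.exists_of_lt lt
  have l1 : M < zpowers x ⊔ zpowers x ⊔ M := lt_of_le_not_ge le_sup_right fun e =>
    hx' (e (mem_sup_left (mem_sup_left (mem_zpowers x))))
  have l2 : ∀ y ∈ N, zpowers x ⊔ zpowers y ⊔ M ≤ N := fun y hy => sup_le (sup_le (zpowers_le.2 hx) (zpowers_le.2 hy)) hM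
  rcases (l2 x hx).eq_or_lt with e | l3
  · have h2 := comm_le_of_gen (ic_comm h 1) hx hx (by simp) e.ge
    refine Or.inr ⟨?_, Or.inl (h2.trans ((ic_lcs h _).trans (by rw [show m + (1 + m + 1) = 2 * m + 2 by omega])))⟩
    rw [show 1 + m + 1 = 0 + (m + 2) by omega] at h2
    exact (gap_ic hG 0 (m + 2) fun e => h0 (eq_bot_iff.2 (h2.trans e.le))).mono h2
  obtain ⟨y, hy, hy'⟩ := SetLike.exists_of_lt l3
  have l4 : zpowers x ⊔ zpowers x ⊔ M < zpowers x ⊔ zpowers y ⊔ M := lt_of_le_not_ge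
    (sup_le_sup_right (sup_le le_sup_left le_sup_left) _) fun e => hy' (e (mem_sup_left (mem_sup_right (mem_zpowers y))))
  have g2 := ((gap_lt hG l4).trans (gap_lt hG l1)).trans g1
  rcases (l2 y hy).eq_or_lt with e | l5
  swap
  · exact Or.inl (by simpa only [show 1 + (1 + 1 + m) = m + 3 by omega] using ((gap_lt hG l5).trans g2).mono h1)
  rw [e] at g2
  rcases h1.eq_or_lt with e1 | l6
  swap
  · exact Or.inl (by simpa only [show 1 + 1 + m + 1 = m + 3 by omega] using g2.trans (gap_lt hG l6))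
  refine Or.inr ⟨by simpa only [show 1 + 1 + m = m + 2 by omega] using g2.mono h1, Or.inr ?_⟩
  have hc := commutator_mem_commutator hx hy
  have hK : iterCommutator N ⊤ (1 + m + 1) ≤ ⁅N, N⁆ := e1 ▸ ic_succ_le le_normalizer_of_normal _
  have : (zpowers ⁅x, y⁆ ⊔ zpowers ⁅x, y⁆ ⊔ iterCommutator N ⊤ (1 + m + 1)).Normal :=
    normal_of_top_le_normalizer (le_normalizer_iff_commutator_le_left.2 ((commutator_mono
      ((sup_le (sup_le (zpowers_le.2 hc) (zpowers_le.2 hc)) hK).trans h1) le_rfl).trans le_sup_right))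
  refine (comm_le_of_gen le_rfl hc hc (by simp) (comm_le_of_gen ((ic_comm h 1).trans le_sup_right) hx hy
    (mem_sup_left (mem_sup_left (mem_zpowers _))) e.ge)).trans ((comm_lcs (ic_lcs h _) (comm_lcs h h)).trans ?_)
  rw [show m + (1 + m + 1) + (m + m + 1) + 1 = 4 * m + 4 by omega]

theorem main (hG : IsPGroup p G) (d : ℕ) (h : derivedSeries G d ≠ ⊥) : ∃ m a, m + 1 = 2 ^ d ∧ derivedSeries G d ≤ L m ∧
    Gap p a ⊤ (derivedSeries G d) ∧ (m + 2 * d ≤ a ∨ m + 2 * d ≤ a + 1 ∧ derivedSeries G (d + 1) ≤ L (2 * m + 2) ∨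
      m + 2 * d ≤ a + 2 ∧ derivedSeries G d ≤ L (m + 1)) := by
  induction d with
  | zero => exact ⟨0, 0, rfl, le_rfl, by simp [Gap], Or.inl le_rfl⟩
  | succ d ih =>
    obtain ⟨m, a, h1, h2, h3, h4⟩ := ih fun e => h (by rw [derivedSeries_succ, e, commutator_bot_left])
    have h5 : derivedSeries G (d + 1) ≤ L (2 * m + 1) := by rw [two_mul]; exact comm_lcs h2 h2
    have h6 : 2 * m + 1 + 1 = 2 ^ (d + 1) := by rw [pow_succ]; omega
    rcases h4 with h4 | ⟨h4, h7⟩ | ⟨h4, h7⟩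
    · rcases tri hG h2 h with g | ⟨g, e | e⟩
      · exact ⟨_, _, h6, h5, h3.trans g, Or.inl (by omega)⟩
      · exact ⟨_, _, h6, h5, h3.trans g, Or.inr (Or.inr ⟨by omega, e⟩)⟩
      · exact ⟨_, _, h6, h5, h3.trans g, Or.inr (Or.inl ⟨by omega, by rwa [show 2 * (2 * m + 1) + 2 = 4 * m + 4 by omega]⟩)⟩
    · rcases tri hG h2 h with g | ⟨g, -⟩ <;> exact ⟨_, _, h6, h5, h3.trans g, Or.inr (Or.inr ⟨by omega, h7⟩)⟩
    · have h8 := (comm_lcs h7 h7).trans (Subgroup.lowerCentralSeries_antitone ⊤ (show 2 * m + 1 + 1 ≤ _ by omega))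
      rcases tri hG h7 h with g | ⟨g, -⟩ <;> exact ⟨_, _, h6, h5, h3.trans g, Or.inr (Or.inr ⟨by omega, h8⟩)⟩

/-- Let P be a finite p-group of order p^n whose derived length is exactly k + 1 (the k-th derived subgroup is nontrivial and the (k+1)-st is trivial). Then n ≥ 2^k + 2k − 2. -/
theorem result {P : Type*} [Group P] [Finite P] (p : ℕ) [Fact p.Prime] (n k : ℕ) (hcard : Nat.card P = p ^ n) (hk : derivedSeries P k ≠ ⊥) (hk' : derivedSeries P (k + 1) = ⊥) : 2 ^ k + 2 * k ≤ n + 2 := by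
  have hG := IsPGroup.of_card hcard
  obtain ⟨m, a, h1, -, h3, h4⟩ := main hG k hk
  have h5 := h3.trans (gap_lt hG (bot_lt_iff_ne_bot.2 hk))
  rw [Gap, card_bot, card_top, hcard, mul_one, Nat.pow_le_pow_iff_right (Fact.out : p.Prime).one_lt] at h5
  omega

end Cfsg.Agent.S4009
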