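import Cfsg.Statements.S4013
import Cfsg.Agent.H22.Misc2

set_option autoImplicit false
open Cfsg

namespace Cfsg.Agent.S4013

/-- Let G be a finite p-group (p prime) and N < M normal subgroups of G such that for some g ∈ M ∖ N the conjugacy class of g is exactly M ∖ N. Then p = 2 and N has index 2 in M. -/
theorem result {G : Type*} [Group G] [Finite G] (p : ℕ) [Fact p.Prime] (hG : IsPGroup p G) (N M : Subgroup G) [N.Normal] [M.Normal] (hNM : N < M) (g : G) (hgM : g ∈ M) (hgN : g ∉ N) (hcl : {h : G | IsConj g h} = (M : Set G) \ (N : Set G)) : p = 2 ∧ N.relIndex M = 2 := by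
  have hp : p.Prime := Fact.out
  have h1 := H22.ncard_isConj g
  rw [hcl, Set.ncard_diff (show (N : Set G) ⊆ M from hNM.le)] at h1
  have h2 : Nat.card N * N.relIndex M = Nat.card M := H1.card_mul_relIndex hNM.le
  have h3 : (Subgroup.centralizer ({g} : Set G)).index = Nat.card N * (N.relIndex M - 1) := by
    rw [← h1, Nat.mul_sub, h2, mul_one]; rfl
  obtain ⟨a, ha⟩ := hG.index (Subgroup.centralizer ({g} : Set G))
  obtain ⟨i, hi⟩ := (hG.to_subgroup M).index (N.subgroupOf M)
  have hi' : N.relIndex M = p ^ i := hi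
  obtain ⟨j, -, hj⟩ := (Nat.dvd_prime_pow hp).mp (show N.relIndex M - 1 ∣ p ^ a from
    ⟨Nat.card N, by rw [← ha, h3, mul_comm]⟩)
  have hi0 : i ≠ 0 := by
    rintro rfl
    rw [pow_zero, Subgroup.relIndex_eq_one] at hi'
    exact hNM.not_ge hi'
  have hpos : 0 < N.relIndex M := H2.relIndex_pos _ _
  have hj0 : j = 0 := by
    by_contra hj0
    have h4 : p ∣ N.relIndex M := hi' ▸ dvd_pow_self p hi0
    have h5 : p ∣ N.relIndex M - 1 := hj ▸ dvd_pow_self p hj0
    have h6 := Nat.dvd_sub h4 h5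
    rw [show N.relIndex M - (N.relIndex M - 1) = 1 by omega] at h6
    exact hp.one_lt.ne' (Nat.dvd_one.mp h6)
  rw [hj0, pow_zero] at hj
  have h7 : N.relIndex M = 2 := by omega
  refine ⟨?_, h7⟩
  have h4 : p ∣ 2 := h7 ▸ hi' ▸ dvd_pow_self p hi0
  exact (Nat.prime_dvd_prime_iff_eq hp Nat.prime_two).mp h4

end Cfsg.Agent.S4013
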