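import Cfsg.Statements.S4014
import Cfsg.Agent.H18.Cyc
import Mathlib.GroupTheory.RegularWreathProduct

set_option autoImplicit false
open Cfsg

namespace Cfsg.Agent.S4014

open H18 Subgroup
open scoped commutatorElement

theorem wr {D Q : Type*} [Group D] [Group Q] [Nontrivial Q] (j : ℕ) {d : D} (hd : d ∈ derivedSeries D j) :
    ∃ w ∈ derivedSeries (D ≀ᵣ Q) (j + 1), w.left 1 = d := by
  classical
  let B := (RegularWreathProduct.rightHom : D ≀ᵣ Q →* Q).ker
  let π : B →* D := MonoidHom.mk' (fun w => w.1.left 1) fun a b => by simp [show a.1.right = 1 from a.2]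
  suffices h : derivedSeries D j ≤ ((derivedSeries (D ≀ᵣ Q) (j + 1)).subgroupOf B).map π by
    obtain ⟨w, hw, rfl⟩ := h hd
    exact ⟨w, hw, rfl⟩
  clear hd
  induction j with
  | zero =>
    intro d _
    obtain ⟨q, hq⟩ := exists_ne (1 : Q)
    refine ⟨⟨⁅(⟨Pi.mulSingle 1 d, 1⟩ : D ≀ᵣ Q), RegularWreathProduct.inl q⁆, ?_⟩,
      commutator_mem_commutator (mem_top _) (mem_top _), ?_⟩
    · simp [B, commutatorElement_def]
    · simp [π, commutatorElement_def, hq]
  | succ j ih =>
    refine (commutator_mono ih ih).trans ((map_commutator ..).ge.trans (map_mono (map_le_iff_le_comap.1 ?_)))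
    rw [map_commutator]
    exact commutator_mono (map_comap_le ..) (map_comap_le ..)

theorem iw (G : Type) [Group G] [Nontrivial G] (k : ℕ) : ∃ w ∈ derivedSeries (IteratedWreathProduct G (k + 1)) k, w ≠ 1 := by
  induction k with
  | zero =>
    obtain ⟨q, hq⟩ := exists_ne (1 : G)
    exact ⟨RegularWreathProduct.inl q, mem_top _, fun h => hq (congrArg (·.right) h)⟩
  | succ k ih =>
    obtain ⟨d, hd, h1⟩ := ih
    obtain ⟨w, hw, rfl⟩ := wr (Q := G) k hd
    exact ⟨w, hw, fun h => h1 (congrArg (·.left 1) h)⟩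

/-- Let p be a prime, n ≥ 1, and P a Sylow p-subgroup of the symmetric group on n letters. Then the derived length of P is exactly k = ⌊log_p n⌋ (the largest k with p^k ≤ n): the k-th derived subgroup of P is trivial and, when k ≥ 1, the (k−1)-st is not. -/
theorem result (p : ℕ) [Fact p.Prime] (n : ℕ) (hn : 1 ≤ n) (P : Sylow p (Equiv.Perm (Fin n))) : derivedSeries ↥(P : Subgroup (Equiv.Perm (Fin n))) (Nat.log p n) = ⊥ ∧ (1 ≤ Nat.log p n → derivedSeries ↥(P : Subgroup (Equiv.Perm (Fin n))) (Nat.log p n - 1) ≠ ⊥) := by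
  have hp : p.Prime := Fact.out
  refine ⟨?_, fun h c => ?_⟩
  · have pi : ∀ H : Subgroup P, PiGrp {p} H := fun H => piGrp_of_isPGroup hp (P.isPGroup'.to_subgroup H)
    have k : ∀ (x : Fin n) j, derivedSeries P j ≤ MulAction.stabilizer P x ∨
        p ^ j * (MulAction.stabilizer P x).relIndex (derivedSeries P j) ≤ n := fun x j => by
      set S := MulAction.stabilizer P x
      induction j with
      | zero =>
        rw [pow_zero, one_mul, derivedSeries_zero, relIndex_top_right, MulAction.index_stabilizer]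
        exact .inr ((Set.ncard_le_card _).trans (by simp))
      | succ j ih =>
        by_cases h : derivedSeries P j ≤ S
        · exact .inl (der_le.trans h)
        obtain ⟨M, h1, h2, h3⟩ := (pi _).exists_index_p (inf_lt_right.2 h)
        have : ⁅derivedSeries P j, derivedSeries P j⁆ ≤ M := ((pi _).der_le_phi hp).trans (phi_le_of_covBy
          ⟨h2.le.lt_of_ne fun e => hp.ne_one (h3.symm.trans (relIndex_eq_one_iff.2 e.ge)), fun K a b =>
            (eq_or_eq_of_prime_relIndex (by rwa [h3]) a.le b.le).elim a.ne' b.ne⟩)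
        refine .inr (le_trans ?_ (ih.resolve_left h))
        rw [pow_succ, mul_assoc, ← relIndex_inf_right (B := derivedSeries P j), ← relIndex_tower h1 h2.le, h3, mul_comm p]
        exact Nat.mul_le_mul_left _ (Nat.mul_le_mul_right _ ((relIndex_le_of_le_right this relIndex_ne_zero).trans
          (relIndex_le_of_le_left inf_le_left relIndex_ne_zero)))
    refine eq_bot_iff.2 fun g hg => Subtype.ext (Equiv.ext fun x => ?_)
    refine (relIndex_eq_one_iff.1 (by_contra fun c => ?_) : _ ≤ MulAction.stabilizer P x) hg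
    obtain ⟨q, hq, hd⟩ := Nat.exists_prime_and_dvd c
    rw [(pi _).relIndex.eq_of_dvd hq hd] at hd
    exact (Nat.lt_pow_succ_log_self hp.one_lt n).not_ge ((Nat.mul_le_mul_left _ (Nat.le_of_dvd relIndex_pos hd)).trans
      ((k x _).resolve_left fun h => c (relIndex_eq_one_iff.2 h)))
  · obtain ⟨k, hk⟩ := Nat.exists_eq_add_of_le' h
    have hl := Nat.pow_log_le_self p (show n ≠ 0 by omega)
    rw [hk] at c hl
    let G := Multiplicative (ZMod p)
    have cG : Nat.card G = p := (Nat.card_congr Multiplicative.toAdd).trans (Nat.card_zmod p)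
    obtain ⟨e⟩ : Nonempty ((Fin (k + 1) → G) ↪ Fin n) := Function.Embedding.nonempty_of_card_le (by
      rwa [← Nat.card_eq_fintype_card, Nat.card_fun, cG, Nat.card_fin, Fintype.card_fin])
    let f := (Equiv.Perm.viaEmbeddingHom e).comp (iteratedWreathToPermHom G (k + 1))
    have hf : Function.Injective f := (Equiv.Perm.viaEmbeddingHom_injective e).comp (iteratedWreathToPermHomInj G _)
    obtain ⟨Q, hQ⟩ := ((IsPGroup.of_card ((IteratedWreathProduct.card G (k + 1)).trans (by rw [cG]))).of_surjective _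
      f.rangeRestrict_surjective).exists_le_sylow
    obtain ⟨w, hw, h1⟩ := iw G k
    let φ := (Q.equiv P).toMonoidHom.comp (f.codRestrict Q fun x => hQ ⟨x, rfl⟩)
    exact h1 (hf (congrArg Subtype.val ((Q.equiv P).injective ((c.le (map_derivedSeries_le_derivedSeries φ k
      ⟨w, hw, rfl⟩)).trans (map_one φ).symm))))

end Cfsg.Agent.S4014
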