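import Cfsg.Statements.S4015
import Cfsg.Agent.H3.B3

set_option autoImplicit false
open Cfsg

namespace Cfsg.Agent.S4015

/-- Let p be an odd prime, F a finite field with q elements where p does not divide q, and e the multiplicative order of q modulo p. Let n ≥ e and write w = ⌊n/e⌋ and k = ⌊log_p w⌋. Then a Sylow p-subgroup of GL(n, F) has derived length exactly k + 1: its (k+1)-st derived subgroup is trivial and its k-th is not. -/
theorem result (p : ℕ) [Fact p.Prime] (hp : p ≠ 2) (F : Type*) [Field F] [Fintype F] (q : ℕ) (hq : Fintype.card F = q) (hpq : ¬ p ∣ q) (n : ℕ) (hn : orderOf (q : ZMod p) ≤ n) (P : Sylow p (Matrix.GeneralLinearGroup (Fin n) F)) : derivedSeries ↥(P : Subgroup (Matrix.GeneralLinearGroup (Fin n) F)) (Nat.log p (n / orderOf (q : ZMod p)) + 1) = ⊥ ∧ derivedSeries ↥(P : Subgroup (Matrix.GeneralLinearGroup (Fin n) F)) (Nat.log p (n / orderOf (q : ZMod p))) ≠ ⊥ := by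
  open H3.DL in
  subst hq
  have p1 := (Fact.out : p.Prime).one_lt
  refine ⟨finite_GL hpq p1 le_rfl _ P.isPGroup', fun h => ?_⟩
  set e := orderOf (Fintype.card F : ZMod p) with he
  have h1 : 0 < e := orderOf_pos_iff.2 (isOfFinOrder_iff_pow_eq_one.2
    ⟨p - 1, Nat.sub_pos_of_lt p1, ZMod.pow_card_sub_one_eq_one fun e => hpq ((ZMod.natCast_eq_zero_iff _ _).1 e)⟩)
  have h2 : p ∣ Nat.card (GL (Fin e) F) := by
    rw [Matrix.card_GL_field]
    refine Dvd.dvd.trans ?_ (Finset.dvd_prod_of_mem _ (Finset.mem_univ ⟨0, h1⟩))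
    rw [← ZMod.natCast_eq_zero_iff, Nat.cast_sub (Nat.pow_le_pow_right Fintype.card_pos h1.le), Nat.cast_pow,
      pow_orderOf_eq_one]
    simp
  obtain ⟨Q, _, _, V, _, _, _, ρ, hQ, hd, inj, hV⟩ := exists_long h2 (Nat.log p (n / e))
  obtain ⟨f, hf⟩ := exists_GL ρ inj (n := n) (by
    rw [hV, mul_comm, ← Nat.le_div_iff_mul_le h1]
    exact Nat.pow_log_le_self p (Nat.div_pos hn h1).ne')
  obtain ⟨R, hR⟩ := (hQ.of_surjective f.rangeRestrict f.rangeRestrict_surjective).exists_le_sylow
  let g : Q →* P := (Sylow.equiv R P).toMonoidHom.comp ((Subgroup.inclusion hR).comp f.rangeRestrict)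
  have hg : Function.Injective g := (Sylow.equiv R P).injective.comp ((Subgroup.inclusion_injective hR).comp
    fun a b e => hf (congrArg Subtype.val e))
  have := map_derivedSeries_le_derivedSeries g (Nat.log p (n / e))
  rw [h, le_bot_iff, Subgroup.map_eq_bot_iff_of_injective _ hg] at this
  exact hd this

end Cfsg.Agent.S4015
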