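import Cfsg.Statements.S4022
import Cfsg.Agent.H1.FTCor

set_option autoImplicit false
open Cfsg

namespace Cfsg.Agent.S4022

open H18 H1 Subgroup

universe u
section
variable {G : Type u} [Group G] [Finite G] {X : Type u} [Group X] [Finite X] {H K P : Subgroup G} {p r : ℕ}

def DA (G : Type u) [Group G] : Prop :=
  ∀ p : ℕ, p.Prime → ∀ H K : Subgroup G, PiGrp {p} H → Nat.card H = Nat.card K → ∃ g, K = cj g H
def ZG (r : ℕ) (G : Type u) [Group G] : Prop := ∀ p : ℕ, p.Prime → p ≠ r → ∀ P : Subgroup G, PiGrp {p} P → Cyc P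
def CG (G : Type u) [Group G] : Prop := ∀ H K : Subgroup G, Nat.card H = Nat.card K → ∃ g, K = cj g H

theorem hall_map {π : Set ℕ} (h : Hall π P H) (f : G →* X) : Hall π (P.map f) (H.map f) := by
  have := h.mim (f := f.comp (⊤ : Subgroup G).subtype) le_top
  simpa only [H18.mim, ← map_map, subgroupOf_map_subtype, inf_top_eq] using this

omit [Finite G] [Finite X] in
theorem map_cj (f : G →* X) (g : G) : (cj g P).map f = cj (f g) (P.map f) := by
  rw [cj_def, cj_def, map_map, map_map]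
  congr 1
  ext x
  simp

theorem card_comap_eq {f : G →* X} (hf : Function.Surjective f) {A B : Subgroup X}
    (e : Nat.card A = Nat.card B) : Nat.card (A.comap f) = Nat.card (B.comap f) := by
  have i : A.index = B.index := Nat.eq_of_mul_eq_mul_left Nat.card_pos
    (A.card_mul_index.trans (e ▸ B.card_mul_index.symm))
  refine Nat.eq_of_mul_eq_mul_right (Nat.pos_of_ne_zero (A.index_ne_zero_of_finite)) ?_
  rw [← A.index_comap_of_surjective hf, card_mul_index, A.index_comap_of_surjective hf, i,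
    ← B.index_comap_of_surjective hf, card_mul_index]

theorem lift {f : G →* X} (hf : Function.Surjective f) (hp : p.Prime) {A : Subgroup X} (hA : PiGrp {p} A) :
    ∃ P, Hall {p} P (A.comap f) ∧ P.map f = A := by
  obtain ⟨P, hP⟩ := exists_sylow hp (A.comap f)
  have k := hall_map hP f
  rw [map_comap_eq_self_of_surjective hf] at k
  exact ⟨P, hP, k.eq_self hA⟩

theorem hall_card {Q : Subgroup G} {π : Set ℕ} (hP : Hall π P H) (hQ : Hall π Q K) (c : Nat.card H = Nat.card K) :
    Nat.card P = Nat.card Q :=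
  Nat.dvd_antisymm (hQ.dvd_of_piNat hP.pi (c ▸ card_dvd hP.le)) (hP.dvd_of_piNat hQ.pi (c ▸ card_dvd hQ.le))

theorem DA.map (h : DA G) {f : G →* X} (hf : Function.Surjective f) : DA X := fun p hp A B hA e => by
  obtain ⟨P, hP, rfl⟩ := lift hf hp hA
  obtain ⟨R, hR, rfl⟩ := lift hf hp (A := B) (show PiNat _ _ from e ▸ hA)
  obtain ⟨g, k⟩ := h p hp P R hP.pi (hall_card hP hR (card_comap_eq hf e))
  exact ⟨f g, by rw [k, map_cj]⟩

theorem ZG.map (h : ZG r G) {f : G →* X} (hf : Function.Surjective f) : ZG r X := fun p hp e A hA => by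
  obtain ⟨P, hP, rfl⟩ := lift hf hp hA
  obtain ⟨g, rfl⟩ := (h p hp e P hP.pi).gen
  rw [MonoidHom.map_zpowers]
  exact cyc_zpowers

theorem ZG.sub (h : ZG r G) : ZG r H := fun p hp e A hA =>
  have := h p hp e (A.map H.subtype) (by rwa [PiGrp, card_map_subtype])
  isCyclic_of_surjective _ (A.equivMapOfInjective _ H.subtype_injective).symm.surjective

theorem ZG.da (h : ZG r G) (hr : ¬ r ∣ Nat.card G) : DA G := fun p hp A B hA e => by
  by_cases c : p = r
  · have k : A = ⊥ := by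
      by_contra k
      exact hr (c ▸ (hA.dvd_card k).trans A.card_subgroup_dvd_card)
    exact ⟨1, by rw [cj_one, k, ← card_eq_one, ← e, k, card_bot]⟩
  obtain ⟨P, hP, k⟩ := exists_sylow_le hp (show PiGrp {p} B from show PiNat _ _ from e ▸ hA) le_top
  obtain ⟨g, -, k1⟩ := sylow_le_cj hp hP hA le_top
  exact ⟨g, (h p hp c P hP.pi).eq_of_card_eq k k1 (by rw [card_cj, e])⟩

theorem CG.sup [P.Normal] (h : CG (G ⧸ P)) (e : Nat.card ↥(H ⊔ P) = Nat.card ↥(K ⊔ P)) :
    ∃ g, K ⊔ P = cj g H ⊔ P := by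
  have k := QuotientGroup.ker_mk' P
  obtain ⟨g, hg⟩ := h (H.map (QuotientGroup.mk' P)) (K.map (QuotientGroup.mk' P)) (by
    have h1 := card_map_mul_card_inf_ker (QuotientGroup.mk' P) (H ⊔ P)
    have h2 := card_map_mul_card_inf_ker (QuotientGroup.mk' P) (K ⊔ P)
    rw [k, inf_eq_left.2 le_sup_right, Subgroup.map_sup, (Subgroup.map_eq_bot_iff P).2 k.ge, sup_bot_eq] at h1 h2
    exact Nat.eq_of_mul_eq_mul_right Nat.card_pos (h1.trans (e.trans h2.symm)))
  obtain ⟨g, rfl⟩ := QuotientGroup.mk'_surjective P g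
  exact ⟨g, by rw [← k, ← comap_map_eq, ← comap_map_eq, hg, map_cj]⟩

theorem CG.hall [P.Normal] [Group.IsSolvable G] (h : CG (G ⧸ P)) (hP : PiGrp {p} P) (hH : PiGrp {p}ᶜ H)
    (e : Nat.card H = Nat.card K) : ∃ g, K = cj g H := by
  have hK : PiGrp {p}ᶜ K := show PiNat _ _ from e ▸ hH
  have n : ∀ A : Subgroup G, Nrm2 A P := fun _ => .inl norm_of_normal
  obtain ⟨g, k⟩ := h.sup (H := H) (K := K) (by
    rw [(n H).card_sup_of_disj (hH.inf_eq_bot' hP), (n K).card_sup_of_disj (hK.inf_eq_bot' hP), e])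
  obtain ⟨c, -, k1⟩ := (piSep_of_solv inferInstance).hall_conj (hall_of_sup (hH.cj g) hP.compl_compl (n _))
    (k ▸ hall_of_sup hK hP.compl_compl (n K))
  exact ⟨c * g, by rw [cj_mul, k1]⟩

theorem main (n : ℕ) : ∀ (G : Type u) [Group G] [Finite G] [Group.IsSolvable G], Nat.card G = n → DA G → ZG r G →
    CG G := by
  induction n using Nat.strong_induction_on with
  | _ n ih => ?_
  intro G _ _ _ hn hD hZ H K e
  by_cases h0 : (⊤ : Subgroup G) = ⊥
  · exact ⟨1, by rw [cj_one, eq_bot_iff.2 (h0 ▸ le_top : K ≤ ⊥), eq_bot_iff.2 (h0 ▸ le_top : H ≤ ⊥)]⟩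
  obtain ⟨p, M, hp, -, m1, hM, m2, -⟩ := Solv.exists_elem_norm inferInstance h0 le_N
  have := Fact.mk hp
  have : M.Normal := (Nml.mk le_top m2).normal
  have lt : ∀ T : Subgroup G, M ≤ T → Nat.card (T ⧸ M.subgroupOf T) < n := fun T hT => by
    have := card_eq_card_quotient_mul_card_subgroup (M.subgroupOf T)
    rw [card_subgroupOf hT] at this
    exact ((Nat.lt_mul_iff_one_lt_right Nat.card_pos).2 (one_lt_card m1)).trans_le
      (this ▸ hn ▸ card_le_card_group T)
  have su := QuotientGroup.mk'_surjective M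
  have c := ih _ (((Nat.lt_mul_iff_one_lt_right Nat.card_pos).2 (one_lt_card m1)).trans_eq
    ((card_eq_card_quotient_mul_card_subgroup M).symm.trans hn)) (G ⧸ M) rfl (hD.map su) (hZ.map su)
  have pM := hM.pi hp
  by_cases d : ¬ p ∣ Nat.card H
  · exact c.hall pM ((piNat_compl_iff hp).2 d) e
  rw [not_not] at d
  have mem : ∀ y : G, y ^ p = 1 → y ∈ M := fun y hy => (em (y = 1)).elim (· ▸ one_mem _) fun y1 => by
    obtain ⟨A, h1, h2⟩ := pM.exists_sub_card m1
    obtain ⟨g, k⟩ := hD p hp A (zpowers y) (pM.of_le h1) (by rw [h2, card_zpowers', orderOf_eq_prime hy y1])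
    exact zpowers_le.1 (k.le.trans ((cj_mono h1).trans (cj_eq_self (norm_of_normal (mem_top g))).le))
  by_cases cy : Cyc M
  · have k : ∀ L : Subgroup G, p ∣ Nat.card L → L ⊔ M = L := fun L hL => by
      obtain ⟨y, h1, h2⟩ := cauchy hp hL
      obtain ⟨x, rfl⟩ := cy.gen
      refine sup_eq_left.2 ((eq_of_card_ge (zpowers_le.2 (mem y (h2 ▸ pow_orderOf_eq_one y))) ?_).ge.trans
        (zpowers_le.2 h1))
      rw [card_zpowers', card_zpowers', h2]
      exact Nat.le_of_dvd hp.pos (orderOf_dvd_of_pow_eq_one (hM.pow x (mem_zpowers x)))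
    obtain ⟨g, k1⟩ := c.sup (H := H) (K := K) (by rw [k H d, k K (e ▸ d), e])
    exact ⟨g, by rwa [k K (e ▸ d), k _ (by rwa [card_cj])] at k1⟩
  obtain rfl : p = r := by_contra fun k => cy (hZ p hp k M pM)
  obtain ⟨E, hE⟩ := hM.exists_pelem_two hp cy
  have hS : Hall {p} M ⊤ := sylow_of_max hp le_top pM fun Q hQ _ _ x hx => mem x (by
    by_contra h1
    obtain ⟨k, hk⟩ := (hQ.elt hx).eq_pow (orderOf_pos x).ne'
    have h2 : 2 ≤ k := by
      by_contra h3
      exact h1 (orderOf_dvd_iff_pow_eq_one.1 (hk ▸ (pow_dvd_pow p (by omega : k ≤ 1)).trans (by simp)))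
    obtain ⟨K, hK, e⟩ := exists_sub_card_pow (H := zpowers x) hp (n := 2)
      (by rw [card_zpowers', hk]; exact pow_dvd_pow p h2)
    obtain ⟨g, rfl⟩ := hD p hp K E ((hQ.elt hx).zpowers.of_le hK) (e.trans hE.card.symm)
    exact hE.not_cyc hp le_rfl ((cyc_zpowers.of_le hK).cj g))
  have hl : ∀ L : Subgroup G, Hall {p} (M ⊓ L) L := fun L => hS.nml_inf norm_of_normal le_top
  obtain ⟨g, k⟩ := hD p hp _ _ (hl H).pi (hall_card (hl H) (hl K) e)
  rw [cj_inf, cj_eq_self (norm_of_normal (mem_top g))] at k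
  suffices ∃ t, K = cj t (cj g H) from this.elim fun t k => ⟨t * g, by rwa [cj_mul]⟩
  rw [← card_cj (g := g)] at e
  generalize cj g H = H at k e
  obtain ⟨A, hA⟩ := (piSep_of_solv (π := {p}ᶜ) (H := H) inferInstance).hall_exists
  obtain ⟨B, hB⟩ := (piSep_of_solv (π := {p}ᶜ) (H := K) inferInstance).hall_exists
  have t2 : A ≤ N(M ⊓ K) := hA.le.trans (k ▸ norm_inf norm_of_normal le_N)
  set T := N(M ⊓ K)
  have t1 : M ≤ T := hM.abel.norm inf_le_left
  have t3 : B ≤ T := hB.le.trans (norm_inf norm_of_normal le_N)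
  have z := (hZ.sub (H := T)).map (QuotientGroup.mk'_surjective (M.subgroupOf T))
  obtain ⟨t, k1⟩ := (ih _ (lt T t1) _ rfl (z.da ((hS.of_le t1 le_top).idx.not_dvd' hp rfl)) z).hall (p := p)
    (H := A.subgroupOf T) (K := B.subgroupOf T) (by rwa [PiGrp, card_subgroupOf t1])
    (by rw [PiGrp, card_subgroupOf t2]; exact hA.pi) (by rw [card_subgroupOf t2, card_subgroupOf t3, hall_card hA hB e])
  have k2 := congrArg (map T.subtype) k1
  rw [← cj_map_subtype, map_subgroupOf_eq_of_le t2, map_subgroupOf_eq_of_le t3] at k2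
  exact ⟨t, by rw [← (hl H).sup_compl hA, ← k, cj_sup, cj_eq_self t.2, ← k2, (hl K).sup_compl hB]⟩

end

/-- Let G be a finite solvable group in which, for every prime p, any two p-subgroups of the same order are conjugate, and suppose the Sylow p-subgroups of G are cyclic for all primes p with at most one exception. Then any two subgroups of G of the same order are conjugate. -/
theorem result {G : Type*} [Group G] [Finite G]
    [Group.IsSolvable G] (hD : ∀ p : ℕ, p.Prime → ∀ H K : Subgroup G, IsPGroup p H → IsPGroup p K → Nat.card H = Nat.card K →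
      ∃ g : G, K = H.map (MulAut.conj g).toMonoidHom)
    (r : ℕ) (hcyc : ∀ p : ℕ, p.Prime → p ≠ r → ∀ P : Sylow p G, IsCyclic P) :
    ∀ H K : Subgroup G, Nat.card H = Nat.card K → ∃ g : G, K = H.map (MulAut.conj g).toMonoidHom := by
  refine main (r := r) _ G rfl (fun p hp H K h e => hD p hp H K h.isPGroup
    (PiGrp.isPGroup (show PiNat _ _ from e ▸ h)) e) fun p hp e P hP => ?_
  obtain ⟨Q, hQ, k⟩ := exists_sylow_le hp hP le_top
  obtain ⟨Q, rfl⟩ := hQ.exists_sylow_top hp
  exact Cyc.of_le (hcyc p hp e Q) k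

end Cfsg.Agent.S4022
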