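import Cfsg.Statements.S4023
import Cfsg.Agent.S4020
import Cfsg.Agent.H21.Pairing
import Cfsg.Agent.H17.Four

set_option autoImplicit false
open Cfsg

namespace Cfsg.Agent.S4023

open H18 H22 H1 Subgroup Cfsg.Agent.S4020
open scoped commutatorElement

section
variable {G : Type*} [Group G] [Finite G] {P : Subgroup G} {p : ℕ}

/-- a nonabelian group of exponent `p` has a nonabelian subgroup of order `p ^ 3` -/
theorem nonab3 (hp : p.Prime) (hP : PiGrp {p} P) (ex : ∀ x ∈ P, x ^ p = 1) (h : ¬ Abel P) :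
    ∃ R, R ≤ P ∧ Nat.card R = p ^ 3 ∧ ¬ Abel R := by
  have hZ : Z(P) < P := lt_of_le_of_ne inf_le_left fun e => h (e.ge.trans inf_le_right)
  obtain ⟨W, h1, h2, h3, h4⟩ := H3.exists_nml_above hP (norm_Z le_normalizer) ⟨le_rfl, le_normalizer⟩ hZ
  obtain ⟨x, hx, xZ⟩ : ∃ x ∈ W, x ∉ Z(P) := by
    by_contra h5
    push Not at h5
    have := Subgroup.card_le_of_le (show W ≤ Z(P) from h5)
    have := hp.two_le
    have := Nat.card_pos (α := (Z(P) : Subgroup G))
    nlinarith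
  obtain ⟨y, hy, xy⟩ : ∃ y ∈ P, x * y ≠ y * x := by
    by_contra h5
    push Not at h5
    exact xZ ⟨h2 hx, mem_C.2 fun y hy => (h5 y hy).symm⟩
  have hz : ⁅x, y⁆ ∈ Z(P) := h3 (commutator_mem_commutator hx hy)
  have z1 : ⁅x, y⁆ ≠ 1 := fun e => xy (commutatorElement_eq_one_iff_mul_comm.1 e)
  set z := ⁅x, y⁆ with zd
  have cz := card_zpowers_of_pow hp (ex z hz.1) z1
  have zc : ∀ a ∈ P, a ∈ C(zpowers z) := fun a ha => by
    rw [C_zpowers]; exact mem_C1.2 (mem_C.1 hz.2 a ha)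
  have c2 := H21.card_sup_zpowers hp (C_le_N (zc x (h2 hx))) (fun e => xZ (zpowers_le.2 hz e))
    (ex x (h2 hx) ▸ one_mem _)
  have ab : Abel (zpowers z ⊔ zpowers x) := H3.abel_sup_zpowers abel_zpowers (zc x (h2 hx))
  have yn : y ∈ N(zpowers z ⊔ zpowers x) := by
    refine mem_N_of_cj_le ?_
    rw [cj_sup, cj_zpowers, cj_zpowers, mem_C.1 hz.2 y hy, mul_inv_cancel_right,
      show y * x * y⁻¹ = z⁻¹ * x by rw [zd, commutatorElement_def]; group]
    exact sup_le le_sup_left (zpowers_le.2 (mul_mem (inv_mem (mem_sup_left (mem_zpowers z)))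
      (mem_sup_right (mem_zpowers x))))
  have c3 := H21.card_sup_zpowers hp yn (fun e => xy (cent_iff.1 ab x (mem_sup_right (mem_zpowers x)) y e))
    (ex y hy ▸ one_mem _)
  refine ⟨_, sup_le (sup_le (zpowers_le.2 hz.1) (zpowers_le.2 (h2 hx))) (zpowers_le.2 hy), ?_, fun e =>
    xy (cent_iff.1 e x (mem_sup_left (mem_sup_right (mem_zpowers x))) y (mem_sup_right (mem_zpowers y)))⟩
  rw [c3, c2, cz]; ring

theorem expo' (hp : p.Prime) (h2 : p ≠ 2) (h : DD G p) (hP : PiGrp {p} P) (hc : ¬ Cyc P) :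
    ∀ x ∈ P, x ^ p = 1 := by
  obtain ⟨E, hE⟩ : ∃ E, PElem p 2 E P := by
    by_contra h1
    exact hc (odd_pgroup_cyc hp (hp.odd_of_ne_two h2) P hP fun E e => h1 ⟨E, e⟩)
  exact fun x hx => expo hp h hE.top (hP.elt hx)

theorem card3 (hp : p.Prime) (h : DD G p) (hP : PiGrp {p} P) (ex : ∀ x ∈ P, x ^ p = 1) (hn : ¬ Abel P) :
    Nat.card P = p ^ 3 := by
  obtain ⟨R, h1, h2, h3⟩ := nonab3 hp hP ex hn
  have h4 : p ^ 3 ≤ Nat.card P := h2 ▸ Subgroup.card_le_of_le h1
  obtain ⟨W, -, hW, cW⟩ := H3.exists_nml_card hp hP (V := P) (n := 2) ⟨le_rfl, le_normalizer⟩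
    ((Nat.pow_le_pow_right hp.pos (by omega)).trans h4)
  have aW := H18.abel_of_card_sq hp cW
  have h5 : P ⊓ C(W) = W := by
    refine le_antisymm (fun c hc => ?_) (le_inf hW.le aW)
    by_contra h6
    have := H21.card_sup_zpowers hp (C_le_N hc.2) h6 (ex c hc.1 ▸ one_mem _)
    obtain ⟨g, rfl⟩ := h (W ⊔ zpowers c) R (hP.of_le (sup_le hW.le (zpowers_le.2 hc.1)))
      (by rw [this, cW, h2]; ring)
    exact h3 ((H3.abel_sup_zpowers aW hc.2).cj g)
  have h6 := H17.relIndex_C_dvd hP hp hW.norm cW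
  have h7 := H18.card_mul_relIndex (inf_le_left : P ⊓ C(W) ≤ P)
  rw [inf_relIndex_left, h5, cW] at h7
  refine le_antisymm ?_ h4
  rw [← h7, pow_succ p 2]
  exact Nat.mul_le_mul_left _ (Nat.le_of_dvd hp.pos h6)

end

/-- Let p be a prime and G a finite group in which any two p-subgroups of the same order are conjugate, with Sylow p-subgroup P. Then P is cyclic, or elementary abelian, or p = 2 and P is a quaternion group of order 8, or p is odd and P is non-abelian of order p³ and exponent p. -/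
theorem result {G : Type*} [Group G] [Finite G]
    {p : ℕ} [Fact p.Prime] (hC : ∀ H K : Subgroup G, IsPGroup p H → IsPGroup p K → Nat.card H = Nat.card K →
      ∃ g : G, K = H.map (MulAut.conj g).toMonoidHom) (P : Sylow p G) :
    IsCyclic P ∨ Cfsg.IsElementaryAbelian p (P : Subgroup G) ∨
      (p = 2 ∧ Nonempty ((P : Subgroup G) ≃* QuaternionGroup 2)) ∨
      (p ≠ 2 ∧ ¬ IsMulCommutative P ∧ Nat.card P = p ^ 3 ∧ Monoid.exponent P = p) := by
  have hp : p.Prime := Fact.out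
  have d : DD G p := fun H K h1 e =>
    hC H K h1.isPGroup (PiGrp.isPGroup (by rw [PiGrp, ← e]; exact h1)) e
  have hP := hall_sylow_top hp P
  by_cases h2 : p = 2
  · subst h2
    rcases two d hP.pi with e | e | ⟨x, y, q⟩
    exacts [Or.inl e, Or.inr (Or.inl e.isElem), Or.inr (Or.inr (Or.inl ⟨rfl, q.nonempty_equiv⟩))]
  refine or_iff_not_imp_left.2 fun hc => ?_
  have ex := expo' hp h2 d hP.pi hc
  by_cases ab : Abel (P : Subgroup G)
  · exact Or.inl (Elem.isElem ⟨ab, ex⟩)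
  refine Or.inr (Or.inr ⟨h2, fun e => ab (abel_of_comm e), card3 hp d hP.pi ex ab, ?_⟩)
  have : Nontrivial (P : Subgroup G) := (nontrivial_iff_ne_bot _).2 (ne_bot_of_not_cyc hc)
  exact (Monoid.exponent_eq_prime_iff hp).2 fun g hg =>
    orderOf_eq_prime (Subtype.ext (ex g g.2)) hg

end Cfsg.Agent.S4023
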