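import Cfsg.Statements.S4024
import Cfsg.Agent.S4023
import Cfsg.Agent.S3798

set_option autoImplicit false
open Cfsg

namespace Cfsg.Agent.S4024

open H18 H22 H1 Subgroup Cfsg.Agent.S4020

/-- Let p be an odd prime and G a finite group in which any two p-subgroups of the same order are conjugate, with Sylow p-subgroup P. If H is a normal p-solvable subgroup of G whose order is divisible by p, then P is abelian, and either P ≤ H or P is cyclic. -/
theorem result {G : Type*} [Group G] [Finite G]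
    {p : ℕ} [Fact p.Prime] (hp : p ≠ 2) (hC : ∀ H K : Subgroup G, IsPGroup p H → IsPGroup p K → Nat.card H = Nat.card K →
      ∃ g : G, K = H.map (MulAut.conj g).toMonoidHom) (P : Sylow p G)
    (H : Subgroup G) [H.Normal] (hsolv : Cfsg.IsPSolvable p H) (hdiv : p ∣ Nat.card H) :
    IsMulCommutative P ∧ ((P : Subgroup G) ≤ H ∨ IsCyclic P) := by
  have hp' : p.Prime := Fact.out
  have d : DD G p := fun H K h1 e =>
    hC H K h1.isPGroup (PiGrp.isPGroup (by rw [PiGrp, ← e]; exact h1)) e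
  have hP := hall_sylow_top hp' P
  by_cases hc : Cyc (P : Subgroup G)
  · exact ⟨hc.abel.comm, Or.inr hc⟩
  have ex := Cfsg.Agent.S4023.expo' hp' hp d hP.pi hc
  have key : ∀ y : G, orderOf y = p → ∀ x ∈ (P : Subgroup G), ∃ g, g * x * g⁻¹ ∈ zpowers y := fun y yp x hx => by
    by_cases x1 : x = 1
    · exact ⟨1, by simp [x1]⟩
    obtain ⟨g, e⟩ := d (zpowers x) (zpowers y) (hP.pi.elt hx).zpowers
      ((card_zpowers_of_pow hp' (ex x hx) x1).trans (card_zpowers'.trans yp).symm)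
    exact ⟨g, e ▸ conj_mem_cj (mem_zpowers x)⟩
  have HN : ∀ g, g ∈ N(H) := fun g => by rw [normalizer_eq_top]; exact mem_top g
  have PH : (P : Subgroup G) ≤ H := fun x hx => by
    obtain ⟨y, hy, yp⟩ := cauchy hp' hdiv
    obtain ⟨g, e⟩ := key y yp x hx
    have := conj_mem_N' (HN g) (zpowers_le.2 hy e)
    rwa [show g⁻¹ * (g * x * g⁻¹) * g = x by group] at this
  refine ⟨Abel.comm ?_, Or.inl PH⟩
  have hs : PiSep {p} H := (isPSolvable_sub_iff hp').1 hsolv
  set K := O[{p}ᶜ](H)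
  have KH : K ⊴ H := pcore_nml
  have KN : ∀ g, g ∈ N(K) := fun g => norm_pcore le_rfl (HN g)
  have Kp : PiGrp {p}ᶜ K := pcore_pi
  refine (abel_quo_iff' (fun g _ => KN g) (hP.pi.inf_eq_bot Kp)).1 ?_
  set Q := O[{p}](H ⫽ K) with hQ
  have Qp : PiGrp {p} Q := pcore_pi
  have Q0 : Q ≠ ⊥ := fun e => by
    have := (hs.mim (f := coset K)).cent_pcore_le pcore_quo_pcore
    rw [← hQ, e, C_bot, inf_top_eq, le_bot_iff, quo_eq_bot_iff KH.norm] at this
    exact (piNat_compl_iff hp').1 (Kp.of_le this) hdiv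
  obtain ⟨w, hw, wp⟩ := cauchy hp' (Qp.inf_left.dvd_card (Qp.nil.Z_ne_bot Q0))
  obtain ⟨y, hy, yD, yp, rfl⟩ := exists_piElt_lift (pcore_le hw.1) (π := {p})
    (by rw [PiElt, wp]; exact piNat_self hp')
  rw [orderOf_mfun yD (by rw [mker_coset]; exact yp.zpowers.inf_eq_bot Kp)] at wp
  refine Abel.mono (abel_Z (H := Q)) fun a ha => ?_
  obtain ⟨x, hx, rfl⟩ := (mem_quo fun g _ => KN g).1 ha
  obtain ⟨g, e⟩ := key y wp x hx
  have h1 : cs K g ∈ N(Z(Q)) := norm_Z (norm_pcore le_rfl) (mim_norm le_rfl (mfun_mem_mim (HN g)))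
  have h2 : cs K g * cs K x * (cs K g)⁻¹ ∈ Z(Q) := by
    rw [← mfun_conj (KN g) (KN x)]
    refine zpowers_le.2 hw ?_
    rw [← mim_zpowers (KN y)]
    exact mfun_mem_mim e
  have := conj_mem_N' h1 h2
  rwa [show (cs K g)⁻¹ * (cs K g * cs K x * (cs K g)⁻¹) * cs K g = cs K x by group] at this

end Cfsg.Agent.S4024
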