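import Cfsg.Statements.S4028
import Cfsg.Agent.H22.Misc2

set_option autoImplicit false
open Cfsg

namespace Cfsg.Agent.S4028

/-- Let G be a finite group with Sylow 2-subgroup P. Then N_G(⟨x⟩) = C_G(x) holds for every 2-element x of G if and only if N_P(⟨y⟩) = C_P(y) holds for every y ∈ P (computed inside P). -/
theorem result {G : Type*} [Group G] [Finite G] (P : Sylow 2 G) :
    (∀ x : G, (∀ r : ℕ, r.Prime → r ∣ orderOf x → r = 2) →
      Subgroup.normalizer ((Subgroup.zpowers x : Subgroup G) : Set G) ≤ Subgroup.centralizer {x}) ↔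
    (∀ y : ↥(P : Subgroup G), Subgroup.normalizer ((Subgroup.zpowers y : Subgroup ↥(P : Subgroup G)) : Set ↥(P : Subgroup G)) ≤
        Subgroup.centralizer {y}) := by
  constructor
  · intro h y n hn
    rw [H22.mem_normalizer_zpowers_iff] at hn
    obtain ⟨k, hk⟩ := hn
    obtain ⟨j, hj⟩ := H22.orderOf_eq_pow_of_mem P.isPGroup' y.2
    have := h y (fun r hr hd => H22.eq_of_prime_dvd_pow Nat.prime_two hr (hj ▸ hd))
      (H22.mem_normalizer_zpowers_iff.mpr (⟨k, congrArg Subtype.val hk⟩ :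
        (n : G) * y * (n : G)⁻¹ ∈ Subgroup.zpowers (y : G)))
    rw [Subgroup.mem_centralizer_singleton_iff] at this ⊢
    exact Subtype.ext this
  · intro h x hx g hg
    obtain ⟨k, hk⟩ := H22.exists_eq_pow_of_forall_prime (orderOf_pos x).ne' hx
    obtain ⟨a, b, ha, hb, rfl, -, hao, hbo⟩ := H22.exists_p_decomp Nat.prime_two g
    have ha' := Subgroup.zpowers_le.mpr hg ha
    have hb' := Subgroup.zpowers_le.mpr hg hb
    refine Subgroup.mul_mem _ ?_ ?_
    · have hR : IsPGroup 2 (Subgroup.zpowers x ⊔ Subgroup.zpowers a : Subgroup G) :=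
        IsPGroup.to_sup_of_normal_left' (H22.isPGroup_zpowers_iff.mpr ⟨k, hk⟩)
          (H22.isPGroup_zpowers_iff.mpr hao) (Subgroup.zpowers_le.mpr ha')
      obtain ⟨c, hc⟩ := H9.exists_conj_le_sylow hR P
      obtain ⟨j, hj⟩ := H22.mem_normalizer_zpowers_iff.mp ha'
      have h1 := h ⟨_, hc x (Subgroup.mem_sup_left (Subgroup.mem_zpowers x))⟩
        (x := ⟨_, hc a (Subgroup.mem_sup_right (Subgroup.mem_zpowers a))⟩)
        (H22.mem_normalizer_zpowers_iff.mpr ⟨j, Subtype.ext (by
          show (c * x * c⁻¹) ^ j = c * a * c⁻¹ * (c * x * c⁻¹) * (c * a * c⁻¹)⁻¹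
          have hj' : x ^ j = a * x * a⁻¹ := hj
          rw [conj_zpow, hj']; group)⟩)
      rw [Subgroup.mem_centralizer_singleton_iff] at h1 ⊢
      have h2 : c * a * c⁻¹ * (c * x * c⁻¹) = c * x * c⁻¹ * (c * a * c⁻¹) := congrArg Subtype.val h1
      calc a * x = c⁻¹ * (c * a * c⁻¹ * (c * x * c⁻¹)) * c := by group
        _ = _ := by rw [h2]; group
    · rw [Subgroup.mem_centralizer_singleton_iff]
      refine H22.commute_of_coprime_totient (H22.mem_normalizer_zpowers_iff.mp hb') ?_
      rw [hk]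
      rcases Nat.eq_zero_or_pos k with rfl | hk0
      · simp
      · rw [Nat.totient_prime_pow Nat.prime_two hk0]
        simpa using ((Nat.Prime.coprime_iff_not_dvd Nat.prime_two).mpr hbo).symm.pow_right _

end Cfsg.Agent.S4028
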