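import Cfsg.Statements.S4029
import Cfsg.Agent.H5.FS
import Cfsg.Agent.H18.Cyc

set_option autoImplicit false
open Cfsg

namespace Cfsg.Agent.S4029

/-- Let P be a finite 2-group in which N_P(⟨y⟩) = C_P(y) for every y ∈ P. If s is the number of conjugacy classes of involutions of P, then #(P/Φ(P)) ≤ s + 1; in particular the subgroup generated by the involutions of P has order at least #(P/Φ(P)). -/
theorem result {P : Type*} [Group P] [Finite P] (hP : IsPGroup 2 P)
    (hirr : ∀ y : P, Subgroup.normalizer ((Subgroup.zpowers y : Subgroup P) : Set P) ≤ Subgroup.centralizer {y}) :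
    Nat.card (P ⧸ frattini P) ≤ Nat.card {c : ConjClasses P // ∃ y : P, ConjClasses.mk y = c ∧ orderOf y = 2} + 1 ∧
    Nat.card (P ⧸ frattini P) ≤ Nat.card (Subgroup.closure {y : P | orderOf y = 2}) := by
  open Subgroup H18 in
  classical
  have hq : ∀ x : P ⧸ frattini P, x⁻¹ = x := fun x => by
    obtain ⟨x, rfl⟩ := QuotientGroup.mk_surjective x
    rw [inv_eq_iff_mul_eq_one, ← QuotientGroup.mk_mul, QuotientGroup.eq_one_iff, ← phi_top, ← pow_two]
    exact (piGrp_of_isPGroup Nat.prime_two (hP.to_subgroup ⊤)).pow_mem_phi Nat.prime_two (mem_top x)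
  letI : CommGroup (P ⧸ frattini P) := { (inferInstance : Group (P ⧸ frattini P)) with
    mul_comm := fun a b => by rw [← hq (a * b), mul_inv_rev, hq, hq] }
  have h1 : Nat.card (P ⧸ frattini P) ≤ Nat.card {C : ConjClasses P // ∀ g : P, ConjClasses.mk g = C → IsConj g g⁻¹} := by
    rw [← H5.card_real_irr, ← CommGroup.card_monoidHom_of_hasEnoughRootsOfUnity (P ⧸ frattini P) ℂ]
    refine Nat.card_le_card_of_injective (fun l => ⟨⟨_, H5.isIrrCharacter_hom (l.comp (QuotientGroup.mk' _))⟩, ?_⟩)
      fun l l' e => ?_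
    · ext g
      refine (H5.Cfsg.IsIrrCharacter.apply_inv (H5.isIrrCharacter_hom (l.comp (QuotientGroup.mk' _))) g).symm.trans ?_
      rw [MonoidHom.comp_apply, map_inv, hq]; rfl
    · have := H5.hom_coe_injective (congrArg (fun x => x.1.1) e)
      exact (MonoidHom.cancel_right (QuotientGroup.mk'_surjective _)).1 this
  have h2 : Nat.card {C : ConjClasses P // ∀ g : P, ConjClasses.mk g = C → IsConj g g⁻¹} ≤
      Nat.card {c : ConjClasses P // ∃ y : P, ConjClasses.mk y = c ∧ orderOf y = 2} + 1 := by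
    rw [← Finite.card_option]
    refine Nat.card_le_card_of_injective (fun C => if h : ∃ y : P, ConjClasses.mk y = C.1 ∧ orderOf y = 2 then
      some ⟨C.1, h⟩ else none) fun C D e => ?_
    have key : ∀ C : {C : ConjClasses P // ∀ g : P, ConjClasses.mk g = C → IsConj g g⁻¹},
        (¬∃ y : P, ConjClasses.mk y = C.1 ∧ orderOf y = 2) → C.1 = ConjClasses.mk 1 := fun C h => by
      obtain ⟨g, hg⟩ := ConjClasses.mk_surjective C.1
      obtain ⟨x, hx⟩ := isConj_iff.1 (C.2 g hg)
      have h3 := mem_C1.1 (hirr g (mem_N_iff_cj.2 (by rw [cj_zpowers, hx, zpowers_inv])))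
      rw [h3, mul_inv_cancel_right, eq_inv_iff_mul_eq_one, ← pow_two] at hx
      rw [← hg]
      by_contra h1
      exact h ⟨g, hg, orderOf_eq_prime hx fun e => h1 (by rw [e])⟩
    dsimp only at e
    split_ifs at e with a b b
    · exact Subtype.ext (by simpa using e)
    · exact Subtype.ext ((key C a).trans (key D b).symm)
  refine ⟨h1.trans h2, (h1.trans h2).trans ?_⟩
  rw [← Finite.card_option]
  refine Nat.card_le_card_of_injective (fun c => c.elim 1 fun c => ⟨c.2.choose, subset_closure c.2.choose_spec.2⟩) ?_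
  have h3 : ∀ c : {c : ConjClasses P // ∃ y : P, ConjClasses.mk y = c ∧ orderOf y = 2}, c.2.choose ≠ 1 := fun c e => by
    simpa [e] using c.2.choose_spec.2
  rintro (_ | c) (_ | d) e
  · rfl
  · exact (h3 d (congrArg Subtype.val e).symm).elim
  · exact (h3 c (congrArg Subtype.val e)).elim
  · have : c.2.choose = d.2.choose := congrArg Subtype.val e
    exact congrArg some (Subtype.ext (c.2.choose_spec.1.symm.trans (this ▸ d.2.choose_spec.1)))

end Cfsg.Agent.S4029
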