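import Cfsg.Statements.S4032
import Cfsg.Agent.H22.Misc2

set_option autoImplicit false
open Cfsg

namespace Cfsg.Agent.S4032

/-- Let π be a set of primes and G a finite group in which N_G(⟨x⟩) = C_G(x) for every π-element x. If N is a normal subgroup of G whose order is divisible by no prime of π, then G/N has the same property: N_{G/N}(⟨y⟩) = C_{G/N}(y) for every π-element y of G/N. -/
theorem result {G : Type*} [Group G] [Finite G] (π : Set ℕ)
    (hirr : ∀ x : G, (∀ r : ℕ, r.Prime → r ∣ orderOf x → r ∈ π) →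
      Subgroup.normalizer ((Subgroup.zpowers x : Subgroup G) : Set G) ≤ Subgroup.centralizer {x})
    (N : Subgroup G) [N.Normal] (hN : ∀ r : ℕ, r.Prime → r ∣ Nat.card N → r ∉ π) :
    ∀ y : G ⧸ N, (∀ r : ℕ, r.Prime → r ∣ orderOf y → r ∈ π) →
      Subgroup.normalizer ((Subgroup.zpowers y : Subgroup (G ⧸ N)) : Set (G ⧸ N)) ≤ Subgroup.centralizer {y} := by
  intro y hy g hg
  obtain ⟨y, rfl⟩ := QuotientGroup.mk'_surjective N y
  obtain ⟨g, rfl⟩ := QuotientGroup.mk'_surjective N g
  obtain ⟨x, -, hxy, hx⟩ := H22.exists_pi_lift (QuotientGroup.mk' N) π y hy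
  rw [← hxy] at hg ⊢
  rw [H22.mem_normalizer_zpowers_iff, ← MonoidHom.map_zpowers, ← map_inv, ← map_mul, ← map_mul,
    ← Subgroup.mem_comap, H1.comap_map_mk', sup_comm] at hg
  obtain ⟨n, hn, h⟩ := H1.exists_conj_le_of_le_sup N (Subgroup.zpowers (g * x * g⁻¹))
    (Subgroup.zpowers x) Subgroup.le_normalizer_of_normal
    (by rw [Nat.card_zpowers, H22.orderOf_conj]; exact (H22.coprime_of_pi hx hN).symm)
    (Or.inr (H1.isSolvable_of_isMulCommutative _)) (Subgroup.zpowers_le.mpr hg)
  have h1 := h (H1.conj_mem_conj_smul (Subgroup.mem_zpowers _))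
  have h2 : n * g ∈ _ := hirr x hx (H22.mem_normalizer_zpowers_iff.mpr (by
    convert h1 using 1; group))
  rw [Subgroup.mem_centralizer_singleton_iff] at h2 ⊢
  have h3 := congrArg (QuotientGroup.mk' N) h2
  simp only [map_mul] at h3
  rw [show QuotientGroup.mk' N n = 1 from (QuotientGroup.eq_one_iff n).mpr hn] at h3
  simpa using h3

end Cfsg.Agent.S4032
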