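import Cfsg.Statements.S4033
import Cfsg.Agent.H17.Cam2
import Cfsg.Agent.H21.Crit

set_option autoImplicit false
open Cfsg

namespace Cfsg.Agent.S4033

open H117 H18 Subgroup

/-- Let G be a finite group and p a prime, and suppose the conjugacy classes of p-regular elements of G (elements of order prime to p) have exactly two distinct sizes. Then either G has an abelian p-complement (an abelian subgroup of order prime to p and p-power index), or there are a prime q ≠ p, a Sylow p-subgroup P, a Sylow q-subgroup Q and a central subgroup A such that PQ is a normal subgroup of order #P·#Q and G is the internal direct product PQ × A. -/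
theorem result {G : Type*} [Group G] [Finite G] {p : ℕ} (hp : p.Prime)
    (h2 : Set.ncard (Set.range fun x : {x : G // (orderOf x).Coprime p} => (ConjClasses.mk (x : G)).carrier.ncard) = 2) :
    (∃ H : Subgroup G, IsMulCommutative H ∧ ¬ p ∣ Nat.card H ∧ ∃ k : ℕ, H.index = p ^ k) ∨
    (∃ (q : ℕ) (_ : Fact q.Prime) (P : Sylow p G) (Q : Sylow q G) (A : Subgroup G), q ≠ p ∧
        A ≤ Subgroup.center G ∧ Nat.card ↥((P : Subgroup G) ⊔ (Q : Subgroup G)) = Nat.card P * Nat.card Q ∧
        ((P : Subgroup G) ⊔ (Q : Subgroup G)).Normal ∧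
        ((P : Subgroup G) ⊔ (Q : Subgroup G)) ⊓ A = ⊥ ∧ ((P : Subgroup G) ⊔ (Q : Subgroup G)) ⊔ A = ⊤) := by
  simp only [H21.ncard_class] at h2
  obtain ⟨a, b, ab, e⟩ := Set.ncard_eq_two.1 h2
  have m : ∀ x : G, PiElt {p}ᶜ x → C1(x).index = a ∨ C1(x).index = b := fun x hx => by
    have : C1(x).index ∈ ({a, b} : Set ℕ) := e ▸ ⟨⟨x, (piNat_compl_iff_coprime hp).1 hx⟩, rfl⟩
    simpa using this
  obtain ⟨k, hk⟩ : ∃ k, ∀ x : G, PiElt {p}ᶜ x → x ∉ C((⊤ : Subgroup G)) → C1(x).index = k := by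
    have := m 1 PiElt.one
    rw [C1_one, index_top] at this
    rcases this with rfl | rfl
    · exact ⟨b, fun x hx c => (m x hx).resolve_left (mt C1_index_eq_one.1 c)⟩
    · exact ⟨a, fun x hx c => (m x hx).resolve_right (mt C1_index_eq_one.1 c)⟩
  rcases cam hp hk with ⟨A, h1, h2⟩ | ⟨q, hq, qp, h⟩
  · exact Or.inl ⟨A, h1.comm, (piNat_compl_iff hp).1 h2.pi, by simpa using h2.idx.of_compl_compl.eq_pow relIndex_ne_zero⟩
  obtain ⟨hA, AC⟩ := hall_of_cent (L := (⊤ : Subgroup G)) (π := {p, q}ᶜ) fun v _ pv => le_C1_iff.2 (h v pv)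
  generalize O[({p, q} : Set ℕ)ᶜ]((⊤ : Subgroup G)) = A at hA AC
  obtain ⟨H, hH⟩ := hA.exists_compl (cent_norm AC)
  rw [compl_compl] at hH
  have nH : ⊤ ≤ N(H) := hH.sup_compl hA ▸ sup_le le_N (cent_norm (cent_symm (le_top.trans AC)))
  have := Fact.mk hp
  have := Fact.mk hq
  obtain ⟨P⟩ : Nonempty (Sylow p G) := inferInstance
  obtain ⟨Q⟩ : Nonempty (Sylow q G) := inferInstance
  have hP := hall_sylow_top hp P
  have hQ := hall_sylow_top hq Q
  have PH := hH.le_of_nml nH le_top (hP.pi.of_p (by simp))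
  have QH := hH.le_of_nml nH le_top (hQ.pi.of_p (by simp))
  have hQ' : Hall {p}ᶜ (Q : Subgroup G) H := (hQ.of_le QH le_top).congr fun r pr hr => by
    have := hH.pi r pr hr
    simp only [Set.mem_insert_iff, Set.mem_singleton_iff, Set.mem_compl_iff] at this ⊢
    exact ⟨fun k k' => qp (k ▸ k'), fun k => this.resolve_left k⟩
  have e1 := (hP.of_le PH le_top).sup_compl hQ'
  refine Or.inr ⟨q, this, P, Q, A, qp, fun x hx => mem_center_iff.2 fun g => mem_C.1 (cent_symm AC hx) g (mem_top g), ?_, ?_, ?_, ?_⟩ <;> rw [e1]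
  exacts [((hP.of_le PH le_top).card_mul_compl hQ').symm, norm_top_iff.1 nH, hH.inf_compl hA, hH.sup_compl hA]

end Cfsg.Agent.S4033
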