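import Cfsg.Statements.S4035
import Cfsg.Agent.H1.Harv4

set_option autoImplicit false
open Cfsg

namespace Cfsg.Agent.S4035

open H18 Subgroup H1

/-- Let G be a finite group and p a prime such that p divides the size of no conjugacy class of p-regular elements (elements of order prime to p). Then G is the internal direct product of a Sylow p-subgroup P and a normal subgroup H of order prime to p: P is normal, P ⊓ H = 1 and PH = G. -/
theorem result {G : Type*} [Group G] [Finite G] {p : ℕ} [Fact p.Prime]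
    (h : ∀ x : G, (orderOf x).Coprime p → ¬ p ∣ (ConjClasses.mk x).carrier.ncard) (P : Sylow p G) :
    (P : Subgroup G).Normal ∧ ∃ H : Subgroup G, H.Normal ∧ ¬ p ∣ Nat.card H ∧
      (P : Subgroup G) ⊓ H = ⊥ ∧ (P : Subgroup G) ⊔ H = ⊤ := by
  have hp : p.Prime := Fact.out
  have hS := hall_sylow_top hp P
  have e : (P : Subgroup G) ⊔ C((P : Subgroup G)) = ⊤ := eq_of_forall_cj le_top fun x _ => by
    obtain ⟨S, a, b⟩ := exists_sylow_le_of_not_dvd hp (K := C1(piPart {p}ᶜ x)) le_top (by
      rw [relIndex_top_right, ← ncard_carrier]; exact h _ (coprime_of_piElt hp piElt_piPart))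
    obtain ⟨c, hc, d⟩ := sylow_le_cj' hp (a.of_le b le_top) (PiElt.zpowers (piElt_piPart (x := x)))
      (zpowers_le.2 (mem_C1.2 piPart_comm_piPart))
    obtain ⟨g, -, f⟩ := sylow_conj hp hS (a.cj_top c)
    refine ⟨g, trivial, mem_of_parts (π := {p}) (cj_mono le_sup_left (f ▸ d (mem_zpowers _))) (cj_mono le_sup_right ?_)⟩
    rw [cj_C, ← f, ← le_C1_iff]
    exact cj_le_of_mem b hc
  have n : (P : Subgroup G) ⊴ ⊤ := ⟨le_top, e.ge.trans (sup_le le_N C_le_N)⟩
  have m : C((P : Subgroup G)) ⊴ ⊤ := ⟨le_top, norm_C n.norm⟩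
  have c := Burnside_normal_complement hp (hS.inf_nml m) (cent_mono le_rfl inf_le_left inf_le_left)
  refine ⟨n.normal, _, m.pcore.normal, (piNat_compl_iff hp).1 pcore_pi, hS.pi.inf_eq_bot pcore_pi, eq_top_iff.2 (e.ge.trans
    (sup_le le_sup_left (((hS.inf_nml m).sup_compl c).ge.trans (sup_le_sup_right inf_le_left _))))⟩

end Cfsg.Agent.S4035
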