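import Cfsg.Statements.S4036
import Cfsg.Agent.H22.Misc2

set_option autoImplicit false
open Cfsg

namespace Cfsg.Agent.S4036

/-- Let P be a finite abelian p-group and K a group of automorphisms of P (a subgroup of Aut P) whose order is divisible by p. If all non-identity elements of K have the same fixed-point subgroup on P, then K has no non-trivial normal subgroup of order prime to p. -/
theorem result {P : Type*} [CommGroup P] [Finite P] {p : ℕ}
    [Fact p.Prime] (hP : IsPGroup p P) (K : Subgroup (MulAut P)) (hK : p ∣ Nat.card K)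
    (hfix : ∀ x y : MulAut P, x ∈ K → y ∈ K → x ≠ 1 → y ≠ 1 → ∀ v : P, x v = v ↔ y v = v) :
    ∀ N : Subgroup ↥K, N.Normal → ¬ p ∣ Nat.card N → N = ⊥ := by
  classical
  intro N hN hpN
  by_contra hne
  obtain ⟨y, hy, hy1⟩ := (Subgroup.bot_or_exists_ne_one N).resolve_left hne
  obtain ⟨x, hx, hxo⟩ := H1.exists_prime_orderOf_mem (Fact.out : p.Prime) hK
  have := Fintype.ofFinite N
  let T : P →* P :=
    { toFun := fun v => ∏ n : N, ((n : K) : MulAut P) v
      map_one' := by simp
      map_mul' := by intro a b; simp [Finset.prod_mul_distrib] }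
  have hT : ∀ v, T v = ∏ n : N, ((n : K) : MulAut P) v := fun _ => rfl
  have hTy : ∀ v, T ((y : MulAut P) v) = T v := by
    intro v
    rw [hT, hT]
    exact Fintype.prod_equiv (Equiv.mulRight (⟨y, hy⟩ : N)) _ _ (fun n => rfl)
  have hTx : ∀ v, T (x v) = x (T v) := by
    intro v
    rw [hT, hT, map_prod]
    refine Fintype.prod_equiv (MulAut.conjNormal (H := N) (⟨x, hx⟩ : K)⁻¹).toEquiv _ _ (fun n => ?_)
    show _ = (x * (x⁻¹ * n.1.1 * x⁻¹⁻¹)) v
    rw [inv_inv, ← mul_assoc, ← mul_assoc, mul_inv_cancel, one_mul]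
    rfl
  obtain ⟨v, hv⟩ : ∃ v, (y : MulAut P) v ≠ v := by
    by_contra h
    push Not at h
    exact hy1 (Subtype.ext (MulEquiv.ext h))
  have hker : T.ker ≠ ⊥ := by
    intro h
    have : (y : MulAut P) v * v⁻¹ ∈ T.ker := by
      rw [MonoidHom.mem_ker, map_mul, map_inv, hTy, mul_inv_cancel]
    rw [h, Subgroup.mem_bot, mul_inv_eq_one] at this
    exact hv this
  have hpk : p ∣ Nat.card T.ker := by
    rcases (hP.to_subgroup T.ker).card_eq_or_dvd with h | h
    · exact absurd (Subgroup.card_eq_one.mp h) hker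
    · exact h
  obtain ⟨w, hw, hw1, hxw⟩ := H22.exists_ne_one_fixed (p := p) (k := 1) x
    (by rw [pow_one, ← hxo, pow_orderOf_eq_one]) T.ker
    (fun w hw => by rw [MonoidHom.mem_ker] at hw ⊢; rw [hTx, hw, map_one]) hpk
  have hx1 : x ≠ 1 := by
    rintro rfl
    rw [orderOf_one] at hxo
    exact (Fact.out : p.Prime).one_lt.ne hxo
  have hfx : ∀ n : N, ((n : K) : MulAut P) w = w := by
    intro n
    by_cases hn : ((n : K) : MulAut P) = 1
    · rw [hn]; rfl
    · exact (hfix x _ hx n.1.2 hx1 hn w).mp hxw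
  rw [MonoidHom.mem_ker, hT, Finset.prod_congr rfl (fun n _ => hfx n), Finset.prod_const,
    Finset.card_univ, ← Nat.card_eq_fintype_card] at hw
  exact hw1 (H22.eq_one_of_pelt_of_not_dvd (IsPGroup.iff_orderOf.mp hP w)
    (fun h => hpN (h.trans (orderOf_dvd_of_pow_eq_one hw))))

end Cfsg.Agent.S4036
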