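import Cfsg.Statements.S4038
import Cfsg.Agent.H21.Act

set_option autoImplicit false
open Cfsg

namespace Cfsg.Agent.S4038

open H18 H21 Subgroup H1

/-- Let A and G be finite groups of coprime orders with A acting on G by automorphisms. Suppose G has a proper A-invariant subgroup M, maximal among proper A-invariant subgroups, which is nilpotent and whose Sylow 2-subgroups have nilpotency class at most 2. Then G is solvable. -/
theorem result {G A : Type*} [Group G] [Finite G]
    [Group A] [Finite A] (φ : A →* MulAut G) (hcop : (Nat.card A).Coprime (Nat.card G))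
    (M : Subgroup G) (hMtop : M ≠ ⊤) (hMinv : ∀ a : A, ∀ m : G, m ∈ M → φ a m ∈ M)
    (hMmax : ∀ H : Subgroup G, M ≤ H → H ≠ ⊤ → (∀ a : A, ∀ h : G, h ∈ H → φ a h ∈ H) → H = M)
    (hnil : Group.IsNilpotent M) (h2 : ∀ S : Sylow 2 ↥M, Group.nilpotencyClass ↥(S : Subgroup ↥M) ≤ 2) :
    Group.IsSolvable G := by
  refine solv_top_iff.1 (solv_hL.1 (solv_of_inv_coatom (cop_aR (φ := φ) hcop) (M := hL M)
    (lt_of_le_of_ne (hL_le.2 le_top) fun e => hMtop (hL_inj.1 e)) (aR_le_N.2 hMinv) (fun U h1 h3 h4 => ?_)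
    (nil_hL.2 hnil) ?_))
  · obtain ⟨H, rfl⟩ := exists_hL h3
    by_cases c : H = ⊤
    · exact Or.inr (by rw [c])
    · exact Or.inl (by rw [hMmax H (hL_le.1 h1) c (aR_le_N.1 h4)])
  · rw [← mim_pcore_of_disj le_top inf_mker_hT, ← mim_comm le_top le_top, hL_le_C]
    obtain ⟨S, hS⟩ := (Nil.pcore_hall (π := {2}) hnil).exists_sylow Nat.prime_two
    have := Subgroup.lowerCentralSeries_eq_bot_of_nilpotencyClass_le (h2 S)
    have := congrArg (Subgroup.map M.subtype) this
    rw [map_lowerCentralSeries, hS, Subgroup.map_bot] at this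
    exact comm_eq_bot_iff.1 this

end Cfsg.Agent.S4038
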