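import Cfsg.Statements.S4040
import Cfsg.Agent.H1.Harv1

set_option autoImplicit false
open Cfsg

namespace Cfsg.Agent.S4040

open H18 Subgroup

/-- A finite group possessing a maximal subgroup that is nilpotent of odd order is solvable. -/
theorem result {G : Type*} [Group G] [Finite G]
    (M : Subgroup G) (hmax : IsCoatom M) (hnil : Group.IsNilpotent M) (hodd : Odd (Nat.card M)) :
    Group.IsSolvable G := by
  refine H1.solv_of_max_nil G M hmax hnil ?_
  rw [pcore_eq_bot_of_compl ((piNat_compl_iff Nat.prime_two).2 hodd.not_two_dvd_nat)]
  simp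

end Cfsg.Agent.S4040
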