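import Cfsg.Statements.S4043
import Cfsg.Agent.H1.Harv4

set_option autoImplicit false
open Cfsg

namespace Cfsg.Agent.S4043

open H18 Subgroup H1

/-- Let G be a finite group that is the semidirect product of a normal p-subgroup N by a subgroup A, and also of N by a subgroup A₁, where p is a prime and A and A₁ both have normal p-complements. If C_N(A) = C_N(A₁) = 1, then A₁ is conjugate to A by an element of N. -/
theorem result {G : Type*} [Group G] [Finite G] {p : ℕ}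
    [Fact p.Prime] (N : Subgroup G) [N.Normal] (hN : IsPGroup p N) (A A₁ : Subgroup G)
    (hA : A.IsComplement' N) (hA₁ : A₁.IsComplement' N)
    (hAp : Cfsg.HasNormalPComplement p A) (hA₁p : Cfsg.HasNormalPComplement p A₁)
    (hC : ∀ n : G, n ∈ N → (∀ a : G, a ∈ A → a * n * a⁻¹ = n) → n = 1)
    (hC₁ : ∀ n : G, n ∈ N → (∀ a : G, a ∈ A₁ → a * n * a⁻¹ = n) → n = 1) :
    ∃ n : G, n ∈ N ∧ A₁ = A.map (MulAut.conj n).toMonoidHom := by
  have hp : p.Prime := Fact.out
  have hN' := piGrp_of_isPGroup hp hN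
  have key : ∀ B : Subgroup G, B.IsComplement' N → HasNormalPComplement p B →
      (∀ n : G, n ∈ N → (∀ a : G, a ∈ B → a * n * a⁻¹ = n) → n = 1) →
      N(O[{p}ᶜ](B)) = B ∧ SD N O[{p}ᶜ](B) (mpre (topq N) O[{p}ᶜ]((⊤ : Subgroup (G ⧸ N)))) := fun B h1 h2 h3 => by
    have s := sd_of_isComplement' h1.symm
    rw [hasNormalPComplement_iff hp] at h2
    obtain ⟨T, hT⟩ := exists_sylow hp B
    have c : N ⊓ C(O[{p}ᶜ](B)) = ⊥ := by_contra fun e => hT.pi.meet_cent hN'.inf_left
      (norm_inf norm_of_normal (norm_C (hT.le.trans pcore_nml.norm))) e (eq_bot_iff.2 fun x hx => h3 x hx.1.1 fun a ha =>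
        mul_inv_eq_iff_eq_mul.2 (cent_sup (H := zpowers x) (zpowers_le.2 hx.2) (zpowers_le.2 hx.1.2) (mem_zpowers x) a
          ((hT.sup_compl h2).ge ha)))
    have d := s.inf_norm (pcore_le (π := {p}ᶜ))
    rw [top_inf_eq, c, bot_sup_eq, inf_eq_left.2 pcore_nml.norm] at d
    refine ⟨d, norm_of_normal, hN'.inf_eq_bot pcore_pi, ?_⟩
    have t : mim (topq N) B = ⊤ := by rw [← mim_sup_mker le_top, mker_topq, s.sup', mim_topq_top]
    rw [← t, ← mim_pcore_of_disj le_top (by rw [mker_topq, s.inf']), mpre_mim le_top, mker_topq, sup_comm]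
  obtain ⟨a, b⟩ := key A hA hAp hC
  obtain ⟨c, d⟩ := key A₁ hA₁ hA₁p hC₁
  obtain ⟨k, hk, e⟩ := sd_conj b d (hN'.coprime pcore_pi)
  exact ⟨k, hk, by rw [← c, e, ← cj_N, a]; rfl⟩

end Cfsg.Agent.S4043
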