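import Cfsg.Statements.S4051
import Cfsg.Agent.H1.Harv3

set_option autoImplicit false
open Cfsg

namespace Cfsg.Agent.S4051

open H18 Subgroup H1

/-- Let π be a set of primes and G a finite group such that N_G(H)/C_G(H) is a π'-group for every nontrivial π'-subgroup H of G. If K is a normal subgroup of G such that the π-elements of K form a subgroup and the π-elements of G/K form a subgroup, then the π-elements of G form a subgroup. -/
theorem result {G : Type*} [Group G] [Finite G] (π : Set ℕ)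
    (hπ : ∀ p ∈ π, p.Prime) (hhom : (∀ H : Subgroup G, H ≠ ⊥ → (∀ p : ℕ, p.Prime → p ∣ Nat.card ↥H → p ∉ π) →
        ∀ p : ℕ, p.Prime → p ∣ (Subgroup.centralizer (H : Set G)).relIndex (Subgroup.normalizer (H : Set G)) → p ∉ π))
    (K : Subgroup G) [K.Normal]
    (hK : ∃ L : Subgroup ↥K, ∀ x : ↥K, x ∈ L ↔ ∀ p : ℕ, p.Prime → p ∣ orderOf x → p ∈ π)
    (hQ : ∃ L : Subgroup (G ⧸ K), ∀ x : G ⧸ K, x ∈ L ↔ ∀ p : ℕ, p.Prime → p ∣ orderOf x → p ∈ π) :
    (∃ K : Subgroup G, ∀ x : G, x ∈ K ↔ ∀ p : ℕ, p.Prime → p ∣ orderOf x → p ∈ π) := by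
  have a := (closed_iff (π := π)).1 hQ
  have k : K ≤ mpre (topq K) O[π]((⊤ : Subgroup (G ⧸ K))) := (mker_topq K).ge.trans mker_le_mpre
  have n : mpre (topq K) O[π]((⊤ : Subgroup (G ⧸ K))) ⊴ ⊤ := nml_mpre le_rfl le_top (mim_topq_top K ▸ pcore_nml)
  refine (closed_iff (π := π)).2 (closed_ext' n (closed_ext hhom ⟨k, norm_of_normal⟩ ((closed_sub_iff (π := π)).1 hK) ?_) ?_)
  · have := card_mim (f := topq K) (A := mpre (topq K) O[π]((⊤ : Subgroup (G ⧸ K)))) le_top
    rw [mker_topq, mim_mpre (by rw [mim_topq_top]; exact le_top)] at this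
    exact this ▸ pcore_pi
  · rw [relIndex_mpre' le_rfl le_top (by rw [mim_topq_top]; exact le_top), mim_topq_top]
    exact a.idx

end Cfsg.Agent.S4051
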