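import Cfsg.Statements.S4056
import Cfsg.Agent.H22.Misc2

set_option autoImplicit false
open Cfsg

namespace Cfsg.Agent.S4056

/-- In a finite 2-group of nilpotency class at most 2 and exponent dividing 4, the Frattini subgroup lies in the centre and is elementary abelian. -/
theorem result {P : Type*} [Group P] [Finite P] (hP : IsPGroup 2 P)
    (hcl : Group.nilpotencyClass P ≤ 2) (hexp : Monoid.exponent P ∣ 4) :
    frattini P ≤ Subgroup.center P ∧ Cfsg.IsElementaryAbelian 2 (frattini P) := by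
  have hnil : Group.IsNilpotent P := haveI := Fact.mk Nat.prime_two; hP.isNilpotent
  have h4 : ∀ x : P, x ^ 4 = 1 := fun x => Monoid.exponent_dvd_iff_forall_pow_eq_one.mp hexp x
  have hc : ∀ x y : P, x * y * x⁻¹ * y⁻¹ ∈ Subgroup.center P := by
    intro x y
    have h1 : Subgroup.upperCentralSeries P 2 = ⊤ :=
      Subgroup.upperCentralSeries_eq_top_iff_nilpotencyClass_le.mpr hcl
    have h2 : x ∈ Subgroup.upperCentralSeries P (1 + 1) := h1 ▸ Subgroup.mem_top x
    rw [Subgroup.mem_upperCentralSeries_succ_iff] at h2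
    have := h2 y
    rwa [Subgroup.upperCentralSeries_one] at this
  have hsq : ∀ x : P, x ^ 2 ∈ Subgroup.center P := by
    intro x
    rw [Subgroup.mem_center_iff]
    intro y
    obtain ⟨c, hcdef⟩ : ∃ c, c = y * x * y⁻¹ * x⁻¹ := ⟨_, rfl⟩
    have hcz : ∀ g, g * c = c * g := Subgroup.mem_center_iff.mp (hcdef ▸ hc y x)
    have hyx : y * x = c * (x * y) := by rw [hcdef]; group
    have hcz' : ∀ g h, g * (c * h) = c * (g * h) := fun g h => by
      rw [← mul_assoc, hcz, mul_assoc]
    have hyx' : ∀ h, y * (x * h) = c * (x * (y * h)) := fun h => by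
      rw [← mul_assoc, hyx]; group
    have h1 : (x * y) ^ 4 = c ^ 6 * (x ^ 4 * y ^ 4) := by
      simp only [pow_succ, pow_zero, one_mul, mul_assoc, hyx', hcz']
    rw [h4, h4 x, h4 y, show 6 = 4 + 2 by rfl, pow_add, h4] at h1
    have h2 : y * x ^ 2 = c ^ 2 * (x ^ 2 * y) := by
      simp only [pow_succ, pow_zero, one_mul, mul_assoc, hyx', hcz', hyx]
    rw [h2]
    simp only [one_mul, mul_one] at h1
    rw [← h1, one_mul]
  let N : Subgroup P :=
    { carrier := {z | z ∈ Subgroup.center P ∧ z ^ 2 = 1}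
      one_mem' := ⟨Subgroup.one_mem _, one_pow 2⟩
      mul_mem' := fun {a b} ha hb => ⟨Subgroup.mul_mem _ ha.1 hb.1, by
        rw [Commute.mul_pow (Subgroup.mem_center_iff.mp hb.1 a), ha.2, hb.2, one_mul]⟩
      inv_mem' := fun {a} ha => ⟨Subgroup.inv_mem _ ha.1, by rw [inv_pow, ha.2, inv_one]⟩ }
  have hN : ∀ g : P, g ^ 2 ∈ N := fun g => ⟨hsq g, by rw [← pow_mul]; exact h4 g⟩
  have hle : frattini P ≤ N := by
    refine H22.frattini_le_of_pow_mem Nat.prime_two ?_ hN
    rw [commutator_def, Subgroup.commutator_le]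
    intro a _ b _
    have := N.mul_mem (N.mul_mem (hN a) (hN (a⁻¹ * b))) (hN b⁻¹)
    rw [commutatorElement_def]
    convert this using 1
    simp only [pow_two]
    group
  refine ⟨fun z hz => (hle hz).1, H1.isMulCommutative_iff.mpr fun a _ b hb => ?_,
    fun z hz => (hle hz).2⟩
  exact Subgroup.mem_center_iff.mp (hle hb).1 a

end Cfsg.Agent.S4056
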