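import Cfsg.Statements.S4058
import Cfsg.Agent.H21.Crit
import Cfsg.Agent.H5.FS
import Cfsg.Agent.H24.CharLemmas

set_option autoImplicit false
open Cfsg

namespace Cfsg.Agent.S4058

open H18 H21 Subgroup H5 Cfsg
open scoped ComplexConjugate
section
variable {G : Type*} [Group G] [Finite G]
/-- linear characters of a quotient act on the irreducible characters -/
@[reducible] def act (N : Subgroup G) [N.Normal] : MulAction (G ⧸ N →* ℂˣ) (IrrCharacter G) where
  smul l χ := ⟨χ.1 * fun g => (l.comp (QuotientGroup.mk' N) g : ℂ), H5.Cfsg.IsIrrCharacter.mul_hom χ.2 _⟩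
  one_smul χ := Subtype.ext (funext fun g => mul_one (χ.1 g))
  mul_smul a b χ := Subtype.ext (funext fun g => by
    change χ.1 g * ((a g * b g : ℂˣ) : ℂ) = χ.1 g * (b g : ℂˣ) * (a g : ℂˣ)
    rw [Units.val_mul]; ring)

theorem stab (N : Subgroup G) [N.Normal] (S : Subgroup (G ⧸ N →* ℂˣ)) (χ : G → ℂ) (h : IsIrrCharacter G χ)
    (hS : ∀ l ∈ S, ∀ g : G, χ g * (l g : ℂˣ) = χ g) : Nat.card S ≤ charDegree χ ^ 2 := by
  classical
  haveI := Fintype.ofFinite G
  haveI : Finite (G ⧸ N →* ℂˣ) := H21.finite_monoidHom _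
  haveI := Fintype.ofFinite S
  let K := Finset.univ.filter fun g : G => ∀ l ∈ S, l g = 1
  have h1 : (K.card * Nat.card S : ℂ) = Nat.card G := by
    have e1 : ∀ g : G, ∑ l : S, ((l.1 g : ℂˣ) : ℂ) = if g ∈ K then (Nat.card S : ℂ) else 0 := fun g => by
      split_ifs with c
      · rw [Finset.sum_congr rfl fun l _ => by rw [(Finset.mem_filter.1 c).2 l.1 l.2]]; simp
      · refine sum_hom_units_eq_zero ((Units.coeHom ℂ).comp ((MonoidHom.eval (g : G ⧸ N)).comp S.subtype)) fun e => c ?_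
        exact Finset.mem_filter.2 ⟨Finset.mem_univ _, fun l hl => Units.ext (by simpa using DFunLike.congr_fun e ⟨l, hl⟩)⟩
    have e2 : ∀ l : S, ∑ g : G, ((l.1 g : ℂˣ) : ℂ) = if l = 1 then (Nat.card G : ℂ) else 0 := fun l => by
      split_ifs with c
      · simp [c]
      · refine sum_hom_units_eq_zero ((Units.coeHom ℂ).comp (l.1.comp (QuotientGroup.mk' N))) fun e => c ?_
        refine Subtype.ext (MonoidHom.ext fun x => ?_)
        obtain ⟨g, rfl⟩ := QuotientGroup.mk_surjective x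
        exact Units.ext (DFunLike.congr_fun e g)
    have := Finset.sum_comm (s := Finset.univ) (t := Finset.univ) (f := fun (g : G) (l : S) => ((l.1 g : ℂˣ) : ℂ))
    simpa [e1, e2] using this
  have h2 : (Nat.card G : ℝ) ≤ K.card * charDegree χ ^ 2 := by
    rw [← H5.Cfsg.IsIrrCharacter.sum_norm_sq h, ← Finset.sum_subset (Finset.subset_univ K) fun g _ c => by
      by_contra d
      refine c (Finset.mem_filter.2 ⟨Finset.mem_univ _, fun l hl => Units.ext ?_⟩)
      exact mul_left_cancel₀ (fun e => d (by simp [e])) ((hS l hl g).trans (mul_one _).symm), ← nsmul_eq_mul]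
    refine Finset.sum_le_card_nsmul _ _ _ fun g _ => ?_
    have hc := H5.Cfsg.IsIrrCharacter.isCharacter h
    rw [← H5.Cfsg.IsCharacter.norm_apply_one hc]
    exact pow_le_pow_left₀ (norm_nonneg _) (H5.Cfsg.IsCharacter.norm_le hc g) 2
  have h3 : K.card * Nat.card S = Nat.card G := by exact_mod_cast h1
  have h4 : 0 < K.card := Finset.card_pos.2 ⟨1, by simp [K]⟩
  refine Nat.le_of_mul_le_mul_left ?_ h4
  rw [h3]; exact_mod_cast h2
end

/-- Let G be a finite 2-group with #(G/Φ(G)) ≥ 2^(2k+1). Then the number of elements x of G with x² = 1 is divisible by 2^(k+1). -/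
theorem result {G : Type*} [Group G] [Finite G] (hG : IsPGroup 2 G) (k : ℕ)
    (hgen : 2 ^ (2 * k + 1) ≤ Nat.card (G ⧸ frattini G)) :
    2 ^ (k + 1) ∣ Nat.card {x : G // x ^ 2 = 1} := by
  classical
  haveI := Fintype.ofFinite G
  have hP : PiGrp {2} (⊤ : Subgroup G) := piGrp_of_isPGroup Nat.prime_two (hG.to_subgroup ⊤)
  have sq : ∀ g : G, ((g * g : G) : G ⧸ frattini G) = 1 := fun g => (QuotientGroup.eq_one_iff _).2 (by
    rw [← phi_top, ← pow_two]; exact hP.pow_mem_phi Nat.prime_two (mem_top g))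
  have cm : ∀ a b : G ⧸ frattini G, a * b = b * a := fun a b => by
    obtain ⟨a, rfl⟩ := QuotientGroup.mk_surjective a
    obtain ⟨b, rfl⟩ := QuotientGroup.mk_surjective b
    rw [← commutatorElement_eq_one_iff_mul_comm, ← QuotientGroup.mk'_apply, ← QuotientGroup.mk'_apply,
      ← map_commutatorElement, QuotientGroup.mk'_apply, QuotientGroup.eq_one_iff, ← phi_top]
    exact hP.der_le_phi Nat.prime_two (commutator_mem_commutator (mem_top a) (mem_top b))
  letI := act (frattini G)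
  haveI : Finite (G ⧸ frattini G →* ℂˣ) := H21.finite_monoidHom _
  have sm : ∀ (l : G ⧸ frattini G →* ℂˣ) (χ : IrrCharacter G) g, (l • χ).1 g = χ.1 g * (l g : ℂˣ) := fun _ _ _ => rfl
  have ex : ∀ χ : IrrCharacter G, ∃ z : ℤ, (z : ℂ) = fsInd χ.1 := fun χ => by
    rcases H5.Cfsg.IsIrrCharacter.fsInd_cases χ.2 with h | h | h
    exacts [⟨0, by simp [h]⟩, ⟨1, by simp [h]⟩, ⟨-1, by simp [h]⟩]
  choose ν hν using ex
  have h1 : (Nat.card {x : G // x ^ 2 = 1} : ℤ) = ∑ χ : IrrCharacter G, ν χ * charDegree χ.1 := by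
    have := card_sq_eq_sum_fsInd (1 : G)
    simp only [← pow_two, ← hν] at this
    rw [Finset.sum_congr rfl fun χ _ => by rw [← H5.Cfsg.IsIrrCharacter.coe_charDegree χ.2]] at this
    exact_mod_cast this
  rw [← Int.natCast_dvd_natCast, h1,
    ← Finset.sum_fiberwise (s := Finset.univ) (g := Quotient.mk (MulAction.orbitRel (G ⧸ frattini G →* ℂˣ) _))]
  refine Finset.dvd_sum fun ω _ => ?_
  obtain ⟨χ, rfl⟩ := Quotient.exists_rep ω
  rw [Finset.sum_congr rfl (g := fun _ => ν χ * charDegree χ.1) fun ψ hψ => by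
    obtain ⟨l, rfl⟩ : ψ ∈ MulAction.orbit _ χ := Quotient.exact (Finset.mem_filter.1 hψ).2
    have e1 : ν (l • χ) = ν χ := Int.cast_injective (α := ℂ) (by simp only [hν, fsInd, sm, sq]; simp)
    have e2 : charDegree (l • χ).1 = charDegree χ.1 := charDegree_eq_of_apply_one (by
      rw [sm, H5.Cfsg.IsIrrCharacter.coe_charDegree χ.2]; simp)
    beta_reduce
    rw [e1, e2], Finset.sum_const, nsmul_eq_mul, mul_left_comm]
  refine Dvd.dvd.mul_left (Int.natCast_dvd_natCast.2 ?_ |>.trans (Nat.cast_mul _ _).dvd) _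
  set S := MulAction.stabilizer (G ⧸ frattini G →* ℂˣ) χ
  have h2 : (Finset.univ.filter fun ψ : IrrCharacter G => Quotient.mk (MulAction.orbitRel (G ⧸ frattini G →* ℂˣ) _) ψ =
      Quotient.mk _ χ).card = S.index := by
    rw [MulAction.index_stabilizer, ← Set.ncard_coe_finset]
    congr 1; ext ψ
    simp only [Finset.coe_filter, Finset.mem_univ, true_and, Set.mem_ofPred_eq, Quotient.eq]; rfl
  have h3 := S.index_mul_card
  have h4 := stab _ S χ.1 χ.2 fun l hl g => (sm l χ g).symm.trans (by rw [MulAction.mem_stabilizer_iff.1 hl])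
  obtain ⟨n, hn⟩ := hP.card_eq_pow
  rw [card_top] at hn
  have pw : ∀ m, m ∣ Nat.card G → ∃ i, m = 2 ^ i := fun m hm =>
    let ⟨i, _, h⟩ := (Nat.dvd_prime_pow Nat.prime_two).1 (hn ▸ hm); ⟨i, h⟩
  rw [H24.card_hom_comm cm] at h3
  have hd := (frattini G).card_quotient_dvd_card
  obtain ⟨a, ha⟩ := pw _ ((Dvd.intro _ h3).trans hd)
  obtain ⟨b, hb⟩ := pw _ ((Dvd.intro_left _ h3).trans hd)
  obtain ⟨e, he⟩ := pw _ (H5.Cfsg.IsIrrCharacter.charDegree_dvd_card χ.2)
  rw [← h3, ha, hb, ← pow_add, Nat.pow_le_pow_iff_right one_lt_two] at hgen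
  rw [hb, he, ← pow_mul, Nat.pow_le_pow_iff_right one_lt_two] at h4
  convert_to 2 ^ (k + 1) ∣ 2 ^ a * 2 ^ e
  · rw [← ha, ← he, ← h2]
  rw [← pow_add]
  exact pow_dvd_pow 2 (by omega)

end Cfsg.Agent.S4058
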