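import Cfsg.Statements.S4065
import Cfsg.Agent.H10.PSL2Sub

set_option autoImplicit false
open Cfsg

namespace Cfsg.Agent.S4065

open H10 Subgroup in

/-- Let F be a finite field with 2ⁿ elements, n ≥ 2. In PSL₂(F) the centralizer of every element meets each of its conjugates by elements outside its normalizer trivially. -/
theorem result (n : ℕ) (hn : 2 ≤ n)
    (x : Matrix.ProjectiveSpecialLinearGroup (Fin 2) (GaloisField 2 n)) :
    Cfsg.IsTISubset (Subgroup.centralizer ({x} : Set (Matrix.ProjectiveSpecialLinearGroup (Fin 2) (GaloisField 2 n))) :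
      Set (Matrix.ProjectiveSpecialLinearGroup (Fin 2) (GaloisField 2 n))) := by
  have : Fintype (GaloisField 2 n) := Fintype.ofFinite _
  have neg : ∀ a : Matrix.SpecialLinearGroup (Fin 2) (GaloisField 2 n), -a = a := fun a =>
    Subtype.ext (Matrix.ext fun i j => CharTwo.neg_eq _)
  have key : ∀ a b : Matrix.ProjectiveSpecialLinearGroup (Fin 2) (GaloisField 2 n), a ≠ 1 → b ≠ 1 →
      b ∈ centralizer {a} → centralizer {b} = centralizer {a} := fun a b ha hb h => by
    obtain ⟨a, rfl⟩ := π_surjective a
    obtain ⟨b, rfl⟩ := π_surjective b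
    have k : ∀ u v, π _ u ∈ centralizer {π (GaloisField 2 n) v} ↔ u ∈ centralizer {v} := fun u v => by
      rw [mem_centralizer_singleton_iff, mem_centralizer_singleton_iff, ← map_mul, ← map_mul, π_eq_iff, neg, or_self]
    ext u
    obtain ⟨u, rfl⟩ := π_surjective u
    rw [k, k, H24.cent_SL_eq_of_mem (fun e => ha ((π_eq_one_iff _).2 ((H24.isScal_SL_iff _).1 e)))
      (fun e => hb ((π_eq_one_iff _).2 ((H24.isScal_SL_iff _).1 e))) ((k _ _).1 h)]
  intro g hg y hy h
  by_contra y1
  rcases eq_or_ne x 1 with rfl | x1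
  · exact hg fun u => by simp [mem_centralizer_singleton_iff]
  refine hg fun u => ?_
  rw [SetLike.mem_coe, SetLike.mem_coe]
  conv_lhs => rw [← key x y x1 y1 hy]
  rw [← key x _ x1 (by simpa using y1) h, mem_centralizer_singleton_iff, mem_centralizer_singleton_iff]
  constructor <;> intro k
  · calc _ = g * (u * y) * g⁻¹ := by group
      _ = _ := by rw [k]; group
  · calc _ = g⁻¹ * (g * u * g⁻¹ * (g * y * g⁻¹)) * g := by group
      _ = _ := by rw [k]; group

end Cfsg.Agent.S4065
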