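import Cfsg.Statements.S4066
import Cfsg.Agent.H22.Misc2

set_option autoImplicit false
open Cfsg

namespace Cfsg.Agent.S4066

/-- Let G be a finite group in which the centralizer of every element meets each of its conjugates by elements outside its normalizer trivially. Then any two distinct Sylow p-subgroups of G, for any prime p, intersect trivially. -/
theorem result {G : Type*} [Group G] [Finite G] (hTI : ∀ x : G, Cfsg.IsTISubset (Subgroup.centralizer ({x} : Set G) : Set G))
    {p : ℕ} [Fact p.Prime] (P Q : Sylow p G) (hPQ : P ≠ Q) : (P : Subgroup G) ⊓ (Q : Subgroup G) = ⊥ := by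
  by_contra hne
  obtain ⟨x, hx, hx1⟩ := (Subgroup.bot_or_exists_ne_one _).resolve_left hne
  obtain ⟨hxP, hxQ⟩ := Subgroup.mem_inf.mp hx
  have : Nontrivial (P : Subgroup G) := ⟨⟨x, hxP⟩, 1, fun h => hx1 (congrArg Subtype.val h)⟩
  have := P.isPGroup'.center_nontrivial
  obtain ⟨⟨z, hz⟩, hz1⟩ := exists_ne (1 : Subgroup.center (P : Subgroup G))
  have hz1' : (z : G) ≠ 1 := fun h => hz1 (Subtype.ext (Subtype.ext h))
  have hPC : (P : Subgroup G) ≤ Subgroup.centralizer {(z : G)} := fun a ha =>
    Subgroup.mem_centralizer_singleton_iff.mpr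
      (congrArg Subtype.val (Subgroup.mem_center_iff.mp hz ⟨a, ha⟩))
  obtain ⟨g, rfl⟩ := MulAction.exists_smul_eq G P Q
  rw [H22.mem_smul_sylow_iff] at hxQ
  have hg : g ∈ Subgroup.normalizer (Subgroup.centralizer ({(z : G)} : Set G) : Set G) := by
    by_contra hg
    have := hTI z g hg _ (hPC hxQ) (by
      rw [show g * (g⁻¹ * x * g) * g⁻¹ = x by group]; exact hPC hxP)
    apply hx1
    calc x = g * (g⁻¹ * x * g) * g⁻¹ := by group
      _ = 1 := by rw [this]; group
  have hS : H2.SylIn p (P : Subgroup G) (Subgroup.centralizer {(z : G)}) :=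
    (H2.sylIn_top P).of_le hPC le_top
  apply hPQ
  refine Sylow.ext ((g • P).is_maximal' P.isPGroup' ?_)
  intro y hy
  have hyC : y ∈ Subgroup.centralizer ({(z : G)} : Set G) := by
    rw [H22.mem_smul_sylow_iff] at hy
    have := H1.conj_mem_of_mem_normalizer hg (hPC hy)
    rwa [show g * (g⁻¹ * y * g) * g⁻¹ = y by group] at this
  have hn : (P : Subgroup G) ≤ Subgroup.normalizer (Subgroup.centralizer ({y} : Set G) : Set G) := by
    intro a ha
    by_contra hna
    have hzy : (z : G) ∈ Subgroup.centralizer ({y} : Set G) :=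
      Subgroup.mem_centralizer_singleton_iff.mpr (Subgroup.mem_centralizer_singleton_iff.mp hyC).symm
    refine hz1' (hTI y a hna z hzy ?_)
    rw [Subgroup.mem_centralizer_singleton_iff.mp (hPC ha)]
    simpa using hzy
  have hD := hS.inf_of_normal (N := Subgroup.centralizer {y} ⊓ Subgroup.centralizer {(z : G)})
    inf_le_right (H1.le_normalizer_inf hn (hPC.trans Subgroup.le_normalizer))
  have h1 := hD.le_of_le_normalizer' (R := Subgroup.zpowers y)
    (H22.isPGroup_zpowers_iff.mpr (H22.orderOf_eq_pow_of_mem (g • P).isPGroup' hy))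
    (Subgroup.zpowers_le.mpr (Subgroup.mem_inf.mpr
      ⟨Subgroup.mem_centralizer_singleton_iff.mpr rfl, hyC⟩))
    (Subgroup.zpowers_le.mpr (Subgroup.centralizer_le_normalizer _ (fun a ha =>
      Subgroup.mem_centralizer_singleton_iff.mp (Subgroup.mem_inf.mp (Subgroup.mem_inf.mp ha).2).1)))
  exact (Subgroup.mem_inf.mp (h1 (Subgroup.mem_zpowers y))).1

end Cfsg.Agent.S4066
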