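import Cfsg.Statements.S4067
import Cfsg.Agent.H23.Cls
import Cfsg.Agent.H21.Pairing
import Cfsg.Agent.H5.Central
import Cfsg.Agent.H8.Deg

set_option autoImplicit false
open Cfsg

namespace Cfsg.Agent.S4067

open H18 H23.Cls H117 Subgroup H5 MulAction
open scoped commutatorElement

section
variable {G : Type*} [Group G] [Finite G] {M : Subgroup G} {p : ℕ} {a b u : G}

theorem ext_aut (hp : p.Prime) [M.Normal] (hi : M.index = p) (hb : b ∉ M) (hu : u ∈ M) (c : u ∈ C(M)) (e : (b * u) ^ p = b ^ p) :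
    ∃ α : MulAut G, (∀ m ∈ M, α m = m) ∧ α b = b * u := by
  let d : G →* G × G := (MonoidHom.id G).prod (MonoidHom.id G)
  have t : ∀ b ∉ M, M ⊔ zpowers b = ⊤ := fun b hb => (eq_or_eq_of_prime_relIndex (by simpa [hi]) le_sup_left le_top).resolve_left
    fun e => hb (e.le (mem_sup_right (mem_zpowers b)))
  have k : Nat.card (M.map d ⊔ zpowers (b, b * u) : Subgroup _) = Nat.card G := by
    rw [H21.card_sup_zpowers hp (mem_N_of_finite ?_) ?_ (mem_map.2 ⟨b ^ p, hi ▸ M.pow_index_mem b, by simp [d, e]⟩),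
      card_map_of_injective fun x y e => congrArg Prod.fst e, ← hi, card_mul_index]
    · rintro _ ⟨m, hm, rfl⟩
      exact ⟨b * m * b⁻¹, conj_mem norm_of_normal (mem_top b) hm, by simp [d, mul_assoc, ← mul_assoc u, ← mem_C.1 c m hm]⟩
    · rintro ⟨m, hm, e⟩; exact hb ((show m = b from congrArg Prod.fst e) ▸ hm)
  have s : ∀ f : G × G →* G, (∀ x, f (d x) = x) → f (b, b * u) ∉ M →
      Function.Bijective (f.comp (M.map d ⊔ zpowers (b, b * u)).subtype) := fun f h1 h2 =>
    (MonoidHom.range_eq_top.1 (by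
      rw [← MonoidHom.map_range, range_subtype, Subgroup.map_sup, MonoidHom.map_zpowers, map_map,
        show f.comp d = MonoidHom.id G from MonoidHom.ext h1, Subgroup.map_id, t _ h2])).bijective_of_nat_card_le k.le
  have s1 := s (MonoidHom.fst G G) (fun _ => rfl) hb
  have s2 := s (MonoidHom.snd G G) (fun _ => rfl) (mt (mul_mem_cancel_right hu).1 hb)
  have key : ∀ x : (M.map d ⊔ zpowers (b, b * u) : Subgroup _),
      ((MulEquiv.ofBijective _ s1).symm.trans (MulEquiv.ofBijective _ s2)) x.1.1 = x.1.2 := fun x =>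
    congrArg (fun y => y.1.2) ((MulEquiv.ofBijective _ s1).symm_apply_apply x)
  exact ⟨_, fun m hm => key ⟨_, mem_sup_left ⟨m, hm, rfl⟩⟩, key ⟨_, mem_sup_right (mem_zpowers _)⟩⟩

theorem orb_le {A : Type*} [Group A] [MulAction A G] [Fintype G] (c : ℕ) (w : G → ℕ) (h : ∀ x, c ≤ w x * (orbit A x).ncard) :
    Nat.card (orbitRel.Quotient A G) * c ≤ ∑ x, w x := by
  classical
  have := Fintype.ofFinite (orbitRel.Quotient A G)
  rw [← Finset.sum_fiberwise Finset.univ (fun x => (Quotient.mk'' x : orbitRel.Quotient A G)), Nat.card_eq_fintype_card]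
  refine Finset.card_nsmul_le_sum _ _ _ fun q _ => ?_
  induction q using Quotient.inductionOn' with | _ y => ?_
  have e : ∀ x, (Quotient.mk'' x : orbitRel.Quotient A G) = Quotient.mk'' y ↔ x ∈ orbit A y := fun x => by
    rw [Quotient.eq'', orbitRel_apply]
  refine Nat.le_of_mul_le_mul_right ?_ ((Set.ncard_pos (s := orbit A y)).2 ⟨y, mem_orbit_self y⟩)
  rw [Finset.sum_mul, mul_comm]
  refine le_trans (Nat.mul_le_mul_right c (le_of_eq ?_)) (Finset.card_nsmul_le_sum _ _ _ fun x hx => (h x).trans_eq ?_)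
  · rw [← Set.ncard_coe_finset]; congr 1; ext; simp [e]
  · rw [orbit_eq_iff.2 ((e x).1 (Finset.mem_filter.1 hx).2)]

theorem good (hp : p.Prime) (hD : Nat.card (commutator G) = p) (cD : commutator G ≤ center G) (ha : a ∉ center G)
    (hZ : Nat.card (center G) * p * p ≤ Nat.card G) : ∃ a ∉ center G, ∃ u ∉ commutator G, u ^ p ∈ commutator G ∧ C1(a) ≤ C1(u) ∧
      ∀ y ∉ C1(a), (y * u) ^ p = y ^ p := by
  by_contra! h
  have m : ∀ x y : G, ⁅x, y⁆ ∈ commutator G := fun x y => commutator_mem_commutator (mem_top x) (mem_top y)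
  have c : ∀ x y z : G, Commute x ⁅y, z⁆ := fun x y z => mem_center_iff.1 (cD (m y z)) x
  have o : ∀ d ∈ commutator G, d ^ p = 1 := fun d hd => hD ▸ pow_card_eq_one_of_mem hd
  let ψ : G →* Abelianization G := (powMonoidHom p).comp Abelianization.of
  have mK : ∀ {x}, x ∈ ψ.ker ↔ x ^ p ∈ commutator G := QuotientGroup.eq_one_iff _
  have k : Nat.card G * p ≤ Nat.card ψ.ker * Nat.card (center G) := by
    rw [← ψ.ker.card_mul_index, index_ker, mul_assoc, ← card_mul_relIndex cD, hD, mul_comm p, ← Abelianization.ker_of, relIndex_ker]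
    refine Nat.mul_le_mul_left _ (Nat.mul_le_mul_right _ (card_le ?_))
    rintro _ ⟨x, rfl⟩
    exact ⟨x ^ p, mem_center_iff.2 fun y => commutatorElement_eq_one_iff_mul_comm.1 (by
      rw [H21.comm_pow_right (c _ _ _), o _ (m _ _)]), map_pow _ _ _⟩
  have z : ∀ u, u ^ p = 1 → (∀ y, (y * u) ^ p = y ^ p) → u ∈ commutator G := fun u h1 h2 => by_contra fun e => by
    by_cases d : u ∈ center G
    · exact (h a ha u e (h1 ▸ one_mem _) (cen_le d)).elim fun y f => f.2 (h2 y)
    · exact (h u d u e (h1 ▸ one_mem _) le_rfl).elim fun y f => f.2 (h2 y)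
  have pos := card_pos' (H := center G)
  by_cases e : ∀ x, ∀ y ∈ ψ.ker, (x * y) ^ p = x ^ p * y ^ p
  · let θ : ψ.ker →* G := MonoidHom.mk' (fun x => x ^ p) fun x y => e x y y.2
    have h1 : Nat.card θ.ker ≤ p := hD ▸ Nat.card_le_card_of_injective (fun x => (⟨x.1, z _ x.2 fun y => by
      rw [e y _ x.1.2, show x.1.1 ^ p = 1 from x.2, mul_one]⟩ : commutator G)) fun x y e => Subtype.ext (Subtype.ext (Subtype.mk.inj e))
    have h2 : Nat.card θ.range ≤ p := hD ▸ card_le (by rintro _ ⟨x, rfl⟩; exact mK.1 x.2)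
    have h3 := Nat.mul_le_mul h1 h2
    rw [← index_ker, card_mul_index] at h3
    nlinarith [Nat.mul_le_mul_right p hZ, Nat.mul_le_mul_right (Nat.card (center G)) h3, hp.two_le, mul_pos pos (mul_pos hp.pos hp.pos)]
  push Not at e
  obtain ⟨x, u, hu, e⟩ := e
  have uZ : u ∉ center G := fun d => e (Commute.mul_pow (mem_center_iff.1 d x) p)
  obtain rfl := hp.eq_two_or_odd'.resolve_right fun d => e (by
    obtain ⟨k, i⟩ := Nat.Prime.dvd_choose_self hp two_ne_zero (lt_of_le_of_ne hp.two_le (by rintro rfl; exact absurd d (by decide)))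
    rw [H21.mul_pow_class_two (c _ _ _) (c _ _ _), i, pow_mul, o _ (m _ _), one_pow, mul_one])
  obtain ⟨t, -, ht⟩ := (Nat.card_eq_two_iff' 1).1 hD
  have q : ∀ u ∈ ψ.ker, u ∉ center G → u ^ 2 = 1 := fun u hu d => by_contra fun e => by
    obtain ⟨y, h1, h2⟩ := h u d u (mt (cD ·) d) (mK.1 hu) le_rfl
    have := (ht ⟨_, m u y⟩ fun e => h1 (mem_C1.2 (commutatorElement_eq_one_iff_mul_comm.1 (congrArg Subtype.val e)).symm)).trans
      (ht ⟨_, mK.1 hu⟩ fun f => e (congrArg Subtype.val f)).symm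
    refine h2 ?_
    rw [H21.mul_pow_class_two (c _ _ _) (c _ _ _), show ⁅u, y⁆ = u ^ 2 from congrArg Subtype.val this, Nat.choose_self, pow_one,
      mul_assoc, ← sq, o _ (mK.1 hu), mul_one]
  have i : ψ.ker ⊓ center G ≤ commutator G := fun v hv => by
    have h1 := q _ (mul_mem hu hv.1) (mt ((center G).mul_mem_cancel_right hv.2).1 uZ)
    rw [Commute.mul_pow (mem_center_iff.1 hv.2 u), q u hu uZ, one_mul] at h1
    exact z v h1 fun y => by rw [Commute.mul_pow (mem_center_iff.1 hv.2 y), h1, mul_one]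
  have q' : ∀ u ∈ ψ.ker, u⁻¹ = u := fun u hu => inv_eq_of_mul_eq_one_right (sq u ▸ (em (u ∈ center G)).elim
    (fun d => o u (i ⟨hu, d⟩)) (q u hu))
  have s : ψ.ker ⊔ center G = ⊤ := eq_top_of_le_card _ (Nat.le_of_mul_le_mul_right (k.trans ((nml_top.nrm2' le_top).card_sup.ge.trans
    (Nat.mul_le_mul_left _ (hD ▸ card_le i)))) two_pos)
  refine uZ (cen_of (s.ge.trans (sup_le (fun v hv => mem_C1.2 ?_) fun v hv => mem_C1_comm.1 (cen_le hv (mem_top u)))))
  rw [← q' _ (mul_mem hv hu), mul_inv_rev, q' u hu, q' v hv]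
end

/-- Let G be a finite non-abelian group and p the least prime dividing its order. Then the automorphism group of G has at most #G/p orbits on G. -/
theorem result {G : Type*} [Group G] [Finite G] (hna : ¬ IsMulCommutative G) :
    Nat.card (MulAction.orbitRel.Quotient (MulAut G) G) ≤ Nat.card G / (Nat.card G).minFac := by
  classical
  have := Fintype.ofFinite G
  have n1 : commutator G ≠ ⊥ := mt (commutator_eq_bot_iff_center_eq_top G).1 fun e => hna (center_eq_top_iff.1 e)
  have g1 : Nat.card G ≠ 1 := fun e => n1 (eq_bot_of_card_eq _ (Nat.dvd_one.1 (e ▸ card_subgroup_dvd_card _)))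
  have hp := Nat.minFac_prime g1
  have le : ∀ n, n ≠ 1 → n ∣ Nat.card G → (Nat.card G).minFac ≤ n := fun n a b => Nat.minFac_le_of_dvd
    ((Nat.two_le_iff n).2 ⟨fun e => Nat.card_pos.ne' (zero_dvd_iff.1 (e ▸ b)), a⟩) b
  generalize (Nat.card G).minFac = p at hp le
  rw [Nat.le_div_iff_mul_le hp.pos]
  have o : ∀ x g : G, g * x * g⁻¹ ∈ orbit (MulAut G) x := fun x g => ⟨MulAut.conj g, rfl⟩
  rcases (le _ (one_lt_card n1).ne' (card_subgroup_dvd_card _)).lt_or_eq with hD | hD
  · have h1 : Nat.card (orbitRel.Quotient (MulAut G) G) ≤ Nat.card (IrrCharacter G) := card_irr_eq_card_conjClasses (G := G) ▸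
      Nat.card_le_card_of_surjective (Quotient.lift (fun x : G => (Quotient.mk'' x : orbitRel.Quotient (MulAut G) G))
        fun x y e => Quotient.sound' (orbitRel_apply.2 ((isConj_iff.1 e.symm).elim fun g e => e ▸ o y g)))
        fun q => Quotient.inductionOn' q fun x => ⟨ConjClasses.mk x, rfl⟩
    have h2 : ∑ χ : IrrCharacter G, charDegree χ.1 ^ 2 = Nat.card G := by
      have := sum_sq_degrees (G := G)
      simp only [← H8.coe_deg] at this
      exact_mod_cast this
    have h3 : Nat.card (IrrCharacter G) * p ^ 2 ≤ Nat.card G + (commutator G).index * (p ^ 2 - 1) := by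
      rw [← h2, ← card_linear_irr, Nat.card_eq_fintype_card (α := {χ : IrrCharacter G // _}), Fintype.card_subtype, Finset.card_filter,
        Nat.card_eq_fintype_card, Finset.sum_mul, ← Finset.sum_add_distrib]
      refine Finset.card_nsmul_le_sum _ _ _ fun χ _ => ?_
      split_ifs with e
      · have := H8.deg_pos χ; have := Nat.one_le_pow 2 _ this; omega
      · simpa using Nat.pow_le_pow_left (le _ (fun d => e (by rw [← H8.coe_deg, d, Nat.cast_one])) χ.2.charDegree_dvd_card) 2
    have h4 := (commutator G).card_mul_index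
    obtain ⟨k, rfl⟩ := Nat.exists_eq_add_of_le' hp.pos
    rw [show (k + 1) ^ 2 - 1 = (k + 2) * k from Nat.sub_eq_of_eq_add (by ring)] at h3
    refine Nat.le_of_mul_le_mul_right ?_ hp.pos
    nlinarith [Nat.mul_le_mul_right ((k + 1) ^ 2) h1, Nat.mul_le_mul_right ((commutator G).index * k) (Nat.succ_le_of_lt hD)]
  have cl : ∀ x : G, {z | ∃ o ∈ (⊤ : Subgroup G), o * x * o⁻¹ = z}.ncard = C1(x).index := fun x => by rw [ncard_conj', relIndex_top_right]
  have cD : commutator G ≤ center G := fun d hd => center_iff_index.2 (by_contra fun e => (le _ e (index_dvd_card _)).not_gt (by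
    rw [← cl, hD, ← SetLike.coe_sort_coe, Nat.card_coe_set_eq]
    refine Set.ncard_lt_ncard ⟨?_, fun f => (f (one_mem _)).elim fun g f => e (by simp [conj_eq_one_iff'.1 f.2])⟩
    rintro _ ⟨g, -, rfl⟩; exact conj_mem norm_of_normal (mem_top g) hd))
  have ix : ∀ x ∉ center G, {z | ∃ o ∈ (⊤ : Subgroup G), o * x * o⁻¹ = z} = (· * x) '' commutator G ∧ C1(x).index = p := fun x hx => by
    have a := (Set.ncard_image_of_injective (commutator G : Set G) (mul_left_injective x)).trans (Nat.card_coe_set_eq _).symm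
    have b : _ = (· * x) '' commutator G := Set.eq_of_subset_of_ncard_le (by
      rintro _ ⟨g, -, rfl⟩; exact ⟨_, commutator_mem_commutator (mem_top g) (mem_top x), by simp [commutatorElement_def]⟩)
      (a.le.trans (hD.ge.trans ((le _ (mt center_iff_index.2 hx) (index_dvd_card _)).trans_eq (cl x).symm)))
    exact ⟨b, by rw [← cl, b, a, hD]; rfl⟩
  have zM : ∀ a : G, center G ≤ C1(a) := fun a z hz => mem_C1_comm.1 (cen_le hz (mem_top a))
  have hZ : ∀ a ∉ center G, Nat.card (center G) * p ≤ Nat.card C1(a) := fun a ha => card_mul_relIndex (zM a) ▸ Nat.mul_le_mul_left _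
    (le _ (fun e => ha (relIndex_eq_one_iff.1 e C1_self)) (relIndex_dvd.trans (card_subgroup_dvd_card _)))
  have hM : ∀ a ∉ center G, Nat.card C1(a) * p = Nat.card G := fun a ha => (ix a ha).2 ▸ card_mul_index _
  obtain ⟨a, ha⟩ : ∃ a, a ∉ center G := not_forall.1 fun e => hna (center_eq_top_iff.1 (eq_top_iff.2 fun x _ => e x))
  obtain ⟨a, ha, u, h1, h2, h3, h4⟩ := good hp hD.symm cD ha (hM a ha ▸ Nat.mul_le_mul_right _ (hZ a ha))
  haveI : C1(a).Normal := ⟨fun x hx g => by
    simpa [commutatorElement_def] using mul_mem (zM a (cD (commutator_mem_commutator (mem_top g) (mem_top x)))) hx⟩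
  have uM : u ∈ C1(a) := mem_C1_comm.1 (h3 C1_self)
  have big : ∀ y ∉ C1(a), p * p ≤ (orbit (MulAut G) y).ncard := fun y hy => by
    have n : ∀ n : ℕ, y * u ^ n ∉ C1(a) := fun n => mt (mul_mem_cancel_right (pow_mem uM n)).1 hy
    have k : ∀ n : ℕ, y * u ^ n ∈ orbit (MulAut G) y := fun m => by
      induction m with
      | zero => simp
      | succ m i =>
        obtain ⟨α, -, e⟩ := ext_aut hp (ix a ha).2 (n m) uM (le_C1_iff.1 h3) (h4 _ (n m))
        exact orbit_eq_iff.2 i ▸ ⟨α, e.trans (by rw [pow_succ, mul_assoc])⟩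
    have q := H21.card_sup_zpowers hp (norm_of_normal (mem_top u)) h1 h2
    rw [← hD] at q
    rw [← q, ← SetLike.coe_sort_coe,
      Nat.card_coe_set_eq, ← Set.ncard_image_of_injective _ (mul_right_injective y)]
    refine Set.ncard_le_ncard ?_
    rintro _ ⟨v, hv, rfl⟩
    obtain ⟨d, hd, i, rfl⟩ := (H21.mem_sup_zpowers (norm_of_normal (mem_top u))).1 hv
    obtain ⟨m, e⟩ := mem_powers_iff_mem_zpowers.2 (zpow_mem_zpowers u i)
    obtain ⟨g, -, f⟩ := (ix _ (mt (zM a ·) (n m))).1.ge ⟨d, hd, rfl⟩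
    beta_reduce at e f ⊢
    rw [← e, ← mul_assoc, mem_center_iff.1 (cD hd), mul_assoc, ← orbit_eq_iff.2 (k m)]
    exact f ▸ o _ g
  obtain ⟨k, rfl⟩ := Nat.exists_eq_add_of_le' hp.pos
  have := orb_le (A := MulAut G) ((k + 1) * (k + 1)) (fun x : G => (if x ∈ center G then (k + 1) * k else 0) + (if x ∈ C1(a) then k else 0) + 1)
    fun x => by
      by_cases e : x ∈ center G
      · simp only [if_pos e, if_pos (zM a e)]
        nlinarith [(Set.ncard_pos (s := orbit (MulAut G) x)).2 ⟨x, mem_orbit_self x⟩]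
      by_cases f : x ∈ C1(a)
      · simp only [if_neg e, if_pos f, zero_add]
        refine Nat.mul_le_mul_left _ (((cl x).trans (ix x e).2).ge.trans (Set.ncard_le_ncard ?_))
        rintro _ ⟨g, -, rfl⟩; exact o x g
      · simpa [e, f] using big x f
  have c : ∀ (H : Subgroup G) [DecidablePred (· ∈ H)] (n : ℕ), ∑ x, (if x ∈ H then n else 0) = Nat.card H * n := fun H _ n => by
    rw [← Finset.sum_filter, Finset.sum_const, Nat.card_eq_fintype_card, Fintype.card_subtype]; rfl
  rw [Finset.sum_add_distrib, Finset.sum_add_distrib, c, c, Finset.sum_const, Finset.card_univ, ← Nat.card_eq_fintype_card, ← hM a ha] at this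
  refine Nat.le_of_mul_le_mul_right ?_ hp.pos
  obtain ⟨k, rfl⟩ := Nat.exists_eq_add_of_le' (Nat.succ_le_succ_iff.1 hp.two_le)
  rw [← hM a ha]
  simp only [smul_eq_mul] at this
  nlinarith [Nat.mul_le_mul_right (k + 1) (hZ a ha), Nat.zero_le (Nat.card C1(a) * k * (k + 1))]

end Cfsg.Agent.S4067
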