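import Cfsg.Statements.S4068
import Cfsg.Agent.H9.Hv1
import Cfsg.Agent.H13.CitJ
import Cfsg.Agent.H21.Crit
import Cfsg.Agent.S0252

set_option autoImplicit false
open Cfsg

namespace Cfsg.Agent.S4068

open H18 Subgroup MulAction

/-- A finite non-solvable group on which its automorphism group has exactly four orbits is isomorphic to the alternating group of degree 5. -/
theorem result {G : Type*} [Group G] [Finite G] (hns : ¬ Group.IsSolvable G)
    (h4 : Nat.card (MulAction.orbitRel.Quotient (MulAut G) G) = 4) : Nonempty (G ≃* alternatingGroup (Fin 5)) := by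
  classical
  have hns' : ¬ Solv (⊤ : Subgroup G) := fun h => hns (solv_top_iff.1 h)
  have five : ∀ s : Finset ℕ, (∀ n ∈ s, H13.Sp G n) → s.card ≤ 4 := fun s hs => by
    let f : orbitRel.Quotient (MulAut G) G → ℕ := Quotient.lift orderOf fun a b ⟨e, he⟩ => by
      rw [← he]; exact e.orderOf_eq b
    rw [← h4, ← Set.ncard_coe_finset, ← Set.ncard_univ]
    refine (Set.ncard_le_ncard (t := f '' Set.univ) (fun n hn => ?_)).trans (Set.ncard_image_le)
    obtain ⟨x, rfl⟩ := hs n hn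
    exact ⟨Quotient.mk _ x, trivial, rfl⟩
  have sp : ∀ p, p.Prime → p ∣ Nat.card (⊤ : Subgroup G) → H13.Sp G p := fun p hp h =>
    let ⟨x, _, e⟩ := cauchy hp h; ⟨x, e⟩
  have ex : ∀ p, p.Prime → ∃ q, q.Prime ∧ H13.Sp G q ∧ q ≠ 2 ∧ q ≠ p := fun p hp => by
    by_contra! c
    exact hns' (H21.solv_paqb Nat.prime_two hp fun q hq hd => or_iff_not_imp_left.2 (c q hq (sp q hq hd)))
  obtain ⟨q, hq, sq, q2, -⟩ := ex 2 Nat.prime_two
  obtain ⟨r, hr, sr, r2, rq⟩ := ex q hq
  have s2 : H13.Sp G 2 := sp 2 Nat.prime_two (by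
    by_contra c; exact hns' (H21.solv_of_odd ((piNat_compl_iff Nat.prime_two).2 c)))
  have q3 := hq.two_le
  have r3 := hr.two_le
  have all : ∀ n, H13.Sp G n → n = 1 ∨ n = 2 ∨ n.Prime ∧ n ≠ 2 := fun n hn => by
    by_contra! c
    have nq : n ≠ q := fun e => q2 (e ▸ c.2.2 (e ▸ hq))
    have nr : n ≠ r := fun e => r2 (e ▸ c.2.2 (e ▸ hr))
    have := five {n, 1, 2, q, r} (by simpa using ⟨hn, ⟨1, orderOf_one⟩, s2, sq, sr⟩)
    rw [Finset.card_insert_of_notMem (by simp; omega), Finset.card_insert_of_notMem (by simp; omega),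
      Finset.card_insert_of_notMem (by simp; omega), Finset.card_pair rq.symm] at this
    omega
  obtain ⟨T⟩ : Nonempty (Sylow 2 G) := inferInstance
  have hT := hall_sylow_top Nat.prime_two T
  have hc : ¬ IsCyclic (T : Subgroup G) := fun h => hns' (H21.solv_of_cyc_two hT h)
  have sq : ∀ t : G, orderOf t = 2 → ∀ c ∈ C1(t), c ^ 2 = 1 := fun t ht c hc => by
    rcases all _ ⟨c, rfl⟩ with h | h | ⟨h, h2⟩
    · rw [orderOf_eq_one_iff.1 h, one_pow]
    · rw [← h, pow_orderOf_eq_one]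
    have h3 : (orderOf c).Coprime (orderOf t) := ht ▸ (Nat.coprime_primes h Nat.prime_two).2 h2
    have h5 := Commute.orderOf_mul_eq_mul_orderOf_of_coprime (mem_C1.1 hc) h3
    have := h.two_le
    rw [ht] at h5
    rcases all _ ⟨_, h5⟩ with e | e | ⟨e, -⟩
    · omega
    · omega
    · exact absurd e (Nat.not_prime_mul (by omega) (by omega))
  obtain ⟨F, _, _, hF, ⟨e⟩⟩ := (H9.EA.of T hc (fun h => hns' (H21.solv_of_odd_idx nml_top hT.pi.solv hT.idx))
    fun t ht => ⟨abel_iff.1 (cent_iff.2 fun a ha b hb => H9.comm_of_sq (by rw [← pow_two, sq t ht a ha])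
      (by rw [← pow_two, sq t ht b hb]) (by rw [← pow_two, sq t ht _ (mul_mem ha hb)])), sq t ht⟩).psl
  obtain ⟨k, hk⟩ := hT.pi.card_eq_pow
  have k2 : 2 ≤ k := by
    by_contra c
    interval_cases k
    · exact hc (isCyclic_of_card_dvd_prime (p := 2) (by rw [hk]; decide))
    · exact hc (isCyclic_of_card_dvd_prime (p := 2) (by rw [hk]; decide))
  rw [hk] at hF
  have a := all _ ((H13.sp_congr e).2 ((H13.sp_psl_even k2 hF).2 (.inr (.inl dvd_rfl))))
  have b := all _ ((H13.sp_congr e).2 ((H13.sp_psl_even k2 hF).2 (.inr (.inr dvd_rfl))))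
  have h1 : 2 ^ 2 ≤ 2 ^ k := Nat.pow_le_pow_right (by decide) k2
  have h2 : ¬ 3 ∣ 2 ^ k := fun h => absurd (Nat.prime_three.dvd_of_dvd_pow h) (by decide)
  have h3 : 2 ^ k = 4 := by
    rcases a with a | a | ⟨a, -⟩; · omega
    · omega
    rcases b with b | b | ⟨b, -⟩; · omega
    · omega
    have a' := (Nat.prime_dvd_prime_iff_eq Nat.prime_three a).1
    have b' := (Nat.prime_dvd_prime_iff_eq Nat.prime_three b).1
    omega
  obtain ⟨e'⟩ := S0252.result (hF.trans h3)
  exact ⟨e.trans e'⟩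

end Cfsg.Agent.S4068
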