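import Cfsg.Statements.S4071
import Cfsg.Agent.H1.Harv4

set_option autoImplicit false
open Cfsg

namespace Cfsg.Agent.S4071

open H18 Subgroup H1
open scoped commutatorElement

/-- Let G be a finite solvable non-nilpotent group. Every non-abelian subgroup of G is self-normalizing if and only if G is a semidirect product ⟨x⟩ ⋉ A in which ⟨x⟩ is a p-group for some prime p, A is a normal abelian subgroup of order prime to p, x^p is central in G, and x acts fixed-point-freely on A (no non-identity element of A commutes with x). -/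
theorem result {G : Type*} [Group G] [Finite G]
    [Group.IsSolvable G] (hnn : ¬ Group.IsNilpotent G) :
    (∀ H : Subgroup G, ¬ IsMulCommutative H → Subgroup.normalizer (H : Set G) = H) ↔
    ∃ (x : G) (A : Subgroup G) (p : ℕ), p.Prime ∧ A.Normal ∧ IsMulCommutative A ∧ (∃ k : ℕ, orderOf x = p ^ k) ∧
      ¬ p ∣ Nat.card A ∧ (Subgroup.zpowers x).IsComplement' A ∧ x ^ p ∈ Subgroup.center G ∧
      ∀ a : G, a ∈ A → a ≠ 1 → x * a * x⁻¹ ≠ a := by
  have hs : Solv (⊤ : Subgroup G) := solv_of_solv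
  rw [← nil_top_iff] at hnn
  refine ⟨fun hS => ?_, fun ⟨x, A, p, hp, _, a, ⟨k, hk⟩, b, c, d, e⟩ H h => ?_⟩
  · have ab : ∀ N : Subgroup G, N ⊴ ⊤ → N ≠ ⊤ → Abel N := fun N a b => by_contra fun e =>
      b (eq_top_iff.2 (hS N (mt abel_of_comm e) ▸ a.norm))
    obtain ⟨M, a, b, c⟩ := exists_maximal_sub (fun M => M ≠ ⊤) (hs.der_lt fun e => hnn (e ▸ nil_bot)).ne
    have m : M ⊴ ⊤ := nml_of_der_le a le_top
    have u : ∀ K, ⁅(⊤ : Subgroup G), ⊤⁆ ≤ K → ¬ K ≤ M → K = ⊤ := fun K h1 h2 => by_contra fun e => by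
      have k : K ⊴ ⊤ := nml_of_der_le h1 le_top
      by_cases f : M ⊔ K = ⊤
      · exact hnn (f ▸ (ab M m b).nil.sup_nml (ab K k e).nil m k)
      · exact h2 (le_sup_right.trans (c _ f le_sup_left).le)
    obtain ⟨X, -, hp⟩ := exists_prime_sub (H := ⊤ ⫽ M) fun d => b (eq_top_iff.2 ((quo_eq_bot_iff m.norm).1 d))
    have i : M.relIndex ⊤ = Nat.card X := by
      rw [← relIndex_le_qpre (U := X), u (qpre M X) (a.trans le_qpre) fun d =>
        ne_bot_of_prime hp (quo_qpre (U := X) ▸ quo_eq_bot d)]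
    set p := Nat.card X
    have hA : Hall {p}ᶜ O[{p}ᶜ](M) ⊤ := (ab M m b).nil.pcore_hall.of_idx le_top (i ▸ (piNat_self hp).compl_compl)
    set A := O[{p}ᶜ](M)
    have aA : Abel A := (ab M m b).mono pcore_le
    obtain ⟨P, hP⟩ := exists_sylow hp (⊤ : Subgroup G)
    have s := sd_of_hall' hA m.pcore.norm hP
    obtain ⟨x, hx, x1⟩ := SetLike.not_le_iff_exists.1 fun d : P ≤ M => b (eq_top_iff.2 (s.sup.ge.trans (sup_le pcore_le d)))
    have z := zpowers_le.2 hx
    obtain rfl : zpowers x = P := hP.pi.nil.eq_of_le_sup_der z (by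
      have := u (A ⊔ (zpowers x ⊔ ⁅P, P⁆)) (s.der_le.trans (sup_le_sup_left le_sup_right _))
        fun d => x1 (d (mem_sup_right (mem_sup_left (mem_zpowers x))))
      exact (s.eq_of_le ⟨(sup_le z der_le).trans s.norm, eq_bot_iff.2 ((inf_le_inf_left _ (sup_le z der_le)).trans s.inf.le),
        this⟩ (sup_le z der_le)).ge)
    have xp : x ^ p ∈ M := by
      haveI := m.normal
      rw [← i, relIndex_top_right]; exact pow_index_mem M x
    have f : ⁅A, zpowers x⁆ = A := by
      have := u (⁅A, zpowers x⁆ ⊔ zpowers x) (by rw [← s.sup, der_sup, aA.der, abel_zpowers.der]; simp)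
        fun d => x1 (d (mem_sup_right (mem_zpowers x)))
      have e := Nrm2.modular_left (.inr norm_comm_right) s.comm_le
      rwa [this, s.inf, sup_bot_eq, inf_top_eq, eq_comm] at e
    have g := abel_comm_inf_cent aA s.norm (hP.pi.coprime hA.pi)
    rw [f, C_zpowers] at g
    refine ⟨x, A, p, hp, m.pcore.normal, aA.comm, PiNat.eq_pow (hP.pi.elt hx) (orderOf_pos x).ne', (piNat_compl_iff hp).1 hA.pi,
      s.isComplement'.symm, mem_center_iff.2 fun g => mem_C.1 (cent_sup (H := zpowers (x ^ p))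
        (cent_mono (ab M m b) (zpowers_le.2 xp) pcore_le) (cent_mono abel_zpowers (zpowers_le.2 (pow_mem hx p)) le_rfl)
        (mem_zpowers _)) g (s.sup.ge (mem_top g)),
      fun a ha a1 e => a1 (eq_one_of_eq_bot g ⟨ha, mem_C1.2 (mul_inv_eq_iff_eq_mul.1 e).symm⟩)⟩
  have s := sd_of_isComplement' c.symm
  have hA := (piNat_compl_iff hp).2 b
  have hX : PiGrp {p} (zpowers x) := PiElt.zpowers (hk.symm ▸ piNat_pow_self hp k : PiNat {p} (orderOf x))
  obtain ⟨T, hT⟩ := exists_sylow hp H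
  obtain ⟨g, -, f⟩ := sylow_le_cj hp (s.hall_right hA hX) hT.pi le_top
  have t : cj g T = zpowers x := by_contra fun t => h (Abel.comm (by
    have z : cj g T ≤ center G := (cyc_le_phi cyc_zpowers hX (f.lt_of_ne t)).trans ((hX.phi_le_iff hp).2
      ⟨abel_zpowers.der.trans_le bot_le, by rintro _ ⟨i, rfl⟩; rw [← zpow_natCast, zpow_comm, zpow_natCast]; exact zpow_mem d i⟩)
    rw [cj_le_iff, cj_eq_self (norm_of_normal (mem_top _))] at z
    have y : ∀ K : Subgroup G, T ≤ C(K) := fun K => z.trans (center_le_centralizer _)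
    rw [← hT.sup_compl ((s.hall_left hA hX.compl_compl).nml_inf norm_of_normal le_top)]
    exact Abel.sup (y _) ((abel_of_comm a).mono inf_le_left) (y _)))
  have n := s.inf_norm le_rfl
  have n' : A ⊓ C(zpowers x) = ⊥ := eq_bot_iff.2 fun y hy => by_contra fun y1 => e y hy.1 y1
    (mul_inv_eq_iff_eq_mul.2 (mem_C.1 hy.2 x (mem_zpowers x)))
  rw [top_inf_eq, inf_eq_left.2 le_N, n', bot_sup_eq, ← t, ← cj_N, cj_inj] at n
  rw [← frattini_arg hp nml_N hT, n, sup_eq_left.2 (inf_le_right.trans hT.le)]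

end Cfsg.Agent.S4071
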