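import Cfsg.Statements.S4072
import Cfsg.Agent.H1.Harv4
import Cfsg.Agent.H21.AbIdx

set_option autoImplicit false
open Cfsg

namespace Cfsg.Agent.S4072

open H18 Subgroup H1
open scoped commutatorElement

/-- A finite group in which every non-abelian subgroup is self-normalizing is solvable or simple. -/
theorem result {G : Type*} [Group G] [Finite G] (hS : ∀ H : Subgroup G, ¬ IsMulCommutative H → Subgroup.normalizer (H : Set G) = H) :
    Group.IsSolvable G ∨ IsSimpleGroup G := by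
  by_contra! hc
  obtain ⟨h1, h2⟩ := hc
  rw [← solv_top_iff] at h1
  have hS' : ∀ H : Subgroup G, ¬ Abel H → N(H) = H := fun H h => hS H (mt abel_of_comm h)
  have ab : ∀ N : Subgroup G, N ⊴ ⊤ → N ≠ ⊤ → Abel N := fun N a b => by_contra fun e => b (eq_top_iff.2 (hS' N e ▸ a.norm))
  have pf : ⁅(⊤ : Subgroup G), ⊤⁆ = ⊤ := by_contra fun e =>
    h1 (solv_of_quo nml_der.norm ((abel_quo_iff nml_der.norm).2 le_rfl).solv (ab _ nml_der e).solv)
  haveI : Nontrivial G := not_subsingleton_iff_nontrivial.1 fun _ => h1 inferInstance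
  obtain ⟨N, n1, n2, n3⟩ : ∃ N : Subgroup G, N.Normal ∧ N ≠ ⊥ ∧ N ≠ ⊤ := by
    by_contra! e
    exact h2 ⟨fun N h => or_iff_not_imp_left.2 (e N h)⟩
  obtain ⟨M, a, ⟨m, b⟩, c⟩ := exists_maximal_sub (fun M => M ⊴ ⊤ ∧ M ≠ ⊤) ⟨nml_top (K := N), n3⟩
  have M0 : M ≠ ⊥ := fun e => n2 (eq_bot_iff.2 (e ▸ a))
  have key : ∀ p, p.Prime → ∀ X, M ≤ X → ¬ X ≤ M → ¬ Abel X → Abel (X ⫽ M) → ¬ PiGrp {p} (X ⫽ M) := fun p hp X a b c d e => by
    have x : X ≤ N(M) := le_top.trans m.norm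
    have n := quo_inf_N (A := ⊤) ⟨a, x⟩
    rw [hS' X c, top_inf_eq] at n
    obtain ⟨P, s, f⟩ := exists_sylow_le hp e (mim_mono le_top)
    obtain rfl := s.pi.nil.eq_of_norm_le f ((inf_le_inf_right _ s.le).trans n.ge)
    have g := Burnside_normal_complement hp s (n ▸ d)
    refine b ((quo_eq_bot_iff x).1 (e.eq_bot (pcore_pi.of_le (s.le.trans ((quo_eq_bot_iff pcore_nml.norm).1
      (((piGrp_quo_iff pcore_nml.norm).2 g.idx.of_compl_compl).solv.eq_bot_of_le_der ?_))))))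
    rw [← mim_comm pcore_nml.norm pcore_nml.norm, ← mim_comm m.norm m.norm, pf]
  by_cases e : C(M) = ⊤
  · obtain ⟨p, hp, d⟩ := H18.exists_prime_dvd_card M0
    haveI : Fact p.Prime := ⟨hp⟩
    obtain ⟨P⟩ : Nonempty (Sylow p G) := inferInstance
    have s := hall_sylow_top hp P
    have z : M ≤ center G := fun x hx => mem_center_iff.2 fun g => (mem_C.1 (e.ge (mem_top g)) x hx).symm
    have t : (P : Subgroup G) ⊓ M ≤ ⁅(P : Subgroup G), (P : Subgroup G)⁆ := (le_inf (inf_le_inf_left _ z) (le_top.trans pf.ge)).trans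
      (H3.sylow_inf_center_inf_commutator_le P)
    have na : ¬ Abel (P : Subgroup G) := fun h => (s.inf_nml m).ne_bot_p hp d (eq_bot_iff.2 (h.der ▸ t))
    have mp : M ≤ P := hS' _ na ▸ cent_norm (cent_symm (le_top.trans e.ge))
    rw [inf_eq_right.2 mp] at t
    have mn : ∀ K, K < (P : Subgroup G) → Abel K := fun K h => by_contra fun f =>
      h.ne (s.pi.nil.eq_of_norm_le h.le (inf_le_right.trans (hS' K f).le))
    obtain ⟨A, -, a1, a2⟩ := s.pi.exists_index_p (bot_lt_iff_ne_bot.2 (ne_bot_of_not_abel na))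
    have lt : ∀ {B}, B ⊴ (P : Subgroup G) → B.relIndex P = p → B < P := fun h i =>
      h.le.lt_of_ne (by rintro rfl; exact hp.ne_one (i.symm.trans (relIndex_self _)))
    obtain ⟨x, hx, x1⟩ := SetLike.exists_of_lt (lt a1 a2)
    obtain ⟨B, b0, b1, b2⟩ := s.pi.exists_index_p ((zpowers_le.2 hx).lt_of_ne fun f => na (f ▸ abel_zpowers))
    have u := H21.card_commutator_mul (mn A (lt a1 a2)) (a1.norm hx)
    rw [(eq_or_eq_of_prime_relIndex (by rwa [a2]) le_sup_left (sup_le a1.le (zpowers_le.2 hx))).resolve_left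
      fun f => x1 (f.le (mem_sup_right (mem_zpowers x))), inf_comm, ← card_mul_relIndex' (A := C1(x)) (B := A), mul_comm] at u
    have v : Nat.card ↥⁅(P : Subgroup G), (P : Subgroup G)⁆ ∣ p := Nat.eq_of_mul_eq_mul_left card_pos' u ▸ (relIndex_dvd_left
      ((mn B (lt b1 b2)).trans (C_le_C1 (b0 (mem_zpowers x))))).trans (b2 ▸ b1.relIndex_dvd a1.le)
    have w : M = ⁅(P : Subgroup G), (P : Subgroup G)⁆ := eq_of_card_ge t ((Nat.le_of_dvd hp.pos v).trans (Nat.le_of_dvd card_pos' d))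
    exact key p hp P mp (fun f => na ((ab M m b).mono f)) na ((abel_quo_iff (le_top.trans m.norm)).2 w.ge) s.pi.mim
  have f := c C(M) ⟨⟨le_top, norm_C m.norm⟩, e⟩ (ab M m b)
  obtain ⟨X, -, hX⟩ := exists_prime_sub (H := ⊤ ⫽ M) fun d => b (eq_top_iff.2 ((quo_eq_bot_iff m.norm).1 d))
  have g : ¬ qpre M X ≤ M := fun d => ne_bot_of_prime hX (quo_qpre (U := X) ▸ quo_eq_bot d)
  exact key _ hX (qpre M X) le_qpre g (fun d => g ((cent_mono d le_rfl le_qpre).trans f.le))
    (by rw [quo_qpre]; exact abel_of_prime hX) (by rw [quo_qpre]; exact piNat_self hX)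

end Cfsg.Agent.S4072
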