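import Cfsg.Statements.S4074
import Cfsg.Agent.H22.Misc2

set_option autoImplicit false
open Cfsg

namespace Cfsg.Agent.S4074

open DihedralGroup in
theorem aux4 : ∀ a b : DihedralGroup 4, a * b ≠ b * a → ∀ g : DihedralGroup 4,
    g = 1 ∨ g = a ∨ g = b ∨ g = a * b ∨ g = b * a ∨ g = a * b * a ∨ g = b * a * b ∨
    g = a * b * a * b ∨ g = a * a ∨ g = a * a * a ∨ g = b * b ∨ g = b * b * b ∨
    g = a * a * b ∨ g = a * b * b := by decide

/-- For n > 2, every non-abelian subgroup of the dihedral group of order 2n is self-normalizing if and only if n = 4 or n is odd. -/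
theorem result (n : ℕ) (hn : 2 < n) :
    (∀ H : Subgroup (DihedralGroup n), ¬ IsMulCommutative H → Subgroup.normalizer (H : Set (DihedralGroup n)) = H) ↔
    (n = 4 ∨ Odd n) := by
  constructor
  · intro h
    by_contra hcon
    push Not at hcon
    obtain ⟨h4, hev⟩ := hcon
    rw [Nat.not_odd_iff_even, even_iff_two_dvd] at hev
    let c := ZMod.castHom hev (ZMod 2)
    let f : DihedralGroup n → ZMod 2 := fun g => match g with
      | .r i => c i
      | .sr i => c i
    have hneg : ∀ a b : ZMod 2, a - b = b + a := by decide
    let φ : DihedralGroup n →* Multiplicative (ZMod 2) := MonoidHom.mk' (fun g => .ofAdd (f g)) (by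
      rintro (i | i) (j | j)
      · show Multiplicative.ofAdd (c (i + j)) = _
        rw [map_add]; rfl
      · show Multiplicative.ofAdd (c (j - i)) = _
        rw [map_sub, hneg]; rfl
      · show Multiplicative.ofAdd (c (i + j)) = _
        rw [map_add]; rfl
      · show Multiplicative.ofAdd (c (j - i)) = _
        rw [map_sub, hneg]; rfl)
    have h1 : ¬ IsMulCommutative φ.ker := by
      rw [H1.isMulCommutative_iff]
      intro hc
      have h2 := hc (.r 2) (by
        show Multiplicative.ofAdd (c 2) = 1
        rw [map_ofNat]; rfl) (.sr 0) (by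
        show Multiplicative.ofAdd (c 0) = 1
        rw [map_zero]; rfl)
      simp only [DihedralGroup.r_mul_sr, DihedralGroup.sr_mul_r, DihedralGroup.sr.injEq] at h2
      have h3 : ((4 : ℕ) : ZMod n) = 0 := by
        push_cast
        linear_combination -h2
      rw [ZMod.natCast_eq_zero_iff] at h3
      have h5 := Nat.le_of_dvd (by norm_num) h3
      omega
    have h2 := h _ h1
    rw [Subgroup.normalizer_eq_top] at h2
    have h3 : φ (.r 1) = 1 := show DihedralGroup.r 1 ∈ φ.ker from h2 ▸ Subgroup.mem_top _
    have h4 : c 1 = 0 := h3
    rw [map_one] at h4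
    exact absurd h4 (by decide)
  · intro h H hH
    refine le_antisymm ?_ Subgroup.le_normalizer
    rw [H1.isMulCommutative_iff] at hH
    push Not at hH
    obtain ⟨a, ha, b, hb, hab⟩ := hH
    rcases h with rfl | hodd
    · intro g _
      rcases aux4 a b hab g with h | h | h | h | h | h | h | h | h | h | h | h | h | h <;>
        rw [h] <;> (repeat' first | exact ha | exact hb | exact H.one_mem | apply H.mul_mem)
    · obtain ⟨i, hi⟩ : ∃ i, DihedralGroup.sr i ∈ H := by
        rcases a with a | a
        · rcases b with b | b
          · exact absurd (by simp [add_comm]) hab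
          · exact ⟨b, hb⟩
        · exact ⟨a, ha⟩
      have key : ∀ k, DihedralGroup.r k ∈ Subgroup.normalizer (H : Set (DihedralGroup n)) →
          DihedralGroup.r k ∈ H := by
        intro k hk
        have h1 := H.mul_mem (H1.conj_mem_of_mem_normalizer hk hi) hi
        have h2 : DihedralGroup.r k * DihedralGroup.sr i * (DihedralGroup.r k)⁻¹ *
            DihedralGroup.sr i = (DihedralGroup.r k) ^ 2 := by
          simp [pow_two]
          ring
        rw [h2] at h1
        refine Subgroup.zpowers_le.mpr h1 (mem_zpowers_pow_iff.mpr ?_)
        have : NeZero n := ⟨by omega⟩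
        refine Nat.Coprime.coprime_dvd_right ?_ (Nat.coprime_two_left.mpr hodd)
        rw [orderOf_dvd_iff_pow_eq_one]
        simp
      rintro (k | k) hk
      · exact key k hk
      · have := key (i - k) (by
          have := Subgroup.mul_mem _ hk (Subgroup.le_normalizer hi)
          simpa using this)
        have h2 := H.mul_mem this hi
        simpa using h2

end Cfsg.Agent.S4074
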