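import Cfsg.Statements.S4075
import Cfsg.Agent.H22.Misc2

set_option autoImplicit false
open Cfsg

namespace Cfsg.Agent.S4075

/-- Let G be a finite nilpotent group. Every non-abelian subgroup of G is self-normalizing if and only if G is abelian or G is a minimal non-abelian p-group for some prime p (non-abelian of prime-power order with every proper subgroup abelian). -/
theorem result {G : Type*} [Group G] [Finite G]
    [Group.IsNilpotent G] :
    (∀ H : Subgroup G, ¬ IsMulCommutative H → Subgroup.normalizer (H : Set G) = H) ↔
    (IsMulCommutative G ∨ (IsPrimePow (Nat.card G) ∧ ¬ IsMulCommutative G ∧ ∀ H : Subgroup G, H ≠ ⊤ → IsMulCommutative H)) := by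
  constructor
  · intro h
    by_cases hG : IsMulCommutative G
    · exact Or.inl hG
    have hmin : ∀ H : Subgroup G, H ≠ ⊤ → IsMulCommutative H := by
      intro H hH
      by_contra hc
      exact (normalizerCondition_of_isNilpotent H (lt_top_iff_ne_top.mpr hH)).ne' (h H hc)
    refine Or.inr ⟨?_, hG, hmin⟩
    by_contra hpp
    apply hG
    have key : ∀ x y : G, ∀ p k q l : ℕ, p.Prime → q.Prime → orderOf x = p ^ k →
        orderOf y = q ^ l → x * y = y * x := by
      intro x y p k q l hp hq hx hy
      by_cases hpq : p = q
      · subst hpq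
        have := Fact.mk hp
        obtain ⟨P⟩ : Nonempty (Sylow p G) := inferInstance
        have hP : (P : Subgroup G).Normal := inferInstance
        refine H1.isMulCommutative_iff.mp (hmin P fun htop => ?_) x
          (H22.mem_sylow_of_normal P hP ⟨k, hx⟩) y (H22.mem_sylow_of_normal P hP ⟨l, hy⟩)
        obtain ⟨j, hj⟩ := IsPGroup.iff_card.mp P.isPGroup'
        rw [htop, Subgroup.card_top] at hj
        rcases Nat.eq_zero_or_pos j with rfl | hj0
        · have : Subsingleton G := (Nat.card_eq_one_iff_unique.mp hj).1
          exact hG ⟨⟨fun a b => Subsingleton.elim _ _⟩⟩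
        · exact hpp (hj ▸ hp.isPrimePow.pow hj0.ne')
      · refine H2.commute_of_coprime_of_nilpotent (K := ⊤) inferInstance (Subgroup.mem_top x)
          (Subgroup.mem_top y) ?_
        rw [hx, hy]
        exact Nat.coprime_pow_primes _ _ hp hq hpq
    have key2 : ∀ y : G, ∀ q l : ℕ, q.Prime → orderOf y = q ^ l → y ∈ Subgroup.center G := by
      intro y q l hq hy
      rw [← H22.index_centralizer_eq_one_iff, Subgroup.index_eq_one]
      exact H22.eq_top_of_forall_primePow_mem _ fun x p k hp hx =>
        Subgroup.mem_centralizer_singleton_iff.mpr (key x y p k q l hp hq hx hy)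
    have := H22.eq_top_of_forall_primePow_mem _ key2
    exact ⟨⟨fun a b => Subgroup.mem_center_iff.mp (this ▸ Subgroup.mem_top b) a⟩⟩
  · rintro (hG | ⟨-, -, h⟩) H hH
    · exact absurd (H1.isMulCommutative_iff.mpr fun a _ b _ => hG.1.1 a b) hH
    · by_cases htop : H = ⊤
      · rw [htop]; exact Subgroup.normalizer_eq_top _
      · exact absurd (h H htop) hH

end Cfsg.Agent.S4075
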