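import Cfsg.Statements.S4080
import Cfsg.Agent.H22.Misc2

set_option autoImplicit false
open Cfsg

namespace Cfsg.Agent.S4080

theorem aux_nil {p : ℕ} (hp : p.Prime) (a : ZMod (p ^ 2)) (ha : IsNilpotent a) :
    ∃ b, a = p * b := by
  have : NeZero (p ^ 2) := ⟨pow_ne_zero _ hp.ne_zero⟩
  obtain ⟨a, rfl⟩ := ZMod.natCast_zmod_surjective a
  obtain ⟨m, hm⟩ := ha
  rw [← Nat.cast_pow, ZMod.natCast_eq_zero_iff] at hm
  obtain ⟨b, rfl⟩ := hp.dvd_of_dvd_pow ((dvd_pow_self p two_ne_zero).trans hm)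
  exact ⟨b, by push_cast; rfl⟩

theorem aux_mat {p : ℕ} (hp : p.Prime) (h3 : 3 < p) (A : Matrix (Fin 2) (Fin 2) (ZMod (p ^ 2)))
    (hA : A ^ p = 1) : (p : ZMod (p ^ 2)) • (A - 1) = 0 := by
  obtain ⟨N, rfl⟩ : ∃ N, A = N + 1 := ⟨A - 1, by simp⟩
  rw [add_sub_cancel_right]
  have hpp : (p : ZMod (p ^ 2)) * p = 0 := by
    rw [← pow_two, ← Nat.cast_pow, ZMod.natCast_self]
  have hpM : (p : Matrix (Fin 2) (Fin 2) (ZMod (p ^ 2))) = (p : ZMod (p ^ 2)) • 1 := by
    rw [Nat.cast_smul_eq_nsmul, nsmul_one]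
  have hnil : IsNilpotent N := by
    have h := (Commute.one_right N).add_pow_prime_eq hp
    rw [hA, one_pow, mul_one, mul_assoc, hpM, smul_mul_assoc, one_mul] at h
    generalize N * _ = r at h
    have h1 : N ^ p = -((p : ZMod (p ^ 2)) • r) := by
      rw [eq_neg_iff_add_eq_zero]
      have : N ^ p + (p : ZMod (p ^ 2)) • r + 1 = 0 + 1 := by rw [zero_add]; exact (h.trans (by abel)).symm
      exact add_right_cancel this
    refine ⟨p + p, ?_⟩
    rw [pow_add, h1, neg_mul_neg, smul_mul_smul_comm, hpp, zero_smul]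
  obtain ⟨t, ht⟩ := aux_nil hp _ (Matrix.isNilpotent_trace_of_isNilpotent hnil)
  obtain ⟨d, hd⟩ := aux_nil hp N.det (by
    obtain ⟨m, hm⟩ := hnil
    exact ⟨m, by rw [← Matrix.det_pow, hm, Matrix.det_zero]⟩)
  have hCH : N ^ 2 = (p : ZMod (p ^ 2)) • (t • N - d • 1) := by
    rw [smul_sub, smul_smul, smul_smul, ← ht, ← hd]
    ext i j
    fin_cases i <;> fin_cases j <;>
      simp [pow_two, Matrix.mul_apply, Fin.sum_univ_two, Matrix.trace_fin_two, Matrix.det_fin_two] <;>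
      ring
  have h2 : (p : ZMod (p ^ 2)) • N ^ 2 = 0 := by rw [hCH, smul_smul, hpp, zero_smul]
  have h4 : N ^ 4 = 0 := by
    rw [show 4 = 2 + 2 by rfl, pow_add, hCH, smul_mul_smul_comm, hpp, zero_smul]
  rw [(Commute.one_right N).add_pow] at hA
  obtain ⟨q, rfl⟩ : ∃ q, p = q + 1 := ⟨p - 1, by omega⟩
  rw [Finset.sum_range_succ', Finset.sum_range_succ', Finset.sum_eq_zero] at hA
  · simp only [zero_add, pow_one, one_pow, mul_one, Nat.choose_one_right, pow_zero,
      Nat.choose_zero_right, Nat.cast_one, add_eq_right] at hA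
    rwa [hpM, mul_smul_comm, mul_one] at hA
  · intro j hj
    rw [Finset.mem_range] at hj
    by_cases h : j + 1 + 1 = q + 1
    · rw [show j + 1 + 1 = 4 + (j - 2) by omega, pow_add, h4]; simp
    · obtain ⟨c, hc⟩ := hp.dvd_choose_self (k := j + 1 + 1) (by omega) (by omega)
      rw [hc, Nat.cast_mul, hpM, show j + 1 + 1 = j + 2 by rfl, pow_add, one_pow, mul_one,
        ← mul_assoc, mul_smul_comm, mul_one, ← mul_smul_comm, h2]
      simp

/-- Let p > 3 be a prime and L the direct product of two cyclic groups of order p². Every automorphism of L of order p fixes every element of order p of L. -/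
theorem result {p : ℕ} [Fact p.Prime] (hp : 3 < p)
    (a : MulAut (Multiplicative (ZMod (p ^ 2) × ZMod (p ^ 2)))) (ha : orderOf a = p)
    (x : Multiplicative (ZMod (p ^ 2) × ZMod (p ^ 2))) (hx : orderOf x = p) : a x = x := by
  have hp' : p.Prime := Fact.out
  let e : MulAut (Multiplicative (ZMod (p ^ 2) × ZMod (p ^ 2))) →*
      Module.End (ZMod (p ^ 2)) (ZMod (p ^ 2) × ZMod (p ^ 2)) :=
    { toFun := fun a => AddMonoidHom.toZModLinearMap (p ^ 2) (MonoidHom.toAdditiveLeft a.toMonoidHom)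
      map_one' := rfl
      map_mul' := fun _ _ => rfl }
  let b := Module.Basis.finTwoProd (ZMod (p ^ 2))
  have h1 := aux_mat hp' hp (LinearMap.toMatrixAlgEquiv b (e a)) (by
    rw [← map_pow, ← map_pow, show a ^ p = 1 from orderOf_dvd_iff_pow_eq_one.mp (dvd_of_eq ha),
      map_one, map_one])
  rw [← map_one (LinearMap.toMatrixAlgEquiv b), ← map_sub, ← map_smul,
    map_eq_zero_iff _ (LinearMap.toMatrixAlgEquiv b).injective] at h1
  have hx1 : p • x.toAdd = 0 := by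
    rw [← toAdd_pow, show x ^ p = 1 from orderOf_dvd_iff_pow_eq_one.mp (dvd_of_eq hx)]; rfl
  have key : ∀ c : ZMod (p ^ 2), p • c = 0 → ∃ d : ZMod (p ^ 2), c = (p : ZMod (p ^ 2)) * d := by
    intro c hc
    have : NeZero (p ^ 2) := ⟨pow_ne_zero _ hp'.ne_zero⟩
    obtain ⟨c, rfl⟩ := ZMod.natCast_zmod_surjective c
    rw [nsmul_eq_mul, ← Nat.cast_mul, ZMod.natCast_eq_zero_iff, pow_two] at hc
    obtain ⟨d, rfl⟩ := Nat.dvd_of_mul_dvd_mul_left hp'.pos hc
    exact ⟨d, by push_cast; rfl⟩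
  obtain ⟨d1, h2⟩ := key x.toAdd.1 (congrArg Prod.fst hx1)
  obtain ⟨d2, h3⟩ := key x.toAdd.2 (congrArg Prod.snd hx1)
  have h4 : x.toAdd = (p : ZMod (p ^ 2)) • (d1, d2) := Prod.ext h2 h3
  have h5 : (e a - 1) x.toAdd = 0 := by
    rw [h4, map_smul, ← LinearMap.smul_apply, h1, LinearMap.zero_apply]
  rw [LinearMap.sub_apply, sub_eq_zero] at h5
  exact h5

end Cfsg.Agent.S4080
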