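import Cfsg.Statements.S4083
import Cfsg.Agent.S0228
import Cfsg.Agent.H22.GW

set_option autoImplicit false
open Cfsg

open H18 H22 Subgroup

namespace Cfsg.Agent.S4083

section
variable {G : Type*} [Group G] [Finite G] {S H K : Subgroup G}

theorem gen (hK : K ≤ H) (hn : H ≤ N(K)) {c : G} (h : K ⊔ zpowers c = H) (hπ : PiGrp {2} K)
    (T : Sylow 2 H) [(T : Subgroup H).Normal] : IsCyclic (H ⧸ (T : Subgroup H)) := by
  have hc : c ∈ H := h ▸ mem_sup_right (mem_zpowers c)
  have h1 : K ≤ (T : Subgroup H).map H.subtype :=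
    (hall_map_sylow Nat.prime_two T).le_of_nml nml_map_subtype.norm hK hπ
  refine ⟨QuotientGroup.mk' _ ⟨c, hc⟩, fun y => ?_⟩
  obtain ⟨y, rfl⟩ := QuotientGroup.mk'_surjective _ y
  have : H ≤ ((zpowers (QuotientGroup.mk' (T : Subgroup H) ⟨c, hc⟩)).comap
      (QuotientGroup.mk' _)).map H.subtype := h.ge.trans (sup_le (h1.trans (map_mono fun z hz => by
        rw [mem_comap, show QuotientGroup.mk' _ z = 1 from (QuotientGroup.eq_one_iff z).2 hz]
        exact one_mem _))
      (zpowers_le.2 ⟨⟨c, hc⟩, mem_zpowers _, rfl⟩))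
  obtain ⟨z, hz, e⟩ := this y.2
  exact Subtype.ext e ▸ hz

end

/-- Let G be a finite group with Sylow 2-subgroup P. Every subgroup H of G whose Sylow 2-subgroup is normal in H with cyclic quotient is cyclic, dihedral of 2-power order, or isomorphic to the alternating group of degree 4, if and only if either P is cyclic, or P is dihedral (of order at least 4) and every elementary abelian subgroup K of order 4 of P satisfies C_G(K) = K. -/
theorem result {G : Type*} [Group G] [Finite G] (P : Sylow 2 G) :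
    (∀ H : Subgroup G, (∀ S : Sylow 2 ↥H, (S : Subgroup ↥H).Normal) →
        (∀ (S : Sylow 2 ↥H) [(S : Subgroup ↥H).Normal], IsCyclic (↥H ⧸ (S : Subgroup ↥H))) →
        IsCyclic H ∨ (∃ n : ℕ, Nonempty (H ≃* DihedralGroup (2 ^ n))) ∨ Nonempty (H ≃* alternatingGroup (Fin 4))) ↔
    (IsCyclic P ∨
      ((∃ n : ℕ, 1 ≤ n ∧ Nonempty ((P : Subgroup G) ≃* DihedralGroup (2 ^ n))) ∧
        ∀ K : Subgroup G, K ≤ P → Nat.card K = 4 → (∀ k ∈ K, k ^ 2 = 1) → Subgroup.centralizer (K : Set G) = K)) := by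
  constructor
  · intro h
    have hP := hall_sylow_top Nat.prime_two P
    have e : ∀ T : Sylow 2 (P : Subgroup G), (T : Subgroup (P : Subgroup G)) = ⊤ := fun T =>
      (T.is_maximal' (P.isPGroup'.to_subgroup ⊤) le_top).symm
    refine (em _).imp_right fun c => ⟨?_, fun K hK h4 h2 => ?_⟩
    · rcases h P (fun T => e T ▸ inferInstance) (fun T _ => gen le_rfl le_normalizer
        (c := 1) (by simp) hP.pi T) with h | ⟨n, ⟨f⟩⟩ | ⟨⟨f⟩⟩
      · exact (c h).elim
      · exact ⟨n, Nat.pos_of_ne_zero fun e => c (f.isCyclic.2 (DihedralGroup.isCyclic_iff.2 (e ▸ rfl))), ⟨f⟩⟩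
      · have := hP.pi 3 Nat.prime_three (by
          rw [Nat.card_congr f.toEquiv, alternatingGroup.card_of_card_eq_four (by simp)]; decide)
        simp at this
    have hA : Abel K := abel_of_card_sq Nat.prime_two h4
    refine le_antisymm (fun x hx => ?_) hA
    have hB : Abel (K ⊔ zpowers x) := hA.sup abel_zpowers (cent_symm (zpowers_le.2 hx))
    have := hB.comm
    rcases h (K ⊔ zpowers x) (fun T => inferInstance) (fun T _ => gen le_sup_left (hB.norm le_sup_left)
        rfl (hP.pi.of_le hK) T) with h | ⟨n, ⟨f⟩⟩ | ⟨⟨f⟩⟩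
    · exact ((PElem.mk (p := 2) (n := 2) hK ⟨hA, h2⟩ h4).not_cyc Nat.prime_two le_rfl
        (Cyc.of_le h le_sup_left)).elim
    · have := DihedralGroup.commutative_iff.1 (Function.Surjective.mul_comm (f := f.toMulHom) f.surjective this)
      refine (eq_of_le_of_card_ge le_sup_left ?_).ge (mem_sup_right (mem_zpowers x))
      rw [Nat.card_congr f.toEquiv, DihedralGroup.nat_card]
      omega
    · have := (Function.Surjective.mul_comm (f := f.toMulHom) f.surjective this).is_comm.comm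
      exact absurd this (by decide)
  intro h H h1 h2
  have hP := hall_sylow_top Nat.prime_two P
  obtain ⟨T⟩ : Nonempty (Sylow 2 H) := inferInstance
  have := h1 T
  have hS := hall_map_sylow Nat.prime_two T
  have hn : (T : Subgroup H).map H.subtype ⊴ H := nml_map_subtype
  obtain ⟨c, hc⟩ := (h2 T).exists_generator
  obtain ⟨c, rfl⟩ := QuotientGroup.mk'_surjective _ c
  have h3 : H ≤ (T : Subgroup H).map H.subtype ⊔ zpowers (c : G) := fun y hy => by
    obtain ⟨k, hk⟩ := hc (QuotientGroup.mk' _ ⟨y, hy⟩)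
    have := QuotientGroup.eq.1 ((map_zpow (QuotientGroup.mk' (T : Subgroup H)) c k).trans hk)
    exact (mul_mem_cancel_left (inv_mem (mem_sup_right (zpow_mem_zpowers _ k)))).1
      (mem_sup_left (mem_map_of_mem H.subtype this))
  generalize (T : Subgroup H).map H.subtype = S at hS hn h3
  set b := piPart {2}ᶜ (c : G)
  have bH : b ∈ H := piPart_mem c.2
  have ob : PiElt {2}ᶜ b := piElt_piPart
  have e : S ⊔ zpowers b = H := le_antisymm (sup_le hS.le (zpowers_le.2 bH)) (h3.trans (sup_le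
    le_sup_left (zpowers_le.2 (mem_of_parts (mem_sup_left (hS.mem_of_nml hn.norm (piPart_mem c.2)
      piElt_piPart)) (mem_sup_right (mem_zpowers b))))))
  have hb := (zpowers_le.2 bH).trans hn.norm
  have cd : CD S := ds_of_sylow hP (h.elim cd_of_cyc fun ⟨⟨_, _, ⟨f⟩⟩, _⟩ => cd_of_dihedral f) S
    le_top hS.pi
  by_cases c1 : Cyc S
  · exact .inl (e ▸ c1.sup_coprime cyc_zpowers (cent_symm (cyc_cent c1 hS.pi ob.zpowers hb))
      (PiNat.coprime hS.pi ob.zpowers))
  obtain ⟨g, -, hg⟩ := sylow_le_cj Nat.prime_two hP hS.pi le_top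
  obtain ⟨t, x, v, m, d⟩ := exists_dih hS cd c1
  have hC : C(V4 t v) = V4 t v := by
    have := (h.resolve_left fun c => c1 (cyc_cj.1 (Cyc.of_le c hg))).2 (cj g (V4 t v))
      ((cj_mono d.V4_le).trans hg) (card_cj.trans d.card_V4) fun k hk => by
        obtain ⟨y, hy, rfl⟩ := mem_cj'.1 hk
        rw [conj_pow, sq, sq_of_mem_V4 d.tt d.vv d.tv hy]; simp
    exact cj_inj.1 (cj_C.trans this)
  have k1 : ∀ y, PiElt {2}ᶜ y → y ∈ C(V4 t v) → y = 1 := fun y hy e =>
    (hS.pi.elt (d.V4_le (hC ▸ e))).eq_one' hy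
  right
  by_cases c2 : zpowers b ≤ C(S)
  · obtain ⟨k, rfl⟩ := d.pow2
    rw [k1 b ob (centralizer_le d.V4_le (c2 (mem_zpowers b))), zpowers_one_eq_bot, sup_bot_eq] at e
    refine .inl ⟨k + 1, (H9.nonempty_closure_equiv_dihedral d.pos.ne' d.ord d.vv d.inv d.vx).map
      fun f => (MulEquiv.subgroupCongr ?_).trans f⟩
    rw [← e, ← d.sup_eq, sup_comm, zpowers_eq_closure, zpowers_eq_closure, ← Subgroup.closure_union]
    rfl
  have h4 : S = V4 t v := by
    obtain ⟨t', v', d', -⟩ := cd.four_of_not_cent hS.pi ob.zpowers hb c2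
    exact d.eq_V4 (by have := d.card; have := d'.card; omega)
  have k2 : ∀ s ∈ S, orderOf s = 2 → b ∉ C1(s) := fun s hs o e =>
    c2 (cd.cent_of_fix hS.pi ob.zpowers hb hs o (zpowers_le.2 e))
  have k3 : ∀ s ∈ S, orderOf s = 2 → b * s * b⁻¹ ∈ S ∧ orderOf (b * s * b⁻¹) = 2 ∧ b * s * b⁻¹ ≠ s :=
    fun s hs o => ⟨conj_mem hn.norm bH hs, ord2_conj o b, fun e =>
      k2 s hs o (mem_C1.2 (mul_inv_eq_iff_eq_mul.1 e))⟩
  have k4 : ∀ s ∈ S, orderOf s = 2 → b ^ 3 ∈ C1(s) := fun s hs o => by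
    obtain ⟨a1, a2, a3⟩ := k3 s hs o
    obtain ⟨b1, b2, b3⟩ := k3 _ a1 a2
    have ab : Abel S := h4 ▸ V4_abel d.tv
    have e1 : S = V4 s (b * s * b⁻¹) := (eq_of_le_of_card_ge (V4_le hs a1) (by
      rw [card_V4 o a2 (mem_C.1 (ab a1) s hs) a3, h4, d.card_V4])).symm
    rcases (mem_V4 (sq1 o) (sq1 a2) (mem_C.1 (ab a1) s hs)).1 (e1 ▸ b1) with e | e | e | e
    · exact (ne1 b2 e).elim
    · obtain ⟨k, hk⟩ := exists_pow_eq_self_of_coprime (odd_iff.1 ob).coprime_two_left
      refine (k2 s hs o (hk ▸ pow_mem ?_ k)).elim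
      rw [mem_C1, ← mul_inv_eq_iff_eq_mul]
      exact Eq.trans (by rw [sq]; group) e
    · exact (b3 e).elim
    · rw [mem_C1, ← mul_inv_eq_iff_eq_mul]
      calc _ = b * (b * (b * s * b⁻¹) * b⁻¹) * b⁻¹ := by simp only [pow_three, mul_inv_rev, mul_assoc]
        _ = b * s * b⁻¹ * (b * (b * s * b⁻¹) * b⁻¹) := (congrArg (b * · * b⁻¹) e).trans conj_mul.symm
        _ = s := by rw [e, mem_C.1 (ab a1) s hs, ← mul_assoc, sq1 a2, one_mul]
  have b3 : orderOf b = 3 := orderOf_eq_prime (k1 _ (ob.pow' 3) (C_V4.ge ⟨k4 t d.tS d.ht,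
    k4 v d.vS d.hv⟩)) fun e => c2 (by simp [e])
  refine .inr (S0228.result ?_ fun z hz zc => ?_)
  · rw [(SD.mk hb (hS.pi.inf_eq_bot ob.zpowers) e).card, h4, d.card_V4, Nat.card_zpowers, b3]
  · rw [← orderOf_coe] at hz
    exact k2 z (hS.mem_of_nml hn.norm z.2 (pi2_of_sq (sq1 hz))) hz
      (mem_C1.2 (congrArg Subtype.val (mem_center_iff.1 zc ⟨b, bH⟩)))

end Cfsg.Agent.S4083
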