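import Cfsg.Statements.S4086
import Cfsg.Agent.H22.Misc2

set_option autoImplicit false
open Cfsg

namespace Cfsg.Agent.S4086

/-- For a finite group G the following are equivalent: every non-identity element has prime-power order; whenever two elements generate a cyclic subgroup, one of them is a power of the other (the enhanced power graph of G coincides with its power graph). -/
theorem result {G : Type*} [Group G] [Finite G] :
    (∀ g : G, g ≠ 1 → IsPrimePow (orderOf g)) ↔
    (∀ x y : G, IsCyclic ↥(Subgroup.closure ({x, y} : Set G)) → (x ∈ Subgroup.zpowers y ∨ y ∈ Subgroup.zpowers x)) := by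
  constructor
  · intro h x y hc
    obtain ⟨g, hg⟩ := (Subgroup.isCyclic_iff_exists_zpowers_eq_top _).mp hc
    have hx : x ∈ Subgroup.zpowers g := hg ▸ Subgroup.subset_closure (by simp)
    have hy : y ∈ Subgroup.zpowers g := hg ▸ Subgroup.subset_closure (by simp)
    by_cases hg1 : g = 1
    · subst hg1
      left
      rw [Subgroup.zpowers_one_eq_bot, Subgroup.mem_bot] at hx
      rw [hx]; exact Subgroup.one_mem _
    obtain ⟨p, k, hp, -, hk⟩ := (isPrimePow_nat_iff _).mp (h g hg1)
    obtain ⟨i, -, hi⟩ := (Nat.dvd_prime_pow hp).mp (hk ▸ orderOf_dvd_of_mem_zpowers hx)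
    obtain ⟨j, -, hj⟩ := (Nat.dvd_prime_pow hp).mp (hk ▸ orderOf_dvd_of_mem_zpowers hy)
    rcases le_total i j with hij | hij
    · exact Or.inl (H22.mem_zpowers_of_orderOf_dvd hx hy (hi ▸ hj ▸ pow_dvd_pow p hij))
    · exact Or.inr (H22.mem_zpowers_of_orderOf_dvd hy hx (hi ▸ hj ▸ pow_dvd_pow p hij))
  · intro h g hg
    rw [isPrimePow_iff_unique_prime_dvd]
    obtain ⟨p, hp, hd⟩ := Nat.exists_prime_and_dvd (mt orderOf_eq_one_iff.mp hg)
    refine ⟨p, ⟨hp, hd⟩, fun q ⟨hq, hqd⟩ => ?_⟩
    obtain ⟨x, hx, hxo⟩ := H1.exists_prime_orderOf_mem (H := Subgroup.zpowers g) hp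
      (by rwa [Nat.card_zpowers])
    obtain ⟨y, hy, hyo⟩ := H1.exists_prime_orderOf_mem (H := Subgroup.zpowers g) hq
      (by rwa [Nat.card_zpowers])
    rcases h x y (Subgroup.isCyclic_of_le (H' := Subgroup.zpowers g) (by
      rw [Subgroup.closure_le]
      rintro z (rfl | rfl)
      exacts [hx, hy])) with h1 | h1
    · exact ((Nat.prime_dvd_prime_iff_eq hp hq).mp
        (hxo ▸ hyo ▸ orderOf_dvd_of_mem_zpowers h1)).symm
    · exact (Nat.prime_dvd_prime_iff_eq hq hp).mp (hxo ▸ hyo ▸ orderOf_dvd_of_mem_zpowers h1)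

end Cfsg.Agent.S4086
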