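import Cfsg.Statements.S4087
import Cfsg.Agent.H13.CitJ

set_option autoImplicit false
open Cfsg

namespace Cfsg.Agent.S4087

/-- Let G be a finite group in which every non-identity element has prime-power order (its prime graph has no edges). Then the order of G has at most four distinct prime divisors; and if it has exactly four, then either G is isomorphic to PSL(3,4), or G has a normal 2-subgroup N with G/N isomorphic to the Suzuki group over the field with 8 or with 32 elements. -/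
theorem result {G : Type*} [Group G] [Finite G] (h : ∀ g : G, g ≠ 1 → IsPrimePow (orderOf g)) :
    (Nat.card G).primeFactors.card ≤ 4 ∧
    ((Nat.card G).primeFactors.card = 4 →
      (∃ (F : Type) (_ : Field F) (_ : Fintype F), Fintype.card F = 4 ∧
        Nonempty (G ≃* Matrix.ProjectiveSpecialLinearGroup (Fin 3) F)) ∨
      (∃ (N : Subgroup G) (_ : N.Normal), IsPGroup 2 ↥N ∧
        ∃ (F : Type) (_ : Field F) (_ : Fintype F),
          (Fintype.card F = 8 ∧ Nonempty (G ⧸ N ≃* ↥(Cfsg.Lie.Sz F 4))) ∨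
          (Fintype.card F = 32 ∧ Nonempty (G ⧸ N ≃* ↥(Cfsg.Lie.Sz F 8))))) := by
  by_cases hs : H18.Solv (⊤ : Subgroup G)
  · have := H13.eppo_two_primes h hs
    rw [Subgroup.card_top] at this
    exact ⟨by omega, by omega⟩
  have h' : ∀ n, Odd n → n ≠ 1 → H13.Sp G n → IsPrimePow n := fun n _ h1 hn => H13.eppo_sp h hn h1
  have hQ : H18.PiGrp {2} (pCore 2 G) := H18.pCore_eq (G := G) Nat.prime_two ▸ H18.pcore_pi
  have h'' : ∀ n, Odd n → n ≠ 1 → H13.Sp (G ⧸ pCore 2 G) n → IsPrimePow n := fun n ho h1 hn =>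
    h' n ho h1 ((H13.sp_quot _ hQ ho).2 hn)
  have pf := H13.primeFactors_quot _ hQ
  obtain (⟨F, _, _, ⟨k, hk, hF⟩, ⟨e⟩⟩ | ⟨F, _, _, m, hm, hF, ⟨e⟩⟩) | ⟨-, hf | hf | hf⟩ :=
    (H13.cit_of_eppo h).classify' hs (pCore 2 G) (H18.pCore_eq Nat.prime_two)
  · rw [Nat.card_congr e.toEquiv] at pf
    obtain rfl | rfl := H13.eppo_psl_even h'' hk hF e
    · rw [H13.card_psl 60 hF rfl] at pf
      rw [pf (by decide)]; simp [Nat.primeFactors, Nat.primeFactorsList_ofNat]
    · rw [H13.card_psl 504 hF rfl] at pf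
      rw [pf (by decide)]; simp [Nat.primeFactors, Nat.primeFactorsList_ofNat]
  · rw [Nat.card_congr e.toEquiv, H13.card_sz hm hF] at pf
    obtain rfl | rfl := H13.eppo_sz h'' hm hF e
    · refine ⟨?_, fun _ => Or.inr ⟨_, _, hQ.isPGroup, F, _, _, Or.inl ⟨hF, ⟨e⟩⟩⟩⟩
      rw [pf (by decide)]; simp [Nat.primeFactors, Nat.primeFactorsList_ofNat]
    · refine ⟨?_, fun _ => Or.inr ⟨_, _, hQ.isPGroup, F, _, _, Or.inr ⟨hF, ⟨e⟩⟩⟩⟩
      rw [pf (by decide)]; simp [Nat.primeFactors, Nat.primeFactorsList_ofNat]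
  · obtain ⟨F, _, _, hF | hF | hF, ⟨e⟩⟩ := hf.eppo h' <;> rw [Nat.card_congr e.toEquiv]
    · rw [H13.card_psl 168 hF rfl]; simp [Nat.primeFactors, Nat.primeFactorsList_ofNat]
    · rw [H13.card_psl 360 hF rfl]; simp [Nat.primeFactors, Nat.primeFactorsList_ofNat]
    · rw [H13.card_psl 2448 hF rfl]; simp [Nat.primeFactors, Nat.primeFactorsList_ofNat]
  · rw [hf.card]; simp [Nat.primeFactors, Nat.primeFactorsList_ofNat]
  · refine ⟨?_, fun _ => Or.inl hf⟩
    rw [hf.card]; simp [Nat.primeFactors, Nat.primeFactorsList_ofNat]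

end Cfsg.Agent.S4087
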