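import Cfsg.Statements.S4088
import Cfsg.Agent.H3.B4

set_option autoImplicit false
open Cfsg

namespace Cfsg.Agent.S4088

/-- Let G be a finite group, p a prime dividing the order of G, H a p-subgroup of G and P a Sylow p-subgroup of G. Call the subnormalizer of H the set of elements g of G such that H is subnormal in the subgroup generated by H and g. Then the number of elements of the subnormalizer of H equals the number of Sylow p-subgroups of G containing H times the order of N_G(P), and also equals the number of conjugates of H contained in P times the order of N_G(H). -/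
theorem result {G : Type*} [Group G] [Finite G] (p : ℕ) [Fact p.Prime]
    (hp : p ∣ Nat.card G) (H : Subgroup G) (hH : IsPGroup p H) (P : Sylow p G) :
    Nat.card {g : G // ((H).subgroupOf (H ⊔ Subgroup.zpowers g)).IsSubnormal} =
        Nat.card {Q : Sylow p G // H ≤ (Q : Subgroup G)} * Nat.card (Subgroup.normalizer ((P : Subgroup G) : Set G)) ∧
    Nat.card {g : G // ((H).subgroupOf (H ⊔ Subgroup.zpowers g)).IsSubnormal} =
        Nat.card {K : Subgroup G // K ≤ (P : Subgroup G) ∧ ∃ g : G, K = H.map (MulAut.conj g).toMonoidHom} *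
          Nat.card (Subgroup.normalizer (H : Set G)) := by
  open Subgroup H18 H3.Cas in
  classical
  have hp' : p.Prime := Fact.out
  have := Fintype.ofFinite G
  have := Fintype.ofFinite (Subgroup G)
  rw [card_subn hp' (piGrp_of_isPGroup hp' hH) (hall_sylow_top hp' P)]
  constructor
  · have e := card_cj_eq ⊤ (P : Subgroup G) fun K => H ≤ K
    simp only [mem_top, true_and, top_inf_eq] at e
    rw [aa, ← card_inv]
    refine Eq.trans (by convert e) ?_
    congr 1
    rw [← Fintype.card_subtype, ← Nat.card_eq_fintype_card]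
    have h0 : ∀ Q : Sylow p G, ∃ g, (Q : Subgroup G) = cj g P := fun Q => by
      obtain ⟨g, -, e⟩ := sylow_conj hp' (hall_sylow_top hp' P) (hall_sylow_top hp' Q)
      exact ⟨g, e⟩
    refine (Nat.card_congr (Equiv.ofBijective (β := {K : Subgroup G // H ≤ K ∧ ∃ g, K = cj g P})
      (fun Q : {Q : Sylow p G // H ≤ (Q : Subgroup G)} => ⟨Q.1, Q.2, h0 Q.1⟩) ⟨fun a b e => Subtype.ext (Sylow.ext
      (congrArg Subtype.val e)), fun ⟨K, h1, g, h2⟩ => ?_⟩)).symm
    · obtain ⟨Q, hQ⟩ := ((hall_sylow_top hp' P).cj_top g).exists_sylow_top hp'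
      exact ⟨⟨Q, by rw [hQ, ← h2]; exact h1⟩, Subtype.ext (hQ.trans h2.symm)⟩
  · have e := card_cj_eq ⊤ H fun K => K ≤ P
    simp only [mem_top, true_and, top_inf_eq] at e
    rw [aa]
    refine Eq.trans (by convert e) ?_
    congr 1
    rw [← Fintype.card_subtype, ← Nat.card_eq_fintype_card]
    rfl

end Cfsg.Agent.S4088
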