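import Cfsg.Statements.S4089
import Cfsg.Agent.H1.Harv4
import Cfsg.Agent.H17.Syl

set_option autoImplicit false
open Cfsg

namespace Cfsg.Agent.S4089

open H18 Subgroup H1
open scoped commutatorElement

/-- Let G be a finite group, p a prime and H a p-subgroup of G. Then the set of elements g of G such that H is subnormal in the subgroup generated by H and g is the union of the normalizers N_G(R) over the subgroups R of G containing H with R = O_p(N_G(R)); and this set does not change when H is replaced by the intersection of all Sylow p-subgroups of G containing H. -/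
theorem result {G : Type*} [Group G] [Finite G] (p : ℕ) [Fact p.Prime]
    (H : Subgroup G) (hH : IsPGroup p H) :
    {g : G | ((H).subgroupOf (H ⊔ Subgroup.zpowers g)).IsSubnormal} =
      {g : G | ∃ R : Subgroup G, H ≤ R ∧ (Cfsg.pCore p (Subgroup.normalizer (R : Set G))).map (Subgroup.normalizer (R : Set G)).subtype = R ∧ g ∈ Subgroup.normalizer (R : Set G)} ∧
    ∀ g : G, (((H).subgroupOf (H ⊔ Subgroup.zpowers g)).IsSubnormal ↔
      (((sInf {K : Subgroup G | ∃ Q : Sylow p G, H ≤ (Q : Subgroup G) ∧ K = (Q : Subgroup G)})).subgroupOf ((sInf {K : Subgroup G | ∃ Q : Sylow p G, H ≤ (Q : Subgroup G) ∧ K = (Q : Subgroup G)}) ⊔ Subgroup.zpowers g)).IsSubnormal) := by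
  have hp : p.Prime := Fact.out
  have key : ∀ H : Subgroup G, IsPGroup p H → ∀ g : G, (H.subgroupOf (H ⊔ zpowers g)).IsSubnormal ↔
      ∃ R : Subgroup G, H ≤ R ∧ O[{p}](N(R)) = R ∧ g ∈ N(R) := fun H hH g => by
    refine ⟨fun h => ?_, fun ⟨R, a, b, c⟩ => ?_⟩
    · have a : H ≤ O[{p}](H ⊔ zpowers g) := pCore_map (H := H ⊔ zpowers g) hp ▸ (H17.subn_iff.2 ⟨le_sup_left, h⟩).le_oP hH
      obtain ⟨R, b, ⟨c, d⟩, e⟩ := exists_maximal_sub (fun R => PiGrp {p} R ∧ g ∈ N(R))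
        ⟨pcore_pi, (pcore_nml (H := H ⊔ zpowers g)).norm (mem_sup_right (mem_zpowers g))⟩
      exact ⟨R, a.trans b, e _ ⟨pcore_pi, pcore_nml.norm d⟩ (le_pcore nml_N c), d⟩
    · have n : R ⊓ (H ⊔ zpowers g) ⊴ H ⊔ zpowers g := nml_inf_of_norm' (sup_le (le_norm a) (zpowers_le.2 c))
      exact (H17.subn_iff.1 ((H17.Subn.of_normal n.le n.norm).trans (H17.subn_of_nilpotent
        (PiGrp.inf_left (b ▸ pcore_pi : PiGrp {p} R)).nil H (le_inf a le_sup_left)))).2
  refine ⟨Set.ext fun g => (key H hH g).trans (by simp only [pCore_map hp]; rfl), fun g => ?_⟩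
  set D := sInf {K : Subgroup G | ∃ Q : Sylow p G, H ≤ (Q : Subgroup G) ∧ K = (Q : Subgroup G)}
  obtain ⟨Q, hQ⟩ := hH.exists_le_sylow
  rw [key H hH, key D (Q.2.to_le (sInf_le ⟨Q, hQ, rfl⟩))]
  refine exists_congr fun R => and_congr_left fun ⟨b, _⟩ =>
    ⟨fun a => ?_, (le_sInf (by rintro _ ⟨Q, a, rfl⟩; exact a)).trans⟩
  have r : PiGrp {p} R := b ▸ pcore_pi
  set E := sInf {K : Subgroup G | Hall {p} K ⊤ ∧ R ≤ K}
  have e : R ≤ E := le_sInf fun _ h => h.2
  obtain ⟨S, s1, s2⟩ := exists_sylow_le hp r le_top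
  have e1 : PiGrp {p} E := s1.pi.of_le (sInf_le ⟨s1, s2⟩)
  have n : N(R) ≤ N(E) := norm_iff.2 fun x hx y hy => mem_sInf.2 fun K hK => by
    simpa [mul_assoc] using mem_cj.1 (mem_sInf.1 hy (cj x⁻¹ K) ⟨hK.1.cj_top _, le_cj_iff.2 (by
      rw [inv_inv, cj_eq_self hx]; exact hK.2)⟩)
  rw [e1.nil.eq_of_norm_le e ((le_pcore (nml_inf_of_norm' n) e1.inf_left).trans b.le)]
  refine le_sInf fun K hK => ?_
  obtain ⟨T, rfl⟩ := hK.1.exists_sylow_top hp
  exact sInf_le ⟨T, a.trans hK.2, rfl⟩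

end Cfsg.Agent.S4089
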