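import Cfsg.Statements.S4092
import Cfsg.Agent.H22.Misc2
import Cfsg.Agent.H22.Frobenius

set_option autoImplicit false
open Cfsg

namespace Cfsg.Agent.S4092

/-- Let G be a finite group, p a prime and P a Sylow p-subgroup of G that is not normal in G. Then G has at least p·#P elements of p-power order (the identity included). -/
theorem result {G : Type*} [Group G] [Finite G] (p : ℕ) [Fact p.Prime]
    (P : Sylow p G) (hP : ¬ (P : Subgroup G).Normal) :
    p * Nat.card (P : Subgroup G) ≤ Nat.card {g : G // ∃ k : ℕ, orderOf g = p ^ k} := by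
  have hp : p.Prime := Fact.out
  set S : Set G := {g : G | ∃ k : ℕ, orderOf g = p ^ k} with hS
  show _ ≤ S.ncard
  obtain ⟨a, ha⟩ := IsPGroup.iff_card.mp P.isPGroup'
  have h1 : Nat.card (P : Subgroup G) ∣ S.ncard := by
    have h := H22.frobenius_dvd_card_pow_eq_one (Subgroup.card_subgroup_dvd_card (P : Subgroup G))
    have : S = {x : G | x ^ Nat.card (P : Subgroup G) = 1} := by
      ext x
      constructor
      · intro hx
        obtain ⟨g, hg⟩ := H22.exists_conj_mem_sylow P hx
        show x ^ _ = 1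
        rw [← orderOf_dvd_iff_pow_eq_one, ← H22.orderOf_conj g]
        exact Subgroup.orderOf_dvd_natCard _ hg
      · intro hx
        have hx : x ^ Nat.card (P : Subgroup G) = 1 := hx
        rw [← orderOf_dvd_iff_pow_eq_one, ha] at hx
        obtain ⟨k, -, hk⟩ := (Nat.dvd_prime_pow hp).mp hx
        exact ⟨k, hk⟩
    rw [this]; exact h
  have h2 : p - 1 ∣ (S \ {1}).ncard := by
    refine H22.dvd_ncard_of_totient _ _ (fun b hb x hx => ?_) (fun b hb => ?_)
    · have := H22.orderOf_eq_of_zpowers_eq hx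
      refine ⟨by show ∃ k, _; rw [this]; exact hb.1, fun h => hb.2 ?_⟩
      rw [Set.mem_singleton_iff, ← orderOf_eq_one_iff] at h ⊢
      rw [← this, h]
    · obtain ⟨⟨k, hk⟩, hb1⟩ := hb
      have hk0 : 0 < k := Nat.pos_of_ne_zero (by
        rintro rfl
        exact hb1 (orderOf_eq_one_iff.mp hk))
      rw [hk, Nat.totient_prime_pow hp hk0]
      exact dvd_mul_left _ _
  have h3 : (S \ {1}).ncard + 1 = S.ncard :=
    Set.ncard_diff_singleton_add_one (⟨0, by simp⟩ : (1 : G) ∈ S)
  have h4 : Nat.card (P : Subgroup G) < S.ncard := by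
    refine Set.ncard_lt_ncard (s := ((P : Subgroup G) : Set G)) (t := S) ⟨fun x hx =>
      H22.orderOf_eq_pow_of_mem P.isPGroup' hx, fun h => hP ?_⟩
    exact H22.sylow_normal_of_forall_mem P fun x hx => h hx
  obtain ⟨k, hk⟩ := h1
  rw [hk, mul_comm]
  refine Nat.mul_le_mul_left _ ?_
  have hk1 : 1 < k := by
    rw [hk] at h4
    exact (Nat.lt_mul_iff_one_lt_right Nat.card_pos).mp h4
  have h5 : p ^ a ≡ 1 [MOD p - 1] := by
    have : p ≡ 1 [MOD p - 1] := ((Nat.modEq_iff_dvd' hp.one_le).mpr dvd_rfl).symm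
    simpa using this.pow a
  have h6 : S.ncard ≡ 1 [MOD p - 1] := by
    rw [← h3]
    simpa using ((Nat.modEq_zero_iff_dvd.mpr h2).add_right 1)
  rw [hk, ha] at h6
  have h7 : 1 ≡ k [MOD p - 1] := by simpa using h6.symm.trans (h5.mul_right k)
  have h8 := Nat.le_of_dvd (by omega) ((Nat.modEq_iff_dvd' hk1.le).mp h7)
  omega

end Cfsg.Agent.S4092
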