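import Cfsg.Statements.S4093
import Cfsg.Agent.H22.Misc2

set_option autoImplicit false
open scoped BigOperators
open Cfsg

namespace Cfsg.Agent.S4093

/-- Let G be a finite group with a normal subgroup N complementing a Sylow p-subgroup P (a normal p-complement). Then the number of elements of G of p-power order equals the sum over x ∈ P of the index of C_N(x) in N. -/
theorem result {G : Type*} [Group G] [Finite G] (p : ℕ) [Fact p.Prime]
    (P : Sylow p G) (N : Subgroup G) [N.Normal] (hNP : N.IsComplement' (P : Subgroup G)) :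
    Nat.card {g : G // ∃ k : ℕ, orderOf g = p ^ k} =
      ∑ᶠ x : (P : Subgroup G), Nat.card N / Nat.card ↥(N ⊓ Subgroup.centralizer ({(x : G)} : Set G)) := by
  have hp : p.Prime := Fact.out
  obtain ⟨h1, h2⟩ := H1.isComplement'_iff_of_normal.mp hNP
  have hco : (Nat.card N).Coprime (Nat.card (P : Subgroup G)) := by
    rw [← hNP.index_eq_card]; exact P.card_coprime_index.symm
  have hone : ∀ x ∈ N, x ∈ (P : Subgroup G) → x = 1 := fun x hx hx' =>
    Subgroup.mem_bot.mp (h1 ▸ Subgroup.mem_inf.mpr ⟨hx, hx'⟩)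
  have key : ∀ n ∈ N, ∀ m ∈ N, ∀ x ∈ (P : Subgroup G), ∀ y ∈ (P : Subgroup G),
      n * (m * x) * n⁻¹ = y → x = y := by
    intro n hn m hm x hx y hy h
    have h3 : y * x⁻¹ = 1 := by
      refine hone _ ?_ (Subgroup.mul_mem _ hy (Subgroup.inv_mem _ hx))
      rw [← h]
      have := N.mul_mem (N.mul_mem hn hm) (‹N.Normal›.conj_mem _ (N.inv_mem hn) x)
      simpa [mul_assoc] using this
    exact (mul_inv_eq_one.mp h3).symm
  have h3 : {g : G | ∃ k : ℕ, orderOf g = p ^ k} =
      ⋃ x : (P : Subgroup G), {y | ∃ n ∈ N, n * (x : G) * n⁻¹ = y} := by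
    ext g
    rw [Set.mem_iUnion]
    constructor
    · rintro ⟨k, hk⟩
      obtain ⟨a, ha⟩ := IsPGroup.iff_card.mp P.isPGroup'
      obtain ⟨n, hn, h⟩ := H1.exists_conj_le_of_le_sup N (Subgroup.zpowers g) (P : Subgroup G)
        Subgroup.le_normalizer_of_normal (by
          rw [Nat.card_zpowers, hk]
          refine ((Nat.Prime.coprime_iff_not_dvd hp).mpr ?_).symm.pow_right _
          rw [← hNP.index_eq_card]; exact P.not_dvd_index)
        (Or.inr (H1.isSolvable_of_isMulCommutative _)) (h2 ▸ le_top)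
      exact ⟨⟨_, h (H1.conj_mem_conj_smul (Subgroup.mem_zpowers g))⟩, n⁻¹, N.inv_mem hn, by group⟩
    · rintro ⟨x, n, -, rfl⟩
      show ∃ k, _
      rw [H22.orderOf_conj]
      exact H22.orderOf_eq_pow_of_mem P.isPGroup' x.2
  show {g : G | ∃ k : ℕ, orderOf g = p ^ k}.ncard = _
  rw [h3, Set.ncard_iUnion_of_finite (fun _ => Set.toFinite _)]
  · refine finsum_congr fun x => ?_
    rw [H22.ncard_conj_by_subgroup, inf_comm, ← H1.card_inf_mul_relIndex
      (Subgroup.centralizer ({(x : G)} : Set G)) N, Nat.mul_div_cancel_left _ Nat.card_pos]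
  · intro x y hxy
    rw [Function.onFun, Set.disjoint_left]
    rintro _ ⟨n, hn, rfl⟩ ⟨m, hm, h⟩
    refine hxy (Subtype.ext (key (m⁻¹ * n) (N.mul_mem (N.inv_mem hm) hn) 1 N.one_mem x x.2 y y.2 ?_))
    calc m⁻¹ * n * (1 * x) * (m⁻¹ * n)⁻¹ = m⁻¹ * (n * x * n⁻¹) * m := by group
      _ = y := by rw [← h]; group

end Cfsg.Agent.S4093
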