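import Cfsg.Statements.S4097
import Mathlib
import Cfsg.Agent.S0042
import Cfsg.Agent.S0034

set_option autoImplicit false
open Cfsg

namespace Cfsg.Agent.S4097
open Subgroup
open scoped Pointwise
universe u

def Hyp {G : Type*} [Group G] (A : Subgroup G) : Prop :=
  Group.IsSolvable A ∧ ∀ S : Subgroup G, A ≤ S → Group.IsSolvable S → ∀ a ∈ A, ∀ s ∈ S, a * s = s * a

theorem solv_comap {G Q : Type*} [Group G] [Group Q] (f : G →* Q) (hk : Group.IsSolvable f.ker) {T : Subgroup Q}
    (hT : Group.IsSolvable T) : Group.IsSolvable (T.comap f) :=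
  Group.isSolvable_of_ker_le_range (inclusion (ker_le_comap f T)) (f.subgroupComap T) fun x hx =>
    ⟨⟨x.1, congrArg Subtype.val hx⟩, rfl⟩

theorem Hyp.map {G Q : Type*} [Group G] [Group Q] {A : Subgroup G} (h : Hyp A) (f : G →* Q) (hf : Function.Surjective f)
    (hk : Group.IsSolvable f.ker) : Hyp (A.map f) := by
  haveI := h.1
  refine ⟨Group.isSolvable_of_surjective (f.subgroupMap_surjective A), fun S a b => ?_⟩
  rintro _ ⟨x, hx, rfl⟩ s hs
  obtain ⟨s, rfl⟩ := hf s
  rw [← map_mul, h.2 (S.comap f) (map_le_iff_le_comap.1 a) (solv_comap f hk b) x hx s hs, map_mul]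

theorem Hyp.sub {G : Type*} [Group G] {A H : Subgroup G} (h : Hyp A) (hH : A ≤ H) : Hyp (A.subgroupOf H) := by
  haveI := h.1
  refine ⟨Group.isSolvable_of_surjective (f := (subgroupOfEquivOfLe hH).symm.toMonoidHom) (MulEquiv.surjective _),
    fun S a b x hx s hs => Subtype.ext (h.2 (S.map H.subtype) (fun y hy => ⟨⟨y, hH hy⟩, a hy, rfl⟩)
      (Group.isSolvable_of_surjective (H.subtype.subgroupMap_surjective S)) x hx s ⟨s, hs, rfl⟩)⟩

theorem aux (n : ℕ) : ∀ (G : Type u) [Group G] [Finite G], Nat.card G = n → ∀ A : Subgroup G, Hyp A → A ≤ center G := by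
  refine Nat.strong_induction_on n fun n ih G _ _ hn A hA => ?_
  have sub : ∀ H B : Subgroup G, H ≠ ⊤ → Hyp B → B ≤ H → H ≤ centralizer (B : Set G) := fun H B h hB le x hx b hb =>
    congrArg Subtype.val (mem_center_iff.1 (ih _ (hn ▸ (Nat.lt_of_le_of_ne H.card_le_card_group
      fun e => h (eq_top_of_card_eq H e))) H rfl _ (hB.sub le) (show (⟨b, le hb⟩ : H) ∈ _ from hb)) ⟨x, hx⟩).symm
  by_cases hN : ∃ N : Subgroup G, N.Normal ∧ N ≠ ⊥ ∧ Group.IsSolvable N
  · obtain ⟨N, _, h0, hs⟩ := hN
    have hk : Group.IsSolvable (QuotientGroup.mk' N).ker := by rwa [QuotientGroup.ker_mk']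
    have := ih _ (by
      rw [← hn, card_eq_card_quotient_mul_card_subgroup N]
      exact lt_mul_of_one_lt_right Nat.card_pos (N.one_lt_card_iff_ne_bot.2 h0)) (G ⧸ N) rfl _
      (hA.map _ (QuotientGroup.mk'_surjective N) hk)
    refine fun a ha => mem_center_iff.2 fun g => (hA.2 ((centralizer (centralizer {QuotientGroup.mk' N g} : Subgroup (G ⧸ N))).comap
      (QuotientGroup.mk' N)) (fun x hx y _ => mem_center_iff.1 (this ⟨x, hx, rfl⟩) y)
      (solv_comap _ hk (Group.isSolvable_of_comm fun x y => Subtype.ext (y.2 x.1 ?_))) a ha g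
      fun y hy => mem_centralizer_singleton_iff.1 hy).symm
    exact mem_centralizer_singleton_iff.2 (x.2 _ (mem_centralizer_singleton_iff.2 rfl)).symm
  push Not at hN
  by_contra hc
  have AC : A ≤ centralizer (A : Set G) := fun x hx y hy => hA.2 A le_rfl hA.1 y hy x hx
  have A0 : A ≠ ⊥ := fun e => hc (e ▸ bot_le)
  have CT : centralizer (A : Set G) ≠ ⊤ := fun e => hc fun a ha => mem_center_iff.2 fun g =>
    ((e ▸ mem_top g : g ∈ centralizer (A : Set G)) a ha).symm
  have fr : IsFrobeniusComplement (centralizer (A : Set G)) := by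
    refine ⟨fun e => A0 (eq_bot_iff.2 (e ▸ AC)), CT, fun g hg => eq_bot_iff.2 fun y hy => by_contra fun y1 => hg ?_⟩
    have hB := hA.map (MulAut.conj g).toMonoidHom (MulAut.conj g).surjective (by
      rw [(MonoidHom.ker_eq_bot_iff _).2 (MulAut.conj g).injective]; infer_instance)
    have yT : centralizer ({y} : Set G) ≠ ⊤ := fun e => hN (center G) inferInstance (fun e' => y1 (e' ▸ mem_center_iff.2
      fun x => mem_centralizer_singleton_iff.1 (e ▸ mem_top x))) (Group.isSolvable_of_comm fun x y => Subtype.ext (mem_center_iff.1 y.2 x.1))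
    have h1 := sub _ _ yT hA fun a ha => mem_centralizer_singleton_iff.2 (hy.1 a ha)
    have h2 := sub _ _ CT hB (le_trans (by
      rintro _ ⟨a, ha, rfl⟩
      obtain ⟨c, hc, e⟩ := hy.2
      rw [mem_centralizer_singleton_iff, ← e]
      change MulAut.conj g a * MulAut.conj g c = MulAut.conj g c * MulAut.conj g a
      rw [← map_mul, hc a ha, map_mul]) h1)
    have h3 : g⁻¹ ∈ normalizer (centralizer (A : Set G) : Set G) := mem_normalizer_fintype fun c hc a ha => by
      have := h2 hc _ ⟨a, ha, rfl⟩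
      simp only [MulEquiv.coe_toMonoidHom, MulAut.conj_apply] at this
      calc a * (g⁻¹ * c * g⁻¹⁻¹) = g⁻¹ * (g * a * g⁻¹ * c) * g := by group
        _ = _ := by rw [this]; group
    by_cases hn : normalizer (centralizer (A : Set G) : Set G) = ⊤
    · haveI := normalizer_eq_top_iff.1 hn
      refine absurd (Group.isSolvable_of_comm fun x y => Subtype.ext (y.2.2 x.1 x.2.1)) (hN (centralizer (A : Set G) ⊓
        centralizer (centralizer (A : Set G) : Set G)) inferInstance fun e => A0 (eq_bot_iff.2 (e ▸ le_inf AC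
          fun a ha c hc => (hc a ha).symm)))
    · exact (inv_mem_iff (H := centralizer (A : Set G))).1 (sub _ _ hn hA (AC.trans le_normalizer) h3)
  obtain ⟨K, e, hK, nil⟩ := S0042.result _ fr
  refine hN K hK (fun e' => CT (index_eq_one.1 ?_)) inferInstance
  rw [← (S0034.result _ fr).1, ← e, e']; simp

/-- Let A be a solvable subgroup of a finite group G such that A lies in the centre of every solvable subgroup of G containing A. Then A lies in the centre of G. -/
theorem result {G : Type*} [Group G] [Finite G]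
    (A : Subgroup G) (hA : Group.IsSolvable A)
    (hc : ∀ S : Subgroup G, A ≤ S → Group.IsSolvable S → ∀ a ∈ A, ∀ s ∈ S, a * s = s * a) : A ≤ Subgroup.center G := by
  exact aux _ G rfl A ⟨hA, hc⟩

end Cfsg.Agent.S4097
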