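import Cfsg.Statements.S4107
import Cfsg.Agent.H18.BG1

set_option autoImplicit false
open Cfsg

namespace Cfsg.Agent.S4107
open H18 Subgroup

/-- Let G be a finite group and N a proper non-trivial normal subgroup such that for every x outside N all elements of the coset xN have the same order as x. Then N ≤ F(G) or F(G) ≤ N, where F(G) is the Fitting subgroup; and if N is properly contained in F(G) then F(G) has prime-power order. -/
theorem result {G : Type*} [Group G] [Finite G] (N : Subgroup G) [N.Normal] (hN1 : N ≠ ⊥) (hN2 : N ≠ ⊤)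
    (heq : ∀ x : G, x ∉ N → ∀ n ∈ N, orderOf (x * n) = orderOf x) :
    (N ≤ Cfsg.fittingSubgroup G ∨ Cfsg.fittingSubgroup G ≤ N) ∧
    (N < Cfsg.fittingSubgroup G → IsPrimePow (Nat.card (Cfsg.fittingSubgroup G))) := by
  have key : ∀ p, ¬ O[{p}]((⊤ : Subgroup G)) ≤ N → PiGrp {p} N := by
    intro p hp
    obtain ⟨x, hx, hxN⟩ := SetLike.not_le_iff_exists.1 hp
    have hO : O[{p}]((⊤ : Subgroup G)) ⊴ ⊤ := pcore_nml
    refine piGrp_of_quo (K := O[{p}]((⊤ : Subgroup G))) (le_top.trans hO.norm) (piGrp_of_elt fun z hz => ?_) pcore_pi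
    obtain ⟨n, hn, rfl⟩ := (mem_quo (le_top.trans hO.norm)).1 hz
    have h1 : PiElt {p} (x * n) := by
      rw [PiElt, heq x hxN n hn]; exact pcore_pi.elt hx
    have h2 := h1.mfun (f := coset O[{p}]((⊤ : Subgroup G))) (hO.norm trivial)
    rwa [mfun_mul (hO.norm trivial) (hO.norm trivial), cs_eq_one hx, one_mul] at h2
  rw [← fit_top]
  have key2 : ¬ F((⊤ : Subgroup G)) ≤ N → ∃ p, p.Prime ∧ PiGrp {p} N := by
    intro h
    by_contra hc
    push Not at hc
    exact h (fit_le_of_pcores fun p hp _ => by_contra fun h' => hc p hp (key p h'))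
  refine ⟨?_, fun h => ?_⟩
  · by_cases h : F((⊤ : Subgroup G)) ≤ N
    · exact Or.inr h
    · obtain ⟨p, -, hp⟩ := key2 h
      exact Or.inl (le_fit nml_top hp.nil)
  · obtain ⟨p, hp, hN⟩ := key2 h.not_ge
    have hF : PiGrp {p} F((⊤ : Subgroup G)) := by
      refine (pcore_pi (π := {p}) (H := ⊤)).of_le (fit_le_of_pcores fun q hq _ => ?_)
      by_cases e : q = p
      · rw [e]
      · by_cases h' : O[{q}]((⊤ : Subgroup G)) ≤ N
        · exact h'.trans (le_pcore nml_top hN)
        · exact absurd (hN.eq_bot ((key q h').p'_of_ne e)) hN1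
    obtain ⟨k, hk⟩ := hF.card_eq_pow
    refine ⟨p, k, hp.prime, Nat.pos_of_ne_zero ?_, hk.symm⟩
    rintro rfl
    exact (one_lt_card (ne_bot_of_gt h)).ne' (by simpa using hk)

end Cfsg.Agent.S4107
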