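import Cfsg.Statements.S4108
import Cfsg.Agent.H22.Misc2

set_option autoImplicit false
open Cfsg

namespace Cfsg.Agent.S4108

/-- Let G be a finite group, p a prime and N a proper non-trivial normal p-subgroup such that for every x outside N all elements of the coset xN have the same order as x. Then every non-trivial subgroup H of G of order prime to p acts fixed-point-freely on N: NH is a Frobenius group with complement H and kernel N. -/
theorem result {G : Type*} [Group G] [Finite G] (N : Subgroup G) [N.Normal] (hN1 : N ≠ ⊥) (hN2 : N ≠ ⊤)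
    (heq : ∀ x : G, x ∉ N → ∀ n ∈ N, orderOf (x * n) = orderOf x)
    (p : ℕ) [Fact p.Prime] (hNp : IsPGroup p N) :
    ∀ H : Subgroup G, H ≠ ⊥ → (Nat.card H).Coprime p →
      Cfsg.IsFrobeniusComplement (H.subgroupOf (N ⊔ H)) ∧ Cfsg.frobeniusKernel (H.subgroupOf (N ⊔ H)) = (N.subgroupOf (N ⊔ H) : Set ↥(N ⊔ H)) := by
  intro H hH hc
  obtain ⟨a, ha⟩ := IsPGroup.iff_card.mp hNp
  have hco : (Nat.card N).Coprime (Nat.card H) := ha ▸ hc.symm.pow_left a
  have h1 : N ⊓ H = ⊥ := Subgroup.inf_eq_bot_of_coprime hco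
  refine H22.frobenius_of_fpf (N.subgroupOf (N ⊔ H)) (H.subgroupOf (N ⊔ H)) ?_ ?_ ?_ ?_ ?_
  · rw [Subgroup.subgroupOf, Subgroup.subgroupOf, ← Subgroup.comap_inf, h1]
    exact Subgroup.bot_subgroupOf _
  · rw [← Subgroup.subgroupOf_sup le_sup_left le_sup_right, Subgroup.subgroupOf_self]
  · rw [Ne, Subgroup.subgroupOf_eq_bot, disjoint_iff, inf_eq_left.mpr le_sup_left]; exact hN1
  · rw [Ne, Subgroup.subgroupOf_eq_bot, disjoint_iff, inf_eq_left.mpr le_sup_right]; exact hH
  · intro h hh hh1 k hk hhk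
    have hcomm : Commute (h : G) (k : G) := congrArg Subtype.val hhk
    have hhN : (h : G) ∉ N := fun hN => hh1 (Subtype.ext
      (Subgroup.mem_bot.mp (h1 ▸ Subgroup.mem_inf.mpr ⟨hN, hh⟩)))
    have h2 := heq h hhN k hk
    rw [hcomm.orderOf_mul_eq_mul_orderOf_of_coprime
      ((hco.symm.coprime_dvd_left (Subgroup.orderOf_dvd_natCard H hh)).coprime_dvd_right
        (Subgroup.orderOf_dvd_natCard N hk)), mul_right_eq_self₀] at h2
    exact Subtype.ext (orderOf_eq_one_iff.mp (h2.resolve_right (orderOf_pos _).ne'))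

end Cfsg.Agent.S4108
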