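import Cfsg.Statements.S4115
import Cfsg.Agent.H1.Harv3
import Cfsg.Agent.H21.FrobB

set_option autoImplicit false
universe u
open Cfsg

namespace Cfsg.Agent.S4115

open H18 Subgroup H1
open scoped commutatorElement

/-- Let G be a finite group and H a subgroup that meets each of its conjugates by elements outside N_G(H) trivially and whose order is coprime to its index in N_G(H). Then H has a normal complement in N_G(H) if and only if H has a normal complement in G. Moreover, if H is not normal in G and has a normal complement in N_G(H), then H is isomorphic to a Frobenius complement of some finite Frobenius group. -/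
theorem result {G : Type u} [Group G] [Finite G] (H : Subgroup G)
    (hTI : Cfsg.IsTISubset (H : Set G)) (hHall : (Nat.card H).Coprime (H.subgroupOf (Subgroup.normalizer (H : Set G))).index) :
    ((∃ K : Subgroup (Subgroup.normalizer (H : Set G)), K.Normal ∧ K.IsComplement' (H.subgroupOf (Subgroup.normalizer (H : Set G)))) ↔
      (∃ N : Subgroup G, N.Normal ∧ N.IsComplement' H)) ∧
    (¬ H.Normal → (∃ K : Subgroup (Subgroup.normalizer (H : Set G)), K.Normal ∧ K.IsComplement' (H.subgroupOf (Subgroup.normalizer (H : Set G)))) →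
      ∃ (F : Type u) (_ : Group F) (_ : Finite F) (C : Subgroup F), Cfsg.IsFrobeniusComplement C ∧ Nonempty (H ≃* C)) := by
  have hH : Hall (primes (Nat.card H)) H N(H) := hall_primes le_N hHall
  have key : (∃ K : Subgroup N(H), K.Normal ∧ K.IsComplement' (H.subgroupOf N(H))) → ∃ M, SD M H ⊤ := fun ⟨K, _, h⟩ => by
    have s := sd_of_isComplement_subgroupOf le_N h
    have k := s.hall_of_compl (π := (primes (Nat.card H))ᶜ) (by rwa [compl_compl])
    obtain ⟨M, a, -, b, c⟩ := H5.frobenius_wielandt N(H) _ s.le_left (norm_iff.1 s.nml.norm) fun g hg x hx h =>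
      k.mem_of_nml s.nml.norm hx (piPart_eq_one_iff.1 (hTI g hg _ (hH.mem_of_nml le_rfl (piPart_mem hx) piElt_piPart)
        (hH.mem_of_nml le_rfl (piPart_conj (π := primes (Nat.card H)) (g := g) (x := x) ▸ piPart_mem h)
          (piElt_piPart.conj g))))
    exact ⟨M, norm_of_normal, by rw [← inf_eq_right.2 (le_N (H := H)), ← inf_assoc, b, s.inf], eq_top_iff.2 (c.ge.trans
      (sup_le le_sup_left (s.sup.ge.trans (sup_le_sup_right (b.ge.trans inf_le_left) _))))⟩
  refine ⟨⟨fun h => (key h).imp fun M a => ⟨a.nml.normal, a.isComplement'⟩, fun ⟨M, _, h⟩ =>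
    have s := (sd_of_isComplement' h).inf_left le_N le_top
    ⟨_, s.nml.subgroupOf_normal, s.isComplement_subgroupOf⟩⟩, fun hn h => ?_⟩
  obtain ⟨M, s⟩ := key h
  have c : Cop H M := cop_of_coprime s.norm (s.relIndex' ▸ (ti_hall hTI hH).coprime)
  obtain ⟨q, hq, Q, a, b, d⟩ : ∃ q, q.Prime ∧ ∃ Q, Hall {q} Q M ∧ H ≤ N(Q) ∧ ¬ Q ≤ C(H) := by
    by_contra! e
    refine hn (Nml.normal ⟨le_top, s.sup.ge.trans (sup_le (cent_norm (le_of_sylows fun q hq _ => ?_)) le_N)⟩)
    exact (c.exists_sylow hq).imp fun Q d => ⟨d.1, e q hq Q d.1 d.2⟩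
  have c1 := (c.sub a.le b).comm
  have e := (c.sub a.le b).comm_comm
  set V := ⁅Q, H⁆
  have v : V ≤ Q := comm_le_left b
  have n : H ≤ N(⁅V, V⁆) := norm_der c1.1
  have i : H ⊓ ⁅V, V⁆ = ⊥ := eq_bot_iff.2 ((inf_le_inf_left _ der_le).trans c1.inf_eq_bot.le)
  have f := frob_of_semireg (K := V ⫽ ⁅V, V⁆) (H := H ⫽ ⁅V, V⁆) (mim_norm c1.1) (fun y hy y1 => by
    obtain ⟨x, hx, rfl⟩ := (mem_quo n).1 hy
    have z := zpowers_le.2 hx
    rw [← C_zpowers, ← mim_zpowers (n hx)]
    refine (c1.left z).quo_cent_eq_bot (z.trans n) nml_der.norm (le_trans (le_inf inf_le_left ?_) (c1.cent_le_of_comm_eq e))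
    refine le_trans (fun g hg => ?_) (c1.inf_N.le.trans inf_le_right)
    refine ⟨hg.1, by_contra fun j => y1 ?_⟩
    rw [hTI g j x hx (by rw [conj_eq_self_of_C1 (C_zpowers.le hg.2)]; exact hx), mfun_one])
    (fun j => ((a.pi.of_le v).solv.der_lt (mt comm_eq_bot_iff.1 d)).not_ge ((quo_eq_bot_iff nml_der.norm).1 j))
    (fun j => hn (by rw [← inf_eq_left.2 ((quo_eq_bot_iff n).1 j), i]; infer_instance))
  exact ⟨_, _, inferInstance, _, (H21.isFrobeniusComplement_subgroupOf f).1,
    ⟨(mimEquiv _ H n (by rw [mker_coset, i])).trans (subgroupOfEquivOfLe le_sup_right).symm⟩⟩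

end Cfsg.Agent.S4115
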