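import Cfsg.Statements.S4117
import Cfsg.Agent.H1.Harv3

set_option autoImplicit false
open Cfsg

namespace Cfsg.Agent.S4117

open H18 Subgroup H1
open scoped commutatorElement

/-- Let A be a finite group acting on the finite group G by automorphisms with the orders of A and G coprime, and suppose every Sylow subgroup of G is cyclic. Then the fixed-point subgroup C_G(A) is a Hall subgroup of G (its order is coprime to its index), the subgroup [G, A] generated by the elements g⁻¹·a(g) is cyclic and normal with [G, A] ∩ C_G(A) = 1 and [G, A]·C_G(A) = G. -/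
theorem result {G A : Type*} [Group G] [Finite G] [Group A] [Finite A]
    [MulDistribMulAction A G] (hcop : (Nat.card A).Coprime (Nat.card G))
    (hcyc : ∀ (p : ℕ) [Fact p.Prime] (P : Sylow p G), IsCyclic (P : Subgroup G)) :
    (Nat.card (MulAction.fixedPoints A G : Set G)).Coprime (Nat.card G / Nat.card (MulAction.fixedPoints A G : Set G)) ∧
    IsCyclic (Subgroup.closure {y : G | ∃ (a : A) (g : G), y = g⁻¹ * a • g}) ∧
    (Subgroup.closure {y : G | ∃ (a : A) (g : G), y = g⁻¹ * a • g}).Normal ∧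
    (Subgroup.closure {y : G | ∃ (a : A) (g : G), y = g⁻¹ * a • g} : Set G) ∩ MulAction.fixedPoints A G = {1} ∧
    Subgroup.closure {y : G | ∃ (a : A) (g : G), y = g⁻¹ * a • g} ⊔ Subgroup.closure (MulAction.fixedPoints A G) = ⊤ := by
  set φ := MulDistribMulAction.toMulAut A G
  have e1 : closure {y : G | ∃ (a : A) (g : G), y = g⁻¹ * a • g} = comS φ ⊤ ⊤ := by
    rw [comS]; congr; ext y; simp [φ, eq_comm]
  have e2 : MulAction.fixedPoints A G = fixS φ ⊤ := by ext y; simp [φ, mem_fixS_top]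
  have z : ZGrp (hl φ ⊤) := zgrp_of_exists_sylow fun p hp _ => by
    haveI : Fact p.Prime := ⟨hp⟩
    obtain ⟨P⟩ : Nonempty (Sylow p G) := inferInstance
    exact ⟨_, hall_hl.2 (hall_sylow_top hp P), cyc_hl.2 (hcyc p P)⟩
  have c : Cop (hr φ ⊤) (hl φ ⊤) := ⟨hr_norm_top, by simpa using hcop, .inr z.solv⟩
  have n : ⁅hl φ ⊤, hr φ ⊤⁆ ⊴ hl φ ⊤ := ⟨comm_le_left c.1, norm_comm_left⟩
  set K := ⁅hl φ ⊤, hr φ ⊤⁆ with hK
  have k : Cyc K := (z.of_le n.le).cyc_of_nil (nil_of_quo_center (K := ⁅K, K⁆) (cent_symm (c.comm_comm.ge.trans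
    ((z.of_le n.le).cyc_der.comm_cent nml_der.norm (norm_der c.comm.1)))) ((abel_quo_iff nml_der.norm).2 le_rfl).nil)
  have i := abel_comm_inf_cent k.abel c.comm.1 c.comm.2
  have s := c.comm_sup
  rw [c.comm_comm, ← hK] at i
  have s' : SD K (hl φ ⊤ ⊓ C(hr φ ⊤)) (hl φ ⊤) := ⟨inf_le_left.trans n.norm, by rw [← inf_assoc, inf_eq_left.2 n.le, i], s⟩
  have co : (Nat.card ↥(hl φ ⊤ ⊓ C(hr φ ⊤))).Coprime (Nat.card K) := Nat.coprime_of_dvd' fun q hq h1 h2 => by
    obtain ⟨X, a, b⟩ := cauchy_sub hq h1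
    obtain ⟨Y, a', b'⟩ := cauchy_sub hq h2
    have y := (k.nml_sub a' n).norm
    have := z.cyc (sup_le (a.trans inf_le_left) (a'.trans n.le)) ((piGrp_of_prime hq b).sup_norm (piGrp_of_prime hq b')
      ((a.trans inf_le_left).trans y))
    obtain rfl := this.eq_of_card_eq le_sup_left le_sup_right (b.trans b'.symm)
    exact absurd (eq_bot_iff.2 ((le_inf a' a).trans s'.inf.le)) (ne_bot_of_prime (b ▸ hq))
  have cd := s'.card
  have i' := s'.inf
  rw [hK, comm_hl_hr] at k n
  rw [hl_top_inf_C, hK, comm_hl_hr] at co cd i'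
  rw [hl_top_inf_C, comm_hl_hr] at s
  rw [card_hl, card_hl] at co
  rw [card_hl, card_hl, card_hl, card_top] at cd
  rw [← hl_inf, hl_eq_bot] at i'
  rw [← hl_sup, hl_inj] at s
  rw [e1, e2, closure_eq, ← coe_inf, i']
  exact ⟨by rwa [cd, SetLike.coe_sort_coe, Nat.mul_div_cancel _ card_pos'], cyc_hl.1 k, (hl_nml_iff.1 n).normal, rfl, s⟩

end Cfsg.Agent.S4117
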