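import Cfsg.Statements.S4118
import Cfsg.Agent.H17.TIH

set_option autoImplicit false
open Cfsg

namespace Cfsg.Agent.S4118

open H17 H18 Subgroup

/-- Let G be a finite group and H a non-normal subgroup meeting each of its conjugates by elements outside N_G(H) trivially, with the order of H coprime to its index in N_G(H); let π be the set of primes dividing the order of H and suppose G is π-separable (it has a chain of normal subgroups from 1 to G each of whose factors has order divisible only by primes in π or coprime to the order of H). Let O be the largest normal subgroup of G of order coprime to the order of H. Then G = O·N_G(H), O·H is normal in G, and G is solvable if and only if O is solvable and H has no subgroup isomorphic to SL₂(5). -/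
theorem result {G : Type*} [Group G] [Finite G] (H : Subgroup G)
    (hTI : Cfsg.IsTISubset (H : Set G)) (hnn : ¬ H.Normal)
    (hHall : (Nat.card H).Coprime (H.subgroupOf (Subgroup.normalizer (H : Set G))).index)
    (hsep : ∃ (n : ℕ) (M : Fin (n + 1) → Subgroup G), M 0 = ⊥ ∧ M (Fin.last n) = ⊤ ∧ Monotone M ∧ (∀ i, (M i).Normal) ∧
      ∀ i : Fin n, (∀ q : ℕ, q.Prime → q ∣ (M i.castSucc).relIndex (M i.succ) → q ∣ Nat.card H) ∨
        ((M i.castSucc).relIndex (M i.succ)).Coprime (Nat.card H))
    (O : Subgroup G) (hO : O = sSup {K : Subgroup G | K.Normal ∧ (Nat.card K).Coprime (Nat.card H)}) :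
    O ⊔ Subgroup.normalizer (H : Set G) = ⊤ ∧ (O ⊔ H).Normal ∧
    (Group.IsSolvable G ↔ Group.IsSolvable O ∧
      ∀ K : Subgroup G, K ≤ H → ¬ Nonempty (K ≃* Matrix.SpecialLinearGroup (Fin 2) (ZMod 5))) := by
  have h := tih_of hTI hnn hHall hsep
  rw [sSup_coprime_eq Nat.card_pos.ne'] at hO
  subst hO
  refine ⟨h.sup_norm, (h.nml_sup le_rfl).normal, fun hs => ⟨inferInstance, fun K hK ⟨e⟩ =>
    H16.not_solvable_of_SL25 (f := K.subtype.comp e.symm.toMonoidHom) (K.subtype_injective.comp e.symm.injective) hs⟩,
    fun ⟨h1, h2⟩ => ?_⟩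
  have s : Solv H := by
    by_contra hs
    obtain ⟨f, hf, -⟩ := h.fc.exists_SL25 hs
    exact h2 (H.subtype.comp f).range (by rintro _ ⟨x, rfl⟩; exact (f x).2)
      ⟨(MonoidHom.ofInjective (f := H.subtype.comp f) (H.subtype_injective.comp hf)).symm⟩
  have : Group.IsSolvable (⊤ : Subgroup G) := h.solv h1 s
  exact Group.isSolvable_of_surjective (f := (topEquiv (G := G)).toMonoidHom) topEquiv.surjective

end Cfsg.Agent.S4118
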