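import Cfsg.Statements.S4120
import Cfsg.Agent.H13.Km1
import Cfsg.Agent.H5.KmA
import Cfsg.Agent.H19.KmB
import Cfsg.Agent.H7.KmM
import Cfsg.Agent.H28.KmQ
import Cfsg.Agent.H6.KmS
import Cfsg.Agent.H23.KmF

set_option autoImplicit false
open Cfsg

namespace Cfsg.Agent.S4120

/-- Let the finite group A act faithfully on the finite group G by automorphisms, and suppose A is a Frobenius group with kernel F and complement H such that F fixes only the identity of G. If the fixed-point subgroup C_G(H) is nilpotent, then G is nilpotent. -/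
theorem result {G A : Type*} [Group G] [Finite G] [Group A] [Finite A] [MulDistribMulAction A G] [FaithfulSMul A G]
    (Fk Hc : Subgroup A) [Fk.Normal] (hHc : Cfsg.IsFrobeniusComplement Hc) (hker : Cfsg.frobeniusKernel Hc = (Fk : Set A))
    (hCF : ∀ g : G, (∀ f ∈ Fk, f • g = g) → g = 1) (hnil : Group.IsNilpotent (Subgroup.closure {g : G | ∀ h ∈ Hc, h • g = g})) : Group.IsNilpotent G := by
  exact H23.KmF.fin (H13.Km.main H5.KmA.pA H19.Km.pB H7.KmM.pM H28.KmQ.pQ H6.KmS.pS) Fk Hc hHc hker hCF hnil

end Cfsg.Agent.S4120
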