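import Cfsg.Statements.S4125
import Cfsg.Agent.H5.QB1
import Cfsg.Agent.H21.Kazarin
import Cfsg.Agent.H22.Count
import Cfsg.Agent.H1.Cores

set_option autoImplicit false
open Cfsg

namespace Cfsg.Agent.S4125
open H5
open H18 Subgroup
open scoped commutatorElement
section
variable {G : Type*} [Group G] [Finite G] {p q r : ℕ} {x y : G} {Q : Subgroup G}

theorem mem_two (hp : p.Prime) (hx : PiNat {p} C1(x).index) (h : PiElt {q} x) : zpowers x ≤ O2[{p},{q}]((⊤ : Subgroup G)) := by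
  have n : normalClosure ({x} : Set G) ⊴ ⊤ := nml_top
  have m : zpowers x ≤ normalClosure ({x} : Set G) := zpowers_le.2 (subset_normalClosure rfl)
  refine (le_pcore2_iff le_top).2 (le_trans ?_ n.mim.pcore_le_pcore)
  exact ((abel_quo_iff (le_top.trans pcore_nml.norm)).2 (H21.camina_camina hp hx)).nil.le_pcore (mim_mono m) h.zpowers.mim

theorem one_of_mul (hp : p.Prime) (hq : q.Prime) (hpq : p ≠ q) (hc : x * y = y * x) (hy : PiElt {q} y)
    (h1 : PiNat {p} C1(x).index) (h2 : PiNat {p}ᶜ C1(y).index) (h3 : PiNat {p} C1(x * y).index) : C1(y).index = 1 := by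
  obtain ⟨P, hP⟩ := exists_sylow hp C1(y)
  have dec : ∀ {u : G}, PiNat {p} C1(u).index → ∀ g, ∃ c ∈ C1(y), g * u * g⁻¹ = c * u * c⁻¹ := fun {u} h g => by
    obtain ⟨c, hc, d, hd, rfl⟩ := H22.exists_mul_of_coprime_index (h.coprime h2).symm g
    exact ⟨c, hc, by rw [mul_inv_rev, mul_assoc c, mul_assoc c, ← mul_assoc _ d⁻¹, conj_eq_self_of_C1 hd, ← mul_assoc]⟩
  have a1 : ∀ g, ∃ k, g * (x * y) * g⁻¹ = k * x * k⁻¹ * y := fun g => by
    obtain ⟨c, hc, e⟩ := dec h3 g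
    exact ⟨c, by rw [e]; nth_rw 2 [← conj_eq_self_of_C1 hc]; group⟩
  let N : Subgroup G := ⟨⟨⟨{n | ∀ g, (∃ k, g * x * g⁻¹ * n = k * x * k⁻¹) ∧ ∃ k, g * x * g⁻¹ * n⁻¹ = k * x * k⁻¹}, fun {a b} ha hb g => by
      obtain ⟨⟨k, e⟩, -⟩ := ha g
      obtain ⟨-, l, e'⟩ := hb g
      exact ⟨by rw [← mul_assoc, e]; exact (hb k).1, by rw [mul_inv_rev, ← mul_assoc, e']; exact (ha l).2⟩⟩,
      fun g => ⟨⟨g, by simp⟩, g, by simp⟩⟩, fun ha g => ⟨(ha g).2, by rw [inv_inv]; exact (ha g).1⟩⟩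
  have nN : N.Normal := ⟨fun n hn h g => by
    obtain ⟨⟨k, e⟩, l, e'⟩ := hn (h⁻¹ * g)
    exact ⟨⟨h * k, by rw [show h * k * x * (h * k)⁻¹ = h * (k * x * k⁻¹) * h⁻¹ by group, ← e]; group⟩,
      h * l, by rw [show h * l * x * (h * l)⁻¹ = h * (l * x * l⁻¹) * h⁻¹ by group, ← e']; group⟩⟩
  have a2 : ∀ g h, ∃ k, g * x * g⁻¹ * (h * y * h⁻¹) = k * x * k⁻¹ * y := fun g h => by
    obtain ⟨c, hc, e⟩ := dec h1 (h⁻¹ * g)
    obtain ⟨k, e'⟩ := a1 (h * c)
    refine ⟨k, ?_⟩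
    rw [← e', show g * x * g⁻¹ = h * (h⁻¹ * g * x * (h⁻¹ * g)⁻¹) * h⁻¹ by group, e]
    nth_rw 1 [← conj_eq_self_of_C1 hc]; group
  have a3 : ∀ h, h * y * h⁻¹ * y⁻¹ ∈ N := fun h g => by
    refine ⟨(a2 g h).imp fun k e => by rw [← mul_assoc, e, mul_inv_cancel_right], ?_⟩
    obtain ⟨k, e⟩ := a2 (h⁻¹ * g) h⁻¹
    refine ⟨h * k, ?_⟩
    rw [show h * k * x * (h * k)⁻¹ = h * (k * x * k⁻¹ * y) * y⁻¹ * h⁻¹ by group, ← e]; group
  have pN : PiGrp {p} N := h1.of_dvd (by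
    rw [← relIndex_top_right, ← H22.ncard_conj_by_subgroup]
    refine H22.dvd_ncard_of_fibers (QuotientGroup.mk (s := N)) _ _ ?_
    rintro _ ⟨g, -, rfl⟩
    rw [← H22.ncard_leftCoset N (g * x * g⁻¹)]
    refine dvd_of_eq (congrArg _ (Set.ext fun u => ⟨fun m => ⟨?_, (QuotientGroup.eq.2 m).symm⟩, fun m => QuotientGroup.eq.1 m.2.symm⟩))
    obtain ⟨k, e⟩ := (m g).1
    exact ⟨k, trivial, by rw [← e, mul_inv_cancel_left]⟩)
  have d := hy.zpowers.inf_eq_bot (pN.p'_of_ne hpq)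
  have fr := frattini_arg (M := ⊤) hq (K := zpowers y ⊔ N) ⟨le_top, norm_iff_comm_le.2 ?_⟩
    (hall_of_sup hy.zpowers (pN.p'_of_ne hpq) (.inl norm_of_normal))
  · have e : N ⊔ C1(y) = ⊤ := top_le_iff.1 (fr.ge.trans (sup_le (sup_le (le_sup_of_le_right (zpowers_le.2 C1_self)) le_sup_left)
      (le_sup_of_le_right fun g hg => mem_C1.2 (mul_inv_eq_iff_eq_mul.1 (mul_inv_eq_one.1 (eq_one_of_eq_bot d
        (mem_inf.2 ⟨mul_mem (conj_mem_N hg.2 (mem_zpowers y)) (inv_mem (mem_zpowers y)), a3 g⟩)))))))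
    refine PiNat.eq_one ?_ h2
    rw [← relIndex_top_right, ← e, Nrm2.relIndex_sup (.inr norm_of_normal)]
    exact pN.relIndex
  · rw [← norm_iff_comm_le, norm_iff]
    intro g _
    show zpowers y ⊔ N ≤ (zpowers y ⊔ N).comap (MulAut.conj g).toMonoidHom
    refine sup_le (zpowers_le.2 ?_) fun n hn => mem_sup_right (nN.conj_mem n hn g)
    show g * y * g⁻¹ ∈ zpowers y ⊔ N
    rw [← inv_mul_cancel_right (g * y * g⁻¹) y]
    exact mul_mem (mem_sup_right (a3 g)) (mem_sup_left (mem_zpowers y))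
end

/-- Let G be a finite group and q a prime dividing its order such that every element of q-power order has a conjugacy class of prime-power size. Then G is q-solvable of q-length 1: there are normal subgroups K ≤ L of G with K of order prime to q, L/K a q-group and L of index prime to q. Moreover there is a prime p such that every element of q-power order has a class of p-power size (one prime serving for all of them), and for a Sylow q-subgroup Q: if p = q then Q is normal with a normal complement (a direct factor), while if p ≠ q then Q is abelian, the product of Q with the largest normal p-subgroup O_p(G) is normal in G, and G/O_{q'}(G) is solvable, where O_{q'}(G) is the largest normal subgroup of order prime to q. -/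
theorem result {G : Type*} [Group G] [Finite G] (q : ℕ) [Fact q.Prime] (hq : q ∣ Nat.card G)
    (hBaer : ∀ x : G, (∃ k : ℕ, orderOf x = q ^ k) → ∃ (r : ℕ) (a : ℕ), r.Prime ∧ (Subgroup.centralizer ({x} : Set G)).index = r ^ a) (Q : Sylow q G) :
    (∃ K L : Subgroup G, K.Normal ∧ L.Normal ∧ K ≤ L ∧ (Nat.card K).Coprime q ∧ (∃ m : ℕ, K.relIndex L = q ^ m) ∧ L.index.Coprime q) ∧
    ∃ p : ℕ, p.Prime ∧ (∀ x : G, (∃ k : ℕ, orderOf x = q ^ k) → ∃ a : ℕ, (Subgroup.centralizer ({x} : Set G)).index = p ^ a) ∧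
      (p = q → (Q : Subgroup G).Normal ∧ ∃ N : Subgroup G, N.Normal ∧ N.IsComplement' (Q : Subgroup G)) ∧
      (p ≠ q → IsMulCommutative (Q : Subgroup G) ∧ (Cfsg.pCore p G ⊔ (Q : Subgroup G)).Normal ∧
        ∀ _h : (Cfsg.pPrimeCore q G).Normal, Group.IsSolvable (G ⧸ Cfsg.pPrimeCore q G)) := by
  have qp : q.Prime := Fact.out
  have hQ := hall_sylow_top qp Q
  generalize (Q : Subgroup G) = Q at hQ ⊢
  have hB : ∀ x : G, PiElt {q} x → ∃ r, r.Prime ∧ PiNat {r} C1(x).index := fun x hx => by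
    obtain ⟨r, a, hr, e⟩ := hBaer x (hx.eq_pow (orderOf_pos x).ne')
    exact ⟨r, hr, e ▸ piNat_pow_self hr a⟩
  have pl : PL1 q (⊤ : Subgroup G) := pl1_of_sylow_le hQ fun x hx => by
    obtain ⟨r, hr, e⟩ := hB x (hQ.pi.elt hx)
    by_cases c : r = q
    · subst c; exact pcore_le_pcore2' (H21.kazarin_pcore (π := {r}) hr rfl e (hQ.pi.elt hx))
    · exact le_pcore2_of_nml pcore_nml pcore2_nml (pcore_pi.p'_of_ne c) pcore2_idx
        (mem_two hr e (hQ.pi.elt hx) (mem_zpowers x))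
  refine ⟨⟨O[{q}ᶜ]((⊤ : Subgroup G)), O2[{q}ᶜ,{q}]((⊤ : Subgroup G)), (pcore_nml (π := {q}ᶜ)).normal, (pcore2_nml (π := {q}ᶜ) (ρ := {q})).normal, pcore_le_pcore2,
    (piNat_compl_iff_coprime qp).1 pcore_pi, pcore2_idx.eq_pow relIndex_ne_zero,
    (piNat_compl_iff_coprime qp).1 (by rw [← relIndex_top_right]; exact pl)⟩, ?_⟩
  suffices h : ∃ p : ℕ, p.Prime ∧ (∀ x : G, PiElt {q} x → PiNat {p} C1(x).index) ∧ (p = q → ∃ T, DP T Q ⊤) ∧ (p ≠ q → Abel Q) by
    obtain ⟨p, hp, h1, h2, h3⟩ := h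
    refine ⟨p, hp, fun x ⟨k, e⟩ => (h1 x (by rw [PiElt, e]; exact piNat_pow_self qp k)).eq_pow index_ne_zero_of_finite,
      fun e => ?_, fun e => ⟨(h3 e).comm, ?_, fun _ => ?_⟩⟩
    · obtain ⟨T, h⟩ := h2 e
      exact ⟨h.nml_right.normal, T, h.nml_left.normal, h.sd.isComplement'⟩
    · have l : Q ≤ O2[{p},{q}]((⊤ : Subgroup G)) := fun x hx => mem_two hp (h1 x (hQ.pi.elt hx)) (hQ.pi.elt hx) (mem_zpowers x)
      rw [pCore_eq hp, sup_comm, (hQ.of_le l le_top).sup_of_idx pcore_le_pcore2 pcore2_idx]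
      exact pcore2_nml.normal
    · have sj := QuotientGroup.mk'_surjective (pPrimeCore q G)
      have hV := H22.hall_map hQ (QuotientGroup.mk' (pPrimeCore q G))
      rw [map_top_of_surjective _ sj] at hV
      have nV : (Q.map (QuotientGroup.mk' (pPrimeCore q G))).Normal := by
        have := (pl.nml_sup hQ).normal.map _ sj
        rwa [Subgroup.map_sup, ← pPrimeCore_eq qp, QuotientGroup.map_mk'_self, bot_sup_eq] at this
      have aV : Abel (Q.map (QuotientGroup.mk' (pPrimeCore q G))) := by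
        rw [abel_iff_der, ← map_commutator, (h3 e).der, Subgroup.map_bot]
      obtain ⟨T, hT⟩ := hV.exists_sd norm_of_normal
      have hT' := hT.hall_compl hV
      refine solv_top_iff.1 (hT.solv aV.solv (solv_of_orb hp qp hV.pi aV hT'.pi hT.norm (eq_bot_iff.2 ?_) ?_))
      · rw [← H1.pPrimeCore_quotient_eq_bot q G, pPrimeCore_eq (G := G ⧸ _) qp]
        exact le_pcore ⟨le_top, hT.sup.ge.trans (sup_le (cent_norm (cent_symm inf_le_right))
          (norm_inf le_N (norm_C hT.norm)))⟩ hT'.pi.inf_left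
      · rintro _ ⟨x, hx, rfl⟩
        have := (h1 x (hQ.pi.elt hx)).of_dvd (H22.index_centralizer_map_dvd _ sj x)
        rwa [H22.relIndex_eq_index_of_coprime (this.coprime_of_disj (relIndex_top_right T ▸ hT'.idx.of_compl_compl)
          fun s _ a b => e (a.symm.trans b))]
  have cj' : ∀ x : G, PiElt {q} x → ∃ y ∈ Q, C1(y).index = C1(x).index := fun x hx => by
    obtain ⟨g, -, hg⟩ := sylow_le_cj qp hQ hx.zpowers le_top
    exact ⟨_, hg (conj_mem_cj (mem_zpowers x)), H22.index_centralizer_conj g x⟩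
  by_cases ab : Abel Q
  · have nq : ∀ x ∈ Q, PiNat {q}ᶜ C1(x).index := fun x hx => relIndex_top_right C1(x) ▸ hQ.idx_of_le (le_C1_iff.2 (ab hx))
    by_cases c : ∀ x ∈ Q, C1(x).index = 1
    · obtain ⟨p, hp, hp'⟩ := Nat.exists_infinite_primes (q + 1)
      refine ⟨p, hp', fun x hx => ?_, fun e => by omega, fun _ => ab⟩
      obtain ⟨y, hy, e⟩ := cj' x hx
      rw [← e, c y hy]; exact PiNat.one
    push Not at c
    obtain ⟨x, hx, c⟩ := c
    obtain ⟨p, hp, h⟩ := hB x (hQ.pi.elt hx)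
    have pq : p ≠ q := fun e => c (PiNat.eq_one (e ▸ h) (nq x hx))
    refine ⟨p, hp, fun y hy => ?_, fun e => absurd e pq, fun _ => ab⟩
    obtain ⟨y, hy, e⟩ := cj' y hy
    rw [← e]
    obtain ⟨r, hr, k⟩ := hB y (hQ.pi.elt hy)
    by_contra k'
    have rp : r ≠ p := fun e => k' (e ▸ k)
    have rq : r ≠ q := fun e => k' (PiNat.eq_one (e ▸ k) (nq y hy) ▸ PiNat.one)
    obtain ⟨s, hs, l⟩ := hB _ (hQ.pi.elt (mul_mem hx hy))
    have cm := comm_of_cent ab hx hy
    by_cases sr : s = r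
    · exact c (one_of_mul hr qp rq cm.symm (hQ.pi.elt hx) k (h.p'_of_ne rp.symm) (cm ▸ sr ▸ l))
    refine k' (one_of_mul hp qp pq cm (hQ.pi.elt hy) h (k.p'_of_ne rp) (h.of_dvd ?_) ▸ PiNat.one)
    refine (l.p'_of_ne sr).dvd_of_dvd_mul k.compl_compl ?_
    rw [← H22.index_inf_of_coprime (h.coprime (k.p'_of_ne rp))]
    exact index_dvd_of_le fun g hg => mem_C1.2 (by rw [← mul_assoc, mem_C1.1 hg.1, mul_assoc, mem_C1.1 hg.2, mul_assoc])
  obtain ⟨x0, h0, h0'⟩ := SetLike.not_le_iff_exists.1 ab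
  have gen : ∀ M : Subgroup G, (∀ x ∈ Q, x ∉ C(Q) → x ∈ M) → Q ≤ M := fun M h y hy => by
    by_cases c : y ∈ C(Q)
    · rw [← mul_inv_cancel_right y x0]
      exact mul_mem (h _ (mul_mem hy h0) fun e => h0' ((mul_mem_cancel_left c).1 e)) (inv_mem (h _ h0 h0'))
    · exact h y hy c
  have iq : ∀ x ∈ Q, x ∉ C(Q) → PiNat {q} C1(x).index := fun x hx c => by
    obtain ⟨r, hr, k⟩ := hB x (hQ.pi.elt hx)
    by_contra k'
    obtain ⟨S, hS⟩ := exists_sylow qp C1(x)
    have hS' := hS.of_idx le_top (by rw [relIndex_top_right]; exact k.p'_of_ne fun e => k' (e ▸ k))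
    have nK : ∀ A : Subgroup G, A ≤ N(O[{q}ᶜ]((⊤ : Subgroup G))) := fun A => le_top.trans pcore_nml.norm
    refine c (zpowers_le.1 (comm_eq_bot_iff.1 (eq_bot_iff.2 ?_)))
    rw [← hQ.pi.inf_eq_bot (pcore_pi (H := ⊤))]
    refine le_inf (comm_le_of_le (zpowers_le.2 hx) le_rfl) ((comm_mono le_rfl (le_sup_right.trans
      ((pl.sup_eq hQ).trans (pl.sup_eq hS').symm).le)).trans (comm_sup_le' (comm_le_right (nK _)) ?_ (nK _) (nK _)))
    exact (comm_eq_bot_iff.2 (zpowers_le_C_iff.2 hS.le)).le.trans bot_le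
  have nQ : ⊤ ≤ N(Q) := by
    rw [← hQ.eq_of_le (gen _ fun x hx c => H21.kazarin_pcore (π := {q}) qp rfl (iq x hx c) (hQ.pi.elt hx)) le_top pcore_pi]
    exact pcore_nml.norm
  obtain ⟨T, hT⟩ := hQ.exists_sd nQ
  have hT' := hT.hall_compl hQ
  have nD := (Nml.der ⟨le_top, nQ⟩).normal
  have l := gen ((center (G ⧸ ⁅Q, Q⁆)).comap (QuotientGroup.mk' _)) fun x hx c => mem_center_iff.2 fun g => by
    obtain ⟨g, rfl⟩ := QuotientGroup.mk'_surjective _ g
    obtain ⟨a, ha, d, hd, rfl⟩ := H22.exists_mul_of_coprime_index ((relIndex_top_right Q ▸ hQ.idx).coprime' (iq x hx c)) g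
    rw [← map_mul, mul_assoc, mem_C1.1 hd, ← mul_assoc, map_mul, map_mul _ a d, ← mul_assoc, ← map_mul _ x]
    congr 1
    exact QuotientGroup.eq.2 (by simpa [commutatorElement_def, mul_assoc] using commutator_mem_commutator (inv_mem hx) (inv_mem ha))
  have co := H1.cop_of_pi' hT.norm hT'.pi hQ.pi (.inr hQ.pi.solv)
  have ce : Q ≤ C(T) := (hQ.pi.nil.eq_of_le_sup_der inf_le_left (co.comm_sup.ge.trans (sup_le (le_sup_of_le_right
    (commutator_le.2 fun a ha t _ => (QuotientGroup.eq_one_iff _).1 (by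
      rw [← QuotientGroup.mk'_apply, map_commutatorElement, commutatorElement_eq_one_iff_mul_comm]
      exact (mem_center_iff.1 (l ha) _).symm))) le_sup_left))).ge.trans inf_le_right
  refine ⟨q, qp, fun x hx => ?_, fun _ => ⟨T, (hT.dp ce).symm⟩, fun e => absurd rfl e⟩
  exact (relIndex_top_right T ▸ hT'.idx.of_compl_compl).of_dvd
    (index_dvd_of_le (le_C1_iff.2 (ce (hQ.mem_of_nml nQ trivial hx))))

end Cfsg.Agent.S4125
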