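import Cfsg.Statements.S4127
import Cfsg.Agent.H18.BG1
import Cfsg.Agent.H21.Kazarin
import Cfsg.Agent.H22.Basic

set_option autoImplicit false
open Cfsg

namespace Cfsg.Agent.S4127
open H18 Subgroup
theorem cover {G : Type*} [Group G] [Finite G] {H M : Subgroup G} (h : ∀ g ∈ M, ∃ x ∈ M, x * g * x⁻¹ ∈ H) : M ≤ H := by
  have := H22.eq_top_of_forall_conj_mem (H.subgroupOf M) fun g => by
    obtain ⟨x, hx, e⟩ := h g g.2
    exact ⟨⟨x, hx⟩, e⟩
  exact subgroupOf_eq_top.1 this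
theorem camina {G : Type*} [Group G] [Finite G] {p : ℕ} (hp : p.Prime) {M : Subgroup G}
    (h : ∀ y ∈ M, PiElt {p}ᶜ y → PiNat {p}ᶜ ((C1(y)).relIndex M)) :
    Hall {p}ᶜ O[{p}ᶜ](M) M ∧ ∀ R ≤ M, PiGrp {p} R → R ≤ C(O[{p}ᶜ](M)) := by
  obtain ⟨P, hP⟩ := exists_sylow hp M
  have h1 : M ≤ P ⊔ C(P) := cover fun g hg => by
    obtain ⟨S, hS, hgS⟩ := exists_sylow_le hp (piElt_piPart (π := {p}) (x := g)).zpowers
      (M := M ⊓ C1(piPart {p}ᶜ g)) (zpowers_le.2 ⟨piPart_mem hg, mem_C1.2 piPart_comm_piPart⟩)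
    have hS' : Hall {p} S M := hS.of_idx inf_le_left (by
      rw [relIndex_inf_left]; exact h _ (piPart_mem hg) piElt_piPart)
    obtain ⟨x, hx, e⟩ := sylow_conj hp hS' hP
    refine ⟨x, hx, ?_⟩
    rw [e, ← cj_C, ← cj_sup, conj_mem_cj_iff, ← piPart_mul_compl (π := {p}) (x := g)]
    exact mul_mem_sup' (hgS (mem_zpowers _)) (le_C1_iff.1 (hS.le.trans inf_le_right))
  have hn : M ≤ N(P) := h1.trans (sup_le le_N C_le_N)
  have hD : M ⊓ C(P) ⊴ M := nml_cent hn
  have hS := hP.inf_nml hD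
  have hB := Burnside_normal_complement hp hS (inf_le_left.trans (inf_le_right.trans (C_anti inf_le_left)))
  have e : P ⊔ (M ⊓ C(P)) = M := by
    rw [← Nrm2.modular_left (Or.inr C_le_N) hP.le, inf_eq_left.2 h1]
  have hK : Hall {p}ᶜ O[{p}ᶜ](M ⊓ C(P)) M := hB.of_idx inf_le_left (by
    conv => enter [2, 2]; rw [← e]
    rw [relIndex_sup_of_norm (hP.le.trans hD.norm)]
    exact PiNat.compl_compl hP.pi.relIndex)
  have hK' := hK.pcore_hall hD.pcore.norm
  exact ⟨hK', fun R hR hp' => (hP.le_of_nml hn hR hp').trans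
    (cent_of_nml_coprime ⟨hP.le, hn⟩ pcore_nml (hP.pi.coprime pcore_pi))⟩

/-- Let G be a finite group, p a prime and p^a the largest power of p dividing the size of any conjugacy class of G. If some element of p-power order has a conjugacy class of size exactly p^a, then G has a normal p-complement. -/
theorem result {G : Type*} [Group G] [Finite G] (p : ℕ) [Fact p.Prime]
    (a : ℕ) (hmax : ∀ y : G, ¬ p ^ (a + 1) ∣ (Subgroup.centralizer ({y} : Set G)).index)
    (hx : ∃ x : G, (∃ k : ℕ, orderOf x = p ^ k) ∧ (Subgroup.centralizer ({x} : Set G)).index = p ^ a) :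
    Cfsg.HasNormalPComplement p G := by
  have hp : p.Prime := Fact.out
  obtain ⟨x, ⟨k, hk⟩, hx⟩ := hx
  have hxp : PiElt {p} x := by rw [PiElt, hk]; exact piNat_pow_self hp k
  have hi : PiNat {p} (C1(x)).index := by rw [hx]; exact piNat_pow_self hp a
  have hxO := H21.kazarin_pcore hp (π := {p}) rfl hi hxp
  obtain ⟨h1, h2⟩ := camina hp (M := C1(x)) fun y hy hy' => by
    refine (piNat_compl_iff hp).2 fun hd => hmax (x * y) ?_
    rw [C1_mul (mem_C1.1 hy).symm hxp hy', ← relIndex_mul_index (inf_le_left (a := C1(x)) (b := C1(y))),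
      relIndex_inf_left, hx, pow_succ']
    exact Nat.mul_dvd_mul_right hd _
  set K := O[{p}ᶜ](C1(x))
  set U := O[{p}]((⊤ : Subgroup G))
  have hU : U ⊴ ⊤ := pcore_nml
  have hK : Hall {p}ᶜ K ⊤ := h1.of_idx le_top (by rw [relIndex_top_right]; exact hi.compl_compl)
  have hKU : K ≤ C(U) := PxQ hxp.zpowers h1.pi pcore_pi (zpowers_le_C_iff.2 h1.le) (le_top.trans hU.norm)
    (le_top.trans hU.norm) (h2 _ (inf_le_right.trans C_zpowers.le) pcore_pi.inf_left)
  have hC : C(U) ≤ C1(x) := C_le_C1 hxO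
  have e : O[{p}ᶜ](C(U)) = K := (hK.of_le hKU le_top).eq_pcore (hC.trans pcore_nml.norm)
  refine (hasNormalPComplement_top_iff' hp).2 (hK.pcore_hall ?_)
  rw [← e]; exact norm_pcore (norm_C hU.norm)

end Cfsg.Agent.S4127
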