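import Cfsg.Statements.S4167
import Cfsg.Agent.H21.Crit
import Cfsg.Agent.H22.Basic

set_option autoImplicit false
open Cfsg

namespace Cfsg.Agent.S4167

open H18 H21 Subgroup
universe u

theorem simple (X : Type u) [Group X] [Finite X] [IsSimpleGroup X] (h : ∀ x : X, ¬ 4 ∣ C1(x).index) :
    Group.IsSolvable X := by
  by_contra ns
  have p2 := Nat.prime_two
  obtain ⟨T, hT⟩ := exists_sylow p2 (⊤ : Subgroup X)
  have nc : ¬ Cyc T := fun c => ns (solv_top_iff.1 (solv_of_cyc_two hT c))
  obtain ⟨u, hu, u2⟩ := cauchy p2 (hT.pi.dvd_card (ne_bot_of_not_cyc nc))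
  refine ns (H5.isSolvable_of_card_prime (H5.card_prime_of_isSimpleGroup_of_index_eq_pow (k := 0) (g := u) p2
    (by rintro rfl; simp at u2) ?_))
  rw [H22.eq_top_of_forall_conj_mem C1(u) fun x => ?_, index_top, pow_zero]
  obtain ⟨S, hS⟩ := exists_sylow p2 C1(x)
  obtain ⟨g, -, hg⟩ := sylow_le_cj p2 hT hS.pi le_top
  replace hS := hS.cj g
  rw [cj_C1] at hS
  obtain ⟨a, ha⟩ : ∃ a : X, a * u * a⁻¹ ∈ cj g S := by
    have d : (cj g S).relIndex T ∣ C1(g * x * g⁻¹).index := by
      refine hT.pi.relIndex.dvd_of_dvd_mul hS.idx ?_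
      rw [mul_comm, relIndex_mul_index hS.le, ← relIndex_mul_index hg]
      exact dvd_mul_right _ _
    obtain ⟨k, hk⟩ := (hT.pi.relIndex (A := cj g S)).eq_pow relIndex_ne_zero
    have : k < 2 := by_contra fun c => h _ ((pow_dvd_pow 2 (not_lt.1 c)).trans (hk ▸ d))
    interval_cases k
    · exact ⟨1, by simpa using relIndex_eq_one_iff.1 hk hu⟩
    by_contra! c
    obtain ⟨M, h1, h2, -⟩ := H3.thompson_transfer (by simpa using (piNat_compl_iff p2).1 hT.idx) hk
      (u2 ▸ pow_orderOf_eq_one u) hu c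
    rcases h1.eq_bot_or_eq_top with rfl | rfl
    · exact ns (H5.isSolvable_of_card_prime (by simp_all))
    · simp at h2
  have := mem_C1_comm.1 (hS.le ha)
  rw [← cj_C1, mem_cj] at this
  exact ⟨a⁻¹ * g, by simpa [mul_assoc] using this⟩

/-- Let G be a finite group in which no conjugacy class has size divisible by 4. Then G is solvable. -/
theorem result {G : Type*} [Group G] [Finite G]
    (h : ∀ x : G, ¬ 4 ∣ (Subgroup.centralizer ({x} : Set G)).index) : Group.IsSolvable G := by
  refine H5.isSolvable_of_simple_sections (fun X _ => ∀ x : X, ¬ 4 ∣ C1(x).index)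
    (fun X _ _ N _ h x hx => h x (hx.trans (class_dvd_normal N x))) (fun X _ _ N _ h x hx => ?_) simple G h
  obtain ⟨y, rfl⟩ := QuotientGroup.mk_surjective x
  exact h y (hx.trans (class_dvd_quot N y))

end Cfsg.Agent.S4167
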