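import Cfsg.Statements.S4130
import Cfsg.Agent.S4167
import Cfsg.Agent.H2.Supersolvable
import Cfsg.Agent.H3.PG
import Cfsg.Agent.H1.BGCop

set_option autoImplicit false
open Cfsg

namespace Cfsg.Agent.S4130

open H18 H22 H1 Subgroup
open scoped commutatorElement

universe u

section
variable {G : Type u} [Group G] [Finite G] {H P V K R : Subgroup G} {p : ℕ} {g h : G}

/-- no class size of `H` is divisible by the square of a prime -/
def SF (H : Subgroup G) : Prop := ∀ p : ℕ, p.Prime → ∀ x ∈ H, ¬ p ^ 2 ∣ C1(x).relIndex H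

theorem SF.quo (h : SF H) (hK : H ≤ N(K)) : SF (H ⫽ K) := fun p hp z hz e => by
  obtain ⟨x, hx, rfl⟩ := (mem_quo hK).1 hz
  refine h p hp x hx (e.trans ?_)
  rw [← inf_relIndex_right, ← inf_relIndex_right C1(x)]
  refine (relIndex_dvd_left ?_).trans (relIndex_mim_dvd inf_le_right hK)
  exact le_inf (mim_C1 (hK hx) inf_le_left) (mim_mono inf_le_right)

theorem dvd_of_pi (hp : p.Prime) (hP : PiGrp {p} P) {n : ℕ} (h1 : n ∣ Nat.card P) (h2 : ¬ p ^ 2 ∣ n) : n ∣ p := by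
  obtain ⟨k, hk⟩ := hP.card_eq_pow
  obtain ⟨j, -, rfl⟩ := (Nat.dvd_prime_pow hp).1 (hk ▸ h1)
  exact (pow_dvd_pow p (show j ≤ 1 from by_contra fun e => h2 (pow_dvd_pow p (by omega)))).trans (by simp)

theorem SF.idx (h : SF H) (hp : p.Prime) (hP : PiGrp {p} P) (hn : P ⊴ H) (hg : g ∈ H) : C1(g).relIndex P ∣ p := by
  refine dvd_of_pi hp hP relIndex_dvd fun e => h p hp g hg (e.trans ?_)
  have := hn.relIndex_dvd' (H := H ⊓ C1(g)) inf_le_left
  rwa [inf_relIndex_left, ← inf_relIndex_right, inf_comm H, inf_assoc, inf_eq_right.2 hn.le, inf_relIndex_right] at this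

theorem eq_of_idx (hp : p.Prime) (hK : K ≤ R) (hR : R ≤ P) (h1 : K.relIndex P ∣ p) (h2 : R ≠ P) : K = R := by
  have h3 := relIndex_mul_relIndex K R P hK hR
  have h4 : R.relIndex P ≠ 1 := fun e => h2 (hR.antisymm (relIndex_eq_one_iff.1 e))
  have h5 : R.relIndex P = p := ((Nat.dvd_prime hp).1 ((Dvd.intro_left _ h3).trans h1)).resolve_left h4
  rw [← h3, h5] at h1
  exact hK.antisymm (relIndex_eq_one_iff.1 (Nat.dvd_one.1 (Nat.dvd_of_mul_dvd_mul_right hp.pos (by simpa using h1))))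

/-- all centres agree or all axes agree -/
theorem axis (hp : p.Prime) (hN : H ≤ N(P)) (hc : ⁅P, H⁆ ≤ C(P)) (hi : ∀ g ∈ H, C1(g).relIndex P ∣ p) :
    Nat.card (⁅P, H⁆ : Subgroup G) ∣ p ∨ C(H).relIndex P ∣ p := by
  have cm : ∀ g ∈ H, ∀ m ∈ P, ∀ n ∈ P, ⁅m * n, g⁆ = ⁅m, g⁆ * ⁅n, g⁆ := fun g hg m hm n hn => by
    rw [← mem_C.1 (hc (commutator_mem_commutator hm hg)) _ (comm_le_left hN (commutator_mem_commutator hn hg)),
      ← mul_inv_eq_iff_eq_mul.2 (mem_C.1 (hc (commutator_mem_commutator hn hg)) m hm)]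
    simp only [commutatorElement_def]; group
  let f : H → P →* G := fun g => MonoidHom.mk' (fun m => ⁅(m : G), (g : G)⁆) fun m n => cm g g.2 m m.2 n n.2
  have ker : ∀ g : H, (f g).ker = C1((g : G)).subgroupOf P := fun g => by
    ext m
    exact commutatorElement_eq_one_iff_mul_comm.trans mem_C1.symm
  have cB : ∀ g : H, Nat.card (f g).range ∣ p := fun g => by
    rw [← index_ker, ker]; exact hi g g.2
  have k1 : ∀ g h : H, ¬ (f h).range ≤ (f g).range → (f g).range ⊓ (f h).range = ⊥ := fun g h e =>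
    (eq_of_idx hp bot_le inf_le_right (by simpa using cB h) fun e' => e (e'.ge.trans inf_le_left)).symm
  have k2 : ∀ g h : H, (f g).range ⊓ (f h).range = ⊥ → (f g).range ≠ ⊥ → P ⊓ C1((g : G)) ≤ C1((h : G)) :=
    fun g h e g0 => by
      have h1 : P ⊓ C1((g : G)⁻¹ * h) ≤ P ⊓ C1((g : G)) ⊓ C1((h : G)) := fun m hm => by
        have e1 : ⁅m, (g : G)⁆ = ⁅m, (h : G)⁆ := by
          have := mul_inv_eq_iff_eq_mul.2 (mem_C1.1 hm.2).symm
          calc _ = m * g * ((g : G)⁻¹ * h * m * ((g : G)⁻¹ * h)⁻¹)⁻¹ * (g : G)⁻¹ := by rw [this]; rfl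
            _ = _ := by rw [commutatorElement_def]; group
        have e2 : ⁅m, (g : G)⁆ ∈ (f g).range ⊓ (f h).range := ⟨⟨⟨m, hm.1⟩, rfl⟩, ⟨⟨m, hm.1⟩, e1.symm⟩⟩
        rw [e, mem_bot] at e2
        exact ⟨⟨hm.1, mem_C1.2 (commutatorElement_eq_one_iff_mul_comm.1 e2)⟩,
          mem_C1.2 (commutatorElement_eq_one_iff_mul_comm.1 (e1 ▸ e2))⟩
      have h2 := eq_of_idx hp (h1.trans inf_le_left) inf_le_left
        (by rw [inf_relIndex_left]; exact hi _ (mul_mem (inv_mem g.2) h.2)) fun e' => g0 (by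
          rw [eq_bot_iff]
          rintro _ ⟨m, rfl⟩
          exact commutatorElement_eq_one_iff_mul_comm.2 (mem_C1.1 (e'.ge m.2).2))
      exact h2.ge.trans (h1.trans inf_le_right)
  have k3 : ∀ B : Subgroup G, (∀ g, (f g).range ≤ B) → ⁅P, H⁆ ≤ B := fun B e =>
    commutator_le.2 fun m hm g hg => e ⟨g, hg⟩ ⟨⟨m, hm⟩, rfl⟩
  by_cases h0 : ∀ g, (f g).range ≤ ⊥
  · rw [le_bot_iff.1 (k3 _ h0), card_bot]; exact Or.inl (one_dvd _)
  obtain ⟨g, hg⟩ := not_forall.1 h0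
  by_cases h1 : ∀ h, (f h).range ≤ (f g).range
  · exact Or.inl ((card_dvd_of_le (k3 _ h1)).trans (cB g))
  obtain ⟨h, hh⟩ := not_forall.1 h1
  have h2 := k1 g h hh
  have h3 : P ⊓ C1((g : G)) ≤ C(H) := fun m hm => mem_C.2 fun k hk => Eq.symm <| mem_C1.1 <| by
    by_cases e : (f ⟨k, hk⟩).range ≤ (f g).range
    · exact k2 h ⟨k, hk⟩ (eq_bot_iff.2 ((inf_le_inf_left _ e).trans ((inf_comm _ _).trans h2).le))
        (fun e' => hh (e'.le.trans bot_le)) ⟨hm.1, k2 g h h2 (fun e' => hg e'.le) hm⟩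
    · exact k2 g ⟨k, hk⟩ (k1 _ _ e) (fun e' => hg e'.le) hm
  refine Or.inr ((relIndex_dvd_left h3).trans ?_)
  rw [inf_relIndex_left]; exact hi g g.2

theorem SF.der_cent (h : SF H) (hs : Solv H) (hV : MinNorm V H) (hle : V ≤ H) : ⁅H, H⁆ ≤ C(V) := by
  obtain ⟨p, hp, -, e⟩ := hV.exists_elem (hs.of_le hle)
  have hn : V ⊴ H := ⟨hle, hV.norm⟩
  by_cases h0 : H ≤ C(V)
  · exact (comm_le_left le_N).trans h0
  refine H3.der_cent_cyc (H3.cyc_of_card_dvd_prime hp ?_) hV.norm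
  rcases axis hp hV.norm ((comm_le_left hV.norm).trans e.abel) fun g hg => h.idx hp (e.pi hp) hn hg with e | e
  · rcases hV.eq_bot_or (comm_le_left hV.norm) norm_comm_right with e' | e'
    · exact absurd (cent_symm (comm_eq_bot_iff.1 e')) h0
    · exact e' ▸ e
  · rcases hV.eq_bot_or (inf_le_left : V ⊓ C(H) ≤ V) (norm_inf hV.norm (norm_C le_N)) with e' | e'
    · rwa [← inf_relIndex_left, e', relIndex_bot_left] at e
    · exact absurd (cent_symm (e'.ge.trans inf_le_right)) h0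

theorem SF.pder (h : SF H) (hp : p.Prime) (hD : PiGrp {p} ⁅H, H⁆) : Nat.card (⁅H, H⁆ : Subgroup G) ∣ p := by
  obtain ⟨P, hP⟩ := exists_sylow hp H
  have DP : ⁅H, H⁆ ≤ P := hP.nml_le ⟨comm_le_left le_N, norm_comm_left⟩ hD
  have hn : P ⊴ H := nml_of_der_le DP hP.le
  obtain ⟨R, hR⟩ := hP.exists_compl hn.norm
  have e : P ⊔ R = H := hP.sup_compl hR
  have hi : ∀ g ∈ H, C1(g).relIndex P ∣ p := fun g hg => h.idx hp hP.pi hn hg
  have phi : Φ(P) ≤ C(H) := fun m hm => mem_C.2 fun g hg => Eq.symm <| mem_C1.1 <| by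
    rcases (Nat.dvd_prime hp).1 (hi g hg) with e | e
    · exact relIndex_eq_one_iff.1 e (H3.phi_le hm)
    · rw [← inf_relIndex_left] at e
      exact (H3.phi_le_of_relIndex_prime hp hP.pi (H3.nml_of_relIndex_prime hp hP.pi inf_le_left e).norm e hm).2
  have PP : ⁅P, P⁆ ≤ C(H) := (H3.der_le_phi hp hP.pi).trans phi
  have RR : ⁅R, R⁆ = ⊥ := eq_bot_iff.2 ((le_inf
    ((comm_mono hR.le hR.le).trans DP) (comm_le_left le_N)).trans (hP.pi.inf_eq_bot hR.pi).le)
  have PR : ⁅P, R⁆ ≤ C(P) := commutator_le.2 fun m hm r hr => by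
    have rH := zpowers_le.2 (hR.le hr)
    have cp : Cop (zpowers r) P := cop_of_pi' (rH.trans hn.norm) (hR.pi.elt hr).zpowers hP.pi (Or.inr hP.pi.solv)
    have AP : P ⊓ C(zpowers r) ⊴ P := nml_of_der_le (le_inf (comm_le_left le_N) (PP.trans (C_anti rH))) inf_le_left
    have h1 : ⁅P, zpowers r⁆ ≤ C(P ⊓ C(zpowers r)) := comm_eq_bot_iff.1 (three_subgroup
      (by rw [comm_eq_bot_iff.2 (cent_symm inf_le_right), commutator_bot_left])
      (comm_eq_bot_iff.2 ((comm_le_left AP.norm).trans inf_le_right)))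
    refine (?_ : ⁅P, zpowers r⁆ ≤ C(P)) (commutator_mem_commutator hm (mem_zpowers r))
    by_cases h2 : ⁅P, zpowers r⁆ ≤ P ⊓ C(zpowers r)
    · have := cp.comm_sup
      rw [sup_eq_right.2 h2] at this
      rw [comm_eq_bot_iff.2 (this.ge.trans inf_le_right)]; exact bot_le
    obtain ⟨b, hb, bA⟩ := SetLike.not_le_iff_exists.1 h2
    have bP := comm_le_left cp.norm hb
    have h3 : (P ⊓ C(zpowers r)).relIndex P = p := by
      rw [inf_relIndex_left, C_zpowers]
      refine ((Nat.dvd_prime hp).1 (hi r (hR.le hr))).resolve_left fun e => bA ⟨bP, ?_⟩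
      rw [C_zpowers]; exact relIndex_eq_one_iff.1 e bP
    have h4 := H3.sup_zpowers_eq_of_prime (h3 ▸ hp) inf_le_left bP bA
    have h5 : b ∈ C(P) := by
      rw [← h4, C_sup]; exact ⟨h1 hb, abel_zpowers (mem_zpowers b)⟩
    conv_rhs => rw [← h4, C_sup]
    exact le_inf h1 ((comm_le_left cp.norm).trans (cent_symm (zpowers_le.2 h5)))
  have PH : ⁅P, H⁆ ≤ C(P) := by
    conv_lhs => rw [← e]
    exact comm_sup_le' (PP.trans (C_anti hP.le)) PR (norm_C le_N) (norm_C (hR.le.trans hn.norm))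
  have DH : ⁅H, H⁆ ≤ ⁅P, H⁆ := by
    have n : H ≤ N(⁅P, H⁆) := norm_comm_right
    conv_lhs => rw [← e]
    refine comm_sup_le (comm_mono le_rfl e.le) (comm_sup_le' ?_ (RR.le.trans bot_le) (hP.le.trans n)
      (hR.le.trans n)) (hP.le.trans n) (hR.le.trans n)
    rw [commutator_comm]; exact comm_mono le_rfl hR.le
  refine (card_dvd_of_le DH).trans ((axis hp hn.norm PH hi).elim id fun h1 => ?_)
  have ab : Abel P := by
    rcases (Nat.dvd_prime hp).1 h1 with e | e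
    · exact (relIndex_eq_one_iff.1 e).trans (C_anti hP.le)
    · exact H3.abel_of_relIndex_prime (inf_le_left : P ⊓ C(H) ≤ P) (inf_le_right.trans (C_anti hP.le))
        (by rwa [inf_relIndex_left, e])
  have h2 : ⁅P, H⁆ ≤ ⁅P, R⁆ := by
    conv_lhs => rw [← e]
    exact comm_sup_le' (ab.der.le.trans bot_le) le_rfl norm_comm_left norm_comm_right
  have h3 := abel_comm_inf_cent ab (hR.le.trans hn.norm) (hR.pi.coprime' hP.pi)
  have h4 := (ab.nml (comm_le_left hn.norm)).relIndex_dvd' (inf_le_left : P ⊓ C(H) ≤ P)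
  rw [inf_relIndex_left, ← inf_relIndex_right, eq_bot_iff.2 ((le_inf (inf_le_right.trans h2)
    (inf_le_left.trans (inf_le_right.trans (C_anti hR.le)))).trans h3.le :
      P ⊓ C(H) ⊓ ⁅P, H⁆ ≤ ⊥), relIndex_bot_left] at h4
  exact h4.trans h1

theorem main (n : ℕ) : ∀ (G : Type u) [Group G] [Finite G] (H : Subgroup G), Nat.card H = n → Solv H → SF H →
    Cyc ⁅H, H⁆ ∧ ∀ p : ℕ, p.Prime → ¬ p ^ 2 ∣ Nat.card (⁅H, H⁆ : Subgroup G) := by
  induction n using Nat.strong_induction_on with | _ n ih => ?_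
  intro G _ _ H hc hs h
  have DH : ⁅H, H⁆ ⊴ H := ⟨comm_le_left le_N, norm_comm_left⟩
  have IH : ∀ K, K ⊴ H → K ≠ ⊥ → Cyc (⁅H, H⁆ ⫽ K) ∧ ∀ p : ℕ, p.Prime → ¬ p ^ 2 ∣ Nat.card (⁅H, H⁆ ⫽ K) :=
    fun K hK K0 => by
      rw [mim_comm hK.norm hK.norm]
      exact ih _ (hc ▸ card_quo_lt hK K0) _ _ rfl hs.mim (h.quo hK.norm)
  have ab : Abel ⁅H, H⁆ := by
    by_cases h0 : H = ⊥
    · rw [h0, commutator_bot_left]; exact bot_le
    obtain ⟨V, hle, hV⟩ := exists_minNorm h0 le_N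
    have h1 := h.der_cent hs hV hle
    refine Abel.mono (H3.abel_of_cyc_quo (K := V) (H := ⁅H, H⁆ ⊔ V) le_sup_right ?_ ?_) le_sup_left
    · rw [C_sup]; exact le_inf (cent_symm h1) (hV.abel (hs.of_le hle))
    · rw [quo_sup_self (DH.le.trans hV.norm)]; exact (IH V ⟨hle, hV.norm⟩ hV.ne_bot).1
  have sq : ∀ p : ℕ, p.Prime → ¬ p ^ 2 ∣ Nat.card (⁅H, H⁆ : Subgroup G) := fun p hp e => by
    by_cases h0 : O[{p}ᶜ](⁅H, H⁆) = ⊥
    · have h1 := ab.nil.pcore_sup (π := {p})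
      rw [h0, sup_bot_eq] at h1
      have := Nat.le_of_dvd hp.pos (e.trans (h.pder hp (h1 ▸ pcore_pi)))
      nlinarith [hp.two_le]
    · refine (IH _ ⟨pcore_le.trans DH.le, norm_pcore DH.norm⟩ h0).2 p hp ?_
      rw [← card_quo_mul (pcore_nml (π := {p}ᶜ))] at e
      exact (Nat.Coprime.pow_left 2 ((Nat.Prime.coprime_iff_not_dvd hp).2
        ((piNat_compl_iff hp).1 pcore_pi))).dvd_of_dvd_mul_left e
  refine ⟨ab.nil.cyc_of_sylow fun p hp _ => H3.cyc_of_card_dvd_prime hp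
    (dvd_of_pi hp pcore_pi dvd_rfl fun e => sq p hp (e.trans (card_dvd_of_le pcore_le))), sq⟩

end

/-- Let G be a finite group all of whose conjugacy class sizes are square-free. Then G is supersolvable, G/F(G) and the derived subgroup G′ are cyclic of square-free order (F(G) the Fitting subgroup, which is normal), F(G) has nilpotency class at most 2, and G is metabelian. -/
theorem result {G : Type*} [Group G] [Finite G]
    (h : ∀ x : G, Squarefree (Subgroup.centralizer ({x} : Set G)).index) :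
    Cfsg.IsSupersolvable G ∧ (Cfsg.fittingSubgroup G).Normal ∧
    (∀ _h : (Cfsg.fittingSubgroup G).Normal, IsCyclic (G ⧸ Cfsg.fittingSubgroup G) ∧ Squarefree (Cfsg.fittingSubgroup G).index) ∧
    IsCyclic (commutator G) ∧ Squarefree (Nat.card (commutator G)) ∧
    Subgroup.upperCentralSeries ↥(Cfsg.fittingSubgroup G) 2 = ⊤ ∧ commutator ↥(commutator G) = ⊥ := by
  have sq : ∀ {n : ℕ}, Squarefree n → ∀ p : ℕ, p.Prime → ¬ p ^ 2 ∣ n := fun e p hp =>
    (sq p).symm ▸ Nat.squarefree_iff_prime_squarefree.1 e p hp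
  have : Group.IsSolvable G := Cfsg.Agent.S4167.result fun x => sq (h x) 2 Nat.prime_two
  obtain ⟨h1, h2⟩ := main _ G ⊤ rfl (solv_top_iff.2 this) fun p hp x _ => by rw [relIndex_top_right]; exact sq (h x) p hp
  rw [← _root_.commutator_def] at h1 h2
  set D := _root_.commutator G
  have DH : D ⊴ ⊤ := ⟨le_top, norm_comm_left⟩
  have h3 : F((⊤ : Subgroup G)) ≤ C(D) := cent_symm (h1.abel.nil.le_of_pcores fun p hp _ => by
    by_cases h0 : O[{p}](D) = ⊥
    · exact h0.le.trans bot_le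
    have e1 : O[{p}](D) ⊴ F((⊤ : Subgroup G)) :=
      ⟨pcore_le.trans (le_fit DH h1.abel.nil), le_top.trans (norm_pcore DH.norm)⟩
    refine (eq_of_idx hp bot_le (inf_le_left : O[{p}](D) ⊓ Z(F((⊤ : Subgroup G))) ≤ _) ?_).mt
      (fun e => fit_nil.meet_Z e1 h0 e.symm) |> not_not.1 |>.ge.trans (inf_le_right.trans inf_le_right)
    rw [relIndex_bot_left]
    exact dvd_of_pi hp pcore_pi dvd_rfl fun e => h2 p hp (e.trans (card_dvd_of_le pcore_le)))
  have uc : ∀ X : Subgroup G, X ≤ C(D) → Subgroup.upperCentralSeries X 2 = ⊤ := fun X e =>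
    eq_top_iff.2 fun x _ => Subgroup.mem_upperCentralSeries_succ_iff.2 fun y => by
      rw [Subgroup.upperCentralSeries_one]
      exact mem_center_iff.2 fun g => Subtype.ext (mem_C.1 (e g.2) _
        (commutator_mem_commutator (mem_top (x : G)) (mem_top (y : G)))).symm
  have h4 : F((⊤ : Subgroup G)) = C(D) := h3.antisymm (le_fit ⟨le_top, norm_C DH.norm⟩ ⟨2, uc _ le_rfl⟩)
  obtain ⟨z, hz⟩ := cyc_iff.1 h1
  have h5 : Squarefree (fittingSubgroup G).index := by rw [← fit_top, h4, ← hz, C_zpowers]; exact h z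
  have : IsCyclic D := h1
  have hF : (fittingSubgroup G).Normal := fit_top (G := G) ▸ fit_nml.normal
  have nil : ∀ (N : Subgroup G) [N.Normal], D ≤ N → Group.IsNilpotent (G ⧸ N) := fun N _ e =>
    have := Normal.quotient_commutative_iff_commutator_le.2 e
    ⟨1, by rw [Subgroup.upperCentralSeries_one, center_eq_top]⟩
  have := nil D le_rfl
  refine ⟨H2.ssolv_of_cyclic_normal D H2.ssolv_of_nilpotent, hF, fun _ => ⟨?_, h5⟩, h1,
    Nat.squarefree_iff_prime_squarefree.2 fun p hp => _root_.sq p ▸ h2 p hp, uc _ (fit_top (G := G) ▸ h3), ?_⟩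
  · have := IsZGroup.of_squarefree (G := G ⧸ fittingSubgroup G) h5
    have := nil (fittingSubgroup G) (fit_top (G := G) ▸ le_fit DH h1.abel.nil)
    infer_instance
  · exact (commutator_eq_bot_iff D).2 h1.abel.comm

end Cfsg.Agent.S4130
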