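import Cfsg.Statements.S4138
import Cfsg.Agent.H23.Cls2

set_option autoImplicit false
open Cfsg

namespace Cfsg.Agent.S4138

open H18 H23.Cls H117 Subgroup

section
variable {G : Type*} [Group G] [Finite G] {a b g u v w x y z : G} {m n : ℕ}

def St (b : G) : Subgroup G where
  carrier := {k | ∀ z, IsConj b (k * z) ↔ IsConj b z}
  one_mem' := by simp
  mul_mem' := fun h h' z => by rw [mul_assoc, h, h']
  inv_mem' := fun h z => by rw [← h, mul_inv_cancel_left]

instance : (St b).Normal := ⟨fun k h g z => by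
  have e : ∀ u, IsConj b (g * u * g⁻¹) ↔ IsConj b u := fun u =>
    ⟨fun e => e.trans (isConj_iff.2 ⟨g, rfl⟩).symm, fun e => e.trans (isConj_iff.2 ⟨g, rfl⟩)⟩
  rw [show g * k * g⁻¹ * z = g * (k * (g⁻¹ * z * g)) * g⁻¹ by group, e, h, ← e]; simp [mul_assoc]⟩

theorem card_St : Nat.card (St b) ∣ C1(b).index := by
  rw [← H22.ncard_isConj, ← Nat.card_coe_set_eq, show {y | IsConj b y} = QuotientGroup.mk ⁻¹' (QuotientGroup.mk (s := St b) '' {y | IsConj b y})
    from (Set.subset_preimage_image _ _).antisymm fun w ⟨z, h, e⟩ => by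
      simpa using (conj_mem norm_of_normal (mem_top z) (QuotientGroup.eq.1 e) z).2 h, QuotientGroup.card_preimage_mk]
  exact dvd_mul_right _ _

theorem mem_St (c : C1(a).index.Coprime C1(b).index) (h : C1(a * b).index ≤ C1(b).index) (g : G) : g * a * g⁻¹ * a⁻¹ ∈ St b := by
  have : ∀ g, (g * a * g⁻¹ * ·) '' {y | IsConj b y} = {y | IsConj (a * b) y} := fun g => Set.eq_of_subset_of_ncard_le (by
    rintro _ ⟨_, e, rfl⟩
    obtain ⟨k, rfl⟩ := isConj_iff.1 e
    obtain ⟨c, hc, d, hd, e⟩ := H22.exists_mul_of_coprime_index c (g⁻¹ * k)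
    refine isConj_iff.2 ⟨g * c, ?_⟩
    rw [inv_mul_eq_iff_eq_mul.1 e]
    calc _ = g * (c * a * c⁻¹) * c * b * c⁻¹ * g⁻¹ := by group
      _ = g * a * c * (d * b * d⁻¹) * c⁻¹ * g⁻¹ := by rw [conj_eq_self_of_C1 hc, conj_eq_self_of_C1 hd]
      _ = _ := by group) (by rwa [Set.ncard_image_of_injective _ (mul_right_injective _), H22.ncard_isConj, H22.ncard_isConj])
  have e : a⁻¹ * (g * a * g⁻¹) ∈ St b := fun z => by
    simpa [← mul_assoc] using (Set.ext_iff.1 ((this 1).trans (this g).symm) (g * a * g⁻¹ * z))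
  simpa [mul_assoc] using conj_mem norm_of_normal (mem_top a) e

variable (G m) in
def K : Subgroup G := ⨅ b : {b : G // C1(b).index = m}, St b.1
instance : (K G m).Normal := normal_iInf_normal fun _ => inferInstance

variable (G m n) in
structure T : Prop where
  lt : n < m
  one : 1 < n
  cop : m.Coprime n
  top : ∀ z : G, C1(z).index ≤ m
  sec : ∀ z : G, C1(z).index < m → C1(z).index ≤ n
  ex : ∃ x : G, C1(x).index = n
  ey : ∃ x : G, C1(x).index = m

namespace T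
variable (h : T G m n)
include h

theorem card_K : Nat.card (K G m) ∣ m := h.ey.elim fun y e =>
  ((card_dvd (iInf_le (fun b : {b : G // C1(b).index = m} => St b.1) ⟨y, e⟩)).trans card_St).trans e.dvd
theorem piK : PiGrp (primes m) (K G m) := piNat_primes.of_dvd h.card_K
theorem pin : PiNat (primes m)ᶜ n := piNat_of_coprime' h.cop
theorem memK (c : C1(a).index.Coprime m) (g : G) : g * a * g⁻¹ * a⁻¹ ∈ K G m :=
  mem_iInf.2 fun b => mem_St (b.2.symm ▸ c) (b.2.symm ▸ h.top _) g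
theorem cK (c : C1(a).index.Coprime m) : K G m ≤ C1(a) :=
  relIndex_eq_one_iff.1 (Nat.eq_one_of_dvd_coprimes c rel_dvd (relIndex_dvd.trans h.card_K))
theorem l3 (pu : PiElt (primes m)ᶜ u) (c : C1(u).index ∣ n) : u ∈ center G :=
  have c := h.cop.symm.coprime_dvd_left c
  cen_of fun g _ => C1_of_comm h.piK.compl_compl (le_C1_iff.1 (h.cK c)) pu (h.memK c g)
theorem part (hx : C1(x).index = n) : C1(piPart (primes m) x) = C1(x) := by
  rw [← C1_mul_cen (h.l3 (piElt_piPart (x := x)) ((index_dvd_of_le C1_le_piPart).trans hx.dvd)), piPart_mul_compl]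
theorem l4 (hx : C1(x).index = n) (hu : u ∈ C1(x)) (pu : PiElt (primes m)ᶜ u) : u ∈ center G := by
  have e := C1_mul (mem_C1.1 (h.part hx |>.ge hu)).symm piElt_piPart pu
  rw [h.part hx] at e
  have a := e.le.trans inf_le_left
  have := C1_eq a (hx ▸ h.sec _ ((h.top _).lt_of_ne fun d => h.one.ne' (Nat.eq_one_of_dvd_coprimes h.cop
    (d ▸ hx ▸ index_dvd_of_le a) dvd_rfl)))
  exact h.l3 pu (hx ▸ index_dvd_of_le (this.ge.trans (e.le.trans inf_le_right)))
theorem l5 (hz : z ∉ center G) (c : C1(z).index ∣ m) : C1(z).index = m := by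
  obtain ⟨x, hx⟩ := h.ex
  have c' : C1(z).index.Coprime C1(x).index := hx ▸ h.cop.coprime_dvd_left c
  refine Nat.dvd_antisymm c (h.cop.dvd_of_dvd_mul_right ?_)
  rw [← hx, ← H22.index_inf_of_coprime c', ← (h.top (z * x)).eq_of_not_lt fun d => hz (cen_of fun g _ => ?_)]
  · exact index_dvd_of_le fun g e => mem_C1.2 (by rw [← mul_assoc, mem_C1.1 e.1, mul_assoc, mem_C1.1 e.2, mul_assoc])
  have a := mem_St c' (hx ▸ h.sec _ d) g
  obtain ⟨k, e⟩ := isConj_iff.1 ((a x).2 (IsConj.refl x))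
  have b := h.memK (a := x) (hx ▸ h.cop.symm) k
  rw [e, mul_inv_cancel_right] at b
  exact mem_C1.2 (mul_inv_eq_iff_eq_mul.1 (mul_inv_eq_one.1 ((PiGrp.elt (h.pin.of_dvd (card_St.trans hx.dvd)) a).eq_one' (h.piK.elt b).compl_compl)))
theorem l5' (hb : C1(b).index = m) (hz : z ∉ center G) (c : C1(b) ≤ C1(z)) : C1(b) = C1(z) :=
  C1_eq c (hb.trans (h.l5 hz (hb ▸ index_dvd_of_le c)).symm).le
theorem l5c {π : Set ℕ} (hb : C1(b).index = m) (pb : PiElt π b) (pz : PiElt πᶜ z) (c : z ∈ C1(b)) : C1(b) ≤ C1(z) := by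
  have e := C1_mul (mem_C1.1 c).symm pb pz
  exact (C1_eq (e.le.trans inf_le_left) (hb ▸ h.top _)).ge.trans (e.le.trans inf_le_right)
theorem l6 (hb : C1(b).index = m) : ∃ v, PiElt (primes m)ᶜ v ∧ v ∉ center G ∧ C1(b) = C1(v) := by
  by_cases e : piPart (primes m)ᶜ b ∈ center G; swap
  · exact ⟨_, piElt_piPart, e, h.l5' hb e C1_le_piPart⟩
  obtain ⟨x, hx⟩ := h.ex
  obtain ⟨p, hp, d⟩ := Nat.exists_prime_and_dvd h.one.ne'
  obtain ⟨v, h1, h2, h3⟩ := exists_pElt_not_mem hp (B := C1(x)) (H := C1(b)) (by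
    rwa [H22.relIndex_eq_index_of_coprime (hx ▸ hb ▸ h.cop.symm), hx])
  have a : C1(piPart (primes m) b) = C1(b) := by rw [← C1_mul_cen e, piPart_mul_compl]
  have c := PiNat.of_p h2 (h.pin p hp d)
  have z : v ∉ center G := fun e => h3 (mem_C1_comm.1 (cen_le e (mem_top x)))
  exact ⟨v, c, z, h.l5' hb z (a.ge.trans (h.l5c (a ▸ hb) piElt_piPart c (a.ge h1)))⟩
theorem l6b (hx : C1(x).index = n) (hb : C1(b).index = m) : b ∉ C1(x) := fun e => by
  obtain ⟨v, h1, h2, h3⟩ := h.l6 hb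
  exact h2 (h.l4 hx (mem_C1_comm.1 (h3.le (mem_C1_comm.1 e))) h1)
theorem inf (hx : C1(x).index = n) (hb : C1(b).index = m) : C1(x) ⊓ C1(b) = center G :=
  le_antisymm (fun z hz => mem_of_parts (π := primes m) (by_contra fun e => by
    obtain ⟨v, h1, h2, h3⟩ := h.l6 hb
    exact h.l6b hx (h.l5 e ((index_dvd_of_le (h3.le.trans (h.l5c (h3 ▸ hb) h1 piElt_piPart.compl_compl
      (h3.le (piPart_mem hz.2))))).trans hb.dvd))
      (piPart_mem hz.1)) (h.l4 hx (piPart_mem hz.1) piElt_piPart))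
    fun z hz => ⟨mem_C1_comm.1 (cen_le hz (mem_top x)), mem_C1_comm.1 (cen_le hz (mem_top b))⟩
theorem reln (hb : C1(b).index = m) : (center G).relIndex C1(b) = n := h.ex.elim fun x hx => by
  rw [← h.inf hx hb, relIndex_inf_right, H22.relIndex_eq_index_of_coprime (hx ▸ hb ▸ h.cop.symm), hx]
theorem relm (hx : C1(x).index = n) : (center G).relIndex C1(x) = m := h.ey.elim fun b hb => by
  rw [← h.inf hx hb, relIndex_inf_left, H22.relIndex_eq_index_of_coprime (hx ▸ hb ▸ h.cop), hb]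
theorem partm (hb : C1(b).index = m) (hg : g ∈ C1(b)) : C1(piPart (primes m)ᶜ g) = C1(g) := by
  rw [← C1_mul_cen (piElt_piPart.mem_of_nml (piPart_mem hg) (nml_top.of_le (h.ex.elim fun x hx => (h.inf hx hb).ge.trans inf_le_right)
    le_top) (h.reln hb ▸ h.pin)), piPart_compl_mul]
theorem ixn (hy : C1(y).index = m) (e : C1(w) ⊓ C1(y) ≤ center G) (d : C1(w).index ≠ m) : C1(w).index = n := by
  refine (h.sec _ ((h.top _).lt_of_ne d)).antisymm ?_
  rw [← h.reln hy, ← relIndex_top_right]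
  exact ((relIndex_le_of_le_left e relIndex_ne_zero).trans_eq relIndex_inf_right).trans (relIndex_le_of_le_right le_top relIndex_ne_zero)
theorem l7 (hy : C1(y).index = m) (hg : g ∈ C1(y)) (pg : PiElt (primes m)ᶜ g) (gZ : g ∉ center G) : C1(g).index = m := by
  obtain ⟨x, hx, px⟩ : ∃ x : G, C1(x).index = n ∧ PiElt (primes m) x := h.ex.elim fun x e => ⟨_, h.part e ▸ e, piElt_piPart⟩
  have c : C1(x).index.Coprime m := hx ▸ h.cop.symm
  have a : g * (piPart (primes m)ᶜ (g * x))⁻¹ ∈ K G m := by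
    let f := QuotientGroup.mk' (K G m)
    have e : ∀ {u}, f u = 1 ↔ u ∈ K G m := QuotientGroup.eq_one_iff _
    have o : ∀ {π u}, PiElt π u → PiElt π (f u) := fun a => a.of_dvd (orderOf_map_dvd f _)
    rw [← e, map_mul, map_inv, mul_inv_eq_one, ← piPart_eq (mul_inv_eq_iff_eq_mul.1 (mul_inv_eq_one.1 (by
      simpa using e.2 (h.memK c g)))) (o pg) (o px.compl_compl), ← map_mul, ← piPart_compl_mul (π := primes m) (x := g * x), map_mul,
      piPart_eq (by rw [← map_mul, piPart_comm_piPart, map_mul]) (o piElt_piPart) (o piElt_piPart.compl_compl), piPart_compl_mul]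
  by_cases d : C1(g * x).index = m
  · have e := ((mem_iInf.1 a ⟨_, h.partm d C1_self ▸ d⟩) _).2 (IsConj.refl _)
    rw [inv_mul_cancel_right] at e
    rw [← H22.index_centralizer_eq_of_isConj e, h.partm d C1_self, d]
  have i := h.ixn hy (fun k hk => ?_) d
  · have z := h.l3 (piElt_piPart (x := g * x)) (i ▸ index_dvd_of_le C1_le_piPart)
    exact (gZ (mul_inv_eq_one.1 ((pg.mul' piElt_piPart.inv (mem_center_iff.1 (inv_mem z) g)).eq_one' (h.piK.elt a).compl_compl) ▸ z)).elim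
  have e : k * g * k⁻¹ * g⁻¹ = g * (k * x * k⁻¹ * x⁻¹)⁻¹ * g⁻¹ := by
    calc _ = k * (g * x) * x⁻¹ * k⁻¹ * g⁻¹ := by group
      _ = _ := by rw [mem_C1.1 hk.1]; group
  have s : k * g * k⁻¹ * g⁻¹ ∈ K G m := e ▸ conj_mem norm_of_normal (mem_top g) (inv_mem (h.memK c k))
  have z := (h.inf hx hy).le ⟨h.cK c s, mul_mem (conj_mem le_N hk.2 hg) (C1(y).inv_mem hg)⟩
  have kg := C1_of_comm (K := K G m ⊓ center G) h.piK.inf_left.compl_compl (le_C1_iff.1 fun u hu =>
    mem_C1_comm.1 (cen_le hu.2 (mem_top g))) pg ⟨s, z⟩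
  refine (h.inf hx hy).le ⟨mem_C1.2 (mul_left_cancel (a := g) ?_), hk.2⟩
  rw [← mul_assoc, ← mem_C1.1 kg, mul_assoc, mem_C1.1 hk.1, mul_assoc]
theorem l8 (hy : C1(y).index = m) (hg : g ∈ C1(y)) (gZ : g ∉ center G) : C1(g) = C1(y) := by
  obtain ⟨v, h1, h2, h3⟩ := h.l6 hy
  have e := h.partm hy hg
  set u := piPart (primes m)ᶜ g
  have c : zpowers u ≤ C(zpowers v) := zpowers_le.2 (C_zpowers.ge (h3.le (piPart_mem hg)))
  have pA := (piElt_piPart.zpowers.sup_norm h1.zpowers (cent_norm c) :)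
  have le : zpowers u ⊔ zpowers v ≤ C1(y) := sup_le (zpowers_le.2 (piPart_mem hg)) (zpowers_le.2 (h3.ge C1_self))
  by_contra d
  obtain ⟨x, hx⟩ := h.ex
  refine h.one.ne' (hx ▸ center_iff_index.1 (cen_of fun k _ => mem_C1.2 (mul_inv_eq_iff_eq_mul.1 (mul_inv_eq_one.1 (mem_bot.1
    (coprime_abelian_gen_cent (abel_zpowers.sup abel_zpowers c) norm_of_normal (pA.coprime' h.piK) ?_
      (h.memK (a := x) (hx ▸ h.cop.symm) k)))))))
  rintro B hB ⟨a, ha, s⟩ k hk
  by_cases f : B ≤ center G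
  · have i : ∀ w ∈ zpowers u ⊔ zpowers v, C1(a) ≤ C1(w) := fun w hw => le_C1_iff.2 ((sup_le (fun z hz => le_C1_iff.1 (cen_le (f hz)))
      (zpowers_le.2 (le_C1_iff.1 le_rfl)) : B ⊔ zpowers a ≤ _) (s.ge hw))
    have aZ : a ∉ center G := fun z => h2 (cen_of ((cen_le z).trans (i v (mem_sup_right (mem_zpowers v)))))
    have := h.l7 hy (le ha) (pA.elt ha) aZ
    exact (d (e.symm.trans ((h.l5' this (fun z => gZ (cen_of ((cen_le z).trans e.le))) (i u (mem_sup_left (mem_zpowers u)))).symm.trans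
      ((h.l5' this h2 (i v (mem_sup_right (mem_zpowers v)))).trans h3.symm)))).elim
  obtain ⟨b, h4, h5⟩ := SetLike.not_le_iff_exists.1 f
  obtain ⟨t, j⟩ := isConj_iff.1 (((mem_iInf.1 hk.1 ⟨b, h.l7 hy (le (hB h4)) (pA.elt (hB h4)) h5⟩) b).2 (IsConj.refl _))
  exact (h.piK.elt hk.1).eq_one' (PiElt.of_mem_zpowers (j ▸ (pA.elt (hB h4)).conj t)
    (mem_zpowers_mul_left (mem_C.1 hk.2 b h4).symm (h.piK.elt hk.1) (pA.elt (hB h4))))
theorem l9 (hx : C1(x).index = n) (hw : w ∈ C1(x)) (wZ : w ∉ center G) : C1(w).index = n := h.ey.elim fun y hy =>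
  h.ixn hy (fun z hz => by_contra fun e => wZ ((h.inf hx hy).le ⟨hw, (h.l8 hy hz.2 e).le (mem_C1_comm.1 hz.1)⟩)) fun e => h.l6b hx e hw
theorem nml (hx : C1(x).index = n) : C1(x).Normal := ⟨fun w hw g => by
  by_cases e : w ∈ center G
  · rwa [conj_eq_self_of_C1 (cen_le e (mem_top g))]
  simpa using mul_mem (h.cK (hx ▸ h.cop.symm) (h.memK (a := w) (h.l9 hx hw e ▸ h.cop.symm) g)) hw⟩
theorem qf (hx : C1(x).index = n) (hy : C1(y).index = m) : QF C1(x) C1(y) :=
  have c : C1(x).index.Coprime C1(y).index := hx ▸ hy ▸ h.cop.symm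
  ⟨h.nml hx, H22.sup_eq_top_of_coprime_index c, ⟨x, C1_self, fun e => h.one.ne' (hx ▸ center_iff_index.1 e)⟩,
    ⟨y, C1_self, fun e => (h.one.trans h.lt).ne' (hy ▸ center_iff_index.1 e)⟩, fun w hw e => C1_eq (relIndex_eq_one_iff.1
      (Nat.eq_one_of_dvd_coprimes h.cop (h.relm (h.l9 hx hw e) ▸ relIndex_dvd_left ((h.inf hx hy).ge.trans inf_le_left))
      (have := h.nml hx; hx ▸ relIndex_dvd_index_of_normal _ _))) ((h.l9 hx hw e).trans hx.symm).le, fun _ => h.l8 hy, c⟩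
end T
end

/-- Let G be a finite group whose two largest conjugacy class sizes m > n > 1 are coprime, and let x, y ∈ G have classes of sizes n and m respectively. Then C_G(x) and C_G(y) are abelian, and G/Z(G) is a Frobenius group with kernel C_G(x)/Z(G) and complement C_G(y)/Z(G). -/
theorem result {G : Type*} [Group G] [Finite G] (m n : ℕ) (hmn : n < m) (hn : 1 < n)
    (hcop : m.Coprime n) (htop : ∀ z : G, (Subgroup.centralizer ({z} : Set G)).index ≤ m) (hsecond : ∀ z : G, (Subgroup.centralizer ({z} : Set G)).index < m → (Subgroup.centralizer ({z} : Set G)).index ≤ n)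
    (x y : G) (hx : (Subgroup.centralizer ({x} : Set G)).index = n) (hy : (Subgroup.centralizer ({y} : Set G)).index = m) :
    IsMulCommutative (Subgroup.centralizer ({x} : Set G)) ∧ IsMulCommutative (Subgroup.centralizer ({y} : Set G)) ∧
    Cfsg.IsFrobeniusComplement ((Subgroup.centralizer ({y} : Set G)).map (QuotientGroup.mk' (Subgroup.center G))) ∧
    Cfsg.frobeniusKernel ((Subgroup.centralizer ({y} : Set G)).map (QuotientGroup.mk' (Subgroup.center G))) =
      ((Subgroup.centralizer ({x} : Set G)).map (QuotientGroup.mk' (Subgroup.center G)) : Set (G ⧸ Subgroup.center G)) := by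
  have h := T.qf ⟨hmn, hn, hcop, htop, hsecond, ⟨x, hx⟩, y, hy⟩ hx hy
  exact ⟨(abel_of_C1 h.cK).comm, (abel_of_C1 h.cH).comm, frob_ker h.frob⟩

end Cfsg.Agent.S4138
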