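import Cfsg.Statements.S4139
import Cfsg.Agent.H23.Cls2

set_option autoImplicit false
open Cfsg

namespace Cfsg.Agent.S4139

open H18 H23.Cls H117 Subgroup
universe u

open Classical in
theorem cnt {G : Type*} [Group G] [Finite G] [Fintype (ConjClasses G)] (P : ℕ → Prop) :
    Nat.card {x : G | P C1(x).index} = ∑ C : ConjClasses G, if P (Nat.card C.carrier) then Nat.card C.carrier else 0 := by
  have := Fintype.ofFinite G
  rw [Nat.card_eq_fintype_card, Fintype.card_subtype, Finset.card_eq_sum_card_fiberwise (f := ConjClasses.mk) (t := Finset.univ) (by simp)]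
  refine Finset.sum_congr rfl fun C _ => ?_
  have e : ∀ x, ConjClasses.mk x = C → C1(x).index = Nat.card C.carrier := fun x e => e ▸ (H22.natCard_carrier_mk x).symm
  split_ifs with h
  · rw [Nat.card_eq_fintype_card, Fintype.card_subtype]
    exact congrArg _ (Finset.ext fun x => by simpa [ConjClasses.mem_carrier_iff_mk_eq] using fun a => e x a ▸ h)
  · exact Finset.card_eq_zero.2 (Finset.eq_empty_of_forall_notMem fun x => by simpa using fun a b => h (e x b ▸ a))

theorem aux {p : ℕ} (hp : p.Prime) (n : ℕ) : ∀ (G : Type u) [Group G] [Finite G] (P : Subgroup G), Nat.card G = n → Hall {p} P ⊤ →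
    Nat.card P ∣ Nat.card {x : G | PiNat {p} C1(x).index} → ⊤ ≤ N(P) := by
  induction n using Nat.strong_induction_on with
  | _ n ih =>
  intro G _ _ P hn hP h
  classical
  by_cases e : P = ⊥
  · simp [e]
  have := Fintype.ofFinite (ConjClasses G)
  have a : Nat.card {x : G | PiNat {p} C1(x).index} ≡ Nat.card {x : G | C1(x).index = 1} [MOD p] := by
    rw [cnt, cnt (· = 1)]
    refine Nat.ModEq.sum fun C _ => ?_
    by_cases d : Nat.card C.carrier = 1
    · simp [d, PiNat.one]; rfl
    rw [if_neg d]
    split_ifs with b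
    · obtain ⟨x, rfl⟩ := C.exists_rep
      rw [H22.natCard_carrier_mk] at b d ⊢
      obtain ⟨k, c⟩ := b.eq_pow ix_pos.ne'
      exact (Nat.modEq_zero_iff_dvd.2 (c ▸ dvd_pow_self p fun f => d (by rw [c, f, pow_zero])))
    · rfl
  rw [show {x : G | C1(x).index = 1} = center G from Set.ext fun _ => center_iff_index.symm] at a
  obtain ⟨X, hX, c⟩ := cauchy_sub hp ((a.dvd_iff dvd_rfl).1 ((hP.pi.dvd_card e).trans h))
  have cX : ⊤ ≤ C(X) := cent_symm fun z hz => le_C1_iff.1 (cen_le (hX hz))
  haveI := norm_top_iff.1 (cent_norm cX)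
  have pX := piGrp_of_prime hp c
  have XP := hP.nml_le nml_top pX
  let f := QuotientGroup.mk' X
  have s : Function.Surjective f := QuotientGroup.mk'_surjective _
  have b : {x : G | PiNat {p} C1(x).index} = QuotientGroup.mk ⁻¹' {x : G ⧸ X | PiNat {p} C1(x).index} := Set.ext fun x => by
    have d : C1(x) ≤ C1(f x).comap f := fun g hg => mem_C1.2 (by rw [← map_mul, mem_C1.1 hg, map_mul])
    change PiNat _ _ ↔ PiNat _ C1(f x).index
    rw [← relIndex_mul_index d, index_comap_of_surjective _ s, piNat_mul]
    refine and_iff_right fun q hq i => by_contra fun j => ?_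
    obtain ⟨g, h1, h2, h3⟩ := exists_pElt_not_mem hq i
    refine h3 (mem_C1_comm.1 (C1_of_comm pX.compl_compl (cX (mem_top g)) (h2.p'_of_ne j) ((QuotientGroup.eq_one_iff _).1 ?_)))
    change f _ = 1
    rw [map_mul, map_mul, map_mul, ← mem_C1.1 h1]; simp
  have i : Nat.card X * Nat.card (P.map f) = Nat.card P := by
    rw [← relIndex_ker, QuotientGroup.ker_mk', card_mul_relIndex XP]
  rw [b, QuotientGroup.card_preimage_mk, ← i] at h
  have := norm_top_iff.1 (ih _ (hn ▸ (card_eq_card_quotient_mul_card_subgroup X).symm ▸ lt_mul_of_one_lt_right Nat.card_pos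
    (c ▸ hp.one_lt)) (G ⧸ X) (P.map f) rfl ⟨le_top, hP.pi.of_dvd (card_map_dvd _ _), by
      simpa [index_map_eq _ s (by simpa [f])] using hP.idx⟩ (Nat.dvd_of_mul_dvd_mul_left card_pos' h))
  exact norm_top_iff.2 (comap_map_eq_self (f := f) (by simpa [f]) ▸ this.comap f)

/-- Let G and H be finite groups such that for every natural number k, G and H have the same number of conjugacy classes of size k. If H is nilpotent then G is nilpotent. -/
theorem result {G H : Type*} [Group G] [Finite G] [Group H] [Finite H]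
    (hH : Group.IsNilpotent H)
    (h : ∀ k : ℕ, Nat.card {C : ConjClasses G // Nat.card C.carrier = k} = Nat.card {C : ConjClasses H // Nat.card C.carrier = k}) :
    Group.IsNilpotent G := by
  classical
  have := Fintype.ofFinite (ConjClasses G)
  have := Fintype.ofFinite (ConjClasses H)
  have e : ∀ P : ℕ → Prop, Nat.card {x : G | P C1(x).index} = Nat.card {x : H | P C1(x).index} := fun P => by
    rw [cnt, cnt]
    exact Fintype.sum_equiv (Equiv.ofFiberEquiv fun k => (Finite.card_eq.1 (h k)).some) _ _ fun C => by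
      rw [Equiv.ofFiberEquiv_map (f := fun C : ConjClasses G => Nat.card C.carrier) (g := fun C : ConjClasses H => Nat.card C.carrier)]
  have c : Nat.card G = Nat.card H := by simpa using e fun _ => True
  refine nil_top_iff.1 (nil_of_sylow_norm fun p hp _ => (exists_sylow hp ⊤).imp fun P hP => ⟨hP, aux hp _ G P rfl hP ?_⟩)
  have n := nil_top_iff.2 hH
  rw [e, show {x : H | PiNat {p} C1(x).index} = C(O[{p}ᶜ]((⊤ : Subgroup H))) from Set.ext fun x => ⟨fun a => le_C1_iff.1
    (pcore_pi.le_of_relIndex ((a.of_dvd (by simpa using pcore_nml.relIndex_dvd' le_top)).compl_compl)), fun a => by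
    simpa using (n.pcore_hall.idx_of_le (le_C1_iff.2 a)).of_compl_compl⟩]
  exact ((n.pcore_hall (π := {p})).dvd_of_piNat hP.pi (by simpa [← c] using P.card_subgroup_dvd_card)).trans (card_dvd pcore_cent_compl)

end Cfsg.Agent.S4139
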