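import Cfsg.Statements.S4150
import Cfsg.Agent.H23.Cyc
import Cfsg.Agent.H23.Primes

set_option autoImplicit false
open Cfsg

namespace Cfsg.Agent.S4150

open Equiv Equiv.Perm

/-- Let m ≥ 5. Then there are primes p < q with m/2 ≤ p and q ≤ m such that any two elements x, y of the alternating group of degree m with x of order p and y of order q generate a subgroup isomorphic to an alternating group of some degree d ≥ 5. -/
theorem result (m : ℕ) (hm : 5 ≤ m) :
    ∃ p q : ℕ, p.Prime ∧ q.Prime ∧ m ≤ 2 * p ∧ p < q ∧ q ≤ m ∧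
      ∀ x y : alternatingGroup (Fin m), orderOf x = p → orderOf y = q →
        ∃ d : ℕ, 5 ≤ d ∧ Nonempty (Subgroup.closure ({x, y} : Set (alternatingGroup (Fin m))) ≃* alternatingGroup (Fin d)) := by
  have key : ∀ p q : ℕ, p.Prime → q.Prime → m ≤ 2 * p → p < q → q ≤ m →
      (∀ x y : Perm (Fin m), orderOf x = p → orderOf y = q →
        ∃ d : ℕ, 5 ≤ d ∧ Nonempty (Subgroup.closure {x, y} ≃* alternatingGroup (Fin d))) →
      ∃ p q : ℕ, p.Prime ∧ q.Prime ∧ m ≤ 2 * p ∧ p < q ∧ q ≤ m ∧
      ∀ x y : alternatingGroup (Fin m), orderOf x = p → orderOf y = q → ∃ d : ℕ, 5 ≤ d ∧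
        Nonempty (Subgroup.closure ({x, y} : Set (alternatingGroup (Fin m))) ≃* alternatingGroup (Fin d)) :=
    fun p q a1 a2 a3 a4 a5 h => ⟨p, q, a1, a2, a3, a4, a5, fun x y hx hy => by
      obtain ⟨d, h1, ⟨e⟩⟩ := h x y (by rw [Subgroup.orderOf_coe, hx]) (by rw [Subgroup.orderOf_coe, hy])
      exact ⟨d, h1, ⟨(H23.closure_iso_map _ (alternatingGroup (Fin m)).subtype_injective x y).some.trans e⟩⟩⟩
  have key2 : ∀ p q : ℕ, p.Prime → q.Prime → m ≤ 2 * p → p < q → q ≤ m → (p + 3 ≤ q ∨ p = 3 ∨ p = 5 ∨ p = 11) →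
      (m < 2 * p ∨ q + 3 ≤ m) → ∀ x y : Perm (Fin m), orderOf x = p → orderOf y = q →
        ∃ d : ℕ, 5 ≤ d ∧ Nonempty (Subgroup.closure {x, y} ≃* alternatingGroup (Fin d)) :=
    fun p q a1 a2 a3 a4 a5 a6 a7 x y hx hy => by
      refine H23.closure_iso_alt a1 a2 hx hy (by omega) a4 (by simpa using a3) ?_
      obtain ⟨n, hn⟩ := cycleType_prime_order (σ := x) (hx ▸ a1)
      have b1 := x.sum_cycleType
      have b2 := x.support.card_le_univ
      rw [hn, hx, Multiset.sum_replicate, smul_eq_mul] at b1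
      rw [Fintype.card_fin] at b2
      rcases n with _ | n
      · exact Or.inl ⟨card_cycleType_eq_one.1 (by simp [hn]), a6⟩
      · have : 2 * p ≤ x.support.card := b1 ▸ Nat.mul_le_mul_right _ (by omega)
        exact Or.inr (by omega)
  by_cases h : m = 6
  · exact key 3 5 (by norm_num) (by norm_num) (by omega) (by omega) (by omega)
      fun x y => H23.closure_iso_alt_six (by simp [h])
  have key3 := fun p q a1 a2 a3 a4 a5 a6 a7 => key p q a1 a2 a3 a4 a5 (key2 p q a1 a2 a3 a4 a5 a6 a7)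
  by_cases h : m = 5
  · exact key3 3 5 (by norm_num) (by norm_num) (by omega) (by omega) (by omega) (by omega) (by omega)
  by_cases h : m ≤ 10
  · exact key3 5 7 (by norm_num) (by norm_num) (by omega) (by omega) (by omega) (by omega) (by omega)
  by_cases h : m ≤ 14
  · exact key3 7 11 (by norm_num) (by norm_num) (by omega) (by omega) (by omega) (by omega) (by omega)
  by_cases h : m ≤ 16
  · exact key3 11 13 (by norm_num) (by norm_num) (by omega) (by omega) (by omega) (by omega) (by omega)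
  obtain ⟨p, q, h1, h2, h3, h4, h5⟩ := H23.exists_two_primes m (by omega)
  exact key3 p q h1 h2 (by omega) (by omega) h5 (by omega) (by omega)

end Cfsg.Agent.S4150
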