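import Cfsg.Statements.S4153
import Cfsg.Agent.H22.Misc2

set_option autoImplicit false
open Cfsg

namespace Cfsg.Agent.S4153

/-- Let G be a finite group, p a prime, N a normal subgroup, P a Sylow p-subgroup of G and P̄ a Sylow p-subgroup of G/N. Count the elements of p-power order, the identity included. Then (number of such elements of G/N)/#P̄ ≤ (number of such elements of G)/#P, stated as a cross-multiplied inequality, with equality when N is central. -/
theorem result {G : Type*} [Group G] [Finite G] (p : ℕ) [Fact p.Prime] (N : Subgroup G) [N.Normal]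
    (P : Sylow p G) (Pbar : Sylow p (G ⧸ N)) :
    Nat.card {g : (G ⧸ N) // ∃ k : ℕ, orderOf g = p ^ k} * Nat.card (P : Subgroup G) ≤ Nat.card {g : G // ∃ k : ℕ, orderOf g = p ^ k} * Nat.card (Pbar : Subgroup (G ⧸ N)) ∧
    (N ≤ Subgroup.center G → Nat.card {g : (G ⧸ N) // ∃ k : ℕ, orderOf g = p ^ k} * Nat.card (P : Subgroup G) = Nat.card {g : G // ∃ k : ℕ, orderOf g = p ^ k} * Nat.card (Pbar : Subgroup (G ⧸ N))) := by
  have hp : p.Prime := Fact.out
  set S : Set G := {g : G | ∃ k : ℕ, orderOf g = p ^ k} with hS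
  set T : Set (G ⧸ N) := {g | ∃ k : ℕ, orderOf g = p ^ k} with hT
  show T.ncard * _ ≤ S.ncard * _ ∧ (_ → T.ncard * _ = S.ncard * _)
  have hP : Nat.card (P : Subgroup G) =
      p ^ (Nat.card N).factorization p * Nat.card (Pbar : Subgroup (G ⧸ N)) := by
    rw [P.card_eq_multiplicity, Pbar.card_eq_multiplicity, ← pow_add,
      Subgroup.card_eq_card_quotient_mul_card_subgroup N,
      Nat.factorization_mul Nat.card_pos.ne' Nat.card_pos.ne', add_comm]
    rfl
  rw [hP, ← mul_assoc]
  constructor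
  · refine Nat.mul_le_mul_right _ (H22.mul_le_ncard_of_fibers (QuotientGroup.mk' N) S T
      (Set.toFinite _) _ fun b hb => ?_)
    obtain ⟨b, rfl⟩ := QuotientGroup.mk'_surjective N b
    obtain ⟨g, -, hg, hgo⟩ := H22.exists_p_lift (QuotientGroup.mk' N) hp b hb
    obtain ⟨R, hR⟩ := H22.exists_sylow_mem hgo
    have hS := (H2.sylIn_top R).inf_of_normal (N := N) le_top Subgroup.le_normalizer_of_normal
    rw [← hS.card, ← H22.ncard_leftCoset _ g]
    refine Set.ncard_le_ncard fun y hy => ?_
    obtain ⟨h1, h2⟩ := Subgroup.mem_inf.mp hy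
    refine ⟨H22.orderOf_eq_pow_of_mem R.isPGroup' (by simpa using Subgroup.mul_mem _ hR h1), ?_⟩
    rw [← hg]
    exact (QuotientGroup.eq.mpr h2).symm
  · intro hN
    congr 1
    symm
    refine H22.ncard_eq_mul_of_fibers (QuotientGroup.mk' N) S T (Set.toFinite _) _ ?_ ?_
    · rintro a ⟨k, hk⟩
      obtain ⟨j, -, hj⟩ := (Nat.dvd_prime_pow hp).mp (hk ▸ orderOf_map_dvd (QuotientGroup.mk' N) a)
      exact ⟨j, hj⟩
    · intro b hb
      obtain ⟨b, rfl⟩ := QuotientGroup.mk'_surjective N b
      obtain ⟨g, -, hg, hgo⟩ := H22.exists_p_lift (QuotientGroup.mk' N) hp b hb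
      obtain ⟨R, hR⟩ := H2.exists_sylIn p N
      rw [← hR.card, ← H22.ncard_leftCoset _ g, ← hg]
      have hmul : ∀ x y : G, Commute x y → x ∈ S → y ∈ S → x * y ∈ S := by
        intro x y hc ⟨i, hi⟩ ⟨j, hj⟩
        have := hc.orderOf_mul_dvd_mul_orderOf
        rw [hi, hj, ← pow_add] at this
        obtain ⟨k, -, hk⟩ := (Nat.dvd_prime_pow hp).mp this
        exact ⟨k, hk⟩
      congr 1
      ext y
      constructor
      · rintro ⟨h1, h2⟩
        have h3 : g⁻¹ * y ∈ N := QuotientGroup.eq.mp h2.symm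
        have h4 : Commute g⁻¹ y := by
          have := Subgroup.mem_center_iff.mp (hN h3) g
          have h5 : y = g⁻¹ * y * g := by rw [← this]; group
          show g⁻¹ * y = y * g⁻¹
          nth_rewrite 2 [h5]
          group
        refine hR.le_of_le_normalizer' (R := Subgroup.zpowers (g⁻¹ * y))
          (H22.isPGroup_zpowers_iff.mpr (hmul _ _ h4 (by show ∃ k, _; rwa [orderOf_inv]) h1))
          (Subgroup.zpowers_le.mpr h3) (Subgroup.zpowers_le.mpr
            (Subgroup.center_le_normalizer _ (hN h3))) (Subgroup.mem_zpowers _)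
      · intro hy
        refine ⟨?_, (QuotientGroup.eq.mpr (hR.le hy)).symm⟩
        have := hmul g _ (Subgroup.mem_center_iff.mp (hN (hR.le hy)) g) hgo
          (H22.orderOf_eq_pow_of_mem hR.isPGroup hy)
        simpa using this

end Cfsg.Agent.S4153
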