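import Cfsg.Statements.S4154
import Cfsg.Agent.H22.Misc2

set_option autoImplicit false
open Cfsg

namespace Cfsg.Agent.S4154

/-- Let G be a finite group and α an automorphism of G such that every element of G is the product of an element fixed by α and an element of the form g⁻¹α(g). If N is a normal α-invariant subgroup, then the automorphism ᾱ induced on G/N has the same property, and every coset fixed by ᾱ contains an element fixed by α (so the fixed points of ᾱ are the images of the fixed points of α). -/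
theorem result {G : Type*} [Group G] [Finite G] (α : MulAut G)
    (hccp : ∀ x : G, ∃ c g : G, α c = c ∧ x = c * (g⁻¹ * α g))
    (N : Subgroup G) [N.Normal] (hN : ∀ n ∈ N, α n ∈ N) :
    (∀ x : G, ∃ c g : G, c⁻¹ * α c ∈ N ∧ x⁻¹ * (c * (g⁻¹ * α g)) ∈ N) ∧
    (∀ x : G, x⁻¹ * α x ∈ N → ∃ c : G, α c = c ∧ c⁻¹ * x ∈ N) := by
  refine ⟨fun x => ?_, ?_⟩
  · obtain ⟨c, g, h1, h2⟩ := hccp x
    exact ⟨c, g, by rw [h1]; simp, by rw [← h2]; simp⟩
  let D : Subgroup G :=
    { carrier := {x | x⁻¹ * α x ∈ N}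
      one_mem' := by simp
      mul_mem' := fun {a b} ha hb => by
        have := N.mul_mem (‹N.Normal›.conj_mem' _ ha b) hb
        simpa [mul_assoc] using this
      inv_mem' := fun {a} ha => by
        have := ‹N.Normal›.conj_mem _ (N.inv_mem ha) a
        simpa [mul_assoc] using this }
  let C : Subgroup G := α.toMonoidHom.eqLocus (MonoidHom.id G)
  have hND : N ≤ D := fun n hn => N.mul_mem (N.inv_mem hn) (hN n hn)
  have hCD : C ≤ D := fun c hc => by
    have : α c = c := hc
    show c⁻¹ * α c ∈ N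
    rw [this]; simp
  let F : C.map (QuotientGroup.mk' N) × (G ⧸ D) → G ⧸ N := fun u =>
    u.1.1 * QuotientGroup.mk' N (u.2.out * α u.2.out⁻¹)
  have hF : Function.Surjective F := by
    intro x
    obtain ⟨x, rfl⟩ := QuotientGroup.mk'_surjective N x
    obtain ⟨c, g, h1, h2⟩ := hccp x
    refine ⟨(⟨_, c, h1, rfl⟩, (g⁻¹ : G)), ?_⟩
    obtain ⟨d, hd⟩ := QuotientGroup.mk_out_eq_mul D g⁻¹
    show QuotientGroup.mk' N c * QuotientGroup.mk' N _ = _
    rw [hd, h2, map_mul _ c]
    congr 1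
    have h3 : (d : G) * α (d : G)⁻¹ ∈ N := by
      have h : (d : G)⁻¹⁻¹ * α (d : G)⁻¹ ∈ N := D.inv_mem d.2
      rwa [inv_inv] at h
    have h4 : QuotientGroup.mk' N ((d : G) * α (d : G)⁻¹) = 1 := (QuotientGroup.eq_one_iff _).mpr h3
    calc QuotientGroup.mk' N (g⁻¹ * d * α (g⁻¹ * d)⁻¹)
        = QuotientGroup.mk' N (g⁻¹ * ((d : G) * α (d : G)⁻¹) * α g) := by simp [mul_assoc]
      _ = _ := by rw [map_mul, map_mul, h4, mul_one, ← map_mul]
  have h1 := Nat.card_le_card_of_surjective F hF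
  rw [Nat.card_prod, ← (D.map (QuotientGroup.mk' N)).card_mul_index,
    Subgroup.index_map_eq D (QuotientGroup.mk'_surjective N) (by rwa [QuotientGroup.ker_mk'])] at h1
  have h2 := Subgroup.eq_of_le_of_card_ge (Subgroup.map_mono hCD)
    (Nat.le_of_mul_le_mul_right h1 (H2.index_pos D))
  intro x hx
  obtain ⟨c, hc, h3⟩ : QuotientGroup.mk' N x ∈ C.map (QuotientGroup.mk' N) :=
    h2 ▸ Subgroup.mem_map_of_mem _ hx
  exact ⟨c, hc, QuotientGroup.eq.mp h3⟩

end Cfsg.Agent.S4154
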