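import Cfsg.Statements.S4156
import Cfsg.Agent.H22.Misc2

set_option autoImplicit false
open Cfsg

namespace Cfsg.Agent.S4156

def rho (n : ℕ) (F : Type*) [Field F] (σ : Equiv.Perm (Fin (n + 1))) :
    (Fin n → F) →ₗ[F] (Fin n → F) where
  toFun v i := (Fin.cons 0 v : Fin (n + 1) → F) (σ⁻¹ i.succ) - (Fin.cons 0 v : Fin (n + 1) → F) (σ⁻¹ 0)
  map_add' v w := by
    have : ∀ j, (Fin.cons 0 (v + w) : Fin (n + 1) → F) j =
        (Fin.cons 0 v : Fin (n + 1) → F) j + (Fin.cons 0 w : Fin (n + 1) → F) j := by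
      intro j; cases j using Fin.cases <;> simp
    ext i; simp only [this, Pi.add_apply]; ring
  map_smul' c v := by
    have : ∀ j, (Fin.cons 0 (c • v) : Fin (n + 1) → F) j = c * (Fin.cons 0 v : Fin (n + 1) → F) j := by
      intro j; cases j using Fin.cases <;> simp
    ext i; simp only [this, Pi.smul_apply, smul_eq_mul, RingHom.id_apply]; ring

theorem rho_cons (n : ℕ) (F : Type*) [Field F] (σ : Equiv.Perm (Fin (n + 1))) (v : Fin n → F)
    (j : Fin (n + 1)) : (Fin.cons 0 (rho n F σ v) : Fin (n + 1) → F) j =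
      (Fin.cons 0 v : Fin (n + 1) → F) (σ⁻¹ j) - (Fin.cons 0 v : Fin (n + 1) → F) (σ⁻¹ 0) := by
  cases j using Fin.cases
  · simp
  · rfl

def rhoHom (n : ℕ) (F : Type*) [Field F] : Equiv.Perm (Fin (n + 1)) →* Module.End F (Fin n → F) where
  toFun := rho n F
  map_one' := by
    refine LinearMap.ext fun v => funext fun i => ?_
    show (Fin.cons 0 v : Fin (n + 1) → F) i.succ - (Fin.cons 0 v : Fin (n + 1) → F) 0 = v i
    simp
  map_mul' σ τ := by
    refine LinearMap.ext fun v => funext fun i => ?_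
    show _ = (Fin.cons 0 (rho n F τ v) : Fin (n + 1) → F) (σ⁻¹ i.succ) -
      (Fin.cons 0 (rho n F τ v) : Fin (n + 1) → F) (σ⁻¹ 0)
    rw [rho_cons, rho_cons, sub_sub_sub_cancel_right]
    rfl

/-- Let n ≥ 5 and F a finite field. Then the projective special linear group PSL_n(F) contains a subgroup isomorphic to the alternating group of degree n + 1. -/
theorem result (n : ℕ) (hn : 5 ≤ n) (F : Type*) [Field F] [Finite F] :
    ∃ f : alternatingGroup (Fin (n + 1)) →* Matrix.ProjectiveSpecialLinearGroup (Fin n) F, Function.Injective f := by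
  classical
  let M : alternatingGroup (Fin (n + 1)) →* Matrix (Fin n) (Fin n) F :=
    ((LinearMap.toMatrixAlgEquiv' (R := F) (n := Fin n)).toMonoidHom.comp (rhoHom n F)).comp
      (alternatingGroup (Fin (n + 1))).subtype
  have hcard : 5 ≤ Nat.card (Fin (n + 1)) := by simp; omega
  have hdet : ∀ σ, (M σ).det = 1 := by
    intro σ
    have h := Abelianization.commutator_subset_ker (Matrix.detMonoidHom.comp M).toHomUnits
    rw [commutator_alternatingGroup_eq_top hcard] at h
    exact congrArg Units.val (show (Matrix.detMonoidHom.comp M).toHomUnits σ = 1 from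
      h (Subgroup.mem_top σ))
  let f : alternatingGroup (Fin (n + 1)) →* Matrix.SpecialLinearGroup (Fin n) F :=
    { toFun := fun σ => ⟨M σ, hdet σ⟩
      map_one' := Subtype.ext (map_one M)
      map_mul' := fun a b => Subtype.ext (map_mul M a b) }
  refine ⟨(QuotientGroup.mk' _).comp f, ?_⟩
  have := alternatingGroup.isSimpleGroup hcard
  rw [← MonoidHom.ker_eq_bot_iff]
  refine (Subgroup.Normal.eq_bot_or_eq_top inferInstance).resolve_right fun h => ?_
  let a : Fin (n + 1) := ⟨1, by omega⟩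
  let b : Fin (n + 1) := ⟨2, by omega⟩
  let c : Fin (n + 1) := ⟨3, by omega⟩
  let d : Fin (n + 1) := ⟨4, by omega⟩
  let i : Fin n := ⟨0, by omega⟩
  let j : Fin n := ⟨1, by omega⟩
  let σ : alternatingGroup (Fin (n + 1)) := ⟨Equiv.swap a b * Equiv.swap c d, by
    rw [Equiv.Perm.mem_alternatingGroup, map_mul, Equiv.Perm.sign_swap, Equiv.Perm.sign_swap]
    · simp
    · simp [c, d]
    · simp [a, b, -Fin.mk_one]⟩
  have h1 : f σ ∈ Subgroup.center _ :=
    (QuotientGroup.eq_one_iff _).mp (show σ ∈ ((QuotientGroup.mk' _).comp f).ker from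
      h ▸ Subgroup.mem_top σ)
  obtain ⟨r, -, hr⟩ := Matrix.SpecialLinearGroup.mem_center_iff.mp h1
  have h2 : (Matrix.scalar (Fin n) r) j i = M σ j i := by rw [hr]; rfl
  have h3 : M σ j i = 1 := by
    show rho n F σ.1 (Pi.single i 1) j = 1
    have e1 : σ.1⁻¹ (Fin.succ j) = Fin.succ i := by
      rw [Equiv.Perm.inv_eq_iff_eq]
      show _ = Equiv.swap a b (Equiv.swap c d a)
      rw [Equiv.swap_apply_of_ne_of_ne (a := c) (by simp [a, c, -Fin.mk_one])
        (by simp [a, d, -Fin.mk_one]), Equiv.swap_apply_left]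
      rfl
    have e2 : σ.1⁻¹ 0 = 0 := by
      rw [Equiv.Perm.inv_eq_iff_eq]
      show _ = Equiv.swap a b (Equiv.swap c d 0)
      rw [Equiv.swap_apply_of_ne_of_ne (a := c) (by simp [c, Fin.ext_iff]) (by simp [d, Fin.ext_iff]),
        Equiv.swap_apply_of_ne_of_ne (by simp [a, Fin.ext_iff]) (by simp [b, Fin.ext_iff])]
    show (Fin.cons 0 (Pi.single i 1) : Fin (n + 1) → F) (σ.1⁻¹ (Fin.succ j)) -
      (Fin.cons 0 (Pi.single i 1) : Fin (n + 1) → F) (σ.1⁻¹ 0) = 1
    rw [e1, e2]
    simp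
  rw [h3, Matrix.scalar_apply, Matrix.diagonal_apply_ne _ (by simp [i, j, Fin.ext_iff])] at h2
  exact zero_ne_one h2

end Cfsg.Agent.S4156
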