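import Cfsg.Statements.S4159
import Cfsg.Agent.H21.Real

set_option autoImplicit false
open Cfsg

namespace Cfsg.Agent.S4159

open H18 H21 Subgroup
theorem idx {G : Type*} [Group G] (H : Subgroup G) (x : H) : C1(x).index = C1((x : G)).relIndex H := by
  rw [relIndex]; congr 1; ext y; simp [mem_subgroupOf, mem_centralizer_singleton_iff, Subtype.ext_iff]

/-- Let G be a finite group such that in every subgroup H of G, any two conjugacy classes of H of size greater than 1 have non-coprime sizes. Then G is solvable. -/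
theorem result {G : Type*} [Group G] [Finite G]
    (h : ∀ (H : Subgroup G) (x y : H), 1 < (Subgroup.centralizer ({x} : Set H)).index → 1 < (Subgroup.centralizer ({y} : Set H)).index →
      ¬ ((Subgroup.centralizer ({x} : Set H)).index).Coprime (Subgroup.centralizer ({y} : Set H)).index) : Group.IsSolvable G := by
  refine solv_of_no_real fun q hq q2 y t hy ht => by_contra fun y1 => ?_
  obtain ⟨s, -, s2, hs⟩ := exists_two_inverts ht
  have n1 : zpowers s ≤ N(zpowers y) := zpowers_le.2 (mem_N_iff_cj.2 (by rw [cj_zpowers, hs, zpowers_inv]))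
  have nc : y ∉ C1(s) := fun c => y1 (hy.eq_one' (PiNat.p'_of_ne (piElt_of_pow_eq_one Nat.prime_two (by
    rw [pow_two, mul_eq_one_iff_eq_inv, ← hs, conj_eq_self_of_C1 (mem_C1_comm.1 c)])) q2.symm))
  have my : y ∈ zpowers y ⊔ zpowers s := mem_sup_left (mem_zpowers y)
  have ms : s ∈ zpowers y ⊔ zpowers s := mem_sup_right (mem_zpowers s)
  refine h (zpowers y ⊔ zpowers s) ⟨y, my⟩ ⟨s, ms⟩ ?_ ?_ ?_ <;> simp only [idx]
  · exact one_lt_relIndex fun c => nc (mem_C1_comm.1 (c ms))
  · exact one_lt_relIndex fun c => nc (c my)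
  · refine PiNat.coprime (π := {2}) (PiNat.of_dvd ?_ (relIndex_dvd_left (zpowers_le.2 C1_self)))
      (PiNat.of_dvd ?_ (relIndex_dvd_left (zpowers_le.2 C1_self)))
    · rw [Nrm2.relIndex_sup' (Or.inr n1)]; exact s2.zpowers.relIndex
    · rw [Nrm2.relIndex_sup (Or.inr n1)]; exact hy.zpowers.relIndex.p'_of_ne q2

end Cfsg.Agent.S4159
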