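import Cfsg.Statements.S4168
import Cfsg.Agent.H22.Misc2

set_option autoImplicit false
open Cfsg

namespace Cfsg.Agent.S4168

/-- Let L be a finite quasisimple group (perfect with L/Z(L) simple). Then every prime dividing the order of the centre Z(L) also divides the order of L/Z(L). -/
theorem result {L : Type*} [Group L] [Finite L] (hL : Cfsg.IsQuasisimple L)
    (p : ℕ) (hp : p.Prime) (hdiv : p ∣ Nat.card (Subgroup.center L)) : p ∣ (Subgroup.center L).index := by
  obtain ⟨z, hz, hzo⟩ := H1.exists_prime_orderOf_mem hp hdiv
  have h1 : commutator L = ⊤ := hL.1.commutator_eq_top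
  have h2 : commutator L ≤ (MonoidHom.transferCenterPow L).ker := by
    rw [commutator_def, Subgroup.commutator_le]
    intro a _ b _
    rw [MonoidHom.mem_ker, map_commutatorElement, commutatorElement_eq_one_iff_mul_comm]
    exact Subtype.ext (Subgroup.mem_center_iff.mp (MonoidHom.transferCenterPow L b).2 _)
  rw [h1] at h2
  have h3 : MonoidHom.transferCenterPow L z = 1 := h2 (Subgroup.mem_top z)
  have h4 := congrArg Subtype.val h3
  rw [MonoidHom.transferCenterPow_apply] at h4
  rw [← hzo]
  exact orderOf_dvd_of_pow_eq_one h4

end Cfsg.Agent.S4168
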