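import Cfsg.Statements.S4169
import Cfsg.Agent.H17.Mann

set_option autoImplicit false
open Cfsg

namespace Cfsg.Agent.S4169

open H117 H18

/-- Let P be a finite p-group whose conjugacy classes have exactly two sizes (1 and one other value). Then P has nilpotency class at most 3. -/
theorem result {P : Type*} [Group P] [Finite P] {p : ℕ} [Fact p.Prime] (hP : IsPGroup p P)
    (m : ℕ) (hm : 1 < m) (h : ∀ x : P, (Subgroup.centralizer ({x} : Set P)).index = 1 ∨ (Subgroup.centralizer ({x} : Set P)).index = m) :
    upperCentralSeries P 3 = ⊤ := by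
  obtain ⟨A, hn, hA, hC⟩ := exists_scn_top hP
  have h1 := mann_class hC (mann_center hA (m := m) fun x hx => ((h x).resolve_left hx.ne').ge)
  have e : Subgroup.closure {x : P | C1(x).index = 1 ∨ C1(x).index = m} = ⊤ :=
    eq_top_iff.2 fun x _ => Subgroup.subset_closure (h x)
  rw [e] at h1
  change Subgroup.upperCentralSeries P 3 = ⊤
  rw [← Subgroup.comap_upperCentralSeries Subgroup.topEquiv.symm, h1, Subgroup.comap_top]

end Cfsg.Agent.S4169
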