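import Cfsg.Statements.S4170


set_option autoImplicit false
open scoped Pointwise
open Cfsg

namespace Cfsg.Agent.S4170

/-- Let p be an odd prime and G a nontrivial group of permutations of a finite set Ω that is generated by its elements of p-power order. Then Ω has two disjoint nonempty subsets Δ₁ and Δ₂ such that the index in G of the subgroup of elements mapping Δ₁ onto Δ₁ and Δ₂ onto Δ₂ (and hence also the complement of their union onto itself) is divisible by p. -/
theorem result {Ω : Type*} [Fintype Ω] (p : ℕ) [Fact p.Prime] (hp : p ≠ 2) (G : Subgroup (Equiv.Perm Ω)) (hG : G ≠ ⊥) (hgen : Subgroup.closure {g : G | ∃ k : ℕ, orderOf g = p ^ k} = ⊤) :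
    ∃ Δ₁ Δ₂ : Set Ω, Δ₁.Nonempty ∧ Δ₂.Nonempty ∧ Disjoint Δ₁ Δ₂ ∧ p ∣ (MulAction.stabilizer G Δ₁ ⊓ MulAction.stabilizer G Δ₂).index := by
  classical
  by_contra hn
  push Not at hn
  have hp' : p.Prime := Fact.out
  let N : Finset Ω → Subgroup G := fun Y =>
    { carrier := {g | ∀ y ∈ Y, g.1 y = y}
      mul_mem' := fun {a b} ha hb y hy => by
        change a.1 (b.1 y) = y
        rw [hb y hy, ha y hy]
      one_mem' := fun y _ => rfl
      inv_mem' := fun {a} ha y hy => by
        change a.1⁻¹ y = y
        rw [Equiv.Perm.inv_eq_iff_eq, ha y hy] }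
  have mN : ∀ Y g, g ∈ N Y ↔ ∀ y ∈ Y, (g : G).1 y = y := fun _ _ => Iff.rfl
  have m1 : ∀ (x : Ω) (g : G), g ∈ MulAction.stabilizer G ({x} : Set Ω) ↔ g.1 x = x := fun x g => by
    rw [MulAction.mem_stabilizer_iff, Set.smul_set_singleton, Set.singleton_eq_singleton_iff]
    rfl
  obtain ⟨g, hg, g1⟩ := (G.bot_or_exists_ne_one).resolve_left hG
  obtain ⟨a, ha⟩ : ∃ a, g a ≠ a := by
    by_contra h
    push Not at h
    exact g1 (Equiv.ext h)
  have key : ∀ Y : Finset Ω, ¬ p ∣ (N (insert a Y)).index := fun Y => by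
    induction Y using Finset.induction_on with
    | empty =>
      refine fun h => hn {a} {g a} (by simp) (by simp) (by simpa using ha.symm)
        (h.trans (Subgroup.index_dvd_of_le fun k hk y hy => ?_))
      obtain rfl : y = a := by simpa using hy
      exact (m1 _ _).1 hk.1
    | insert x Y _ ih =>
      rw [Finset.insert_comm]
      have hne : ((insert a Y : Finset Ω) : Set Ω).Nonempty := by simp
      generalize insert a Y = Z at ih hne
      by_cases hx : x ∈ Z
      · rwa [Finset.insert_eq_of_mem hx]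
      have h1 := hn {x} Z (by simp) hne (by simpa using hx)
      have le : N Z ≤ MulAction.stabilizer G (Z : Set Ω) := fun k hk => by
        rw [MulAction.mem_stabilizer_iff]
        ext y
        constructor
        · rintro ⟨z, hz, rfl⟩
          change k.1 z ∈ _
          rwa [hk z hz]
        · exact fun hy => ⟨y, hy, hk y hy⟩
      have nml : ((N Z).subgroupOf (MulAction.stabilizer G (Z : Set Ω))).Normal := ⟨fun k hk s y hy => by
        have h2 : s⁻¹.1 • y ∈ s⁻¹.1 • (Z : Set Ω) := Set.smul_mem_smul_set hy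
        rw [s⁻¹.2] at h2
        change s.1.1 (k.1.1 (s.1.1⁻¹ y)) = y
        rw [show k.1.1 (s.1.1⁻¹ y) = s.1.1⁻¹ y from hk (s.1.1⁻¹ y) h2]
        simp⟩
      have e : N (insert x Z) = N Z ⊓ (MulAction.stabilizer G ({x} : Set Ω) ⊓ MulAction.stabilizer G (Z : Set Ω)) := by
        ext k
        rw [Subgroup.mem_inf, Subgroup.mem_inf, m1, mN, mN]
        simp only [Finset.mem_insert, forall_eq_or_imp]
        exact ⟨fun h => ⟨h.2, h.1, le h.2⟩, fun h => ⟨h.2.1, h.1⟩⟩
      rw [e, ← Subgroup.relIndex_mul_index inf_le_right, Subgroup.inf_relIndex_right]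
      intro h
      refine ((Nat.Prime.dvd_mul hp').1 h).elim (fun h => ih ?_) h1
      rw [← Subgroup.relIndex_subgroupOf (L := MulAction.stabilizer G (Z : Set Ω)) inf_le_right] at h
      exact (h.trans (Subgroup.relIndex_dvd_index_of_normal _ _)).trans (Subgroup.relIndex_dvd_index_of_le le)
  have hb : N (insert a Finset.univ) = ⊥ := eq_bot_iff.2 fun k hk =>
    Subtype.ext (Equiv.ext fun y => hk y (by simp))
  have h2 := key Finset.univ
  rw [hb, Subgroup.index_bot] at h2
  have h3 : (⊤ : Subgroup G) ≤ ⊥ := by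
    rw [← hgen, Subgroup.closure_le]
    rintro k ⟨n, hk⟩
    rcases n with _ | n
    · exact orderOf_eq_one_iff.1 (by simpa using hk)
    · exact absurd ((dvd_pow_self p n.succ_ne_zero).trans (hk ▸ orderOf_dvd_natCard k)) h2
  exact g1 (congrArg Subtype.val (h3 (Subgroup.mem_top (⟨g, hg⟩ : G))))

end Cfsg.Agent.S4170
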