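import Cfsg.Statements.S4176
import Cfsg.Agent.H1.Harv3

set_option autoImplicit false
open Cfsg

namespace Cfsg.Agent.S4176

open H18 H1 Subgroup MulAction

theorem core {k V H : Type*} [Field k] {p : ℕ} [hp : Fact p.Prime] [CharP k p] [AddCommGroup V] [Module k V]
    [Group H] [Finite H] [DistribMulAction H V] [SMulCommClass H k V] (hsol : IsPSolvable p H) {a : V}
    (hi : ¬ p ∣ (stabilizer H a).index) (hspan : Submodule.span k (orbit H a) = ⊤) :
    ∃ t : V, (∀ h : H, h • t = t) ∧ ∀ b : V, (stabilizer H b).index.Coprime (stabilizer H a).index →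
      b ∈ Submodule.span k {t} := by
  classical
  have := Fintype.ofFinite H
  have : Fintype (orbit H a) := (Set.finite_range _).fintype
  have ht : ∀ h : H, h • ∑ u : orbit H a, (u : V) = ∑ u : orbit H a, (u : V) := fun h => by
    rw [Finset.smul_sum]
    exact Equiv.sum_comp (toPerm h) (fun u : orbit H a => (u : V))
  refine ⟨_, ht, fun b hb => ?_⟩
  obtain ⟨L, hL⟩ := (((isPSolvable_iff_piSep hp.out).1 hsol).compl.mono (le_top (a := stabilizer H b))).hall_exists
  have h1 : L.index.Coprime (stabilizer H a).index := by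
    rw [← relIndex_mul_index hL.le]
    refine Nat.Coprime.mul_left (Nat.coprime_of_dvd fun q hq d1 d2 => hi ?_) hb
    rwa [← show q = p from not_not.1 (hL.idx q hq d1)]
  let e : V →ₗ[k] V := ∑ l : L, DistribSMul.toLinearMap k V (l : H)
  have e1 : ∀ v : V, e v = ∑ l : L, (l : H) • v := fun v => by simp [e]
  have e2 : ∀ v : V, (∀ l ∈ L, l • v = v) → e v = (Nat.card L : k) • v := fun v hv => by
    rw [e1, Finset.sum_congr rfl fun (l : L) _ => hv l l.2, Finset.sum_const, Finset.card_univ, Nat.card_eq_fintype_card,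
      Nat.cast_smul_eq_nsmul]
  have e3 : ∀ u ∈ orbit H a, e u = e a := by
    rintro _ ⟨h, rfl⟩
    obtain ⟨l, hl, x, hx, rfl⟩ := exists_mul_of_coprime_index h1 h
    simp only [e1, mul_smul, mem_stabilizer_iff.1 hx]
    refine Fintype.sum_equiv (Equiv.mulRight (⟨l, hl⟩ : L)) _ _ fun m => ?_
    simp [mul_smul]
  have n1 : (Nat.card L : k) ≠ 0 := fun h => hL.pi p hp.out ((CharP.cast_eq_zero_iff k p _).1 h) rfl
  have n2 : (Nat.card (orbit H a) : k) ≠ 0 := fun h => hi (by
    rw [index_stabilizer, ← Nat.card_coe_set_eq]; exact (CharP.cast_eq_zero_iff k p _).1 h)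
  have e4 : e a ∈ Submodule.span k {∑ u : orbit H a, (u : V)} := by
    have h2 := e2 _ fun l _ => ht l
    rw [map_sum, Finset.sum_congr rfl fun (u : orbit H a) _ => e3 u u.2, Finset.sum_const, Finset.card_univ,
      ← Nat.card_eq_fintype_card, ← Nat.cast_smul_eq_nsmul k] at h2
    rw [← Submodule.smul_mem_iff _ n2, h2]
    exact Submodule.smul_mem _ _ (Submodule.mem_span_singleton_self _)
  have e5 : Submodule.span k (orbit H a) ≤ (Submodule.span k {∑ u : orbit H a, (u : V)}).comap e :=
    Submodule.span_le.2 fun u hu => by rw [SetLike.mem_coe, Submodule.mem_comap, e3 u hu]; exact e4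
  rw [← Submodule.smul_mem_iff _ n1, ← e2 b fun l hl => hL.le hl]
  exact e5 (hspan ▸ trivial)

/-- Let k be a field of prime characteristic p, H a finite p-soluble group and ρ a k-linear representation of H on V. Let a be a vector that is fixed by some Sylow p-subgroup of H and whose H-orbit spans V. Then the space of H-fixed vectors has dimension at most 1, and every vector b whose H-orbit has size coprime to the size of the orbit of a is fixed by H. -/
theorem result {k V H : Type*} [Field k] (p : ℕ) [Fact p.Prime] [CharP k p] [AddCommGroup V] [Module k V]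
    [Group H] [Finite H] (hsol : Cfsg.IsPSolvable p H) (ρ : Representation k H V) (a : V)
    (hfix : ∃ P : Sylow p H, ∀ x : H, x ∈ (P : Subgroup H) → ρ x a = a)
    (hspan : Submodule.span k {u : V | ∃ h : H, ρ h a = u} = ⊤) :
    Module.finrank k ρ.invariants ≤ 1 ∧
    ∀ b : V, (Nat.card {u : V | ∃ h : H, ρ h a = u}).Coprime (Nat.card {u : V | ∃ h : H, ρ h b = u}) → ∀ h : H, ρ h b = b := by
  let : DistribMulAction H V := DistribMulAction.compHom V ρ
  have : SMulCommClass H k V := ⟨fun h c v => (ρ h).map_smul c v⟩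
  obtain ⟨P, hP⟩ := hfix
  obtain ⟨t, ht, h⟩ := core (k := k) hsol (a := a) (fun e => P.not_dvd_index
    (e.trans (index_dvd_of_le fun x hx => hP x hx))) hspan
  refine ⟨(Submodule.finrank_mono (fun b hb => h b ?_)).trans ((finrank_span_le_card {t}).trans (by simp)),
    fun b hb g => ?_⟩
  · rw [show stabilizer H b = ⊤ from eq_top_iff.2 fun g _ => hb g, index_top]
    exact Nat.coprime_one_left _
  · obtain ⟨c, rfl⟩ := Submodule.mem_span_singleton.1 (h b (by
      rw [index_stabilizer, index_stabilizer, ← Nat.card_coe_set_eq, ← Nat.card_coe_set_eq]; exact hb.symm))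
    rw [map_smul]
    exact congrArg _ (ht g)

end Cfsg.Agent.S4176
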