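import Cfsg.Statements.S4177
import Cfsg.Agent.H22.Misc2

set_option autoImplicit false
open Cfsg

namespace Cfsg.Agent.S4177

theorem aux {k V H : Type*} [Field k] [AddCommGroup V] [Module k V] [Group H] [Fintype H]
    (hc : (Nat.card H : k) ≠ 0) (ρ : Representation k H V) (a : V)
    (hspan : Submodule.span k {u : V | ∃ h : H, ρ h a = u} = ⊤) (B : Subgroup H)
    (hB : ∀ h : H, ∃ β ∈ B, ρ h a = ρ β a) (b : V) (hb : ∀ β ∈ B, ρ β b = b) :
    ∃ c : k, c • ∑ h : H, ρ h a = b := by
  classical
  have := Fintype.ofFinite B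
  let S : V →ₗ[k] V := ∑ β : B, ρ β
  have hS : ∀ v, S v = ∑ β : B, ρ β v := fun v => by simp [S]
  have h1 : ∀ h : H, S (ρ h a) = S a := by
    intro h
    obtain ⟨β, hβ, e⟩ := hB h
    rw [e, hS, hS]
    exact Fintype.sum_equiv (Equiv.mulRight (⟨β, hβ⟩ : B)) _ _ (fun x => by simp)
  have h2 : ∀ v, (∀ β ∈ B, ρ β v = v) → S v = (Nat.card B : k) • v := by
    intro v hv
    rw [hS, Finset.sum_congr rfl (fun (β : B) _ => hv β β.2), Finset.sum_const, Finset.card_univ,
      Nat.card_eq_fintype_card, Nat.cast_smul_eq_nsmul]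
  have h3 : ∀ v, ∃ c : k, S v = c • S a := by
    intro v
    have hv : v ∈ Submodule.span k {u : V | ∃ h : H, ρ h a = u} := hspan ▸ Submodule.mem_top
    induction hv using Submodule.span_induction with
    | mem x hx => obtain ⟨h, rfl⟩ := hx; exact ⟨1, by rw [h1, one_smul]⟩
    | zero => exact ⟨0, by simp⟩
    | add x y _ _ hx hy =>
      obtain ⟨c, hc⟩ := hx
      obtain ⟨d, hd⟩ := hy
      exact ⟨c + d, by rw [map_add, hc, hd, add_smul]⟩
    | smul r x _ hx =>
      obtain ⟨c, hc⟩ := hx
      exact ⟨r * c, by rw [map_smul, hc, mul_smul]⟩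
  have h4 : (Nat.card B : k) • ∑ h : H, ρ h a = (Nat.card H : k) • S a := by
    rw [← h2, map_sum, Finset.sum_congr rfl (fun h _ => h1 h), Finset.sum_const, Finset.card_univ,
      Nat.card_eq_fintype_card, Nat.cast_smul_eq_nsmul]
    intro β _
    rw [map_sum]
    exact Fintype.sum_equiv (Equiv.mulLeft β) _ _ (fun x => by simp)
  have hcB : (Nat.card B : k) ≠ 0 := by
    intro h
    apply hc
    rw [← B.card_mul_index, Nat.cast_mul, h, zero_mul]
  obtain ⟨c, hc1⟩ := h3 b
  rw [h2 b hb] at hc1
  refine ⟨c / Nat.card H, ?_⟩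
  apply smul_right_injective V hcB
  show _ • _ = _ • _
  rw [hc1, smul_comm, h4, smul_smul, div_mul_cancel₀ _ hc]

/-- Let k be a field whose characteristic does not divide the order of the finite group H (for instance a field of characteristic zero), and ρ a k-linear representation of H on V. Let a be a vector whose H-orbit spans V. Then the space of H-fixed vectors has dimension at most 1, and every vector b whose H-orbit has size coprime to the size of the orbit of a is fixed by H. -/
theorem result {k V H : Type*} [Field k] [AddCommGroup V] [Module k V] [Group H] [Finite H]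
    (hchar : ¬ ringChar k ∣ Nat.card H) (ρ : Representation k H V) (a : V)
    (hspan : Submodule.span k {u : V | ∃ h : H, ρ h a = u} = ⊤) :
    Module.finrank k ρ.invariants ≤ 1 ∧
    ∀ b : V, (Nat.card {u : V | ∃ h : H, ρ h a = u}).Coprime (Nat.card {u : V | ∃ h : H, ρ h b = u}) → ∀ h : H, ρ h b = b := by
  have := Fintype.ofFinite H
  have hc : (Nat.card H : k) ≠ 0 := fun h => hchar ((ringChar.spec k _).mp h)
  have hinv : ∀ g : H, ρ g (∑ h : H, ρ h a) = ∑ h : H, ρ h a := by
    intro g
    rw [map_sum]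
    exact Fintype.sum_equiv (Equiv.mulLeft g) _ _ (fun x => by simp)
  constructor
  · refine finrank_le_one (⟨∑ h : H, ρ h a, hinv⟩ : ρ.invariants) fun w => ?_
    obtain ⟨c, h⟩ := aux hc ρ a hspan ⊤ (fun h => ⟨h, trivial, rfl⟩) w (fun β _ => w.2 β)
    exact ⟨c, Subtype.ext h⟩
  · intro b hco
    let _ : MulAction H V := MulAction.compHom V ρ
    have ha : Nat.card {u : V | ∃ h : H, ρ h a = u} = (MulAction.stabilizer H a).index :=
      (MulAction.index_stabilizer H a).symm
    have hb : Nat.card {u : V | ∃ h : H, ρ h b = u} = (MulAction.stabilizer H b).index :=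
      (MulAction.index_stabilizer H b).symm
    rw [ha, hb] at hco
    obtain ⟨c, h⟩ := aux hc ρ a hspan (MulAction.stabilizer H b) (fun h => by
      obtain ⟨β, hβ, α, hα, rfl⟩ := H22.exists_mul_of_coprime_index hco.symm h
      have : ρ α a = a := hα
      exact ⟨β, hβ, by rw [map_mul, Module.End.mul_apply, this]⟩) b (fun β hβ => hβ)
    intro g
    rw [← h, map_smul, hinv]

end Cfsg.Agent.S4177
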