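import Cfsg.Statements.S4178
import Cfsg.Agent.H16.Der

set_option autoImplicit false
open Cfsg

namespace Cfsg.Agent.S4178


/-- Let F be a finite field with q elements, V a non-zero finite-dimensional F-space of dimension d, H a group of invertible linear maps of V, and R the subgroup of H generated by the elements of H that fix some non-zero vector (have eigenvalue 1). Then the index of R in H is at most q^d − 1; and if H leaves invariant some proper non-zero subspace, the index is at most q^(d/2) − 1. -/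
theorem result {F V : Type*} [Field F] [Fintype F] [AddCommGroup V] [Module F V] [FiniteDimensional F V] [Nontrivial V]
    (H : Subgroup (V ≃ₗ[F] V)) :
    (Subgroup.closure {h : ↥H | ∃ v : V, v ≠ 0 ∧ (h : V ≃ₗ[F] V) v = v}).index ≤ Fintype.card F ^ Module.finrank F V - 1 ∧
    ((∃ W : Submodule F V, W ≠ ⊥ ∧ W ≠ ⊤ ∧ ∀ h ∈ H, ∀ w ∈ W, h w ∈ W) →
      ((Subgroup.closure {h : ↥H | ∃ v : V, v ≠ 0 ∧ (h : V ≃ₗ[F] V) v = v}).index : ℝ) ≤ Real.sqrt ((Fintype.card F : ℝ) ^ Module.finrank F V) - 1) := by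
  have : Finite V := Module.finite_of_finite F
  have : Finite (V ≃ₗ[F] V) := Finite.of_injective _ DFunLike.coe_injective
  set R := Subgroup.closure {h : ↥H | ∃ v : V, v ≠ 0 ∧ (h : V ≃ₗ[F] V) v = v}
  have : R.Normal := ⟨fun _ hn g => (Subgroup.closure_le (R.comap (MulAut.conj g).toMonoidHom)).2
    (fun a ha => ha.elim fun v h => Subgroup.subset_closure ⟨g.1 v, by simpa using h.1, by simp [h.2]⟩) hn⟩
  have k : ∀ O : Set V, 0 ∉ O → (∀ h ∈ H, ∀ w ∈ O, h w ∈ O) → R.index ∣ O.ncard := fun O h0 h =>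
    H16.index_dvd_ncard ⊤ (top_sup_eq _) O (fun g _ x hx => h g g.2 x hx) fun g _ x hx e =>
      Subgroup.subset_closure ⟨x, fun e => h0 (e ▸ hx), e⟩
  have c : Nat.card V = Fintype.card F ^ Module.finrank F V := by
    rw [Module.natCard_eq_pow_finrank (K := F), Nat.card_eq_fintype_card]
  have h1 := k {0}ᶜ (by simp) (by simp)
  rw [Set.ncard_compl {0}, Set.ncard_singleton] at h1
  refine ⟨c ▸ Nat.le_of_dvd (Nat.sub_pos_of_lt Finite.one_lt_card) h1, fun ⟨W, w1, w2, h⟩ => ?_⟩
  have h2 := k (W \ {0}) (by simp) fun g hg w hw => ⟨h g hg w hw.1, by simpa using hw.2⟩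
  rw [Set.ncard_sdiff_singleton_of_mem W.zero_mem, ← Nat.card_coe_set_eq, SetLike.coe_sort_coe] at h2
  have := Submodule.nontrivial_iff_ne_bot.2 w1
  have := Submodule.Quotient.nontrivial_iff.2 w2
  have e := W.card_eq_card_quotient_mul_card
  have p1 : 1 < Nat.card W := Finite.one_lt_card
  have : Finite (V ⧸ W) := Finite.of_surjective _ W.mkQ_surjective
  have p2 : 1 < Nat.card (V ⧸ W) := Finite.one_lt_card
  rw [← Nat.cast_pow, ← c, e]
  refine H16.le_sqrt_sub_one h2 ?_ p1 p2
  have h3 : Nat.card V - 1 = (Nat.card W - 1) * Nat.card (V ⧸ W) + (Nat.card (V ⧸ W) - 1) := by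
    rw [e, Nat.sub_one_mul]
    have := Nat.le_mul_of_pos_left (Nat.card (V ⧸ W)) (zero_lt_one.trans p1)
    omega
  exact (Nat.dvd_add_right (h2.mul_right _)).1 (h3 ▸ h1)

end Cfsg.Agent.S4178
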