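import Cfsg.Statements.S4182
import Mathlib

set_option autoImplicit false
open Cfsg

namespace Cfsg.Agent.S4182
open scoped Pointwise

theorem pgroup_case {G : Type*} [Group G] [Finite G] (p : ℕ) [hp : Fact p.Prime] (hG : IsPGroup p G)
    {ι : Type*} [Fintype ι] (K : ι → Subgroup G) (hK : ∀ i, K i ≠ ⊤)
    (hcov : ∀ g : G, ∃ i, g ∈ K i) : p + 1 ≤ Fintype.card ι := by
  classical
  haveI := Fintype.ofFinite G
  by_contra hlt
  push Not at hlt
  obtain ⟨i0, -⟩ := hcov 1
  have hidx : ∀ i, Nat.card (K i) * p ≤ Nat.card G := by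
    intro i
    obtain ⟨k, hk⟩ := hG.index (K i)
    have h1 : k ≠ 0 := by
      rintro rfl
      exact hK i (Subgroup.index_eq_one.1 (by simpa using hk))
    rw [← (K i).card_mul_index, hk]
    exact Nat.mul_le_mul_left _ (Nat.le_self_pow h1 p)
  have hsub : (Finset.univ : Finset G).erase 1 ⊆
      Finset.univ.biUnion (fun i => (Finset.univ.filter (fun g => g ∈ K i)).erase 1) := by
    intro g hg
    obtain ⟨i, hi⟩ := hcov g
    simp only [Finset.mem_erase, Finset.mem_biUnion, Finset.mem_univ, true_and, Finset.mem_filter,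
      and_true] at hg ⊢
    exact ⟨i, hg, hi⟩
  have h1 := (Finset.card_le_card hsub).trans Finset.card_biUnion_le
  rw [Finset.card_erase_of_mem (Finset.mem_univ _), Finset.card_univ] at h1
  have h2 : ∀ i, ((Finset.univ.filter (fun g => g ∈ K i)).erase 1).card * p + p ≤ Nat.card G := by
    intro i
    have h3 : (Finset.univ.filter (fun g => g ∈ K i)).card = Nat.card (K i) := by
      rw [Nat.card_eq_fintype_card, Fintype.card_subtype]
    have h4 : 0 < Nat.card (K i) := Nat.card_pos
    rw [Finset.card_erase_of_mem (by simp [one_mem]), h3]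
    have := hidx i
    obtain ⟨m, hm⟩ : ∃ m, Nat.card (K i) = m + 1 := ⟨Nat.card (K i) - 1, by omega⟩
    rw [hm] at this ⊢
    simp only [Nat.add_sub_cancel]
    nlinarith
  have h3 : (∑ i, ((Finset.univ.filter (fun g => g ∈ K i)).erase 1).card) * p ≤
      Fintype.card ι * (Nat.card G - p) := by
    rw [Finset.sum_mul]
    calc _ ≤ ∑ _i : ι, (Nat.card G - p) := Finset.sum_le_sum (fun i _ => by have := h2 i; omega)
      _ = _ := by simp
  have h4 : Fintype.card ι * (Nat.card G - p) ≤ p * (Nat.card G - p) :=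
    Nat.mul_le_mul_right _ (by omega)
  have h5 : (Fintype.card G - 1) * p ≤ (Nat.card G - p) * p := by
    rw [mul_comm (Nat.card G - p)]
    exact le_trans (Nat.mul_le_mul_right _ h1) (h3.trans h4)
  have h6 := Nat.le_of_mul_le_mul_right h5 hp.out.pos
  have h7 := h2 i0
  have h8 := hp.out.two_le
  rw [← Nat.card_eq_fintype_card] at h6
  omega

theorem mem_of_index_lt {G : Type*} [Group G] [Finite G] (p : ℕ) [hp : Fact p.Prime]
    (N : Subgroup G) (hN : N.index < p) (x : G) (k : ℕ) (hx : orderOf x = p ^ k) : x ∈ N := by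
  have hz : IsPGroup p (Subgroup.zpowers x) := IsPGroup.of_card (by rw [Nat.card_zpowers, hx])
  obtain ⟨j, hj⟩ := hz.card_orbit ((1 : G) : G ⧸ N)
  have h1 : Nat.card (MulAction.orbit (Subgroup.zpowers x) ((1 : G) : G ⧸ N)) ≤ N.index :=
    Nat.card_le_card_of_injective _ Subtype.val_injective
  have h2 : j = 0 := by
    by_contra h
    have := Nat.le_self_pow h p
    omega
  rw [h2, pow_zero] at hj
  have hs := (Nat.card_eq_one_iff_unique.1 hj).1
  have h3 := Subsingleton.elim (α := MulAction.orbit (Subgroup.zpowers x) ((1 : G) : G ⧸ N))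
    ⟨_, MulAction.mem_orbit_self _⟩
    ⟨_, MulAction.mem_orbit _ (⟨x, Subgroup.mem_zpowers x⟩ : Subgroup.zpowers x)⟩
  have h4 : ((1 : G) : G ⧸ N) = ((x * 1 : G) : G ⧸ N) := congrArg Subtype.val h3
  simpa using QuotientGroup.eq.1 h4

universe u

theorem aux (p : ℕ) [hp : Fact p.Prime] {ι : Type*} [Fintype ι] (hι : Fintype.card ι ≤ p) (n : ℕ) :
    ∀ (G : Type u) [Group G] [Finite G], Nat.card G = n →
      Subgroup.closure {g : G | ∃ k : ℕ, orderOf g = p ^ k} = ⊤ → ∀ K : ι → Subgroup G,
      (∀ g : G, (∃ k : ℕ, orderOf g = p ^ k) → ∃ i, g ∈ K i) → ∃ i, K i = ⊤ := by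
  induction n using Nat.strong_induction_on with
  | _ n ih =>
  intro G _ _ hn hgen K hcov
  by_contra hK
  push Not at hK
  by_cases hG : IsPGroup p G
  · have := pgroup_case p hG K hK (fun g => hcov g (IsPGroup.iff_orderOf.1 hG g))
    omega
  let Good : Subgroup G → Prop := fun L => L ≠ ⊤ ∧ ¬ p ∣ L.index ∧
    ∃ S : Set G, (∀ g ∈ S, ∃ k : ℕ, orderOf g = p ^ k) ∧ L = Subgroup.closure S
  have hle : ∀ L, Good L → ∃ i, L ≤ K i := by
    rintro L ⟨h1, -, S, hS, rfl⟩
    have hlt : Nat.card (Subgroup.closure S) < n := by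
      rw [← hn]
      have h2 := (Subgroup.closure S).card_mul_index
      have h3 : (Subgroup.closure S).index ≠ 1 := fun h => h1 (Subgroup.index_eq_one.1 h)
      have h4 : (Subgroup.closure S).index ≠ 0 := Subgroup.index_ne_zero_of_finite
      have h5 : 0 < Nat.card (Subgroup.closure S) := Nat.card_pos
      have h6 : 2 ≤ (Subgroup.closure S).index := by omega
      nlinarith
    obtain ⟨i, hi⟩ := ih _ hlt (Subgroup.closure S) rfl (by
      rw [eq_top_iff, ← Subgroup.closure_closure_coe_preimage (k := S)]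
      apply Subgroup.closure_mono
      intro g hg
      obtain ⟨k, hk⟩ := hS _ hg
      exact ⟨k, by rw [← hk, Subgroup.orderOf_coe]⟩)
      (fun i => (K i).subgroupOf (Subgroup.closure S)) (by
        rintro g ⟨k, hk⟩
        obtain ⟨i, hi⟩ := hcov g ⟨k, by rw [← hk, Subgroup.orderOf_coe]⟩
        exact ⟨i, hi⟩)
    exact ⟨i, Subgroup.subgroupOf_eq_top.1 hi⟩
  obtain ⟨P⟩ : Nonempty (Sylow p G) := inferInstance
  have hP : Good P := by
    refine ⟨?_, P.not_dvd_index, (P : Subgroup G), ?_, (Subgroup.closure_eq _).symm⟩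
    · intro h
      apply hG
      have := P.isPGroup'
      rw [h] at this
      exact this.of_equiv Subgroup.topEquiv
    · intro g hg
      obtain ⟨k, hk⟩ := IsPGroup.iff_orderOf.1 P.isPGroup' ⟨g, hg⟩
      exact ⟨k, by rw [← hk, ← Subgroup.orderOf_coe]⟩
  obtain ⟨L, hL, hmax⟩ := Set.exists_max_image {L | Good L} (fun L : Subgroup G => Nat.card L)
    (Set.toFinite _) ⟨_, hP⟩
  let gen : ι → Subgroup G := fun i =>
    Subgroup.closure {g | g ∈ K i ∧ ∃ k : ℕ, orderOf g = p ^ k}
  have hconj : ∀ g : G, ∃ i, MulAut.conj g • L = gen i := by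
    intro g
    have hcard : Nat.card (MulAut.conj g • L : Subgroup G) = Nat.card L :=
      (Nat.card_congr (Subgroup.equivSMul (MulAut.conj g) L).toEquiv).symm
    have hidx : (MulAut.conj g • L).index = L.index := by
      have h1 := (MulAut.conj g • L).card_mul_index
      have h2 := L.card_mul_index
      rw [hcard, ← h2] at h1
      exact Nat.eq_of_mul_eq_mul_left Nat.card_pos h1
    obtain ⟨h1, h2, S, hS, hLS⟩ := hL
    have hS' : ∀ x ∈ (MulAut.conj g) '' S, ∃ k : ℕ, orderOf x = p ^ k := by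
      rintro _ ⟨x, hx, rfl⟩
      obtain ⟨k, hk⟩ := hS x hx
      exact ⟨k, by rw [← hk]; exact MulEquiv.orderOf_eq _ _⟩
    have hcl : MulAut.conj g • L = Subgroup.closure ((MulAut.conj g) '' S) := by
      rw [hLS]
      exact MonoidHom.map_closure _ _
    have hgood : Good (MulAut.conj g • L) := by
      refine ⟨?_, by rwa [hidx], _, hS', hcl⟩
      intro h
      rw [h, Subgroup.index_top] at hidx
      exact h1 (Subgroup.index_eq_one.1 hidx.symm)
    obtain ⟨i, hi⟩ := hle _ hgood
    refine ⟨i, ?_⟩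
    have h3 : MulAut.conj g • L ≤ gen i := by
      rw [hcl]
      apply Subgroup.closure_mono
      intro x hx
      exact ⟨hi (hcl ▸ Subgroup.subset_closure hx), hS' x hx⟩
    have h4 : gen i ≤ K i := (Subgroup.closure_le _).2 (fun x hx => hx.1)
    have h5 : Good (gen i) := by
      refine ⟨fun h => hK i (top_le_iff.1 (h ▸ h4)), ?_, _, fun x hx => hx.2, rfl⟩
      intro h
      exact h2 (hidx ▸ h.trans (Subgroup.index_dvd_of_le h3))
    exact Subgroup.eq_of_le_of_card_ge h3 (by rw [hcard]; exact hmax _ h5)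
  let N : Subgroup G := Subgroup.normalizer (L : Set G)
  have hNi : N.index ≤ p := by
    refine le_trans ?_ hι
    rw [← Nat.card_eq_fintype_card]
    choose f hf using hconj
    apply Nat.card_le_card_of_injective (fun q : G ⧸ N => f q.out)
    intro a b hab
    have h1 : MulAut.conj a.out • L = MulAut.conj b.out • L := by
      rw [hf, hf]; exact congrArg gen hab
    rw [← a.out_eq, ← b.out_eq]
    apply QuotientGroup.eq.2
    have h2 : MulAut.conj (a.out⁻¹ * b.out) • L = L := by
      rw [map_mul, mul_smul, ← h1, ← mul_smul, ← map_mul, inv_mul_cancel, map_one, one_smul]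
    show _ ∈ Subgroup.normalizer (L : Set G)
    rw [Subgroup.mem_normalizer_iff]
    intro x
    conv_rhs => rw [← h2]
    exact (Subgroup.smul_mem_pointwise_smul_iff (a := MulAut.conj (a.out⁻¹ * b.out))).symm
  have hNd : ¬ p ∣ N.index := fun h =>
    hL.2.1 (h.trans (Subgroup.index_dvd_of_le Subgroup.le_normalizer))
  have hNlt : N.index < p := lt_of_le_of_ne hNi (fun h => hNd (h ▸ dvd_rfl))
  have hNtop : N = ⊤ := by
    rw [eq_top_iff, ← hgen, Subgroup.closure_le]
    rintro x ⟨k, hk⟩
    exact mem_of_index_lt p N hNlt x k hk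
  haveI : L.Normal := Subgroup.normalizer_eq_top_iff.1 hNtop
  apply hL.1
  rw [eq_top_iff, ← hgen, Subgroup.closure_le]
  rintro x ⟨k, hk⟩
  have h1 : orderOf (x : G ⧸ L) ∣ p ^ k := hk ▸ orderOf_map_dvd (QuotientGroup.mk' L) x
  have h2 : orderOf (x : G ⧸ L) ∣ L.index := orderOf_dvd_natCard _
  have h3 : Nat.Coprime (p ^ k) L.index :=
    Nat.Coprime.pow_left _ ((Nat.Prime.coprime_iff_not_dvd hp.out).2 hL.2.1)
  have h4 : orderOf (x : G ⧸ L) = 1 := Nat.eq_one_of_dvd_coprimes h3 h1 h2
  exact (QuotientGroup.eq_one_iff x).1 (orderOf_eq_one_iff.1 h4)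

/-- Let p be a prime and G a finite group generated by its p-elements. If a finite family of proper subgroups of G covers the set of p-elements of G (every element of p-power order lies in one of them), then the family has at least p + 1 members. -/
theorem result {G : Type*} [Group G] [Finite G] (p : ℕ) [Fact p.Prime] (hgen : Subgroup.closure {g : G | ∃ k : ℕ, orderOf g = p ^ k} = ⊤)
    {ι : Type*} [Fintype ι] (K : ι → Subgroup G) (hK : ∀ i, K i ≠ ⊤)
    (hcov : ∀ g : G, (∃ k : ℕ, orderOf g = p ^ k) → ∃ i, g ∈ K i) :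
    p + 1 ≤ Fintype.card ι := by
  by_contra h
  obtain ⟨i, hi⟩ := aux p (ι := ι) (by omega) _ G rfl hgen K hcov
  exact hK i hi

end Cfsg.Agent.S4182
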