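import Cfsg.Statements.S4184
import Mathlib


set_option autoImplicit false
open Cfsg

namespace Cfsg.Agent.S4184
open Subgroup MulAction

noncomputable abbrev nn {G : Type*} [Group G] (g : G) : ℕ := (centralizer ({g} : Set G)).index

section
variable {G : Type*} [Group G] [Finite G] {p : ℕ}

theorem conj_into (hp : p.Prime) {D E : Subgroup G} (h : ¬ p ∣ D.relIndex E) {y : G} (hy : orderOf y = p) (hE : y ∈ E) :
    ∃ c : G, c⁻¹ * y * c ∈ D := by
  haveI := Fact.mk hp
  have hP : IsPGroup p (zpowers (⟨y, hE⟩ : E)) := IsPGroup.of_card (n := 1) (by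
    rw [Nat.card_zpowers, ← Subgroup.orderOf_coe, pow_one]; exact hy)
  obtain ⟨x, hx⟩ := hP.nonempty_fixed_point_of_prime_not_dvd_card (E ⧸ D.subgroupOf E) h
  obtain ⟨c, rfl⟩ := QuotientGroup.mk_surjective x
  have := hx ⟨_, mem_zpowers _⟩
  change ((⟨y, hE⟩ * c : E) : E ⧸ D.subgroupOf E) = c at this
  rw [eq_comm, QuotientGroup.eq] at this
  exact ⟨c, by simpa [mem_subgroupOf, mul_assoc] using this⟩

omit [Finite G] in
theorem nn_conj (y c : G) : nn (c⁻¹ * y * c) = nn y := by
  have : centralizer ({c⁻¹ * y * c} : Set G) = (centralizer ({y} : Set G)).comap (MulAut.conj c).toMonoidHom := by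
    ext x
    simp only [mem_centralizer_singleton_iff, mem_comap, MulEquiv.coe_toMonoidHom, MulAut.conj_apply]
    constructor <;> intro h
    · calc c * x * c⁻¹ * y = c * (x * (c⁻¹ * y * c)) * c⁻¹ := by group
        _ = _ := by rw [h]; group
    · calc x * (c⁻¹ * y * c) = c⁻¹ * (c * x * c⁻¹ * y) * c := by group
        _ = _ := by rw [h]; group
  rw [nn, this, index_comap_of_surjective _ (MulAut.conj c).surjective]

theorem cent_le {a b : G} (h : Commute a b) (hc : (orderOf a).Coprime (orderOf b)) :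
    centralizer ({a * b} : Set G) ≤ centralizer {a} := fun x hx => by
  rw [mem_centralizer_singleton_iff] at hx ⊢
  have h1 : Commute x ((a * b) ^ orderOf b) := (Commute.pow_right hx _)
  rw [h.mul_pow, pow_orderOf_eq_one, mul_one] at h1
  obtain ⟨k, hk⟩ := exists_pow_eq_self_of_coprime hc.symm
  exact hk ▸ (h1.pow_right k).eq

theorem exists_cent (hp : p.Prime) {a : G} (ha : orderOf a = p) : ∃ y, orderOf y = p ∧ ¬ p ∣ nn y ∧ Commute a y := by
  haveI := Fact.mk hp
  obtain ⟨P, hP⟩ := (IsPGroup.of_card (n := 1) (by rw [Nat.card_zpowers, ha, pow_one]) :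
    IsPGroup p (zpowers a)).exists_le_sylow
  have aP := hP (mem_zpowers a)
  haveI : Nontrivial P := ⟨⟨⟨a, aP⟩, 1, fun e => by
    rw [show a = 1 from congrArg Subtype.val e, orderOf_one] at ha; exact hp.ne_one ha.symm⟩⟩
  haveI := P.2.center_nontrivial
  obtain ⟨k, hk⟩ := (P.2.to_subgroup (center P)).exists_card_eq
  obtain ⟨y, hy⟩ := exists_prime_orderOf_dvd_card' (G := center P) p (by
    rw [hk]; refine dvd_pow_self _ ?_; rintro rfl
    exact (Finite.one_lt_card (α := center P)).ne' (by simpa using hk))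
  refine ⟨y.1.1, by rw [Subgroup.orderOf_coe, Subgroup.orderOf_coe, hy], fun h => P.not_dvd_index (h.trans (index_dvd_of_le
    fun x hx => ?_)), congrArg Subtype.val (mem_center_iff.1 y.2 ⟨a, aP⟩)⟩
  exact mem_centralizer_singleton_iff.2 (congrArg Subtype.val (mem_center_iff.1 y.2 ⟨x, hx⟩))

theorem exists_cent' (hp : p.Prime) (h : p ∣ Nat.card G) : ∃ y : G, orderOf y = p ∧ ¬ p ∣ nn y := by
  haveI := Fact.mk hp
  obtain ⟨a, ha⟩ := exists_prime_orderOf_dvd_card' p h
  obtain ⟨y, h1, h2, -⟩ := exists_cent hp ha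
  exact ⟨y, h1, h2⟩
end

def Full (m : ℕ) (S : Set ℕ) (n : ℕ) : Prop := ∀ r ∈ S, r.Prime → m.factorization r ≤ n.factorization r

theorem Full.mono {m n n' : ℕ} {S : Set ℕ} (h : Full m S n) (hd : n ∣ n') (h0 : n' ≠ 0) : Full m S n' := fun r a b =>
  (h r a b).trans ((Nat.factorization_le_iff_dvd (ne_zero_of_dvd_ne_zero h0 hd) h0).2 hd r)

theorem Full.dvd {m n r : ℕ} {S : Set ℕ} (h : Full m S n) (hr : r ∈ S) (hp : r.Prime) (h0 : m ≠ 0) (hd : r ∣ m) : r ∣ n :=
  Nat.dvd_of_factorization_pos ((hp.factorization_pos_of_dvd h0 hd).trans_le (h r hr hp)).ne'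

theorem key {G : Type*} [Group G] [Finite G] {m p q : ℕ} {S : Set ℕ} (h0 : m ≠ 0) (ha : ∀ g : G, nn g ∣ m)
    (hb : ∀ g : G, g ≠ 1 → Full m S (nn g) ∨ Full m Sᶜ (nn g)) (hc : ∀ g : G, Full m S (nn g) → ¬ Full m Sᶜ (nn g))
    (hq : q.Prime) (qS : q ∉ S) (qm : q ∣ m) (qG : q ∣ Nat.card G) : ∃ z : G, orderOf z = q ∧ Full m S (nn z) ∧
      (∀ y, Commute y z → orderOf y = p → p.Prime → p ≠ q → Full m S (nn y)) ∧
      (p.Prime → p ∈ S → p ∣ m → (Nat.card G).factorization p ≤ m.factorization p) := by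
  obtain ⟨z, hz, hz'⟩ := exists_cent' hq qG
  have n1 : ∀ {y : G} {r : ℕ}, orderOf y = r → r.Prime → y ≠ 1 := fun e hr e' => hr.ne_one (by rw [← e, e', orderOf_one])
  have fz : Full m S (nn z) := (hb z (n1 hz hq)).resolve_right fun h => hz' (h.dvd qS hq h0 qm)
  have st : ∀ y, Commute y z → orderOf y = p → p.Prime → p ≠ q → Full m S (nn y) := fun y c e hp ne => by
    have co : (orderOf y).Coprime (orderOf z) := by rw [e, hz]; exact (Nat.coprime_primes hp hq).2 ne
    refine (hb y (n1 e hp)).resolve_right fun h => hc (y * z) (fz.mono (index_dvd_of_le ?_) index_ne_zero_of_finite)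
      (h.mono (index_dvd_of_le (cent_le c co)) index_ne_zero_of_finite)
    rw [c.eq]; exact cent_le c.symm co.symm
  refine ⟨z, hz, fz, st, fun hp pS pm => ?_⟩
  haveI := Fact.mk hp
  have ne : p ≠ q := fun e => qS (e ▸ pS)
  by_contra! lt
  have le : ∀ g : G, (nn g).factorization p ≤ m.factorization p := fun g =>
    (Nat.factorization_le_iff_dvd index_ne_zero_of_finite h0).2 (ha g) p
  obtain ⟨a, ha'⟩ := exists_prime_orderOf_dvd_card' (G := centralizer ({z} : Set G)) p (by
    have := congrArg (fun n => n.factorization p) (centralizer ({z} : Set G)).card_mul_index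
    simp only [Nat.factorization_mul Nat.card_pos.ne' index_ne_zero_of_finite, Finsupp.add_apply] at this
    have := le z
    exact Nat.dvd_of_factorization_pos (by simp only [nn] at *; omega))
  rw [← Subgroup.orderOf_coe] at ha'
  have c : Commute a.1 z := mem_centralizer_singleton_iff.1 a.2
  have co : (orderOf a.1).Coprime (orderOf z) := by rw [ha', hz]; exact (Nat.coprime_primes hp hq).2 ne
  obtain ⟨y, y1, y2, y3⟩ := exists_cent hp ha'
  obtain ⟨g, hg⟩ := conj_into hp (D := centralizer {a.1 * z}) (E := centralizer {a.1}) (fun h => by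
    have := congrArg (fun n => n.factorization p) (relIndex_mul_index (cent_le c co))
    have r0 : (centralizer ({a.1 * z} : Set G)).relIndex (centralizer {a.1}) ≠ 0 := index_ne_zero_of_finite
    simp only [Nat.factorization_mul r0 index_ne_zero_of_finite, Finsupp.add_apply] at this
    have := hp.factorization_pos_of_dvd r0 h
    have := le (a.1 * z)
    have := st _ c ha' hp ne p pS hp
    simp only [nn] at *; omega) y1 (mem_centralizer_singleton_iff.2 y3.symm.eq)
  have := st (g⁻¹ * y * g) (mem_centralizer_singleton_iff.1 (cent_le c.symm co.symm (c.eq ▸ hg)))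
    (by rw [← y1]; simpa using (MulAut.conj g⁻¹).orderOf_eq y) hp ne
  exact y2 (nn_conj y g ▸ this.dvd pS hp h0 pm)

/-- Let G and M be finite groups with trivial centres and the same set of conjugacy class sizes, and suppose the prime graph of M is disconnected: the prime divisors of #M split into two non-empty parts such that M has no element of order pq with p in one part and q in the other. Then #G = #M. -/
theorem result {G M : Type*}
    [Group G] [Finite G] [Group M] [Finite M] (hZG : Subgroup.center G = ⊥) (hZM : Subgroup.center M = ⊥)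
    (h : Set.range (fun g : G => (Subgroup.centralizer ({g} : Set G)).index) = Set.range (fun g : M => (Subgroup.centralizer ({g} : Set M)).index))
    (hdisc : ∃ A : Set ℕ, (∃ a ∈ A, a.Prime ∧ a ∣ Nat.card M) ∧ (∃ b ∉ A, b.Prime ∧ b ∣ Nat.card M) ∧
      ∀ a ∈ A, ∀ b ∉ A, a.Prime → b.Prime → a ∣ Nat.card M → b ∣ Nat.card M → ¬ ∃ x : M, orderOf x = a * b) :
    Nat.card G = Nat.card M := by
  obtain ⟨A, ⟨a, aA, ap, am⟩, ⟨b, bA, bp, bm⟩, hA⟩ := hdisc
  have h0 : Nat.card M ≠ 0 := Nat.card_pos.ne'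
  have tr : ∀ g : G, ∃ w : M, nn w = nn g := fun g => (h ▸ ⟨g, rfl⟩ : nn g ∈ Set.range _)
  have tr' : ∀ w : M, ∃ g : G, nn g = nn w := fun w => (h.symm ▸ ⟨w, rfl⟩ : nn w ∈ Set.range _)
  have side : ∀ (w : M) r s, orderOf w = r → r.Prime → s.Prime → s ∣ Nat.card (centralizer ({w} : Set M)) →
      (r ∈ A ↔ s ∈ A) := fun w r s e hr hs hd => by
    by_cases ne : r = s
    · rw [ne]
    haveI := Fact.mk hs
    obtain ⟨u, hu⟩ := exists_prime_orderOf_dvd_card' s hd
    rw [← Subgroup.orderOf_coe] at hu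
    have c : Commute u.1 w := mem_centralizer_singleton_iff.1 u.2
    have o : orderOf (u.1 * w) = s * r := by
      rw [c.orderOf_mul_eq_mul_orderOf_of_coprime (by rw [hu, e]; exact (Nat.coprime_primes hs hr).2 (Ne.symm ne)), hu, e]
    have d1 : r ∣ Nat.card M := e ▸ orderOf_dvd_natCard w
    have d2 : s ∣ Nat.card M := hu ▸ orderOf_dvd_natCard _
    refine ⟨fun h1 => by_contra fun h2 => hA r h1 s h2 hr hs d1 d2 ⟨_, o.trans (mul_comm _ _)⟩,
      fun h1 => by_contra fun h2 => hA s h1 r h2 hs hr d2 d1 ⟨_, o⟩⟩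
  have fl : ∀ (w : M) r, r.Prime → ¬ r ∣ Nat.card (centralizer ({w} : Set M)) →
      (Nat.card M).factorization r ≤ (nn w).factorization r := fun w r hr hd => by
    rw [← (centralizer ({w} : Set M)).card_mul_index, Nat.factorization_mul Nat.card_pos.ne' index_ne_zero_of_finite,
      Finsupp.add_apply, Nat.factorization_eq_zero_of_not_dvd hd, zero_add]
  have hbM : ∀ w : M, w ≠ 1 → Full (Nat.card M) A (nn w) ∨ Full (Nat.card M) Aᶜ (nn w) := fun w hw => by
    obtain ⟨r, hr, k, hk⟩ := Nat.exists_prime_and_dvd (orderOf_eq_one_iff.not.2 hw)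
    have k0 : k ≠ 0 := by rintro rfl; exact (orderOf_pos w).ne' hk
    have o : orderOf (w ^ k) = r := by
      rw [orderOf_pow' _ k0, hk, Nat.gcd_mul_left_left, Nat.mul_div_cancel _ (Nat.pos_of_ne_zero k0)]
    have le : centralizer ({w} : Set M) ≤ centralizer {w ^ k} := fun x hx =>
      mem_centralizer_singleton_iff.2 (Commute.pow_right (mem_centralizer_singleton_iff.1 hx) k)
    by_cases rA : r ∈ A
    · exact .inr fun s sA hs => fl w s hs fun hd => sA ((side _ r s o hr hs (hd.trans (card_dvd_of_le le))).1 rA)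
    · exact .inl fun s sA hs => fl w s hs fun hd => rA ((side _ r s o hr hs (hd.trans (card_dvd_of_le le))).2 sA)
  have ha : ∀ g : G, nn g ∣ Nat.card M := fun g => by
    obtain ⟨w, e⟩ := tr g; exact e ▸ index_dvd_card _
  have hb : ∀ g : G, g ≠ 1 → Full (Nat.card M) A (nn g) ∨ Full (Nat.card M) Aᶜ (nn g) := fun g hg => by
    obtain ⟨w, e⟩ := tr g
    refine e ▸ hbM w ?_
    rintro rfl
    have : centralizer ({g} : Set G) = ⊤ := index_eq_one.1 (e.symm.trans (index_eq_one.2 (by simp)))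
    exact hg (mem_bot.1 (hZG ▸ mem_center_iff.2 fun x => mem_centralizer_singleton_iff.1 (this ▸ mem_top x)))
  have hc : ∀ g : G, Full (Nat.card M) A (nn g) → ¬ Full (Nat.card M) Aᶜ (nn g) := fun g h1 h2 => by
    obtain ⟨w, e⟩ := tr g
    rw [← e] at h1 h2
    have d : Nat.card M ∣ nn w := (Nat.factorization_prime_le_iff_dvd h0 index_ne_zero_of_finite).1 fun r hr =>
      (em (r ∈ A)).elim (fun x => h1 r x hr) fun x => h2 r x hr
    have b0 : centralizer ({w} : Set M) = ⊥ := by
      have := (centralizer ({w} : Set M)).card_mul_index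
      rw [← card_eq_one]
      refine Nat.eq_of_mul_eq_mul_right (Nat.pos_of_ne_zero h0) ?_
      rw [one_mul]; convert this using 2; exact Nat.dvd_antisymm d (index_dvd_card _)
    have w1 : w = 1 := mem_bot.1 (b0 ▸ mem_centralizer_singleton_iff.2 rfl)
    rw [nn, w1, show centralizer ({1} : Set M) = ⊤ by simp, index_top, Nat.dvd_one] at d
    exact ap.ne_one (Nat.dvd_one.1 (d ▸ am))
  have dv : Nat.card M ∣ Nat.card G := (Nat.factorization_prime_le_iff_dvd h0 Nat.card_pos.ne').1 fun r hr => by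
    have ex : ∃ w : M, ¬ r ∣ Nat.card (centralizer ({w} : Set M)) := by
      haveI := Fact.mk ap
      haveI := Fact.mk bp
      by_cases rA : r ∈ A
      · obtain ⟨w, hw⟩ := exists_prime_orderOf_dvd_card' b bm
        exact ⟨w, fun hd => bA ((side w b r hw bp hr hd).2 rA)⟩
      · obtain ⟨w, hw⟩ := exists_prime_orderOf_dvd_card' a am
        exact ⟨w, fun hd => rA ((side w a r hw ap hr hd).1 aA)⟩
    obtain ⟨w, hw⟩ := ex
    obtain ⟨g, e⟩ := tr' w
    exact (fl w r hr hw).trans ((Nat.factorization_le_iff_dvd index_ne_zero_of_finite Nat.card_pos.ne').2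
      (e.symm.dvd.trans (index_dvd_card _)) r)
  refine Nat.dvd_antisymm ((Nat.factorization_prime_le_iff_dvd Nat.card_pos.ne' h0).1 fun p hp => ?_) dv
  obtain ⟨z, z1, -, z3, z4⟩ := key (p := p) h0 ha hb hc bp bA bm (bm.trans dv)
  obtain ⟨u, u1, -, u3, u4⟩ := key (p := p) (S := Aᶜ) h0 ha (fun g hg => by simpa using (hb g hg).symm)
    (fun g h1 h2 => hc g (by simpa using h2) h1) ap (by simpa using aA) am (am.trans dv)
  by_cases pm : p ∣ Nat.card M
  · exact (em (p ∈ A)).elim (fun x => z4 hp x pm) fun x => u4 hp x pm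
  rw [Nat.factorization_eq_zero_of_not_dvd (n := Nat.card G) fun pG => ?_]
  · exact Nat.zero_le _
  obtain ⟨y, y1, -⟩ := exists_cent' hp pG
  have cj : ∀ z : G, ∃ c : G, Commute (c⁻¹ * y * c) z := fun z => by
    obtain ⟨c, hc⟩ := conj_into hp (D := centralizer {z}) (E := ⊤) (by
      rw [relIndex_top_right]; exact fun d => pm (d.trans (ha z))) y1 (mem_top y)
    exact ⟨c, mem_centralizer_singleton_iff.1 hc⟩
  have o : ∀ c : G, orderOf (c⁻¹ * y * c) = p := fun c => by rw [← y1]; simpa using (MulAut.conj c⁻¹).orderOf_eq y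
  obtain ⟨c, h1⟩ := cj z
  obtain ⟨d, h2⟩ := cj u
  exact hc y (nn_conj y c ▸ z3 _ h1 (o c) hp fun e => pm (e ▸ bm)) (nn_conj y d ▸ u3 _ h2 (o d) hp fun e => pm (e ▸ am))

end Cfsg.Agent.S4184
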