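import Cfsg.Statements.S4186
import Cfsg.Agent.H22.Misc2

set_option autoImplicit false
open Cfsg

namespace Cfsg.Agent.S4186

/-- Let T and X be subgroups of a group with T a finite 2-group normalizing X but not centralizing it. Then some element of T inverts some non-identity element of X under conjugation. -/
theorem result {G : Type*} [Group G] (T X : Subgroup G) [Finite ↥T] (hT : IsPGroup 2 ↥T) (hTN : T ≤ Subgroup.normalizer (X : Set G)) (hTC : ¬ T ≤ Subgroup.centralizer (X : Set G)) : ∃ t ∈ T, ∃ x ∈ X, x ≠ 1 ∧ t * x * t⁻¹ = x⁻¹ := by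
  obtain ⟨w, hw, hwC⟩ := SetLike.not_le_iff_exists.mp hTC
  obtain ⟨k, hk⟩ := H9.exists_pow_of_mem hT hw
  obtain ⟨j, h1, h2⟩ := H22.exists_pow_not_mem_pow_mem hk hwC
  have ht : w ^ 2 ^ j ∈ T := T.pow_mem hw _
  generalize w ^ 2 ^ j = t at h1 h2 ht
  rw [Subgroup.mem_centralizer_iff] at h1
  push Not at h1
  obtain ⟨x, hx, hxt⟩ := h1
  refine ⟨t, ht, x⁻¹ * (t * x * t⁻¹),
    X.mul_mem (X.inv_mem hx) (H1.conj_mem_of_mem_normalizer (hTN ht) hx), fun h => hxt ?_, ?_⟩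
  · calc x * t = x * (x⁻¹ * (t * x * t⁻¹)) * t := by rw [h]; group
      _ = _ := by group
  · have h3 := h2 x hx
    calc t * (x⁻¹ * (t * x * t⁻¹)) * t⁻¹ = t * x⁻¹ * t⁻¹ * (t ^ 2 * x) * (t ^ 2)⁻¹ := by
          rw [pow_two]; group
      _ = _ := by rw [← h3]; group

end Cfsg.Agent.S4186
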