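import Cfsg.Statements.S4188
import Cfsg.Agent.H3.B8

set_option autoImplicit false
open Cfsg

namespace Cfsg.Agent.S4188

/-- Let G be a finite group that is the semidirect product of a normal abelian subgroup N of odd order by a 2-subgroup P, and suppose N is the unique minimal normal subgroup of G. Then the index of the Frattini subgroup of P in P is at most #N − 1. -/
theorem result {G : Type*} [Group G] [Finite G] (N P : Subgroup G) (hN : N.Normal) (hNab : IsMulCommutative ↥N) (hNodd : Odd (Nat.card ↥N)) (hP : IsPGroup 2 ↥P) (hdisj : N ⊓ P = ⊥) (hprod : N ⊔ P = ⊤) (hmin : N ≠ ⊥ ∧ ∀ M : Subgroup G, M.Normal → M ≠ ⊥ → N ≤ M) : (frattini ↥P).index ≤ Nat.card ↥N - 1 := by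
  open Subgroup in
  obtain ⟨q, hq, hqN⟩ := Nat.exists_prime_and_dvd (fun e => hmin.1 (card_eq_one.1 e))
  have : Fact q.Prime := ⟨hq⟩
  have hq2 : q ≠ 2 := by
    rintro rfl
    exact (Nat.not_even_iff_odd.2 hNodd) (even_iff_two_dvd.2 hqN)
  have hc : ∀ a ∈ N, ∀ b ∈ N, a * b = b * a := fun a ha b hb =>
    congrArg Subtype.val (hNab.is_comm.comm (⟨a, ha⟩ : N) ⟨b, hb⟩)
  let M : Subgroup G :=
    { carrier := {x | x ∈ N ∧ x ^ q = 1}
      mul_mem' := fun {a b} ha hb => ⟨mul_mem ha.1 hb.1, by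
        rw [Commute.mul_pow (hc a ha.1 b hb.1), ha.2, hb.2, one_mul]⟩
      one_mem' := ⟨one_mem _, one_pow _⟩
      inv_mem' := fun {a} ha => ⟨inv_mem ha.1, by rw [inv_pow, ha.2, inv_one]⟩ }
  have hM : M.Normal := ⟨fun a ha g => ⟨hN.conj_mem a ha.1 g, by
    rw [conj_pow, ha.2, mul_one, mul_inv_cancel]⟩⟩
  have hM0 : M ≠ ⊥ := by
    obtain ⟨x, hx⟩ := exists_prime_orderOf_dvd_card' q hqN
    intro e
    have h1 : (x : G) ∈ M := ⟨x.2, by rw [← coe_pow, ← hx, pow_orderOf_eq_one, coe_one]⟩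
    rw [e, mem_bot, OneMemClass.coe_eq_one] at h1
    rw [h1, orderOf_one] at hx
    exact hq.one_lt.ne hx
  have hexp : ∀ v : N, v ^ q = 1 := fun v => Subtype.ext (hmin.2 M hM hM0 v.2).2
  have hNq : IsPGroup q N := fun v => ⟨1, by rw [pow_one, hexp]⟩
  obtain ⟨n, hn⟩ := hNq.exists_card_eq
  let _ : CommGroup N := { (inferInstance : Group N) with mul_comm := hNab.is_comm.comm }
  obtain ⟨f, hf⟩ := H3.exists_aut_GL hexp hn.le
  let c : P →* MulAut N := (MulAut.conjNormal (H := N)).comp P.subtype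
  have hci : Function.Injective c := by
    have hK : (P ⊓ centralizer (N : Set G)).Normal := by
      rw [← normalizer_eq_top_iff, eq_top_iff, ← hprod, sup_le_iff]
      refine ⟨(le_centralizer_iff.1 inf_le_right).trans (centralizer_le_normalizer _), ?_⟩
      exact H18.norm_inf H18.le_N (H18.norm_top_iff.2 inferInstance |>.trans' le_top)
    have hK0 : P ⊓ centralizer (N : Set G) = ⊥ := by
      by_contra h
      exact hmin.1 (eq_bot_iff.2 (hdisj ▸ le_inf le_rfl ((hmin.2 _ hK h).trans inf_le_left)))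
    rw [injective_iff_map_eq_one]
    intro g hg
    refine Subtype.ext (mem_bot.1 (hK0 ▸ ⟨g.2, fun a ha => ?_⟩))
    have := congrArg Subtype.val (DFunLike.congr_fun hg ⟨a, ha⟩)
    exact (mul_inv_eq_iff_eq_mul.1 this).symm
  have h1 := (H3.Imp.frat_bound q hq2 _ P hP (Fin n → ZMod q) (H3.DL.nat (f.comp c))
    (H3.DL.nat_inj (hf.comp hci)) rfl).1
  rw [Nat.card_fun, Nat.card_zmod, Nat.card_fin, ← hn] at h1
  have h2 := Nat.le_of_dvd Nat.card_pos hqN
  have := hq.two_le
  omega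

end Cfsg.Agent.S4188
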