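import Cfsg.Statements.S4189
import Cfsg.Agent.H9.MaxClass
import Cfsg.Agent.H1.Hol

set_option autoImplicit false
open Cfsg

namespace Cfsg.Agent.S4189

open H18 Subgroup H1

/-- Let P be a finite non-abelian 2-group whose commutator subgroup has index 4 and whose automorphism group is not a 2-group (some automorphism has order that is not a power of 2). Then P is isomorphic to the quaternion group of order 8. -/
theorem result {P : Type*} [Group P] [Finite P] (hP : IsPGroup 2 P) (hna : ¬ IsMulCommutative P) (h4 : (commutator P).index = 4) (haut : ¬ IsPGroup 2 (MulAut P)) : Nonempty (P ≃* QuaternionGroup 2) := by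
  obtain ⟨k, x, h⟩ := H9.taussky P hP h4 hna
  by_cases e : 1 ≤ k ∨ ∀ g ∈ (⊤ : Subgroup P), g ∉ zpowers x → g * g = 1
  · refine absurd ((piGrp_iff_isPGroup Nat.prime_two).1 (piGrp_of_prime_elt (H := ⊤) fun α _ hα => by_contra fun d =>
      hα.ne_one ?_)) fun d => haut (d.of_equiv topEquiv)
    have := fun g => (h.map (SemidirectProduct.inl (φ := MonoidHom.id (MulAut P))) SemidirectProduct.inl_injective).commute_of_odd'
      (e.imp_right (by
        rintro e _ ⟨g, -, rfl⟩ hg
        rw [← map_mul, e g trivial fun d => hg (hl_zpowers (φ := MonoidHom.id (MulAut P)) (x := x) ▸ (inl_mem_hl (φ := MonoidHom.id (MulAut P))).2 d), map_one]))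
      (n := SemidirectProduct.inr α) (hr_norm_top (inr_mem_hr.2 (mem_top α)))
      (by rw [orderOf_inr]; exact hα.odd_of_ne_two d) (g := g)
    exact orderOf_eq_one_iff.2 (MulEquiv.ext fun y => inl_mem_C1.1 (mem_C1.2 (this _ (mem_map_of_mem _ trivial)).symm))
  rw [not_or] at e
  obtain rfl : k = 0 := by omega
  rcases h.cases with d | d | d
  · exact absurd d e.2
  · obtain ⟨f⟩ := h.equiv_quaternion d
    exact ⟨topEquiv.symm.trans f⟩
  · omega

end Cfsg.Agent.S4189
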