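import Cfsg.Statements.S4195
import Mathlib.Tactic.Group

set_option autoImplicit false
open Cfsg

namespace Cfsg.Agent.S4195

/-- Let x be a non-identity element of a finite group G whose centralizer contains a Sylow 2-subgroup of G. If x is conjugate to its inverse, then x has order 2. -/
theorem result {G : Type*} [Group G] [Finite G] (x : G) (hx : x ≠ 1) (P : Sylow 2 G) (hP : (P : Subgroup G) ≤ Subgroup.centralizer ({x} : Set G)) (hreal : IsConj x x⁻¹) : orderOf x = 2 := by
  by_contra hne
  have hxx : x ≠ x⁻¹ := by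
    intro h
    apply hne
    apply orderOf_eq_prime _ hx
    rw [pow_two]; nth_rewrite 2 [h]; simp
  obtain ⟨g, hg⟩ := isConj_iff.1 hreal
  let E : Subgroup G :=
    { carrier := {h | h * x * h⁻¹ = x ∨ h * x * h⁻¹ = x⁻¹}
      one_mem' := by simp
      mul_mem' := by
        intro a b ha hb
        have e : a * b * x * (a * b)⁻¹ = a * (b * x * b⁻¹) * a⁻¹ := by group
        have e2 : a * x⁻¹ * a⁻¹ = (a * x * a⁻¹)⁻¹ := by group
        simp only [Set.mem_setOf_eq] at *
        rw [e]
        rcases hb with hb | hb <;> rw [hb]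
        · exact ha
        · rw [e2]; rcases ha with ha | ha <;> rw [ha] <;> simp
      inv_mem' := by
        intro a ha
        simp only [Set.mem_setOf_eq] at *
        rcases ha with ha | ha
        · left
          calc a⁻¹ * x * a⁻¹⁻¹ = a⁻¹ * (a * x * a⁻¹) * a⁻¹⁻¹ := by rw [ha]
            _ = x := by group
        · right
          calc a⁻¹ * x * a⁻¹⁻¹ = a⁻¹ * (a * x * a⁻¹)⁻¹ * a⁻¹⁻¹ := by rw [ha, inv_inv x]
            _ = x⁻¹ := by group }
  have hC : ∀ b : G, b ∈ Subgroup.centralizer ({x} : Set G) ↔ b * x * b⁻¹ = x := by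
    intro b
    rw [Subgroup.mem_centralizer_singleton_iff, mul_inv_eq_iff_eq_mul]
  have h2 : (Subgroup.centralizer ({x} : Set G)).relIndex E = 2 := by
    rw [Subgroup.relIndex_eq_two_iff]
    refine ⟨g, Or.inr hg, fun b hb => ?_⟩
    have e : b * g * x * (b * g)⁻¹ = (b * x * b⁻¹)⁻¹ := by
      calc b * g * x * (b * g)⁻¹ = b * (g * x * g⁻¹) * b⁻¹ := by group
        _ = _ := by rw [hg]; group
    rw [hC, hC, e]
    rcases hb with hb | hb <;> rw [hb]
    · exact Or.inr ⟨rfl, fun h => hxx h.symm⟩
    · exact Or.inl ⟨inv_inv x, fun h => hxx h.symm⟩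
  have hle : Subgroup.centralizer ({x} : Set G) ≤ E := fun b hb => Or.inl ((hC b).1 hb)
  have := (h2 ▸ Subgroup.relIndex_dvd_index_of_le hle).trans (Subgroup.index_dvd_of_le hP)
  exact P.not_dvd_index this

end Cfsg.Agent.S4195
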