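import Cfsg.Statements.S4196
import Cfsg.Agent.S4195

set_option autoImplicit false
open Cfsg

namespace Cfsg.Agent.S4196

/-- A finite group G has elementary abelian Sylow 2-subgroups (commutative with every element squaring to the identity) if and only if every 2-element of G has a Sylow 2-subgroup in its centralizer and is conjugate to its inverse. -/
theorem result {G : Type*} [Group G] [Finite G] (P : Sylow 2 G) :
    (IsMulCommutative (P : Subgroup G) ∧ ∀ x ∈ (P : Subgroup G), x ^ 2 = 1) ↔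
      ∀ x : G, (∃ k : ℕ, orderOf x = 2 ^ k) → (∃ Q : Sylow 2 G, (Q : Subgroup G) ≤ Subgroup.centralizer ({x} : Set G)) ∧ IsConj x x⁻¹ := by
  constructor
  · rintro ⟨hc, h2⟩ x ⟨k, hk⟩
    have hp : IsPGroup 2 (Subgroup.zpowers x) := by
      apply IsPGroup.of_card (n := k); rw [Nat.card_zpowers, hk]
    obtain ⟨Q, hQ⟩ := hp.exists_le_sylow
    have hxQ : x ∈ (Q : Subgroup G) := hQ (Subgroup.mem_zpowers x)
    let e := Sylow.equiv Q P
    have h1 : ∀ a b : Q, a * b = b * a := fun a b => e.injective (by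
      rw [map_mul, map_mul]; exact hc.1.1 _ _)
    have h3 : x ^ 2 = 1 := by
      have : (⟨x, hxQ⟩ : Q) ^ 2 = 1 := e.injective (by
        rw [map_pow, map_one]; exact Subtype.ext (h2 _ (e ⟨x, hxQ⟩).2))
      exact congrArg Subtype.val this
    refine ⟨⟨Q, fun y hy => ?_⟩, ?_⟩
    · rw [Subgroup.mem_centralizer_singleton_iff]
      exact congrArg Subtype.val (h1 ⟨y, hy⟩ ⟨x, hxQ⟩)
    · have : x⁻¹ = x := by rw [inv_eq_iff_mul_eq_one, ← pow_two, h3]
      rw [this]
  · intro h
    have h2 : ∀ x ∈ (P : Subgroup G), x ^ 2 = 1 := by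
      intro x hx
      by_cases h1 : x = 1
      · simp [h1]
      obtain ⟨k, hk⟩ := (IsPGroup.iff_orderOf.1 P.isPGroup') ⟨x, hx⟩
      obtain ⟨⟨Q, hQ⟩, hr⟩ := h x ⟨k, by rw [← hk, Subgroup.orderOf_mk]⟩
      rw [← Cfsg.Agent.S4195.result x h1 Q hQ hr, pow_orderOf_eq_one]
    refine ⟨⟨⟨fun a b => Subtype.ext ?_⟩⟩, h2⟩
    have ha := h2 _ a.2
    have hb := h2 _ b.2
    have hab := h2 _ (a * b).2
    have i : ∀ y : G, y ^ 2 = 1 → y⁻¹ = y := fun y hy => by
      rw [inv_eq_iff_mul_eq_one, ← pow_two, hy]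
    have := i _ hab
    simp only [Subgroup.coe_mul, mul_inv_rev] at this ⊢
    rw [i _ ha, i _ hb] at this
    exact this.symm

end Cfsg.Agent.S4196
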