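import Cfsg.Statements.S4231
import Cfsg.Agent.H23.Spec

set_option autoImplicit false
open Cfsg

namespace Cfsg.Agent.S4231

open H23 H18

/-- Let n ≥ 5 and let G be a group of automorphisms of the alternating group of degree n containing all inner automorphisms. If p ≠ q are primes and G has no element of order pq, then every Sylow p-subgroup of G is abelian or every Sylow q-subgroup of G is abelian. -/
theorem result (n : ℕ) (hn : 5 ≤ n) (G : Subgroup (MulAut (alternatingGroup (Fin n))))
    (hG : (MulAut.conj : alternatingGroup (Fin n) →* MulAut (alternatingGroup (Fin n))).range ≤ G)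
    (p q : ℕ) [Fact p.Prime] [Fact q.Prime] (hpq : p ≠ q) (h : ∀ g : G, orderOf g ≠ p * q) :
    (∀ P : Sylow p G, IsMulCommutative (P : Subgroup G)) ∨ (∀ Q : Sylow q G, IsMulCommutative (Q : Subgroup G)) := by
  have hi : Function.Injective (MulAut.conj : alternatingGroup (Fin n) →* MulAut (alternatingGroup (Fin n))) :=
    fun a b e => Subtype.ext (H2.conjNormal_alt_injective (by simp; omega) e)
  have h1 : ∀ (r : ℕ) [Fact r.Prime], r ≠ 2 → n < r ^ 2 → ∀ P : Sylow r G, IsMulCommutative (P : Subgroup G) :=
    fun r hr h2 h3 P => by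
      have a1 : ∀ x ∈ (P : Subgroup G), ∃ y, MulAut.conj y = x.1 := fun x hx => by
        obtain ⟨k, hk⟩ := IsPGroup.iff_orderOf.1 P.2 ⟨x, hx⟩
        obtain ⟨m, hm⟩ := exists_pow_eq_self_of_coprime (x := x.1) (n := 4) (by
          rw [Subgroup.orderOf_coe, ← Subgroup.orderOf_mk x hx, hk]
          exact Nat.Coprime.pow 2 k ((Nat.coprime_primes Nat.prime_two hr.out).2 h2.symm))
        exact hm ▸ pow_mem (aut_pow_four (by simp; omega) x.1) m
      have a2 := H21.abel_of_card_lt_sq hr.out (piGrp_of_isPGroup hr.out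
        (((P.2.map G.subtype).comap_of_injective _ hi).map (alternatingGroup (Fin n)).subtype)) (by simpa using h3)
      refine ⟨⟨fun a b => ?_⟩⟩
      obtain ⟨x, hx⟩ := a1 _ a.2
      obtain ⟨y, hy⟩ := a1 _ b.2
      have : x * y = y * x := Subtype.ext (comm_of_cent a2 ⟨x, ⟨_, a.2, hx.symm⟩, rfl⟩ ⟨y, ⟨_, b.2, hy.symm⟩, rfl⟩)
      exact Subtype.ext (Subtype.ext (by simpa [hx, hy] using congrArg MulAut.conj this))
  have h2 : ∀ g : alternatingGroup (Fin n), orderOf g ≠ p * q := fun g e =>
    h ⟨_, hG ⟨g, rfl⟩⟩ (by rw [Subgroup.orderOf_mk, orderOf_injective _ hi, e])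
  have hp := (Fact.out : p.Prime)
  have hq := (Fact.out : q.Prime)
  have a1 := hp.two_le
  have a2 := hq.two_le
  by_contra hc
  rw [not_or] at hc
  by_cases e : p = 2
  · subst e
    have : q ^ 2 ≤ n := not_lt.1 fun d => hc.2 (h1 q hpq.symm d)
    obtain ⟨g, hg⟩ := exists_order_two (Ω := Fin n) hq hpq.symm (by have : 3 ≤ q := by omega
                                                                    simp; nlinarith)
    exact h2 g hg
  have a3 : p ^ 2 ≤ n := not_lt.1 fun d => hc.1 (h1 p e d)
  by_cases e' : q = 2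
  · subst e'
    obtain ⟨g, hg⟩ := exists_order_two (Ω := Fin n) hp e (by have : 3 ≤ p := by omega
                                                             simp; nlinarith)
    exact h2 g (hg.trans (mul_comm _ _))
  have a4 : q ^ 2 ≤ n := not_lt.1 fun d => hc.2 (h1 q e' d)
  obtain ⟨g, hg⟩ := exists_order_odd (Ω := Fin n) hp hq hpq e e' (by simp; nlinarith)
  exact h2 g hg

end Cfsg.Agent.S4231
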