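import Cfsg.Statements.S4234
import Cfsg.Agent.H22.PGL4

set_option autoImplicit false
open Cfsg

namespace Cfsg.Agent.S4234

open Subgroup Matrix H10 H22 MulAction
open scoped MatrixGroups

def P (A : Type*) [Group A] : Prop := ∀ H : Subgroup A, ¬ H.Normal → IsCoatom (normalizer (H : Set A))

theorem P.of_surj {A B : Type*} [Group A] [Group B] [Finite A] (f : A →* B) (hf : Function.Surjective f) (hB : P B)
    (h : ∀ H : Subgroup A, ∀ g, ∀ a ∈ H, ∀ b ∈ H, f (g * a * g⁻¹) = f b → g * a * g⁻¹ ∈ H) : P A := fun H hH => by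
  have e : normalizer (H : Set A) = (normalizer (H.map f : Set B)).comap f :=
    le_antisymm (map_le_iff_le_comap.1 (le_normalizer_map f)) fun g hg =>
      mem_normalizer_fintype (S := (H : Set A)) fun a ha => by
        obtain ⟨b, hb, e⟩ := (mem_normalizer_iff.1 hg _).1 (mem_map_of_mem f ha)
        exact h H g a ha b hb (by rw [e, map_mul, map_mul, map_inv])
  rw [e]
  refine isCoatom_comap_of_surjective hf (hB _ fun hn => hH (normalizer_eq_top_iff.1 ?_))
  rw [e, normalizer_eq_top_iff.2 hn, comap_top]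

instance fact13 : Fact (Nat.Prime 13) := ⟨by norm_num⟩
local notation "F" => ZMod 13

theorem cF : Fintype.card F = 13 := ZMod.card 13
theorem oF : Odd (Fintype.card F) := by rw [cF]; decide
theorem cL : Nat.card (PSL2 F) = 1092 := by
  have := card_L_odd oF
  rw [cF] at this; omega

theorem max_card {M : Subgroup PGL(2, F)} (h : M ⋖ PSL2 F) :
    (∃ x : OnePoint F, M = stabilizer PGL(2, F) x ⊓ PSL2 F) ∨ Nat.card M = 12 ∨ Nat.card M = 14 := by
  have hd := cL ▸ card_dvd_of_le h.le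
  rcases max_struct 13 (by rw [cF]; norm_num) h le_rfl h.lt.not_ge with h1 | ⟨x, y, n, h1, h3, rfl⟩ |
    ⟨-, ⟨⟨e⟩⟩ | ⟨⟨e⟩⟩⟩ | ⟨-, ⟨e⟩⟩ | ⟨-, R, r, t, h1, h3, -⟩
  · exact Or.inl h1
  · obtain ⟨h6, t, h7, h8, h9⟩ := h1.odd oF (by rw [cF]; norm_num) h3
    rw [Nat.card_congr (h1.dih h7 h8 h9).some.toEquiv, DihedralGroup.nat_card, h6]
    rw [cF] at h3
    omega
  · exact Or.inr (Or.inl (by rw [Nat.card_congr e.toEquiv, card_alt_four]))
  · rw [Nat.card_congr e.toEquiv, card_perm_four] at hd; omega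
  · rw [Nat.card_congr e.toEquiv, card_alt_five] at hd; omega
  · exact absurd (Nat.Prime.eq_one_of_pow (by rw [← h3, cF]; norm_num)) h1.one_lt.ne'

def Good (H : Subgroup PGL(2, F)) : Prop := ∃ D : Subgroup PGL(2, F), D ≤ PSL2 F ∧ D ≤ normalizer (H : Set PGL(2, F)) ∧
  (12 ∣ Nat.card D ∨ 14 ∣ Nat.card D ∨ 78 ∣ Nat.card D)

theorem good_cyc {H : Subgroup PGL(2, F)} (hL : H ≤ PSL2 F) (hc : IsCyclic H) (h0 : H ≠ ⊥) (h13 : ¬ 13 ∣ Nat.card H) :
    Good H := by
  obtain ⟨g, rfl⟩ := (Subgroup.isCyclic_iff_exists_zpowers_eq_top H).1 hc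
  have g1 : g ≠ 1 := fun e => h0 (by simp [e])
  rcases (p1Like_PL F).fix_cases g1 with ⟨x, hx, -⟩ | ⟨-, x, y, hxy, h⟩
  · refine absurd ?_ h13
    rw [Nat.card_zpowers, orderOf_eq_prime ((p1Like_PL F).pow_char_of_mem_Uni (p := 13) hx) g1]
  have gx := (h x).2 (Or.inl rfl)
  have gy := (h y).2 (Or.inr rfl)
  obtain ⟨n, hn, ht⟩ : ∃ n, (n = Fintype.card F - 1 ∨ n = Fintype.card F + 1) ∧ Tor x y n :=
    (tor_of_fix hxy g1 gx gy).elim (fun h => ⟨_, Or.inl rfl, h⟩) fun h => ⟨_, Or.inr rfl, h⟩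
  obtain ⟨h6, t, h7, h8, h9⟩ := ht.odd oF (by rw [cF]; norm_num) hn
  refine ⟨PairSt x y ⊓ PSL2 F, inf_le_right, fun d hd => mem_normalizer_fintype (S := (zpowers g : Set PGL(2, F))) ?_, ?_⟩
  · rintro _ ⟨k, rfl⟩
    rw [← conj_zpow]
    refine zpow_mem ?_ k
    rcases hd.1 with ⟨d1, d2⟩ | ⟨d1, d2⟩
    · have : d * g = g * d := congrArg Subtype.val (ht.cyc.commGroup.mul_comm ⟨d, d1, d2⟩ ⟨g, gx, gy⟩)
      rw [mul_inv_eq_iff_eq_mul.2 this]
      exact mem_zpowers g
    · have a1 := (p1Like_PL F).swap hxy d1 d2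
      have a2 := (p1Like_PL F).swap (g := d * g) hxy (by rw [mul_smul, gx, d1]) (by rw [mul_smul, gy, d2])
      rw [inv_eq_of_mul_eq_one_right a1, eq_inv_of_mul_eq_one_left (by rw [← a2, mul_assoc (d * g)] : d * g * d * g = 1)]
      exact inv_mem (mem_zpowers g)
  · rw [Nat.card_congr (ht.dih h7 h8 h9).some.toEquiv, DihedralGroup.nat_card, h6]
    rw [cF] at hn
    omega

theorem good {H M : Subgroup PGL(2, F)} (h : M ⋖ PSL2 F) (hM : H ≤ M) (h0 : H ≠ ⊥) : Good H := by
  have hL := hM.trans h.le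
  have hd := card_dvd_of_le hM
  have h1 : Nat.card H ≠ 1 := fun e => h0 (card_eq_one.1 e)
  have pr : ∀ p, p.Prime → Nat.card H = p → p ≠ 13 → Good H := fun p hp e e' =>
    good_cyc hL (@isCyclic_of_prime_card _ _ _ ⟨hp⟩ e) h0 fun a =>
      e' ((Nat.prime_dvd_prime_iff_eq (by norm_num) hp).1 (e ▸ a)).symm
  rcases max_card h with ⟨x, rfl⟩ | hc | hc
  · by_cases h13 : 13 ∣ Nat.card H
    · obtain ⟨u, hu, ho⟩ := exists_mem_orderOf_eq H (by norm_num) h13
      have hP := p1Like_PL F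
      have fx : ∀ g ∈ stabilizer PGL(2, F) x ⊓ PSL2 F, g ∈ stabilizer PGL(2, F) (PL.of x) := fun g hg =>
        (PL.smul_of_eq_iff g x x).2 hg.1
      have uU : u ∈ hP.Uni (PL.of x) :=
        hP.exists_mem_Uni_of_pow_char (p := 13) (i := 1) (by rw [pow_one]; exact orderOf_dvd_iff_pow_eq_one.1 ho.dvd) (fx u (hM hu))
      obtain ⟨S, hS⟩ := IsPGroup.exists_le_sylow (p := 13) (P := hP.Uni (PL.of x))
        fun g => ⟨1, Subtype.ext (by rw [pow_one]; exact hP.pow_char_of_mem_Uni g.2)⟩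
      have hU : zpowers u = hP.Uni (PL.of x) := eq_of_le_of_card_ge (zpowers_le.2 uU) ((card_le_of_le hS).trans (by
        rw [sylow_card_of (a := 1) (m := 168) (by rw [card_PGL2, cF]; rfl) (by norm_num), Nat.card_zpowers, ho]; rfl))
      refine ⟨_, h.le, fun d hd => mem_normalizer_fintype (S := (H : Set PGL(2, F))) fun a ha => ?_, Or.inr (Or.inr ?_)⟩
      · have : d * a * d⁻¹ * a⁻¹ ∈ hP.Uni (PL.of x) :=
          (hP.mu_eq_one_iff' (⟨d, fx d hd⟩ * ⟨a, fx a (hM ha)⟩ * (⟨d, fx d hd⟩)⁻¹ * (⟨a, fx a (hM ha)⟩)⁻¹)).1 (by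
            rw [map_mul, map_mul, map_mul, map_inv, map_inv, mul_inv_cancel_comm, mul_inv_cancel])
        rw [← hU] at this
        simpa using H.mul_mem (zpowers_le.2 hu this) ha
      · have := card_stab_L oF x
        rw [cF] at this; omega
    · refine good_cyc hL ((p1Like_PL F).isCyclic_of_inf_Uni (x := PL.of x)
        (fun g hg => (PL.smul_of_eq_iff g x x).2 (hM hg).1) fun a ha hU => by_contra fun e => h13 ?_) h0 h13
      have := H.orderOf_dvd_natCard ha
      rwa [orderOf_eq_prime ((p1Like_PL F).pow_char_of_mem_Uni (p := 13) hU) e] at this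
  · rw [hc] at hd
    have := Nat.le_of_dvd (by norm_num) hd
    rcases (by generalize Nat.card H = n at *; interval_cases n <;> omega :
      Nat.card H = 2 ∨ Nat.card H = 3 ∨ Nat.card H = 4 ∨ Nat.card H = 6 ∨ Nat.card H = 12) with e | e | e | e | e
    · exact pr 2 Nat.prime_two e (by norm_num)
    · exact pr 3 Nat.prime_three e (by norm_num)
    · by_cases hcy : IsCyclic H
      · exact good_cyc hL hcy h0 (by omega)
      obtain ⟨x, y, hk, rfl⟩ := exists_kPair_of_klein (V := H)
        ⟨e, (not_isCyclic_iff_exponent_eq_prime Nat.prime_two e).1 hcy⟩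
      obtain ⟨s, hs, s3, h2, h3⟩ := kp_three (two_ne_of_odd oF) hk (hL (subset_closure (by simp))) (hL (subset_closure (by simp)))
      refine ⟨normalizer (Subgroup.closure {x, y} : Set PGL(2, F)) ⊓ PSL2 F, inf_le_right, inf_le_left, Or.inl ?_⟩
      have d4 := e ▸ card_dvd_of_le (le_inf le_normalizer hL)
      have d3 := (normalizer (Subgroup.closure {x, y} : Set PGL(2, F)) ⊓ PSL2 F).orderOf_dvd_natCard (x := s)
        ⟨mem_normalizer_fintype (S := (Subgroup.closure {x, y} : Set PGL(2, F))) fun v hv => conj_mem_closure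
          (by simp [h2, hk.mem_closure_iff]) (by simp [h3, hk.mem_closure_iff]) hv, hs⟩
      rw [orderOf_eq_prime s3 fun a => hk.ne (by simpa [a] using h3.symm)] at d3
      omega
    · refine ⟨M, h.le, (normal_subgroupOf_iff_le_normalizer hM).1 (normal_of_index_eq_two ?_), by omega⟩
      have := (H.subgroupOf M).index_mul_card
      rw [Nat.card_congr (subgroupOfEquivOfLe hM).toEquiv, e, hc] at this
      omega
    · exact ⟨H, hL, le_normalizer, by omega⟩
  · rw [hc] at hd
    have := Nat.le_of_dvd (by norm_num) hd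
    rcases (by generalize Nat.card H = n at *; interval_cases n <;> omega :
      Nat.card H = 2 ∨ Nat.card H = 7 ∨ Nat.card H = 14) with e | e | e
    · exact pr 2 Nat.prime_two e (by norm_num)
    · exact pr 7 (by norm_num) e (by norm_num)
    · exact ⟨H, hL, le_normalizer, by omega⟩

theorem P_PSL : P PSL(2, F) := fun H hH => by
  have hs := ProjectiveSpecialLinearGroup.rank_two_simple (show 4 ≤ Nat.card F by rw [Nat.card_eq_fintype_card, cF]; norm_num)
  obtain ⟨M, hM, hle⟩ := (eq_top_or_exists_le_coatom H).resolve_left (by rintro rfl; exact hH inferInstance)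
  obtain ⟨D, h1, h2, h3⟩ := good ((coatom_iff_cov ι_injective).1 hM) (map_mono hle)
    (by rw [Ne, map_eq_bot_iff_of_injective _ ι_injective]; rintro rfl; exact hH inferInstance)
  have h4 : D.comap (ι F) ≤ normalizer (H : Set PSL(2, F)) := fun d hd => mem_normalizer_fintype (S := (H : Set PSL(2, F))) fun a ha => by
    have := (mem_normalizer_iff.1 (h2 hd) _).1 (mem_map_of_mem (ι F) ha)
    rwa [← map_inv, ← map_mul, ← map_mul, mem_map_iff_mem ι_injective] at this
  obtain ⟨N, hN, h5⟩ := (eq_top_or_exists_le_coatom (normalizer (H : Set PSL(2, F)))).resolve_left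
    fun e => hH (normalizer_eq_top_iff.1 e)
  have h6 := card_dvd_of_le h4
  have h7 := card_dvd_of_le h5
  rw [← card_map_of_injective ι_injective, map_comap_eq_self h1] at h6
  have h8 : Nat.card N = 78 ∨ Nat.card N = 12 ∨ Nat.card N = 14 := by
    rw [← card_map_of_injective (ι_injective (K := F))]
    refine (max_card ((coatom_iff_cov ι_injective).1 hN)).imp_left ?_
    rintro ⟨x, e⟩
    have := card_stab_L oF x
    rw [← e, cF] at this; omega
  refine eq_of_le_of_card_ge h5 ?_ ▸ hN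
  rcases h3 with h | h | h <;> have a1 := (h.trans h6).trans h7 <;> have a2 := Nat.le_of_dvd Nat.card_pos (h.trans h6) <;>
    omega

/-- Let K be isomorphic to PSL(2, 13) or to SL(2, 13) and let S be a finite abelian group of order coprime to the order of K. Then in the direct product K × S every subgroup that is not normal has a normalizer that is a maximal subgroup. -/
theorem result {K S : Type*} [Group K] [CommGroup S] [Finite K] [Finite S]
    (hK : Nonempty (K ≃* Matrix.ProjectiveSpecialLinearGroup (Fin 2) (ZMod 13)) ∨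
      Nonempty (K ≃* Matrix.SpecialLinearGroup (Fin 2) (ZMod 13)))
    (hKS : (Nat.card K).Coprime (Nat.card S)) (H : Subgroup (K × S)) (hH : ¬ H.Normal) :
    IsCoatom (Subgroup.normalizer (H : Set (K × S))) := by
  have hP : P K := by
    rcases hK with ⟨⟨e⟩⟩ | ⟨⟨e⟩⟩
    · exact P_PSL.of_surj e.toMonoidHom e.surjective fun H g a _ b hb h => e.injective h ▸ hb
    refine P.of_surj e.toMonoidHom e.surjective (P_PSL.of_surj (π F) π_surjective fun H g a ha b hb h => ?_)
      fun H g a _ b hb h => e.injective h ▸ hb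
    rcases Nat.even_or_odd (Nat.card H) with h2 | h2
    · obtain ⟨z, hz, ho⟩ := exists_mem_orderOf_eq H Nat.prime_two h2.two_dvd
      obtain rfl : z = -1 := (SL2_eq_of_mul_self (two_ne_of_odd oF) (by rw [← pow_two]; exact orderOf_dvd_iff_pow_eq_one.1 ho.dvd)).resolve_left
        (by rintro rfl; simp at ho)
      rcases (π_eq_iff _ _).1 h with e | e <;> rw [e]
      exacts [hb, by simpa using H.mul_mem hz hb]
    · refine mem_of_toPGL_mem h2 ?_ ⟨b, hb, congrArg (ι F) h.symm⟩
      rw [conj_pow, show a ^ Nat.card H = 1 from congrArg Subtype.val (pow_card_eq_one' (x := (⟨a, ha⟩ : H)))]; simp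
  refine hP.of_surj (MonoidHom.fst K S) Prod.fst_surjective (fun H g a ha b hb h => ?_) H hH
  obtain ⟨n, h1, h2⟩ := Nat.chineseRemainder hKS 1 0
  have key : ∀ c ∈ H, (c.1, 1) ∈ H := fun c hc => by
    convert H.pow_mem hc n using 1
    refine Prod.ext ?_ ?_
    · rw [Prod.pow_fst, pow_eq_pow_of_modEq h1 pow_card_eq_one', pow_one]
    · rw [Prod.pow_snd, pow_eq_pow_of_modEq h2 pow_card_eq_one', pow_zero]
  convert H.mul_mem (key b hb) (H.mul_mem (H.inv_mem (key a ha)) ha) using 1
  exact Prod.ext (by simpa using h) (by simp)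

end Cfsg.Agent.S4234
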