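import Cfsg.Statements.S4238
import Cfsg.Agent.H18.BG1
import Cfsg.Agent.H21.MinAct
import Cfsg.Agent.H3.Frobenius

set_option autoImplicit false
open Cfsg

namespace Cfsg.Agent.S4238
open H18 Subgroup
open scoped commutatorElement
theorem mker_mk {G : Type*} [Group G] {H : Subgroup G} (N : Subgroup H) [N.Normal] :
    mker (QuotientGroup.mk' N) = N.map H.subtype := by
  rw [mker, mpre, MonoidHom.comap_bot, QuotientGroup.ker_mk']
theorem mim_mk {G : Type*} [Group G] {H : Subgroup G} (N : Subgroup H) [N.Normal] :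
    mim (QuotientGroup.mk' N) H = ⊤ := by
  rw [mim, subgroupOf_self, ← MonoidHom.range_eq_map, MonoidHom.range_eq_top]
  exact QuotientGroup.mk'_surjective _

/-- Let G be a finite group and p a prime. Then G has a normal p-complement if and only if every section K = H/N of G (N a normal subgroup of a subgroup H) whose largest normal subgroup of order prime to p is trivial contains an element whose order equals the exponent of K. -/
theorem result {G : Type*} [Group G] [Finite G] (p : ℕ) [Fact p.Prime] :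
    Cfsg.HasNormalPComplement p G ↔
      ∀ (H : Subgroup G) (N : Subgroup H) [N.Normal], Cfsg.pPrimeCore p (H ⧸ N) = ⊥ →
        ∃ k : H ⧸ N, orderOf k = Monoid.exponent (H ⧸ N) := by
  have hp : p.Prime := Fact.out
  refine ⟨fun h H N _ hO => ?_, fun h => (H3.frobenius_iff' (p := p)).2 fun Q hQ g hg hgp => ?_⟩
  · have h1 := ((hasNormalPComplement_top_iff' hp).1 h).pcore_of_le (K := H) le_top
    have h2 := h1.mim (f := QuotientGroup.mk' N) le_rfl
    rw [mim_mk] at h2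
    have h3 : mim (QuotientGroup.mk' N) O[{p}ᶜ](H) = ⊥ := by
      have := mim_pcore_le (π := {p}ᶜ) (H := H) (f := QuotientGroup.mk' N)
      rwa [mim_mk, ← pPrimeCore_eq hp, hO, le_bot_iff] at this
    rw [h3] at h2
    have h4 : PiNat {p} (Monoid.exponent (H ⧸ N)) :=
      (h2.compl_of_eq_bot.of_compl_compl).of_dvd (by rw [card_top]; exact Group.exponent_dvd_nat_card)
    obtain ⟨k, hk⟩ := h4.eq_pow Monoid.exponent_ne_zero_of_finite
    obtain ⟨a, ha⟩ := Nat.Prime.exists_orderOf_eq_pow_factorization_exponent (G := H ⧸ N) hp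
    refine ⟨a, ?_⟩
    rw [ha, hk, Nat.factorization_pow]; simp [hp.factorization_self]
  by_contra hc
  have hQ' := piGrp_of_isPGroup hp hQ
  obtain ⟨q, hq, a, ha, haq, hac⟩ : ∃ q, q.Prime ∧ ∃ a ∈ zpowers g, PiElt {q} a ∧ a ∉ C(Q) := by
    by_contra hh
    push Not at hh
    exact hc (le_of_pElts hh (mem_zpowers g))
  have hA : PiGrp {p}ᶜ (zpowers a) := PiElt.zpowers (PiElt.of_mem_zpowers ((piNat_compl_iff_coprime hp).2 hgp) ha)
  have hAq : PiGrp {q} (zpowers a) := haq.zpowers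
  set A := zpowers a
  obtain ⟨U, -, hM⟩ := H21.exists_minAct hQ' (zpowers_le.2 (zpowers_le.2 hg ha)) le_rfl le_N hA
    (fun e => hac (cent_symm e (mem_zpowers a)))
  have hUH : U ⊴ U ⊔ A := nml_sup_left hM.norm
  have hAa : Abel A := abel_zpowers
  have hMn : Φ(U) ⊔ (A ⊓ C(U)) ⊴ U ⊔ A := hUH.phi.sup ⟨inf_le_left.trans le_sup_right,
    sup_le (cent_norm (cent_symm inf_le_right)) (hAa.norm inf_le_left)⟩
  have hMU : (Φ(U) ⊔ (A ⊓ C(U))) ⊓ U = Φ(U) := by
    rw [Nrm2.modular (Or.inr (inf_le_left.trans (norm_phi hM.norm))) phi_le, hA.inf_left.inf_eq_bot' hM.pi, sup_bot_eq]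
  set H := U ⊔ A
  set M := Φ(U) ⊔ (A ⊓ C(U))
  haveI := hMn.subgroupOf_normal
  set f := QuotientGroup.mk' (M.subgroupOf H)
  have hk : mker f = M := by rw [mker_mk, map_subgroupOf_eq_of_le hMn.le]
  have ht : mim f H = ⊤ := mim_mk _
  have hU : U ≤ H := le_sup_left
  have hAH : A ≤ H := le_sup_right
  have hV : mim f U ⊴ ⊤ := ht ▸ hUH.mim
  have hVp : PiGrp {p} (mim f U) := hM.pi.mim
  have hsup : mim f U ⊔ mim f A = ⊤ := by rw [← mim_sup hU hAH, ht]
  have hHA : Hall {p}ᶜ (mim f A) ⊤ := hsup ▸ hall_of_sup' hA.mim hVp.compl_compl (Or.inl (mim_norm hM.norm))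
  have hHq : Hall {q} (mim f A) ⊤ := by
    by_cases e : q = p
    · subst e; exact absurd ((hAq.eq_bot hA).le.trans bot_le (mem_zpowers a)) hac
    · exact hsup ▸ hall_of_sup' hAq.mim (hVp.p'_of_ne (Ne.symm e)) (Or.inl (mim_norm hM.norm))
  have hHV : Hall {p} (mim f U) ⊤ := hsup ▸ hall_of_sup hVp hA.mim (Or.inr (mim_norm hM.norm))
  have faith : ∀ b ∈ mim f A, b ∈ C(mim f U) → b = 1 := by
    intro b hb hc
    obtain ⟨x, hx, -, rfl⟩ := mem_mim.1 hb
    have hx' : zpowers x ≤ A := zpowers_le.2 hx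
    have h1 : ⁅U, zpowers x⁆ ≤ mker f := (comm_le_mker_iff hU (hx'.trans hAH)).2 (by
      rw [mim_zpowers (hAH hx)]; exact cent_symm (zpowers_le.2 hc))
    have h2 : zpowers x ≤ C(U) := H1.cent_of_comm_le_phi (hx'.trans hM.norm) (hM.cop.left hx').cop
      (hMU ▸ le_inf (hk ▸ h1) (comm_le_left (hx'.trans hM.norm)))
    exact (mem_mker.1 (hk.ge (mem_sup_right (mem_inf.2 ⟨hx, h2 (mem_zpowers x)⟩)))).2
  have hO : O[{p}ᶜ]((⊤ : Subgroup (H ⧸ M.subgroupOf H))) = ⊥ := eq_bot_iff.2 fun b hb =>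
    mem_bot.2 (faith b (hHA.pcore_le hb) (pcore_cent_nml hV hVp.compl_compl hb))
  obtain ⟨k, hk'⟩ := h H (M.subgroupOf H) (by rw [pPrimeCore_eq hp, hO])
  have hV1 : mim f U ≠ ⊥ := fun e => by
    have := (mim_eq_bot_iff hU).1 e
    exact (phi_lt hM.ne_bot).not_ge (hMU ▸ le_inf (hk ▸ this) le_rfl)
  have hA1 : mim f A ≠ ⊥ := fun e => by
    have h1 : A ≤ M := hk ▸ (mim_eq_bot_iff hAH).1 e
    refine hM.nt (cent_symm (H1.cent_of_comm_le_phi hM.norm hM.cop.cop (hMU ▸ le_inf ?_ (comm_le_left hM.norm))))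
    exact (comm_mono le_rfl h1).trans (comm_le_right (hU.trans hMn.norm))
  have dv : ∀ r, r.Prime → r ∣ Nat.card (⊤ : Subgroup (H ⧸ M.subgroupOf H)) → piPart {r} k ≠ 1 := fun r hr hd => by
    obtain ⟨y, -, hy⟩ := cauchy hr hd
    exact piPart_ne_one hr (by rw [hk', ← hy]; exact Monoid.order_dvd_exponent y) rfl
  have h1 := dv p hp ((hVp.dvd_card hV1).trans (card_dvd le_top))
  have h2 := dv q hq ((hHq.pi.dvd_card hA1).trans (card_dvd le_top))
  have h3 : piPart {p} k ∈ mim f U := hHV.mem_of_nml hV.norm trivial piElt_piPart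
  obtain ⟨c, -, hc⟩ := sylow_le_cj hq hHq (piElt_piPart (π := {q}) (x := k)).zpowers le_top
  have h4 := hc (conj_mem_cj (mem_zpowers _))
  set b := c * piPart {q} k * c⁻¹
  have hW : A ≤ N(U ⊓ mpre f (C1(b))) := norm_inf hM.norm (norm_mpre hAH (norm_C1 (le_C1_iff.2 (hAa.mim h4))))
  rcases hM.irr (le_inf phi_le ((le_sup_left.trans hk.ge).trans mker_le_mpre)) inf_le_left hW with e | e
  · have h5 : c * piPart {p} k * c⁻¹ ∈ mim f (U ⊓ mpre f (C1(b))) := by
      rw [mim_inf_mpre]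
      refine ⟨conj_mem_N (hV.norm trivial) h3, ?_⟩
      rw [← cj_C1]
      exact conj_mem_cj (mem_C1.2 piPart_comm_piPart)
    rw [e, mim_eq_bot_of_le (le_sup_left.trans hk.ge), mem_bot, conj_eq_one_iff'] at h5
    exact h1 h5
  · have h5 : mim f U ≤ C1(b) := (mim_le_iff hU).2 (e.ge.trans inf_le_right)
    exact h2 (conj_eq_one_iff'.1 (faith b h4 (le_C1_iff.1 h5)))

end Cfsg.Agent.S4238
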