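import Cfsg.Statements.S4240
import Cfsg.Agent.H21.Act

set_option autoImplicit false
open Cfsg

namespace Cfsg.Agent.S4240

open H18 H21 Subgroup H1

/-- Let a finite group A act by automorphisms on a finite group G of order coprime to that of A. Suppose every maximal A-invariant proper subgroup of G is nilpotent while G is not. Then G is solvable, the order of G has the form p^a·q^b for two distinct primes p and q, and G has a normal A-invariant Sylow subgroup for some prime dividing its order. -/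
theorem result {A G : Type*} [Group A] [Group G] [Finite A] [Finite G] [MulDistribMulAction A G]
    (hcop : (Nat.card A).Coprime (Nat.card G))
    (hmax : ∀ H : Subgroup G, H ≠ ⊤ → (∀ a : A, ∀ x ∈ H, a • x ∈ H) →
      (∀ K : Subgroup G, H < K → (∀ a : A, ∀ x ∈ K, a • x ∈ K) → K = ⊤) → Group.IsNilpotent H)
    (hG : ¬ Group.IsNilpotent G) :
    Group.IsSolvable G ∧
      (∃ p q a b : ℕ, p.Prime ∧ q.Prime ∧ p ≠ q ∧ Nat.card G = p ^ a * q ^ b) ∧
      ∃ (p : ℕ) (P : Sylow p G), p.Prime ∧ p ∣ Nat.card G ∧ (P : Subgroup G).Normal ∧ (∀ a : A, ∀ x ∈ (P : Subgroup G), a • x ∈ (P : Subgroup G)) := by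
  let φ := MulDistribMulAction.toMulAut A G
  have h : ∀ U, U ≤ hL (⊤ : Subgroup G) → U ≠ hL ⊤ → aR φ ≤ N(U) → Nil U := fun U h1 h2 h3 => by
    obtain ⟨H, rfl⟩ := exists_hL h1
    obtain ⟨M, h4, ⟨h5, h6⟩, h7⟩ := exists_maximal_sub (A := H) (fun M => M ≠ ⊤ ∧ ∀ a : A, ∀ x ∈ M, a • x ∈ M)
      ⟨fun e => h2 (by rw [e]), aR_le_N.1 h3⟩
    exact nil_hL.2 (Nil.of_le (hmax M h5 h6 fun K h8 h9 => by_contra fun c => h8.ne' (h7 K ⟨c, h9⟩ h8.le)) h4)
  refine ⟨solv_top_iff.1 (solv_hL.1 (solv_of_inv_nil (cop_aR hcop) h)), ?_⟩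
  obtain ⟨p, q, P, Q, hp, hq, pq, hd, hP, hQ, nQ, hA, e⟩ := inv_schmidt (cop_aR hcop) h
    fun c => hG (nil_top_iff.1 (nil_hL.1 c))
  obtain ⟨a, ha⟩ := hP.pi.card_eq_pow
  obtain ⟨b, hb⟩ := hQ.pi.card_eq_pow
  rw [card_hL, card_top] at hd
  refine ⟨⟨p, q, a, b, hp, hq, pq, ?_⟩, ?_⟩
  · rw [← ha, ← hb, ← (nQ.nrm2' hP.le).card_sup_of_disj (hP.pi.inf_eq_bot (hQ.pi.p'_of_ne pq.symm)), e, card_hL,
      card_top]
  · obtain ⟨R, rfl⟩ := exists_hL hQ.le
    obtain ⟨S, rfl⟩ := (hall_hL.1 hQ).exists_sylow_top hq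
    exact ⟨q, S, hq, hd, norm_top_iff.1 (hL_le_N.1 nQ.2), aR_le_N.1 hA⟩

end Cfsg.Agent.S4240
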