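import Cfsg.Statements.S4242
import Cfsg.Agent.H18.BG1
import Cfsg.Agent.H3.Frobenius

set_option autoImplicit false
open Cfsg

namespace Cfsg.Agent.S4242
open H18 Subgroup
open H1 (Cop cop_of_pi cop_of_pi')
open scoped commutatorElement
theorem mnn_iff {G : Type*} [Group G] {K : Subgroup G} :
    Cfsg.IsMinimalNonNilpotent K ↔ ¬ Nil K ∧ ∀ H < K, Nil H := by
  refine and_congr_right fun _ => ⟨fun h H hH => ?_, fun h H hH => ?_⟩
  · exact (nil_subgroupOf hH.le).1 (h _ fun e => hH.not_ge (subgroupOf_eq_top.1 e))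
  · refine nil_map_subtype.1 (h _ (lt_of_le_of_ne (map_subtype_le _) fun e => hH ?_))
    rw [← comap_map_eq_self_of_injective K.subtype_injective H, e]; exact subgroupOf_self K

/-- Let G be a finite group and p a prime dividing its order. Every maximal subgroup of G of order divisible by p is nilpotent if and only if G is nilpotent, or G is a minimal non-nilpotent group, or G is the internal direct product of a normal subgroup of order p and a normal minimal non-nilpotent subgroup of order prime to p. -/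
theorem result {G : Type*} [Group G] [Finite G] (p : ℕ) (hp : p.Prime) (hpG : p ∣ Nat.card G) :
    (∀ M : Subgroup G, IsCoatom M → p ∣ Nat.card M → Group.IsNilpotent M) ↔
      (Group.IsNilpotent G ∨ Cfsg.IsMinimalNonNilpotent G ∨
        ∃ Z K : Subgroup G, Z.Normal ∧ K.Normal ∧ Z ⊓ K = ⊥ ∧ Z ⊔ K = ⊤ ∧ Nat.card Z = p ∧
          Cfsg.IsMinimalNonNilpotent K ∧ ¬ p ∣ Nat.card K) := by
  haveI := Fact.mk hp
  refine ⟨fun h => ?_, ?_⟩
  · by_cases hall : ∀ M : Subgroup G, IsCoatom M → Nil M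
    · by_cases hn : Group.IsNilpotent G
      · exact Or.inl hn
      · refine Or.inr (Or.inl ⟨hn, fun H hH => ?_⟩)
        obtain ⟨M, hM, hHM⟩ := (eq_top_or_exists_le_coatom H).resolve_left hH
        exact (hall M hM).of_le hHM
    right; right
    push Not at hall
    obtain ⟨M, hM, hMn⟩ := hall
    have hMp : PiGrp {p}ᶜ M := (piNat_compl_iff hp).2 fun e => hMn (h M hM e)
    have h' : ∀ H : Subgroup G, H ≠ ⊤ → p ∣ Nat.card H → Nil H := fun H hH hd => by
      obtain ⟨L, hL, hHL⟩ := (eq_top_or_exists_le_coatom H).resolve_left hH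
      exact Nil.of_le (h L hL (hd.trans (card_dvd hHL))) hHL
    have hO : O[{p}]((⊤ : Subgroup G)) ≠ ⊥ := by
      intro hO
      have hc : Cfsg.HasNormalPComplement p G := (H3.frobenius_iff' (p := p)).2 fun Q hQ g hg hgp => by
        have hQ' := piGrp_of_isPGroup hp hQ
        by_cases hQ1 : Q = ⊥
        · simp [hQ1]
        have hN : N(Q) ≠ ⊤ := fun e => hQ1 (le_bot_iff.1 (hO ▸ le_pcore ⟨le_top, e.ge⟩ hQ'))
        exact cent_symm ((h' _ hN ((hQ'.dvd_card hQ1).trans (card_dvd le_N))).cent_pi le_N (zpowers_le.2 hg) hQ'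
          (PiElt.zpowers ((piNat_compl_iff_coprime hp).2 hgp))) (mem_zpowers g)
      have hK := (hasNormalPComplement_top_iff' hp).1 hc
      set K := O[{p}ᶜ]((⊤ : Subgroup G))
      have hKn : K ⊴ ⊤ := pcore_nml
      obtain ⟨P, hP⟩ := exists_sylow hp (⊤ : Subgroup G)
      have hP1 : P ≠ ⊥ := hP.ne_bot_p hp (by rwa [card_top])
      have hcop : Cop P K := cop_p'core le_top hP.pi
      have hKP : K ≤ C(P) := le_of_sylows fun q hq hd => by
        obtain ⟨Q, hQ, hn⟩ := hcop.exists_sylow hq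
        refine ⟨Q, hQ, ?_⟩
        have hne : Q ⊔ P ≠ ⊤ := fun e => by
          have : K = Q := by
            rw [← inf_top_eq K, ← e, Nrm2.modular_left (Or.inr hn) hQ.le, hcop.inf_eq_bot', sup_bot_eq]
          exact hMn (hQ.pi.nil.of_le (this ▸ hK.le_pcore le_top hMp))
        exact (h' _ hne ((hP.pi.dvd_card hP1).trans (card_dvd le_sup_right))).cent_coprime le_sup_left le_sup_right
          ((hK.pi.of_le hQ.le).coprime' hP.pi)
      refine hP1 (le_bot_iff.1 (hO ▸ le_pcore ⟨le_top, ?_⟩ hP.pi))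
      rw [← hP.sup_compl hK]; exact sup_le le_N (cent_norm hKP)
    set Q := O[{p}]((⊤ : Subgroup G))
    have hQ : PiGrp {p} Q := pcore_pi
    have hQn : Q ⊴ ⊤ := pcore_nml
    have hd : Q ⊓ M = ⊥ := hQ.inf_eq_bot hMp
    have hsup : Q ⊔ M = ⊤ := hM.2 _ (lt_of_le_of_ne le_sup_right fun e => hO (by
      rw [← hd]; exact (inf_eq_left.2 (le_sup_left.trans e.ge)).symm))
    have hlt : ∀ H < M, Nil (Q ⊔ H) := fun H hH => h' _ (fun e => hH.ne (by
      rw [← inf_top_eq M, ← e, Nrm2.modular_left' (Or.inr (le_top.trans hQn.norm)) hH.le, inf_comm, hd, bot_sup_eq]))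
      ((hQ.dvd_card hO).trans (card_dvd le_sup_left))
    have hMQ : M ≤ C(Q) := le_of_sylows fun q hq _ => by
      obtain ⟨R, hR⟩ := exists_sylow hq M
      refine ⟨R, hR, (hlt R (lt_of_le_of_ne hR.le fun e => hMn (e ▸ hR.pi.nil))).cent_coprime le_sup_right le_sup_left
        ((hMp.of_le hR.le).coprime' hQ)⟩
    have hMN : M ⊴ ⊤ := hsup ▸ nml_sup_right (cent_norm (cent_symm hMQ))
    obtain ⟨X, hX, hXp⟩ := hQ.exists_sub_card hO
    have hXQ : X = Q := by
      have e : X ⊔ M = ⊤ := hM.2 _ (lt_of_le_of_ne le_sup_right fun e => ne_bot_of_prime (hXp ▸ hp) (by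
        rw [eq_bot_iff, ← hd]; exact le_inf hX (le_sup_left.trans e.ge)))
      rw [← inf_top_eq Q, ← e, Nrm2.modular_left (Or.inl (le_top.trans hMN.norm)) hX, hd, sup_bot_eq]
    exact ⟨Q, M, hQn.normal, hMN.normal, hd, hsup, hXQ ▸ hXp, mnn_iff.2 ⟨hMn, fun H hH => (hlt H hH).of_le le_sup_right⟩,
      (piNat_compl_iff hp).1 hMp⟩
  · rintro (h | h | ⟨Z, K, hZ, hK, hd, hsup, hc, hm, hKp⟩) M hM hp'
    · exact (nil_top_iff.2 h).of_le le_top
    · exact h.2 M hM.1
    · have hZp := piGrp_of_prime hp hc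
      have hS : Hall {p} Z ⊤ := hsup ▸ hall_of_sup hZp ((piNat_compl_iff hp).2 hKp) (Or.inl norm_of_normal)
      have hZM : Z ≤ M := prime_le_of_inf_ne_bot (hc ▸ hp) ((hS.nml_inf norm_of_normal le_top).ne_bot_p hp hp')
      have e : M = Z ⊔ (M ⊓ K) := by
        rw [← Nrm2.modular_left (Or.inl norm_of_normal) hZM, hsup, inf_top_eq]
      have hlt : M ⊓ K < K := lt_of_le_of_ne inf_le_right fun e' => hM.1 (by rw [e, e', hsup])
      have := hZp.nil.sup_cent ((mnn_iff.1 hm).2 _ hlt)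
        (cent_mono (cent_of_inf_eq_bot norm_of_normal norm_of_normal hd) le_rfl inf_le_right)
      rwa [← e] at this

end Cfsg.Agent.S4242
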