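import Cfsg.Statements.S4245
import Cfsg.Agent.H21.Crit

set_option autoImplicit false
open Cfsg

namespace Cfsg.Agent.S4245

open H18 H21 Subgroup
universe u

def Hyp (p : ℕ) (X : Type u) [Group X] : Prop :=
  ∃ A B : Subgroup X, PiNat {p} A.index ∧ B ⊴ A ∧ Cyc B ∧ PiNat {2} (B.relIndex A) ∧ ∃ a ∈ A, A ≤ zpowers a ⊔ B

theorem simple {p : ℕ} (hp : p.Prime) (X : Type u) [Group X] [Finite X] [IsSimpleGroup X] (h : Hyp p X) :
    Group.IsSolvable X := by
  obtain ⟨A, B, h1, h2, h3, h4, a, ha, h5⟩ := h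
  have p2 := Nat.prime_two
  have key : ∀ x : X, x ≠ 1 → PiNat {p} C1(x).index → Group.IsSolvable X := fun x hx h => by
    obtain ⟨k, hk⟩ := h.eq_pow index_ne_zero_of_finite
    exact H5.isSolvable_of_card_prime (H5.card_prime_of_isSimpleGroup_of_index_eq_pow hp hx hk)
  by_cases c : 2 ∣ Nat.card B
  · obtain ⟨Z, hZ, cZ⟩ := cauchy_sub p2 c
    obtain ⟨z, z1, rfl⟩ := exists_gen_of_prime (cZ ▸ p2)
    refine key z z1 (h1.of_dvd (index_dvd_of_le ?_))
    have := prime_relIndex_C_dvd p2 cZ (h3.norm_sub hZ h2.2)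
    rw [← C_zpowers]
    exact relIndex_eq_one_iff.1 (by simpa using this)
  have hB := (piNat_compl_iff p2).2 c
  by_cases e : p = 2
  · subst e
    have i : PiNat {2} B.index := by rw [← relIndex_mul_index h2.1]; exact h4.mul h1
    by_cases c : B = ⊥
    · exact solv_top_iff.1 (PiGrp.solv (p := 2) (by simpa [c, PiGrp] using i))
    obtain ⟨x, hx, x1⟩ := exists_mem_ne_one' c
    exact key x x1 (i.of_dvd (index_dvd_of_le (h3.abel.trans (C_le_C1 hx))))
  obtain ⟨T, hT⟩ := exists_sylow p2 (zpowers a)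
  refine solv_top_iff.1 (solv_of_cyc_two (T := T) ((hT.of_idx (zpowers_le.2 ha) ?_).of_idx le_top ?_)
    (cyc_zpowers.of_le hT.le))
  · have : A = zpowers a ⊔ B := le_antisymm h5 (sup_le (zpowers_le.2 ha) h2.1)
    rw [this, (h2.nrm2' (zpowers_le.2 ha)).relIndex_sup']
    exact PiGrp.relIndex hB
  · simpa using h1.p'_of_ne e

/-- Let G be a finite group with a subgroup A of prime-power index. Suppose A has a normal cyclic subgroup B such that A/B is cyclic of order a power of 2. Then G is solvable. -/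
theorem result {G : Type*} [Group G] [Finite G] (A : Subgroup G) (p s : ℕ) (hp : p.Prime) (hA : A.index = p ^ s)
    (B : Subgroup A) [B.Normal] (hB : IsCyclic B) (hAB : IsCyclic (A ⧸ B)) (r : ℕ) (hr : Nat.card (A ⧸ B) = 2 ^ r) :
    Group.IsSolvable G := by
  refine H5.isSolvable_of_simple_sections (Hyp p)
    (fun X _ _ N _ ⟨A, B, h1, h2, h3, h4, a, ha, h5⟩ => ?_)
    (fun X _ _ N _ ⟨A, B, h1, h2, h3, h4, a, ha, h5⟩ => ⟨mim (topq N) A, mim (topq N) B, h1.of_dvd ?_, h2.mim, h3.mim,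
      h4.of_dvd (relIndex_mim_dvd h2.1 le_top), mfun _ a, mfun_mem_mim ha, ?_⟩) (simple hp) G
    ⟨A, B.map A.subtype, hA ▸ piNat_pow_self hp s, nml_map_subtype, cyc_map_subtype.2 hB, ?_, ?_⟩
  · have c : Cyc ((A ⊓ N) ⫽ B) := by
      refine (cyc_zpowers (x := cs B a)).of_le ((mim_mono (inf_le_left.trans h5)).trans ?_)
      rw [quo_sup_self ((zpowers_le.2 ha).trans h2.2), mim_zpowers (h2.2 ha)]
    obtain ⟨b, hb, h6⟩ := exists_gen_of_cyc_quo (inf_le_left.trans h2.2) c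
    refine ⟨A.subgroupOf N, B.subgroupOf N, h1.of_dvd ?_, ?_, ?_, h4.of_dvd ?_, ⟨b, hb.2⟩, hb.1, ?_⟩
    · exact relIndex_top_right A ▸ (nml_top (K := N)).relIndex_dvd' (H := A) le_top
    · simpa only [mim_id] using h2.mim (f := MonoidHom.id N)
    · simpa only [mim_id] using h3.mim (f := MonoidHom.id N)
    · rw [← inf_subgroupOf_right A, relIndex_subgroupOf inf_le_right]
      exact h2.relIndex_dvd inf_le_left
    · intro x hx
      obtain ⟨y, hy, z, hz, e⟩ := (mem_sup_of_norm ((zpowers_le.2 hb.1).trans h2.2)).1 (h6 ⟨hx, x.2⟩)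
      have yN : y ∈ N := zpowers_le.2 hb.2 hy
      have zN : z ∈ N := (mul_mem_cancel_left yN).1 (e ▸ x.2)
      obtain ⟨k, rfl⟩ := hy
      rw [show x = ⟨b, hb.2⟩ ^ k * ⟨z, zN⟩ from Subtype.ext e]
      exact mul_mem_sup' (zpow_mem (mem_zpowers _) k) hz
  · rw [mim_topq]; exact index_map_dvd _ (QuotientGroup.mk'_surjective N)
  · rw [← mim_zpowers (mem_top a), ← mim_sup le_top le_top]; exact mim_mono h5
  · rw [relIndex, subgroupOf, comap_map_eq_self_of_injective A.subtype_injective, index, hr]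
    exact piNat_pow_self Nat.prime_two r
  · obtain ⟨a, ha⟩ := hAB.exists_generator
    obtain ⟨a, rfl⟩ := QuotientGroup.mk_surjective a
    refine ⟨a, a.2, fun x hx => ?_⟩
    obtain ⟨k, hk⟩ := ha ((⟨x, hx⟩ : A) : A ⧸ B)
    have := QuotientGroup.eq.1 (show ((a ^ k : A) : A ⧸ B) = _ from hk)
    simpa using mul_mem_sup' (zpow_mem (mem_zpowers (a : G)) k) (mem_map_of_mem A.subtype this)

end Cfsg.Agent.S4245
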