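import Cfsg.Statements.S4248
import Cfsg.Agent.H17.Part4

set_option autoImplicit false
open Cfsg

namespace Cfsg.Agent.S4248

open H117 H18 Subgroup

/-- Let G be a finite group admitting a nontrivial partition: a family of at least two nontrivial subgroups such that every non-identity element of G lies in exactly one member. Then G is isomorphic to the symmetric group of degree 4; or, for some prime p, the Hughes subgroup generated by the elements g with g^p ≠ 1 is proper (G a p-group or a group of Hughes–Thompson type); or G is a Frobenius group; or G is isomorphic to PSL(2, q) with q ≥ 4, to PGL(2, q) with q ≥ 5 odd, or to a Suzuki group. -/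
theorem result {G : Type*} [Group G] [Finite G] (S : Set (Subgroup G)) (hS2 : ∃ H ∈ S, ∃ K ∈ S, H ≠ K)
    (hS1 : ∀ H ∈ S, H ≠ ⊥) (hpart : ∀ g : G, g ≠ 1 → ∃! H : Subgroup G, H ∈ S ∧ g ∈ H) :
    Nonempty (G ≃* Equiv.Perm (Fin 4)) ∨
    (∃ p : ℕ, p.Prime ∧ Subgroup.closure {g : G | g ^ p ≠ 1} ≠ ⊤) ∨
    (∃ H : Subgroup G, Cfsg.IsFrobeniusComplement H) ∨
    (∃ (F : Type) (_ : Field F) (_ : Fintype F), 4 ≤ Fintype.card F ∧
        Nonempty (G ≃* Matrix.ProjectiveSpecialLinearGroup (Fin 2) F)) ∨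
    (∃ (F : Type) (_ : Field F) (_ : Fintype F), 5 ≤ Fintype.card F ∧ Odd (Fintype.card F) ∧
        Nonempty (G ≃* (GL (Fin 2) F ⧸ Subgroup.center (GL (Fin 2) F)))) ∨
    Cfsg.Lie.IsoSuzuki G := by
  obtain ⟨c, h⟩ := exists_NP S hS2 hS1 hpart
  rcases h.fro_or_nil with h1 | hn
  · exact Or.inr (Or.inr (Or.inl h1))
  by_cases hF : F((⊤ : Subgroup G)) = ⊥
  · rcases h.caseB hn hF with (⟨K, _, _, ⟨n, h1, e⟩, f⟩ | h1) | h1 | h1
    · exact Or.inr (Or.inr (Or.inr (Or.inl ⟨K, _, _, e ▸ Nat.pow_le_pow_right two_pos h1, f⟩)))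
    · exact Or.inr (Or.inr (Or.inr (Or.inr (Or.inr h1))))
    · exact Or.inr (Or.inr (Or.inr (Or.inl h1)))
    · exact Or.inr (Or.inr (Or.inr (Or.inr (Or.inl h1))))
  by_cases e : ∃ x, F((⊤ : Subgroup G)) ≤ c x
  · obtain ⟨x, hx⟩ := e
    obtain ⟨f, hf, f1⟩ := exists_mem_ne_one' hF
    rw [← h.eq (hx hf) f1] at hx
    exact Or.inr ((h.caseA1 (hn f f1) hF hx).imp id Or.inl)
  · exact (h.caseA2 hn hF fun x k => e ⟨x, k⟩).imp id (Or.imp id Or.inl)

end Cfsg.Agent.S4248
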