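import Cfsg.Statements.S4250
import Cfsg.Agent.H1.Harv2

set_option autoImplicit false
open Cfsg

namespace Cfsg.Agent.S4250

open H18 Subgroup
open scoped commutatorElement

/-- Let P be a Sylow p-subgroup of a finite group G. Call an intersection H = P ∩ Q with a Sylow p-subgroup Q tame when N_P(H) and N_Q(H) are Sylow p-subgroups of N_G(H). Then P ∩ G′ is generated by [P, N_G(P)] together with the commutator subgroups [P ∩ Q, ⟨x⟩] for all tame intersections P ∩ Q and all p-elements x of N_G(P ∩ Q). -/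
theorem result {G : Type*} [Group G] [Finite G] (p : ℕ) [Fact p.Prime] (P : Sylow p G) :
    (P : Subgroup G) ⊓ commutator G =
      ⁅(P : Subgroup G), Subgroup.normalizer ((P : Subgroup G) : Set G)⁆ ⊔
        ⨆ (Q : Sylow p G) (_ : (¬ p ∣ ((P : Subgroup G) ⊓ Subgroup.normalizer (((P : Subgroup G) ⊓ (Q : Subgroup G) : Subgroup G) : Set G)).relIndex (Subgroup.normalizer (((P : Subgroup G) ⊓ (Q : Subgroup G) : Subgroup G) : Set G)) ∧ ¬ p ∣ ((Q : Subgroup G) ⊓ Subgroup.normalizer (((P : Subgroup G) ⊓ (Q : Subgroup G) : Subgroup G) : Set G)).relIndex (Subgroup.normalizer (((P : Subgroup G) ⊓ (Q : Subgroup G) : Subgroup G) : Set G))))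
          (x : G) (_ : x ∈ Subgroup.normalizer (((P : Subgroup G) ⊓ (Q : Subgroup G) : Subgroup G) : Set G) ∧ ∃ k : ℕ, orderOf x = p ^ k),
          ⁅(P : Subgroup G) ⊓ (Q : Subgroup G), Subgroup.zpowers x⁆ := by
  have hp : p.Prime := Fact.out
  refine le_antisymm ?_ (le_inf (sup_le (comm_le_left le_rfl) (iSup_le fun Q => iSup_le fun _ => iSup_le fun x =>
    iSup_le fun hx => (comm_le_left (zpowers_le.2 hx.1)).trans inf_le_left)) (sup_le (comm_mono le_top le_top)
      (iSup_le fun Q => iSup_le fun _ => iSup_le fun x => iSup_le fun hx => comm_mono le_top le_top)))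
  rw [inf_comm]
  generalize hK : (_ ⊔ _ : Subgroup G) = K
  have c : ∀ a x : G, a⁻¹ * (x⁻¹ * a * x) = ⁅a⁻¹, x⁻¹⁆ := fun a x => by rw [commutatorElement_def]; group
  refine H3.commutator_inf_sylow_le P fun x hx g hg => ?_
  simpa using H1.alperin_tame_p P (fun A g => ∀ a ∈ A, a⁻¹ * (g⁻¹ * a * g) ∈ K) (fun A B g h1 h2 a ha => h2 a (h1 ha))
    (fun A B g h h1 h2 h3 a ha => by simpa [mul_assoc] using mul_mem (h2 a ha) (h3 _ (h1 a ha)))
    (fun x hx a ha => hK ▸ mem_sup_left (c a x ▸ commutator_mem_commutator (inv_mem ha) (inv_mem hx)))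
    (fun Q D e h1 h2 x hx h3 a ha => by
      subst e
      refine hK ▸ mem_sup_right (mem_iSup_of_mem Q (mem_iSup_of_mem ⟨h1.3, h2.3⟩ (mem_iSup_of_mem x (mem_iSup_of_mem
        ⟨hx, h3.eq_pow (orderOf_pos x).ne'⟩ ?_))))
      exact c a x ▸ commutator_mem_commutator (inv_mem ha) (inv_mem (mem_zpowers x)))
    (zpowers x) (zpowers_le.2 hx) g⁻¹ (fun a ha => by
      simpa using zpowers_le.2 hg (cj_zpowers (g := g) (x := x) ▸ conj_mem_cj (g := g) ha)) x (mem_zpowers x)

end Cfsg.Agent.S4250
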