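import Cfsg.Statements.S4251
import Cfsg.Agent.H1.Harv2

set_option autoImplicit false
open Cfsg

namespace Cfsg.Agent.S4251

open H18 Subgroup

/-- Let P be a Sylow p-subgroup of a finite group G. Call an intersection H = P ∩ Q with a Sylow p-subgroup Q tame when N_P(H) and N_Q(H) are Sylow p-subgroups of N_G(H). If N_G(H)/C_G(H) is a p-group for every nontrivial tame intersection H = P ∩ Q, then G has a normal p-complement. -/
theorem result {G : Type*} [Group G] [Finite G] (p : ℕ) [Fact p.Prime] (P : Sylow p G)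
    (h : ∀ Q : Sylow p G, (P : Subgroup G) ⊓ (Q : Subgroup G) ≠ ⊥ → (¬ p ∣ ((P : Subgroup G) ⊓ Subgroup.normalizer (((P : Subgroup G) ⊓ (Q : Subgroup G) : Subgroup G) : Set G)).relIndex (Subgroup.normalizer (((P : Subgroup G) ⊓ (Q : Subgroup G) : Subgroup G) : Set G)) ∧ ¬ p ∣ ((Q : Subgroup G) ⊓ Subgroup.normalizer (((P : Subgroup G) ⊓ (Q : Subgroup G) : Subgroup G) : Set G)).relIndex (Subgroup.normalizer (((P : Subgroup G) ⊓ (Q : Subgroup G) : Subgroup G) : Set G))) →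
      IsPGroup p (Subgroup.normalizer (((P : Subgroup G) ⊓ (Q : Subgroup G) : Subgroup G) : Set G) ⧸
        (Subgroup.centralizer (((P : Subgroup G) ⊓ (Q : Subgroup G) : Subgroup G) : Set G)).subgroupOf
          (Subgroup.normalizer (((P : Subgroup G) ⊓ (Q : Subgroup G) : Subgroup G) : Set G)))) :
    Cfsg.HasNormalPComplement p G := by
  have hp : p.Prime := Fact.out
  refine H3.hasNormalPComplement_of_no_fusion P fun x hx g hg => ?_
  obtain ⟨n, a, b⟩ := H3.alperin_induction P (fun A g => ∃ n ∈ (P : Subgroup G), ∀ a ∈ A, n⁻¹ * a * n = g⁻¹ * a * g)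
    (fun A B g h1 ⟨n, a, b⟩ => ⟨n, a, fun c hc => b c (h1 hc)⟩)
    (fun A B g h h1 ⟨n, a, b⟩ ⟨m, c, d⟩ => ⟨n * m, mul_mem a c, fun e he => by
      have := d _ (h1 e he)
      rw [← b e he] at this
      rw [mul_inv_rev, mul_inv_rev, show m⁻¹ * n⁻¹ * e * (n * m) = m⁻¹ * (n⁻¹ * e * n) * m by group, this, b e he]; group⟩)
    (fun Q D e h1 h2 x hx => by
      by_cases h0 : D = ⊥
      · exact ⟨1, one_mem _, fun a ha => by simp [eq_one_of_eq_bot h0 ha]⟩
      subst e
      obtain ⟨k, hk⟩ := IsPGroup.iff_card.1 (h Q h0 ⟨h1.3, h2.3⟩)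
      have := (⟨inf_le_right, (hall_sylow_top hp P).pi.inf_left, (piNat_compl_iff hp).2 h1.3⟩ :
        Hall {p} _ _).sup_of_idx C_le_N (show PiNat {p} (Nat.card _) from hk ▸ piNat_pow_self hp k)
      rw [← this, sup_comm] at hx
      obtain ⟨c, a, n, b, rfl⟩ := (mem_sup_of_norm' (inf_le_right.trans (N_le_N_C (A := (P : Subgroup G) ⊓ Q)))).1 hx
      exact ⟨n, b.1, fun y hy => by
        rw [mul_inv_rev, show n⁻¹ * c⁻¹ * y * (c * n) = n⁻¹ * (c⁻¹ * (y * c)) * n by group, mem_C.1 a y hy]; group⟩)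
    (zpowers x) (zpowers_le.2 hx) g⁻¹ (fun a ha => by
      simpa using zpowers_le.2 hg (cj_zpowers (g := g) (x := x) ▸ conj_mem_cj (g := g) ha))
  exact ⟨n⁻¹, inv_mem a, by simpa using b x (mem_zpowers x)⟩

end Cfsg.Agent.S4251
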