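import Cfsg.Statements.S4253


set_option autoImplicit false
open Cfsg

namespace Cfsg.Agent.S4253

open scoped Pointwise

/-- Let H be a Frobenius complement in a finite group G (a nontrivial proper subgroup meeting each conjugate gHg⁻¹ with g outside H trivially). Then in the action of G on the left cosets of H by left multiplication, no non-identity element of G fixes two distinct cosets. -/
theorem result {G : Type*} [Group G] [Finite G] (H : Subgroup G) (hH : Cfsg.IsFrobeniusComplement H)
    (g : G) (hg : g ≠ 1) (a b : G ⧸ H) (ha : g • a = a) (hb : g • b = b) : a = b := by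
  obtain ⟨a, rfl⟩ := QuotientGroup.mk_surjective a
  obtain ⟨b, rfl⟩ := QuotientGroup.mk_surjective b
  rw [MulAction.Quotient.smul_mk, QuotientGroup.eq, smul_eq_mul] at ha hb
  rw [QuotientGroup.eq]
  by_contra hab
  have h := hH.2.2 _ hab
  have h1 : (g * a)⁻¹ * a ∈ H ⊓ (MulAut.conj (a⁻¹ * b) • H) := by
    refine ⟨ha, ?_⟩
    have := Subgroup.smul_mem_pointwise_smul _ (MulAut.conj (a⁻¹ * b)) _ hb
    have e : MulAut.conj (a⁻¹ * b) • ((g * b)⁻¹ * b) = (g * a)⁻¹ * a := by
      simp [mul_assoc]
    rw [e] at this
    exact this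
  rw [h, Subgroup.mem_bot, inv_mul_eq_one] at h1
  exact hg (mul_eq_right.1 h1)

end Cfsg.Agent.S4253
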