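import Cfsg.Statements.S4258
import Cfsg.Agent.H8.Ex3

set_option autoImplicit false
open Cfsg

namespace Cfsg.Agent.S4258

open H18 H21 H21.HB

/-- Let G be a finite 2-soluble group whose Sylow 2-subgroups have exponent dividing 2^e. Then the 2-length of G is at most e. -/
theorem result {G : Type*} [Group G] [Finite G] (hG : Cfsg.IsPSolvable 2 G) (e : ℕ)
    (hexp : ∀ (P : Sylow 2 G), ∀ x ∈ (P : Subgroup G), x ^ 2 ^ e = 1) : Cfsg.PLengthLE 2 e G := by
  haveI : Fact (Nat.Prime 2) := ⟨Nat.prime_two⟩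
  refine (plr_top_iff Nat.prime_two).1 (H8.ex_plr e G ⊤ (H8.ex_solv (H4.isPSolvable_iff.1 hG)) (H8.ex_base fun x _ c => ?_))
  obtain ⟨P, hP⟩ := c.zpowers.isPGroup.exists_le_sylow
  exact hexp P x (hP (Subgroup.mem_zpowers x))

end Cfsg.Agent.S4258
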