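import Cfsg.Statements.S4259
import Cfsg.Agent.H8.Dl3

set_option autoImplicit false
open Cfsg

namespace Cfsg.Agent.S4259

open H18 H21 H21.HB

/-- Let G be a finite 2-soluble group whose Sylow 2-subgroups have derived length at most d. Then the 2-length of G is at most d. -/
theorem result {G : Type*} [Group G] [Finite G] (hG : Cfsg.IsPSolvable 2 G) (d : ℕ)
    (hd : ∀ P : Sylow 2 G, derivedSeries (P : Subgroup G) d = ⊥) : Cfsg.PLengthLE 2 d G := by
  haveI : Fact (Nat.Prime 2) := ⟨Nat.prime_two⟩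
  refine (plr_top_iff Nat.prime_two).1 (H8.dl_plr_der d (H4.isPSolvable_iff.1 hG) fun P _ c => ?_)
  obtain ⟨S, hS⟩ := c.isPGroup.exists_le_sylow
  exact eq_bot_iff.2 ((dser_mono hS).trans (derivedSeries_eq_bot_iff.1 (hd S)).le)

end Cfsg.Agent.S4259
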