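import Cfsg.Statements.S4261
import Cfsg.Agent.S0048

set_option autoImplicit false
open Cfsg

namespace Cfsg.Agent.S4261

open Subgroup

/-- Let M be a maximal subgroup of a finite solvable group G such that x^[G : M] lies in M for every x in G. Then M is normal in G. -/
theorem result {G : Type*} [Group G] [Finite G] (hG : Group.IsSolvable G) (M : Subgroup G) (hM : IsCoatom M)
    (hexp : ∀ x : G, x ^ M.index ∈ M) : M.Normal := by
  obtain ⟨p, k, hp, -, e⟩ := (isPrimePow_nat_iff _).1 (Cfsg.Agent.S0048.result M hM)
  have := Fact.mk hp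
  have hP : IsPGroup p (G ⧸ M.normalCore) := fun g => ⟨k, by
    obtain ⟨g, rfl⟩ := QuotientGroup.mk_surjective g
    rw [← QuotientGroup.mk_pow, QuotientGroup.eq_one_iff, e]
    exact fun x => by rw [← conj_pow]; exact hexp _⟩
  have := hP.isNilpotent
  have c : (M.map (QuotientGroup.mk' M.normalCore)).comap _ = M :=
    comap_map_eq_self ((QuotientGroup.ker_mk' _).le.trans M.normalCore_le)
  have := normalizerCondition_of_isNilpotent (M.map (QuotientGroup.mk' M.normalCore))
    (lt_top_iff_ne_top.2 fun e => hM.1 (by rw [← c, e, comap_top]))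
  refine normalizer_eq_top_iff.1 (hM.2 _ ?_)
  nth_rw 1 [← c]
  exact ((comap_lt_comap_of_surjective (QuotientGroup.mk'_surjective _)).2 this).trans_le
    ((le_normalizer_comap _).trans_eq (by rw [c]))

end Cfsg.Agent.S4261
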