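import Cfsg.Statements.S4263
import Cfsg.Agent.H23.Comm
import Mathlib.GroupTheory.Sylow

set_option autoImplicit false
open Cfsg

namespace Cfsg.Agent.S4263

theorem fitting_nilpotent (G : Type*) [Group G] [Finite G] :
    Group.IsNilpotent (Cfsg.fittingSubgroup G) := by
  obtain ⟨F, hF, hmax⟩ := (Set.toFinite {N : Subgroup G | N.Normal ∧ Group.IsNilpotent N}).exists_maximal
    ⟨⊥, inferInstance, inferInstance⟩
  have : Cfsg.fittingSubgroup G = F := by
    refine le_antisymm (sSup_le fun N hN => ?_) (le_sSup hF)
    have := hN.1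
    have := hF.1
    exact le_sup_right.trans (hmax ⟨inferInstance, H23.isNilpotent_sup F N hF.2 hN.2⟩ le_sup_left)
  rw [this]; exact hF.2

/-- Let G be a finite group. An element x lies in the Fitting subgroup F(G) if and only if, for every subgroup H of G, the power x^[G : H] lies in H. -/
theorem result {G : Type*} [Group G] [Finite G] (x : G) :
    x ∈ Cfsg.fittingSubgroup G ↔ ∀ H : Subgroup G, x ^ H.index ∈ H := by
  have hFn : (Cfsg.fittingSubgroup G).Normal := Subgroup.sSup_normal _ (fun _ h => h.1)
  constructor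
  · intro hx H
    have h1 : (Subgroup.zpowers x).IsSubnormal :=
      H23.isSubnormal_of_le_nilpotent (fitting_nilpotent G) (Subgroup.zpowers_le.2 hx)
    obtain ⟨c, hc⟩ := H23.relIndex_dvd_index_of_isSubnormal h1 H
    rw [hc, pow_mul]
    apply H.pow_mem
    have := Subgroup.pow_index_mem (H := H.subgroupOf (Subgroup.zpowers x))
      ⟨x, Subgroup.mem_zpowers x⟩
    exact this
  · intro h
    rw [← QuotientGroup.eq_one_iff, ← orderOf_eq_one_iff]
    by_contra hne
    obtain ⟨p, hp, hd⟩ := Nat.exists_prime_and_dvd hne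
    have := Fact.mk hp
    obtain ⟨P⟩ : Nonempty (Sylow p G) := inferInstance
    have h1 : x ^ (P : Subgroup G).index ∈ (P : Subgroup G).normalCore := by
      intro g
      have h2 := h ((P : Subgroup G).comap (MulAut.conj g).toMonoidHom)
      rw [Subgroup.index_comap_of_surjective _ (MulAut.conj g).surjective] at h2
      exact h2
    have h2 : (P : Subgroup G).normalCore ≤ Cfsg.fittingSubgroup G :=
      le_sSup ⟨inferInstance, (P.isPGroup'.to_le (Subgroup.normalCore_le _)).isNilpotent⟩
    have h3 := (QuotientGroup.eq_one_iff _).2 (h2 h1)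
    rw [QuotientGroup.mk_pow] at h3
    exact P.not_dvd_index (hd.trans (orderOf_dvd_of_pow_eq_one h3))

end Cfsg.Agent.S4263
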