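import Cfsg.Statements.S4269
import Mathlib.GroupTheory.Commutator.Basic
import Mathlib.Tactic.Group

set_option autoImplicit false
open Cfsg

namespace Cfsg.Agent.S4269

open Subgroup in
theorem cj {G : Type*} [Group G] (H : Subgroup G) (x y : G) :
    H.map (MulAut.conj x).toMonoidHom = H.map (MulAut.conj y).toMonoidHom ↔ y⁻¹ * x ∈ normalizer (H : Set G) := by
  have k : ∀ x a : G, a ∈ H.map (MulAut.conj x).toMonoidHom ↔ x⁻¹ * a * x ∈ H := fun x a =>
    mem_map_equiv.trans (by simp)
  simp only [Subgroup.ext_iff, k, mem_normalizer_iff'']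
  exact ⟨fun h a => by simpa [mul_assoc] using (h (y * a * y⁻¹)).symm, fun h a => by
    simpa [mul_assoc] using (h (y⁻¹ * a * y)).symm⟩

/-- Let G be a finite group, V an abelian normal subgroup and H a subgroup with HV = G. Then H is pronormal in G (H and gHg⁻¹ are conjugate inside the subgroup they generate, for every g) if and only if every H-invariant subgroup U of V satisfies U = N_U(H)·[H, U], that is, U is the join of U ∩ N_G(H) and the commutator subgroup [H, U]. -/
theorem result {G : Type*} [Group G] [Finite G]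
    (V : Subgroup G) [V.Normal] (hV : IsMulCommutative ↥V) (H : Subgroup G) (hHV : H ⊔ V = ⊤) :
    Cfsg.IsPronormal H ↔
      ∀ U : Subgroup G, U ≤ V → (∀ h ∈ H, U.map (MulAut.conj h).toMonoidHom = U) →
        U = (U ⊓ Subgroup.normalizer (H : Set G)) ⊔ ⁅H, U⁆ := by
  have nm : ∀ {K : Subgroup G} {h}, K.map (MulAut.conj h).toMonoidHom = K ↔ h ∈ Subgroup.normalizer (K : Set G) :=
    Subgroup.mem_normalizer_iff_map_conj_eq.symm
  refine ⟨fun hp U _ hU => ?_, fun hU g => ?_⟩
  · have hU : ⁅H, U⁆ ≤ U := Subgroup.le_normalizer_iff_commutator_le_right.1 fun h hh => nm.1 (hU h hh)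
    refine le_antisymm (fun u hu => ?_) (sup_le inf_le_left hU)
    obtain ⟨x, hx, e⟩ := hp u
    have : x ∈ ((⁅H, U⁆ ⊔ H : Subgroup G) : Set G) := by
      refine (sup_le le_sup_right ?_ : _ ≤ ⁅H, U⁆ ⊔ H) hx
      rintro _ ⟨h, hh, rfl⟩
      have := Subgroup.mul_mem_sup (inv_mem (Subgroup.commutator_mem_commutator hh hu)) hh
      simpa [commutatorElement_def, mul_assoc] using this
    rw [Subgroup.coe_mul_of_right_le_normalizer_left _ _ (Subgroup.normalizer_commutator_ge_left ..)] at this
    obtain ⟨w, hw, h, hh, rfl⟩ := this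
    have := mul_mem (Subgroup.le_normalizer hh) ((cj ..).1 e)
    simp only [mul_inv_rev, mul_assoc, mul_inv_cancel_left] at this
    simpa [sup_comm] using Subgroup.mul_mem_sup hw (show _ ∈ U ⊓ _ from ⟨U.mul_mem (U.inv_mem (hU hw)) hu, this⟩)
  · have dec : ∀ g : G, ∃ v ∈ V, ∃ h ∈ H, v * h = g := fun g =>
      Subgroup.mem_sup_of_normal_left.1 (by rw [sup_comm, hHV]; trivial)
    set L := H ⊔ H.map (MulAut.conj g).toMonoidHom
    obtain ⟨v, hv, h, hh, rfl⟩ := dec g
    have e : H.map (MulAut.conj (v * h)).toMonoidHom = H.map (MulAut.conj v).toMonoidHom :=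
      (cj ..).2 (by simpa using Subgroup.le_normalizer hh)
    have HL : H ≤ Subgroup.normalizer (L : Set G) := le_sup_left.trans Subgroup.le_normalizer
    have vL : v ∈ V ⊓ Subgroup.normalizer (L : Set G) := ⟨hv, Subgroup.mem_normalizer_fintype fun l (hl : l ∈ L) => by
      obtain ⟨w, hw, k, hk, rfl⟩ := dec l
      have c : v * w = w * v := congrArg Subtype.val (hV.is_comm.comm ⟨v, hv⟩ ⟨w, hw⟩)
      have : w * (v * k * v⁻¹) ∈ L := mul_mem ((L.mul_mem_cancel_right (Subgroup.mem_sup_left hk)).1 hl)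
        (Subgroup.mem_sup_right (e ▸ ⟨k, hk, rfl⟩))
      simpa [← mul_assoc, c] using this⟩
    have hle : ⁅H, V ⊓ Subgroup.normalizer (L : Set G)⁆ ≤ L :=
      (Subgroup.commutator_mono le_sup_left inf_le_right).trans (Subgroup.le_normalizer_iff_commutator_le_left.1 le_rfl)
    have := hU (V ⊓ Subgroup.normalizer (L : Set G)) inf_le_left fun k hk => nm.2
      (Subgroup.inf_normalizer_le_normalizer_inf ⟨Subgroup.le_normalizer_of_normal hk, Subgroup.le_normalizer (HL hk)⟩)
    rw [this, sup_comm, ← SetLike.mem_coe, Subgroup.coe_mul_of_right_le_normalizer_left _ _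
      (inf_le_left.trans (Subgroup.normalizer_commutator_ge_right ..))] at vL
    obtain ⟨w, hw, n, hn, rfl⟩ := vL
    exact ⟨w, hle hw, e.trans ((cj ..).2 (by simpa using hn.2))⟩

end Cfsg.Agent.S4269
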