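import Cfsg.Statements.S4271
import Cfsg.Agent.H17.Pron

set_option autoImplicit false
open Cfsg

namespace Cfsg.Agent.S4271

open Subgroup H17

/-- Let p be a prime and G a finite group with a normal subgroup A such that every subgroup of A containing a Sylow p-subgroup of A is pronormal in A, and the Sylow p-subgroups of G/A are self-normalizing. Let T be a Sylow p-subgroup of A. Then every subgroup of G containing a Sylow p-subgroup of G is pronormal in G if and only if every subgroup of N_G(T)/T containing a Sylow p-subgroup of N_G(T)/T is pronormal in N_G(T)/T. (Pronormal: H and gHg⁻¹ are conjugate inside the subgroup they generate, for every g.) -/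
theorem result {G : Type*} [Group G] [Finite G] {p : ℕ} [Fact p.Prime]
    (A : Subgroup G) [A.Normal] (hA : (∀ K : Subgroup ↥A, (∃ P : Sylow p ↥A, (P : Subgroup ↥A) ≤ K) → Cfsg.IsPronormal K))
    (hQ : ∀ P : Sylow p (G ⧸ A), Subgroup.normalizer ((P : Subgroup (G ⧸ A)) : Set (G ⧸ A)) = P)
    (T : Subgroup G) (hT : ∃ P : Sylow p ↥A, (P : Subgroup ↥A).map A.subtype = T) [(T.subgroupOf (Subgroup.normalizer (T : Set G))).Normal] :
    (∀ K : Subgroup G, (∃ P : Sylow p G, (P : Subgroup G) ≤ K) → Cfsg.IsPronormal K) ↔ (∀ K : Subgroup (↥(Subgroup.normalizer (T : Set G)) ⧸ T.subgroupOf (Subgroup.normalizer (T : Set G))), (∃ P : Sylow p (↥(Subgroup.normalizer (T : Set G)) ⧸ T.subgroupOf (Subgroup.normalizer (T : Set G))), (P : Subgroup (↥(Subgroup.normalizer (T : Set G)) ⧸ T.subgroupOf (Subgroup.normalizer (T : Set G)))) ≤ K) → Cfsg.IsPronormal K) := by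
  obtain ⟨P, rfl⟩ := hT
  have hT := isSyl_map_sylow P
  refine ⟨fun h => (sp_quo_iff hT.pgroup).2 (sp_normalizer hT (spt_iff.1 h)), fun h => spt_iff.2
    (sp_ext (sp_iff.1 hA) (spt_iff.2 fun S K hS hSK _ g _ => ⟨g, abnormal hQ hS hSK g, rfl⟩) hT
      ((sp_quo_iff hT.pgroup).1 h) fun S K hS hSK => normalizer_map_iff.1 ?_)⟩
  have hs : (⊤ : Subgroup G).map (QuotientGroup.mk' A) = ⊤ := map_top_of_surjective _ (QuotientGroup.mk'_surjective A)
  refine le_antisymm (le_normalizer_map _) fun g hg => map_mono le_normalizer ?_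
  have := abnormal hQ (hs ▸ hS.map (QuotientGroup.mk' A)) (map_mono hSK) g
  rwa [mem_normalizer_iff_cj.1 hg, sup_idem] at this

end Cfsg.Agent.S4271
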