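import Cfsg.Statements.S4314
import Cfsg.Agent.H23.Cls2

set_option autoImplicit false
open Cfsg

namespace Cfsg.Agent.S4314

open H18 H23.Cls H117 Subgroup

/-- Let `G` be a finite group every conjugacy class of which has size 1 or a prime. Then either `G` is nilpotent of class at most 2, or `G/Z(G)` is a non-abelian group of order `pq` for distinct primes `p, q` (a Frobenius group of order `pq`). -/
theorem result {G : Type*} [Group G] [Finite G]
    (h : ∀ x : G, (Subgroup.centralizer ({x} : Set G)).index = 1 ∨ ((Subgroup.centralizer ({x} : Set G)).index).Prime) :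
    Subgroup.upperCentralSeries G 2 = ⊤ ∨
      ∃ p q : ℕ, p.Prime ∧ q.Prime ∧ p ≠ q ∧ Nat.card (G ⧸ Subgroup.center G) = p * q ∧ ¬ IsMulCommutative (G ⧸ Subgroup.center G) := by
  have h' : ∀ x, x ∉ center G → C1(x).index.Prime := fun x e => (h x).resolve_left (mt center_iff_index.2 e)
  by_cases e : ∀ x y, x ∉ center G → y ∉ center G → C1(x).index = C1(y).index
  · left
    suffices commutator G ≤ center G from eq_top_iff.2 fun x _ => Subgroup.mem_upperCentralSeries_succ_iff.2 fun y =>
      Subgroup.upperCentralSeries_one G ▸ this (commutator_mem_commutator (mem_top x) (mem_top y))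
    refine fun z hz => cen_of fun x _ => mem_C1_comm.1 ?_
    by_cases d : x ∈ center G
    · exact cen_le d (mem_top z)
    obtain ⟨p, hp, u, -, pu, uZ⟩ : ∃ p, p.Prime ∧ ∃ u ∈ zpowers x, PiElt {p} u ∧ u ∉ center G := by
      by_contra! a; exact d (le_of_pElts a (mem_zpowers x))
    obtain ⟨P, hP, uP⟩ := exists_sylow_le hp pu.zpowers le_top
    have nil := nil_of_two hp hP (fun a => uZ (a (uP (mem_zpowers u)))) le_top fun y _ a => e y x a d
    haveI := Fact.mk (h' x d)
    haveI : C1(x).Normal := (nil.covBy_nml ⟨lt_top_iff_ne_top.2 fun e => d (cen_of e.ge), fun L a b =>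
      (eq_or_eq_of_prime_relIndex (by simpa using h' x d) a.le le_top).elim a.ne' b.ne⟩).normal
    haveI := isCyclic_of_prime_card (α := G ⧸ C1(x)) (p := C1(x).index) rfl
    exact (Normal.quotient_commutative_iff_commutator_le.1 inferInstance) hz
  push Not at e
  obtain ⟨x, y, hx, hy, e⟩ := e
  obtain ⟨K, H, a⟩ := exists_qf (π := {C1(x).index}) (h' x hx) (h' y hy) rfl e.symm (fun p _ q b hp hq g d => by
    rcases h g with c | c
    · exact hp.ne_one (Nat.eq_one_of_mul_eq_one_right (Nat.dvd_one.1 (c ▸ d)))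
    · exact Nat.not_prime_mul hp.ne_one hq.ne_one (((Nat.dvd_prime c).1 d).elim
        (fun e => (hp.ne_one (Nat.eq_one_of_mul_eq_one_right e)).elim) fun e => e ▸ c)) dvd_rfl dvd_rfl
  obtain ⟨u, u1, u2⟩ := a.hx
  obtain ⟨v, v1, v2⟩ := a.hy
  have b : K.index.Prime := a.cK u u1 u2 ▸ h' u u2
  have c : H.index.Prime := a.cH v v1 v2 ▸ h' v v2
  exact Or.inr ⟨_, _, b, c, (Nat.coprime_primes b c).1 a.cop, a.index, fun e =>
    a.frob.ker_ne ((inf_eq_left.2 fun g _ => mem_C.2 fun h _ => mul_comm' h g).symm.trans a.frob.cent)⟩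

end Cfsg.Agent.S4314
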