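import Cfsg.Statements.S4321
import Cfsg.Agent.H23.Cls2
import Cfsg.Agent.H18.SEB
import Cfsg.Agent.H22.Basic

set_option autoImplicit false
open Cfsg

namespace Cfsg.Agent.S4321
open H18 Subgroup H23.Cls

variable {G : Type*} [Group G] [Finite G] {p : ℕ} {u w : G}

theorem lemN (hp : p.Prime) (pu : PiElt {p} u) (uZ : u ∉ center G) (h1 : C1(u).index.Coprime C1(w).index)
    (h2 : C1(u).index.Coprime C1(w * u).index) : p ∣ C1(w).index := by
  have e : ∀ x, IsConj w x ↔ IsConj (w * u) (x * u) := fun x => by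
    simp only [isConj_iff]
    constructor <;> rintro ⟨h, e⟩
    · obtain ⟨k, hk, c, hc, rfl⟩ := H22.exists_mul_of_coprime_index h1 h
      exact ⟨k, by rw [← e, mul_inv_rev, ← mul_assoc, mul_assoc k c, mem_C1.1 hc, ← mul_assoc, mul_assoc _ u,
        ← mem_C1.1 (inv_mem hk)]; group⟩
    · obtain ⟨k, hk, c, hc, rfl⟩ := H22.exists_mul_of_coprime_index h2 h
      refine ⟨k, mul_right_cancel (b := u) ?_⟩
      rw [← e, mul_inv_rev, ← mul_assoc, mul_assoc k c, mem_C1.1 hc, mul_assoc _ k⁻¹, mem_C1.1 (inv_mem hk)]; group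
  have cj' : ∀ a g x : G, IsConj a (g⁻¹ * x * g) ↔ IsConj a x := fun a g x =>
    ⟨fun h => h.trans (isConj_iff.2 ⟨g, by group⟩), fun h => h.trans (isConj_iff.2 ⟨g⁻¹, by group⟩)⟩
  let S : Subgroup G :=
    { carrier := {s | ∀ x, IsConj w x ↔ IsConj w (x * s)}
      one_mem' := fun x => by rw [mul_one]
      mul_mem' := fun {a b} ha hb x => by rw [ha, hb, mul_assoc]
      inv_mem' := fun {a} ha x => by rw [ha (x * a⁻¹), inv_mul_cancel_right] }
  have : S.Normal := ⟨fun s hs g x => by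
    rw [← cj' w g, hs, ← cj' w g (x * _)]; simp [mul_assoc]⟩
  have d : Nat.card S ∣ C1(w).index := by
    have := QuotientGroup.card_preimage_mk S (QuotientGroup.mk '' {z | ∃ o ∈ (⊤ : Subgroup G), o * w * o⁻¹ = z})
    rw [show QuotientGroup.mk ⁻¹' _ = {z | ∃ o ∈ (⊤ : Subgroup G), o * w * o⁻¹ = z} from Set.Subset.antisymm ?_
      (Set.subset_preimage_image _ _), Nat.card_coe_set_eq, ncard_conj, relIndex_top_right] at this
    · exact ⟨_, this⟩
    rintro x ⟨y, ⟨o, -, rfl⟩, k⟩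
    obtain ⟨o', k⟩ := isConj_iff.1 ((QuotientGroup.eq.1 k _).1 (isConj_iff.2 ⟨o, rfl⟩))
    exact ⟨o', trivial, by rw [k, mul_inv_cancel_left]⟩
  by_contra n
  refine uZ (cen_of fun g _ => C1_of_comm (K := S) ((piNat_compl_iff hp).2 fun k => n (k.trans d))
    (le_C1_iff.1 (relIndex_eq_one.1 (Nat.eq_one_of_dvd_coprimes h1 rel_dvd
      ((relIndex_dvd_card _ _).trans d)))) pu fun x => ?_)
  · rw [← cj' w g, e, e (x * _), ← cj' _ g (x * _ * u)]; simp only [mul_assoc, inv_mul_cancel_left, inv_mul_cancel, mul_one]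

theorem lemA (hp : p.Prime) (pu : PiElt {p} u) (u1 : u ≠ 1) (uZ : u ∉ center G) (hu : ¬ p ∣ C1(u).index)
    (pw : PiElt {p} w) (hw : p ∣ C1(w).index)
    (h : ∀ z : G, p ∣ orderOf z → p ∣ C1(z).index → C1(u).index.Coprime C1(z).index) : False := by
  have a1 : C1(u).index ≠ 1 := fun e => uZ (cen_of (index_eq_one.1 e).ge)
  have po : ∀ v : G, PiElt {p} v → v ≠ 1 → p ∣ orderOf v := fun v h k => let ⟨_, _, a, b⟩ := h.exists_mem k; b ▸ a
  have v1 : ∀ v : G, p ∣ C1(v).index → v ≠ 1 := by rintro _ k rfl; simp [hp.ne_one] at k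
  obtain ⟨P, hP'⟩ := exists_sylow hp C1(u)
  have hP : Hall {p} P ⊤ := hP'.of_idx le_top (by rwa [relIndex_top_right, piNat_compl_iff hp])
  have uP : u ∈ Z(P) := ⟨zpowers_le.1 (hP'.le_of_norm (zpowers_le.2 C1_self) pu.zpowers
    (Or.inr (hP'.le.trans C1_le_N_zpowers))), le_C1_iff.1 hP'.le⟩
  have c2 : C1(u) ≤ P ⊔ C(P) := le_of_cover fun x hx => by
    obtain ⟨a, ha, pa, pt⟩ := exists_pi_decomp {p} x
    have aC := zpowers_le.2 hx ha
    have tC := mul_mem (inv_mem aC) hx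
    have cm := mem_C1.1 (mem_C1_comm.1 tC)
    have k : ¬ p ∣ C1(a⁻¹ * x).relIndex C1(u) := fun k => by
      have i := relIndex_mul_index (inf_le_left : C1(u) ⊓ C1(a⁻¹ * x) ≤ _)
      rw [relIndex_inf_left, ← C1_mul cm pu pt] at i
      have := h _ ((po u pu u1).trans (orderOf_dvd_of_mem_zpowers (mem_zpowers_mul_left cm pu pt))) (i ▸ k.mul_right _)
      exact a1 (Nat.eq_one_of_dvd_coprimes this dvd_rfl (i ▸ dvd_mul_left _ _))
    obtain ⟨Q, hQ, aQ⟩ := exists_sylow_le hp pa.zpowers (M := C1(u) ⊓ C1(a⁻¹ * x)) (zpowers_le.2 ⟨aC,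
      mem_C1.2 (comm_of_cent abel_zpowers ha (mul_mem (inv_mem ha) (mem_zpowers x)))⟩)
    obtain ⟨g, hg, rfl⟩ := sylow_conj hp (hQ.of_idx inf_le_left (by rwa [relIndex_inf_left, piNat_compl_iff hp])) hP'
    refine ⟨g, hg, ?_⟩
    rw [show g * x * g⁻¹ = g * a * g⁻¹ * (g * (a⁻¹ * x) * g⁻¹) by group, ← cj_C]
    exact mul_mem_sup' (conj_mem_cj (aQ (mem_zpowers a))) (conj_mem_cj (le_C1_iff.1 (hQ.le.trans inf_le_right)))
  have c3 : ∀ v : G, PiElt {p} v → p ∣ C1(v).index → ∀ g : G, ∃ y ∈ P, ∃ c ∈ C(P), g * v * g⁻¹ = y * (c * v * c⁻¹) * y⁻¹ :=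
    fun v pv hv g => by
      obtain ⟨k, hk, c, hc, rfl⟩ := H22.exists_mul_of_coprime_index (h v (po v pv (v1 v hv)) hv) g
      obtain ⟨y, hy, c', hc', rfl⟩ := (mem_sup_of_cent (cent_symm le_rfl)).1 (c2 hk)
      exact ⟨y, hy, c', hc', by rw [mul_assoc _ c, mem_C1.1 hc]; group⟩
  have c4 : ∀ v ∈ P, p ∣ C1(v).index → ∀ g : G, ∃ y ∈ P, g * v * g⁻¹ = y * v * y⁻¹ := fun v hv k g => by
    obtain ⟨y, hy, c, hc, e⟩ := c3 v (hP.pi.elt hv) k g
    exact ⟨y, hy, by rw [e, ← hc v hv, mul_inv_cancel_right]⟩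
  obtain ⟨v, hv, pv⟩ : ∃ v ∈ P, p ∣ C1(v).index := by
    obtain ⟨Q, hQ, k⟩ := exists_sylow_le hp pw.zpowers le_top
    obtain ⟨g, -, rfl⟩ := sylow_conj hp hQ hP
    exact ⟨_, conj_mem_cj (k (mem_zpowers w)), by rwa [ix_conj]⟩
  have nZ : ¬ P ≤ C1(v) := fun k => (hP.idx_of_le k).not_dvd' hp rfl (by rwa [relIndex_top_right])
  have core : ∀ v ∈ P, p ∣ C1(v).index → v ∈ P.normalCore := fun v hv k g =>
    let ⟨y, hy, e⟩ := c4 v hv k g; e ▸ mul_mem (mul_mem hy hv) (inv_mem hy)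
  have nP : P.Normal := by
    have : P ≤ P.normalCore := by
      have k : ∀ x ∈ P, x ∉ P.normalCore → x ∈ C1(v) := fun x hx n => C_le_C1 (core v hv pv) (by_contra fun k =>
        n (core x hx (dvd_ix (hP.pi.of_le (normalCore_le P)) k)))
      by_contra n
      obtain ⟨a, ha, n⟩ := SetLike.not_le_iff_exists.1 n
      refine nZ fun x hx => by_contra fun m => m ?_
      exact (mul_mem_cancel_left (k a ha n)).1 (k _ (mul_mem ha hx) fun k' => n
        ((Subgroup.mul_mem_cancel_right _ (by_contra fun k' => m (k x hx k'))).1 k'))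
    exact le_antisymm this (normalCore_le P) ▸ inferInstance
  obtain ⟨q, hq, d⟩ := Nat.exists_prime_and_dvd a1
  obtain ⟨g, -, qg, gu⟩ := exists_pElt_not_mem (H := ⊤) hq (relIndex_top_right C1(u) ▸ d)
  have c5 : ∀ x ∈ P, x ∉ C(P) → ∃ y ∈ P, y * x * y⁻¹ ∈ C1(g) := fun x hx k => by
    have px := dvd_ix hP.pi k
    obtain ⟨o, -, e⟩ := exists_fix (M := ⊤) (x := x) hq (fun k => hq.ne_one (Nat.eq_one_of_dvd_coprimes
      (h x (po x (hP.pi.elt hx) (v1 x px)) px) d (relIndex_top_right C1(x) ▸ k))) (mem_top g) qg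
    obtain ⟨y, hy, e'⟩ := c4 x hx px o
    exact ⟨y, hy, e' ▸ mem_C1_comm.1 e⟩
  have c6 : P ≤ P ⊓ C1(g) ⊔ Z(P) := le_of_cover fun x hx => by
    by_cases k : x ∈ C(P)
    · exact ⟨1, one_mem _, mem_sup_right ⟨by simpa, by simpa⟩⟩
    · obtain ⟨y, hy, e⟩ := c5 x hx k
      exact ⟨y, hy, mem_sup_left (mem_inf.2 ⟨mul_mem (mul_mem hy hx) (inv_mem hy), e⟩)⟩
  have c7 : ∀ x ∈ P, x ∉ C(P) → x ∈ C1(g) := fun x hx k => by
    obtain ⟨y, hy, e⟩ := c5 x hx k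
    have := conj_mem' (c6.trans (sup_le le_N (cent_norm (inf_le_right.trans (C_anti inf_le_left))))) hy
      (mem_inf.2 ⟨mul_mem (mul_mem hy hx) (inv_mem hy), e⟩)
    simpa [mul_assoc] using this.2
  have k := mt le_C1_iff.2 nZ
  exact gu (mem_C1_comm.1 ((mul_mem_cancel_left (c7 v hv k)).1 (c7 (v * u) (mul_mem hv uP.1)
    (mt (Subgroup.mul_mem_cancel_right _ uP.2).1 k))))


theorem link (hp : p.Prime) (hZ : ¬ p ∣ Nat.card (center G)) (pu : PiElt {p} u) (u1 : u ≠ 1) (pw : PiElt {p} w)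
    (w1 : w ≠ 1) (h : C1(u).index.Coprime C1(w).index) :
    ∃ z : G, p ∣ orderOf z ∧ ¬ C1(u).index.Coprime C1(z).index ∧ ¬ C1(w).index.Coprime C1(z).index := by
  have po : ∀ v : G, PiElt {p} v → v ≠ 1 → p ∣ orderOf v := fun v h k => let ⟨_, _, a, b⟩ := h.exists_mem k; b ▸ a
  have nz : ∀ v : G, PiElt {p} v → v ≠ 1 → v ∉ center G := fun v h k m =>
    hZ ((po v h k).trans (orderOf_dvd_natCard _ m))
  by_contra! n
  have nc : ∀ {a b : ℕ}, p ∣ a → p ∣ b → ¬ a.Coprime b := fun x y k => hp.ne_one (Nat.eq_one_of_dvd_coprimes k x y)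
  by_cases hw : p ∣ C1(w).index
  · exact lemA hp pu u1 (nz u pu u1) (fun k => nc k hw h) pw hw fun z a b => by_contra fun k => nc hw b (n z a k)
  by_cases hu : p ∣ C1(u).index
  · exact lemA hp pw w1 (nz w pw w1) hw pu hu fun z a b => n z a (nc hu b)
  obtain ⟨g, -, k⟩ := exists_fix (M := ⊤) hp (relIndex_top_right C1(w) ▸ hw) (mem_top u) pu
  rw [← ix_conj (g := g) (x := w)] at hw h n
  have pw' := pw.conj g
  have w1' : g * w * g⁻¹ ≠ 1 := mt conj_eq_one_iff'.1 w1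
  generalize g * w * g⁻¹ = v at *
  have e := mem_C1.1 k
  have := n (v * u) (po _ (pw'.mul' pu e.symm) fun e => ?_)
  · by_cases c : C1(u).index.Coprime C1(v * u).index
    · exact hw (lemN hp pu (nz u pu u1) h c)
    · exact hu (lemN hp pw' (nz v pw' w1') h.symm (e ▸ this c))
  rw [eq_inv_of_mul_eq_one_left e, C1_inv, Nat.coprime_self, index_eq_one] at h
  exact nz u pu u1 (cen_of h.ge)

/-- Let `G` be a finite group and `p` a prime not dividing the order of the centre of `G`. Consider the primes dividing the size of some conjugacy class of a `p`-singular element (an element of order divisible by `p`), two of them adjacent when their product divides such a class size. Then any two distinct such primes are joined by a path with at most 3 edges (the graph is connected of diameter at most 3). -/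
theorem result {G : Type*} [Group G] [Finite G] (p : ℕ) [Fact p.Prime]
    (hZ : ¬ p ∣ Nat.card ↥(Subgroup.center G)) (r s : ℕ) (hr : (r.Prime ∧ ∃ x : G, p ∣ orderOf x ∧ r ∣ (Subgroup.centralizer ({x} : Set G)).index)) (hs : (s.Prime ∧ ∃ x : G, p ∣ orderOf x ∧ s ∣ (Subgroup.centralizer ({x} : Set G)).index)) (hrs : r ≠ s) :
    (∃ x : G, p ∣ orderOf x ∧ r * s ∣ (Subgroup.centralizer ({x} : Set G)).index) ∨ (∃ t : ℕ, (t.Prime ∧ ∃ x : G, p ∣ orderOf x ∧ t ∣ (Subgroup.centralizer ({x} : Set G)).index) ∧ t ≠ r ∧ t ≠ s ∧ (∃ x : G, p ∣ orderOf x ∧ r * t ∣ (Subgroup.centralizer ({x} : Set G)).index) ∧ (∃ x : G, p ∣ orderOf x ∧ t * s ∣ (Subgroup.centralizer ({x} : Set G)).index)) ∨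
      (∃ t u : ℕ, (t.Prime ∧ ∃ x : G, p ∣ orderOf x ∧ t ∣ (Subgroup.centralizer ({x} : Set G)).index) ∧ (u.Prime ∧ ∃ x : G, p ∣ orderOf x ∧ u ∣ (Subgroup.centralizer ({x} : Set G)).index) ∧ t ≠ r ∧ u ≠ s ∧ t ≠ u ∧ (∃ x : G, p ∣ orderOf x ∧ r * t ∣ (Subgroup.centralizer ({x} : Set G)).index) ∧ (∃ x : G, p ∣ orderOf x ∧ t * u ∣ (Subgroup.centralizer ({x} : Set G)).index) ∧ (∃ x : G, p ∣ orderOf x ∧ u * s ∣ (Subgroup.centralizer ({x} : Set G)).index)) := by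
  have hp : p.Prime := Fact.out
  obtain ⟨hr, x, px, rx⟩ := hr
  obtain ⟨hs, y, py, sy⟩ := hs
  have E : ∀ {a b : ℕ} {z : G}, a.Prime → b.Prime → a ≠ b → a ∣ C1(z).index → b ∣ C1(z).index → a * b ∣ C1(z).index :=
    fun h1 h2 h3 => ((Nat.coprime_primes h1 h2).2 h3).mul_dvd_of_dvd_of_dvd
  obtain ⟨t, u, z, ht, hu, pz, tx, tz, uz, uy⟩ : ∃ (t u : ℕ) (z : G), t.Prime ∧ u.Prime ∧ p ∣ orderOf z ∧ t ∣ C1(x).index ∧
      t ∣ C1(z).index ∧ u ∣ C1(z).index ∧ u ∣ C1(y).index := by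
    by_cases c : C1(x).index.Coprime C1(y).index
    · have k : ∀ x : G, p ∣ orderOf x → piPart {p} x ≠ 1 := fun x h e =>
        (piPart_eq_one_iff.1 e).not_dvd' hp rfl h
      have d : ∀ x : G, C1(piPart {p} x).index ∣ C1(x).index := fun x =>
        index_dvd_of_le (C1_le_of_mem_zpowers piPart_mem_zpowers)
      obtain ⟨z, pz, a, b⟩ := link hp hZ piElt_piPart (k x px) piElt_piPart (k y py)
        ((c.coprime_dvd_left (d x)).coprime_dvd_right (d y))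
      obtain ⟨t, ht, a1, a2⟩ := Nat.Prime.not_coprime_iff_dvd.1 a
      obtain ⟨u, hu, b1, b2⟩ := Nat.Prime.not_coprime_iff_dvd.1 b
      exact ⟨t, u, z, ht, hu, pz, a1.trans (d x), a2, b2, b1.trans (d y)⟩
    · obtain ⟨t, ht, a1, a2⟩ := Nat.Prime.not_coprime_iff_dvd.1 c
      exact ⟨t, t, x, ht, ht, px, a1, a1, a1, a2⟩
  have two : ∀ (t : ℕ) (a b : G), t.Prime → p ∣ orderOf a → p ∣ orderOf b → r ∣ C1(a).index → t ∣ C1(a).index →
      t ∣ C1(b).index → s ∣ C1(b).index → (∃ x : G, p ∣ orderOf x ∧ r * s ∣ C1(x).index) ∨ ∃ t : ℕ,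
      (t.Prime ∧ ∃ x : G, p ∣ orderOf x ∧ t ∣ C1(x).index) ∧ t ≠ r ∧ t ≠ s ∧ (∃ x : G, p ∣ orderOf x ∧ r * t ∣ C1(x).index) ∧
        ∃ x : G, p ∣ orderOf x ∧ t * s ∣ C1(x).index := fun t a b ht pa pb h1 h2 h3 h4 => by
    by_cases e1 : t = r
    · exact Or.inl ⟨b, pb, E hr hs hrs (e1 ▸ h3) h4⟩
    by_cases e2 : t = s
    · exact Or.inl ⟨a, pa, E hr hs hrs h1 (e2 ▸ h2)⟩
    exact Or.inr ⟨t, ⟨ht, a, pa, h2⟩, e1, e2, ⟨a, pa, E hr ht (Ne.symm e1) h1 h2⟩, b, pb, E ht hs e2 h3 h4⟩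
  by_cases e1 : t = r
  · exact (two u z y hu pz py (e1 ▸ tz) uz uy sy).imp_right Or.inl
  by_cases e2 : u = s
  · exact (two t x z ht px pz rx tx tz (e2 ▸ uz)).imp_right Or.inl
  by_cases e3 : t = u
  · exact (two t x y ht px py rx tx (e3 ▸ uy) sy).imp_right Or.inl
  exact Or.inr (Or.inr ⟨t, u, ⟨ht, x, px, tx⟩, ⟨hu, y, py, uy⟩, e1, e2, e3, ⟨x, px, E hr ht (Ne.symm e1) rx tx⟩,
    ⟨z, pz, E ht hu e3 tz uz⟩, y, py, E hu hs e2 uy sy⟩)

end Cfsg.Agent.S4321
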