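import Cfsg.Statements.S4330
import Cfsg.Agent.H5.ROrb
import Cfsg.Agent.H2.Frattini

set_option autoImplicit false
open Pointwise
open Cfsg

namespace Cfsg.Agent.S4330
open H5
open H18 Subgroup
open scoped commutatorElement

universe u

theorem aux {p : ℕ} (hp : p.Prime) (p2 : p ≠ 2) (n : ℕ) : ∀ {G : Type u} [Group G] [Finite G] {H A : Subgroup G},
    Nat.card H = n → Solv H → A ≤ H → PiGrp {p} A → (∀ c ∈ H, ∃ x ∈ H, A ≤ O[{p}](A ⊔ cj (x * c * x⁻¹) A)) →
    A ≤ O[{p}](H) := by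
  induction n using Nat.strong_induction_on with
  | _ n ih =>
  intro G _ _ H A hn hs le hA h
  by_cases H0 : H = ⊥
  · exact (le.trans H0.le).trans bot_le
  obtain ⟨q, V, hq, hV, V0, nV, -⟩ := H1.exists_elem_nml hs H0 le_N
  have k : A ⫽ V ≤ O[{p}](H ⫽ V) := ih _ (hn ▸ card_quo_lt nV V0) rfl hs.mim (mim_mono le) hA.mim fun c' hc' => by
    obtain ⟨c, hc, rfl⟩ := (mem_quo nV.norm).1 hc'
    obtain ⟨x, hx, k⟩ := h c hc
    have m := mul_mem (mul_mem hx hc) (inv_mem hx)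
    refine ⟨_, (mem_quo nV.norm).2 ⟨x, hx, rfl⟩, ?_⟩
    rw [← mfun_conj (nV.norm hx) (nV.norm hc), ← mim_cj (nV.norm m), ← mim_sup (le.trans nV.norm)
      (((cj_mono le).trans (cj_eq_self_of_mem m).le).trans nV.norm)]
    exact (mim_mono k).trans mim_pcore_le
  by_cases e : q = p
  · subst e
    rw [← mim_pcore nV.norm (by rw [mker_coset]; exact (hV.pi' hq).inf_right)] at k
    exact le_of_quo_le (le.trans nV.norm) ⟨le_pcore nV (hV.pi' hq), pcore_le.trans nV.norm⟩ k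
  have V' : PiGrp {p}ᶜ V := (hV.pi' hq).p'_of_ne e
  have nK := qpre_pcore_nml (π := {p}) nV
  obtain ⟨P, hP, AP⟩ := exists_sylow_le hp hA (M := qpre V O[{p}](H ⫽ V))
    (le_of_quo_le (le.trans nV.norm) nml_qpre_self (by rwa [quo_qpre]))
  have PH := hP.le.trans nK.le
  have fr : H ≤ V ⊔ H ⊓ N(P) := (frattini_arg hp nK hP).ge.trans (sup_le ((hP.sup_of_idx le_qpre qpre_pcore_idx).ge.trans
    (sup_le ((le_inf PH le_N).trans le_sup_right) le_sup_left)) le_sup_right)
  set Q := ⨆ g ∈ H ⊓ N(P), cj g A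
  have QP : Q ≤ P := iSup₂_le fun g hg => (cj_mono AP).trans (cj_eq_self hg.2).le
  have AQ : ∀ g ∈ H ⊓ N(P), cj g A ≤ Q := fun g hg => le_iSup₂_of_le g hg le_rfl
  have nQ : Q ⊴ H ⊓ N(P) := ⟨QP.trans (le_inf PH le_N), fun g hg => mem_N_of_cj_le (by
    simp only [Q, cj_iSup]; exact iSup₂_le fun g' hg' => cj_mul.ge.trans (AQ _ (mul_mem hg hg')))⟩
  by_cases hc : Q ≤ C(V)
  · exact (cj_one.ge.trans (AQ 1 (one_mem _))).trans (le_pcore ⟨QP.trans PH, fr.trans (sup_le (cent_norm (cent_symm hc))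
      nQ.norm)⟩ (hP.pi.of_le QP))
  obtain ⟨v, hv, M, lt, nM, hM⟩ := exists_vec hp p2 (hP.pi.of_le QP) nQ hV.1 V' (inf_le_left.trans nV.norm) hc
  obtain ⟨x, hx, k⟩ := h v (nV.le hv)
  obtain ⟨w, hw, g, hg, rfl⟩ := (mem_sup_of_norm' (inf_le_left.trans nV.norm)).1 (fr hx)
  have hu := conj_mem nV.norm hg.1 hv
  rw [show w * g * v * (w * g)⁻¹ = w * (g * v * g⁻¹) * w⁻¹ by group, comm_of_cent hV.1 hw hu, mul_inv_cancel_right] at k
  have AV := le.trans nV.norm
  have c : A ≤ C1(g * v * g⁻¹) := fun a ha => by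
    generalize g * v * g⁻¹ = u at hu k
    have t1 : ⁅u, a⁆ ∈ ⁅V, A⁆ := commutator_mem_commutator hu ha
    have t2 : ⁅u, a⁆ ∈ A ⊔ cj u A := mul_mem (mem_sup_right (conj_mem_cj ha)) (mem_sup_left (inv_mem ha))
    refine mem_C1.2 (commutatorElement_eq_one_iff_mul_comm.1 (mem_bot.1 ((H1.abel_comm_inf_cent hV.1 AV
      (hA.coprime V')).le ⟨t1, fun b hb => commutatorElement_eq_one_iff_mul_comm.1 (mem_bot.1
        ((PiGrp.inf_eq_bot pcore_pi V').le ⟨comm_le_left pcore_nml.norm (commutator_mem_commutator (k hb) t2),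
          comm_le_right AV (commutator_mem_commutator hb (comm_le_left AV t1))⟩))⟩))).symm
  have c' : cj g⁻¹ A ≤ M := (le_inf (AQ _ (inv_mem hg)) fun a ha => by
    have := mem_C1.1 (c (mem_cj.1 ha))
    rw [inv_inv] at this
    refine mem_C1.2 ?_
    calc _ = g⁻¹ * (g * a * g⁻¹ * (g * v * g⁻¹)) * g := by group
      _ = _ := by rw [this]; group).trans hM
  refine (lt.not_ge (iSup₂_le fun g' hg' => ?_)).elim
  rw [← mul_inv_cancel_right g' g, cj_mul]
  exact (cj_mono c').trans (cj_eq_self (nM (mul_mem hg' hg))).le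

/-- Let G be a finite solvable group, p an odd prime and A a p-subgroup of G such that every conjugacy class of G contains an element g for which A is subnormal in the subgroup generated by A and its conjugate by g. Then A is contained in O_p(G). (The hypothesis that p is odd is needed.) -/
theorem result {G : Type*} [Group G] [Finite G]
    (hG : Group.IsSolvable G) (p : ℕ) [Fact p.Prime] (hp : p ≠ 2) (A : Subgroup G) (hA : IsPGroup p A)
    (h : ∀ c : G, ∃ g : G, IsConj c g ∧ (A.subgroupOf (A ⊔ MulAut.conj g • A)).IsSubnormal) :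
    A ≤ Cfsg.pCore p G := by
  have pp : p.Prime := Fact.out
  rw [pCore_eq pp]
  refine aux pp hp _ rfl (solv_top_iff.2 hG) le_top (piGrp_of_isPGroup pp hA) fun c _ => ?_
  obtain ⟨g, e, k⟩ := h c
  obtain ⟨x, rfl⟩ := isConj_iff.1 e
  refine ⟨x, trivial, ?_⟩
  have := map_mono (f := Subgroup.subtype _) (H2.le_pCore_of_isSubnormal (hA.comap_subtype) k)
  rw [pCore_map pp] at this
  exact fun a ha => this ⟨⟨a, mem_sup_left ha⟩, ha, rfl⟩

end Cfsg.Agent.S4330
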