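import Cfsg.Statements.S4331
import Cfsg.Agent.H1.Cores

set_option autoImplicit false
open Cfsg

namespace Cfsg.Agent.S4331

open Subgroup

theorem subn_nil {X : Type*} [Group X] [Finite X] [Group.IsNilpotent X] (H : Subgroup X) : H.IsSubnormal := by
  induction H using WellFoundedGT.induction with
  | _ H ih =>
    rcases eq_top_or_lt_top H with rfl | h
    · exact .top
    · exact .step _ _ le_normalizer (ih _ (Group.normalizerCondition_of_isNilpotent H h)) normal_in_normalizer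

/-- semi-affine maps of the field with nine elements -/
def T : Type := {x : ZMod 3 × ZMod 3 × ZMod 3 × ZMod 3 × ZMod 3 // x.1 * x.1 = 1 ∧ x.2.1 * x.2.1 + x.2.2.1 * x.2.2.1 ≠ 0}
instance : DecidableEq T := inferInstanceAs (DecidableEq (Subtype _))
instance : Fintype T := inferInstanceAs (Fintype (Subtype _))

theorem mul_ok : ∀ s a b t c d : ZMod 3, s * s = 1 ∧ a * a + b * b ≠ 0 → t * t = 1 ∧ c * c + d * d ≠ 0 →
    s * t * (s * t) = 1 ∧ (a * c - s * b * d) * (a * c - s * b * d) + (b * c + s * a * d) * (b * c + s * a * d) ≠ 0 := by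
  decide +kernel
theorem inv_ok : ∀ s a b : ZMod 3, s * s = 1 ∧ a * a + b * b ≠ 0 →
    s * s = 1 ∧ (a * a + b * b) * a * ((a * a + b * b) * a) +
      -((a * a + b * b) * s * b) * -((a * a + b * b) * s * b) ≠ 0 := by
  decide +kernel

instance : Mul T := ⟨fun x y => match x, y with
  | ⟨(s, a, b, e, f), h⟩, ⟨(t, c, d, u, v), k⟩ =>
    ⟨(s * t, a * c - s * b * d, b * c + s * a * d, a * u - s * b * v + e, b * u + s * a * v + f),
      mul_ok s a b t c d h k⟩⟩
instance : One T := ⟨⟨(1, 1, 0, 0, 0), by decide⟩⟩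
instance : Inv T := ⟨fun x => match x with
  | ⟨(s, a, b, e, f), h⟩ => ⟨(s, (a * a + b * b) * a, -((a * a + b * b) * s * b),
      -((a * a + b * b) * (a * e + b * f)), (a * a + b * b) * s * (b * e - a * f)), inv_ok s a b h⟩⟩

instance : Group T := Group.ofLeftAxioms
  (by
    rintro ⟨⟨s, a, b, e, f⟩, h, h'⟩ ⟨⟨t, c, d, u, v⟩, k⟩ ⟨⟨r, x, y, z, w⟩, l⟩
    have h1 : s * s = 1 := h
    refine Subtype.ext (Prod.ext ?_ (Prod.ext ?_ (Prod.ext ?_ (Prod.ext ?_ ?_))))
    · exact mul_assoc s t r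
    · show (a * c - s * b * d) * x - s * t * (b * c + s * a * d) * y =
        a * (c * x - t * d * y) - s * b * (d * x + t * c * y)
      linear_combination (-t * a * d * y) * h1
    · show (b * c + s * a * d) * x + s * t * (a * c - s * b * d) * y =
        b * (c * x - t * d * y) + s * a * (d * x + t * c * y)
      linear_combination (-t * b * d * y) * h1
    · show (a * c - s * b * d) * z - s * t * (b * c + s * a * d) * w + (a * u - s * b * v + e) =
        a * (c * z - t * d * w + u) - s * b * (d * z + t * c * w + v) + e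
      linear_combination (-t * a * d * w) * h1
    · show (b * c + s * a * d) * z + s * t * (a * c - s * b * d) * w + (b * u + s * a * v + f) =
        b * (c * z - t * d * w + u) + s * a * (d * z + t * c * w + v) + f
      linear_combination (-t * b * d * w) * h1)
  (by decide +kernel) (by decide +kernel)

def s0 : T := ⟨(-1, 1, 0, 0, 0), by decide⟩
def t0 : T := ⟨(1, 1, 0, 0, 1), by decide⟩

def K1 : Subgroup T where
  carrier := {x | x.1.1 = 1}
  one_mem' := rfl
  mul_mem' := by decide +kernel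
  inv_mem' := by decide +kernel
def K2 : Subgroup T where
  carrier := {x | x.1.1 = 1 ∧ x.1.2.1 = 1 ∧ x.1.2.2.1 = 0}
  one_mem' := ⟨rfl, rfl, rfl⟩
  mul_mem' := by decide +kernel
  inv_mem' := by decide +kernel
def S : Subgroup T where
  carrier := {x | x.1.2.2.2 = 0}
  one_mem' := rfl
  mul_mem' := by decide +kernel
  inv_mem' := by decide +kernel

theorem c1 : ∀ x y : T, (x * y * x⁻¹ * y⁻¹).1.1 = 1 := by decide +kernel
theorem c2 : ∀ x : T, x.1.1 = 1 → ∀ y : T, y.1.1 = 1 →
    (x * y * x⁻¹ * y⁻¹).1.1 = 1 ∧ (x * y * x⁻¹ * y⁻¹).1.2.1 = 1 ∧ (x * y * x⁻¹ * y⁻¹).1.2.2.1 = 0 := by decide +kernel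
theorem c3 : ∀ x : T, x.1.1 = 1 ∧ x.1.2.1 = 1 ∧ x.1.2.2.1 = 0 → ∀ y : T, y.1.1 = 1 ∧ y.1.2.1 = 1 ∧ y.1.2.2.1 = 0 →
    x * y * x⁻¹ * y⁻¹ = 1 := by decide +kernel
theorem c4 : ∀ c : T, ∃ x : T, s0 * (x * c * x⁻¹) = x * c * x⁻¹ * s0 ∨ (x * c * x⁻¹).1.2.2.2 = 0 := by
  decide +kernel
theorem c5 : ∀ x : T, x.1.2.2.2 = 0 → x * x * (x * x) * (x * x * (x * x)) = 1 := by decide +kernel
theorem c6 : s0 * s0 = 1 ∧ s0 ≠ 1 ∧ s0 * (t0 * s0 * t0⁻¹) = t0 ∧ t0 * t0 * t0 = 1 ∧ t0 ≠ 1 := by decide +kernel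

/-- There is a finite solvable group G with a subgroup A of order 2 such that every conjugacy class of G contains an element g for which A is subnormal in the subgroup generated by A and g, and yet A is not contained in O_2(G). (So the corresponding criteria for odd primes fail at the prime 2, even for solvable groups.) -/
theorem result :
    ∃ (G : Type) (_ : Group G) (_ : Finite G) (A : Subgroup G), Group.IsSolvable G ∧ Nat.card A = 2 ∧
      (∀ c : G, ∃ g : G, IsConj c g ∧ (A.subgroupOf (A ⊔ Subgroup.zpowers g)).IsSubnormal) ∧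
      ¬ A ≤ Cfsg.pCore 2 G := by
  refine ⟨T, inferInstance, inferInstance, zpowers s0, ⟨3, ?_⟩, ?_, fun c => ?_, fun h => ?_⟩
  · have h1 : derivedSeries T 1 ≤ K1 := commutator_le.2 fun x _ y _ => c1 x y
    have h2 : derivedSeries T 2 ≤ K2 := commutator_le.2 fun x hx y hy => c2 x (h1 hx) y (h1 hy)
    exact le_bot_iff.1 (commutator_le.2 fun x hx y hy => c3 x (h2 hx) y (h2 hy))
  · rw [Nat.card_zpowers]
    exact orderOf_eq_prime ((sq _).trans c6.1) c6.2.1
  · obtain ⟨x, h | h⟩ := c4 c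
    · refine ⟨_, isConj_iff.2 ⟨x, rfl⟩, Normal.isSubnormal ((normal_subgroupOf_iff_le_normalizer le_sup_left).2
        (sup_le le_normalizer (zpowers_le.2 (centralizer_le_normalizer _ (mem_centralizer_iff.2 ?_)))))⟩
      rintro _ ⟨n, rfl⟩
      exact (Commute.zpow_left h n).eq
    · refine ⟨_, isConj_iff.2 ⟨x, rfl⟩, ?_⟩
      have hS : IsPGroup 2 S := fun y => ⟨3, Subtype.ext (by
        have := c5 y y.2
        rw [← sq, ← sq, ← sq, ← pow_mul, ← pow_mul] at this
        exact this)⟩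
      have := (hS.to_le (sup_le (zpowers_le.2 rfl) (zpowers_le.2 h) : zpowers s0 ⊔ zpowers (x * c * x⁻¹) ≤ S)).isNilpotent
      exact subn_nil _
  · have h1 := h (mem_zpowers s0)
    have h2 : t0 ∈ pCore 2 T := c6.2.2.1 ▸ mul_mem h1 ((inferInstance : (pCore 2 T).Normal).conj_mem _ h1 t0)
    obtain ⟨n, hn⟩ := H1.pCore_isPGroup 2 T ⟨t0, h2⟩
    have h3 : orderOf t0 = 3 := orderOf_eq_prime (by rw [pow_succ, sq]; exact c6.2.2.2.1) c6.2.2.2.2
    have h4 : 3 ∣ 2 ^ n := h3 ▸ orderOf_dvd_of_pow_eq_one (congrArg Subtype.val hn)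
    exact absurd (Nat.prime_three.dvd_of_dvd_pow h4) (by decide)

end Cfsg.Agent.S4331
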