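import Cfsg.Statements.S4332
import Cfsg.Agent.H16.Sw
import Cfsg.Agent.H2.Subnormal

set_option autoImplicit false
open Pointwise
open Cfsg

namespace Cfsg.Agent.S4332

theorem comm3 {α : Type*} [Fintype α] [DecidableEq α] {σ τ : Equiv.Perm α} (h : σ.support.card = 3)
    (e : τ.support = σ.support) : Commute σ τ := by
  obtain ⟨a, b, c, ab, ac, bc, h⟩ := Finset.card_eq_three.1 h
  have k : ∀ ρ : Equiv.Perm α, ρ.support = {a, b, c} → (∀ x, x ≠ a → x ≠ b → x ≠ c → ρ x = x) ∧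
      (ρ a = b ∧ ρ b = c ∧ ρ c = a ∨ ρ a = c ∧ ρ b = a ∧ ρ c = b) := fun ρ h => by
    have h1 : ∀ x, ρ x ≠ x ↔ x = a ∨ x = b ∨ x = c := fun x => by rw [← Equiv.Perm.mem_support, h]; simp
    have h2 : ∀ x, ρ (ρ x) ≠ ρ x ↔ ρ x ≠ x := fun x => ρ.injective.ne_iff
    have := ρ.injective.ne ab
    have := ρ.injective.ne ac
    have := ρ.injective.ne bc
    have := h1 a
    have := h1 b
    have := h1 c
    have := (h1 _).symm.trans (h2 a)
    have := (h1 _).symm.trans (h2 b)
    have := (h1 _).symm.trans (h2 c)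
    grind
  have h1 := k σ h
  have h2 := k τ (e.trans h)
  ext x
  simp only [Equiv.Perm.mul_apply]
  by_cases x = a ∨ x = b ∨ x = c <;> grind

theorem exists_set (c : Equiv.Perm (Fin 8)) : ∃ T : Finset (Fin 8), T.card = 3 ∧
    ((∀ x ∈ T, c x ∈ T) ∨ ∀ x ∈ T, c x ∉ T) := by
  by_cases h3 : 3 ≤ c.supportᶜ.card
  · obtain ⟨T, h1, h2⟩ := Finset.exists_subset_card_eq h3
    exact ⟨T, h2, .inl fun x hx => by rwa [show c x = x by simpa using h1 hx]⟩
  have h6 : 6 ≤ c.support.card := by rw [Finset.card_compl, Fintype.card_fin] at h3; omega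
  have k : ∀ s : Finset (Fin 8), s.card ≤ 5 → ∃ z, c z ≠ z ∧ z ∉ s := fun s hs => by
    simpa using Finset.exists_mem_notMem_of_card_lt_card (s := s) (t := c.support) (by omega)
  have i := c.injective
  by_cases h : ∀ x, c (c x) = x
  · obtain ⟨x, hx, -⟩ := k ∅ (by simp)
    obtain ⟨y, hy, h1⟩ := k {x, c x} (Finset.card_le_two.trans (by decide))
    obtain ⟨z, hz, h2⟩ := k {x, c x, y, c y} (Finset.card_le_four.trans (by decide))
    exact ⟨{x, y, z}, Finset.card_eq_three.2 ⟨x, y, z, by grind, by grind, by grind, rfl⟩, .inr (by grind)⟩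
  obtain ⟨x, hx⟩ := not_forall.1 h
  have h1 : c x ≠ x := fun e => hx (by rw [e, e])
  by_cases h2 : c (c (c x)) = x
  · exact ⟨{x, c x, c (c x)}, Finset.card_eq_three.2 ⟨_, _, _, h1.symm, Ne.symm hx, i.ne h1.symm, rfl⟩,
      .inl (by simp [h2])⟩
  obtain ⟨z, hz, h4⟩ := k {c.symm x, x, c x, c (c x), c (c (c x))} Finset.card_le_five
  have := c.apply_symm_apply x
  simp only [Finset.mem_insert, Finset.mem_singleton, not_or] at h4
  have := i.ne h4.1
  have := i.ne h4.2.2.1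
  have := i.ne (i.ne h1)
  have := i.ne h1
  exact ⟨{x, c (c x), z}, Finset.card_eq_three.2 ⟨_, _, _, Ne.symm hx, Ne.symm h4.2.1, Ne.symm h4.2.2.2.1, rfl⟩,
    .inr (by simp only [Finset.mem_insert, Finset.mem_singleton]; grind)⟩

/-- In the symmetric group of degree 8, let A be the subgroup generated by a 3-cycle. Then every conjugacy class contains an element g for which A is subnormal in the subgroup generated by A and its conjugate by g, although O_3 of the symmetric group of degree 8 is trivial. -/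
theorem result
    (σ : Equiv.Perm (Fin 8)) (hσ : σ.IsThreeCycle) :
    (∀ c : Equiv.Perm (Fin 8), ∃ g : Equiv.Perm (Fin 8), IsConj c g ∧
      ((Subgroup.zpowers σ).subgroupOf (Subgroup.zpowers σ ⊔ MulAut.conj g • Subgroup.zpowers σ)).IsSubnormal) ∧
    Cfsg.pCore 3 (Equiv.Perm (Fin 8)) = ⊥ := by
  refine ⟨fun c => ?_, sSup_eq_bot.2 fun N ⟨_, hN⟩ => by_contra fun h => ?_⟩
  swap
  · obtain ⟨n, hn⟩ := hN.exists_card_eq
    have := hn ▸ H16.card_dvd_of_normal_perm N h
    exact absurd (Nat.prime_two.dvd_of_dvd_pow ((show 2 ∣ _ by simp).trans this)) (by decide)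
  obtain ⟨T, h1, h2⟩ := exists_set c
  obtain ⟨k, hk⟩ : ∃ k : Equiv.Perm (Fin 8), ∀ x, k x ∈ σ.support ↔ x ∈ T := by
    obtain ⟨k, hk⟩ := Equiv.Perm.exists_extending_pair (f := Subtype.val (p := (· ∈ T)))
      (g := fun x => (Finset.equivOfCardEq (h1.trans hσ.card_support.symm) x : Fin 8)) Subtype.val_injective
      (Subtype.val_injective.comp (Equiv.injective _))
    have : T.map k.toEmbedding = σ.support := Finset.eq_of_subset_of_card_le (fun x hx => by
      obtain ⟨y, hy, rfl⟩ := Finset.mem_map.1 hx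
      exact (hk ⟨y, hy⟩).symm ▸ Subtype.prop _) (by simp [h1, hσ.card_support])
    exact ⟨k, fun x => by simp [← this]⟩
  have h3 : ∀ x, x ∈ (k * c * k⁻¹ * σ * (k * c * k⁻¹)⁻¹).support ↔ c⁻¹ (k⁻¹ x) ∈ T := fun x => by
    rw [Equiv.Perm.support_conj, ← hk]; rw [Finset.mem_map_equiv]; rfl
  have h4 : Commute σ (k * c * k⁻¹ * σ * (k * c * k⁻¹)⁻¹) := by
    rcases h2 with h2 | h2
    · refine comm3 hσ.card_support (Finset.eq_of_subset_of_card_le (fun x hx => ?_) (by
        rw [Equiv.Perm.card_support_conj]))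
      simpa using (hk _).2 (h2 _ ((h3 x).1 hx))
    · refine (Equiv.Perm.disjoint_iff_disjoint_support.2 (Finset.disjoint_left.2 fun x hx hx' => ?_)).commute
      exact h2 _ ((h3 x).1 hx') ((hk _).1 (by simpa using hx))
  refine ⟨k * c * k⁻¹, isConj_iff.2 ⟨k, rfl⟩, (H2.subnIn_iff.1 (.of_normal le_sup_left (sup_le Subgroup.le_normalizer
    (le_trans ?_ (Subgroup.centralizer_le_normalizer _))))).2⟩
  rintro _ ⟨_, ⟨m, rfl⟩, rfl⟩ _ ⟨n, rfl⟩
  have := (h4.zpow_zpow n m).eq
  rwa [conj_zpow] at this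

end Cfsg.Agent.S4332
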