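import Cfsg.Statements.S4333
import Cfsg.Agent.H2.Subnormal

set_option autoImplicit false
open Pointwise
open Cfsg

namespace Cfsg.Agent.S4333


/-- Let A be a subgroup of a finite group G. If A is subnormal in the subgroup generated by A and its conjugate by g⁻¹ a g, for every a ∈ A and every g ∈ G, then A is subnormal in G. (A sharpening of Wielandt's subnormality criterion: only conjugates of A by conjugates of elements of A are needed.) -/
theorem result {G : Type*} [Group G] [Finite G]
    (A : Subgroup G)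
    (h : ∀ a ∈ A, ∀ g : G, (A.subgroupOf (A ⊔ MulAut.conj (g⁻¹ * a * g) • A)).IsSubnormal) :
    A.IsSubnormal := by
  have key : ∀ K, A ≤ K → H2.SubnIn A K := fun K => by
    induction K using WellFoundedLT.induction with
    | ind K ih =>
    intro hAK
    by_contra hn
    have h1 : ∀ V, A ≤ V → V < K → H2.SubnIn A V := fun V hAV hVK => ih V hVK hAV
    obtain ⟨M, hAM, hMK, hM⟩ := H2.zipper hAK h1 hn
    have h2 : ∀ a ∈ A, ∀ g ∈ K, g⁻¹ * a * g ∈ M := fun a ha g hg => by
      have hx : g⁻¹ * a * g ∈ K := mul_mem (mul_mem (inv_mem hg) (hAK ha)) hg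
      have h3 := h a ha g
      generalize g⁻¹ * a * g = x at hx h3
      have h4 : MulAut.conj x • A ≤ M := le_sup_right.trans (hM _ le_sup_left (lt_of_le_of_ne
        (sup_le hAK (H2.conj_le_of_mem hAK hx)) fun e => hn (e ▸ H2.subnIn_iff.2 ⟨le_sup_left, h3⟩)))
      have h5 : MulAut.conj x⁻¹ • M ≤ M := hM _ (by
        rw [map_inv, Subgroup.subset_pointwise_smul_iff, inv_inv]; exact h4) (lt_of_le_of_ne
          (H2.conj_le_of_mem hMK.le (inv_mem hx)) fun e => hMK.ne (Subgroup.eq_of_le_of_card_ge hMK.le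
            (by rw [← e]; exact (Nat.card_congr (Subgroup.equivSMul _ _).toEquiv).ge)))
      have h6 : x⁻¹ ∈ Subgroup.normalizer (M : Set G) := Subgroup.mem_normalizer_fintype fun y hy =>
        h5 (Subgroup.smul_mem_pointwise_smul y _ _ hy)
      by_cases e : K ≤ Subgroup.normalizer (M : Set G)
      · exact absurd ((h1 M hAM hMK).trans (.of_normal hMK.le e)) hn
      exact hM (K ⊓ Subgroup.normalizer (M : Set G)) (le_inf hAK (hAM.trans Subgroup.le_normalizer))
        (inf_lt_left.2 e) ⟨hx, (Subgroup.inv_mem_iff _).1 h6⟩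
    set T := Subgroup.closure {x | ∃ a ∈ A, ∃ g ∈ K, x = g⁻¹ * a * g}
    have h3 : T ≤ M :=
      (Subgroup.closure_le _).2 (by rintro _ ⟨a, ha, g, hg, rfl⟩; exact h2 a ha g hg)
    refine hn (((h1 M hAM hMK).of_le (L := T) (fun a ha => Subgroup.subset_closure ⟨a, ha, 1, one_mem _, by simp⟩) h3).trans
      (.of_normal (h3.trans hMK.le) fun k hk => Subgroup.mem_normalizer_fintype fun y hy =>
        (Subgroup.closure_le (T.comap (MulAut.conj k).toMonoidHom)).2 ?_ hy))
    rintro _ ⟨a, ha, g, hg, rfl⟩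
    exact Subgroup.subset_closure ⟨a, ha, g * k⁻¹, mul_mem hg (inv_mem hk), by simp [mul_assoc]⟩
  exact H2.subnIn_top_iff.1 (key ⊤ le_top)

end Cfsg.Agent.S4333
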