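import Cfsg.Statements.S4337
import Cfsg.Agent.H16.Sw
import Cfsg.Agent.H18.Pi
import Cfsg.Agent.H5.Central

set_option autoImplicit false
open Cfsg

namespace Cfsg.Agent.S4337


/-- In a finite symmetric group, any three transpositions generate a solvable subgroup. -/
theorem result (n : ℕ) (a b c : Equiv.Perm (Fin n))
    (ha : a.IsSwap) (hb : b.IsSwap) (hc : c.IsSwap) :
    Group.IsSolvable (Subgroup.closure ({a, b, c} : Set (Equiv.Perm (Fin n)))) := by
  obtain ⟨x, y, e, h1, h2⟩ := H18.exists_pi_factor {2} (Nat.card_pos (α := Subgroup.closure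
    ({a, b, c} : Set (Equiv.Perm (Fin n))))).ne'
  have h3 : H18.PiNat {3} y := fun p hp h => by
    have h4 := H16.prime_le_of_swaps {a, b, c} (by simp [ha, hb, hc]) hp
      (by simpa using e ▸ h.mul_left x)
    have h5 : p ≠ 2 := h2 p hp h
    have h6 := Finset.card_le_three (a := a) (b := b) (c := c)
    have := hp.two_le
    have : p ≠ 4 := by rintro rfl; norm_num at hp
    show p = 3
    omega
  have h0 := e ▸ Nat.card_pos (α := Subgroup.closure ({a, b, c} : Set (Equiv.Perm (Fin n))))
  obtain ⟨i, rfl⟩ := h1.eq_pow (by rintro rfl; simp at h0)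
  obtain ⟨j, rfl⟩ := h3.eq_pow (by rintro rfl; simp at h0)
  exact H5.burnside_paqb Nat.prime_two Nat.prime_three e

end Cfsg.Agent.S4337
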