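import Cfsg.Statements.S4342
import Cfsg.Agent.H2.Syl

set_option autoImplicit false
open Cfsg

namespace Cfsg.Agent.S4342

/-- Let H be a normal subgroup of a finite group G and p a prime not dividing the index of H. Then the number of Sylow p-subgroups of H/Z(H) equals the number of Sylow p-subgroups of G. -/
theorem result {G : Type*} [Group G] [Finite G]
    (p : ℕ) [Fact p.Prime] (H : Subgroup G) [H.Normal] (hp : ¬ p ∣ H.index) :
    Nat.card (Sylow p (H ⧸ Subgroup.center H)) = Nat.card (Sylow p G) := by
  have h1 : Nat.card (Sylow p (H ⧸ Subgroup.center H)) = Nat.card (Sylow p H) := by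
    symm
    refine Nat.card_congr (Equiv.ofBijective
      (fun P : Sylow p H => P.mapSurjective (QuotientGroup.mk'_surjective (Subgroup.center H)))
      ⟨?_, Sylow.mapSurjective_surjective _ p⟩)
    intro P Q hPQ
    have h := congrArg (fun R : Sylow p (H ⧸ Subgroup.center H) =>
      (R : Subgroup _).comap (QuotientGroup.mk' (Subgroup.center H))) hPQ
    simp only [Sylow.coe_mapSurjective, Subgroup.comap_map_eq, QuotientGroup.ker_mk'] at h
    have hn : (Q : Subgroup H) ≤ Subgroup.normalizer ((P : Subgroup H) : Set H) := by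
      refine le_sup_left.trans (h.symm.le.trans (sup_le Subgroup.le_normalizer ?_))
      exact Subgroup.center_le_normalizer _
    have h2 := (H2.sylIn_top P).le_of_le_normalizer' Q.isPGroup' le_top hn
    exact Sylow.ext (Q.is_maximal' P.isPGroup' h2)
  rw [h1]
  have hle : ∀ P : Sylow p G, (P : Subgroup G) ≤ H := by
    intro P
    obtain ⟨k, hk⟩ := P.isPGroup'.exists_card_eq
    have hc : (Nat.card (P : Subgroup G)).Coprime H.index := by
      rw [hk]; exact Nat.Coprime.pow_left _ ((Nat.Prime.coprime_iff_not_dvd Fact.out).2 hp)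
    intro x hx
    have h3 : (orderOf x).Coprime H.index :=
      Nat.Coprime.coprime_dvd_left ((P : Subgroup G).orderOf_dvd_natCard hx) hc
    obtain ⟨m, hm⟩ := exists_pow_eq_self_of_coprime h3.symm
    rw [← hm]
    exact H.pow_mem (H.pow_index_mem x) m
  symm
  refine Nat.card_congr (Equiv.ofBijective (fun P : Sylow p G => P.subtype (hle P))
    ⟨fun P Q h => Sylow.subtype_injective h, fun R => ?_⟩)
  obtain ⟨Q, hQ⟩ := R.exists_comap_subtype_eq
  exact ⟨Q, Sylow.ext hQ⟩

end Cfsg.Agent.S4342
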