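import Cfsg.Statements.S4343
import Cfsg.Agent.H1.Harv1
import Cfsg.Agent.H10.Syl

set_option autoImplicit false
open Cfsg

namespace Cfsg.Agent.S4343

open H18 Subgroup

/-- Let S be a finite non-abelian simple group and p a prime dividing its order. If S has fewer than p² Sylow p-subgroups, then its Sylow p-subgroups have order p. -/
theorem result {S : Type*} [Group S] [Finite S]
    [IsSimpleGroup S] (hS : ¬ IsMulCommutative S) (p : ℕ) [Fact p.Prime] (hp : p ∣ Nat.card S)
    (hn : Nat.card (Sylow p S) < p ^ 2) (P : Sylow p S) : Nat.card P = p := by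
  have hp' : p.Prime := Fact.out
  have key : ∀ P R : Sylow p S, R ≠ P → (R : Subgroup S).relIndex P = p := fun P R h => by
    obtain ⟨j, hj⟩ := H10.relIndex_sylow_eq_pow P (R : Subgroup S)
    have h1 := H10.one_lt_relIndex_sylow h
    have hR := hall_sylow_top hp' R
    have h2 : (R : Subgroup S).relIndex P ≤ Nat.card (Sylow p S) := by
      rw [H1.card_sylow_top hp' hR, ← relIndex_top_right]
      refine le_trans (Nat.le_of_dvd relIndex_pos ?_) (relIndex_le_of_le_right (le_top (a := (P : Subgroup S))) H18.relIndex_ne_zero)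
      rw [← relIndex_inf_left (A := N((R : Subgroup S)))]
      exact relIndex_dvd_left (hR.le_of_norm le_top (hall_sylow_top hp' P).pi.inf_left (Or.inl inf_le_right))
    rw [hj] at h1 h2 ⊢
    have := (Nat.pow_lt_pow_iff_right hp'.one_lt).1 (h2.trans_lt hn)
    have := (Nat.one_lt_pow_iff (by rintro e; simp [e] at h1)).1 h1
    obtain rfl : j = 1 := by rcases j with _ | j <;> simp_all
    simp
  have hD : (⨅ R : Sylow p S, (R : Subgroup S)) = ⊥ := by
    refine (IsSimpleGroup.eq_bot_or_eq_top_of_normal _ ⟨fun x hx g => mem_iInf.2 fun R => ?_⟩).resolve_right fun e => hS ?_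
    · simpa [Sylow.smul_def, mem_pointwise_smul_iff_inv_smul_mem, mul_assoc] using
        (mem_pointwise_smul_iff_inv_smul_mem (a := MulAut.conj g⁻¹) (S := (R : Subgroup S))).1 (mem_iInf.1 hx (g⁻¹ • R))
    · have := solv_top_iff.1 ((hall_sylow_top hp' P).pi.solv.of_le (e.ge.trans (iInf_le _ P)))
      exact ⟨⟨IsSimpleGroup.comm_iff_isSolvable.2 this⟩⟩
  obtain ⟨R, hR⟩ := H10.brodkey (fun P : Sylow p S => abel_iff.1 (abel_iff_der.2 (eq_bot_iff.2 (le_trans (le_iInf fun R => by
    by_cases e : R = P
    · rw [e]; exact der_le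
    · have hP := (hall_sylow_top hp' P).pi
      have h1 : ((R : Subgroup S) ⊓ P).relIndex P = p := by rw [relIndex_inf_right, key P R e]
      have := hP.nml_of_relIndex hp' inf_le_right h1
      exact ((abel_quo_iff this.norm).1 (cyc_quo_of_prime this.norm (by rwa [h1])).abel).trans inf_le_left) hD.le)))) P
  rw [hD] at hR
  have h1 := (hall_sylow_top hp' P).ne_bot_p hp' (by rwa [card_top])
  rw [← card_mul_relIndex' (A := (R : Subgroup S)), hR, card_bot, one_mul, key P R (by rintro rfl; exact h1 (by simpa using hR))]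

end Cfsg.Agent.S4343
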