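import Cfsg.Statements.S4344
import Cfsg.Agent.H2.Syl
import Cfsg.Agent.H1.Basic

set_option autoImplicit false
open Cfsg

namespace Cfsg.Agent.S4344

/-- Let S be a finite non-abelian simple group, M a maximal subgroup of S and C a cyclic normal subgroup of M. If a Sylow p-subgroup P of S (for a prime p dividing the order of S) is contained in C, then the number of Sylow p-subgroups of S equals the index of M. -/
theorem result {S : Type*} [Group S] [Finite S]
    [IsSimpleGroup S] (hS : ¬ IsMulCommutative S) (p : ℕ) [Fact p.Prime] (hp : p ∣ Nat.card S)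
    (M : Subgroup S) (hM : IsCoatom M) (C : Subgroup S) (hCM : C ≤ M) (hCn : (C.subgroupOf M).Normal)
    (hC : IsCyclic C) (P : Sylow p S) (hP : (P : Subgroup S) ≤ C) :
    Nat.card (Sylow p S) = M.index := by
  have hCM' : M ≤ Subgroup.normalizer (C : Set S) := (Subgroup.normal_subgroupOf_iff_le_normalizer hCM).1 hCn
  have h1 : H2.SylIn p (P : Subgroup S) C := (H2.sylIn_top P).of_le hP le_top
  have h2 : C ≤ Subgroup.normalizer ((P : Subgroup S) : Set S) :=
    h1.le_normalizer_of_nilpotent (H1.isNilpotent_of_isMulCommutative C)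
  have h3 : M ≤ Subgroup.normalizer ((P : Subgroup S) : Set S) := hCM'.trans (h1.normalizer_le h2)
  have h4 : Subgroup.normalizer ((P : Subgroup S) : Set S) ≠ ⊤ := by
    intro h
    have hn : (P : Subgroup S).Normal := Subgroup.normalizer_eq_top_iff.1 h
    rcases hn.eq_bot_or_eq_top with h5 | h5
    · exact P.ne_bot_of_dvd_card hp h5
    · apply hS
      have hCt : C = ⊤ := top_le_iff.1 (h5 ▸ hP)
      subst hCt
      exact ⟨⟨fun a b => congrArg Subtype.val
        (mul_comm' (⟨a, trivial⟩ : (⊤ : Subgroup S)) ⟨b, trivial⟩)⟩⟩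
  rw [P.card_eq_index_normalizer]
  congr 1
  exact ((hM.le_iff.1 h3).resolve_left h4)

end Cfsg.Agent.S4344
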