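import Cfsg.Statements.S4345
import Cfsg.Agent.H1.Harv1

set_option autoImplicit false
open Cfsg

namespace Cfsg.Agent.S4345

open H18 Subgroup

/-- Let G be a finite solvable group and p, ℓ primes. Then the largest power of ℓ dividing the number of Sylow p-subgroups of G is congruent to 1 modulo p. -/
theorem result {G : Type*} [Group G] [Finite G]
    (hG : Group.IsSolvable G) (p ℓ : ℕ) [Fact p.Prime] (hℓ : ℓ.Prime) :
    ℓ ^ (Nat.card (Sylow p G)).factorization ℓ ≡ 1 [MOD p] := by
  have hp : p.Prime := Fact.out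
  obtain ⟨P, hP⟩ := exists_sylow hp (⊤ : Subgroup G)
  obtain ⟨l, h1, h2⟩ := H1.exists_list_hall solv_of_solv hP
  have h0 : l.prod ≠ 0 := h1 ▸ H18.relIndex_ne_zero
  rw [H1.card_sylow_top hp hP, ← relIndex_top_right, ← h1]
  clear h1
  induction l with
  | nil => simp [Nat.ModEq.refl]
  | cons m l ih =>
    rw [List.prod_cons] at h0 ⊢
    obtain ⟨⟨r, hr, a⟩, -, q, hq, b, c⟩ := h2 m List.mem_cons_self
    rw [Nat.factorization_mul (left_ne_zero_of_mul h0) (right_ne_zero_of_mul h0), Finsupp.add_apply, pow_add]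
    refine Nat.ModEq.mul (b := 1) (d := 1) ?_ (ih (fun n hn => h2 n (List.mem_cons_of_mem _ hn)) (right_ne_zero_of_mul h0))
    obtain ⟨k, rfl⟩ := a.eq_pow (left_ne_zero_of_mul h0)
    rw [hP.pi.eq_of_dvd hq b] at c
    rw [hr.factorization_pow]
    by_cases e : r = ℓ
    · subst e; simpa using c
    · simp [e, Nat.ModEq.refl]

end Cfsg.Agent.S4345
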