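import Cfsg.Statements.S4346
import Cfsg.Agent.H29.SylN

set_option autoImplicit false
open Cfsg

namespace Cfsg.Agent.S4346

open MulAction Subgroup H29

section
variable {G : Type*} [Group G] [Finite G]

/-- distance -/
noncomputable def d (P Q : Sylow 3 G) : ℕ := (Q : Subgroup G).relIndex P

theorem card_inf_d (P Q : Sylow 3 G) : Nat.card ↥((P : Subgroup G) ⊓ Q) * d P Q = Nat.card P := by
  rw [d, relIndex, ← inf_subgroupOf_right, inf_comm (Q : Subgroup G),
    ← Nat.card_congr (subgroupOfEquivOfLe (inf_le_left : (P : Subgroup G) ⊓ Q ≤ P)).toEquiv]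
  exact card_mul_index _

theorem card_eq (P Q : Sylow 3 G) : Nat.card P = Nat.card Q := by
  rw [P.card_eq_multiplicity, Q.card_eq_multiplicity]

theorem d_comm (P Q : Sylow 3 G) : d P Q = d Q P := by
  have h1 := card_inf_d P Q
  have h2 := card_inf_d Q P
  rw [inf_comm, card_eq Q P, ← h1] at h2
  exact (Nat.eq_of_mul_eq_mul_left Nat.card_pos h2).symm

theorem d_smul (g : G) (P Q : Sylow 3 G) : d (g • P) (g • Q) = d P Q := by
  simp only [d, Sylow.coe_subgroup_smul]
  exact relIndex_map_map_of_injective _ _ (MulAut.conj g).injective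

theorem d_orbit (P Q : Sylow 3 G) : (orbit (P : Subgroup G) Q).ncard = d P Q := by
  rw [← index_stabilizer, d, relIndex]
  congr 1; ext g
  exact ⟨fun h => syl_mem_of_smul g.2 h, fun h => syl_smul_of_mem h⟩

theorem d_cases (P Q : Sylow 3 G) : P = Q ∨ d P Q = 3 ∨ 9 ∣ d P Q := by
  obtain ⟨k, hk⟩ := P.isPGroup'.exists_card_eq
  have h1 : d P Q ∣ 3 ^ k := hk ▸ Dvd.intro_left _ (card_inf_d P Q)
  obtain ⟨j, -, hj⟩ := (Nat.dvd_prime_pow Nat.prime_three).1 h1
  rcases j with _ | _ | j
  · exact Or.inl (syl_eq_of_le (relIndex_eq_one.1 hj))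
  · exact Or.inr (Or.inl hj)
  · exact Or.inr (Or.inr ⟨3 ^ j, by rw [hj]; ring⟩)

theorem d_self (P : Sylow 3 G) : d P P = 1 := relIndex_self _

/-- a subgroup of a third of the order contained in two distinct Sylow subgroups is their intersection -/
theorem inf_eq {D : Subgroup G} {P Q R : Sylow 3 G} (hD : Nat.card D * 3 = Nat.card R) (hP : D ≤ P) (hQ : D ≤ Q)
    (ne : P ≠ Q) : (P : Subgroup G) ⊓ Q = D ∧ d P Q = 3 := by
  have h1 := card_inf_d P Q
  obtain ⟨c, hc⟩ := card_dvd_of_le (le_inf hP hQ)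
  rw [card_eq P R, ← hD, hc, mul_assoc] at h1
  have h2 := Nat.eq_of_mul_eq_mul_left Nat.card_pos h1
  have h3 : d P Q = 3 := by
    have h4 : d P Q ≤ 3 := Nat.le_of_dvd (by norm_num) (Dvd.intro_left _ h2)
    rcases d_cases P Q with h | h | h
    · exact absurd h ne
    · exact h
    · have := Nat.le_of_dvd (Nat.pos_of_ne_zero fun e => by rw [e] at h2; omega) h; omega
  rw [h3] at h2
  exact ⟨(eq_of_le_of_card_ge (le_inf hP hQ) (by rw [hc, show c = 1 by omega, mul_one])).symm, h3⟩

theorem c3 {P Q : Sylow 3 G} (h : d P Q = 3) : Nat.card ↥((P : Subgroup G) ⊓ Q) * 3 = Nat.card P := by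
  rw [← card_inf_d P Q, h]

theorem inf_le_smul {P Q : Sylow 3 G} (h : d P Q = 3) {x : G} (hx : x ∈ (P : Subgroup G)) :
    (P : Subgroup G) ⊓ Q ≤ (x • Q : Sylow 3 G) := by
  haveI : ((Q : Subgroup G).subgroupOf P).Normal := by
    apply normal_of_index_eq_minFac_card
    obtain ⟨k, hk⟩ := P.isPGroup'.exists_card_eq
    have h1 := card_inf_d P Q
    rw [hk]
    rcases k with _ | k
    · rw [hk, h] at h1; omega
    · rw [Nat.Prime.pow_minFac Nat.prime_three k.succ_ne_zero]; exact h
  intro y hy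
  exact mem_syl_smul.2 (mem_subgroupOf.1 (this.conj_mem' ⟨y, hy.1⟩ hy.2 ⟨x, hx⟩))

theorem key {P Q T : Sylow 3 G} (h : d P Q = 3) (h1 : d P T = 3) (h2 : d Q T = 3) : (P : Subgroup G) ⊓ Q ≤ T := by
  intro x hx
  by_contra c
  have ne : T ≠ x • T := fun e => c (syl_mem_of_smul hx.1 e.symm)
  have e1 := (inf_eq (R := P) (c3 h1) inf_le_right (inf_le_smul h1 hx.1) ne).1
  have e2 := (inf_eq (R := Q) (c3 h2) inf_le_right (inf_le_smul h2 hx.2) ne).1
  have ne' : P ≠ Q := fun e => by rw [e, d_self] at h; omega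
  have e3 := (inf_eq (R := P) (c3 h1) inf_le_left (e1.symm.trans e2 ▸ inf_le_left) ne').1
  exact c (e3.le hx).2

theorem step1 (h : Nat.card (Sylow 3 G) = 22) (P : Sylow 3 G) :
    ∃ D : Subgroup G, Nat.card D * 3 = Nat.card P ∧ ∀ Q : Sylow 3 G, D ≤ Q := by
  classical
  haveI := Fintype.ofFinite (Sylow 3 G)
  rw [Nat.card_eq_fintype_card] at h
  let Δ : Sylow 3 G → Finset (Sylow 3 G) := fun P => Finset.univ.filter (d P · = 3)
  have hδ : ∀ Q, (Δ Q).card = (Δ P).card := fun Q => by
    obtain ⟨g, rfl⟩ := exists_smul_eq G P Q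
    symm
    refine Finset.card_bij (fun R _ => g • R) (fun R hR => by simpa [Δ, d_smul] using hR)
      (fun _ _ _ _ e => by simpa using e) fun R hR => ⟨g⁻¹ • R, ?_, by simp⟩
    simp only [Δ, Finset.mem_filter, Finset.mem_univ, true_and] at hR ⊢
    rw [← d_smul g, smul_inv_smul, hR]
  have h9 : 9 ∣ (Finset.univ.filter (9 ∣ d P ·)).card := by
    refine dvd_card_of_fibers _ (fun Q => orbit (P : Subgroup G) Q) fun Q hQ => ?_
    have h1 := (Finset.mem_filter.1 hQ).2
    rw [← d_orbit, ← Set.ncard_coe_finset] at *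
    convert h1 using 2
    ext R
    simp only [Finset.coe_filter, Finset.mem_filter, Finset.mem_univ, true_and, Set.mem_setOf_eq, orbit_eq_iff]
    refine ⟨fun h => h.2, fun h => ⟨?_, h⟩⟩
    rwa [← d_orbit, orbit_eq_iff.2 h]
  have hs : (Δ P).card + (Finset.univ.filter (9 ∣ d P ·)).card + 1 = 22 := by
    rw [← h, ← Finset.card_union_of_disjoint, ← Finset.card_insert_of_notMem (a := P), ← Finset.card_univ]
    · congr 1; ext Q; simpa [Δ, eq_comm] using d_cases P Q
    · simp [Δ, d_self]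
    · rw [Finset.disjoint_filter]; intro Q _ h1 h2; rw [h1] at h2; omega
  -- the blocks
  have main : ∀ P Q, d P Q = 3 → Finset.univ.filter (fun R : Sylow 3 G => (P : Subgroup G) ⊓ Q ≤ R) = insert P (Δ P) := by
    intro R Q hd
    set F := Finset.univ.filter (fun T : Sylow 3 G => (R : Subgroup G) ⊓ Q ≤ T) with hF
    have hc := c3 hd
    have h1 : ∀ S ∈ F, F ⊆ insert S (Δ S) := fun S hS T hT => by
      by_cases e : S = T
      · simp [e]
      · simp [Δ, (inf_eq hc (Finset.mem_filter.1 hS).2 (Finset.mem_filter.1 hT).2 e).2]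
    have hR : R ∈ F := by simp [F]
    have h4 : 4 ≤ F.card := by
      have : insert R (orbit (R : Subgroup G) Q).toFinset ⊆ F := by
        intro T hT
        rcases Finset.mem_insert.1 hT with rfl | hT
        · exact hR
        · obtain ⟨x, rfl⟩ := Set.mem_toFinset.1 hT
          exact Finset.mem_filter.2 ⟨Finset.mem_univ _, inf_le_smul hd x.2⟩
      have h2 := Finset.card_le_card this
      rw [Finset.card_insert_of_notMem, ← Set.ncard_eq_toFinset_card', d_orbit, hd] at h2
      · exact h2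
      · rw [Set.mem_toFinset]; intro c
        have := d_orbit R Q
        rw [← orbit_eq_iff.2 c, d_orbit, d_self] at this; omega
    have h5 : ∀ S ∈ F, (Δ S \ F).card + F.card = (Δ P).card + 1 := fun S hS => by
      have h6 := Finset.card_sdiff_add_card_eq_card (h1 S hS)
      rw [Finset.insert_sdiff_of_mem _ hS, Finset.card_insert_of_notMem (by simp [Δ, d_self]), hδ] at h6
      exact h6
    have h6 : (F.biUnion fun S => Δ S \ F).card + F.card ≤ 22 := by
      rw [← Finset.card_union_of_disjoint, ← h]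
      · exact Finset.card_le_univ _
      · simp [Finset.disjoint_biUnion_left, Finset.sdiff_disjoint]
    rw [Finset.card_biUnion, Finset.sum_const_nat (m := (Δ P).card + 1 - F.card)
      fun S hS => by have := h5 S hS; omega] at h6
    · refine Finset.eq_of_subset_of_card_le (h1 R hR) ?_
      rw [Finset.card_insert_of_notMem (by simp [Δ, d_self]), hδ]
      generalize F.card = f at *
      have : (Δ P).card = 3 ∨ (Δ P).card = 12 ∨ (Δ P).card = 21 := by omega
      by_contra c
      rcases this with e | e | e <;> rw [e] at h6 c <;> (have : f ≤ 21 := by omega) <;> interval_cases f <;> omega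
    · intro S hS T hT ne
      rw [Function.onFun, Finset.disjoint_left]
      intro U h1 h2
      simp only [Δ, Finset.mem_sdiff, Finset.mem_filter, Finset.mem_univ, true_and] at h1 h2
      obtain ⟨e1, e2⟩ := inf_eq hc (Finset.mem_filter.1 hS).2 (Finset.mem_filter.1 hT).2 ne
      exact h1.2 (by simpa [F] using e1 ▸ key e2 h1.1 h2.1)
  have hne : ∀ R, ∃ Q, d R Q = 3 := fun R => by
    obtain ⟨Q, hQ⟩ : (Δ R).Nonempty := Finset.card_pos.1 (by rw [hδ]; omega)
    exact ⟨Q, by simpa [Δ] using hQ⟩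
  have hdv : (Δ P).card + 1 ∣ (Finset.univ : Finset (Sylow 3 G)).card := by
    refine dvd_card_of_fibers _ (fun Q => insert Q (Δ Q)) fun Q _ => ?_
    rw [← hδ Q, ← Finset.card_insert_of_notMem (a := Q) (by simp [Δ, d_self])]
    refine dvd_of_eq (congrArg _ ?_).symm
    ext R
    simp only [Finset.mem_filter, Finset.mem_univ, true_and]
    refine ⟨fun h => h ▸ Finset.mem_insert_self _ _, fun h => ?_⟩
    rcases Finset.mem_insert.1 h with rfl | h
    · rfl
    · have h := (Finset.mem_filter.1 h).2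
      rw [← main _ _ h, ← main _ _ ((d_comm _ _).trans h), inf_comm]
  obtain ⟨Q, hQ⟩ := hne P
  refine ⟨P ⊓ Q, c3 hQ, fun R => ?_⟩
  have h1 : insert P (Δ P) = Finset.univ := by
    apply Finset.eq_univ_of_card
    rw [Finset.card_insert_of_notMem (by simp [Δ, d_self]), h]
    rw [Finset.card_univ, h] at hdv
    have : (Δ P).card = 3 ∨ (Δ P).card = 12 ∨ (Δ P).card = 21 := by omega
    rcases this with e | e | e <;> rw [e] at hdv ⊢ <;> omega
  have := main P Q hQ ▸ h1 ▸ Finset.mem_univ R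
  exact (Finset.mem_filter.1 this).2

theorem syl_card {p : ℕ} [Fact p.Prime] (hd : p ∣ Nat.card G) (h2 : ¬ p ^ 2 ∣ Nat.card G) (P : Sylow p G) :
    Nat.card P = p := by
  obtain ⟨k, hk⟩ := P.isPGroup'.exists_card_eq
  have h1 := P.dvd_card_of_dvd_card hd
  rcases k with _ | _ | k
  · rw [hk] at h1; exact absurd (Nat.dvd_one.1 h1) (Fact.out : p.Prime).ne_one
  · rw [hk]; simp
  · exact absurd ((pow_dvd_pow p (by omega)).trans (hk ▸ card_subgroup_dvd_card (P : Subgroup G))) h2

theorem exists_gen {p : ℕ} [Fact p.Prime] {P : Subgroup G} (h : Nat.card P = p) :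
    ∃ y, orderOf y = p ∧ zpowers y = P := by
  obtain ⟨y, hy⟩ := exists_prime_orderOf_dvd_card' (G := P) p (dvd_of_eq h.symm)
  rw [← Subgroup.orderOf_coe] at hy
  exact ⟨y, hy, eq_of_le_of_card_ge (zpowers_le.2 y.2) (by rw [Nat.card_zpowers, hy, h])⟩

theorem step2 (h : Nat.card (Sylow 3 G) = 22) [FaithfulSMul G (Sylow 3 G)]
    (h2 : ∀ N : Subgroup G, N.Normal → N.index ≠ 2) (P : Sylow 3 G) (hP : Nat.card P = 3) : False := by
  classical
  haveI := Fintype.ofFinite (Sylow 3 G)
  haveI : Fact (Nat.Prime 11) := ⟨by norm_num⟩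
  haveI : Fact (Nat.Prime 7) := ⟨by norm_num⟩
  haveI : Fact (Nat.Prime 5) := ⟨by norm_num⟩
  have h' := Nat.card_eq_fintype_card.symm.trans h
  have hev := sign_toPerm (Ω := Sylow 3 G) h2
  obtain ⟨y, y3, hy⟩ := exists_gen hP
  have y3' : y ^ 3 = 1 := y3 ▸ pow_orderOf_eq_one y
  have fy : ∀ Q : Sylow 3 G, y • Q = Q ↔ Q = P := fun Q =>
    ⟨fun e => (syl_eq_of_le (hy ▸ zpowers_le.2 (syl_mem_of_smul (hy ▸ mem_zpowers y) e))).symm,
      fun e => e ▸ syl_smul_of_mem (hy ▸ mem_zpowers y)⟩
  have c1 := card_cent_dvd hev y3' (c := 7) (m := 1) (by simp [fy]) h' (by norm_num)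
  have c2 := card_mul_card_sylow P
  have c3 := card_cent_mul_relIndex (P : Subgroup G)
  have c4 := relIndex_cent_dvd (P : Subgroup G) (by rw [hP]; norm_num)
  have c5 : ¬ 9 ∣ Nat.card G := fun c => by
    have := P.pow_dvd_card_of_pow_dvd_card (n := 2) c; omega
  have eC : centralizer ((P : Subgroup G) : Set G) = centralizer {y} := by rw [← hy, cent_zpowers]
  obtain ⟨k, hk⟩ : 3 ∣ Nat.card (centralizer {y} : Subgroup G) :=
    y3 ▸ Subgroup.orderOf_dvd_natCard _ (mem_centralizer_singleton_iff.2 rfl)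
  rw [hP] at c4
  have e0 : Nat.card (centralizer ((P : Subgroup G) : Set G)) = 3 * k := by rw [eC, hk]
  rw [e0] at c3
  rw [Sylow.coe_coe] at c3 c4 e0
  set i := (centralizer (P : Set G)).relIndex (normalizer (P : Set G)) with hi
  rw [← c3, h] at c2
  have k3 : ¬ 3 ∣ k := fun ⟨j, hj⟩ => c5 ⟨j * i * 22, by rw [← c2, hj]; ring⟩
  have k280 : k ∣ 280 := by
    rw [hk] at c1
    have : k ∣ 3 ^ 8 * 280 := Nat.dvd_of_mul_dvd_mul_left (k := 6) (by norm_num) (by
      rw [show 6 * k = 3 * k * 2 by ring]; exact c1.trans (by norm_num [Nat.factorial]))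
    exact Nat.Coprime.dvd_of_dvd_mul_left (Nat.Coprime.pow_right _ ((Nat.prime_three.coprime_iff_not_dvd).2 k3).symm) this
  have i2 : i = 1 ∨ i = 2 := Nat.prime_two.eq_one_or_self_of_dvd _ c4
  have k11 : ¬ 11 ∣ k := fun c => by have := c.trans k280; omega
  have n11 : ¬ 11 ∣ 3 * k * i := by rcases i2 with e | e <;> rw [e] <;> omega
  have g121 : ¬ 11 ^ 2 ∣ Nat.card G := by rw [← c2]; omega
  have hR := syl_card (G := G) (p := 11) (by rw [← c2]; omega) g121
  have cR : ∀ R : Sylow 11 G, ∀ r ∈ (R : Subgroup G), r ≠ 1 → centralizer {r} = (R : Subgroup G) := fun R r hr r1 => by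
    have o : orderOf r = 11 := ((Fact.out : Nat.Prime 11).eq_one_or_self_of_dvd _
      (hR R ▸ Subgroup.orderOf_dvd_natCard _ hr)).resolve_left (by simpa using r1)
    have z : zpowers r = R := eq_of_le_of_card_ge (zpowers_le.2 hr) (by rw [Nat.card_zpowers, o, hR])
    have f0 : {Q : Sylow 3 G | r • Q = Q} = ∅ := Set.eq_empty_of_forall_notMem fun Q hQ => by
      have h1 := Subgroup.orderOf_dvd_natCard _ (Sylow.smul_eq_iff_mem_normalizer.1 hQ)
      have h3 := card_mul_card_sylow Q
      rw [h, ← c2] at h3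
      rw [o, Nat.eq_of_mul_eq_mul_right (by norm_num) h3] at h1
      exact n11 h1
    have d1 := card_cent_dvd hev (o ▸ pow_orderOf_eq_one r) (c := 2) (m := 0) (by rw [f0]; simp) h' le_rfl
    have d2 : zpowers r ≤ centralizer {r} := zpowers_le.2 (mem_centralizer_singleton_iff.2 rfl)
    have d3 : Nat.card (centralizer {r} : Subgroup G) ∣ 11 ^ 2 :=
      Nat.dvd_of_mul_dvd_mul_right (k := 2) (by norm_num) d1
    obtain ⟨j, hj, ej⟩ := (Nat.dvd_prime_pow Fact.out).1 d3
    refine (eq_of_le_of_card_ge (z ▸ d2) ?_).symm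
    rw [hR, ej]
    interval_cases j
    · norm_num
    · norm_num
    · exact absurd (ej ▸ card_subgroup_dvd_card _) g121
  have cR' : ∀ R : Sylow 11 G, centralizer ((R : Subgroup G) : Set G) = R := fun R => by
    obtain ⟨r, r1, hr⟩ := exists_gen (hR R)
    rw [← hr, cent_zpowers, cR R r (hr ▸ mem_zpowers r) (by rintro rfl; simp at r1), hr]
  have nR : ∀ (R : Sylow 11 G) (c : G), c • R = R → orderOf c ≠ 3 := fun R c hc o => by
    have := mem_cent_of_coprime (R : Subgroup G) (by rw [hR]; norm_num) (Sylow.smul_eq_iff_mem_normalizer.1 hc)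
      (by rw [o, hR]; norm_num)
    rw [cR'] at this
    have := Subgroup.orderOf_dvd_natCard _ this
    rw [o, hR] at this; omega
  obtain ⟨R⟩ : Nonempty (Sylow 11 G) := inferInstance
  have b2 := card_mul_card_sylow R
  have b3 := card_cent_mul_relIndex (R : Subgroup G)
  have b4 := relIndex_cent_dvd (R : Subgroup G) (by rw [hR]; norm_num)
  have b5 := card_sylow_modEq_one 11 G
  have b6 : Nat.card (centralizer ((R : Subgroup G) : Set G)) = 11 := by rw [cR', hR]
  rw [hR] at b4
  rw [b6] at b3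
  rw [Sylow.coe_coe] at b3 b4
  set e := (centralizer (R : Set G)).relIndex (normalizer (R : Set G)) with he
  have e1 : e ≠ 1 := fun c => not_dvd_card_sylow_of_burnside (q := 3) R (relIndex_eq_one.1 c) (by norm_num) (by rw [h]; norm_num)
  have e3 : e = 2 ∨ e = 5 ∨ e = 10 := by
    have := Nat.le_of_dvd (by norm_num) b4
    interval_cases e <;> omega
  set n := Nat.card (Sylow 11 G) with hn
  have i1 : i = 2 := i2.resolve_left fun c => not_dvd_card_sylow_of_burnside (q := 11) P (relIndex_eq_one.1 c)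
    (by norm_num) (by
      rw [← b3, ← c2] at b2
      rcases e3 with e3 | e3 | e3 <;> rw [e3, c] at b2 <;> omega)
  rw [← b3, ← c2, i1] at b2
  have sub : ∀ q, q.Prime → q ∣ k → ∃ c ∈ centralizer {y}, orderOf c = q := fun q hq hd => by
    haveI := Fact.mk hq
    obtain ⟨c, hc⟩ := exists_prime_orderOf_dvd_card' (G := centralizer {y}) q (hk ▸ hd.mul_left 3)
    exact ⟨c, c.2, by rw [← hc, Subgroup.orderOf_coe]⟩
  -- `35 ∤ k`
  have k35 : ¬ 35 ∣ k := fun c => by
    obtain ⟨Y⟩ : Nonempty (Sylow 7 (centralizer {y} : Subgroup G)) := inferInstance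
    have hY := syl_card (p := 7) (by rw [hk]; exact (Dvd.dvd.trans (by norm_num) c).mul_left 3) (by
      rw [hk]; intro c; have := c.trans (Nat.mul_dvd_mul_left 3 k280); norm_num at this) Y
    have a1 := card_mul_card_sylow Y
    have a2 := card_sylow_modEq_one 7 (centralizer {y} : Subgroup G)
    have a3 : 3 ∣ Nat.card (normalizer (Y : Set (centralizer {y} : Subgroup G))) := by
      have : (⟨y, mem_centralizer_singleton_iff.2 rfl⟩ : (centralizer {y} : Subgroup G)) ∈
          normalizer (Y : Set (centralizer {y} : Subgroup G)) :=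
        center_le_normalizer _ (mem_center_iff.2 fun g => Subtype.ext (mem_centralizer_singleton_iff.1 g.2))
      have := Subgroup.orderOf_dvd_natCard _ this
      rwa [← Subgroup.orderOf_coe, y3] at this
    have a4 : 5 ∣ Nat.card (normalizer (Y : Set (centralizer {y} : Subgroup G))) := by
      rw [hk] at a1
      obtain ⟨a, ha⟩ := a3
      have a5 : Nat.card (Sylow 7 (centralizer {y} : Subgroup G)) ∣ 280 :=
        Dvd.dvd.trans ⟨a, by rw [ha] at a1; nlinarith⟩ k280
      refine (Nat.Prime.dvd_mul (by norm_num)).1 (a1 ▸ (Dvd.dvd.trans (by norm_num) c).mul_left 3) |>.resolve_right ?_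
      have := Nat.le_of_dvd (by norm_num) a5
      unfold Nat.ModEq at a2
      rintro ⟨b, hb⟩
      rw [hb] at a2 a5 this
      have : b ≤ 56 := by omega
      interval_cases b <;> omega
    obtain ⟨c, hc⟩ := exists_prime_orderOf_dvd_card' 5 a4
    have a5 := mem_cent_of_coprime (Y : Subgroup (centralizer {y} : Subgroup G)) (by rw [hY]; norm_num) c.2
      (by rw [Subgroup.orderOf_coe, hc, hY]; norm_num)
    obtain ⟨z, z7, hz⟩ := exists_gen hY
    have z7' : (z : G) ^ 7 = 1 := by rw [← z7, ← Subgroup.orderOf_coe, pow_orderOf_eq_one]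
    have f1 := ncard_fix_modEq (p := 3) (n := 1) (y := y) y3' {Q : Sylow 3 G | (z : G) • Q = Q} fun Q hQ => by
      rw [Set.mem_setOf_eq, ← mul_smul, mem_centralizer_singleton_iff.1 z.2, mul_smul, hQ]
    have f2 := ncard_fix_modEq (p := 7) (n := 1) (y := (z : G)) z7' (Set.univ : Set (Sylow 3 G)) (by simp)
    have zP : (z : G) • P = P := (fy _).1 (by rw [← mul_smul, ← mem_centralizer_singleton_iff.1 z.2, mul_smul, (fy P).2 rfl])
    have f3 : {x ∈ {Q : Sylow 3 G | (z : G) • Q = Q} | y • x = x} = {P} := by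
      ext Q; simp only [fy, Set.mem_setOf_eq, Set.mem_singleton_iff]
      exact ⟨fun h => h.2, fun h => ⟨h ▸ zP, h⟩⟩
    simp only [Set.mem_univ, true_and, Set.ncard_univ, h] at f2
    rw [f3, Set.ncard_singleton] at f1
    have f4 : {Q : Sylow 3 G | (z : G) • Q = Q}.ncard < 22 := by
      rw [← h, ← Set.ncard_univ]
      refine Set.ncard_lt_ncard (Set.ssubset_univ_iff.2 fun e => ?_)
      have : (z : G) = 1 := eq_of_smul_eq_smul (α := Sylow 3 G) fun Q => by
        rw [one_smul]; exact (e.ge (Set.mem_univ Q) :)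
      rw [← Subgroup.orderOf_coe, this] at z7; simp at z7
    have f5 := card_cent_dvd hev z7' (c := 3) (m := 1) (by unfold Nat.ModEq at f1 f2; omega) h' (by norm_num)
    have f6 : ((c : centralizer {y}) : G) ∈ centralizer {(z : G)} :=
      mem_centralizer_singleton_iff.2 (congrArg Subtype.val (a5 z (hz ▸ mem_zpowers z)).symm)
    have f7 := Subgroup.orderOf_dvd_natCard _ f6
    rw [Subgroup.orderOf_coe, Subgroup.orderOf_coe, hc] at f7
    have := (f7.mul_right 2).trans f5
    norm_num [Nat.factorial] at this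
  have fin : n = 12 ∧ (5 ∣ k ∨ e = 2) := by
    unfold Nat.ModEq at b5
    have : k ∈ Nat.divisors 280 := Nat.mem_divisors.2 ⟨k280, by norm_num⟩
    have h280 : Nat.divisors 280 = {1, 2, 4, 5, 7, 8, 10, 14, 20, 28, 35, 40, 56, 70, 140, 280} := by decide
    rw [h280] at this
    simp only [Finset.mem_insert, Finset.mem_singleton] at this
    rcases e3 with e3 | e3 | e3 <;> rw [e3] at b2 <;> omega
  -- Zassenhaus property on the twelve Sylow 11-subgroups
  have zs : ∀ c : G, ¬ orderOf c ∣ 11 → {S : Sylow 11 G | c • S = S}.ncard ≤ 2 := fun c hc => by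
    by_contra h3
    obtain ⟨S0, S1, S2, h0, h1, h2, n01, n02, n12⟩ := (Set.two_lt_ncard_iff (Set.toFinite _)).1 (not_le.1 h3)
    have st : ∀ r ∈ (S0 : Subgroup G), r • S1 = S1 → r = 1 := fun r hr e => by
      by_contra r1
      exact n01 (Sylow.ext ((cR S0 r hr r1).symm.trans (cR S1 r (syl_mem_of_smul hr e) r1)))
    have o1 : (orbit (S0 : Subgroup G) S1).ncard = 11 := by
      have : stabilizer (S0 : Subgroup G) S1 = ⊥ := (Subgroup.eq_bot_iff_forall _).2 fun r hr => Subtype.ext (st r r.2 hr)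
      rw [← index_stabilizer, this, index_bot, hR]
    have o2 : orbit (S0 : Subgroup G) S1 = {S0}ᶜ := by
      refine Set.eq_of_subset_of_ncard_le ?_ ?_
      · rintro _ ⟨r, rfl⟩ e
        exact n01 (by
          have : S1 = r⁻¹ • S0 := eq_inv_smul_iff.2 e
          rw [this]; exact (syl_smul_of_mem r⁻¹.2).symm)
      · rw [o1, Set.ncard_compl, Set.ncard_singleton, ← hn, fin.1]
    obtain ⟨r, hr⟩ : S2 ∈ orbit (S0 : Subgroup G) S1 := o2 ▸ n02.symm
    have hr : (r : G) • S1 = S2 := hr
    have m : c⁻¹ * r * c ∈ (S0 : Subgroup G) := mem_syl_smul.1 (by rw [show c • S0 = S0 from h0]; exact r.2)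
    have := st _ (mul_mem (inv_mem r.2) m) (by
      rw [mul_smul, mul_smul, mul_smul, show c • S1 = S1 from h1, hr, inv_smul_eq_iff.2 (show S2 = c • S2 from h2.symm),
        ← hr, inv_smul_smul])
    have c1 : c ∈ centralizer {(r : G)} := mem_centralizer_singleton_iff.2 (by
      rw [inv_mul_eq_one] at this
      calc c * r = c * (c⁻¹ * r * c) := by rw [← this]
        _ = r * c := by group)
    rw [cR S0 r r.2 (by rintro e; rw [e, one_smul] at hr; exact n12 hr)] at c1
    exact hc (hR S0 ▸ Subgroup.orderOf_dvd_natCard _ c1)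
  rcases fin.2 with k5 | e2
  · obtain ⟨c, hc, c5⟩ := sub 5 (by norm_num) k5
    have f1 := ncard_fix_modEq (p := 3) (n := 1) (y := y) y3' {Q : Sylow 11 G | c • Q = Q} fun Q hQ => by
      rw [Set.mem_setOf_eq, ← mul_smul, mem_centralizer_singleton_iff.1 hc, mul_smul, hQ]
    have f2 := ncard_fix_modEq (p := 5) (n := 1) (y := c) (c5 ▸ by simpa using pow_orderOf_eq_one c)
      (Set.univ : Set (Sylow 11 G)) (by simp)
    rw [Set.eq_empty_of_forall_notMem (s := {x ∈ {Q : Sylow 11 G | c • Q = Q} | y • x = x})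
      fun Q hQ => nR Q y hQ.2 y3] at f1
    simp only [Set.mem_univ, true_and, Set.ncard_univ, ← hn, fin.1] at f2
    have := zs c (by rw [c5]; norm_num)
    rw [Set.ncard_empty] at f1
    unfold Nat.ModEq at f1 f2; omega
  · obtain ⟨t, ht⟩ := exists_prime_orderOf_dvd_card' (G := normalizer (R : Set G)) 2 (by rw [← b3, e2]; norm_num)
    rw [← Subgroup.orderOf_coe] at ht
    have f1 := four_dvd_of_invol (Ω := Sylow 11 G) h2 (t := t) (ht ▸ pow_orderOf_eq_one _)
    have f2 := zs t (by rw [ht]; norm_num)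
    have f3 : 0 < {S : Sylow 11 G | (t : G) • S = S}.ncard :=
      (Set.ncard_pos (Set.toFinite _)).2 ⟨R, Sylow.smul_eq_iff_mem_normalizer.2 t.2⟩
    rw [← hn, fin.1] at f1
    omega

end

/-- No finite group has exactly 22 Sylow 3-subgroups. -/
theorem result {G : Type*} [Group G] [Finite G] : Nat.card (Sylow 3 G) ≠ 22 := by
  intro h
  induction' hn : Nat.card G using Nat.strong_induction_on with n ih generalizing G
  subst hn
  by_cases h2 : ∀ N : Subgroup G, N.Normal → N.index ≠ 2
  swap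
  · push Not at h2
    obtain ⟨N, _, hN⟩ := h2
    refine ih _ ?_ ((card_sylow_sub N (by rw [hN]; norm_num)).trans h) rfl
    have := N.card_mul_index
    have h0 : 0 < Nat.card N := Nat.card_pos
    rw [hN] at this; omega
  by_cases hK : (toPermHom G (Sylow 3 G)).ker = ⊥
  · haveI : FaithfulSMul G (Sylow 3 G) := ⟨fun h => (MonoidHom.ker_eq_bot_iff _).1 hK (Equiv.ext h)⟩
    obtain ⟨P⟩ : Nonempty (Sylow 3 G) := inferInstance
    obtain ⟨D, h1, h3⟩ := step1 h P
    have : D = ⊥ := le_bot_iff.1 (hK ▸ fun g hg => Equiv.ext fun Q => syl_smul_of_mem (h3 Q hg))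
    exact step2 h h2 P (by rw [← h1, this]; simp)
  · refine ih _ ?_ ((card_sylow_quot (toPermHom G (Sylow 3 G)).ker fun P k hk => Equiv.congr_fun (MonoidHom.mem_ker.1 hk) P).trans h) rfl
    have := (toPermHom G (Sylow 3 G)).ker.card_mul_index
    have h1 := (one_lt_card_iff_ne_bot _).2 hK
    have h0 : 0 < (toPermHom G (Sylow 3 G)).ker.index := Nat.pos_of_ne_zero index_ne_zero_of_finite
    rw [← index]; nlinarith

end Cfsg.Agent.S4346
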