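import Cfsg.Statements.S4351
import Cfsg.Agent.H5.Mart3
import Cfsg.Agent.H13.Hig3
import Cfsg.Agent.H19.SuzV

set_option autoImplicit false
open Cfsg

namespace Cfsg.Agent.S4351
open H5
open H18 H13

/-- Let G be a finite non-solvable group in which the centralizer of every non-identity element is nilpotent. Then G is a non-abelian simple group; or G has a normal subgroup of index 2 isomorphic to PSL(2, 9); or G has a nontrivial normal elementary abelian 2-subgroup N such that G/N is isomorphic to PSL(2, q) for some q = 2ⁿ ≥ 4 or is a simple group of Suzuki type (simple, of the order of a Suzuki group). -/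
theorem result {G : Type*} [Group G] [Finite G] (hG : ¬ Group.IsSolvable G)
    (hCN : ∀ x : G, x ≠ 1 → Group.IsNilpotent (Subgroup.centralizer ({x} : Set G))) :
    (IsSimpleGroup G ∧ ¬ IsMulCommutative G) ∨
    (∃ (N : Subgroup G), N.Normal ∧ N.index = 2 ∧ ∃ (F : Type) (_ : Field F) (_ : Fintype F), Fintype.card F = 9 ∧
        Nonempty (N ≃* Matrix.ProjectiveSpecialLinearGroup (Fin 2) F)) ∨
    (∃ (N : Subgroup G) (_ : N.Normal), N ≠ ⊥ ∧ IsPGroup 2 N ∧ IsMulCommutative N ∧ (∀ x ∈ N, x * x = 1) ∧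
        ((∃ (F : Type) (_ : Field F) (_ : Fintype F), CharP F 2 ∧ 4 ≤ Fintype.card F ∧
            Nonempty (G ⧸ N ≃* Matrix.ProjectiveSpecialLinearGroup (Fin 2) F)) ∨ Cfsg.IsSuzuki (G ⧸ N))) := by
  have hs : ¬ Solv (⊤ : Subgroup G) := fun h => hG (Group.isSolvable_of_surjective
    (f := (Subgroup.topEquiv : (⊤ : Subgroup G) ≃* G).toMonoidHom) Subgroup.topEquiv.surjective)
  have hcit : CIT G := cit_of_cn hs hCN
  have hnc : ¬ IsMulCommutative G := fun h => hG (Group.isSolvable_of_comm h.is_comm.comm)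
  have hN : (O[{2}]((⊤ : Subgroup G))).Normal := (pcore_nml (π := {2}) (H := (⊤ : Subgroup G))).normal
  obtain ⟨Q, hQ⟩ : ∃ Q : Subgroup G, Q = O[{2}]((⊤ : Subgroup G)) := ⟨_, rfl⟩
  rw [← hQ] at hN
  have hQ2 : PiGrp {2} Q := hQ ▸ pcore_pi
  rcases hcit.classify' hs Q hQ with h | ⟨-, h | h | h⟩
  · by_cases h0 : Q = ⊥
    · subst h0
      exact Or.inl ⟨(h.of_equiv QuotientGroup.quotientBot.symm).simple, hnc⟩
    refine Or.inr (Or.inr ⟨Q, hN, h0, hQ2.isPGroup, ?_⟩)
    obtain ⟨F, _, _, ⟨n, hn, hF⟩, ⟨e⟩⟩ | h := h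
    · have h2 := two_eq_zero_of_card hF
      obtain ⟨π, s, rfl⟩ := exists_sl_of_psl h2 e
      obtain ⟨k, θ, -, rg, -⟩ := hcit.higman hn hF s hQ2
      have h3 := rg ▸ elem_of_higman h2 θ
      refine ⟨h3.1, fun x hx => by rw [← pow_two]; exact h3.2 x hx, Or.inl ⟨F, inferInstance, inferInstance, ?_, ?_, ⟨e⟩⟩⟩
      · exact (CharP.charP_iff_prime_eq_zero Nat.prime_two).mpr h2
      · exact hF ▸ four_le hn
    · obtain ⟨F, _, _, m, hm, hF, ⟨e⟩⟩ := id h
      have : Sz.IsSz F m := ⟨hm, hF⟩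
      let π : G →* Cfsg.Sz F m :=
        (e.trans (Sz.lieEquiv F m).symm).toMonoidHom.comp (QuotientGroup.mk' Q)
      have hk : π.ker = Q := by
        ext x
        simp [π, MonoidHom.mem_ker]
      have hπ : Function.Surjective π :=
        (e.trans (Sz.lieEquiv F m).symm).surjective.comp (QuotientGroup.mk'_surjective Q)
      have h3 := H5.Mart.martineau π hπ (hk ▸ hQ2.isPGroup) fun g hg g1 a ha hc =>
        hcit.eq_one' hg (hQ2.elt (hk ▸ ha)) g1 hc
      rw [hk] at h3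
      exact ⟨h3.1, h3.2, Or.inr (H19.isSuzuki_of_iso h)⟩
  · exact Or.inl ⟨h.simple, hnc⟩
  · obtain ⟨N, hN, -, h⟩ := h
    exact Or.inr (Or.inl ⟨N, Subgroup.normal_of_index_eq_two hN, hN, h⟩)
  · exact Or.inl ⟨h.simple, hnc⟩

end Cfsg.Agent.S4351
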