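import Cfsg.Statements.S4354
import Cfsg.Agent.H21.Crit

set_option autoImplicit false
open Cfsg

namespace Cfsg.Agent.S4354

open H18 H21 Subgroup

theorem abel_of {X : Type*} [Group X] [Finite X] {p : ℕ} [Fact p.Prime] {P : Subgroup X} (hP : Hall {p} P ⊤)
    (h : ¬ ∃ P : Sylow p X, ¬ IsMulCommutative P) : Abel P := by
  obtain ⟨S, rfl⟩ := hP.exists_sylow_top Fact.out
  exact abel_of_comm (by_contra fun c => h ⟨S, c⟩)

/-- Let G be a finite group and p a prime such that the Sylow p-subgroups of G are non-abelian while every element of p-power order has conjugacy class size prime to p, and suppose no nontrivial proper normal subgroup N of G has this property and no quotient G/N by such an N has it. Then G is simple. -/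
theorem result {G : Type*} [Group G] [Finite G]
    (p : ℕ) [Fact p.Prime] (h : ((∃ P : Sylow p G, ¬ IsMulCommutative P) ∧ ∀ x : G, (∃ k : ℕ, orderOf x = p ^ k) → ¬ p ∣ (Subgroup.centralizer ({x} : Set G)).index))
    (hmin : ∀ (N : Subgroup G) [N.Normal], N ≠ ⊥ → N ≠ ⊤ →
      ¬ ((∃ P : Sylow p N, ¬ IsMulCommutative P) ∧ ∀ x : N, (∃ k : ℕ, orderOf x = p ^ k) → ¬ p ∣ (Subgroup.centralizer ({x} : Set N)).index) ∧
      ¬ ((∃ P : Sylow p (G ⧸ N), ¬ IsMulCommutative P) ∧ ∀ x : (G ⧸ N), (∃ k : ℕ, orderOf x = p ^ k) → ¬ p ∣ (Subgroup.centralizer ({x} : Set (G ⧸ N))).index)) :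
    IsSimpleGroup G := by
  have hp : p.Prime := Fact.out
  obtain ⟨⟨S, hS⟩, h⟩ := h
  simp only [pElt_iff hp] at h hmin
  have hP := hall_sylow_top hp S
  replace hS : ¬ Abel (S : Subgroup G) := fun c => hS c.comm
  generalize (S : Subgroup G) = P at hP hS
  have : Nontrivial G := (nontrivial_iff_exists_ne 1).2 <| by
    obtain ⟨x, -, h⟩ := exists_mem_ne_one' (ne_bot_of_not_abel hS); exact ⟨x, h⟩
  refine ⟨fun N hN => by_contra fun c => ?_⟩
  push Not at c
  obtain ⟨M, h1, ⟨h2, h3⟩, h4⟩ := exists_maximal_sub (fun M : Subgroup G => M.Normal ∧ M ≠ ⊤) ⟨hN, c.2⟩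
  obtain ⟨h5, h6⟩ := hmin M (fun e => c.1 (eq_bot_iff.2 (e ▸ h1))) h3
  have nM : M ⊴ ⊤ := nml_top
  have a1 : Abel (P ⊓ M) := by
    have := abel_of (P := (P ⊓ M).subgroupOf M) (by
      simpa [mim_id] using (hP.inf_nml nM).mim (f := MonoidHom.id M) le_rfl) fun c => h5 ⟨c, fun x hx d =>
        h x (by rwa [PiElt, orderOf_coe]) (d.trans (class_dvd_normal M x))⟩
    rwa [← mim_id, abel_mim_iff inf_le_right (by simp [mker_id])] at this
  have hP' : Hall {p} (mim (topq M) P) ⊤ := mim_topq_top M ▸ hP.mim le_rfl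
  have a2 : Abel (mim (topq M) P) := abel_of hP' fun c => h6 ⟨c, fun x hx d => by
    obtain ⟨y, hy, rfl⟩ := exists_piElt_mk M hx
    exact h y hy (d.trans (class_dvd_quot M y))⟩
  have cen : ∀ x ∈ P, ∃ g : G, g * x * g⁻¹ ∈ Z(P) := fun x hx => by
    obtain ⟨Q, hQ, xQ⟩ := exists_sylow_le hp (hP.pi.elt hx).zpowers (zpowers_le.2 (C1_self (x := x)))
    obtain ⟨g, -, rfl⟩ := sylow_conj hp (hQ.of_idx le_top (by simpa using (piNat_compl_iff hp).2 (h x (hP.pi.elt hx)))) hP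
    exact ⟨g, by rw [← cj_Z, conj_mem_cj_iff]; exact ⟨zpowers_le.1 xQ, le_C1_iff.1 hQ.le⟩⟩
  obtain ⟨x, hx, xM⟩ : ∃ x ∈ P, x ∉ M := by
    by_contra! c
    exact hS (a1.mono (le_inf le_rfl c))
  obtain ⟨g, hg⟩ := cen x hx
  -- `P ⊓ M` is central in `P`
  have f := frattini_arg hp nM (hP.inf_nml nM)
  rw [top_inf_eq] at f
  have nC : (M ⊔ C(P ⊓ M)).Normal := norm_top_iff.1 (f ▸ sup_le (le_norm le_sup_left)
    (norm_sup norm_of_normal N_le_N_C))
  have e : M ⊔ C(P ⊓ M) = ⊤ := by_contra fun c => xM (by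
    have := (h4 _ ⟨nC, c⟩ le_sup_left).le (mem_sup_right (C_anti inf_le_left hg.2))
    simpa [mul_assoc] using conj_mem' nM.2 (mem_top g) this)
  have PN : P ≤ N(P ⊓ M) := norm_inf le_N norm_of_normal
  have hC : Hall {p} (P ⊓ C(P ⊓ M)) C(P ⊓ M) := (hP.of_le PN le_top).inf_nml nml_C_N
  have a3 : P ≤ C(P ⊓ M) := by
    have h7 : mim (topq M) (P ⊓ C(P ⊓ M)) = mim (topq M) P := by
      refine Hall.eq_of_le' ?_ hP' (mim_mono inf_le_left)
      have := hC.mim (f := topq M) le_top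
      rwa [← mim_sup_mker (A := C(P ⊓ M)) le_top, mker_topq, sup_comm, e, mim_topq_top] at this
    have h8 := (mim_le_mim_iff le_top le_top).1 h7.ge
    rw [mker_topq] at h8
    have h9 := (Nrm2.modular (A := P ⊓ C(P ⊓ M)) (B := M) (H := P) (Or.inl norm_of_normal) inf_le_left)
    rw [inf_eq_right.2 h8] at h9
    exact h9.le.trans (sup_le inf_le_right (inf_comm M P ▸ a1))
  refine hS fun y hy => ?_
  obtain ⟨g, hg⟩ := cen y hy
  have m : ∀ {z}, z ∈ P → (z : G ⧸ M) ∈ mim (topq M) P := fun hz => mfun_topq M ▸ mfun_mem_mim hz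
  obtain ⟨n, hn, e⟩ := burnside_fusion hp hP' (a2.trans (C_le_C1 (m hy))) (mem_top (g : G ⧸ M))
    (a2.trans (C_le_C1 (m hg.1)))
  obtain ⟨n, rfl⟩ := QuotientGroup.mk_surjective n
  have h7 : n ∈ N(P ⊔ M) := by
    have := norm_mpre (f := topq M) (A := zpowers n) le_top (by rw [mim_zpowers (mem_top n), mfun_topq]; simpa using hn.2)
    rwa [mpre_mim le_top, mker_topq, zpowers_le] at this
  clear hn
  obtain ⟨k, hk, n, hn, rfl⟩ := frattini_elt hp (hP.of_le le_sup_left le_top) h7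
  have h8 : (k : G ⧸ M) ∈ mim (topq M) P := by
    rw [← mim_sup_mker le_top, mker_topq, ← mfun_topq]; exact mfun_mem_mim hk
  have h9 := conj_mem_N hn hy
  have h10 : ((n * y * n⁻¹ : G) : G ⧸ M) = (g * y * g⁻¹ : G) := by
    rw [← conj_eq_self_of_C1 (a2.trans (C_le_C1 (m h9)) h8)]
    simpa [mul_assoc] using e
  have h11 := cent_symm a3 (mem_inf.2 ⟨mul_mem (inv_mem h9) hg.1, QuotientGroup.eq.1 h10⟩)
  have h12 := conj_mem_N' (N_le_N_C hn) (inv_mem_iff.1 ((mul_mem_cancel_right (mem_inf.1 hg).2).1 h11))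
  simpa [mul_assoc] using h12

end Cfsg.Agent.S4354
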