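import Cfsg.Statements.S4359
import Cfsg.Agent.H18.GS

set_option autoImplicit false
open Pointwise
open Cfsg

namespace Cfsg.Agent.S4359

/-- Let P be a subgroup of a finite group G and g an element such that P ∩ g⁻¹Pg is a normal subgroup of prime index p in g⁻¹Pg. Let n ≥ 1 and let K be the subgroup generated by P and its conjugates g⁻ⁱPgⁱ for i ≤ n. Suppose that g normalizes no non-identity normal subgroup of P and that P meets the center of K trivially. Then the order of P is pᵗ for some t with 1 ≤ t ≤ 3n and t ≠ 3n - 1. -/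
theorem result {G : Type*} [Group G] [Finite G]
    (P : Subgroup G) (g : G) (p : ℕ) (hp : p.Prime)
    (hN : ((P ⊓ MulAut.conj g⁻¹ • P).subgroupOf (MulAut.conj g⁻¹ • P)).Normal)
    (hidx : (P ⊓ MulAut.conj g⁻¹ • P).relIndex (MulAut.conj g⁻¹ • P) = p)
    (n : ℕ) (hn : 1 ≤ n) (K : Subgroup G) (hK : K = ⨆ i ∈ Finset.range (n + 1), MulAut.conj (g ^ i)⁻¹ • P)
    (h1 : ∀ Q : Subgroup G, Q ≤ P → (Q.subgroupOf P).Normal → MulAut.conj g • Q = Q → Q = ⊥)
    (h2 : P ⊓ (Subgroup.center K).map K.subtype = ⊥) :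
    ∃ t : ℕ, Nat.card P = p ^ t ∧ 1 ≤ t ∧ t ≤ 3 * n ∧ t ≠ 3 * n - 1 := by
  refine H118.GS.main (g := g) hp ((Subgroup.normal_subgroupOf_iff_le_normalizer inf_le_right).1 hN)
    ((Subgroup.inf_relIndex_right _ _).symm.trans hidx) hn
    (fun Q a b c => h1 Q a ((Subgroup.normal_subgroupOf_iff_le_normalizer a).2 b) (H26.cj_eq_iff.2 c)) fun w hw k => ?_
  have e : ∀ i ∈ Finset.range (n + 1), MulAut.conj (g ^ i)⁻¹ • P = H118.GS.PP P g i := fun i _ => by
    rw [H118.GS.PP, zpow_natCast]; rfl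
  have wK : w ∈ K := hK ▸ (le_iSup₂_of_le 0 (by simp) (by simp) : P ≤ _) hw
  have c : K ≤ Subgroup.centralizer {w} := hK ▸ iSup₂_le fun i hi y hy => Subgroup.mem_centralizer_singleton_iff.2
    (k i (Nat.lt_succ_iff.1 (Finset.mem_range.1 hi)) y (e i hi ▸ hy))
  exact Subgroup.mem_bot.1 (h2 ▸ ⟨hw, ⟨w, wK⟩, Subgroup.mem_center_iff.2 fun y =>
    Subtype.ext (Subgroup.mem_centralizer_singleton_iff.1 (c y.2)), rfl⟩)

end Cfsg.Agent.S4359
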