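import Cfsg.Statements.S4370
import Cfsg.Agent.H3.LM2
import Cfsg.Agent.H17.Std
import Cfsg.Agent.H3.BG4a

set_option autoImplicit false
open Cfsg

namespace Cfsg.Agent.S4370

open H18 Subgroup

/-- Let G be a finite non-abelian nilpotent group. Then the centralizer of every non-central element of G is cyclic if and only if G is isomorphic to the direct product of a generalized quaternion group and a cyclic group of odd order. -/
theorem result {G : Type*} [Group G] [Finite G] (hG : Group.IsNilpotent G)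
    (hna : ¬ IsMulCommutative G) :
    (∀ x : G, x ∉ Subgroup.center G → IsCyclic (Subgroup.centralizer ({x} : Set G))) ↔
      ∃ (k m : ℕ), 1 ≤ k ∧ Odd m ∧ Nonempty (G ≃* QuaternionGroup (2 ^ k) × Multiplicative (ZMod m)) := by
  refine ⟨fun h => ?_, ?_⟩
  · have r : ∀ p (K : Subgroup G), p.Prime → prank p K ≤ 1 := fun p K hp => not_lt.1 fun hl => by
      obtain ⟨A, hA⟩ := exists_pelem_of_lt hp hl
      refine hA.not_cyc hp le_rfl ?_
      by_cases hc : A ≤ center G
      · obtain ⟨x, hx⟩ : ∃ x, x ∉ center G := by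
          by_contra! hx
          exact hna ⟨⟨fun a b => mem_center_iff.1 (hx b) a⟩⟩
        exact Cyc.of_le (h x hx) (hc.trans (center_le_centralizer _))
      · obtain ⟨a, ha, ha'⟩ := SetLike.not_le_iff_exists.1 hc
        exact Cyc.of_le (h a ha') (hA.abel.trans (C_le_C1 ha))
    have hn : Nil (⊤ : Subgroup G) := nil_top_iff.2 hG
    have d := hn.dp_pcore (π := {2})
    have o : Odd (Nat.card O[{2}ᶜ]((⊤ : Subgroup G))) :=
      Nat.coprime_two_right.1 ((piNat_compl_iff_coprime Nat.prime_two).1 pcore_pi)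
    have c : Cyc O[{2}ᶜ]((⊤ : Subgroup G)) := (hn.of_le le_top).cyc_of_sylow fun p hp _ =>
      H3.odd_pgroup_rank1_cyclic hp pcore_pi (o.of_dvd_nat (card_dvd pcore_le)) (r _ _ hp)
    obtain c' | ⟨n, ⟨e⟩⟩ := H17.cyc_or_quat (pcore_pi (H := (⊤ : Subgroup G))) (r _ _ Nat.prime_two)
    · exact absurd ⟨⟨fun a b => comm_of_cent (d.abel c'.abel c.abel) (mem_top a) (mem_top b)⟩⟩ hna
    obtain ⟨e'⟩ := H3.dp_equiv d
    exact ⟨n + 1, _, by omega, o, ⟨(topEquiv.symm.trans e').trans (e.prodCongr (zmodCyclicMulEquiv c).symm)⟩⟩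
  · rintro ⟨k, m, hk, hm, ⟨e⟩⟩ x hx
    have q := H9.qData_quaternionGroup (2 ^ k)
    obtain ⟨y, hy⟩ : ∃ y : QuaternionGroup (2 ^ k), ∀ q, Commute q (e x).1 → q ∈ zpowers y := by
      by_cases h : (e x).1 ∈ zpowers (QuaternionGroup.a 1)
      · refine ⟨_, fun g hg => q.mem_zpowers_of_commute (mem_top g) h (fun h2 => hx (mem_center_iff.2 fun g => ?_)) hg⟩
        refine e.injective (by
          rw [map_mul, map_mul]
          refine Prod.ext ?_ (mul_comm _ _)
          rcases q.eq_one_or_eq_u (mem_top _) h2 with h | h <;> simp only [Prod.fst_mul, h]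
          exacts [by simp, q.commute_u (mem_top _)])
      · exact ⟨_, fun g hg => q.mem_zpowers_of_commute' (mem_top _) h (mem_top g) hg⟩
    have : IsCyclic (zpowers y × Multiplicative (ZMod m)) := Group.isCyclic_prod_iff.2 ⟨inferInstance, inferInstance, by
      refine Nat.Coprime.coprime_dvd_left (card_subgroup_dvd_card _) ?_
      rw [Nat.card_eq_fintype_card, QuaternionGroup.card, Nat.card_congr Multiplicative.toAdd, Nat.card_zmod]
      exact (((Nat.coprime_two_left.2 hm).pow_left 2).mul_left ((Nat.coprime_two_left.2 hm).pow_left k))⟩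
    let f := e.toMonoidHom.comp (centralizer ({x} : Set G)).subtype
    refine isCyclic_of_injective ((((MonoidHom.fst ..).comp f).codRestrict (zpowers y) fun g => hy _ ?_).prod
      ((MonoidHom.snd ..).comp f)) fun a b h => Subtype.ext (e.injective (Prod.ext ?_ ?_))
    · exact show (e g).1 * _ = _ * (e g).1 by simpa using congrArg (fun g => (e g).1) (mem_C1.1 g.2)
    exacts [congrArg (·.1.1) h, congrArg (·.2) h]

end Cfsg.Agent.S4370
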