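import Cfsg.Statements.S4375
import Cfsg.Agent.H21.Rb5

set_option autoImplicit false
open Cfsg

namespace Cfsg.Agent.S4375

/-- Let the finite group A of odd order act faithfully on the finite additive group V by group automorphisms, completely reducibly (every A-invariant subgroup has an A-invariant complement). Then there are v, w ∈ V such that only the identity of A fixes both. -/
theorem result {A V : Type*} [Group A] [Finite A]
    [AddCommGroup V] [Finite V] [DistribMulAction A V] [FaithfulSMul A V] (hA : Odd (Nat.card A))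
    (hcr : (∀ U : AddSubgroup V, (∀ a : A, ∀ v ∈ U, a • v ∈ U) → ∃ W : AddSubgroup V, (∀ a : A, ∀ w ∈ W, a • w ∈ W) ∧ U ⊓ W = ⊥ ∧ U ⊔ W = ⊤)) :
    ∃ v w : V, ∀ a : A, a • v = v → a • w = w → a = 1 := by
  let φ : A →* MulAut (Multiplicative V) :=
    { toFun := fun a => AddEquiv.toMultiplicative (DistribMulAction.toAddEquiv V a)
      map_one' := MulEquiv.ext fun x => one_smul A x.toAdd
      map_mul' := fun a b => MulEquiv.ext fun x => mul_smul a b x.toAdd }
  obtain ⟨v, w, h⟩ := H21.Rb.mod φ mul_comm hA fun U hU => by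
    obtain ⟨W, h1, h2, h3⟩ := hcr (Subgroup.toAddSubgroup' U) fun a v hv => hU a _ hv
    refine ⟨AddSubgroup.toSubgroup W, fun a x hx => h1 a _ hx, ?_, ?_⟩
    · refine eq_bot_iff.2 fun x hx => ?_
      have : x.toAdd ∈ Subgroup.toAddSubgroup' U ⊓ W := hx
      rw [h2] at this
      exact this
    · refine eq_top_iff.2 fun x _ => ?_
      have : x.toAdd ∈ Subgroup.toAddSubgroup' U ⊔ W := h3 ▸ trivial
      obtain ⟨y, hy, z, hz, e⟩ := AddSubgroup.mem_sup.1 this
      exact Subgroup.mem_sup.2 ⟨Multiplicative.ofAdd y, hy, Multiplicative.ofAdd z, hz, e⟩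
  exact ⟨v.toAdd, w.toAdd, fun a h1 h2 => eq_of_smul_eq_smul (α := V) fun x =>
    (h a h1 h2 (Multiplicative.ofAdd x)).trans (one_smul A x).symm⟩

end Cfsg.Agent.S4375
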