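import Cfsg.Statements.S4376
import Mathlib

set_option autoImplicit false
open Cfsg

namespace Cfsg.Agent.S4376

open Finset

/-- number of solutions of `x ^ n = 1` -/
noncomputable def Ex (G : Type) [Group G] (n : ℕ) : ℕ := Nat.card {x : G // x ^ n = 1}

/-- a group of exponent dividing 84 with the given numbers of solutions -/
def Real (P : Prop) (f : ℕ → ℕ) : Prop :=
  ∃ (G : Type) (_ : Group G) (_ : Finite G), (Group.IsSolvable G ↔ P) ∧ (∀ x : G, x ^ 84 = 1) ∧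
    ∀ n, n ∣ 84 → Ex G n = f n

theorem Real.mul {P Q : Prop} {f g : ℕ → ℕ} (h1 : Real P f) (h2 : Real Q g) :
    Real (P ∧ Q) (fun n => f n * g n) := by
  obtain ⟨G, _, _, a1, a2, a3⟩ := h1
  obtain ⟨H, _, _, b1, b2, b3⟩ := h2
  refine ⟨G × H, inferInstance, inferInstance, ?_, fun x => Prod.ext (a2 _) (b2 _), fun n hn => ?_⟩
  · rw [← a1, ← b1]
    exact ⟨fun _ => ⟨Group.isSolvable_of_surjective (f := MonoidHom.fst G H) Prod.fst_surjective,
      Group.isSolvable_of_surjective (f := MonoidHom.snd G H) Prod.snd_surjective⟩,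
      fun ⟨_, _⟩ => inferInstance⟩
  · simp only [← a3 n hn, ← b3 n hn, Ex]
    rw [← Nat.card_prod]
    exact Nat.card_congr ((Equiv.subtypeEquivRight fun x => Prod.ext_iff).trans
      (Equiv.subtypeProdEquivProd (p := fun x : G => x ^ n = 1) (q := fun x : H => x ^ n = 1)))

theorem Real.congr {P Q : Prop} {f g : ℕ → ℕ} (h : Real P f) (e : P ↔ Q) (e' : ∀ n, f n = g n) :
    Real Q g := by
  rwa [← propext e, ← funext e']

theorem Real.one : Real True (fun _ => 1) :=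
  ⟨PUnit, inferInstance, inferInstance, iff_true_intro inferInstance, fun _ => rfl, fun n _ => by
    simp [Ex]⟩

theorem Real.pow {P : Prop} {f : ℕ → ℕ} (h : Real P f) (m : ℕ) :
    Real (m = 0 ∨ P) (fun n => f n ^ m) := by
  induction m with
  | zero => exact Real.one.congr (by simp) (by simp)
  | succ m ih => exact (ih.mul h).congr (by tauto) fun n => (pow_succ _ _).symm

/-- the semidirect product of the additive group of a ring and a group of units -/
@[ext] structure SD {C R : Type} [CommGroup C] [CommRing R] (χ : C →* R) where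
  /-- translation part -/
  a : R
  /-- linear part -/
  i : C

section
variable {C R : Type} [CommGroup C] [CommRing R] {χ : C →* R}

instance instMulSD : Mul (SD χ) := ⟨fun x y => ⟨x.a + χ x.i * y.a, x.i * y.i⟩⟩
instance instOneSD : One (SD χ) := ⟨⟨0, 1⟩⟩
instance instInvSD : Inv (SD χ) := ⟨fun x => ⟨-(χ x.i⁻¹ * x.a), x.i⁻¹⟩⟩
@[simp] theorem mul_a (x y : SD χ) : (x * y).a = x.a + χ x.i * y.a := rfl
@[simp] theorem mul_i (x y : SD χ) : (x * y).i = x.i * y.i := rfl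
@[simp] theorem one_a : (1 : SD χ).a = 0 := rfl
@[simp] theorem one_i : (1 : SD χ).i = 1 := rfl
@[simp] theorem inv_a (x : SD χ) : x⁻¹.a = -(χ x.i⁻¹ * x.a) := rfl
@[simp] theorem inv_i (x : SD χ) : x⁻¹.i = x.i⁻¹ := rfl
instance instGroupSD : Group (SD χ) := Group.ofLeftAxioms
  (fun x y z => by ext <;> simp [mul_add, mul_assoc, add_assoc])
  (fun x => by ext <;> simp) (fun x => by ext <;> simp)

theorem pow_eq (x : SD χ) (n : ℕ) : x ^ n = ⟨(∑ t ∈ range n, χ x.i ^ t) * x.a, x.i ^ n⟩ := by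
  induction n with
  | zero => ext <;> simp
  | succ n ih => rw [pow_succ, ih]; ext <;> simp [sum_range_succ, add_mul, pow_succ]

theorem sd_solv : Group.IsSolvable (SD χ) := by
  let f : Multiplicative R →* SD χ := MonoidHom.mk' (fun a => ⟨a.toAdd, 1⟩) fun a b => by
    ext <;> simp
  let g : SD χ →* C := MonoidHom.mk' (fun x => x.i) fun a b => rfl
  refine Group.isSolvable_of_ker_le_range f g fun x hx => ⟨Multiplicative.ofAdd x.a, ?_⟩
  ext
  · rfl
  · exact (show x.i = 1 from hx).symm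

theorem sd_fin [Finite C] [Finite R] : Finite (SD χ) :=
  Finite.of_injective (fun x : SD χ => (x.a, x.i)) fun _ _ h =>
    SD.ext (congrArg Prod.fst h) (congrArg Prod.snd h)

theorem sd_ex [Fintype C] [DecidableEq C] [Finite R] (n : ℕ) : Ex (SD χ) n =
    ∑ i : C, if i ^ n = 1 then Nat.card {a : R // (∑ t ∈ range n, χ i ^ t) * a = 0} else 0 := by
  let e : {x : SD χ // x ^ n = 1} ≃
      Σ i : C, {a : R // i ^ n = 1 ∧ (∑ t ∈ range n, χ i ^ t) * a = 0} :=
    { toFun x := ⟨x.1.i, x.1.a, by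
        have := x.2
        rw [pow_eq] at this
        exact ⟨congrArg SD.i this, congrArg SD.a this⟩⟩
      invFun y := ⟨⟨y.2.1, y.1⟩, by rw [pow_eq]; exact SD.ext y.2.2.2 y.2.2.1⟩
      left_inv _ := rfl
      right_inv _ := rfl }
  rw [Ex, Nat.card_congr e, Nat.card_sigma]
  refine sum_congr rfl fun i _ => ?_
  split_ifs with h <;> simp [h]
end

/-- kernel sizes -/
def cB (b : ℕ × ℕ × ℕ) (i n : ℕ) : ℕ := if b.2.2 ∣ i then Nat.gcd n b.1 ^ b.2.1 else b.1 ^ b.2.1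
/-- kernel sizes of a product -/
def cL (l : List (ℕ × ℕ × ℕ)) (i n : ℕ) : ℕ := (l.map fun b => cB b i n).prod
/-- admissible blocks -/
def okB (k : ℕ) (b : ℕ × ℕ × ℕ) : Prop := b.2.2 ∣ k ∧ b.1 ∣ 84 ∧
  ((b.1.Prime ∧ b.2.1 ≠ 0 ∧ b.2.2 ∣ b.1 ^ b.2.1 - 1) ∨ b = (4, 1, 2))
instance (k : ℕ) (b : ℕ × ℕ × ℕ) : Decidable (okB k b) := by unfold okB; infer_instance

/-- a ring with a root of unity and the given kernel sizes -/
def RD (k : ℕ) (c : ℕ → ℕ → ℕ) : Prop :=
  ∃ (R : Type) (_ : CommRing R) (_ : Finite R) (u : R), u ^ k = 1 ∧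
    (∀ i, ∑ t ∈ range 84, (u ^ i) ^ t = 0) ∧
    ∀ i n, k ∣ i * n → Nat.card {a : R // (∑ t ∈ range n, (u ^ i) ^ t) * a = 0} = c i n

theorem rd_blk {k : ℕ} (hk : k ∣ 84) {b : ℕ × ℕ × ℕ} (h : okB k b) : RD k (cB b) := by
  obtain ⟨m, d, o⟩ := b
  obtain ⟨h1, h2, ⟨h3, h4, h5⟩ | h3⟩ := h
  · simp only at h1 h2 h3 h4 h5
    have : Fact m.Prime := ⟨h3⟩
    have hc : Nat.card (GaloisField m d) = m ^ d := GaloisField.card m d h4
    obtain ⟨g, hg⟩ := IsCyclic.exists_ofOrder_eq_natCard (α := (GaloisField m d)ˣ)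
    rw [Nat.card_units, hc] at hg
    obtain ⟨u, hu⟩ : ∃ u : (GaloisField m d)ˣ, orderOf u = o :=
      ⟨_, orderOf_pow_orderOf_div (orderOf_pos g).ne' (hg ▸ h5)⟩
    have hu' : ∀ i, (u : GaloisField m d) ^ i = 1 ↔ o ∣ i := fun i => by
      rw [← Units.val_pow_eq_pow_val, Units.val_eq_one, ← hu, orderOf_dvd_iff_pow_eq_one]
    have key : ∀ i n, k ∣ i * n → ¬ o ∣ i → ∑ t ∈ range n, ((u : GaloisField m d) ^ i) ^ t = 0 := by
      intro i n hn hi
      have := geom_sum_mul ((u : GaloisField m d) ^ i) n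
      rw [← pow_mul, (hu' _).2 (h1.trans hn), sub_self] at this
      exact (mul_eq_zero.1 this).resolve_right fun e => hi ((hu' i).1 (sub_eq_zero.1 e))
    refine ⟨GaloisField m d, inferInstance, inferInstance, u, (hu' k).2 h1, fun i => ?_,
      fun i n hn => ?_⟩
    · by_cases hi : o ∣ i
      · rw [(hu' i).2 hi]
        simpa using (CharP.cast_eq_zero_iff (GaloisField m d) m 84).2 h2
      · exact key i 84 (hk.mul_left i) hi
    · simp only [cB]
      split_ifs with hi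
      · rw [(hu' i).2 hi]
        simp only [one_pow, sum_const, card_range, nsmul_eq_mul, mul_one]
        by_cases hn : m ∣ n
        · rw [(CharP.cast_eq_zero_iff (GaloisField m d) m n).2 hn, Nat.gcd_eq_right hn]
          simp [hc]
        · have h0 : (n : GaloisField m d) ≠ 0 := fun e =>
            hn ((CharP.cast_eq_zero_iff (GaloisField m d) m n).1 e)
          rw [((Nat.Prime.coprime_iff_not_dvd h3).2 hn).symm]
          simp [h0]
      · rw [key i n hn hi]; simp [hc]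
  · simp only [Prod.mk.injEq] at h3
    obtain ⟨rfl, rfl, rfl⟩ := h3
    simp only at h1
    have key : ∀ i n, 2 ∣ i * n → ¬ 2 ∣ i → ∑ t ∈ range n, ((-1 : ZMod 4) ^ i) ^ t = 0 := by
      intro i n hn hi
      have h6 : Even n := even_iff_two_dvd.2 ((Nat.prime_two.dvd_mul.1 hn).resolve_left hi)
      rw [(Nat.odd_iff.2 (by omega) : Odd i).neg_one_pow, neg_one_geom_sum, if_pos h6]
    refine ⟨ZMod 4, inferInstance, inferInstance, -1, (even_iff_two_dvd.2 h1).neg_one_pow,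
      fun i => ?_, fun i n hn => ?_⟩
    · by_cases hi : 2 ∣ i
      · rw [(even_iff_two_dvd.2 hi).neg_one_pow]; simp; decide
      · exact key i 84 (Dvd.dvd.mul_left (by norm_num) i) hi
    · simp only [cB]
      split_ifs with hi
      · rw [(even_iff_two_dvd.2 hi).neg_one_pow]
        simp only [one_pow, sum_const, card_range, nsmul_eq_mul, mul_one, pow_one]
        rw [Nat.gcd_comm, Nat.gcd_rec, ← ZMod.natCast_mod n 4, Nat.card_eq_fintype_card]
        have : n % 4 < 4 := Nat.mod_lt _ (by norm_num)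
        generalize n % 4 = r at *
        interval_cases r <;> decide
      · rw [key i n (h1.trans hn) hi]; simp

theorem rd_list {k : ℕ} (hk : k ∣ 84) (l : List (ℕ × ℕ × ℕ)) (h : ∀ b ∈ l, okB k b) :
    RD k (cL l) := by
  induction l with
  | nil => exact ⟨PUnit, inferInstance, inferInstance, 1, rfl, fun _ => rfl, fun i n _ => by simp [cL]⟩
  | cons b l ih =>
    obtain ⟨R, _, _, u, a1, a2, a3⟩ := rd_blk hk (h b (by simp))
    obtain ⟨S, _, _, v, b1, b2, b3⟩ := ih fun c hc => h c (by simp [hc])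
    refine ⟨R × S, inferInstance, inferInstance, (u, v), Prod.ext a1 b1, fun i => ?_, fun i n hn => ?_⟩
    · ext
      · simpa [Prod.fst_sum] using a2 i
      · simpa [Prod.snd_sum] using b2 i
    · rw [cL, List.map_cons, List.prod_cons, ← cL, ← a3 i n hn, ← b3 i n hn, ← Nat.card_prod]
      refine Nat.card_congr ((Equiv.subtypeEquivRight fun x => ?_).trans
        (Equiv.subtypeProdEquivProd))
      simp [Prod.ext_iff, Prod.fst_sum, Prod.snd_sum]

/-- the numbers of solutions in the semidirect product -/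
def eG (c : ℕ → ℕ → ℕ) (k n : ℕ) : ℕ := ∑ i ∈ range k, if k ∣ i * n then c i n else 0

theorem real_rd {k : ℕ} (hk : k ∣ 84) {c : ℕ → ℕ → ℕ} (h : RD k c) : Real True (eG c k) := by
  obtain ⟨R, _, _, u, a1, a2, a3⟩ := h
  obtain ⟨k, rfl⟩ : ∃ j, k = j + 1 := ⟨k - 1, by have := Nat.pos_of_dvd_of_pos hk (by norm_num); omega⟩
  let χ : Multiplicative (ZMod (k + 1)) →* R :=
    { toFun i := u ^ i.toAdd.val
      map_one' := by simp
      map_mul' a b := by rw [toAdd_mul, ZMod.val_add, ← pow_eq_pow_mod _ a1, pow_add] }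
  have hp : ∀ (i : Multiplicative (ZMod (k + 1))) n, i ^ n = 1 ↔ k + 1 ∣ i.toAdd.val * n := by
    intro i n
    rw [← ZMod.natCast_eq_zero_iff, ← toAdd_eq_zero, toAdd_pow, nsmul_eq_mul, mul_comm]
    simp
  refine ⟨SD χ, inferInstance, sd_fin, iff_true_intro sd_solv, fun x => ?_, fun n _ => ?_⟩
  · rw [pow_eq]
    ext
    · exact (congrArg (· * x.a) (a2 _)).trans (zero_mul _)
    · exact congrArg Multiplicative.toAdd ((hp x.i 84).2 (hk.mul_left _))
  · rw [sd_ex, eG, ← Fin.sum_univ_eq_sum_range (fun i => if k + 1 ∣ i * n then c i n else 0)]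
    refine Fintype.sum_equiv (Multiplicative.toAdd : _ ≃ ZMod (k + 1)) _ _ fun i => ?_
    simp only [hp]
    change _ = if k + 1 ∣ i.toAdd.val * n then c i.toAdd.val n else 0
    split_ifs with h
    · exact a3 _ _ h
    · rfl

/-- the numbers of solutions in a product -/
def eD (D : List (List (ℕ × ℕ × ℕ) × ℕ × ℕ)) (n : ℕ) : ℕ :=
  (D.map fun d => eG (cL d.1) d.2.1 n ^ d.2.2).prod

theorem real_D (D : List (List (ℕ × ℕ × ℕ) × ℕ × ℕ))
    (h : ∀ d ∈ D, d.2.1 ∣ 84 ∧ ∀ b ∈ d.1, okB d.2.1 b) : Real True (eD D) := by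
  induction D with
  | nil => exact Real.one
  | cons d D ih =>
    have h1 := h d (by simp)
    exact (((real_rd h1.1 (rd_list h1.1 _ h1.2)).pow d.2.2).mul
      (ih fun c hc => h c (by simp [hc]))).congr (by simp) fun n => by simp [eD]

/-- three by three matrices over the field with two elements -/
@[ext] structure M3 where
  (a b c d e f g h i : Bool)
  deriving DecidableEq

instance instFintypeM3 : Fintype M3 := Fintype.ofEquiv
  ((Bool × Bool × Bool) × (Bool × Bool × Bool) × (Bool × Bool × Bool))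
  { toFun x := ⟨x.1.1, x.1.2.1, x.1.2.2, x.2.1.1, x.2.1.2.1, x.2.1.2.2, x.2.2.1, x.2.2.2.1, x.2.2.2.2⟩
    invFun x := ((x.a, x.b, x.c), (x.d, x.e, x.f), (x.g, x.h, x.i))
    left_inv _ := rfl
    right_inv _ := rfl }

instance instMulM3 : Mul M3 := ⟨fun x y =>
  ⟨x.a * y.a + x.b * y.d + x.c * y.g, x.a * y.b + x.b * y.e + x.c * y.h, x.a * y.c + x.b * y.f + x.c * y.i,
   x.d * y.a + x.e * y.d + x.f * y.g, x.d * y.b + x.e * y.e + x.f * y.h, x.d * y.c + x.e * y.f + x.f * y.i,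
   x.g * y.a + x.h * y.d + x.i * y.g, x.g * y.b + x.h * y.e + x.i * y.h, x.g * y.c + x.h * y.f + x.i * y.i⟩⟩
instance instOneM3 : One M3 := ⟨⟨1, 0, 0, 0, 1, 0, 0, 0, 1⟩⟩
theorem m3_mul (x y : M3) : x * y =
  ⟨x.a * y.a + x.b * y.d + x.c * y.g, x.a * y.b + x.b * y.e + x.c * y.h, x.a * y.c + x.b * y.f + x.c * y.i,
   x.d * y.a + x.e * y.d + x.f * y.g, x.d * y.b + x.e * y.e + x.f * y.h, x.d * y.c + x.e * y.f + x.f * y.i,
   x.g * y.a + x.h * y.d + x.i * y.g, x.g * y.b + x.h * y.e + x.i * y.h, x.g * y.c + x.h * y.f + x.i * y.i⟩ := rfl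
theorem m3_one : (1 : M3) = ⟨1, 0, 0, 0, 1, 0, 0, 0, 1⟩ := rfl
instance instMonoidM3 : Monoid M3 where
  mul_assoc x y z := by simp only [m3_mul]; ext <;> ring
  one_mul x := by simp only [m3_mul, m3_one]; ext <;> ring
  mul_one x := by simp only [m3_mul, m3_one]; ext <;> ring

/-- determinant -/
def det (x : M3) : Bool := x.a * x.e * x.i - x.a * x.f * x.h - x.b * x.d * x.i + x.b * x.f * x.g +
  x.c * x.d * x.h - x.c * x.e * x.g
theorem det_mul (x y : M3) : det (x * y) = det x * det y := by simp only [m3_mul, det]; ring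

/-- the condition `x ^ n = 1` -/
def cond (n : ℕ) (x : M3) : Prop := x = 1 ∨ (2 ∣ n ∧ x * x = 1) ∨ (3 ∣ n ∧ x * x * x = 1) ∨
  (4 ∣ n ∧ x * x * (x * x) = 1) ∨ (7 ∣ n ∧ x * x * x * (x * x * (x * x)) = 1)
instance (n : ℕ) (x : M3) : Decidable (cond n x) := by unfold cond; infer_instance

theorem cond84 : ∀ x : M3, det x = true → cond 84 x := by decide +kernel

theorem cond_iff {n : ℕ} (hn : n ∣ 84) (x : M3) : x ^ n = 1 ↔ cond n x := by
  have e2 : x * x = x ^ 2 := (pow_two x).symm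
  have e3 : x * x * x = x ^ 3 := by simp only [pow_succ, pow_zero, one_mul]
  have e4 : x * x * (x * x) = x ^ 4 := by simp only [pow_succ, pow_zero, one_mul, mul_assoc]
  have e7 : x * x * x * (x * x * (x * x)) = x ^ 7 := by
    simp only [pow_succ, pow_zero, one_mul, mul_assoc]
  constructor
  · intro h
    have h1 : det x = true := by
      obtain ⟨m, rfl⟩ : ∃ m, n = m + 1 :=
        ⟨n - 1, by have := Nat.pos_of_dvd_of_pos hn (by norm_num); omega⟩
      have := congrArg det h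
      rw [pow_succ, det_mul] at this
      revert this
      cases det x <;> cases det (x ^ m) <;> decide
    have h2 := cond84 x h1
    unfold cond at h2 ⊢
    rw [e7, e4, e3, e2, ← orderOf_eq_one_iff] at h2 ⊢
    simp only [← orderOf_dvd_iff_pow_eq_one] at h h2 ⊢
    clear e2 e3 e4 e7 h1
    generalize orderOf x = o at *
    have h3 : o ≤ 7 := by
      rcases h2 with h | ⟨-, h⟩ | ⟨-, h⟩ | ⟨-, h⟩ | ⟨-, h⟩
      · omega
      all_goals exact (Nat.le_of_dvd (by norm_num) h).trans (by norm_num)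
    interval_cases o <;> simp_all
  · unfold cond
    rw [e7, e4, e3, e2]
    rintro (rfl | ⟨⟨m, rfl⟩, h⟩ | ⟨⟨m, rfl⟩, h⟩ | ⟨⟨m, rfl⟩, h⟩ | ⟨⟨m, rfl⟩, h⟩)
    · exact one_pow _
    all_goals rw [pow_mul, h, one_pow]

/-- the numbers of solutions in `GL₃(2)` -/
def eL (n : ℕ) : ℕ := Fintype.card {x : M3 // cond n x}

theorem real_L : Real False eL := by
  refine ⟨M3ˣ, inferInstance, inferInstance, iff_false_intro ?_, fun x => ?_, fun n hn => ?_⟩
  · let x : M3ˣ := ⟨⟨0, 1, 0, 0, 0, 1, 1, 0, 0⟩, ⟨0, 0, 1, 1, 0, 0, 0, 1, 0⟩, by decide, by decide⟩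
    let y : M3ˣ := ⟨⟨0, 0, 1, 0, 1, 0, 1, 0, 1⟩, ⟨1, 0, 1, 0, 1, 0, 1, 0, 0⟩, by decide, by decide⟩
    let z : M3ˣ := ⟨⟨1, 0, 0, 1, 1, 0, 1, 1, 1⟩, ⟨1, 0, 0, 1, 1, 0, 0, 1, 1⟩, by decide, by decide⟩
    have key : x = z * (x * (y * x * y⁻¹) * x⁻¹ * (y * x * y⁻¹)⁻¹) * z⁻¹ := by
      apply Units.ext; decide
    refine not_isSolvable_of_mem_derivedSeries (g := x) (fun h => absurd (congrArg Units.val h) (by decide))
      fun n => ?_
    induction n with
    | zero => exact Subgroup.mem_top x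
    | succ n ih =>
      rw [key]
      exact (derivedSeries_normal _ _).conj_mem _
        (Subgroup.commutator_mem_commutator ih ((derivedSeries_normal _ _).conj_mem _ ih _)) _
  · apply Units.ext
    rw [Units.val_pow_eq_pow_val, Units.val_one, cond_iff dvd_rfl]
    apply cond84
    have := congrArg det x.mul_inv
    rw [det_mul] at this
    revert this
    cases det x.1 <;> cases det (x⁻¹).1 <;> decide
  · rw [eL, ← Nat.card_eq_fintype_card, Ex]
    have n0 : n ≠ 0 := (Nat.pos_of_dvd_of_pos hn (by norm_num)).ne'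
    exact Nat.card_congr
      { toFun x := ⟨x.1.1, (cond_iff hn _).1 (by rw [← Units.val_pow_eq_pow_val, x.2, Units.val_one])⟩
        invFun x := ⟨Units.ofPowEqOne x.1 n ((cond_iff hn _).2 x.2) n0, Units.ext ((cond_iff hn _).2 x.2)⟩
        left_inv _ := Subtype.ext (Units.ext rfl)
        right_inv _ := rfl }

/-- the factors of the solvable group -/
def DP : List (List (ℕ × ℕ × ℕ) × ℕ × ℕ) :=
  [([], 2, 35), ([(3, 1, 2)], 2, 6), ([(4, 1, 2)], 2, 56), ([(2, 2, 3)], 3, 6), ([(3, 1, 2)], 4, 9), ([(3, 1,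
  2), (4, 1, 2)], 2, 24), ([(7, 1, 2)], 4, 77), ([(3, 1, 2), (3, 1, 2)], 4, 36), ([(3, 2, 4)], 4, 24), ([(3, 1,
  2), (7, 1, 2)], 2, 12), ([(2, 3, 7)], 7, 6), ([(2, 2, 3), (7, 1, 3)], 3, 12), ([(3, 1, 2), (7, 1, 2)], 4, 6),
  ([(7, 1, 6)], 12, 30), ([(3, 1, 2), (4, 1, 2), (4, 1, 2)], 2, 6), ([(7, 1, 2), (7, 1, 2)], 2, 15), ([(3, 1,
  2), (3, 1, 2), (7, 1, 2)], 2, 24), ([(7, 1, 6), (4, 1, 2)], 6, 15), ([(7, 2, 4)], 4, 3), ([(7, 1, 2), (4, 1,
  2), (4, 1, 2)], 2, 6), ([(7, 1, 2), (7, 1, 6)], 6, 10), ([(3, 1, 2), (3, 1, 2), (3, 1, 2), (7, 1, 2)], 2, 6),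
  ([(2, 3, 7), (2, 3, 7)], 7, 6), ([(7, 1, 6), (7, 1, 6)], 12, 9), ([(7, 2, 12)], 12, 9), ([(3, 1, 2), (3, 1,
  2), (7, 1, 2), (7, 1, 2)], 2, 6), ([(7, 1, 2), (7, 2, 4)], 4, 3), ([(7, 1, 6), (7, 1, 6), (7, 1, 6)], 6, 6),
  ([(7, 1, 6), (4, 1, 2), (4, 1, 2), (4, 1, 2)], 6, 3), ([(7, 1, 2), (7, 1, 2), (7, 1, 2), (4, 1, 2)], 2, 3)]
/-- the solvable factors of the non-solvable group -/
def DN : List (List (ℕ × ℕ × ℕ) × ℕ × ℕ) :=
  [([], 3, 12), ([], 4, 127), ([(7, 1, 2)], 2, 33), ([(3, 1, 2), (3, 1, 2)], 2, 36), ([(7, 1, 3)], 3, 6), ([(7,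
  1, 6)], 6, 24), ([(2, 2, 3), (2, 2, 3)], 3, 6), ([(3, 1, 2), (3, 1, 2), (3, 1, 2)], 2, 24), ([(7, 1, 2), (4,
  1, 2)], 2, 53), ([(7, 1, 3), (7, 1, 3)], 3, 3), ([(3, 1, 2), (7, 1, 2), (4, 1, 2)], 2, 6), ([(3, 1, 2), (3, 1,
  2), (7, 1, 2)], 4, 24), ([(7, 1, 6), (7, 1, 6)], 6, 9), ([(7, 1, 2), (7, 1, 2), (4, 1, 2)], 2, 6), ([(3, 1,
  2), (7, 1, 2), (7, 1, 2)], 4, 12), ([(3, 1, 2), (7, 2, 4)], 4, 3), ([(7, 1, 2), (7, 1, 6)], 12, 19), ([(3, 1,
  2), (7, 1, 2), (4, 1, 2), (4, 1, 2)], 2, 6), ([(7, 1, 6), (4, 1, 2), (4, 1, 2)], 6, 6), ([(3, 1, 2), (3, 1,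
  2), (3, 1, 2), (7, 1, 2)], 4, 6), ([(7, 1, 2), (4, 1, 2), (4, 1, 2), (4, 1, 2)], 2, 9), ([(7, 1, 2), (7, 1,
  2), (7, 1, 2)], 4, 3), ([(3, 1, 2), (3, 1, 2), (7, 1, 2), (7, 1, 2)], 4, 6), ([(3, 1, 2), (7, 1, 2), (4, 1,
  2), (4, 1, 2), (4, 1, 2)], 2, 6), ([(7, 1, 3), (7, 1, 3), (7, 1, 6)], 12, 3), ([(7, 2, 4), (7, 1, 6)], 12, 3),
  ([(2, 2, 3), (2, 6, 21)], 21, 6), ([(7, 1, 6), (7, 1, 6), (7, 1, 6), (4, 1, 2)], 6, 3)]

theorem chk : ∀ n ∈ [1, 2, 3, 4, 6, 7, 12, 14, 21, 28, 42, 84], eD DP n = eL n ^ 6 * eD DN n := by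
  decide +kernel

theorem card_ord {G H : Type} [Group G] [Group H] [Finite G] [Finite H] (h1 : ∀ x : G, x ^ 84 = 1)
    (h2 : ∀ x : H, x ^ 84 = 1) (h : ∀ n, n ∣ 84 → Ex G n = Ex H n) (n : ℕ) :
    Nat.card {g : G // orderOf g = n} = Nat.card {h : H // orderOf h = n} := by
  classical
  have := Fintype.ofFinite G
  have := Fintype.ofFinite H
  by_cases hn : n ∣ 84
  · induction n using Nat.strong_induction_on with
    | _ n ih =>
    have n0 : n ≠ 0 := (Nat.pos_of_dvd_of_pos hn (by norm_num)).ne'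
    have a := sum_card_orderOf_eq_card_pow_eq_one (G := G) n0
    have b := sum_card_orderOf_eq_card_pow_eq_one (G := H) n0
    have c := h n hn
    simp only [Ex, Nat.card_eq_fintype_card, Fintype.card_subtype] at c ih ⊢
    rw [← a, ← b, ← Nat.cons_self_properDivisors n0, sum_cons, sum_cons,
      sum_congr rfl fun m hm => ih m (Nat.mem_properDivisors.1 hm).2
        ((Nat.mem_properDivisors.1 hm).1.trans hn)] at c
    omega
  · have : IsEmpty {g : G // orderOf g = n} :=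
      ⟨fun g => hn (g.2 ▸ orderOf_dvd_of_pow_eq_one (h1 _))⟩
    have : IsEmpty {g : H // orderOf g = n} :=
      ⟨fun g => hn (g.2 ▸ orderOf_dvd_of_pow_eq_one (h2 _))⟩
    simp

/-- There are finite groups G and H having the same number of elements of each order (the same order type) with G solvable and H not solvable. -/
theorem result :
    ∃ (G : Type) (_ : Group G) (_ : Finite G) (H : Type) (_ : Group H) (_ : Finite H),
      Group.IsSolvable G ∧ ¬ Group.IsSolvable H ∧ ∀ n : ℕ, Nat.card {g : G // orderOf g = n} = Nat.card {h : H // orderOf h = n} := by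
  obtain ⟨G, _, _, a1, a2, a3⟩ := real_D DP (by decide +kernel)
  obtain ⟨H, _, _, b1, b2, b3⟩ := (real_L.pow 6).mul (real_D DN (by decide +kernel))
  refine ⟨G, inferInstance, inferInstance, H, inferInstance, inferInstance, a1.2 trivial,
    by simp [b1], card_ord a2 b2 fun n hn => ?_⟩
  rw [a3 n hn, b3 n hn]
  apply chk
  have := Nat.le_of_dvd (by norm_num) hn
  interval_cases n <;> simp_all

end Cfsg.Agent.S4376
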