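import Cfsg.Statements.S4377


set_option autoImplicit false
open Cfsg

namespace Cfsg.Agent.S4377

theorem key (K : Type*) [Group K] [Finite K] (n : ℕ) (hn : n ≠ 0) : Nat.card {g : K // g ^ n = 1} =
    ∑ d ∈ n.divisors, Nat.card {g : K // orderOf g = d} := by
  classical
  have := Fintype.ofFinite K
  rw [Nat.card_eq_fintype_card, Fintype.card_subtype]
  refine (sum_card_orderOf_eq_card_pow_eq_one hn).symm.trans ?_
  refine Finset.sum_congr ?_ fun d _ => ?_
  · rfl
  · rw [Nat.card_eq_fintype_card, Fintype.card_subtype]

/-- Two finite groups have the same number of elements of each order if and only if, for every n, they have the same number of elements g with gⁿ = 1. -/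
theorem result {G H : Type*} [Group G] [Finite G] [Group H] [Finite H] :
    (∀ n : ℕ, Nat.card {g : G // orderOf g = n} = Nat.card {h : H // orderOf h = n}) ↔
      ∀ n : ℕ, Nat.card {g : G // g ^ n = 1} = Nat.card {h : H // h ^ n = 1} := by
  constructor
  · intro h n
    have e : ∀ m : ℕ, {g : G // orderOf g = m} ≃ {g : H // orderOf g = m} := fun m =>
      (Finite.card_eq.1 (h m)).some
    refine Nat.card_congr ((Equiv.ofFiberEquiv e).subtypeEquiv fun g => ?_)
    rw [← orderOf_dvd_iff_pow_eq_one, ← orderOf_dvd_iff_pow_eq_one, Equiv.ofFiberEquiv_map e g]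
  · intro h n
    induction n using Nat.strong_induction_on with
    | _ n ih =>
      rcases Nat.eq_zero_or_pos n with rfl | hn
      · have h1 : IsEmpty {g : G // orderOf g = 0} := ⟨fun g => (orderOf_pos g.1).ne' g.2⟩
        have h2 : IsEmpty {g : H // orderOf g = 0} := ⟨fun g => (orderOf_pos g.1).ne' g.2⟩
        rw [Nat.card_of_isEmpty, Nat.card_of_isEmpty]
      · have := h n
        rw [key G n hn.ne', key H n hn.ne', ← Nat.insert_self_properDivisors hn.ne',
          Finset.sum_insert Nat.self_notMem_properDivisors,
          Finset.sum_insert Nat.self_notMem_properDivisors,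
          Finset.sum_congr rfl fun d hd => ih d (Nat.mem_properDivisors.1 hd).2] at this
        exact Nat.add_right_cancel this

end Cfsg.Agent.S4377
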