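import Cfsg.Statements.S4378
import Cfsg.Agent.H17.PNm

set_option autoImplicit false
open Cfsg

namespace Cfsg.Agent.S4378

open Subgroup H17

/-- Let G be a finite solvable group in which every maximal subgroup either has a normal 2-complement or has prime index. Then G has a chain of normal subgroups 1 ≤ A ≤ B ≤ C ≤ G in which A and C/B have odd order and B/A and G/C are 2-groups (so the 2-length of G is at most 2). -/
theorem result {G : Type*} [Group G] [Finite G]
    (hG : Group.IsSolvable G)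
    (hmax : ∀ M : Subgroup G, IsCoatom M → (∃ K : Subgroup ↥M, K.Normal ∧ ¬ 2 ∣ Nat.card K ∧ ∃ k : ℕ, K.index = 2 ^ k) ∨ (M.index).Prime) :
    ∃ A B C : Subgroup G, A.Normal ∧ B.Normal ∧ C.Normal ∧ A ≤ B ∧ B ≤ C ∧ Odd (Nat.card A) ∧
      (∃ k : ℕ, A.relIndex B = 2 ^ k) ∧ Odd (B.relIndex C) ∧ ∃ k : ℕ, C.index = 2 ^ k := by
  have h := pnm _ G rfl (H4.pSol_of_solvable (H := ⊤) inferInstance) hmax
  have n1 := le_normalizer_oUp 2 (⊤ : Subgroup G)
  have n2 := n1.trans (normalizer_le_oUq 2 _)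
  refine ⟨_, _, _, normal_of_top (n2.trans (normalizer_le_oUp 2 _)), normal_of_top n2, normal_of_top n1,
    oUp_le _ _, oUq_le _ _, Nat.not_even_iff_odd.1 (by rwa [even_iff_two_dvd]), relIndex_oUp _,
    Nat.not_even_iff_odd.1 (by rw [even_iff_two_dvd]; exact not_dvd_relIndex_oUq _), ?_⟩
  simpa using relIndex_oUp (p := 2) (⊤ : Subgroup G)

end Cfsg.Agent.S4378
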