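import Cfsg.Statements.S4379
import Cfsg.Agent.H17.PNm

set_option autoImplicit false
open Cfsg

namespace Cfsg.Agent.S4379

open Subgroup H17

/-- Let p be an odd prime and G a finite p-solvable group in which every maximal subgroup either has a normal p-complement or has prime index. Then G has a chain of normal subgroups 1 ≤ A ≤ B ≤ C ≤ D ≤ G in which A, C/B and G/D have order prime to p and B/A and D/C are p-groups (so the p-length of G is at most 2). -/
theorem result {G : Type*} [Group G] [Finite G]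
    (p : ℕ) [Fact p.Prime] (hp : p ≠ 2) (hG : Cfsg.IsPSolvable p G)
    (hmax : ∀ M : Subgroup G, IsCoatom M → (∃ K : Subgroup ↥M, K.Normal ∧ ¬ p ∣ Nat.card K ∧ ∃ k : ℕ, K.index = p ^ k) ∨ (M.index).Prime) :
    ∃ A B C D : Subgroup G, A.Normal ∧ B.Normal ∧ C.Normal ∧ D.Normal ∧ A ≤ B ∧ B ≤ C ∧ C ≤ D ∧ ¬ p ∣ Nat.card A ∧
      (∃ k : ℕ, A.relIndex B = p ^ k) ∧ ¬ p ∣ B.relIndex C ∧ (∃ k : ℕ, C.relIndex D = p ^ k) ∧ ¬ p ∣ D.index := by
  have h := pnm _ G rfl (H4.isPSolvable_iff.1 hG) hmax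
  have n1 := le_normalizer_oUp p (⊤ : Subgroup G)
  have n2 := n1.trans (normalizer_le_oUq p _)
  exact ⟨_, _, _, ⊤, normal_of_top (n2.trans (normalizer_le_oUp p _)), normal_of_top n2, normal_of_top n1,
    inferInstance, oUp_le _ _, oUq_le _ _, le_top, h, relIndex_oUp _, not_dvd_relIndex_oUq _, relIndex_oUp _,
    by rw [index_top]; exact (Fact.out : p.Prime).not_dvd_one⟩

end Cfsg.Agent.S4379
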