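import Cfsg.Statements.S4381
import Cfsg.Agent.H18.BG1
import Cfsg.Agent.H1.Hol
import Cfsg.Agent.H3.BG4b

set_option autoImplicit false
open Pointwise
open Cfsg

namespace Cfsg.Agent.S4381
open H18 Subgroup H1
open scoped commutatorElement

/-- Let the finite group A act by automorphisms on the finite group G with the orders of A and G coprime, and assume that A or G is solvable. Call a proper A-invariant subgroup of G maximal A-invariant when no A-invariant subgroup lies strictly between it and G. Then all maximal A-invariant subgroups of G are conjugate under elements of the fixed-point subgroup C_G(A) if and only if G is a p-group for some prime p and A leaves invariant no subgroup strictly between the Frattini subgroup of G and G. In that case, if G is nontrivial, the Frattini subgroup is the only maximal A-invariant subgroup (a trivial G has none). -/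
theorem result {A G : Type*} [Group A] [Finite A]
    [Group G] [Finite G] [MulDistribMulAction A G] (hcop : (Nat.card A).Coprime (Nat.card G)) (hsol : Group.IsSolvable A ∨ Group.IsSolvable G) :
    ((∀ M N : Subgroup G, (M ≠ ⊤ ∧ (∀ a : A, ∀ x ∈ M, a • x ∈ M) ∧ ∀ L : Subgroup G, M < L → (∀ a : A, ∀ x ∈ L, a • x ∈ L) → L = ⊤) → (N ≠ ⊤ ∧ (∀ a : A, ∀ x ∈ N, a • x ∈ N) ∧ ∀ L : Subgroup G, N < L → (∀ a : A, ∀ x ∈ L, a • x ∈ L) → L = ⊤) →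
        ∃ c : G, (∀ a : A, a • c = c) ∧ N = MulAut.conj c • M) ↔
      ((∃ p : ℕ, p.Prime ∧ IsPGroup p G) ∧ ∀ L : Subgroup G, frattini G < L → (∀ a : A, ∀ x ∈ L, a • x ∈ L) → L = ⊤)) ∧
    (((∃ p : ℕ, p.Prime ∧ IsPGroup p G) ∧ ∀ L : Subgroup G, frattini G < L → (∀ a : A, ∀ x ∈ L, a • x ∈ L) → L = ⊤) →
      ∀ M : Subgroup G, (M ≠ ⊤ ∧ (∀ a : A, ∀ x ∈ M, a • x ∈ M) ∧ ∀ L : Subgroup G, M < L → (∀ a : A, ∀ x ∈ L, a • x ∈ L) → L = ⊤) ↔ (M = frattini G ∧ M ≠ ⊤)) := by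
  set φ := MulDistribMulAction.toMulAut A G
  have inv : ∀ L : Subgroup G, (∀ a : A, ∀ x ∈ L, a • x ∈ L) ↔ hr φ ⊤ ≤ N(hl φ L) := fun L => by
    rw [hr_norm_iff]; exact ⟨fun h a _ => h a, fun h a => h a trivial⟩
  have hF : ∀ a : A, ∀ x ∈ frattini G, a • x ∈ frattini G := fun a x hx =>
    (characteristic_iff_le_comap.1 inferInstance (φ a)) hx
  have hsup : ∀ M L : Subgroup G, (∀ a : A, ∀ x ∈ M, a • x ∈ M) → (∀ a : A, ∀ x ∈ L, a • x ∈ L) →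
      ∀ a : A, ∀ x ∈ M ⊔ L, a • x ∈ M ⊔ L := fun M L h1 h2 => by
    rw [inv] at h1 h2 ⊢; rw [hl_sup]; exact norm_sup h1 h2
  have hFM : ∀ M : Subgroup G, M ≠ ⊤ → (∀ a : A, ∀ x ∈ M, a • x ∈ M) →
      (∀ L : Subgroup G, M < L → (∀ a : A, ∀ x ∈ L, a • x ∈ L) → L = ⊤) → frattini G ≤ M := fun M h1 h2 h3 => by
    by_contra hc
    refine h1 (phi_nongen le_top ?_)
    rw [phi_top, h3 (M ⊔ frattini G) (lt_of_le_of_ne le_sup_left fun e => hc (le_sup_right.trans e.ge)) (hsup _ _ h2 hF)]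
  have part2 : ((∃ p : ℕ, p.Prime ∧ IsPGroup p G) ∧ ∀ L : Subgroup G, frattini G < L → (∀ a : A, ∀ x ∈ L, a • x ∈ L) → L = ⊤) →
      ∀ M : Subgroup G, (M ≠ ⊤ ∧ (∀ a : A, ∀ x ∈ M, a • x ∈ M) ∧ ∀ L : Subgroup G, M < L → (∀ a : A, ∀ x ∈ L, a • x ∈ L) → L = ⊤) ↔
        (M = frattini G ∧ M ≠ ⊤) := by
    rintro ⟨-, h⟩ M
    refine ⟨fun ⟨h1, h2, h3⟩ => ⟨?_, h1⟩, ?_⟩
    · by_contra hc
      exact h1 (h M (lt_of_le_of_ne (hFM M h1 h2 h3) (Ne.symm hc)) h2)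
    · rintro ⟨rfl, h1⟩
      exact ⟨h1, hF, h⟩
  refine ⟨⟨fun h => ?_, fun h M N hM hN => ⟨1, fun a => smul_one a, ?_⟩⟩, part2⟩
  swap
  · rw [((part2 h M).1 hM).1, ((part2 h N).1 hN).1, map_one, one_smul]
  have ex : ∀ L : Subgroup G, L ≠ ⊤ → (∀ a : A, ∀ x ∈ L, a • x ∈ L) → ∃ M, L ≤ M ∧ (M ≠ ⊤ ∧ (∀ a : A, ∀ x ∈ M, a • x ∈ M) ∧
      ∀ L : Subgroup G, M < L → (∀ a : A, ∀ x ∈ L, a • x ∈ L) → L = ⊤) := fun L h1 h2 => by
    obtain ⟨M, h3, h4, h5⟩ := exists_maximal_sub (fun M => M ≠ ⊤ ∧ ∀ a : A, ∀ x ∈ M, a • x ∈ M) (A := L) ⟨h1, h2⟩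
    exact ⟨M, h3, h4.1, h4.2, fun K hK hK' => by_contra fun e => hK.ne' (h5 K ⟨e, hK'⟩ hK.le)⟩
  have cop : Cop (hr φ ⊤) (hl φ ⊤) := ⟨hr_norm_top, by simpa using hcop, by
    rw [solv_hr, solv_hl, solv_top_iff, solv_top_iff]; exact hsol⟩
  have hp : ∃ p : ℕ, p.Prime ∧ PiGrp {p} (⊤ : Subgroup G) := by
    by_contra hc
    push Not at hc
    obtain ⟨M, -, hM⟩ := ex ⊥ (fun e => hc 2 Nat.prime_two (e ▸ PiGrp.bot)) (fun a x hx => by
      rw [mem_bot.1 hx, smul_one]; exact one_mem _)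
    refine hM.1 (eq_top_iff.2 (le_of_sylows fun q hq _ => ?_))
    obtain ⟨Q', hQ, hn⟩ := cop.exists_sylow hq
    obtain ⟨Q, -, rfl⟩ := exists_hl hQ.le
    rw [hall_hl] at hQ
    obtain ⟨L, hL, hL'⟩ := ex Q (fun e => hc q hq (e ▸ hQ.pi)) ((inv Q).2 hn)
    obtain ⟨c, -, e⟩ := h L M hL' hM
    exact ⟨cj c Q, hQ.cj_top c, e ▸ cj_mono hL⟩
  obtain ⟨p, hp, hG⟩ := hp
  refine ⟨⟨p, hp, IsPGroup.of_equiv hG.isPGroup topEquiv⟩, fun L hL hLi => ?_⟩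
  by_contra hL1
  obtain ⟨M, hLM, hM⟩ := ex L hL1 hLi
  have hMn : ∀ c, cj c M = M := fun c => cj_eq_self (norm_of_der_le ((hG.der_le_phi hp).trans
    (phi_top.le.trans (hL.le.trans hLM))) le_top trivial)
  have uniq : ∀ Y : Subgroup G, Y ≠ ⊤ → (∀ a : A, ∀ x ∈ Y, a • x ∈ Y) → Y ≤ M := fun Y h1 h2 => by
    obtain ⟨M', h3, h4⟩ := ex Y h1 h2
    obtain ⟨c, -, e⟩ := h M M' hM h4
    exact h3.trans (e.trans (hMn c)).le
  set F := hl φ (frattini G)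
  have hFK : F ⊴ hl φ ⊤ := hl_nml_iff.2 nml_top
  have hAF : hr φ ⊤ ≤ N(F) := (inv _).1 hF
  have hK : PiGrp {p} (hl φ ⊤) := piGrp_hl.2 hG
  have hE : Elem p (hl φ ⊤ ⫽ F) := (hK.elem_quo_iff hp hFK.norm).2 ((hK.phi_le_iff hp).2 ⟨by
    rw [← hl_comm, hl_le_hl, ← phi_top]; exact hG.der_le_phi hp, fun x hx => by
      obtain ⟨y, -, rfl⟩ := mem_hl.1 hx
      rw [← map_pow, inl_mem_hl, ← phi_top]; exact hG.pow_mem_phi hp trivial⟩)
  have hA : PiGrp {p}ᶜ (hr φ ⊤) := (piNat_compl_iff hp).2 fun hd => by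
    have := (Nat.Coprime.coprime_dvd_left hd cop.cop).eq_one_of_dvd (hK.dvd_card fun e => hL1 (by
      rw [hl_eq_bot] at e; exact eq_top_iff.2 (e.le.trans bot_le)))
    exact hp.one_lt.ne' this
  obtain ⟨Y, hY, hn⟩ := H3.maschke_elem hp hE (mim_norm hr_norm_top) (W := hl φ M ⫽ F) (mim_norm ((inv M).1 hM.2.1))
    (mim_mono (hl_le_hl.2 le_top)) hA.mim
  obtain ⟨Y₀, -, e⟩ := exists_hl (qpre_le_of_le hFK hY.le_right)
  have hFM' : F ⊴ hl φ M := hFK.of_le (hl_le_hl.2 (hL.le.trans hLM)) (hl_le_hl.2 le_top)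
  have eY : Y = hl φ Y₀ ⫽ F := by rw [← e, quo_qpre]
  by_cases hY0 : Y₀ = ⊤
  · have h1 := hY.inf
    rw [eY, hY0, inf_eq_left.2 (mim_mono (hl_le_hl.2 le_top)), quo_eq_bot_iff hFM'.norm, hl_le_hl] at h1
    exact hL.not_ge (hLM.trans h1)
  · have h1 := uniq Y₀ hY0 ((inv _).2 (e ▸ norm_mpre hAF hn))
    have h2 := hY.sup
    rw [eY, sup_eq_left.2 (mim_mono (hl_le_hl.2 h1))] at h2
    exact hM.1 (hl_inj.1 (quo_inj hFM' hFK h2))

end Cfsg.Agent.S4381
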