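import Cfsg.Statements.S4387
import Cfsg.Agent.H22.Basic
import Cfsg.Agent.H1.Basic

set_option autoImplicit false
open Pointwise
open Cfsg

namespace Cfsg.Agent.S4387

/-- Let G be a non-trivial finite group in which any two maximal subgroups are conjugate. Then G is cyclic of prime-power order. -/
theorem result {G : Type*} [Group G] [Finite G] [Nontrivial G]
    (h : ∀ M N : Subgroup G, IsCoatom M → IsCoatom N → ∃ g : G, N = MulAut.conj g • M) :
    IsCyclic G ∧ IsPrimePow (Nat.card G) := by
  obtain ⟨M, hM, -⟩ := (eq_top_or_exists_le_coatom (⊥ : Subgroup G)).resolve_left bot_ne_top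
  have hc : IsCyclic G := by
    by_contra hc
    apply hM.1
    apply H22.eq_top_of_forall_conj_mem
    intro g
    rcases eq_top_or_exists_le_coatom (Subgroup.zpowers g) with h1 | ⟨N, hN, h1⟩
    · exact absurd ⟨g, fun y => (h1 ▸ Subgroup.mem_top y : y ∈ Subgroup.zpowers g)⟩ hc
    · obtain ⟨x, rfl⟩ := h M N hM hN
      exact ⟨x⁻¹, by simpa using H1.mem_conj_smul.1 (h1 (Subgroup.mem_zpowers g))⟩
  refine ⟨hc, ?_⟩
  have hmax : ∀ N : Subgroup G, N ≠ ⊤ → N ≤ M := by
    intro N hN
    obtain ⟨L, hL, h1⟩ := (eq_top_or_exists_le_coatom N).resolve_left hN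
    obtain ⟨x, rfl⟩ := h M L hM hL
    refine h1.trans (H1.conj_smul_le_iff.2 fun y hy => ?_)
    rw [mul_comm' x y, mul_inv_cancel_right]; exact hy
  by_contra hpp
  apply hM.1
  apply H22.eq_top_of_forall_primePow_mem
  intro x q k hq hx
  refine hmax (Subgroup.zpowers x) (fun ht => hpp ?_) (Subgroup.mem_zpowers x)
  have h1 : Nat.card G = q ^ k := by
    rw [← hx, ← Nat.card_zpowers, ht, Subgroup.card_top]
  have h2 : k ≠ 0 := by
    rintro rfl
    exact (Finite.one_lt_card (α := G)).ne' (by simpa using h1)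
  rw [h1]
  exact hq.isPrimePow.pow h2

end Cfsg.Agent.S4387
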