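import Cfsg.Statements.S4396
import Cfsg.Agent.H17.Free
import Cfsg.Agent.H16.PermModule
import Cfsg.Agent.H1.Fitting

set_option autoImplicit false
open Cfsg

namespace Cfsg.Agent.S4396

open Subgroup H17.Fre

/-- Let the finite group A act faithfully and linearly on a finite-dimensional vector space V over a field k, and suppose A is a Frobenius group with nilpotent kernel F (every Frobenius kernel is nilpotent) and complement H such that F fixes no nonzero vector. Then V is free as a module for H: there is a subspace W with V the direct sum of the translates hW, h ∈ H. (No assumption on the characteristic of k.) -/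
theorem result {k V A : Type*} [Field k] [AddCommGroup V] [Module k V] [FiniteDimensional k V] [Group A] [Finite A] [DecidableEq A]
    (ρ : Representation k A V) (hρ : Function.Injective ρ)
    (Fk Hc : Subgroup A) [Fk.Normal] (hHc : Cfsg.IsFrobeniusComplement Hc) (hker : Cfsg.frobeniusKernel Hc = (Fk : Set A)) (hnil : Group.IsNilpotent ↥Fk)
    (hCF : ∀ v : V, (∀ f ∈ Fk, ρ f v = v) → v = 0) :
    ∃ W : Submodule k V, DirectSum.IsInternal (fun h : ↥Hc => W.map (ρ (h : A))) := by
  have hL : ∀ h ∈ Hc, ∀ f ∈ Fk, h * f = f * h → h = 1 ∨ f = 1 := fun h hh f hf e => by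
    by_cases hfH : f ∈ Hc
    · have : f ∈ frobeniusKernel Hc := hker ▸ hf
      exact Or.inr (this.resolve_right fun h' => h' 1 (by simpa using hfH))
    · refine Or.inl (mem_bot.1 (hHc.2.2 f hfH ▸ mem_inf.2 ⟨hh, ?_⟩))
      have := smul_mem_pointwise_smul _ (MulAut.conj f) _ hh
      simpa [← e] using this
  obtain ⟨p, hp⟩ := CharP.exists k
  rcases CharP.char_is_prime_or_zero k p with h | rfl
  · have := Fact.mk h
    let F := (pPrimeCore p Fk).map Fk.subtype
    have hF : F ≤ Fk := map_subtype_le _
    have : F.Normal := ConjAct.normal_of_characteristic_of_normal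
    have : Group.IsSolvable F := Group.isSolvable_of_isSolvable_injective (inclusion_injective hF)
    refine (fr_solv F Hc ?_ (fun h hh f hf => hL h hh f (hF hf)) _ ρ rfl fun v hv => ?_).internal
    · rw [Ne, CharP.cast_eq_zero_iff k p, card_subtype]
      exact H1.not_dvd_card_pPrimeCore h
    let W : Submodule k V :=
      { carrier := {v | ∀ z ∈ F, ρ z v = v}
        zero_mem' := by simp
        add_mem' := fun ha hb z hz => by rw [map_add, ha z hz, hb z hz]
        smul_mem' := fun c _ ha z hz => by rw [map_smul, ha z hz] }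
    by_contra h0
    obtain ⟨w, hw, hw0, hw1⟩ := H16.exists_fixed_vector (H1.pCore_isPGroup p Fk)
      (ρ.comp (Fk.subtype.comp (pCore p Fk).subtype)) W (fun g v hv z hz => by
        have := hv _ ((inferInstance : F.Normal).conj_mem' z hz g)
        conv_rhs => rw [← this]
        simp [← Module.End.mul_apply, ← map_mul, mul_assoc]) ((Submodule.ne_bot_iff W).2 ⟨v, hv, h0⟩)
    refine hw0 (hCF w fun f hf => ?_)
    have : (⟨f, hf⟩ : Fk) ∈ (↑(pCore p Fk ⊔ pPrimeCore p Fk) : Set Fk) :=
      H1.nilpotent_eq_pCore_sup_pPrimeCore (G := Fk) p ▸ mem_top _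
    rw [mul_normal] at this
    obtain ⟨a, ha, b, hb, e⟩ := this
    have e' : f = a * b := (congrArg Subtype.val e).symm
    rw [e', map_mul, Module.End.mul_apply, hw b ⟨b, hb, rfl⟩]
    exact hw1 ⟨a, ha⟩
  · have := CharP.charP_to_charZero k
    exact (fr_solv Fk Hc (Nat.cast_ne_zero.2 Nat.card_pos.ne') hL _ ρ rfl hCF).internal

end Cfsg.Agent.S4396
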