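import Cfsg.Statements.S4398
import Cfsg.Agent.H9.MaxClass

set_option autoImplicit false
open Cfsg

namespace Cfsg.Agent.S4398

/-- Let S be a finite 2-group of sectional 2-rank at most 2 that contains a subgroup isomorphic to the dihedral group of order 8 or to the quaternion group of order 8. Then S is dihedral of order at least 8, semidihedral of order at least 16 (order 2^(k+4) with an element a of order 2^(k+3) and an involution b with b a b⁻¹ = a^(2^(k+2)−1)), or generalized quaternion of order at least 8. -/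
theorem result {S : Type*} [Group S] [Finite S] (h2 : IsPGroup 2 S) (hr : Cfsg.SectionalPRankLE 2 2 S)
    (hsub : ∃ H : Subgroup S, Nonempty (↥H ≃* DihedralGroup 4) ∨ Nonempty (↥H ≃* QuaternionGroup 2)) :
    ((∃ k : ℕ, Nonempty (S ≃* DihedralGroup (2 ^ (k + 2)))) ∨
      (∃ k : ℕ, Nat.card S = 2 ^ (k + 4) ∧ ∃ a b : S, orderOf a = 2 ^ (k + 3) ∧ orderOf b = 2 ∧ b * a * b⁻¹ = a ^ (2 ^ (k + 2) - 1)) ∨
      (∃ k : ℕ, Nonempty (S ≃* QuaternionGroup (2 ^ (k + 1))))) := by
  obtain ⟨H, hH⟩ := hsub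
  obtain ⟨x, h⟩ : ∃ x, H9.MC H 0 x := by
    rcases hH with ⟨⟨e⟩⟩ | ⟨⟨e⟩⟩
    · exact (H9.exists_mc_of_dihedral (k := 0) e).imp fun _ h => h.1
    · obtain ⟨x, y, -, h⟩ := H9.exists_mc_of_quaternion (k := 0) e
      exact ⟨x, h⟩
  obtain ⟨n, hn⟩ := h2.index H
  obtain ⟨y, hy⟩ := H9.MC.of_forall_two_generated (h2.to_subgroup ⊤) (fun K _ => by
    have h1 := hr K (frattini K) ⊤ ((H3.frattini_eq_bot_iff ((h2.to_subgroup K).to_quotient _)).1 (by
      rw [← H3.map_frattini_of_surjective (h2.to_subgroup K) _ (QuotientGroup.mk'_surjective _)]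
      exact (H1.map_mk'_eq_bot_iff _ _).2 le_rfl) |>.1 |> H9.comm_top) fun a _ => by
        obtain ⟨a, rfl⟩ := QuotientGroup.mk_surjective a
        exact (QuotientGroup.eq_one_iff _).2 (H3.pow_mem_frattini (h2.to_subgroup K) a)
    rw [Subgroup.card_top] at h1
    rwa [Subgroup.relIndex, ← Subgroup.comap_subtype,
      Subgroup.comap_map_eq_self_of_injective K.subtype_injective]) n h le_top
    ((Subgroup.relIndex_top_right _).trans hn)
  rcases hy.types_top with h1 | h1 | ⟨m, h1, h2, h3⟩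
  · exact Or.inl ⟨_, h1⟩
  · exact Or.inr (Or.inr ⟨_, h1⟩)
  · obtain ⟨k, rfl⟩ : ∃ k, m = k + 3 := ⟨m - 3, by omega⟩
    exact Or.inr (Or.inl ⟨k, h2, h3⟩)

end Cfsg.Agent.S4398
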