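import Cfsg.Statements.S4402
import Cfsg.Agent.H2.Wr2

set_option autoImplicit false
open Cfsg

open H2.Wr

namespace Cfsg.Agent.S4402

/-- Let S be a finite 2-group of sectional 2-rank at most 4 and P a proper subgroup isomorphic to the wreath product of the dihedral group of order 8 by a group of order 2 (equivalently, to a Sylow 2-subgroup of the symmetric group of degree 8; order 128). Then Z(S) = Z(P) has order 2, P has index 2 in its normalizer N_S(P), N_S(P)/Z(S) is again isomorphic to that wreath product, and every elementary abelian subgroup V of order 16 that is normal in P satisfies N_S(V) = P. -/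
theorem result {S : Type*} [Group S] [Finite S] (h2 : IsPGroup 2 S) (hr : Cfsg.SectionalPRankLE 2 4 S)
    (P : Subgroup S) (hPlt : P ≠ ⊤) (hP : ∃ T : Sylow 2 (Equiv.Perm (Fin 8)), Nonempty (↥P ≃* ↥(T : Subgroup (Equiv.Perm (Fin 8))))) :
    Subgroup.center S = (Subgroup.center ↥P).map P.subtype ∧ Nat.card ↥(Subgroup.center S) = 2 ∧
    P.relIndex (Subgroup.normalizer (P : Set S)) = 2 ∧
    (∃ (_ : ((Subgroup.center S).subgroupOf (Subgroup.normalizer (P : Set S))).Normal) (T : Sylow 2 (Equiv.Perm (Fin 8))),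
      Nonempty (↥(Subgroup.normalizer (P : Set S)) ⧸ (Subgroup.center S).subgroupOf (Subgroup.normalizer (P : Set S)) ≃*
        ↥(T : Subgroup (Equiv.Perm (Fin 8))))) ∧
    ∀ V : Subgroup S, V ≤ P → (∀ g ∈ P, ∀ v ∈ V, g * v * g⁻¹ ∈ V) → Cfsg.IsElementaryAbelian 2 V → Nat.card ↥V = 16 →
      Subgroup.normalizer (V : Set S) = P := by
  classical
  haveI : Fact (Nat.Prime 2) := ⟨Nat.prime_two⟩
  obtain ⟨T, ⟨eT⟩⟩ := hP
  obtain ⟨eW⟩ := exists_equiv T
  let e : W ≃* P := eW.trans eT.symm
  let ι : W →* S := P.subtype.comp e.toMonoidHom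
  have hι : Function.Injective ι := Subtype.val_injective.comp e.injective
  have hrange : ι.range = P := by
    ext x
    constructor
    · rintro ⟨w, rfl⟩; exact (e w).2
    · intro hx; exact ⟨e.symm ⟨x, hx⟩, by simp [ι]⟩
  set N := Subgroup.normalizer (P : Set S) with hN
  have hPN : ι.range ≤ N := hrange ▸ Subgroup.le_normalizer
  let ψ : N →* MulAut W := (MulAut.congr e.symm).toMonoidHom.comp P.normalizerMonoidHom
  have hψ : ∀ (n : N) (w : W), ι (ψ n w) = n * ι w * (n : S)⁻¹ := by
    intro n w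
    simp [ψ, ι]
    rfl
  have key : ∀ n : N, Pres (ψ n) → (n : S) ∈ P := fun n hn =>
    hrange ▸ mem_of_pres h2 hr ι hι N hPN ψ hψ n hn
  have hnil : ∀ K : Subgroup S, Group.IsNilpotent K := fun K => (h2.to_subgroup K).isNilpotent
  have hψι : ∀ (n : N) (w v : W), (n : S) = ι w → ψ n v = w * v * w⁻¹ := fun n w v h =>
    hι (by rw [hψ, map_mul, map_mul, map_inv, h])
  have pι : ∀ n : N, (n : S) ∈ P → Pres (ψ n) := by
    intro n hn
    rw [← hrange] at hn
    obtain ⟨w, hw⟩ := hn
    exact ⟨fun v => by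
      rw [hψι n w v hw.symm]
      exact ⟨fun h => by simpa [mul_assoc] using A0_conj w⁻¹ _ h, A0_conj w v⟩,
     fun v => by
      rw [hψι n w v hw.symm]
      exact ⟨fun h => by simpa [mul_assoc] using B0_conj w⁻¹ _ h, B0_conj w v⟩⟩
  have ha : inA a1 = true := by decide +kernel
  have ha' : ¬ inB a1 = true := by decide +kernel
  have hb : inB b1 = true := by decide +kernel
  have hb' : ¬ inA b1 = true := by decide +kernel
  -- part (d)
  have hd : ∀ V : Subgroup S, V ≤ P → (∀ g ∈ P, ∀ v ∈ V, g * v * g⁻¹ ∈ V) →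
      Cfsg.IsElementaryAbelian 2 V → Nat.card ↥V = 16 → Subgroup.normalizer (V : Set S) = P := by
    intro V hVP hVn hVe hV16
    have hle : P ≤ Subgroup.normalizer (V : Set S) := fun g hg => by
      rw [Subgroup.mem_normalizer_iff]
      intro v
      refine ⟨hVn g hg v, fun h => ?_⟩
      simpa [mul_assoc] using hVn g⁻¹ (inv_mem hg) _ h
    by_contra hne
    have hlt := H2.lt_normalizer_inf_of_nilpotent (hnil _) (lt_of_le_of_ne hle (Ne.symm hne))
    obtain ⟨x, ⟨hxN, hxV⟩, hxP⟩ := SetLike.exists_of_lt hlt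
    have hVm : (V.comap ι).map ι = V := Subgroup.map_comap_eq_self (hrange ▸ hVP)
    have hcl := classify (V.comap ι) (fun g v hv => by
        rw [Subgroup.mem_comap, map_mul, map_mul, map_inv]
        exact hVn _ (hrange ▸ ⟨g, rfl⟩) _ hv)
      (fun a ha b hb => hι (by
        rw [map_mul, map_mul]
        exact congrArg Subtype.val (hVe.1.is_comm.comm (⟨ι a, ha⟩ : V) ⟨ι b, hb⟩)))
      (fun a ha => hι (by rw [map_mul, map_one, ← pow_two]; exact hVe.2 _ ha))
      (by rw [← hV16, ← Subgroup.card_map_of_injective hι, hVm])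
    have hpres : ∀ w, ψ ⟨x, hxN⟩ w ∈ V.comap ι ↔ w ∈ V.comap ι := fun w => by
      rw [Subgroup.mem_comap, Subgroup.mem_comap, hψ]
      exact ((Subgroup.mem_normalizer_iff.1 hxV) _).symm
    rcases aut_cases (ψ ⟨x, hxN⟩) with h | h
    · exact hxP (key _ h)
    · rcases hcl with hc | hc
      · rw [hc] at hpres
        exact ha' ((h.2 a1).1 ((hpres a1).2 ha))
      · rw [hc] at hpres
        exact hb' ((h.1 b1).1 ((hpres b1).2 hb))
  have hA : Subgroup.normalizer ((A0.map ι : Subgroup S) : Set S) = P := by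
    refine hd _ ?_ ?_ ⟨⟨⟨?_⟩⟩, ?_⟩ ?_
    · rintro _ ⟨w, -, rfl⟩; exact hrange ▸ ⟨w, rfl⟩
    · rintro g hg _ ⟨w, hw, rfl⟩
      rw [← hrange] at hg
      obtain ⟨g, rfl⟩ := hg
      exact ⟨g * w * g⁻¹, A0_conj g w hw, by simp⟩
    · rintro ⟨_, a, ha, rfl⟩ ⟨_, b, hb, rfl⟩
      apply Subtype.ext
      show ι a * ι b = ι b * ι a
      rw [← map_mul, ← map_mul, A0_comm a b ha hb]
    · rintro _ ⟨w, hw, rfl⟩
      rw [pow_two, ← map_mul, A0_sq w hw, map_one]
    · rw [Subgroup.card_map_of_injective hι, card_A0]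
  have hZP : Subgroup.center S ≤ P := hA ▸ Subgroup.center_le_normalizer _
  have hZe : (Subgroup.center P).map P.subtype = (Subgroup.center W).map ι := by
    ext x
    constructor
    · rintro ⟨y, hy, rfl⟩
      refine ⟨e.symm y, Subgroup.mem_center_iff.2 fun g => e.injective ?_, by simp [ι]⟩
      rw [map_mul, map_mul, e.apply_symm_apply]
      exact Subgroup.mem_center_iff.1 hy _
    · rintro ⟨w, hw, rfl⟩
      refine ⟨e w, Subgroup.mem_center_iff.2 fun g => e.symm.injective ?_, rfl⟩
      rw [map_mul, map_mul, e.symm_apply_apply]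
      exact Subgroup.mem_center_iff.1 hw _
  have hZc : Nat.card ((Subgroup.center P).map P.subtype) = 2 := by
    rw [hZe, Subgroup.card_map_of_injective hι, card_center]
  have hZle : Subgroup.center S ≤ (Subgroup.center P).map P.subtype := fun x hx =>
    ⟨⟨x, hZP hx⟩, Subgroup.mem_center_iff.2 fun g =>
      Subtype.ext (Subgroup.mem_center_iff.1 hx g), rfl⟩
  haveI hnt : Nontrivial S := ⟨ι z, ι 1, fun h => z_ne_one (hι h)⟩
  have hZnt : Nontrivial (Subgroup.center S) := h2.center_nontrivial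
  have hZ : Subgroup.center S = (Subgroup.center P).map P.subtype :=
    Subgroup.eq_of_le_of_card_ge hZle (by
      rw [hZc]; exact Finite.one_lt_card_iff_nontrivial.2 hZnt)
  have hlt := H2.lt_normalizer_inf_of_nilpotent (hnil ⊤) (lt_top_iff_ne_top.2 hPlt)
  obtain ⟨a, ⟨haN, -⟩, haP⟩ := SetLike.exists_of_lt hlt
  have hsw : ∀ n : N, (n : S) ∉ P → Swap (ψ n) := fun n hn =>
    (aut_cases (ψ n)).resolve_left fun h => hn (key n h)
  have hidx : P.relIndex N = 2 := by
    rw [Subgroup.relIndex, Subgroup.index_eq_two_iff]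
    refine ⟨⟨a, haN⟩, fun b => ?_⟩
    by_cases hbP : (b : S) ∈ P
    · refine Or.inr ⟨hbP, fun h => haP ?_⟩
      have h' : (b : S) * a ∈ P := h
      simpa using mul_mem (inv_mem hbP) h'
    · refine Or.inl ⟨Subgroup.mem_subgroupOf.2 (key _ ?_), hbP⟩
      have h1 := hsw b hbP
      have h3 := hsw ⟨a, haN⟩ haP
      exact ⟨fun w => by rw [map_mul, MulAut.mul_apply, h1.2, h3.1],
        fun w => by rw [map_mul, MulAut.mul_apply, h1.1, h3.2]⟩
  have hZ2 : Nat.card (Subgroup.center S) = 2 := by rw [hZ, hZc]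
  refine ⟨hZ, hZ2, hidx, ⟨inferInstance, ?_⟩, hd⟩
  let f : N →* Equiv.Perm {t : W // t * t = 1 ∧ inW t = false} :=
    { toFun := fun n => Equiv.Perm.subtypePerm (ψ n).toEquiv (fun t => by
        show ψ n t * ψ n t = 1 ∧ inW (ψ n t) = false ↔ _
        rw [aut_inW, ← map_mul, MulEquiv.map_eq_one_iff])
      map_one' := by
        ext t
        show ψ 1 t.1 = t.1
        rw [map_one, MulAut.one_apply]
      map_mul' := fun a b => by
        ext t
        show ψ (a * b) t.1 = ψ a (ψ b t.1)
        rw [map_mul, MulAut.mul_apply] }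
  have hf : ∀ (n : N) (t : {t : W // t * t = 1 ∧ inW t = false}), (f n t).1 = ψ n t.1 := fun _ _ => rfl
  have hker : f.ker = (Subgroup.center S).subgroupOf N := by
    ext n
    rw [MonoidHom.mem_ker, Subgroup.mem_subgroupOf]
    constructor
    · intro h
      have hfix : ∀ t : W, t * t = 1 → inW t = false → ψ n t = t := fun t h1 h3 => by
        rw [← hf n ⟨t, h1, h3⟩, h]; rfl
      by_cases hn : (n : S) ∈ P
      · rw [← hrange] at hn
        obtain ⟨w, hw⟩ := hn
        have := ker_X w fun t h1 h3 => by rw [← hψι n w t hw.symm, hfix t h1 h3]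
        rw [hZ, hZe]
        exact ⟨w, Subgroup.mem_center_iff.2 ((center_iff w).2 this), hw⟩
      · exfalso
        have h1 := hfix c (by decide +kernel) (by decide +kernel)
        have h3 := hfix (a1 * a2 * c) (by decide +kernel) (by decide +kernel)
        rw [map_mul, h1, mul_left_inj] at h3
        have h4 := ((hsw n hn).1 (a1 * a2)).2 (by decide +kernel)
        rw [h3] at h4
        exact absurd h4 (by decide +kernel)
    · intro h
      ext t
      rw [hf]
      apply hι
      rw [hψ, ← Subgroup.mem_center_iff.1 h]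
      simp
  have hcN : Nat.card N = 256 := by
    have h1 := Subgroup.card_mul_index (P.subgroupOf N)
    rw [Nat.card_congr (Subgroup.subgroupOfEquivOfLe (hrange ▸ hPN)).toEquiv,
      ← Nat.card_congr e.toEquiv, card_W] at h1
    have h3 : (P.subgroupOf N).index = 2 := hidx
    rw [h3] at h1; omega
  have hcQ : Nat.card (N ⧸ (Subgroup.center S).subgroupOf N) = 128 := by
    have h1 := Subgroup.card_eq_card_quotient_mul_card_subgroup ((Subgroup.center S).subgroupOf N)
    rw [hcN, Nat.card_congr (Subgroup.subgroupOfEquivOfLe (Subgroup.center_le_normalizer _)).toEquiv,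
      hZ2] at h1
    omega
  exact exists_sylow hcQ card_X (QuotientGroup.lift _ f hker.ge)
    ((QuotientGroup.injective_lift_iff _ _ _).2 hker.symm)

end Cfsg.Agent.S4402
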