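import Cfsg.Statements.S4404
import Cfsg.Agent.H21.Blk

set_option autoImplicit false
open Cfsg

namespace Cfsg.Agent.S4404

open H18 Subgroup H21.Blk

/-- Let S be a finite solvable group and M a normal elementary abelian 2-subgroup of S. Suppose S contains an elementary abelian subgroup of order p³ for some odd prime p, and a cyclic 3-subgroup Q such that the cubes of the elements of Q centralize M and the commutator subgroup [Q, M] has order 4 (a four-group inside M). Then S contains an elementary abelian subgroup F of order r³, for some odd prime r, whose centralizer of [Q, M] in F — the subgroup C_F([Q, M]) — is not cyclic. -/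
theorem result {S : Type*} [Group S] [Finite S]
    [Group.IsSolvable S] (M : Subgroup S) [M.Normal] (hM : Cfsg.IsElementaryAbelian 2 M)
    (p : ℕ) (hp : p.Prime) (hp2 : p ≠ 2) (E : Subgroup S) (hE : Cfsg.IsElementaryAbelian p E) (hE3 : Nat.card ↥E = p ^ 3)
    (Q : Subgroup S) (hQc : IsCyclic ↥Q) (hQ3 : IsPGroup 3 ↥Q)
    (hQ1 : ∀ x ∈ Q, x ^ 3 ∈ Subgroup.centralizer (M : Set S)) (hQM : Nat.card ↥⁅Q, M⁆ = 4) :
    ∃ (r : ℕ) (F : Subgroup S), r.Prime ∧ r ≠ 2 ∧ Cfsg.IsElementaryAbelian r F ∧ Nat.card ↥F = r ^ 3 ∧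
      ¬ IsCyclic ↥(F ⊓ Subgroup.centralizer ((⁅Q, M⁆ : Subgroup S) : Set S)) := by
  obtain ⟨u, rfl⟩ := Cyc.gen hQc
  have eM : Elem 2 M := elem_iff.2 hM
  have pQ := piGrp_of_isPGroup Nat.prime_three hQ3
  have hE' : PElem p 3 E ⊤ := ⟨le_top, elem_iff.2 hE, hE3⟩
  have eW : ⁅zpowers u, M⁆ = Wd M u := comm_comm
  rw [eW] at hQM ⊢
  suffices h : ∃ r F, r.Prime ∧ r ≠ 2 ∧ PElem r 3 F ⊤ ∧ ¬ Cyc (F ⊓ C(Wd M u)) by
    obtain ⟨r, F, h1, h2, h3, h4⟩ := h
    exact ⟨r, F, h1, h2, h3.elem.isElem, h3.card, h4⟩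
  by_cases p3 : p = 3
  · subst p3
    obtain ⟨P, hP, le⟩ := exists_sylow_le Nat.prime_three pQ (le_top (a := zpowers u))
    obtain ⟨g, -, hg⟩ := sylow_le_cj Nat.prime_three hP (hE'.pi hp) le_top
    have c : Ctx M P := ⟨eM, norm_of_normal, hP.pi.p'_of_ne (by norm_num), solv_of_solv⟩
    have hx : Gd M P u := ⟨le (mem_zpowers u), piGrp_zpowers.1 pQ, hQM⟩
    obtain ⟨F, hF, h⟩ := c.three hx hP.pi ((hE'.cj g).of_le' hg)
    exact ⟨3, F, hp, hp2, hF, c.final hx hp hp2 hF h⟩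
  · obtain ⟨H, hH, le⟩ := H23.hall_superset (π := {2}ᶜ) solv_of_solv (le_top (a := zpowers u))
      (pQ.p'_of_ne (by norm_num))
    obtain ⟨g, -, hg⟩ := H23.hall_le_cj solv_of_solv hH le_top ((hE'.pi hp).p'_of_ne hp2)
    have c : Ctx M H := ⟨eM, norm_of_normal, hH.pi, solv_of_solv⟩
    have hx : Gd M H u := ⟨le (mem_zpowers u), piGrp_zpowers.1 pQ, hQM⟩
    have hF := ((hE'.cj g).of_le' hg)
    by_cases h : cj g E ≤ c.Stab hx
    · exact ⟨p, _, hp, hp2, hF.top, c.final hx hp hp2 hF.top h⟩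
    · obtain ⟨e, he, en⟩ := SetLike.not_le_iff_exists.1 h
      obtain ⟨F, h1, h2⟩ := c.large hx hp hp2 p3 (hg he) (hF.elem.pow e he) en
      exact ⟨3, F, Nat.prime_three, by norm_num, h1,
        c.final' Nat.prime_three (by norm_num) h1 c.Wd_le (Or.inl hx.card) h2 le_rfl⟩

end Cfsg.Agent.S4404
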