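import Cfsg.Statements.S4405
import Cfsg.Agent.S0200
import Cfsg.Agent.H18.BG1
import Cfsg.Agent.H3.PG
import Cfsg.Agent.H5.Central
import Cfsg.Agent.H17.Comp

set_option autoImplicit false
open Cfsg

namespace Cfsg.Agent.S4405

open Subgroup H18 H1
open scoped commutatorElement

theorem exists_range {G : Type*} [Group G] [Finite G] {Q : Subgroup G} {x : G} (hn : x ∈ N(Q)) (ha : Abel Q) :
    ∃ R : Subgroup G, (∀ r ∈ R, ∃ q ∈ Q, r = ⁅q, x⁆) ∧
      Nat.card (Q ⊓ C1(x) : Subgroup G) * Nat.card R = Nat.card Q := by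
  let φ : Q →* G := MonoidHom.mk' (fun q => ⁅(q : G), x⁆) fun a b => by
    have e := comm_of_cent ha (mul_mem b.2 (conj_mem_N hn (inv_mem b.2))) (conj_mem_N hn (inv_mem a.2))
    simp only [commutatorElement_def, coe_mul, mul_inv_rev]
    calc _ = a * (b * (x * (b : G)⁻¹ * x⁻¹) * (x * (a : G)⁻¹ * x⁻¹)) := by group
      _ = _ := by rw [e]; group
  have h2 : φ.ker = (C1(x)).subgroupOf Q := by
    ext q
    exact commutatorElement_eq_one_iff_mul_comm.trans mem_centralizer_singleton_iff.symm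
  have h3 := card_mul_relIndex' (A := C1(x)) (B := Q)
  rw [relIndex, ← h2, index_ker, inf_comm] at h3
  exact ⟨φ.range, fun r ⟨q, e⟩ => ⟨q, q.2, e.symm⟩, h3⟩

/-- Let G be a finite group of order 320 = 64·5 whose largest normal 2-subgroup H = O₂(G) equals the Fitting subgroup F(G) and is extraspecial of order 32 containing no elementary abelian subgroup of order 8 (so H is the central product of a quaternion group and a dihedral group of order 8). If T is an involution of G outside H whose centralizer in H contains an elementary abelian subgroup of order 4, then C_H(T) itself is elementary abelian of order 4. -/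
theorem result {G : Type*} [Group G] [Finite G]
    (hG : Nat.card G = 320) (hHF : Cfsg.pCore 2 G = Cfsg.fittingSubgroup G)
    (hex : Cfsg.IsExtraspecial 2 ↥(Cfsg.pCore 2 G)) (h32 : Nat.card ↥(Cfsg.pCore 2 G) = 32)
    (hminus : ∀ A : Subgroup G, A ≤ Cfsg.pCore 2 G → Cfsg.IsElementaryAbelian 2 A → Nat.card ↥A ≤ 4)
    (T : G) (hT : orderOf T = 2) (hTH : T ∉ Cfsg.pCore 2 G)
    (V : Subgroup G) (hV : V ≤ Cfsg.pCore 2 G ⊓ Subgroup.centralizer ({T} : Set G)) (hV4 : Nat.card ↥V = 4) (hVe : Cfsg.IsElementaryAbelian 2 V) :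
    Nat.card ↥(Cfsg.pCore 2 G ⊓ Subgroup.centralizer ({T} : Set G)) = 4 ∧
      Cfsg.IsElementaryAbelian 2 (Cfsg.pCore 2 G ⊓ Subgroup.centralizer ({T} : Set G)) := by
  obtain ⟨y, y1, yo, yi⟩ := S0200.result T hT fun N hN h e => hTH (le_pCore h e)
  have T2 : T * T = 1 := by rw [← sq, ← hT, pow_orderOf_eq_one]
  have o5 : orderOf y = 5 := by
    have h1 : orderOf y ∣ 2 ^ 6 * 5 := (hG ▸ orderOf_dvd_natCard y : orderOf y ∣ 320)
    exact ((Nat.dvd_prime Nat.prime_five).1 ((Nat.coprime_two_right.2 yo).pow_right 6 |>.dvd_of_dvd_mul_left h1)).resolve_left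
      fun e => y1 (orderOf_eq_one_iff.1 e)
  have hs : Solv (⊤ : Subgroup G) := H5.burnside_paqb (a := 6) (b := 1) Nat.prime_two Nat.prime_five
    (by rw [card_top, hG]; rfl)
  have cH := cent_sub_Fitting hs
  rw [fit_top, ← hHF] at cH
  have nH : pCore 2 G ⊴ ⊤ := nml_top
  have pH := piGrp_of_isPGroup Nat.prime_two (pCore_isPGroup 2 G)
  have z1 : Φ(pCore 2 G) = Z(pCore 2 G) := by rw [phi, hex.1.2.1, H17.map_subtype_center]
  have z2 : Nat.card Φ(pCore 2 G) = 2 := by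
    rw [phi, card_map_of_injective (subtype_injective _), hex.1.2.1, hex.2]
  generalize pCore 2 G = H at *
  have : Φ(H).Normal := (H3.phi_nml nH).normal
  have : Fact (Nat.Prime 5) := ⟨Nat.prime_five⟩
  have p5 : PiGrp {5} (zpowers y) := by rw [PiGrp, Nat.card_zpowers, o5]; exact piNat_self Nat.prime_five
  have cop : Cop (zpowers y) H := cop_of_pi (le_top.trans nH.norm) p5 (pH.sub (by rintro _ rfl; simp)) (Or.inl p5.solv)
  have zy : Φ(H) ≤ C(zpowers y) := by
    have h1 := H3.card_modEq_card_inf_centralizer (Q := Φ(H)) p5.isPGroup le_normalizer_of_normal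
    have h2 := card_le_of_le (inf_le_left : Φ(H) ⊓ C(zpowers y) ≤ _)
    refine inf_eq_left.1 (eq_of_le_of_card_ge inf_le_left ?_)
    rw [z2] at h1 h2 ⊢
    unfold Nat.ModEq at h1
    omega
  suffices h : H ⊓ C1(T) = V by rw [h]; exact ⟨hV4, hVe⟩
  by_contra hne
  have c8 : 8 ≤ Nat.card (H ⊓ C1(T) : Subgroup G) := by
    have := H3.card_mul_le_of_lt (pH.of_le inf_le_left) (lt_of_le_of_ne hV (Ne.symm hne))
    rwa [hV4] at this
  let π := QuotientGroup.mk' Φ(H)
  have kπ : ∀ x, π x = 1 ↔ x ∈ Φ(H) := QuotientGroup.eq_one_iff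
  have aH : Abel (H.map π) := by
    rw [abel_iff_der, ← map_commutator, Subgroup.map_eq_bot_iff, QuotientGroup.ker_mk']
    exact H3.der_le_phi Nat.prime_two pH
  have cq : Nat.card (H.map π) = 16 := by
    have := H18.card_mul_relIndex (H3.phi_le (H := H))
    rw [z2, h32, ← card_map_mk'] at this
    change 2 * Nat.card (H.map π) = 32 at this
    omega
  have : H.Normal := nH.normal
  have : (H.map π).Normal := Normal.map inferInstance _ (QuotientGroup.mk'_surjective _)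
  have nT : ∀ g, g ∈ N(H.map π) := fun g => le_normalizer_of_normal (mem_top g)
  have z : H.map π ⊓ C(zpowers (π y)) = ⊥ := by
    have h1 := H3.card_modEq_card_inf_centralizer (Q := H.map π) (MonoidHom.map_zpowers π y ▸ p5.isPGroup.map π)
      le_normalizer_of_normal
    obtain ⟨k, hk, e⟩ := (Nat.dvd_prime_pow Nat.prime_two).1
      ((show Nat.card (H.map π) = 2 ^ 4 from cq) ▸ card_dvd_of_le (inf_le_left : H.map π ⊓ C(zpowers (π y)) ≤ _))
    have : k ≠ 4 := fun e4 => by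
      have := inf_eq_left.1 (eq_of_le_of_card_ge (inf_le_left : H.map π ⊓ C(zpowers (π y)) ≤ _) (by rw [e, e4, cq]; rfl))
      rw [← MonoidHom.map_zpowers, ← comm_eq_bot_iff, ← map_commutator, Subgroup.map_eq_bot_iff,
        QuotientGroup.ker_mk'] at this
      exact absurd (pH.elt (cH ⟨mem_top y, cent_symm (cop.cent_of_comm_cent (this.trans zy)) (mem_zpowers y)⟩) 5
        Nat.prime_five (o5 ▸ dvd_rfl)) (by simp)
    rw [cq, e] at h1
    rw [← card_eq_one, e]
    interval_cases k <;> simp_all [Nat.ModEq]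
  have k4 : Nat.card (H.map π ⊓ C1(π T) : Subgroup _) ≤ 4 := by
    have e := card_mul_le (inf_le_left : H.map π ⊓ C1(π T) ≤ _)
      (inf_le_left : H.map π ⊓ C1(π (y ^ 3) * π T * (π (y ^ 3))⁻¹) ≤ _)
    have e2 : H.map π ⊓ C1(π T) ⊓ (H.map π ⊓ C1(π (y ^ 3) * π T * (π (y ^ 3))⁻¹)) = ⊥ := by
      refine le_bot_iff.1 (le_trans (le_inf (inf_le_left.trans inf_le_left) fun c hc => ?_) z.le)
      have : y = y ^ 3 * T * (y ^ 3)⁻¹ * T := by
        rw [mul_assoc, mul_assoc, ← mul_assoc T, ← inv_pow, ← yi, conj_pow, inv_eq_of_mul_eq_one_right T2,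
          ← mul_assoc T, ← mul_assoc T, T2, one_mul, mul_assoc, T2, mul_one, ← pow_add, pow_succ,
          show y ^ (3 + 2) = 1 from (o5 ▸ pow_orderOf_eq_one y : y ^ 5 = 1), one_mul]
      rw [C_zpowers, this, map_mul, map_mul, map_mul, map_inv]
      exact mem_centralizer_singleton_iff.2 (Commute.mul_right
        (show Commute c _ from mem_centralizer_singleton_iff.1 hc.2.2) (mem_centralizer_singleton_iff.1 hc.1.2))
    rw [e2, card_bot, one_mul, cq, ← cj_C1, ← cj_eq_self (nT (π (y ^ 3))), ← cj_inf, card_cj,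
      cj_eq_self (nT (π (y ^ 3)))] at e
    nlinarith
  obtain ⟨R, hR, cR⟩ := exists_range (nT (π T)) aH
  have zT : Φ(H) ≤ H ⊓ C1(T) := by
    have h1 := H3.card_modEq_card_inf_centralizer (Q := Φ(H)) (q := 2) (R := zpowers T)
      (IsPGroup.of_card (n := 1) (by rw [Nat.card_zpowers, hT]; rfl)) le_normalizer_of_normal
    have h2 := card_le_of_le (inf_le_left : Φ(H) ⊓ C(zpowers T) ≤ _)
    have h3 := card_pos' (H := Φ(H) ⊓ C(zpowers T))
    refine le_inf H3.phi_le ?_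
    rw [← C_zpowers]
    refine inf_eq_left.1 (eq_of_le_of_card_ge inf_le_left ?_)
    rw [z2] at h1 h2 ⊢
    unfold Nat.ModEq at h1
    omega
  have e1 : (H ⊓ C1(T)).map π = H.map π ⊓ C1(π T) := eq_of_le_of_card_ge (by
      rintro _ ⟨c, hc, rfl⟩
      exact ⟨⟨c, hc.1, rfl⟩, mem_centralizer_singleton_iff.2 (by
        rw [← map_mul, mem_centralizer_singleton_iff.1 hc.2, map_mul])⟩) (by
      have := H18.card_mul_relIndex zT
      rw [z2, ← card_map_mk'] at this
      change 2 * Nat.card ((H ⊓ C1(T)).map π) = _ at this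
      omega)
  have iv : ∀ {X : Type _} [Group X] {t : X} (q : X), t * t = 1 → t * ⁅q, t⁆ * t⁻¹ = ⁅q, t⁆⁻¹ := fun {X} _ {t} q h => by
    simp only [commutatorElement_def, mul_inv_rev, inv_inv, inv_eq_of_mul_eq_one_right h, mul_assoc, h, mul_one]
  have h2 : ∀ q ∈ H, π q * π q = 1 := fun q hq => by
    rw [← map_mul, kπ, ← sq]; exact H3.pow_mem_phi Nat.prime_two pH hq
  have mem : ∀ q ∈ H, π ⁅q, T⁆ ∈ H.map π ⊓ C1(π T) := fun q hq => by
    have m : ⁅q, T⁆ ∈ H := comm_le_left (le_top.trans nH.norm) (commutator_mem_commutator hq (mem_zpowers T))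
    refine ⟨⟨_, m, rfl⟩, mem_centralizer_singleton_iff.2 (mul_inv_eq_iff_eq_mul.1 ?_).symm⟩
    rw [← map_inv, ← map_mul, ← map_mul, iv q T2, map_inv, inv_eq_of_mul_eq_one_right (h2 _ m)]
  have e2 : R = H.map π ⊓ C1(π T) := eq_of_le_of_card_ge (fun r hr => by
    obtain ⟨_, ⟨q, hq, rfl⟩, rfl⟩ := hR r hr
    rw [← map_commutatorElement]
    exact mem q hq) (by rw [cq] at cR; nlinarith)
  have sq1 : ∀ c ∈ H ⊓ C1(T), c ^ 2 = 1 := fun c hc => by
    obtain ⟨_, ⟨q, hq, rfl⟩, e⟩ := hR (π c) (e2 ▸ e1 ▸ ⟨c, hc, rfl⟩)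
    have m : c * ⁅q, T⁆⁻¹ ∈ Φ(H) := by rw [← kπ, map_mul, map_inv, map_commutatorElement, e, mul_inv_cancel]
    have m2 : ⁅q, T⁆⁻¹ ∈ H ⊓ C1(T) := (mul_mem_cancel_left hc).1 (zT m)
    have m3 : ⁅q, T⁆ * ⁅q, T⁆ = 1 := by
      rw [← eq_inv_iff_mul_eq_one, ← iv q T2, ← mem_centralizer_singleton_iff.1 (inv_mem_iff.1 m2).2,
        mul_inv_cancel_right]
    rw [← inv_mul_cancel_right c ⁅q, T⁆, (show Commute _ _ from (mem_C.1 (z1.le m).2 _ (inv_mem_iff.1 m2).1).symm).mul_pow,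
      sq ⁅q, T⁆, m3, mul_one, ← z2]
    exact congrArg Subtype.val (pow_card_eq_one' (x := (⟨_, m⟩ : Φ(H))))
  have := hminus (H ⊓ C1(T)) inf_le_left ⟨⟨⟨fun a b => Subtype.ext (by
    have i : ∀ z ∈ H ⊓ C1(T), z⁻¹ = z := fun z hz => inv_eq_of_mul_eq_one_right (by rw [← sq, sq1 z hz])
    rw [coe_mul, ← i _ (mul_mem a.2 b.2), mul_inv_rev, i _ a.2, i _ b.2, coe_mul])⟩⟩, sq1⟩
  omega

end Cfsg.Agent.S4405
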