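import Cfsg.Statements.S4406
import Mathlib

set_option autoImplicit false
open Cfsg

open Equiv Subgroup

namespace Cfsg.Agent.S4406

set_option synthInstance.maxSize 1000 in
set_option synthInstance.maxHeartbeats 200000 in
theorem k1 : ∀ u : Perm (Fin 4), Perm.sign u = 1 → u ^ 2 = 1 → u ≠ 1 →
    ∀ v : Perm (Fin 4), Perm.sign v = 1 → v ^ 2 = 1 → v ≠ 1 → u ≠ v →
    (∀ a : Perm (Fin 4), a ^ 3 = 1 → a ≠ 1 →
      (a * u * a⁻¹ = v ∧ a * v * a⁻¹ = u * v ∧ a * (u * v) * a⁻¹ = u) ∨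
      (a⁻¹ * u * a⁻¹⁻¹ = v ∧ a⁻¹ * v * a⁻¹⁻¹ = u * v ∧ a⁻¹ * (u * v) * a⁻¹⁻¹ = u)) ∧
    ∀ w : Perm (Fin 4), Perm.sign w = 1 → w ^ 2 = 1 → w = 1 ∨ w = u ∨ w = v ∨ w = u * v := by
  decide +kernel

theorem k2 : ∀ u : Perm (Fin 4), Perm.sign u = 1 → u ^ 2 = 1 ∨ u ^ 3 = 1 := by decide +kernel

abbrev A := alternatingGroup (Fin 4)

theorem k3 (p : ℕ) (hp : p = 2 ∨ p = 3) (u : A) (k : ℕ) (h : u ^ p ^ k = 1) : u ^ p = 1 := by
  have h2 : u ^ 2 = 1 ∨ u ^ 3 = 1 := (k2 u u.2).imp Subtype.ext Subtype.ext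
  have h3 : ∀ q, u ^ q = 1 → p.Coprime q → u ^ p = 1 := fun q e c => by
    rw [(pow_eq_one_iff_of_coprime (c.pow_left k)).1 ⟨h, e⟩, one_pow]
  rcases hp with rfl | rfl
  · exact h2.elim id fun e => h3 3 e (by decide)
  · exact h2.elim (fun e => h3 2 e (by decide)) id

theorem k4 {u v : A} (hu : u ^ 2 = 1) (u1 : u ≠ 1) (hv : v ^ 2 = 1) (v1 : v ≠ 1) (uv : u ≠ v) :
    (∀ a : A, a ^ 3 = 1 → a ≠ 1 → ∃ c, (c = a ∨ c = a⁻¹) ∧
      c * u * c⁻¹ = v ∧ c * v * c⁻¹ = u * v ∧ c * (u * v) * c⁻¹ = u) ∧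
    ∀ w : A, w ^ 2 = 1 → w = 1 ∨ w = u ∨ w = v ∨ w = u * v := by
  simp only [ne_eq, Subtype.ext_iff] at *
  obtain ⟨h1, h2⟩ := k1 u u.2 hu u1 v v.2 hv v1 uv
  exact ⟨fun a ha a1 => (h1 a ha a1).elim (fun h => ⟨a, .inl rfl, h⟩) fun h => ⟨a⁻¹, .inr rfl, h⟩,
    fun w hw => h2 w w.2 hw⟩

theorem pprod {P R : Subgroup A} (hP : IsPGroup 3 P) (hR : IsPGroup 3 R) : IsPGroup 3 (P.prod R) :=
  fun x => ⟨1, by
    obtain ⟨k, hk⟩ := hP ⟨_, x.2.1⟩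
    obtain ⟨l, hl⟩ := hR ⟨_, x.2.2⟩
    exact Subtype.ext (Prod.ext (k3 3 (.inr rfl) _ k (congrArg Subtype.val hk))
      (k3 3 (.inr rfl) _ l (congrArg Subtype.val hl)))⟩

theorem k5 {P : Subgroup A} (hP : IsPGroup 3 P) :
    ∃ P' : Subgroup A, IsPGroup 3 P' ∧ P ≤ P' ∧ ∃ a ∈ P', a ≠ 1 := by
  by_cases h : P = ⊥
  · let a : A := ⟨swap 0 1 * swap 1 2, Perm.mem_alternatingGroup.2 (by decide)⟩
    have : orderOf a = 3 := orderOf_eq_prime (by decide) (by decide)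
    exact ⟨zpowers a, .of_card (n := 1) (by rw [Nat.card_zpowers, this]; rfl), h ▸ bot_le, a,
      mem_zpowers a, by decide⟩
  · obtain ⟨a, ha⟩ := ne_bot_iff_exists_ne_one.1 h
    exact ⟨P, hP, le_rfl, a, a.2, fun e => ha (Subtype.ext e)⟩

/-- In the direct product P = A₄ × A₄, let X be the Sylow 2-subgroup, X₁ and X₂ its intersections with the two direct factors, Q a Sylow 3-subgroup and Q₁, Q₂ its intersections with the two factors. Then every subgroup B of X of order 4 either meets X₁ or X₂ nontrivially, or is normalized by one of the two subgroups of Q of order 3 other than Q₁ and Q₂. -/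
theorem result
    (X : Sylow 2 (↥(alternatingGroup (Fin 4)) × ↥(alternatingGroup (Fin 4))))
    (Q : Sylow 3 (↥(alternatingGroup (Fin 4)) × ↥(alternatingGroup (Fin 4))))
    (B : Subgroup (↥(alternatingGroup (Fin 4)) × ↥(alternatingGroup (Fin 4)))) (hBX : B ≤ (X : Subgroup _)) (hB4 : Nat.card ↥B = 4) :
    B ⊓ ((X : Subgroup _) ⊓ Subgroup.prod ⊤ ⊥) ≠ ⊥ ∨ B ⊓ ((X : Subgroup _) ⊓ Subgroup.prod ⊥ ⊤) ≠ ⊥ ∨
      ∃ R : Subgroup (↥(alternatingGroup (Fin 4)) × ↥(alternatingGroup (Fin 4))), R ≤ (Q : Subgroup _) ∧ Nat.card ↥R = 3 ∧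
        R ≠ (Q : Subgroup _) ⊓ Subgroup.prod ⊤ ⊥ ∧ R ≠ (Q : Subgroup _) ⊓ Subgroup.prod ⊥ ⊤ ∧ R ≤ Subgroup.normalizer (B : Set _) := by
  classical
  by_contra! H
  obtain ⟨h1, h2, h3⟩ := H
  have sq : ∀ w ∈ B, w.1 ^ 2 = 1 ∧ w.2 ^ 2 = 1 := fun w hw => by
    obtain ⟨k, hk⟩ := X.isPGroup' ⟨w, hBX hw⟩
    have := congrArg Subtype.val hk
    exact ⟨k3 2 (.inl rfl) _ k (congrArg Prod.fst this), k3 2 (.inl rfl) _ k (congrArg Prod.snd this)⟩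
  have i1 : ∀ w ∈ B, ∀ z ∈ B, w.1 = z.1 → w = z := fun w hw z hz e => by
    have := mul_mem hw (inv_mem hz)
    exact mul_inv_eq_one.1 (h2.le ⟨this, hBX this, mul_inv_eq_one.2 e, trivial⟩)
  have i2 : ∀ w ∈ B, ∀ z ∈ B, w.2 = z.2 → w = z := fun w hw z hz e => by
    have := mul_mem hw (inv_mem hz)
    exact mul_inv_eq_one.1 (h1.le ⟨this, hBX this, trivial, mul_inv_eq_one.2 e⟩)
  obtain ⟨u, hu, v, hv, u1, v1, uv⟩ : ∃ u ∈ B, ∃ v ∈ B, u ≠ 1 ∧ v ≠ 1 ∧ u ≠ v := by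
    have := Fintype.ofFinite B
    obtain ⟨a, b, c, ab, ac, bc⟩ := Fintype.two_lt_card_iff.1
      (show 2 < Fintype.card B by rw [← Nat.card_eq_fintype_card, hB4]; decide)
    exact ⟨_, (a⁻¹ * b).2, _, (a⁻¹ * c).2, by simpa [inv_mul_eq_one] using ab,
      by simpa [inv_mul_eq_one] using ac, by simpa using bc⟩
  obtain ⟨P, hP, l1, a, ha, a1⟩ := k5 (Q.isPGroup'.map (MonoidHom.fst A A))
  obtain ⟨R, hR, l2, b, hb, b1⟩ := k5 (Q.isPGroup'.map (MonoidHom.snd A A))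
  have hQ : P.prod R = Q := Q.is_maximal' (pprod hP hR) fun x hx =>
    ⟨l1 (mem_map_of_mem _ hx), l2 (mem_map_of_mem _ hx)⟩
  obtain ⟨k, hk⟩ := hP ⟨a, ha⟩
  obtain ⟨l, hl⟩ := hR ⟨b, hb⟩
  have a3 := k3 3 (.inr rfl) _ k (congrArg Subtype.val hk)
  have b3 := k3 3 (.inr rfl) _ l (congrArg Subtype.val hl)
  obtain ⟨f1, f2⟩ := k4 (sq u hu).1 (fun e => u1 (i1 u hu 1 (one_mem _) e)) (sq v hv).1
    (fun e => v1 (i1 v hv 1 (one_mem _) e)) fun e => uv (i1 u hu v hv e)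
  obtain ⟨g1, -⟩ := k4 (sq u hu).2 (fun e => u1 (i2 u hu 1 (one_mem _) e)) (sq v hv).2
    (fun e => v1 (i2 v hv 1 (one_mem _) e)) fun e => uv (i2 u hu v hv e)
  obtain ⟨c, hc, c1, c2, c3⟩ := f1 a a3 a1
  obtain ⟨d, hd, d1, d2, d3⟩ := g1 b b3 b1
  obtain ⟨cP, c0, cc⟩ : c ∈ P ∧ c ≠ 1 ∧ c ^ 3 = 1 := by
    rcases hc with rfl | rfl <;> simp [*]
  obtain ⟨dR, d0, dd⟩ : d ∈ R ∧ d ≠ 1 ∧ d ^ 3 = 1 := by
    rcases hd with rfl | rfl <;> simp [*]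
  refine h3 (zpowers (c, d)) (zpowers_le.2 (hQ ▸ ⟨cP, dR⟩)) ?_
    (fun e => d0 (e.le (mem_zpowers _)).2.2) (fun e => c0 (e.le (mem_zpowers _)).2.1)
    (zpowers_le.2 (mem_normalizer_fintype fun w hw => ?_))
  · rw [Nat.card_zpowers]
    exact orderOf_eq_prime (Prod.ext cc dd) fun e => c0 (congrArg Prod.fst e)
  rcases f2 w.1 (sq w hw).1 with e | e | e | e
  · rw [i1 w hw 1 (one_mem _) e, mul_one, mul_inv_cancel]; exact one_mem _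
  · rw [i1 w hw u hu e, show (c, d) * u * (c, d)⁻¹ = v from Prod.ext c1 d1]; exact hv
  · rw [i1 w hw v hv e, show (c, d) * v * (c, d)⁻¹ = u * v from Prod.ext c2 d2]
    exact mul_mem hu hv
  · rw [i1 w hw _ (mul_mem hu hv) e, show (c, d) * (u * v) * (c, d)⁻¹ = u from Prod.ext c3 d3]
    exact hu

end Cfsg.Agent.S4406
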