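import Cfsg.Statements.S4407
import Cfsg.Agent.H18.Cyc
import Cfsg.Agent.H3.PG

set_option autoImplicit false
open Cfsg

namespace Cfsg.Agent.S4407

open Subgroup H18 H1

section
variable {S M : Type*} [Group S] [Finite S] [AddCommGroup M] [Module (ZMod 2) M] (ρ : Representation (ZMod 2) S M)

def St (W : Submodule (ZMod 2) M) : Subgroup S :=
  let N : Submonoid S := ⟨⟨{g | ∀ m ∈ W, ρ g m ∈ W}, fun {a b} ha hb m hm => by
    rw [map_mul]; exact ha _ (hb m hm)⟩, fun m hm => by rwa [map_one]⟩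
  { N with inv_mem' := fun {g} hg =>
      (Submonoid.powers_le.2 hg : _ ≤ N) (mem_powers_iff_mem_zpowers.2 (inv_mem (mem_zpowers g))) }

omit [Finite S] in
theorem fix1 {g : S} (hg : g * g = 1) (U : M → Prop) (h1 : ∀ m n, U m → U n → U (m + n)) (h2 : ∀ m, U m → U (ρ g m))
    (h : ∃ m ≠ 0, U m) : ∃ m ≠ 0, U m ∧ ρ g m = m := by
  obtain ⟨m, m0, hm⟩ := h
  by_cases e : ρ g m = m
  · exact ⟨m, m0, hm, e⟩
  refine ⟨m + ρ g m, fun e' => e (by rw [eq_neg_of_add_eq_zero_right e', ZModModule.neg_eq_self]), h1 _ _ hm (h2 _ hm), ?_⟩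
  rw [map_add, ← Module.End.mul_apply, ← map_mul, hg, map_one, add_comm]; rfl

theorem main (hirr : ∀ N : Submodule (ZMod 2) M, (∀ s : S, ∀ m ∈ N, ρ s m ∈ N) → N = ⊥ ∨ N = ⊤)
    {r s a b : S} (gen : ∀ H : Subgroup S, a ∈ H → b ∈ H → r ∈ H → s ∈ H → H = ⊤)
    (zz : r * r * (r * r) = 1) (ss : s * s = 1) (sr : s * r = r * (r * r) * s) (a3 : a * (a * a) = 1)
    (ab : a * b = b * a) (ra : r * a = b * r) (rb : r * b = a * a * r) (sa : s * a = a * s)
    (h0 : ∀ m, ρ a m = m → ρ b m = m → m = 0) (h1 : ∃ m ≠ 0, ρ a m = m) :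
    Nat.card M = 16 ∧ Nat.card {m : M // ρ (r * r) m = m ∧ ρ (s * r) m = m} = 2 ∧
      Nat.card {m : M // ρ (r * r) m = m ∧ ρ s m = m} ≠ 2 := by
  have mu : ∀ g h m, ρ (g * h) m = ρ g (ρ h m) := fun g h m => by rw [map_mul]; rfl
  have k : ∀ {g h : S}, g = h → ∀ m, ρ g m = ρ h m := fun e m => by rw [e]
  have as := ZModModule.add_self (G := M)
  have hb : b = r * a * r⁻¹ := by rw [ra, mul_inv_cancel_right]
  have b3 : b * (b * b) = 1 := by
    calc _ = r * (a * (a * a)) * r⁻¹ := by rw [hb]; group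
      _ = 1 := by rw [a3]; group
  have za : r * r * a = a * a * (r * r) := by rw [mul_assoc, ra, ← mul_assoc, rb, mul_assoc]
  have zb : r * r * b = b * b * (r * r) := by
    rw [mul_assoc, rb, ← mul_assoc, ← mul_assoc, ra, mul_assoc b, ra]; group
  have sz : s * (r * r) = r * r * s := by
    rw [← mul_assoc, sr, mul_assoc, sr]
    calc _ = r * r * (r * r) * (r * r * s) := by group
      _ = _ := by rw [zz, one_mul]
  have ar : a * r = r * (b * b) := by
    rw [← mul_assoc, rb, mul_assoc, rb]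
    calc _ = a * (a * (a * a)) * r := by rw [a3, mul_one]
      _ = _ := by simp only [mul_assoc]
  have sb : s * b = b * b * s := by
    have : s * b * r = b * b * s * r := by
      rw [mul_assoc, ← ra, ← mul_assoc, sr, mul_assoc _ s, sa, mul_assoc (b * b), sr, mul_assoc r, ← mul_assoc (r * r), za]
      simp only [← mul_assoc]
      rw [ra, mul_assoc b r, ra]
      simp only [mul_assoc]
    exact mul_right_cancel this
  have one : ∀ {g : S}, g = 1 → ∀ m, ρ g m = m := fun e m => by rw [e, map_one]; rfl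
  have A3 := one a3
  have B3 := one b3
  have R4 := one zz
  have AB := k ab
  have AR := k ar
  have BR := k ra.symm
  have SA := k sa.symm
  have SB := k sb
  have SR := k sr
  have SZ := k sz
  have ZA := k za
  have ZB := k zb
  simp only [mu] at A3 B3 R4 AB AR BR SA SB SR ZA ZB SZ ⊢
  obtain ⟨m, m0, ⟨ma, ms⟩, mz⟩ := fix1 ρ zz (fun m => ρ a m = m ∧ ρ s m = m)
    (fun m n h h' => by simp only [map_add, h, h', and_self]) (fun m h => ⟨by
      have e := ZA m
      rw [h.1] at e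
      rw [mu]; nth_rw 1 [e]; exact A3 _, by rw [mu, SZ, h.2]⟩)
    (fix1 ρ ss (fun m => ρ a m = m) (fun m n h h' => by rw [map_add, h, h']) (fun m h => by rw [SA, h]) h1)
  rw [mu] at mz
  have bb : ρ b (ρ b m) = m + ρ b m := by
    have := h0 (m + ρ b m + ρ b (ρ b m)) (by simp only [map_add, AB, ma]) (by simp only [map_add, B3]; abel)
    rw [eq_neg_of_add_eq_zero_right this, ZModModule.neg_eq_self]
  have zb : ρ r (ρ r (ρ b m)) = m + ρ b m := by rw [ZB, mz, bb]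
  let φ := ((LinearMap.toSpanSingleton (ZMod 2) M m).coprod (LinearMap.toSpanSingleton (ZMod 2) M (ρ b m))).coprod
    ((LinearMap.toSpanSingleton (ZMod 2) M (ρ r m)).coprod (LinearMap.toSpanSingleton (ZMod 2) M (ρ r (ρ b m))))
  have hφ : ∀ c, φ c = c.1.1 • m + c.1.2 • ρ b m + (c.2.1 • ρ r m + c.2.2 • ρ r (ρ b m)) := fun _ => rfl
  have pa : ∀ c, ρ a (φ c) = φ (c.1, (c.2.1 + c.2.2, c.2.1)) := fun c => by
    have a1 : ρ a (ρ r m) = ρ r m + ρ r (ρ b m) := by rw [AR, bb, map_add]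
    have a2 : ρ a (ρ r (ρ b m)) = ρ r m := by rw [AR, B3]
    simp only [hφ, map_add, map_smul, AB, ma, a1, a2]; module
  have pb : ∀ c, ρ b (φ c) = φ ((c.1.2, c.1.1 + c.1.2), c.2) := fun c => by
    simp only [hφ, map_add, map_smul, AB, BR, ma, bb]; module
  have pr : ∀ c, ρ r (φ c) = φ ((c.2.1 + c.2.2, c.2.2), c.1) := fun c => by
    simp only [hφ, map_add, map_smul, mz, zb]; module
  have ps : ∀ c, ρ s (φ c) = φ ((c.1.1 + c.1.2, c.1.2), c.2) := fun c => by
    simp only [hφ, map_add, map_smul, SR, SB, ms, bb, mz, zb, ← add_assoc (ρ r m), as, zero_add]; module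
  have sur : Function.Surjective φ := LinearMap.range_eq_top.1 ((hirr _ fun g => by
    refine (gen (St ρ (LinearMap.range φ)) ?_ ?_ ?_ ?_).ge (mem_top g) <;> rintro _ ⟨c, rfl⟩
    exacts [⟨_, (pa c).symm⟩, ⟨_, (pb c).symm⟩, ⟨_, (pr c).symm⟩, ⟨_, (ps c).symm⟩]).resolve_left fun e =>
      m0 ((Submodule.eq_bot_iff _).1 e m ⟨((1, 0), 0), by simp [hφ]⟩))
  have inj : Function.Injective φ := by
    have l0 : ∀ u : ZMod 2 × ZMod 2, φ (u, 0) = 0 → φ ((u.2, u.1 + u.2), 0) = 0 := fun u h => by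
      rw [← pb (u, 0), h, map_zero]
    have l1 : ∀ u : ZMod 2 × ZMod 2, φ (u, 0) = 0 → u = 0 := fun u h => by_contra fun u0 => m0 (by
      have : φ ((1, 0), 0) = 0 := by
        rcases (by decide : ∀ u : ZMod 2 × ZMod 2, u ≠ 0 → u = (1, 0) ∨ (u.2, u.1 + u.2) = (1, 0) ∨
          (u.1 + u.2, u.2 + (u.1 + u.2)) = (1, 0)) u u0 with e | e | e
        exacts [e ▸ h, e ▸ l0 u h, e ▸ l0 _ (l0 u h)]
      simpa [hφ] using this)
    refine (injective_iff_map_eq_zero φ).2 fun ⟨u, v⟩ hc => ?_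
    obtain rfl : u = 0 := (by decide : ∀ u : ZMod 2 × ZMod 2, (u.2, u.1 + u.2) - u = 0 → u = 0) u (l1 _ (by
      have := pb (u, v)
      rw [hc, map_zero] at this
      rw [← sub_self v, ← Prod.mk_sub_mk, map_sub, ← this, hc, sub_self]))
    have := pr (0, v)
    rw [hc, map_zero] at this
    rw [(by decide : ∀ u : ZMod 2 × ZMod 2, (u.1 + u.2, u.2) = 0 → u = 0) v (l1 _ this.symm)]
    rfl
  have e := Equiv.ofBijective φ ⟨inj, sur⟩
  have cf : ∀ (P : M → Prop) (Q : (ZMod 2 × ZMod 2) × (ZMod 2 × ZMod 2) → Prop) [DecidablePred Q], (∀ c, P (φ c) ↔ Q c) →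
      Nat.card {m // P m} = Fintype.card {c // Q c} := fun P Q _ h => by
    rw [← Nat.card_eq_fintype_card]
    exact (Nat.card_congr ((Equiv.ofBijective φ ⟨inj, sur⟩).subtypeEquiv fun c => (h c).symm)).symm
  refine ⟨by rw [← Nat.card_congr e]; simp, ?_, ?_⟩
  · rw [cf _ _ fun c => by simp only [pr, ps, inj.eq_iff]; rfl]; decide
  · rw [cf _ _ fun c => by simp only [pr, ps, inj.eq_iff]; rfl]; decide

open DihedralGroup in
def D (i : ZMod 4) : Subgroup (DihedralGroup 4) where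
  carrier := {g | g = 1 ∨ g = r 2 ∨ g = sr i ∨ g = sr i * r 2}
  one_mem' := Or.inl rfl
  mul_mem' := by intro a b; simp only [Set.mem_ofPred_eq]; revert i a b; decide
  inv_mem' := by intro a; simp only [Set.mem_ofPred_eq]; revert i a; decide

open DihedralGroup in
theorem mem_D {i : ZMod 4} {g : DihedralGroup 4} : g ∈ D i ↔ g = 1 ∨ g = r 2 ∨ g = sr i ∨ g = sr i * r 2 := Iff.rfl

instance (i : ZMod 4) : DecidablePred (· ∈ D i) := fun _ => decidable_of_iff' _ mem_D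

theorem card_D (i : ZMod 4) : Nat.card (D i) = 4 := by
  rw [Nat.card_eq_fintype_card]; revert i; decide

theorem z3 : ∀ x : ZMod 3, x * x + 1 ≠ 0 := by decide

omit [Finite S] in
theorem gen_A {A : Subgroup S} [A.Normal] (hA : IsElementaryAbelian 3 A) (hA9 : Nat.card A = 9) {r u : S} (hu : u ∈ A)
    (u1 : u ≠ 1) (h : r * r * u * (r * r)⁻¹ = u⁻¹) : zpowers u ⊔ zpowers (r * u * r⁻¹) = A := by
  have : Finite A := Nat.finite_of_card_ne_zero (by omega)
  have : Fact (Nat.Prime 3) := ⟨Nat.prime_three⟩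
  have ou := orderOf_eq_prime (hA.2 u hu) u1
  have le : zpowers u ⊔ zpowers (r * u * r⁻¹) ≤ A := sup_le (zpowers_le.2 hu) (zpowers_le.2 (‹A.Normal›.conj_mem u hu r))
  obtain ⟨k, hk, e⟩ := (Nat.dvd_prime_pow Nat.prime_three).1 ((show Nat.card A = 3 ^ 2 from hA9) ▸ card_dvd_of_le le)
  have : Finite (zpowers u ⊔ zpowers (r * u * r⁻¹) : Subgroup S) := Nat.finite_of_card_ne_zero (by rw [e]; positivity)
  refine eq_of_le_of_card_ge le (by_contra fun hc => ?_)
  have := (eq_of_le_of_card_ge (le_sup_left : zpowers u ≤ zpowers u ⊔ zpowers (r * u * r⁻¹)) (by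
    rw [Nat.card_zpowers, ou, e] at *
    interval_cases k <;> omega)).ge (mem_sup_right (mem_zpowers _))
  obtain ⟨k, hk⟩ := this
  have e : u ^ (k * k + 1) = 1 := by
    rw [zpow_add_one, ← eq_inv_iff_mul_eq_one, ← h, zpow_mul, show u ^ k = _ from hk, conj_zpow, show u ^ k = _ from hk]
    group
  rw [← orderOf_dvd_iff_zpow_eq_one, ou] at e
  have := (ZMod.intCast_zmod_eq_zero_iff_dvd _ 3).2 e
  push_cast at this
  exact z3 _ this

open DihedralGroup in
theorem main2 (hirr : ∀ N : Submodule (ZMod 2) M, (∀ s : S, ∀ m ∈ N, ρ s m ∈ N) → N = ⊥ ∨ N = ⊤)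
    {A : Subgroup S} [A.Normal] (hA : IsElementaryAbelian 3 A) (hA9 : Nat.card A = 9) (f : DihedralGroup 4 →* S)
    (hf : Function.Injective f) (hX : A ⊔ f.range = ⊤) (hz : ∀ u ∈ A, f (r 1) * f (r 1) * u * (f (r 1) * f (r 1))⁻¹ = u⁻¹)
    (h0 : ∀ m, (∀ a ∈ A, ρ a m = m) → m = 0) {a : S} (ha : a ∈ A) (a1 : a ≠ 1) (sa : f (sr 0) * a = a * f (sr 0))
    (h1 : ∃ m ≠ 0, ρ a m = m) : Nat.card M = 16 ∧ ∃! B : Subgroup S, B ≤ f.range ∧ Nat.card B = 4 ∧ (∀ b ∈ B, b ^ 2 = 1) ∧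
        Nat.card {m : M // ∀ b ∈ B, ρ b m = m} = 2 := by
  have g := gen_A hA hA9 ha a1 (hz a ha)
  have a3 : a * (a * a) = 1 := by rw [← pow_three, hA.2 a ha]
  obtain ⟨c1, c2, c3⟩ := main ρ hirr (r := f (r 1)) (s := f (sr 0)) (a := a) (b := f (r 1) * a * (f (r 1))⁻¹)
    (fun H ha hb hr hs => top_unique (hX ▸ sup_le (g ▸ sup_le (zpowers_le.2 ha) (zpowers_le.2 hb)) (by
      rintro _ ⟨x | x, rfl⟩
      · rw [← ZMod.natCast_zmod_val x, ← r_one_pow, map_pow]; exact pow_mem hr _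
      · rw [← zero_add x, ← sr_mul_r, ← ZMod.natCast_zmod_val x, ← r_one_pow, map_mul, map_pow]
        exact mul_mem hs (pow_mem hr _))))
    (by simp only [← map_mul]; exact map_one f) (by simp only [← map_mul]; exact map_one f)
    (by simp only [← map_mul]; rfl) a3
    (congrArg Subtype.val (hA.1.is_comm.comm (⟨a, ha⟩ : A) ⟨_, ‹A.Normal›.conj_mem a ha _⟩)) (by simp)
    (by rw [← inv_eq_of_mul_eq_one_right a3, ← hz a ha]; group) sa (fun m e1 e2 => h0 m fun x hx =>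
      (g.ge.trans (sup_le (zpowers_le.2 e1) (zpowers_le.2 e2)) :
        A ≤ (MulAction.stabilizer (M ≃ₗ[ZMod 2] M) m).comap
          ((LinearMap.GeneralLinearGroup.generalLinearEquiv _ M).toMonoidHom.comp ρ.toHomUnits)) hx) h1
  have k : ∀ i, Nat.card {m : M // ∀ b ∈ (D i).map f, ρ b m = m} =
      Nat.card {m : M // ρ (f (r 1) * f (r 1)) m = m ∧ ρ (f (sr i)) m = m} := fun i =>
    Nat.card_congr (Equiv.subtypeEquivRight fun m => ⟨fun h => ⟨h _ ⟨r 2, by simp [mem_D], map_mul f (r 1) (r 1)⟩,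
      h _ ⟨sr i, by simp [mem_D], rfl⟩⟩, by
        rintro ⟨e1, e2⟩ _ ⟨x, rfl | rfl | rfl | rfl, rfl⟩
        · simp
        · exact map_mul f (r 1) (r 1) ▸ e1
        · exact e2
        · rw [map_mul, map_mul, Module.End.mul_apply, show ρ (f (r 2)) m = m from map_mul f (r 1) (r 1) ▸ e1, e2]⟩)
  refine ⟨c1, (D 1).map f, ⟨map_le_range .., by rw [card_map_of_injective hf, card_D], ?_, ?_⟩, fun B ⟨b1, b2, b3, b4⟩ => ?_⟩
  · rintro _ ⟨x, hx, rfl⟩
    rw [← map_pow, (by decide : ∀ x ∈ D 1, x ^ 2 = 1) x hx, map_one]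
  · rw [← map_mul f (sr 0)] at c2
    exact (k 1).trans c2
  obtain ⟨B, rfl⟩ : ∃ C : Subgroup (DihedralGroup 4), C.map f = B := ⟨B.comap f, map_comap_eq_self b1⟩
  rw [card_map_of_injective hf] at b2
  have b3 : ∀ x ∈ B, x ^ 2 = 1 := fun x hx => hf (by rw [map_pow, b3 _ ⟨x, hx, rfl⟩, map_one])
  by_cases e : B ≤ D 0
  · rw [eq_of_le_of_card_ge e (by rw [b2, card_D]), k] at b4
    exact absurd b4 c3
  obtain ⟨x, hx, x0⟩ := SetLike.not_le_iff_exists.1 e
  rw [eq_of_le_of_card_ge (fun y hy => ((by decide : ∀ x y : DihedralGroup 4, x ^ 2 = 1 → y ^ 2 = 1 →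
    (x * y) ^ 2 = 1 → x ∈ D 0 ∨ y ∈ D 1) x y (b3 x hx) (b3 y hy) (b3 _ (mul_mem hx hy))).resolve_left x0 : B ≤ D 1)
    (by rw [b2, card_D])]
end

/-- Let S be a finite group with a normal elementary abelian subgroup A of order 9 that is self-centralizing (C_S(A) = A), and a dihedral subgroup X of order 8 with S = AX. Let M be a finite-dimensional module for S over the field with two elements that is faithful and irreducible. Then M has 16 elements, and X contains exactly one subgroup B of order 4 and exponent 2 whose fixed points on M form a subspace with exactly 2 elements (equivalently, M is free of rank one over the group algebra of B). -/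
theorem result {S : Type*} [Group S] [Finite S]
    (A : Subgroup S) [A.Normal] (hA : Cfsg.IsElementaryAbelian 3 A) (hA9 : Nat.card ↥A = 9)
    (hAC : Subgroup.centralizer (A : Set S) = A) (X : Subgroup S) (hX : Nonempty (↥X ≃* DihedralGroup 4)) (hAX : A ⊔ X = ⊤)
    {M : Type*} [AddCommGroup M] [Module (ZMod 2) M] [Finite M] (ρ : Representation (ZMod 2) S M)
    (hfaith : Function.Injective ρ)
    (hirr : ∀ N : Submodule (ZMod 2) M, (∀ s : S, ∀ m ∈ N, ρ s m ∈ N) → N = ⊥ ∨ N = ⊤) (hM : Nontrivial M) :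
    Nat.card M = 16 ∧
      ∃! B : Subgroup S, B ≤ X ∧ Nat.card ↥B = 4 ∧ (∀ b ∈ B, b ^ 2 = 1) ∧
        Nat.card {m : M // ∀ b ∈ B, ρ b m = m} = 2 := by
  obtain ⟨e⟩ := hX
  obtain ⟨f, hf, rfl⟩ : ∃ f : DihedralGroup 4 →* S, Function.Injective f ∧ f.range = X :=
    ⟨X.subtype.comp e.symm.toMonoidHom, X.subtype_injective.comp e.symm.injective, by
      rw [MonoidHom.range_comp, MonoidHom.range_eq_top.2 e.symm.surjective, ← MonoidHom.range_eq_map, range_subtype]⟩
  have cm : ∀ a ∈ A, ∀ b ∈ A, a * b = b * a := fun a ha b hb =>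
    congrArg Subtype.val (hA.1.is_comm.comm (⟨a, ha⟩ : A) ⟨b, hb⟩)
  have cj := ‹A.Normal›.conj_mem
  have fa : ∀ x, x ^ 2 = 1 → (∀ a ∈ A, f x * a * (f x)⁻¹ = a) → x = 1 := fun x h2 h => hf (by
    have h3 := hA.2 _ (hAC.le fun a ha => (mul_inv_eq_iff_eq_mul.1 (h a ha)).symm)
    rwa [pow_succ, ← map_pow, h2, map_one, one_mul, ← map_one f] at h3)
  have inv1 : ∀ a ∈ A, a = a⁻¹ → a = 1 := fun a ha h => by
    have := hA.2 a ha
    rwa [pow_succ, sq, eq_inv_iff_mul_eq_one.1 h, one_mul] at this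
  set r := f (.r 1) with hr
  have zz : r * r * (r * r) = 1 := by simp only [hr, ← map_mul]; exact map_one f
  have hz : ∀ u ∈ A, r * r * u * (r * r)⁻¹ = u⁻¹ := by
    obtain ⟨x, hx, h⟩ : ∃ a ∈ A, r * r * a * (r * r)⁻¹ ≠ a := by
      by_contra! h
      exact absurd (fa (.r 1 * .r 1) (by decide) (by rwa [map_mul])) (by decide)
    have h1 : r * r * (x⁻¹ * (r * r * x * (r * r)⁻¹)) * (r * r)⁻¹ = (x⁻¹ * (r * r * x * (r * r)⁻¹))⁻¹ := by
      generalize r * r = z at zz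
      calc _ = (z * x * z⁻¹)⁻¹ * (z * z * x * (z * z)⁻¹) := by group
        _ = _ := by rw [zz]; group
    have hu := mul_mem (inv_mem hx) (cj x hx (r * r))
    have g := gen_A hA hA9 hu (fun e => h (inv_mul_eq_one.1 e).symm) h1
    generalize x⁻¹ * (r * r * x * (r * r)⁻¹) = u at *
    let V : Subgroup S := ⟨⟨⟨{u | u ∈ A ∧ r * r * u * (r * r)⁻¹ = u⁻¹}, fun {a b} ha hb => ⟨mul_mem ha.1 hb.1, by
      rw [← conj_mul, ha.2, hb.2, cm a ha.1 b hb.1, mul_inv_rev]⟩⟩, ⟨one_mem _, by simp⟩⟩,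
      fun {a} ha => ⟨inv_mem ha.1, by rw [← conj_inv, ha.2]⟩⟩
    exact fun v hv => ((g.ge.trans (sup_le (zpowers_le.2 ⟨hu, h1⟩) (zpowers_le.2 ⟨cj u hu r, by
      rw [conj_inv, ← h1]; group⟩)) : A ≤ V) hv).2
  have h0 : ∀ m, (∀ a ∈ A, ρ a m = m) → m = 0 := fun m hm => by
    let N : Submodule (ZMod 2) M := ⨅ a ∈ A, LinearMap.eqLocus (ρ a) LinearMap.id
    have mN : ∀ m, m ∈ N ↔ ∀ a ∈ A, ρ a m = m := fun m => by simp [N, Submodule.mem_iInf]
    rcases hirr N fun s m hm => (mN _).2 fun a ha => by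
        rw [← Module.End.mul_apply, ← map_mul, show a * s = s * (s⁻¹ * a * s⁻¹⁻¹) by group, map_mul, Module.End.mul_apply,
          (mN m).1 hm _ (cj a ha _)] with h | h
    · exact (Submodule.eq_bot_iff _).1 h m ((mN m).2 hm)
    have : A = ⊥ := (eq_bot_iff_forall _).2 fun a ha => hfaith (by
      ext m; rw [(mN m).1 (h ▸ Submodule.mem_top) a ha, map_one]; rfl)
    rw [this, card_bot] at hA9
    omega
  set s := f (.sr 0) with hs
  have ss : s * s = 1 := by simp only [hs, ← map_mul]; exact map_one f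
  obtain ⟨a, ha, a1, sa⟩ : ∃ a ∈ A, a ≠ 1 ∧ s * a = a * s := by
    obtain ⟨x, hx, h⟩ : ∃ a ∈ A, s * a * s⁻¹ ≠ a⁻¹ := by
      by_contra! h
      refine absurd (fa (.sr 0 * (.r 1 * .r 1)) (by decide) fun a ha => ?_) (by decide)
      rw [map_mul, map_mul, ← hr, ← hs]
      calc _ = s * (r * r * a * (r * r)⁻¹) * s⁻¹ := by group
        _ = _ := by rw [hz a ha, h _ (inv_mem ha), inv_inv]
    refine ⟨x * (s * x * s⁻¹), mul_mem hx (cj x hx s), fun e => h (eq_inv_of_mul_eq_one_right e), ?_⟩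
    rw [← mul_inv_eq_iff_eq_mul, cm x hx _ (cj x hx s)]
    calc _ = s * s * x * (s * s)⁻¹ * (s * x * s⁻¹) := by group
      _ = _ := by rw [ss, one_mul, inv_one, mul_one, cm x hx _ (cj x hx s)]
  by_cases h1 : ∃ m ≠ 0, ρ a m = m
  · exact main2 ρ hirr hA hA9 f hf hAX hz h0 ha a1 sa h1
  let σ : DihedralGroup 4 →* DihedralGroup 4 := .mk' (fun g => match g with | .r i => .r i | .sr i => .sr (i + 1)) (by decide)
  have hσ : Function.Bijective σ := by decide
  have e : (f.comp σ).range = f.range := by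
    rw [MonoidHom.range_comp, MonoidHom.range_eq_top.2 hσ.2, ← MonoidHom.range_eq_map]
  have hb := cj a ha r
  have rb : r * (r * a * r⁻¹) * r⁻¹ = a⁻¹ := by rw [← hz a ha]; group
  have sr : s * r = r * (r * r) * s := by simp only [hr, hs, ← map_mul]; rfl
  have sb : s * (r * a * r⁻¹) * s⁻¹ = (r * a * r⁻¹)⁻¹ := by
    calc _ = s * r * a * (s * r)⁻¹ := by group
      _ = r * (r * r * (s * a * s⁻¹) * (r * r)⁻¹) * r⁻¹ := by rw [sr]; group
      _ = _ := by rw [sa, mul_inv_cancel_right, hz a ha]; group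
  have K : ∀ u g, (∀ m, ρ u m = m → m = 0) → ∀ m, ρ (g * u * g⁻¹) m = m → m = 0 := fun u g h m hm => by
    rw [← hm, map_mul, map_mul, Module.End.mul_apply, Module.End.mul_apply, h (ρ g⁻¹ m), map_zero, map_zero]
    nth_rw 2 [← hm]
    simp only [← Module.End.mul_apply, ← map_mul, ← mul_assoc, inv_mul_cancel, one_mul]
  have Ka : ∀ m, ρ a m = m → m = 0 := fun m hm => by_contra fun m0 => h1 ⟨m, m0, hm⟩
  have Kb := K a r Ka
  generalize hb' : r * a * r⁻¹ = b at hb rb sb Kb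
  have mu : ∀ g h m, ρ (g * h) m = ρ g (ρ h m) := fun g h m => by rw [map_mul]; rfl
  rw [← e]
  refine main2 ρ hirr hA hA9 (f.comp σ) (hf.comp hσ.1) (e ▸ hAX) hz h0 (mul_mem ha (inv_mem hb)) (fun e => ?_) ?_ ?_
  · rw [← mul_inv_eq_one.1 e] at sb
    exact a1 (inv1 a ha (by rw [← sb, sa, mul_inv_cancel_right]))
  · change f (.sr 0 * .r 1) * _ = _ * f (.sr 0 * .r 1)
    rw [map_mul, ← hr, ← hs, ← mul_inv_eq_iff_eq_mul]
    calc _ = s * (r * a * r⁻¹) * s⁻¹ * (s * (r * b * r⁻¹)⁻¹ * s⁻¹) := by group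
      _ = _ := by rw [hb', rb, sb, inv_inv, sa, mul_inv_cancel_right, cm a ha _ (inv_mem hb)]
  by_contra! h2
  have Kc : ∀ m, ρ (a * b⁻¹) m = m → m = 0 := fun m hm => by_contra fun m0 => h2 m m0 hm
  have Kd := K _ r Kc
  rw [← conj_mul, ← conj_inv, hb', rb, inv_inv] at Kd
  have q : ∀ u ∈ A, (∀ m, ρ u m = m → m = 0) → ∀ m, ρ u (ρ u m) = ρ u m + m := fun u hu h m => by
    have := h (ρ u (ρ u m) + (ρ u m + m)) (by
      rw [map_add, map_add, ← mu, ← mu, mul_assoc, ← pow_three, hA.2 u hu, map_one, Module.End.one_apply]; abel)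
    rw [eq_neg_of_add_eq_zero_left this, ZModModule.neg_eq_self]
  obtain ⟨m, m0⟩ := exists_ne (0 : M)
  have AB : ∀ m, ρ a (ρ b m) = ρ b (ρ a m) := fun m => by rw [← mu, cm a ha b hb, mu]
  have as := ZModModule.add_self (G := M)
  have h3 := Kc (ρ b (ρ a m + ρ b m + m)) (by
    rw [← mu, inv_mul_cancel_right]
    simp only [map_add, q a ha Ka, q b hb Kb, AB]
    calc _ = ρ a m + ρ a m + (ρ b (ρ a m) + m) := by abel
      _ = ρ b m + ρ b m + (ρ b (ρ a m) + m) := by rw [as, as]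
      _ = _ := by abel)
  refine m0 (Kd m ?_)
  simp only [map_add, q b hb Kb] at h3
  rw [mu, ← ZModModule.neg_eq_self m, eq_neg_iff_add_eq_zero, ZModModule.neg_eq_self m, ← h3, add_assoc, add_comm (ρ b m),
    add_assoc, as, add_zero]

end Cfsg.Agent.S4407
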