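import Cfsg.Statements.S4408
import Cfsg.Agent.H17.Sm2

set_option autoImplicit false
open Cfsg

namespace Cfsg.Agent.S4408

open H117 H18 H1 Subgroup

theorem inv_mem {G : Type*} [Group G] [Finite G] {a x y : G} (e : a * x * a⁻¹ = x⁻¹) (hy : y ∈ zpowers x) :
    a * y * a⁻¹ = y⁻¹ := by
  obtain ⟨k, rfl⟩ := hy
  simp only [← conj_zpow, e, inv_zpow']
  rw [zpow_neg]

theorem triv {G : Type*} [Group G] [Finite G] {a x y : G} (e : a * x * a⁻¹ = x⁻¹) (ho : Odd (orderOf x))
    (hy : y ∈ zpowers x) (h : a ∈ C1(y)) : y = 1 := by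
  have h1 := inv_mem e hy
  rw [conj_eq_self_of_C1 h] at h1
  have h2 : y ^ 2 = 1 := by rw [pow_two]; nth_rewrite 1 [h1]; exact inv_mul_cancel y
  have h3 : orderOf y ∣ orderOf x := orderOf_dvd_of_mem_zpowers hy
  exact orderOf_eq_one_iff.1 (Nat.eq_one_of_dvd_coprimes (Nat.coprime_two_left.2 ho) (orderOf_dvd_of_pow_eq_one h2) h3)

theorem faith {G : Type*} [Group G] [Finite G] {A : Subgroup G} {n : ℕ} (hA : Nat.card A = 2 ^ n) {a y : Fin n → G}
    (h1 : ∀ i, a i ∈ A ∧ Eig A (y i) ∧ a i ∉ C1(y i)) (h2 : ∀ i j, i ≠ j → a j ∈ C1(y i)) {b : G} (hb : b ∈ A)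
    (h : ∀ i, b ∈ C1(y i)) : b = 1 := by
  classical
  let φ : A →* (Fin n → ℤˣ) := MonoidHom.mk' (fun c i => if (c : G) ∈ C1(y i) then 1 else -1) fun c d => by
    funext i
    simp only [Pi.mul_apply, coe_mul]
    by_cases p : (c : G) ∈ C1(y i) <;> by_cases q : (d : G) ∈ C1(y i)
    · simp [p, q, mul_mem p q]
    · simp [p, q, mul_mem_cancel_left p]
    · simp [p, q, mul_mem_cancel_right q]
    · simp [p, q, (h1 i).2.1.mul c.2 d.2 p q]
  have hs : Function.Surjective φ := by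
    intro v
    change v ∈ φ.range
    rw [← Finset.univ_prod_mulSingle v]
    refine prod_mem fun i _ => ?_
    rcases Int.units_eq_one_or (v i) with e | e
    · rw [e, Pi.mulSingle_one]; exact one_mem _
    · refine ⟨⟨a i, (h1 i).1⟩, funext fun j => ?_⟩
      by_cases q : j = i
      · subst q; simp [φ, e, (h1 j).2.2]
      · simp [φ, h2 j i q, Pi.mulSingle_eq_of_ne q]
  have hi := (Function.Surjective.bijective_of_nat_card_le hs (by simp [hA])).1
  exact congrArg Subtype.val (hi (a₁ := ⟨b, hb⟩) (a₂ := 1) (by rw [map_one]; funext i; simp [φ, h i]))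

/-- Let S be a finite solvable group whose Fitting subgroup F(S) has odd order, and let I be an elementary abelian 2-subgroup of S of order 2ⁿ with n ≥ 1. Then F(S) contains subgroups A₁, …, Aₙ of prime order, each normalized by I, pairwise commuting and generating a subgroup A of order |A₁|⋯|Aₙ| (their internal direct product), such that no non-identity element of I centralizes A. -/
theorem result {S : Type*} [Group S] [Finite S]
    [Group.IsSolvable S] (hF : Odd (Nat.card ↥(Cfsg.fittingSubgroup S)))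
    (I : Subgroup S) (hI : Cfsg.IsElementaryAbelian 2 I) (n : ℕ) (hn : 1 ≤ n) (hIn : Nat.card ↥I = 2 ^ n) :
    ∃ f : Fin n → Subgroup S, (∀ i, (Nat.card ↥(f i)).Prime) ∧ (∀ i, f i ≤ Cfsg.fittingSubgroup S) ∧
      (∀ i, I ≤ Subgroup.normalizer ((f i) : Set S)) ∧ (∀ i j, i ≠ j → ∀ a ∈ f i, ∀ b ∈ f j, a * b = b * a) ∧
      Nat.card ↥(⨆ i, f i) = ∏ i, Nat.card ↥(f i) ∧ I ⊓ Subgroup.centralizer ((⨆ i, f i : Subgroup S) : Set S) = ⊥ := by
  classical
  have hA : Elem 2 I := ⟨abel_iff.2 hI.1, hI.2⟩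
  have hc : (Nat.card I).Coprime (Nat.card (fittingSubgroup S)) := by
    rw [hIn]; exact (Nat.coprime_two_left.2 hF).pow_left _
  have hs : Solv (fittingSubgroup S) := inferInstance
  have h : Cop I (fittingSubgroup S) := ⟨by rw [← fit_top]; exact norm_fit (by simp), hc, Or.inr hs⟩
  have hf : I ⊓ C(fittingSubgroup S) = ⊥ := by
    have h1 := inf_centralizer_map_fitting_le (⊤ : Subgroup S)
    change ⊤ ⊓ C(F(⊤)) ≤ F(⊤) at h1
    rw [fit_top, top_inf_eq] at h1
    exact le_bot_iff.1 ((inf_le_inf_left _ h1).trans (disjoint_of_coprime_natCard hc).le_bot)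
  obtain ⟨M, hM, m1, m2, m3⟩ := exists_abel_faith hA h hF hs hf
  obtain ⟨a, x, h1, h2, -⟩ := tdl_aux hA (h.sub hM m2) (hF.of_dvd_nat (card_dvd_of_le hM)) m3 n I le_rfl hIn
  have ox : ∀ i, Odd (orderOf (x i)) := fun i => hF.of_dvd_nat ((fittingSubgroup S).orderOf_dvd_natCard (hM (h1 i).2.1))
  have ex : ∀ i, a i * x i * (a i)⁻¹ = (x i)⁻¹ := fun i => ((h1 i).2.2.1 _ (h1 i).1).resolve_left (h1 i).2.2.2
  have : ∀ i, ∃ y ∈ zpowers (x i), (orderOf y).Prime := fun i => by
    have h0 : orderOf (x i) ≠ 1 := fun e => (h1 i).2.2.2 (by rw [orderOf_eq_one_iff.1 e, C1_one]; trivial)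
    have := Fact.mk (Nat.minFac_prime h0)
    obtain ⟨y, hy⟩ := exists_prime_orderOf_dvd_card' (G := zpowers (x i)) (orderOf (x i)).minFac
      (by rw [Nat.card_zpowers]; exact Nat.minFac_dvd _)
    exact ⟨y, y.2, by rw [orderOf_coe, hy]; exact this.out⟩
  choose y hy py using this
  have yM : ∀ i, zpowers (y i) ≤ M := fun i => zpowers_le.2 (zpowers_le.2 (h1 i).2.1 (hy i))
  have ey : ∀ i, Eig I (y i) := fun i c hc => ((h1 i).2.2.1 c hc).imp (fun e => C1_le_of_mem_zpowers (hy i) e)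
    fun e => inv_mem e (hy i)
  have hc2 : ∀ i j, i ≠ j → a j ∈ C1(y i) := fun i j e => C1_le_of_mem_zpowers (hy i) (h2 i j e)
  have cm : ∀ i j, ∀ u ∈ zpowers (y i), ∀ v ∈ zpowers (y j), u * v = v * u := fun i j u hu v hv =>
    cent_iff.1 m1 u (yM i hu) v (yM j hv)
  refine ⟨fun i => zpowers (y i), fun i => by rw [Nat.card_zpowers]; exact py i, fun i => (yM i).trans hM,
    fun i => (ey i).norm, fun i j _ => cm i j, ?_, ?_⟩
  · have hcm : Pairwise fun i j : Fin n => ∀ u v : S, u ∈ zpowers (y i) → v ∈ zpowers (y j) → Commute u v :=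
      fun i j _ u v hu hv => cm i j u hu v hv
    rw [← noncommPiCoprod_range (hcomm := hcm), ← Nat.card_pi]
    refine (Nat.card_congr (MonoidHom.ofInjective (injective_noncommPiCoprod_of_iSupIndep ?_)).toEquiv).symm
    intro i
    have h3 : (⨆ j, ⨆ (_ : j ≠ i), zpowers (y j)) ≤ C1(a i) :=
      iSup₂_le fun j e => zpowers_le.2 (mem_C1_comm.1 (hc2 j i e))
    exact Subgroup.disjoint_def.2 fun {u} hu hv =>
      triv (ex i) (ox i) (zpowers_le.2 (hy i) hu) (mem_C1_comm.1 (h3 hv))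
  · refine eq_bot_iff.2 fun b hb => mem_bot.2 (faith hIn (a := a) (y := y) (fun i => ⟨(h1 i).1, ey i, fun e => ?_⟩)
      hc2 hb.1 fun i => C_le_C1 (le_iSup (fun j => zpowers (y j)) i (mem_zpowers _)) hb.2)
    exact (py i).one_lt.ne' (orderOf_eq_one_iff.2 (triv (ex i) (ox i) (hy i) e))

end Cfsg.Agent.S4408
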