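import Cfsg.Statements.S4409
import Cfsg.Agent.H22.A8
import Cfsg.Agent.S0095

set_option autoImplicit false
open Cfsg

namespace Cfsg.Agent.S4409

open H18 Subgroup H22.A8

/-- Let S be a finite solvable group with O_{2'}(S) = 1 that contains a non-cyclic abelian subgroup of order 8, while no proper subgroup of S of 2-power index contains one. Then a Sylow 2-subgroup X of S is normal in S, and one of the following holds: X is abelian; X is extraspecial of order at least 32; X has a generalized quaternion subgroup X₀ of index 2 with X = X₀·C_X(X₀); or X is special with centre of order 4. -/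
theorem result {S : Type*} [Group S] [Finite S]
    [Group.IsSolvable S] (hO : Cfsg.pPrimeCore 2 S = ⊥)
    (h8 : ∃ A : Subgroup S, IsMulCommutative ↥A ∧ ¬ IsCyclic ↥A ∧ Nat.card ↥A = 8)
    (hmin : ∀ R : Subgroup S, R ≠ ⊤ → (∃ k : ℕ, R.index = 2 ^ k) →
      ¬ ∃ A : Subgroup S, A ≤ R ∧ IsMulCommutative ↥A ∧ ¬ IsCyclic ↥A ∧ Nat.card ↥A = 8)
    (X : Sylow 2 S) :
    (X : Subgroup S).Normal ∧
      (IsMulCommutative ↥X ∨
        (Cfsg.IsExtraspecial 2 ↥X ∧ 32 ≤ Nat.card ↥X) ∨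
        (∃ (X₀ : Subgroup S) (k : ℕ), X₀ ≤ (X : Subgroup S) ∧ X₀.relIndex (X : Subgroup S) = 2 ∧
          Nonempty (↥X₀ ≃* QuaternionGroup (2 ^ (k + 1))) ∧ X₀ ⊔ ((X : Subgroup S) ⊓ Subgroup.centralizer (X₀ : Set S)) = (X : Subgroup S)) ∨
        (Cfsg.IsSpecial 2 ↥X ∧ Nat.card ↥(Subgroup.center ↥X) = 4)) := by
  have two := Nat.prime_two
  have hs : Solv (⊤ : Subgroup S) := inferInstance
  rw [pPrimeCore_eq two] at hO
  have hC := H1.cent_fit_le hs
  rw [fit_eq_pcore hO, top_inf_eq] at hC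
  obtain ⟨H, hH⟩ := H23.hall_exists {2}ᶜ hs
  obtain ⟨A, a1, a2, a3⟩ := h8
  have hm : ∀ Y : Subgroup S, Y ⊔ H ≠ ⊤ → No8 Y := fun Y h B b1 b2 b3 => by
    by_contra b4
    obtain ⟨k, hk⟩ := (hH.idx_of_le (le_sup_right : H ≤ Y ⊔ H)).of_compl_compl.eq_pow relIndex_ne_zero
    exact hmin _ h ⟨k, by rwa [relIndex_top_right] at hk⟩ ⟨B, b1.trans le_sup_left, b2.comm, b4, b3⟩
  have nQ : ∀ K : Subgroup S, K ≤ N(O[{2}]((⊤ : Subgroup S))) := fun K => le_top.trans pcore_nml.norm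
  have pQ : PiGrp {2} O[{2}]((⊤ : Subgroup S)) := pcore_pi
  have n8 : ¬ No8 O[{2}]((⊤ : Subgroup S)) := fun h => by
    by_cases d : H ≤ C(O[{2}]((⊤ : Subgroup S)))
    · have : H = ⊥ := card_eq_one.1 ((pQ.of_le (d.trans hC)).eq_one hH.pi)
      rw [this] at hH
      exact a2 (h A (le_top.trans (le_pcore Nml.rfl hH.compl_of_eq_bot.of_compl_compl)) (abel_of_comm a1) a3)
    · exact not_act8 hC (nQ A) (abel_of_comm a1) a3 a2 (h.act pQ hH.pi (nQ H) d)
  have e : O[{2}]((⊤ : Subgroup S)) ⊔ H = ⊤ := by_contra fun d => n8 (hm _ d)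
  have hQ := hall_of_sup pQ hH.pi (.inr (nQ H))
  rw [e] at hQ
  have eX := hQ.eq_of_nml (nQ ⊤) (hall_sylow_top two X)
  rw [← eX] at nQ pQ n8 hQ
  refine ⟨norm_top_iff.1 (nQ ⊤), ?_⟩
  by_cases hna : Abel (X : Subgroup S)
  · exact .inl hna.comm
  rcases main8 pQ hH.pi (nQ H) n8 (fun Y h1 h2 => hm Y fun d => by
    have := hall_of_sup (pQ.of_le h1.le) hH.pi (.inr h2)
    rw [d] at this
    exact h1.ne' (this.eq_of_le h1.le le_top pQ)) hna with ⟨h1, h2, h3⟩ | ⟨N, x, h1, h2, h3, h4⟩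
  · have sp := (H21.isSpecial_iff two).2 ⟨pQ, h1, h2⟩
    rw [← H21.map_center, card_map_subtype] at h3
    rcases h3 with h3 | h3
    · refine .inr (.inl ⟨⟨sp, h3⟩, ?_⟩)
      obtain ⟨n, n1, n2⟩ := S0095.result ⟨sp, h3⟩
      simp only [No8, not_forall] at n8
      obtain ⟨B, b1, b2, b3, -⟩ := n8
      have := card_lt (lt_of_le_of_ne b1 fun d => hna (d ▸ b2))
      rw [b3, n2] at this; refine le_of_le_of_eq ?_ n2.symm
      rcases n1.eq_or_lt with rfl | n1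
      · omega
      · exact Nat.pow_le_pow_right (n := 2) (i := 5) two.pos (by omega)
    · exact .inr (.inr (.inr ⟨sp, h3⟩))
  · exact .inr (.inr (.inl ⟨N, 0, h2, h3, h1.1.equiv_quaternion h1.2, h4⟩))

end Cfsg.Agent.S4409
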