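import Cfsg.Statements.S4410
import Cfsg.Agent.H3.B3
import Cfsg.Agent.H18.Cyc
import Cfsg.Agent.H18.BG1

set_option autoImplicit false
open Cfsg

namespace Cfsg.Agent.S4410

/-- Let V be a finite-dimensional vector space over the field with two elements and S a solvable group of linear automorphisms of V with O₂(S) = 1. If P ∈ S has order 4 and (P − 1)³ = 0 on V, then the image of (P − 1)² has at least 4 elements; equivalently, in the decomposition of V into indecomposable modules for the cyclic group generated by P, at least two summands have dimension 3. -/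
theorem result
    {V : Type*} [AddCommGroup V] [Module (ZMod 2) V] [Finite V]
    (S : Subgroup (V ≃ₗ[ZMod 2] V)) (hS : Group.IsSolvable ↥S) (hO2 : Cfsg.pCore 2 ↥S = ⊥)
    (P : V ≃ₗ[ZMod 2] V) (hPS : P ∈ S) (hP4 : orderOf P = 4)
    (hcub : ((P : V →ₗ[ZMod 2] V) - LinearMap.id) ^ 3 = 0) :
    4 ≤ Nat.card ↥(LinearMap.range (((P : V →ₗ[ZMod 2] V) - LinearMap.id) ^ 2)) := by
  open Subgroup H18 Module in
  have : Finite (V ≃ₗ[ZMod 2] V) := Finite.of_injective _ DFunLike.coe_injective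
  have : Module.Finite (ZMod 2) V := Module.Finite.of_finite
  by_contra hn
  let K : Submodule (ZMod 2) V → Subgroup S := fun W =>
    { carrier := {g | ∀ v, g.1 v - v ∈ W}
      one_mem' := fun v => by simp
      mul_mem' := fun {a b} ha hb v => by simpa using W.add_mem (ha (b.1 v)) (hb v)
      inv_mem' := fun {a} ha v => by simpa using W.neg_mem (ha (a.1⁻¹ v)) }
  have Km : ∀ {W W'}, W ≤ W' → K W ≤ K W' := fun h g hg v => h (hg v)
  have key : ∀ (R : Subgroup S) (W : Submodule (ZMod 2) V) (n : ℕ), PiGrp {2}ᶜ R → R ≤ K W → finrank (ZMod 2) W ≤ n →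
      Nat.card R ∣ ∏ i : Fin n, (2 ^ n - 2 ^ (i : ℕ)) := fun R W n h1 h2 h3 => by
    let ρ : Representation (ZMod 2) R V := (LinearEquiv.automorphismGroup.toLinearMapMonoidHom.comp S.subtype).comp R.subtype
    have hW : ∀ g, W ≤ W.comap (ρ g) := fun g v hv => by
      have := W.add_mem (h2 g.2 v) hv
      rwa [sub_add_cancel] at this
    obtain ⟨f, hf⟩ := H3.DL.exists_GL (ρ.subrepresentation W hW) ((injective_iff_map_eq_one _).2 fun g hg => by
      have := H3.DL.eq_one_of_sq (K := ZMod 2) (p := orderOf g) (a := ρ g) (m := 1) (by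
        rw [Ne, ZMod.natCast_eq_zero_iff]
        exact (h1.of_dvd (orderOf_dvd_natCard g)).not_dvd' Nat.prime_two rfl)
        (by rw [pow_one, ← map_pow, pow_orderOf_eq_one, map_one])
        (H3.DL.mul_eq_zero_of_triv ρ W hW hg (LinearMap.ext fun v => by
          obtain ⟨v, rfl⟩ := Submodule.Quotient.mk_surjective W v
          exact (Submodule.Quotient.eq W).2 (h2 g.2 v)))
      exact Subtype.ext (Subtype.ext (LinearEquiv.ext fun v => LinearMap.congr_fun this v))) h3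
    have := card_dvd_of_injective f hf
    rwa [Matrix.card_GL_field, ZMod.card] at this
  let a : S := ⟨P, hPS⟩
  have a4 : orderOf a = 4 := by rw [← hP4, ← Subgroup.orderOf_coe]
  have t2 : orderOf (a ^ 2) = 2 := by rw [orderOf_pow' _ two_ne_zero, a4]; rfl
  have tt : a ^ 2 * a ^ 2 = 1 := by rw [← pow_add]; exact orderOf_dvd_iff_pow_eq_one.1 a4.dvd
  set T := LinearMap.range (((P : V →ₗ[ZMod 2] V) - LinearMap.id) ^ 2) with hT
  have T1 : finrank (ZMod 2) T ≤ 1 := by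
    rw [Module.natCard_eq_pow_finrank (K := ZMod 2), Nat.card_zmod] at hn
    exact Nat.le_of_lt_succ ((Nat.pow_lt_pow_iff_right (by norm_num : 1 < 2)).1 (not_le.1 hn))
  have tK : a ^ 2 ∈ K T := fun v => ⟨v, by
    have : ∀ w : V, w + w = 0 := fun w => by rw [← two_smul (ZMod 2), show (2 : ZMod 2) = 0 from rfl, zero_smul]
    simp only [pow_two, Module.End.mul_apply, LinearMap.sub_apply, LinearMap.id_apply, map_sub, a]
    rw [sub_sub_sub_eq, add_sub_assoc, this, sub_zero, sub_eq_add_neg, neg_eq_of_add_eq_zero_left (this v)]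
    rfl⟩
  have cK : ∀ f : S, f * a ^ 2 * f⁻¹ ∈ K (T.map (f.1 : V →ₗ[ZMod 2] V)) := fun f v =>
    ⟨_, tK (f.1⁻¹ v), by simp⟩
  have T2 : ∀ f : S, finrank (ZMod 2) (T.map (f.1 : V →ₗ[ZMod 2] V)) ≤ 1 := fun f =>
    (Submodule.finrank_map_le _ _).trans T1
  have hF : PiGrp {2}ᶜ F((⊤ : Subgroup S)) := by
    have := (fit_nil (H := (⊤ : Subgroup S))).pcore_hall (π := {2})
    rw [pcore_fit, ← pCore_eq Nat.prime_two, hO2] at this
    exact this.compl_of_eq_bot
  have nF := (fit_nml (H := (⊤ : Subgroup S))).normal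
  obtain ⟨f, hf, hx⟩ : ∃ f ∈ F((⊤ : Subgroup S)), f * a ^ 2 * f⁻¹ * a ^ 2 ≠ 1 := by
    by_contra h
    push Not at h
    have : a ^ 2 ∈ F((⊤ : Subgroup S)) := cent_sub_Fitting (H := ⊤) inferInstance (mem_inf.2 ⟨mem_top _,
      mem_C.2 fun f hf => by
        rw [← mul_inv_eq_iff_eq_mul, eq_inv_of_mul_eq_one_left (h f hf), inv_eq_of_mul_eq_one_right tt]⟩)
    exact (hF.elt this).not_dvd' Nat.prime_two rfl t2.symm.dvd
  have mF : ∀ f ∈ F((⊤ : Subgroup S)), f * a ^ 2 * f⁻¹ * a ^ 2 ∈ F((⊤ : Subgroup S)) := fun f hf => by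
    have := mul_mem hf (nF.conj_mem _ (inv_mem hf) (a ^ 2))
    rwa [inv_eq_of_mul_eq_one_right tt, ← mul_assoc, ← mul_assoc] at this
  have mK : ∀ f : S, f * a ^ 2 * f⁻¹ * a ^ 2 ∈ K (T ⊔ T.map (f.1 : V →ₗ[ZMod 2] V)) := fun f =>
    mul_mem (Km le_sup_right (cK f)) (Km le_sup_left tK)
  set x := f * a ^ 2 * f⁻¹ * a ^ 2 with hx'
  have x3 : orderOf x = 3 := by
    have h1 := key (zpowers x) _ 2 (hF.of_le (zpowers_le.2 (mF f hf))) (zpowers_le.2 (mK f))
      ((Submodule.finrank_add_le_finrank_add_finrank _ _).trans (add_le_add T1 (T2 f)))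
    rw [Nat.card_zpowers, show ∏ i : Fin 2, (2 ^ 2 - 2 ^ (i : ℕ)) = 3 * 2 by decide] at h1
    exact ((Nat.dvd_prime Nat.prime_three).1 (Nat.Coprime.dvd_of_dvd_mul_right
      ((piNat_compl_iff_coprime Nat.prime_two).1 (hF.elt (mF f hf))) h1)).resolve_left fun e => hx (orderOf_eq_one_iff.1 e)
  have ey : a * x * a⁻¹ = a * f * a⁻¹ * a ^ 2 * (a * f * a⁻¹)⁻¹ * a ^ 2 := by rw [hx']; group
  have p3 : ∀ y ∈ F((⊤ : Subgroup S)), orderOf y = 3 → zpowers y ≤ O[{3}]((⊤ : Subgroup S)) := fun y hy e =>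
    le_pcore_of_le_fit (zpowers_le.2 hy) (piGrp_zpowers.2 (show PiNat _ (orderOf y) by rw [e]; exact piNat_self Nat.prime_three))
  have yF := nF.conj_mem _ (mF f hf) a
  have h1 := key (zpowers x ⊔ zpowers (a * x * a⁻¹)) (T ⊔ T.map (f.1 : V →ₗ[ZMod 2] V) ⊔
    T.map ((a * f * a⁻¹).1 : V →ₗ[ZMod 2] V)) 3 (hF.of_le (sup_le (zpowers_le.2 (mF f hf)) (zpowers_le.2 yF)))
    (sup_le (zpowers_le.2 (Km le_sup_left (mK f))) (zpowers_le.2 (ey ▸ Km (sup_le_sup_right le_sup_left _) (mK _))))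
    ((Submodule.finrank_add_le_finrank_add_finrank _ _).trans (add_le_add
      ((Submodule.finrank_add_le_finrank_add_finrank _ _).trans (add_le_add T1 (T2 f))) (T2 _)))
  rw [show ∏ i : Fin 3, (2 ^ 3 - 2 ^ (i : ℕ)) = 3 * 56 by decide] at h1
  have h2 := (pcore_pi.of_le (sup_le (p3 x (mF f hf) x3) (p3 _ yF (orderOf_conj.trans x3)))).dvd_of_dvd_mul
    ((piNat_compl_iff Nat.prime_three).2 (by decide)) h1
  have h3 : a * x * a⁻¹ ∈ zpowers x := (eq_of_card_ge le_sup_left (by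
    rw [Nat.card_zpowers, x3]; exact Nat.le_of_dvd (by norm_num) h2)).ge (mem_sup_right (Subgroup.mem_zpowers _))
  have h4 : a ^ 2 * x * (a ^ 2)⁻¹ = x⁻¹ := by
    have : (a ^ 2)⁻¹ = a ^ 2 := inv_eq_of_mul_eq_one_right tt
    rw [hx']; simp only [mul_inv_rev, inv_inv, this, mul_assoc, tt, mul_one]
  have h5 : a ^ 2 * x * (a ^ 2)⁻¹ = x := by
    obtain ⟨i, hi⟩ := mem_powers_iff_mem_zpowers.2 h3
    have e : a ^ 2 * x * (a ^ 2)⁻¹ = x ^ (i * i) := by
      rw [pow_mul, show x ^ i = _ from hi, conj_pow, show x ^ i = _ from hi, pow_two, mul_inv_rev]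
      simp only [mul_assoc]
    have : i % 3 ≠ 0 := fun h => hx (by
      rw [← conj_eq_one_iff' (g := a), ← show x ^ i = _ from hi, ← orderOf_dvd_iff_pow_eq_one, x3]
      exact Nat.dvd_of_mod_eq_zero h)
    rw [e, ← pow_mod_orderOf, x3, Nat.mul_mod, show i % 3 * (i % 3) % 3 = 1 by
      have := Nat.mod_lt i (by norm_num : 0 < 3)
      interval_cases i % 3 <;> simp_all, pow_one]
  have := orderOf_dvd_of_pow_eq_one (n := 2) (x := x) (by rw [pow_two, ← eq_inv_iff_mul_eq_one, ← h4, h5])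
  rw [x3] at this
  exact absurd this (by decide)

end Cfsg.Agent.S4410
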