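import Cfsg.Statements.S4411
import Cfsg.Agent.H27.AutQ

set_option autoImplicit false
open Cfsg

namespace Cfsg.Agent.S4411

open H26 H27 Subgroup

/-- Let p and q be distinct primes with {p, q} ≠ {2, 3}, and let G be a finite group such that for every p-subgroup H of G the automizer N_G(H)/C_G(H) is p-solvable. If q divides the order of N_G(H)/C_G(H) for some p-subgroup H, then a Sylow p-subgroup of G has a normal subgroup K (normal in the Sylow subgroup) such that q divides the order of N_G(K)/C_G(K). -/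
theorem result {G : Type*} [Group G] [Finite G]
    (p q : ℕ) [Fact p.Prime] [Fact q.Prime] (hpq : p ≠ q) (h23 : ¬ ((p = 2 ∧ q = 3) ∨ (p = 3 ∧ q = 2)))
    (hsol : ∀ H : Subgroup G, IsPGroup p ↥H →
      Cfsg.IsPSolvable p (↥(Subgroup.normalizer (H : Set G)) ⧸ (Subgroup.centralizer (H : Set G)).subgroupOf (Subgroup.normalizer (H : Set G))))
    (H : Subgroup G) (hH : IsPGroup p ↥H)
    (hq : q ∣ ((Subgroup.centralizer (H : Set G)).subgroupOf (Subgroup.normalizer (H : Set G))).index)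
    (Gp : Sylow p G) :
    ∃ K : Subgroup G, K ≤ (Gp : Subgroup G) ∧ (Gp : Subgroup G) ≤ Subgroup.normalizer (K : Set G) ∧
      q ∣ ((Subgroup.centralizer (K : Set G)).subgroupOf (Subgroup.normalizer (K : Set G))).index := by
  have hA : AutQ.AP p G := fun H K h1 h2 h3 h4 => by
    have e1 : ⁅K.subgroupOf (𝐍 H), K.subgroupOf (𝐍 H)⁆ = K.subgroupOf (𝐍 H) :=
      map_injective (𝐍 H).subtype_injective (by rw [map_commutator, map_subgroupOf_eq_of_le h2, h3])
    have e2 : pElementClosure p (K.subgroupOf (𝐍 H)) = K.subgroupOf (𝐍 H) :=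
      map_injective (𝐍 H).subtype_injective (by rw [map_pElementClosure, map_subgroupOf_eq_of_le h2, h4])
    have := H17.map_mk'_eq_bot_iff.1 (H4.isPSolvable_iff.1 (hsol H h1) ((K.subgroupOf (𝐍 H)).map (QuotientGroup.mk' _))
      le_top (by rw [← map_commutator, e1]) (by rw [← map_pElementClosure, e2]))
    exact fun x hx => @this ⟨x, h2 hx⟩ hx
  obtain ⟨X, a1, a2, a3⟩ := AutQ.exists_of_dvd (C := 𝐂 H) (M := 𝐍 H) hq
  obtain ⟨S, K, Y, b1, b2, b3, b4, b5, b6⟩ := AutQ.main hpq h23 _ G rfl hA H X hH a2 a1 a3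
  obtain ⟨g, -, e⟩ := b1.exists_cj_eq (H17.isSyl_sylow Gp)
  refine ⟨H17.cj g K, e ▸ H17.cj_mono g b2, e ▸ (H17.cj_mono g b3).trans (H17.cj_normalizer g K).le,
    AutQ.dvd_of_exists (H17.normalizer_le_normalizer_centralizer _) ((H17.cj_mono g b5).trans (H17.cj_normalizer g K).le)
      (H17.isPGroup_cj g b4) fun h => b6 ?_⟩
  rwa [← H17.cj_centralizer, H17.cj_le_cj_iff] at h

end Cfsg.Agent.S4411
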