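import Cfsg.Statements.S4412
import Cfsg.Agent.H18.BG1
import Cfsg.Agent.H3.PG

set_option autoImplicit false
open Cfsg

namespace Cfsg.Agent.S4412

open Subgroup H18 H1

def pm {G : Type*} [Group G] (x : G) : Subgroup G where
  carrier := {g | g * x * g⁻¹ = x ∨ g * x * g⁻¹ = x⁻¹}
  one_mem' := Or.inl (by simp)
  mul_mem' := fun {a b} ha hb => by
    have e : a * b * x * (a * b)⁻¹ = a * (b * x * b⁻¹) * a⁻¹ := by group
    rcases ha with ha | ha <;> rcases hb with hb | hb <;> simp only [Set.mem_ofPred_eq, e, hb, ha, ← conj_inv] <;> simp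
  inv_mem' := fun {a} ha => by
    rcases ha with ha | ha
    · exact Or.inl (by nth_rw 1 [← ha]; group)
    · exact Or.inr (by
        calc _ = (a⁻¹ * x⁻¹ * a)⁻¹ := by group
          _ = _ := by congr 1; rw [← ha]; group)

theorem exists_split {G : Type*} [Group G] [Finite G] {L : Subgroup G} (hL : Odd (Nat.card L)) {φ : G →* G}
    (h : ∀ y ∈ L, φ y ∈ L) {y : G} (hy : y ∈ L) (h2 : φ (φ y) = y) :
    ∃ s ∈ L, ∃ c ∈ L, φ s = s⁻¹ ∧ φ c = c ∧ y = s * c := by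
  obtain ⟨k, hk⟩ := hL
  have hu : y * (φ y)⁻¹ ∈ L := mul_mem hy (inv_mem (h y hy))
  have e : (y * (φ y)⁻¹) ^ (k + 1) * (y * (φ y)⁻¹) ^ (k + 1) = y * (φ y)⁻¹ := by
    rw [← pow_add, show k + 1 + (k + 1) = 2 * k + 1 + 1 by ring, pow_succ, ← hk,
      show (y * (φ y)⁻¹) ^ Nat.card L = 1 from congrArg Subtype.val (pow_card_eq_one' (x := (⟨_, hu⟩ : L))), one_mul]
  have e2 : φ ((y * (φ y)⁻¹) ^ (k + 1)) = ((y * (φ y)⁻¹) ^ (k + 1))⁻¹ := by
    rw [map_pow, ← inv_pow, map_mul, map_inv, h2, mul_inv_rev, inv_inv]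
  have hs := pow_mem hu (k + 1)
  generalize (y * (φ y)⁻¹) ^ (k + 1) = s at *
  refine ⟨s, hs, s⁻¹ * y, mul_mem (inv_mem hs) hy, e2, ?_, by simp⟩
  rw [map_mul, map_inv, e2, inv_inv, eq_inv_mul_iff_mul_eq, ← mul_assoc, e, inv_mul_cancel_right]

theorem gen' {G : Type*} [Group G] [Finite G] {A K X : Subgroup G} (hA : Abel A) (h2 : ∀ a ∈ A, a ^ 2 = 1)
    (hn : A ≤ N(K)) (hK : Odd (Nat.card K)) (h : ∀ x ∈ K, A ≤ pm x → x ∈ X) : K ≤ X := by
  refine coprime_abelian_gen_cent hA hn ?_ ?_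
  · obtain ⟨n, hn⟩ := (IsPGroup.iff_card (p := 2)).1 (show IsPGroup 2 A from fun a => ⟨1, Subtype.ext (h2 a a.2)⟩)
    exact hn ▸ (Nat.coprime_two_left.2 hK).pow_left n
  rintro B hB ⟨a, ha, e⟩ y hy
  obtain ⟨s, hs, c, hc, e1, e2, rfl⟩ := exists_split (L := K ⊓ C(B)) (hK.of_dvd_nat (card_dvd_of_le inf_le_left))
    (φ := (MulAut.conj a).toMonoidHom) (fun y hy => ⟨conj_mem_N (hn ha) hy.1,
      conj_mem_N (norm_C (hA.norm hB) ha) hy.2⟩) hy (by
        simp [← mul_assoc, ← sq, h2 a ha, mul_assoc _ a⁻¹, ← mul_inv_rev])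
  have k : ∀ s ∈ K ⊓ C(B), a ∈ pm s → s ∈ X := fun s hs h' => h s hs.1 (e ▸ sup_le (fun b hb =>
    Or.inl (by rw [mem_C.1 hs.2 b hb, mul_inv_cancel_right])) (zpowers_le.2 h'))
  exact mul_mem (k s hs (Or.inr e1)) (k c hc (Or.inl e2))

theorem gen {P : Type*} [Group P] [Finite P] (hP : Odd (Nat.card P)) {I : Subgroup (MulAut P)}
    (hI : IsElementaryAbelian 2 I) {Q X : Subgroup P} (hQ : ∀ T ∈ I, ∀ x ∈ Q, T x ∈ Q)
    (h : ∀ x ∈ Q, (∀ T ∈ I, T x = x ∨ T x = x⁻¹) → x ∈ X) : Q ≤ X := by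
  have : Finite (P ⋊[I.subtype] I) := Finite.of_equiv _ SemidirectProduct.equivProd.symm
  have j := SemidirectProduct.inl_injective (φ := I.subtype)
  rw [← map_le_map_iff_of_injective j]
  refine gen' (A := (SemidirectProduct.inr : I →* P ⋊[I.subtype] I).range) ?_ ?_ ?_ ?_ ?_
  · rintro _ ⟨a, rfl⟩ _ ⟨b, rfl⟩
    rw [← map_mul, ← map_mul, hI.1.is_comm.comm]
  · rintro _ ⟨a, rfl⟩
    rw [← map_pow, show a ^ 2 = 1 from Subtype.ext (hI.2 a a.2), map_one]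
  · rintro _ ⟨a, rfl⟩
    refine mem_N_of_finite ?_
    rintro _ ⟨x, hx, rfl⟩
    exact ⟨_, hQ a a.2 x hx, by rw [← map_inv]; exact SemidirectProduct.inl_aut a x⟩
  · rw [card_map_of_injective j]
    exact hP.of_dvd_nat (card_subgroup_dvd_card Q)
  · rintro _ ⟨x, hx, rfl⟩ h'
    refine ⟨x, h x hx fun T hT => (h' ⟨⟨T, hT⟩, rfl⟩).imp (fun e => j ?_) fun e => j ?_, rfl⟩
    · rw [← e, ← map_inv]; exact SemidirectProduct.inl_aut (φ := I.subtype) ⟨T, hT⟩ x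
    · rw [map_inv, ← e, ← map_inv]; exact SemidirectProduct.inl_aut (φ := I.subtype) ⟨T, hT⟩ x

section
variable {P : Type*} [Group P] [Finite P] {I : Subgroup (MulAut P)} {x y : P} {χ ψ : I →* ℤˣ} {p : ℕ}

def Cy (T : MulAut P) : Prop := ∃ g : P, ∀ x : P, (T x = x ↔ x ∈ zpowers g)

def Fx (T : MulAut P) : Subgroup P := T.toMonoidHom.eqLocus (MonoidHom.id P)

def Eg (x : P) (χ : I →* ℤˣ) : Prop := x ≠ 1 ∧ ∀ T : I, T.1 x = x ^ (χ T : ℤ)

theorem inj (hP : Odd (Nat.card P)) (h : x ≠ 1) {u v : ℤˣ} (e : x ^ (u : ℤ) = x ^ (v : ℤ)) : u = v := by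
  have : x⁻¹ ≠ x := fun e => h (by
    have := Nat.dvd_gcd (orderOf_dvd_of_pow_eq_one (show x ^ 2 = 1 by rw [sq, ← eq_inv_iff_mul_eq_one, e]))
      (_root_.orderOf_dvd_natCard x)
    rwa [Nat.coprime_two_left.2 hP, Nat.dvd_one, orderOf_eq_one_iff] at this)
  rcases Int.units_eq_one_or u with rfl | rfl <;> rcases Int.units_eq_one_or v with rfl | rfl <;> simp_all [eq_comm]

theorem exists_eg (hP : Odd (Nat.card P)) (h : x ≠ 1) (h' : ∀ T ∈ I, T x = x ∨ T x = x⁻¹) :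
    ∃ χ : I →* ℤˣ, Eg x χ := by
  have : ∀ T : I, ∃ u : ℤˣ, T.1 x = x ^ (u : ℤ) := fun T =>
    (h' T T.2).elim (fun e => ⟨1, by simpa using e⟩) fun e => ⟨-1, by simpa using e⟩
  choose f hf using this
  exact ⟨.mk' f fun a b => inj hP h (by
    rw [← hf, coe_mul, MulAut.mul_apply, hf, map_zpow, hf, ← zpow_mul, Units.val_mul]), h, hf⟩

omit [Finite P] in
theorem Eg.sub (h : Eg x χ) (hy : y ∈ zpowers x) (h1 : y ≠ 1) : Eg y χ := by
  obtain ⟨k, rfl⟩ := hy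
  exact ⟨h1, fun T => by simp only [map_zpow, h.2 T, ← zpow_mul, mul_comm]⟩

omit [Finite P] in
theorem Eg.fix (h : Eg x χ) {T : I} (e : χ T = 1) : T.1 x = x := by simp [h.2 T, e]

theorem Eg.not_fix (hP : Odd (Nat.card P)) (h : Eg x χ) {T : I} (e : χ T = -1) : T.1 x ≠ x := fun e' => by
  have := inj hP h.1 (u := χ T) (v := 1) (by rw [← h.2 T, e']; simp)
  simp [e] at this

theorem Eg.eq (hP : Odd (Nat.card P)) (hp : PiGrp {p} (⊤ : Subgroup P)) (h : Eg x χ) (h' : Eg y ψ) {T : I} (e : χ T = 1)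
    (e' : ψ T = 1) (hc : Cy T.1) : χ = ψ := by
  obtain ⟨g, hg⟩ := hc
  obtain ⟨⟨w, hw⟩, w1⟩ := ne_bot_iff_exists_ne_one.1 (Cyc.inf_ne_bot (cyc_zpowers (x := g)) (hp.of_le le_top)
    (zpowers_le.2 ((hg x).1 (h.fix e))) (zpowers_le.2 ((hg y).1 (h'.fix e'))) (zpowers_ne_bot.2 h.1)
    (zpowers_ne_bot.2 h'.1))
  have w1 : w ≠ 1 := fun e => w1 (Subtype.ext e)
  exact MonoidHom.ext fun T => inj hP w1 (((h.sub hw.1 w1).2 T).symm.trans ((h'.sub hw.2 w1).2 T))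

theorem exists_half (hP : Odd (Nat.card P)) (hI : IsElementaryAbelian 2 I) (L : Subgroup I) {n : ℕ}
    (h : Nat.card L = 2 * n) : ∃ (x : P) (χ : I →* ℤˣ), Eg x χ ∧ Nat.card (L ⊓ χ.ker : Subgroup I) = n := by
  obtain ⟨⟨T, hT⟩, T1⟩ := ne_bot_iff_exists_ne_one.1 (show L ≠ ⊥ by rintro rfl; rw [card_bot] at h; omega)
  by_contra! hc
  have := gen hP hI (Q := ⊤) (X := T.1.toMonoidHom.eqLocus (MonoidHom.id P)) (fun _ _ _ _ => trivial) fun x _ hx => by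
    by_cases x1 : x = 1
    · exact x1 ▸ one_mem _
    obtain ⟨χ, h'⟩ := exists_eg hP x1 hx
    refine h'.fix (by_contra fun e => hc x χ h' ?_)
    have h3 := card_mul_relIndex' (A := χ.ker) (B := L)
    have h4 : χ.ker.relIndex L ∣ 2 := (relIndex_dvd_index_of_normal _ _).trans (by
      rw [index_ker]; simpa using card_subgroup_dvd_card χ.range)
    rcases (Nat.dvd_prime Nat.prime_two).1 h4 with h4 | h4
    · exact absurd (relIndex_eq_one.1 h4 hT) e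
    · rw [h4, inf_comm] at h3; omega
  exact T1 (Subtype.ext (Subtype.ext (MulEquiv.ext fun x => this (mem_top x))))

theorem two_gen {P : Type*} [CommGroup P] [Finite P] (hp : p.Prime) {a b : P} (h : closure {a, b} = ⊤) :
    Nat.card (powMonoidHom p : P →* P).ker ≤ p * p := by
  let π := QuotientGroup.mk' (powMonoidHom p : P →* P).range
  have k : ∀ a, Nat.card (zpowers (π a)) ≤ p := fun a => by
    rw [Nat.card_zpowers]
    exact Nat.le_of_dvd hp.pos (orderOf_dvd_of_pow_eq_one (by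
      rw [← map_pow]; exact (QuotientGroup.eq_one_iff _).2 ⟨a, rfl⟩))
  have e : zpowers (π a) ⊔ zpowers (π b) = ⊤ := by
    rw [← MonoidHom.map_zpowers, ← MonoidHom.map_zpowers, ← Subgroup.map_sup, zpowers_eq_closure, zpowers_eq_closure,
      ← Subgroup.closure_union, Set.singleton_union, h, map_top_of_surjective _ (QuotientGroup.mk'_surjective _)]
  have e2 := Nat.le_of_dvd (Nat.mul_pos Nat.card_pos Nat.card_pos)
    (card_sup_dvd (N := zpowers (π a)) (H := zpowers (π b)) le_normalizer_of_normal)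
  rw [e, card_top, ← index_eq_card] at e2
  have e3 := card_mul_index (powMonoidHom p : P →* P).range
  have e4 := card_mul_index (powMonoidHom p : P →* P).ker
  rw [index_ker, ← e3, mul_comm] at e4
  rw [Nat.eq_of_mul_eq_mul_left Nat.card_pos e4]
  exact e2.trans (Nat.mul_le_mul (k a) (k b))
end

/-- Let p be an odd prime, P a finite p-group and I an elementary abelian subgroup of order 8 of Aut(P). Call T ∈ I, T ≠ 1, broad when its fixed-point subgroup C_P(T) is not cyclic. Suppose I has a proper subgroup I₀ containing no broad element such that the product of any two broad elements lies in I₀. Then P is abelian of rank exactly 3 (generated by three elements but not by two), there are exactly three broad elements and they generate I, and I₀ is exactly the set of products of two broad elements. -/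
theorem result
    {P : Type*} [Group P] [Finite P] (p : ℕ) (hp : p.Prime) (hp2 : p ≠ 2) (hP : IsPGroup p P)
    (I : Subgroup (MulAut P)) (hI : Cfsg.IsElementaryAbelian 2 I) (hI8 : Nat.card ↥I = 8)
    (I₀ : Subgroup (MulAut P)) (hI₀ : I₀ < I)
    (hdisj : ∀ T ∈ I₀, T ≠ 1 → ∃ g : P, ∀ x : P, (T x = x ↔ x ∈ Subgroup.zpowers g))
    (hprod : ∀ T ∈ I, ∀ T' ∈ I, T ≠ 1 → T' ≠ 1 → (¬ ∃ g : P, ∀ x : P, (T x = x ↔ x ∈ Subgroup.zpowers g)) →
      (¬ ∃ g : P, ∀ x : P, (T' x = x ↔ x ∈ Subgroup.zpowers g)) → T * T' ∈ I₀) :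
    IsMulCommutative P ∧ (∃ a b c : P, Subgroup.closure {a, b, c} = ⊤) ∧ (¬ ∃ a b : P, Subgroup.closure {a, b} = ⊤) ∧
      Nat.card {T : MulAut P // T ∈ I ∧ T ≠ 1 ∧ ¬ ∃ g : P, ∀ x : P, (T x = x ↔ x ∈ Subgroup.zpowers g)} = 3 ∧
      Subgroup.closure {T : MulAut P | T ∈ I ∧ T ≠ 1 ∧ ¬ ∃ g : P, ∀ x : P, (T x = x ↔ x ∈ Subgroup.zpowers g)} = I ∧
      (I₀ : Set (MulAut P)) = {S : MulAut P | ∃ T T' : MulAut P, T ∈ I ∧ T' ∈ I ∧ T ≠ 1 ∧ T' ≠ 1 ∧
        (¬ ∃ g : P, ∀ x : P, (T x = x ↔ x ∈ Subgroup.zpowers g)) ∧ (¬ ∃ g : P, ∀ x : P, (T' x = x ↔ x ∈ Subgroup.zpowers g)) ∧ S = T * T'} := by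
  change ∀ T ∈ I₀, T ≠ 1 → Cy T at hdisj
  change ∀ T ∈ I, ∀ T' ∈ I, T ≠ 1 → T' ≠ 1 → ¬ Cy T → ¬ Cy T' → T * T' ∈ I₀ at hprod
  change _ ∧ _ ∧ _ ∧ Nat.card {T : MulAut P // T ∈ I ∧ T ≠ 1 ∧ ¬ Cy T} = 3 ∧
    closure {T : MulAut P | T ∈ I ∧ T ≠ 1 ∧ ¬ Cy T} = I ∧ (I₀ : Set (MulAut P)) =
      {S : MulAut P | ∃ T T' : MulAut P, T ∈ I ∧ T' ∈ I ∧ T ≠ 1 ∧ T' ≠ 1 ∧ ¬ Cy T ∧ ¬ Cy T' ∧ S = T * T'}
  have : Fact p.Prime := ⟨hp⟩
  have hodd : Odd (Nat.card P) := by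
    obtain ⟨n, hn⟩ := IsPGroup.iff_card.1 hP
    exact hn ▸ (hp.odd_of_ne_two hp2).pow
  have pP : PiGrp {p} (⊤ : Subgroup P) := piGrp_of_isPGroup hp (hP.to_subgroup ⊤)
  obtain ⟨x1, χ1, e1, c1⟩ := exists_half hodd hI ⊤ (n := 4) (by rw [card_top, hI8])
  obtain ⟨x2, χ2, e2, c2⟩ := exists_half hodd hI _ (n := 2) c1
  obtain ⟨x3, χ3, e3, c3⟩ := exists_half hodd hI _ (n := 1) c2
  have bij : Function.Bijective (χ1.prod (χ2.prod χ3)) := (Nat.bijective_iff_injective_and_card _).2 ⟨by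
    rw [← MonoidHom.ker_eq_bot_iff, MonoidHom.ker_prod, MonoidHom.ker_prod, ← inf_assoc, ← card_eq_one, ← c3,
      top_inf_eq], by simp [hI8]⟩
  have ex : ∀ {T U : I}, χ1 T = χ1 U → χ2 T = χ2 U → χ3 T = χ3 U → T = U := fun a b c =>
    bij.1 (Prod.ext a (Prod.ext b c))
  obtain ⟨T1, a⟩ := bij.2 (-1, 1, 1)
  obtain ⟨T2, b⟩ := bij.2 (1, -1, 1)
  obtain ⟨T3, c⟩ := bij.2 (1, 1, -1)
  simp only [MonoidHom.prod_apply, Prod.mk.injEq] at a b c
  obtain ⟨a1, a2, a3⟩ := a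
  obtain ⟨b1, b2, b3⟩ := b
  obtain ⟨d1, d2, d3⟩ := c
  have all : ∀ T : I, T = 1 ∨ T = T1 ∨ T = T2 ∨ T = T3 ∨ T = T1 * T2 ∨ T = T1 * T3 ∨ T = T2 * T3 ∨ T = T1 * (T2 * T3) := by
    intro T
    rcases Int.units_eq_one_or (χ1 T) with h1 | h1 <;> rcases Int.units_eq_one_or (χ2 T) with h2 | h2 <;>
      rcases Int.units_eq_one_or (χ3 T) with h3 | h3
    · left; apply ex <;> simp [*]
    · right; right; right; left; apply ex <;> simp [*]
    · right; right; left; apply ex <;> simp [*]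
    · right; right; right; right; right; right; left; apply ex <;> simp [*]
    · right; left; apply ex <;> simp [*]
    · right; right; right; right; right; left; apply ex <;> simp [*]
    · right; right; right; right; left; apply ex <;> simp [*]
    · right; right; right; right; right; right; right; apply ex <;> simp [*]
  have ne : ∀ (χ : I →* ℤˣ) {T U : I}, χ T ≠ χ U → T.1 ≠ U.1 := fun χ T U h e => h (congrArg χ (Subtype.ext e))
  have n1 : T1.1 ≠ 1 := ne χ1 (U := 1) (by simp [*])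
  have n2 : T2.1 ≠ 1 := ne χ2 (U := 1) (by simp [*])
  have n3 : T3.1 ≠ 1 := ne χ3 (U := 1) (by simp [*])
  have y1 : ¬ Cy T1.1 := fun h => by simpa [b2, b3] using DFunLike.congr_fun (e2.eq hodd pP e3 a2 a3 h) T2
  have y2 : ¬ Cy T2.1 := fun h => by simpa [a1, a3] using DFunLike.congr_fun (e1.eq hodd pP e3 b1 b3 h) T1
  have y3 : ¬ Cy T3.1 := fun h => by simpa [a1, a2] using DFunLike.congr_fun (e1.eq hodd pP e2 d1 d2 h) T1
  have m12 := hprod _ T1.2 _ T2.2 n1 n2 y1 y2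
  have m13 := hprod _ T1.2 _ T3.2 n1 n3 y1 y3
  have m23 := hprod _ T2.2 _ T3.2 n2 n3 y2 y3
  have z3 : Cy (T1 * T2).1 := hdisj _ m12 (ne χ1 (T := T1 * T2) (U := 1) (by simp [*]))
  have z2 : Cy (T1 * T3).1 := hdisj _ m13 (ne χ1 (T := T1 * T3) (U := 1) (by simp [*]))
  have z1 : Cy (T2 * T3).1 := hdisj _ m23 (ne χ2 (T := T2 * T3) (U := 1) (by simp [*]))
  have key : ∀ {y ψ}, Eg y ψ → χ1 = ψ ∨ χ2 = ψ ∨ χ3 = ψ := fun {y ψ} h => by
    by_cases k1 : ψ (T2 * T3) = 1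
    · exact Or.inl (e1.eq hodd pP h (by simp [*]) k1 z1)
    by_cases k2 : ψ (T1 * T3) = 1
    · exact Or.inr (Or.inl (e2.eq hodd pP h (by simp [*]) k2 z2))
    refine Or.inr (Or.inr (e3.eq hodd pP h (by simp [*]) ?_ z3))
    rw [map_mul] at *
    revert k1 k2
    generalize ψ T1 = u, ψ T2 = v, ψ T3 = w
    revert u v w
    decide
  have fz : ∀ x, (T1 * (T2 * T3)).1 x = x → x = 1 := fun x hx => by
    refine gen hodd hI (Q := Fx (T1 * (T2 * T3)).1) (X := ⊥) (fun T hT x hx => ?_) (fun y hy h => by_contra fun y1 => ?_) hx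
    · change ((T1 * (T2 * T3)).1 * T) x = T x
      rw [show (T1 * (T2 * T3)).1 * T = T * (T1 * (T2 * T3)).1 from
        congrArg Subtype.val (hI.1.is_comm.comm (T1 * (T2 * T3)) ⟨T, hT⟩), MulAut.mul_apply]
      exact congrArg T hx
    · obtain ⟨ψ, h'⟩ := exists_eg hodd y1 h
      refine h'.not_fix hodd ?_ hy
      rcases key h' with rfl | rfl | rfl <;> simp [*]
  have comm : ∀ x y : P, x * y = y * x := MonoidHom.FixedPointFree.commute_all_of_involutive fz fun x => by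
    rw [← MulAut.mul_apply, ← sq, hI.2 _ (T1 * (T2 * T3)).2, MulAut.one_apply]
  have cl : ∀ T, T ∈ I ∧ T ≠ 1 ∧ ¬ Cy T ↔ T = T1 ∨ T = T2 ∨ T = T3 := fun T => ⟨fun ⟨h1, h2, h3⟩ => by
      rcases all ⟨T, h1⟩ with e | e | e | e | e | e | e | e <;> obtain rfl := congrArg Subtype.val e
      · exact absurd rfl h2
      · exact Or.inl rfl
      · exact Or.inr (Or.inl rfl)
      · exact Or.inr (Or.inr rfl)
      · exact absurd z3 h3
      · exact absurd z2 h3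
      · exact absurd z1 h3
      · exact absurd ⟨1, fun x => ⟨fun h => by rw [fz x h]; exact one_mem _, fun h => by
          rw [zpowers_one_eq_bot, mem_bot] at h; rw [h, map_one]⟩⟩ h3, by
    rintro (rfl | rfl | rfl)
    exacts [⟨T1.2, n1, y1⟩, ⟨T2.2, n2, y2⟩, ⟨T3.2, n3, y3⟩]⟩
  refine ⟨⟨⟨comm⟩⟩, ?_, ?_, ?_, ?_, ?_⟩
  · obtain ⟨g1, h1⟩ := z1
    obtain ⟨g2, h2⟩ := z2
    obtain ⟨g3, h3⟩ := z3
    refine ⟨g1, g2, g3, top_unique (gen hodd hI (fun _ _ _ _ => trivial) fun y _ h => ?_)⟩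
    by_cases y1 : y = 1
    · exact y1 ▸ one_mem _
    obtain ⟨ψ, h'⟩ := exists_eg hodd y1 h
    rcases key h' with rfl | rfl | rfl
    · exact zpowers_le.2 (subset_closure (by simp)) ((h1 y).1 (h'.fix (by simp [*])))
    · exact zpowers_le.2 (subset_closure (by simp)) ((h2 y).1 (h'.fix (by simp [*])))
    · exact zpowers_le.2 (subset_closure (by simp)) ((h3 y).1 (h'.fix (by simp [*])))
  · rintro ⟨a, b, h⟩
    let _ : CommGroup P := { (inferInstance : Group P) with mul_comm := comm }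
    have h2 := two_gen hp h
    have w : ∀ {x} {χ : I →* ℤˣ}, Eg x χ → ∃ w ∈ (powMonoidHom p : P →* P).ker, Eg w χ := fun {x χ} h => by
      obtain ⟨w, hw⟩ := exists_prime_orderOf_dvd_card' (G := zpowers x) p
        ((pP.of_le (le_top : zpowers x ≤ ⊤)).isPGroup.card_eq_or_dvd.resolve_left
          (by rw [card_eq_one]; exact zpowers_ne_bot.2 h.1))
      rw [← orderOf_coe] at hw
      exact ⟨w, hw ▸ pow_orderOf_eq_one w.1, h.sub w.2 fun e => hp.ne_one (by rw [← hw, e, orderOf_one])⟩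
    obtain ⟨w1, u1, v1⟩ := w e1
    obtain ⟨w2, u2, v2⟩ := w e2
    obtain ⟨w3, u3, v3⟩ := w e3
    generalize (powMonoidHom p : P →* P).ker = K at *
    have l1 := H3.card_mul_le_of_lt (pP.of_le le_top) (lt_of_le_of_ne (bot_le : ⊥ ≤ K ⊓ Fx T3.1 ⊓ Fx T2.1)
      fun e => v1.1 (mem_bot.1 (e ▸ ⟨⟨u1, v1.fix d1⟩, v1.fix b1⟩)))
    have l2 := H3.card_mul_le_of_lt (pP.of_le le_top) (lt_of_le_of_ne (inf_le_left : K ⊓ Fx T3.1 ⊓ Fx T2.1 ≤ _)
      fun e => v2.not_fix hodd b2 (e.ge ⟨u2, v2.fix d2⟩).2)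
    have l3 := H3.card_mul_le_of_lt (pP.of_le le_top) (lt_of_le_of_ne (inf_le_left : K ⊓ Fx T3.1 ≤ _)
      fun e => v3.not_fix hodd d3 (e.ge u3).2)
    rw [card_bot, one_mul] at l1
    have := hp.two_le
    nlinarith [Nat.mul_le_mul_right p (Nat.mul_le_mul_right p l1), Nat.mul_le_mul_right p l2, Nat.mul_pos hp.pos hp.pos]
  · rw [Nat.card_congr (Equiv.subtypeEquivRight cl)]
    exact Set.ncard_eq_three.2 ⟨T1.1, T2.1, T3.1, ne χ1 (by simp [*]), ne χ1 (by simp [*]), ne χ2 (by simp [*]), rfl⟩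
  · refine le_antisymm ((closure_le _).2 fun T h => h.1) fun T hT => ?_
    have k1 := subset_closure (k := {T : MulAut P | T ∈ I ∧ T ≠ 1 ∧ ¬ Cy T}) ⟨T1.2, n1, y1⟩
    have k2 := subset_closure (k := {T : MulAut P | T ∈ I ∧ T ≠ 1 ∧ ¬ Cy T}) ⟨T2.2, n2, y2⟩
    have k3 := subset_closure (k := {T : MulAut P | T ∈ I ∧ T ≠ 1 ∧ ¬ Cy T}) ⟨T3.2, n3, y3⟩
    rcases all ⟨T, hT⟩ with e | e | e | e | e | e | e | e <;> obtain rfl := congrArg Subtype.val e
    exacts [one_mem _, k1, k2, k3, mul_mem k1 k2, mul_mem k1 k3, mul_mem k2 k3, mul_mem k1 (mul_mem k2 k3)]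
  · refine Set.ext fun T => ⟨fun hT => ?_, ?_⟩
    · rcases all ⟨T, hI₀.le hT⟩ with e | e | e | e | e | e | e | e <;> obtain rfl := congrArg Subtype.val e
      · exact ⟨_, _, T1.2, T1.2, n1, n1, y1, y1, by rw [← sq, hI.2 _ T1.2]; rfl⟩
      · exact absurd (hdisj _ hT n1) y1
      · exact absurd (hdisj _ hT n2) y2
      · exact absurd (hdisj _ hT n3) y3
      · exact ⟨_, _, T1.2, T2.2, n1, n2, y1, y2, rfl⟩
      · exact ⟨_, _, T1.2, T3.2, n1, n3, y1, y3, rfl⟩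
      · exact ⟨_, _, T2.2, T3.2, n2, n3, y2, y3, rfl⟩
      · exact absurd (hdisj _ ((mul_mem_cancel_right m23).1 hT) n1) y1
    · rintro ⟨T, T', h1, h2, h3, h4, h5, h6, rfl⟩
      exact hprod _ h1 _ h2 h3 h4 h5 h6

end Cfsg.Agent.S4412
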