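import Cfsg.Statements.S4413
import Cfsg.Agent.H21.Heis

set_option autoImplicit false
open Cfsg

namespace Cfsg.Agent.S4413

open H18 H21 Subgroup Matrix

abbrev I := (Fin 1 ⊕ Fin 1) ⊕ Fin 2
abbrev S := {v : I → ZMod 2 // v ≠ 0 ∧ bMinus 1 v v = 0}
abbrev O := isometryGroup (ZMod 2) fun v => bMinus 1 v v

/-- action on the five singular vectors -/
instance : MulAction O S where
  smul g v := ⟨(g.1 : Matrix I I (ZMod 2)) *ᵥ v.1, fun h => v.2.1 (by
    simpa using congrArg (fun v => ((g.1⁻¹ : GL I (ZMod 2)) : Matrix I I (ZMod 2)) *ᵥ v) h), (g.2 v.1 0).trans v.2.2⟩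
  one_smul v := Subtype.ext (Matrix.one_mulVec v.1)
  mul_smul g h v := Subtype.ext (Matrix.mulVec_mulVec v.1 g.1.1 h.1.1).symm

/-- reflections -/
def rf (w : I → ZMod 2) : Matrix I I (ZMod 2) :=
  Matrix.of fun i j => (if i = j then 1 else 0) + w i * (bMinus 1 w (Pi.single j 1) + bMinus 1 (Pi.single j 1) w)

set_option synthInstance.maxSize 4096 in
theorem rf_spec : ∀ s t : S, s ≠ t → rf (s.1 + t.1) * rf (s.1 + t.1) = 1 ∧
    (∀ v, bMinus 1 (rf (s.1 + t.1) *ᵥ v) (rf (s.1 + t.1) *ᵥ v) = bMinus 1 v v) ∧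
    ∀ u : S, rf (s.1 + t.1) *ᵥ u.1 = (Equiv.swap s t u).1 := by decide +kernel

set_option synthInstance.maxSize 4096 in
theorem span : ∀ v : I → ZMod 2, ∃ s t : S, v = s.1 ∨ v = s.1 + t.1 := by decide +kernel

theorem aux : Nonempty (O ≃* Equiv.Perm (Fin 5)) := by
  have h1 : Function.Injective (MulAction.toPermHom O S) := (injective_iff_map_eq_one _).2 fun g hg => by
    have h : ∀ s : S, (g.1 : Matrix I I (ZMod 2)) *ᵥ s.1 = s.1 := fun s =>
      congrArg (fun σ : Equiv.Perm S => (σ s).1) hg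
    refine Subtype.ext (Units.ext (Matrix.toLin'.injective (LinearMap.ext fun v => ?_)))
    obtain ⟨s, t, rfl | rfl⟩ := span v <;> simp [h, Matrix.mulVec_add]
  have h2 : Function.Surjective (MulAction.toPermHom O S) := by
    rw [← MonoidHom.range_eq_top, eq_top_iff, ← Equiv.Perm.closure_isSwap, closure_le]
    rintro _ ⟨s, t, h, rfl⟩
    obtain ⟨e1, e2, e3⟩ := rf_spec s t h
    exact ⟨⟨⟨_, _, e1, e1⟩, fun v _ => e2 v⟩, Equiv.ext fun u => Subtype.ext (e3 u)⟩
  exact ⟨(MulEquiv.ofBijective _ ⟨h1, h2⟩).trans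
    (Fintype.equivFinOfCardEq (by decide +kernel : Fintype.card S = 5)).permCongrHom⟩

/-- Let P be an extraspecial 2-group of order 32 with no elementary abelian subgroup of order 8 (the central product of a dihedral and a quaternion group of order 8). Then the inner automorphism group of P has order 16 and the outer automorphism group Aut(P)/Inn(P) is isomorphic to the symmetric group of degree 5; in particular Aut(P) has order 1920. -/
theorem result {P : Type*} [Group P] [Finite P]
    (hex : Cfsg.IsExtraspecial 2 P) (h32 : Nat.card P = 32)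
    (hminus : ∀ A : Subgroup P, Cfsg.IsElementaryAbelian 2 A → Nat.card ↥A ≤ 4)
    [(MulAut.conj : P →* MulAut P).range.Normal] :
    Nat.card ↥(MulAut.conj : P →* MulAut P).range = 16 ∧ Nat.card (MulAut P) = 1920 ∧
      Nonempty ((MulAut P ⧸ (MulAut.conj : P →* MulAut P).range) ≃* Equiv.Perm (Fin 5)) := by
  have hp := Nat.prime_two
  obtain ⟨h1, -⟩ := (isExtraspecial_iff_top hp).1 hex
  have e : Nat.card (⊤ : Subgroup P) = 2 ^ (2 * 2 + 1) := card_top.trans h32
  have h2 : ¬ 0 < ssum (⊤ : Subgroup P) := fun h2 => by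
    obtain ⟨A, hA⟩ := (h1.ssum_pos_iff e).1 h2
    exact absurd (hA.card ▸ hminus A hA.elem.isElem) (by norm_num)
  obtain ⟨f⟩ := nonempty_equiv_of_ssum h1 (es_minus 1) (h32.trans (card_minus 1).symm)
    (((h1.ssum_eq e).resolve_left fun h3 => h2 (by rw [h3]; positivity)).trans (ssum_minus _).symm)
  have g := ((out_congr f).some.trans (Heis.out_equiv (bMinus_nondeg _)).some).trans aux.some
  have h3 : Nat.card (MulAut.conj : P →* MulAut P).range = 16 := by
    have := (MulAut.conj : P →* MulAut P).ker.card_mul_index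
    have k : (MulAut.conj : P →* MulAut P).ker = center P := by
      ext x
      simp [mem_center_iff, MulEquiv.ext_iff, mul_inv_eq_iff_eq_mul, eq_comm (a := x * _)]
    rw [index_ker, k, hex.2, h32] at this
    omega
  refine ⟨h3, ?_, ⟨g⟩⟩
  rw [card_eq_card_quotient_mul_card_subgroup (Inn P), Nat.card_congr g.toEquiv, h3, Nat.card_perm, Nat.card_fin]
  rfl

end Cfsg.Agent.S4413
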