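import Cfsg.Statements.S4414
import Cfsg.Agent.H27.Fx4
import Mathlib.LinearAlgebra.TensorProduct.Pi
import Mathlib.FieldTheory.Finiteness

set_option autoImplicit false
open Cfsg

namespace Cfsg.Agent.S4414

open H26 H27 Subgroup

open H27.Fx Module MulAction
open scoped TensorProduct Pointwise

section
variable {K : Type*} [Field K] {V : Type*} [AddCommGroup V] [Module K V] {G : Type*} [Group G]

/-- Fixed space. -/
def fx (θ : Representation K G V) (T : Subgroup G) : Submodule K V := ⨅ t : T, LinearMap.ker (θ t - LinearMap.id)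

theorem mem_fx {θ : Representation K G V} {T : Subgroup G} {v : V} : v ∈ fx θ T ↔ ∀ t ∈ T, θ t v = v := by
  simp [fx, sub_eq_zero]

theorem bc_fix (L : Type*) [Field L] [Algebra K L] (ρ : Representation K G V) (T : Subgroup G) [Finite T]
    {v : L ⊗[K] V} (hv : ∀ t ∈ T, (ρ t).baseChange L v = v) : v ∈ LinearMap.range ((fx ρ T).subtype.baseChange L) := by
  classical
  have := Fintype.ofFinite T
  let F : V →ₗ[K] (T → V) := LinearMap.pi fun t => ρ t - LinearMap.id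
  have hex : Function.Exact (fx ρ T).subtype F := fun w => by
    rw [Submodule.coe_subtype, Subtype.range_coe, SetLike.mem_coe, mem_fx, funext_iff]
    simp [F, sub_eq_zero]
  have h1 : ∀ (w : L ⊗[K] V) (t : T), TensorProduct.piRight K L L (fun _ : T => V) (F.lTensor L w) t =
      (ρ t).baseChange L w - w := fun w t => by
    induction w using TensorProduct.induction_on with
    | zero => simp
    | tmul a b => simp [F, TensorProduct.tmul_sub]
    | add a b ha hb => simp only [map_add, Pi.add_apply, ha, hb]; abel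
  refine (Module.Flat.lTensor_exact L hex v).1 ((TensorProduct.piRight K L L (fun _ : T => V)).injective ?_)
  funext t
  rw [h1, hv t t.2, sub_self, map_zero]; rfl

variable {θ : Representation K G V} {P : Subgroup G} [P.Normal]

/-- Sum of weight spaces. -/
def U (θ : Representation K G V) (P : Subgroup G) (X : Set (P → K)) : Submodule K V := ⨆ μ ∈ X, wt θ P μ

omit [P.Normal] in
theorem U_inf {X Y : Set (P → K)} : U θ P X ⊓ U θ P Y ≤ U θ P (X ∩ Y) := by
  have h1 : U θ P X = U θ P (X ∩ Y) ⊔ U θ P (X \ Y) := by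
    rw [U, U, U, ← iSup_union, Set.inter_union_sdiff]
  have h2 : U θ P (X ∩ Y) ≤ U θ P Y := biSup_mono Set.inter_subset_right
  have h3 : Disjoint (U θ P (X \ Y)) (U θ P Y) := (wt_indep θ P).disjoint_biSup_biSup Set.disjoint_sdiff_left
  rw [h1, sup_inf_assoc_of_le _ h2, disjoint_iff.1 h3, sup_bot_eq]

attribute [local instance] wact

theorem wmap (g : G) (μ : P → K) {v : V} (hv : v ∈ wt θ P μ) : θ g v ∈ wt θ P (g • μ) := wt_map g (fun _ => rfl) hv

theorem wne (g : G) {μ : P → K} (h : wt θ P μ ≠ ⊥) : wt θ P (g • μ) ≠ ⊥ := by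
  obtain ⟨v, hv, h0⟩ := (Submodule.ne_bot_iff _).1 h
  exact (Submodule.ne_bot_iff _).2 ⟨_, wmap g μ hv, fun e => h0 (rep_inj θ g (e.trans (map_zero _).symm))⟩

theorem U_map (g : G) {X Y : Set (P → K)} (h : ∀ μ ∈ X, g • μ ∈ Y) {v : V} (hv : v ∈ U θ P X) : θ g v ∈ U θ P Y := by
  refine (show U θ P X ≤ (U θ P Y).comap (θ g) from iSup₂_le fun μ hμ w hw => ?_) hv
  exact (le_biSup (wt θ P) (h μ hμ) : _ ≤ U θ P Y) (wmap g μ hw)

theorem supp {T : Subgroup G} {v : V} (h0 : v ≠ 0) (hv : v ∈ fx θ T) {X : Set (P → K)} (hX : X.Finite)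
    (h : v ∈ U θ P X) : ∃ μ, wt θ P μ ≠ ⊥ ∧ orbit T μ ⊆ X := by
  obtain ⟨Y, ⟨h1, h2⟩, hmin⟩ := exists_minimalFor_of_wellFoundedLT (fun Y : Set (P → K) => Y ⊆ X ∧ v ∈ U θ P Y)
    Set.ncard ⟨X, subset_rfl, h⟩
  have h3 : ∃ μ ∈ Y, wt θ P μ ≠ ⊥ := by
    by_contra hc
    push Not at hc
    exact h0 ((show U θ P Y ≤ ⊥ from iSup₂_le fun μ hμ => (hc μ hμ).le) h2)
  obtain ⟨μ, hμ, h4⟩ := h3
  refine ⟨μ, h4, ?_⟩
  rintro _ ⟨t, rfl⟩
  have h5 : v ∈ U θ P (Y ∩ {ν | t • ν ∈ Y}) := U_inf ⟨h2, by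
    have := U_map (θ := θ) (t⁻¹ : T) (X := Y) (Y := {ν | t • ν ∈ Y}) (fun ν hν => by
      change t • (t⁻¹ • ν) ∈ Y
      rwa [smul_inv_smul]) h2
    rwa [mem_fx.1 hv _ (t⁻¹).2] at this⟩
  have h6 := Set.eq_of_subset_of_ncard_le (Set.inter_subset_left (s := Y) (t := {ν | t • ν ∈ Y}))
    (not_lt.1 fun hlt => absurd (hmin ⟨Set.inter_subset_left.trans h1, h5⟩ hlt.le) (not_le.2 hlt)) (hX.subset h1)
  exact h1 (h6.ge hμ).2

variable [Finite G] [CharP K 2] {T : Subgroup G}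

theorem exv (hT : IsPGroup 2 T) {μ : P → K} (h : wt θ P μ ≠ ⊥) : ∃ v ∈ U θ P (orbit T μ), v ≠ 0 ∧ v ∈ fx θ T := by
  obtain ⟨v, h1, h2, h3⟩ := H16.exists_fixed_vector hT (θ.comp T.subtype) (U θ P (orbit T μ))
    (fun t w hw => U_map (t : G) (fun ν hν => mapsTo_smul_orbit t μ hν) hw)
    fun e => h (eq_bot_iff.2 (e ▸ le_biSup (wt θ P) (mem_orbit_self μ)))
  exact ⟨v, h1, h2, mem_fx.2 fun t ht => h3 ⟨t, ht⟩⟩

theorem orb_le [FiniteDimensional K V] (hT : IsPGroup 2 T) {n : ℕ} (μ : Fin n → P → K) (h : ∀ i, wt θ P (μ i) ≠ ⊥)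
    (hd : ∀ i j, i ≠ j → orbit T (μ i) ≠ orbit T (μ j)) : n ≤ finrank K (fx θ T) := by
  choose v h1 h2 h3 using fun i => exv hT (h i)
  have hi : iSupIndep fun i => U θ P (orbit T (μ i)) := iSupIndep_def.2 fun i => by
    refine ((wt_indep θ P).disjoint_biSup_biSup (s := orbit T (μ i)) (t := (orbit T (μ i))ᶜ)
      disjoint_compl_right).mono_right (iSup₂_le fun j hj => biSup_mono fun ν a b => hd j i hj ?_)
    rw [← orbit_eq_iff.2 a, ← orbit_eq_iff.2 b]
  have hl : LinearIndependent K fun i => (⟨v i, h3 i⟩ : fx θ T) :=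
    LinearIndependent.of_comp (fx θ T).subtype (hi.linearIndependent _ h1 h2)
  simpa using hl.fintype_card_le_finrank

theorem core2 [IsAlgClosed K] [FiniteDimensional K V] [Nontrivial V] (hc : IsMulCommutative P) (hP : fx θ P = ⊥)
    (hT : IsPGroup 2 T) {q : ℕ} [hq : Fact q.Prime] (hq2 : q ≠ 2) {Q : Subgroup G} (hQ : Nat.card Q = q)
    (hcomm : ⁅P, Q⁆ = P) : 2 ≤ finrank K (fx θ T) ∧ ((∀ x ∈ Q, ∀ v ∈ fx θ T, θ x v ∈ fx θ T) → 3 ≤ finrank K (fx θ T)) := by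
  classical
  have hno : ∀ y ∈ Q, y ≠ 1 → ∀ μ : P → K, wt θ P μ ≠ ⊥ → y • μ ≠ μ := fun y hy hy1 μ h e => by
    obtain ⟨v, hv, h0⟩ := (Submodule.ne_bot_iff _).1 h
    refine h0 ((Submodule.mem_bot K).1 (hP ▸ mem_fx.2 fun t ht => ?_))
    let D : Subgroup G :=
      { carrier := {a | θ a v = v}
        one_mem' := by simp
        mul_mem' := fun {a b} ha hb => by
          rw [Set.mem_ofPred_eq, map_mul, Module.End.mul_apply, hb, ha]
        inv_mem' := fun {a} ha => rep_inj θ a (by simpa using ha.symm) }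
    refine (show P ≤ D from hcomm.ge.trans (commutator_le.2 fun a ha z hz => ?_)) ht
    obtain ⟨i, hi⟩ := mem_zpowers_iff.1 (mem_zpowers_of_prime_card hQ (g := ⟨y, hy⟩) (fun e => hy1 (congrArg Subtype.val e))
      (g' := ⟨z⁻¹, Q.inv_mem hz⟩))
    have h1 : z⁻¹ • μ = μ := (show y ^ i = z⁻¹ from congrArg Subtype.val hi) ▸ (stabilizer G μ).zpow_mem e i
    have h2 := mem_wt.1 hv ⟨z⁻¹⁻¹ * a⁻¹ * z⁻¹, ‹P.Normal›.conj_mem' _ (P.inv_mem ha) _⟩
    have h3 := mem_wt.1 hv ⟨a⁻¹, P.inv_mem ha⟩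
    rw [show μ ⟨z⁻¹⁻¹ * a⁻¹ * z⁻¹, _⟩ = μ ⟨a⁻¹, P.inv_mem ha⟩ from congrFun h1 ⟨a⁻¹, P.inv_mem ha⟩, ← h3] at h2
    change θ (a * z * a⁻¹ * z⁻¹) v = v
    rw [show a * z * a⁻¹ * z⁻¹ = a * (z⁻¹⁻¹ * a⁻¹ * z⁻¹) by group, map_mul, Module.End.mul_apply, h2]
    simp
  have hwo : ∀ μ : P → K, wt θ P μ ≠ ⊥ → ∀ ν ∈ orbit T μ, wt θ P ν ≠ ⊥ := by
    rintro μ h _ ⟨t, rfl⟩
    exact wne (t : G) h
  have hno2 : ∀ y ∈ Q, y ≠ 1 → ∀ μ : P → K, wt θ P μ ≠ ⊥ → ¬ ∀ ν ∈ orbit T μ, y • ν ∈ orbit T μ := by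
    intro y hy hy1 μ h hh
    have : Finite (orbit T μ) := Set.finite_range _
    have := Fintype.ofFinite (orbit T μ)
    let f : orbit T μ → orbit T μ := fun a => ⟨y • a.1, hh _ a.2⟩
    have hf : ∀ (n : ℕ) a, (f^[n] a).1 = y ^ n • a.1 := fun n a => by
      induction n with
      | zero => simp
      | succ n ih => rw [Function.iterate_succ_apply', pow_succ', mul_smul, ← ih]
    have hyq : y ^ q = 1 := by
      have := pow_card_eq_one' (x := (⟨y, hy⟩ : Q))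
      rw [hQ] at this
      exact congrArg Subtype.val this
    have h1 := Equiv.Perm.card_fixedPoints_modEq (f := f) (p := q) (n := 1) (by
      rw [pow_one]
      funext a
      exact Subtype.ext ((hf q a).trans (by rw [hyq, one_smul]; rfl)))
    have : IsEmpty (Function.fixedPoints f) := ⟨fun a => hno y hy hy1 _ (hwo μ h _ a.1.2) (congrArg Subtype.val a.2)⟩
    obtain ⟨n, hn⟩ := hT.card_orbit μ
    rw [Fintype.card_eq_zero (α := Function.fixedPoints f), ← Nat.card_eq_fintype_card, hn, Nat.modEq_zero_iff_dvd] at h1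
    exact hq2 ((Nat.prime_dvd_prime_iff_eq hq.out Nat.prime_two).1 (hq.out.dvd_of_dvd_pow h1))
  obtain ⟨l, hl⟩ := exists_wt θ P hc
  have hQ1 : Q ≠ ⊥ := fun e => by rw [e, card_bot] at hQ; exact hq.out.one_lt.ne hQ
  obtain ⟨⟨x, hx⟩, hx1⟩ := ne_bot_iff_exists_ne_one.1 hQ1
  have hx1' : x ≠ 1 := fun e => hx1 (Subtype.ext e)
  refine ⟨?_, fun hinv => ?_⟩
  · have := hno2 x hx hx1' l hl
    push Not at this
    obtain ⟨ν, h1, h2⟩ := this
    refine orb_le hT ![l, x • ν] (Fin.forall_fin_two.2 ⟨hl, wne x (hwo l hl ν h1)⟩) ?_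
    have h3 : orbit T l ≠ orbit T (x • ν) := fun e => h2 (e ▸ mem_orbit_self _)
    simp [Fin.forall_fin_two, h3, h3.symm]
  · have step : ∀ μ : P → K, wt θ P μ ≠ ⊥ → ∃ ν, wt θ P ν ≠ ⊥ ∧ ∀ a ∈ orbit T ν, x⁻¹ • a ∈ orbit T μ := fun μ h => by
      obtain ⟨v, h1, h2, h3⟩ := exv hT h
      exact supp (X := {a | x⁻¹ • a ∈ orbit T μ}) (fun e => h2 (rep_inj θ x (e.trans (map_zero _).symm))) (hinv x hx v h3)
        ((Set.finite_range _).preimage (MulAction.injective x⁻¹).injOn)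
        (U_map x (fun a ha => by rwa [Set.mem_ofPred_eq, inv_smul_smul]) h1)
    obtain ⟨m, hm, a1⟩ := step l hl
    obtain ⟨n, hn, a2⟩ := step m hm
    have hxi : x⁻¹ ≠ 1 := inv_ne_one.2 hx1'
    have b1 : orbit T l ≠ orbit T m := fun e => hno2 _ (Q.inv_mem hx) hxi l hl (by rwa [← e] at a1)
    have b2 : orbit T m ≠ orbit T n := fun e => hno2 _ (Q.inv_mem hx) hxi m hm (by rwa [← e] at a2)
    have b3 : orbit T l ≠ orbit T n := fun e => hno2 (x⁻¹ * x⁻¹) (Q.mul_mem (Q.inv_mem hx) (Q.inv_mem hx)) (fun e2 => by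
      have h1 : orderOf (⟨x, hx⟩ : Q) = q := orderOf_eq_prime (hQ ▸ pow_card_eq_one') hx1
      have h2 : (⟨x, hx⟩ : Q) ^ 2 = 1 := Subtype.ext (by rw [← mul_inv_rev, inv_eq_one] at e2; simpa [sq] using e2)
      exact hq2 ((Nat.prime_dvd_prime_iff_eq hq.out Nat.prime_two).1 (h1 ▸ orderOf_dvd_of_pow_eq_one h2))) l hl
      fun a ha => by rw [mul_smul]; exact a1 _ (a2 _ (e ▸ ha))
    refine orb_le hT ![l, m, n] (fun i => by fin_cases i <;> assumption) fun i j hij => ?_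
    fin_cases i <;> fin_cases j <;> first | exact absurd rfl hij | assumption | (apply Ne.symm; assumption)

end

/-- Let S be a finite solvable group whose order is divisible only by the primes 2, p, q (p, q distinct odd primes), with a Sylow system S₂, S_p, S_q (pairwise permutable Sylow subgroups) such that: S_p is a minimal normal subgroup of S of order p or p²; S_q has order q and [S_p, S_q] = S_p; and O₂(S) = 1. Let E be an irreducible module for S over the field with two elements on which S_p acts faithfully, and E₀ the subspace of fixed points of S₂. Then either E₀ has at least 8 elements, or E₀ has exactly 4 elements and S_q does not leave E₀ invariant. -/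
theorem result {S : Type*} [Group S] [Finite S]
    [Group.IsSolvable S] (p q : ℕ) (hp : p.Prime) (hq : q.Prime) (hp2 : p ≠ 2) (hq2 : q ≠ 2) (hpq : p ≠ q)
    (hπ : ∀ r : ℕ, r.Prime → r ∣ Nat.card S → r = 2 ∨ r = p ∨ r = q)
    (S₂ : Sylow 2 S) (Sp : Sylow p S) (Sq : Sylow q S)
    (h2q : Nat.card ↥((S₂ : Subgroup S) ⊔ (Sq : Subgroup S)) = Nat.card ↥S₂ * Nat.card ↥Sq)
    (h2p : Nat.card ↥((S₂ : Subgroup S) ⊔ (Sp : Subgroup S)) = Nat.card ↥S₂ * Nat.card ↥Sp)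
    (hpq' : Nat.card ↥((Sp : Subgroup S) ⊔ (Sq : Subgroup S)) = Nat.card ↥Sp * Nat.card ↥Sq)
    (hSpN : (Sp : Subgroup S).Normal) (hSpmin : ∀ N : Subgroup S, N.Normal → N ≤ (Sp : Subgroup S) → N = ⊥ ∨ N = (Sp : Subgroup S))
    (hSpcard : Nat.card ↥Sp = p ∨ Nat.card ↥Sp = p ^ 2)
    (hSq : Nat.card ↥Sq = q) (hcomm : ⁅(Sp : Subgroup S), (Sq : Subgroup S)⁆ = (Sp : Subgroup S))
    (hO2 : Cfsg.pCore 2 S = ⊥)
    {E : Type*} [AddCommGroup E] [Module (ZMod 2) E] [Finite E] (ρ : Representation (ZMod 2) S E) (hE : Nontrivial E)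
    (hirr : ∀ N : Submodule (ZMod 2) E, (∀ s : S, ∀ m ∈ N, ρ s m ∈ N) → N = ⊥ ∨ N = ⊤)
    (hfaith : ∀ x ∈ (Sp : Subgroup S), ρ x = 1 → x = 1) :
    8 ≤ Nat.card {v : E // ∀ s ∈ (S₂ : Subgroup S), ρ s v = v} ∨
      (Nat.card {v : E // ∀ s ∈ (S₂ : Subgroup S), ρ s v = v} = 4 ∧
        ∃ x ∈ (Sq : Subgroup S), ∃ v : E, (∀ s ∈ (S₂ : Subgroup S), ρ s v = v) ∧ ¬ ∀ s ∈ (S₂ : Subgroup S), ρ s (ρ x v) = ρ x v) := by
  have := Fact.mk hp
  have := Fact.mk hq
  have : Module.Finite (ZMod 2) E := Module.Finite.of_finite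
  have hc : IsMulCommutative (Sp : Subgroup S) := by
    rcases hSpcard with h | h
    · have := isCyclic_of_prime_card h
      infer_instance
    · exact IsPGroup.isMulCommutative_of_card_eq_prime_sq h
  have hP : fx ρ (Sp : Subgroup S) = ⊥ := by
    refine (hirr _ fun g v hv => mem_fx.2 fun t ht => ?_).resolve_right fun e => ?_
    · conv_rhs => rw [← mem_fx.1 hv _ (hSpN.conj_mem' t ht g)]
      rw [← Module.End.mul_apply, ← Module.End.mul_apply, ← map_mul, ← map_mul]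
      congr 2
      group
    · have : (Sp : Subgroup S) = ⊥ := eq_bot_iff.2 fun t ht =>
        hfaith t ht (LinearMap.ext fun v => mem_fx.1 (e.ge Submodule.mem_top) t ht)
      have h1 : Nat.card Sp = 1 := card_eq_one.2 this
      rcases hSpcard with h | h
      · exact hp.one_lt.ne' (h.symm.trans h1)
      · exact (Nat.one_lt_pow two_ne_zero hp.one_lt).ne' (h.symm.trans h1)
  let L := AlgebraicClosure (ZMod 2)
  let θ : Representation L S (L ⊗[ZMod 2] E) := (Module.End.baseChangeHom (ZMod 2) L E).toMonoidHom.comp ρ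
  have hd : finrank L (L ⊗[ZMod 2] E) = finrank (ZMod 2) E := Module.finrank_baseChange
  have : Nontrivial (L ⊗[ZMod 2] E) := Module.nontrivial_of_finrank_pos (R := L) (hd ▸ finrank_pos)
  have hbc : ∀ T : Subgroup S, fx θ T ≤ LinearMap.range ((fx ρ T).subtype.baseChange L) := fun T v hv =>
    bc_fix L ρ T (mem_fx.1 hv)
  have hle : ∀ T : Subgroup S, finrank L (fx θ T) ≤ finrank (ZMod 2) (fx ρ T) := fun T =>
    (Submodule.finrank_mono (hbc T)).trans ((LinearMap.finrank_range_le _).trans Module.finrank_baseChange.le)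
  obtain ⟨h2, h3⟩ := core2 (θ := θ) hc (by
    have := hle (Sp : Subgroup S)
    rw [hP, finrank_bot] at this
    exact Submodule.finrank_eq_zero.1 (Nat.le_zero.1 this)) S₂.isPGroup' hq2 hSq hcomm
  have hcard : Nat.card {v : E // ∀ s ∈ (S₂ : Subgroup S), ρ s v = v} = 2 ^ finrank (ZMod 2) (fx ρ (S₂ : Subgroup S)) := by
    rw [Nat.card_congr (Equiv.subtypeEquivRight fun v => (mem_fx (θ := ρ)).symm), Module.natCard_eq_pow_finrank (K := ZMod 2),
      Nat.card_zmod]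
  have h4 := hle (S₂ : Subgroup S)
  rw [hcard]
  by_cases h5 : 3 ≤ finrank (ZMod 2) (fx ρ (S₂ : Subgroup S))
  · exact Or.inl (Nat.pow_le_pow_right two_pos h5)
  refine Or.inr ⟨by rw [show finrank (ZMod 2) (fx ρ (S₂ : Subgroup S)) = 2 by omega]; rfl, ?_⟩
  by_contra hcon
  push Not at hcon
  refine h5 ((h3 fun x hx v hv => mem_fx.2 fun t ht => ?_).trans h4)
  obtain ⟨w, rfl⟩ := hbc _ hv
  have h6 : ρ t ∘ₗ ρ x ∘ₗ (fx ρ (S₂ : Subgroup S)).subtype = ρ x ∘ₗ (fx ρ (S₂ : Subgroup S)).subtype :=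
    LinearMap.ext fun u => hcon x hx u (mem_fx.1 u.2) t ht
  change ((ρ t).baseChange L ∘ₗ (ρ x).baseChange L ∘ₗ (fx ρ (S₂ : Subgroup S)).subtype.baseChange L) w =
    ((ρ x).baseChange L ∘ₗ (fx ρ (S₂ : Subgroup S)).subtype.baseChange L) w
  rw [← LinearMap.baseChange_comp, ← LinearMap.baseChange_comp, h6]

end Cfsg.Agent.S4414
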