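import Cfsg.Statements.S4420
import Cfsg.Agent.H1.Basic

set_option autoImplicit false
open Cfsg

namespace Cfsg.Agent.S4420

theorem inv_of_out {H : Type*} [Group H] (A : Subgroup H) (hD : ∀ x : H, x ∉ A → x ^ 2 = 1)
    (x : H) (hx : x ∉ A) (b : H) (hb : b ∈ A) : x * b * x⁻¹ = b⁻¹ := by
  have h1 := hD x hx
  have h2 := hD (x * b) (fun h => hx (by simpa using A.mul_mem h (A.inv_mem hb)))
  rw [pow_two] at h1 h2
  rw [eq_inv_iff_mul_eq_one, ← eq_inv_iff_mul_eq_one.1 (eq_inv_iff_mul_eq_one.2 h2),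
    inv_eq_of_mul_eq_one_right h1]
  simp [mul_assoc]

theorem comm_of_out {H : Type*} [Group H] (A : Subgroup H) (hA : A ≠ ⊤)
    (hD : ∀ x : H, x ∉ A → x ^ 2 = 1) : IsMulCommutative A := by
  obtain ⟨x, hx⟩ : ∃ x, x ∉ A := by
    by_contra h; push Not at h; exact hA ((Subgroup.eq_top_iff' A).2 h)
  rw [H1.isMulCommutative_iff]
  intro a ha b hb
  have h1 := inv_of_out A hD x hx _ (A.mul_mem ha hb)
  have h2 : x * (a * b) * x⁻¹ = (x * a * x⁻¹) * (x * b * x⁻¹) := by simp [mul_assoc]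
  rw [h2, inv_of_out A hD x hx a ha, inv_of_out A hD x hx b hb, ← mul_inv_rev] at h1
  exact (inv_injective h1).symm

/-- Structure of groups in which every element outside some proper subgroup has square 1. Let H be a finite group with a proper subgroup A such that every element outside A has square 1. Then H has an abelian normal subgroup B of index 2 such that every element outside B is an involution inverting every element of B; and if H is not an elementary abelian 2-group, B is the only abelian normal subgroup of index 2 with this property. -/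
theorem result {H : Type*} [Group H] [Finite H] (A : Subgroup H) (hA : A ≠ ⊤) (hD : ∀ x : H, x ∉ A → x ^ 2 = 1) :
    ∃ B : Subgroup H, B.Normal ∧ IsMulCommutative ↥B ∧ B.index = 2 ∧
      (∀ x : H, x ∉ B → x ^ 2 = 1 ∧ ∀ b ∈ B, x * b * x⁻¹ = b⁻¹) ∧
      (¬ (IsMulCommutative H ∧ ∀ x : H, x ^ 2 = 1) →
        ∀ B' : Subgroup H, B'.Normal → IsMulCommutative ↥B' → B'.index = 2 →
          (∀ x : H, x ∉ B' → x ^ 2 = 1 ∧ ∀ b ∈ B', x * b * x⁻¹ = b⁻¹) → B' = B) := by
  obtain ⟨B, hB, hAB⟩ := (eq_top_or_exists_le_coatom A).resolve_left hA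
  have hD' : ∀ x : H, x ∉ B → x ^ 2 = 1 := fun x hx => hD x fun h => hx (hAB h)
  have hn : B.Normal := ⟨fun b hb g => by
    by_cases hg : g ∈ B
    · exact B.mul_mem (B.mul_mem hg hb) (B.inv_mem hg)
    · rw [inv_of_out B hD' g hg b hb]; exact B.inv_mem hb⟩
  obtain ⟨x, hx⟩ : ∃ x, x ∉ B := by
    by_contra h; push Not at h; exact hB.1 ((Subgroup.eq_top_iff' B).2 h)
  have hi : B.index = 2 := by
    rw [Subgroup.index_eq_two_iff_exists_notMem_and]
    refine ⟨x, hx, fun b => ?_⟩
    have ht : B ⊔ Subgroup.zpowers x = ⊤ := hB.2 _ (lt_of_le_of_ne le_sup_left fun h =>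
      hx (h ▸ Subgroup.mem_sup_right (Subgroup.mem_zpowers x)))
    obtain ⟨c, hc, _, ⟨k, rfl⟩, rfl⟩ := (H1.mem_sup_of_le_normalizer
      (Subgroup.le_normalizer_of_normal)).1 (ht ▸ Subgroup.mem_top b : b ∈ B ⊔ Subgroup.zpowers x)
    have h2 : x ^ (2 : ℤ) = 1 := by exact_mod_cast hD' x hx
    rcases Int.even_or_odd' k with ⟨j, rfl | rfl⟩
    · right; simpa [zpow_mul, h2] using hc
    · left
      have : x ^ (2 * j + 1) * x = 1 := by
        rw [zpow_add_one, zpow_mul, h2, one_zpow, one_mul, ← pow_two, hD' x hx]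
      simp only [mul_assoc, this, mul_one]; exact hc
  refine ⟨B, hn, comm_of_out B hB.1 hD', hi, fun x hx => ⟨hD' x hx, inv_of_out B hD' x hx⟩, ?_⟩
  intro hne B' _ hc' hi' h'
  obtain ⟨b, hb⟩ : ∃ b : H, b ^ 2 ≠ 1 := by
    by_contra h
    push Not at h
    refine hne ⟨⟨⟨fun a b => ?_⟩⟩, h⟩
    have i : ∀ y : H, y⁻¹ = y := fun y => by rw [inv_eq_iff_mul_eq_one, ← pow_two, h]
    rw [← i (a * b), mul_inv_rev, i, i]
  have hbB : b ∈ B := by by_contra h; exact hb (hD' b h)
  have hbB' : b ∈ B' := by by_contra h; exact hb (h' b h).1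
  have hle : B' ≤ B := by
    intro y hy
    by_contra h
    apply hb
    have h1 := inv_of_out B hD' y h b hbB
    rw [H1.isMulCommutative_iff.1 hc' y hy b hbB', mul_inv_cancel_right] at h1
    rw [pow_two]; exact eq_inv_iff_mul_eq_one.1 h1
  have := Subgroup.relIndex_mul_index hle
  rw [hi, hi'] at this
  exact le_antisymm hle (Subgroup.relIndex_eq_one.1 (by omega))

end Cfsg.Agent.S4420
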