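import Cfsg.Statements.S4446
import Cfsg.Agent.H8.Glaub3

set_option autoImplicit false
open Cfsg

namespace Cfsg.Agent.S4446

open H5 H19 H8 H8.Glaub in
theorem theta_iff {Γ : Type*} [Group Γ] {C : Subgroup Γ} (χh : Γ → ℂ) (β : C → ℂ) (a : ℂ) (s : Γ) :
    (∀ c : C, χh (c * s) = a * β c) ↔ theta C s χh = a • extendByZero C β := by
  constructor
  · intro h
    refine eq_of_eqOn (res_supp C _) (fun x hx => by simp [extendByZero_supp C β x hx])
      fun x hx => ?_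
    rw [theta, res_of_mem _ hx, Pi.smul_apply, H19.extendByZero_of_mem _ hx]
    exact h ⟨x, hx⟩
  · intro h c
    have := congrFun h c
    rwa [theta, res_of_mem _ c.2, Pi.smul_apply, H19.extendByZero_coe] at this
open H5 H19 H8 H8.Glaub

/-- Let the finite group Γ be generated by a normal subgroup G and a cyclic subgroup S of coprime orders, C = G ⊓ C(S), and let χ be an S-invariant irreducible character of G with canonical extension χ̂ to Γ (the extension whose determinantal order is coprime to the order of S). Then there are exactly one irreducible character β of C and one sign ε such that χ̂(c s) = ε β(c) for every c ∈ C and every generator s of S; this β is a constituent of the restriction of χ to C; distinct S-invariant χ give distinct β; and every irreducible character of C arises in this way. -/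
theorem result {Γ : Type*} [Group Γ] [Fintype Γ] (G S : Subgroup Γ) [Fintype G] (hnorm : ∀ s ∈ S, ∀ g ∈ G, s * g * s⁻¹ ∈ G) (hcop : (Nat.card G).Coprime (Nat.card S)) (htop : G ⊔ S = ⊤) (hcyc : IsCyclic S) (C : Subgroup Γ) [Fintype C] (hC : C = G ⊓ Subgroup.centralizer (S : Set Γ)) (hCG : C ≤ G) : (∀ (χ : Cfsg.IrrCharacter G) (χh : Cfsg.IrrCharacter Γ), (∀ s ∈ S, ∀ g g' : G, (g' : Γ) = s * g * s⁻¹ → (χ : G → ℂ) g' = (χ : G → ℂ) g) → (∀ g : G, (χh : Γ → ℂ) g = (χ : G → ℂ) g) → (Cfsg.detOrder (χh : Γ → ℂ)).Coprime (Nat.card S) → (∃! βε : Cfsg.IrrCharacter C × ℤ, (βε.2 = 1 ∨ βε.2 = -1) ∧ ∀ c : C, ∀ s : Γ, Subgroup.zpowers s = S → (χh : Γ → ℂ) ((c : Γ) * s) = (βε.2 : ℂ) * (βε.1 : C → ℂ) c) ∧ ∀ β : Cfsg.IrrCharacter C, ∀ ε : ℤ, (ε = 1 ∨ ε = -1) → (∀ c : C, ∀ s : Γ, Subgroup.zpowers s = S → (χh : Γ → ℂ) ((c : Γ) * s) = (ε : ℂ) * (β : C → ℂ) c) → Cfsg.classInner (fun c : C => (χ : G → ℂ) ⟨c, hCG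 c.2⟩) (β : C → ℂ) ≠ 0) ∧ (∀ (χ χ' : Cfsg.IrrCharacter G) (χh χh' : Cfsg.IrrCharacter Γ), (∀ s ∈ S, ∀ g g' : G, (g' : Γ) = s * g * s⁻¹ → (χ : G → ℂ) g' = (χ : G → ℂ) g) → (∀ s ∈ S, ∀ g g' : G, (g' : Γ) = s * g * s⁻¹ → (χ' : G → ℂ) g' = (χ' : G → ℂ) g) → (∀ g : G, (χh : Γ → ℂ) g = (χ : G → ℂ) g) → (∀ g : G, (χh' : Γ → ℂ) g = (χ' : G → ℂ) g) → (Cfsg.detOrder (χh : Γ → ℂ)).Coprime (Nat.card S) → (Cfsg.detOrder (χh' : Γ → ℂ)).Coprime (Nat.card S) → ∀ β : Cfsg.IrrCharacter C, ∀ ε ε' : ℤ, (ε = 1 ∨ ε = -1) → (ε' = 1 ∨ ε' = -1) → (∀ c : C, ∀ s : Γ, Subgroup.zpowers s = S → (χh : Γ → ℂ) ((c : Γ) * s) = (ε : ℂ) * (β : C → ℂ) c) → (∀ c : C, ∀ s : Γ, Subgroup.zpowers s = S → (χh' : Γ → ℂ) ((c : Γ) * s) = (ε' : ℂ) * (β : C → ℂ) c) → χ = χ') ∧ (∀ β : Cfsg.IrrCharacter C, ∃ (χ : Cfsg.IrrCharacter G) (χh : Cfsg.IrrCharacter Γ) (ε : ℤ), (∀ s ∈ S, ∀ g g' : G, (g' : Γ) = s * g * s⁻¹ → (χ : G → ℂ) g' = (χ : G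 → ℂ) g) ∧ (∀ g : G, (χh : Γ → ℂ) g = (χ : G → ℂ) g) ∧ (Cfsg.detOrder (χh : Γ → ℂ)).Coprime (Nat.card S) ∧ (ε = 1 ∨ ε = -1) ∧ ∀ c : C, ∀ s : Γ, Subgroup.zpowers s = S → (χh : Γ → ℂ) ((c : Γ) * s) = (ε : ℂ) * (β : C → ℂ) c) := by
  have hn : S ≤ Subgroup.normalizer (G : Set Γ) := fun s hs =>
    H1.mem_normalizer_of_conj_mem (hnorm s hs)
  haveI := normal_of_sup_eq_top hn htop
  have hidx : Nat.card S = G.index := H1.card_eq_index_of_sup_eq_top htop hcop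
  obtain ⟨s0, hs0⟩ := (Subgroup.isCyclic_iff_exists_zpowers_eq_top S).1 hcyc
  have hs0S : s0 ∈ S := hs0 ▸ Subgroup.mem_zpowers s0
  have hord : orderOf s0 = G.index := by rw [← hidx, ← hs0, Nat.card_zpowers]
  have hC0 : C = G ⊓ Subgroup.centralizer {s0} := by
    rw [hC, ← hs0, Subgroup.zpowers_eq_closure, Subgroup.centralizer_closure]
  have hcop0 : (orderOf s0).Coprime (Nat.card G) := by rw [hord, ← hidx]; exact hcop.symm
  have hKn : (⊤ : Subgroup Γ) ≤ Subgroup.normalizer (G : Set Γ) := by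
    rw [Subgroup.normalizer_eq_top]
  have hgen : ∀ s : Γ, Subgroup.zpowers s = S → ∃ j : ℕ, j.Coprime G.index ∧ s = s0 ^ j := by
    intro s hs
    obtain ⟨j, rfl⟩ := mem_powers_iff_mem_zpowers.2
      (hs0.symm ▸ hs ▸ Subgroup.mem_zpowers s : s ∈ Subgroup.zpowers s0)
    refine ⟨j, ?_, rfl⟩
    have h1 : orderOf (s0 ^ j) = orderOf s0 := by
      rw [← Nat.card_zpowers, ← Nat.card_zpowers]; simp only at hs; rw [hs, hs0]
    rw [orderOf_pow, Nat.div_eq_self] at h1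
    rw [← hord]
    exact Nat.Coprime.symm (h1.resolve_left (orderOf_pos s0).ne')
  have hres : ∀ (χ : IrrCharacter G) (χh : IrrCharacter Γ), (∀ g : G, (χh : Γ → ℂ) g = χ.1 g) →
      res G χh.1 = extendByZero G χ.1 := fun χ χh h => by
    rw [← extendByZero_comp]; congr 1; exact funext h
  have main : ∀ (χ : IrrCharacter G) (χh : IrrCharacter Γ), (∀ g : G, (χh : Γ → ℂ) g = χ.1 g) →
      (detOrder (χh : Γ → ℂ)).Coprime (Nat.card S) → ∃ (β : IrrCharacter C) (ε : ℤ),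
      (ε = 1 ∨ ε = -1) ∧ ∀ c : C, ∀ s : Γ, Subgroup.zpowers s = S →
        (χh : Γ → ℂ) ((c : Γ) * s) = (ε : ℂ) * (β : C → ℂ) c := by
    intro χ χh hext hdet
    have h1 : (χh : Γ → ℂ) ∈ chars ⊤ := mem_chars_top.2 χh.2.isCharacter
    have h2 : res G χh.1 ∈ irr G := hres χ χh hext ▸ extendByZero_mem_irr.2 χ.2
    have hpow : ∀ j : ℕ, j.Coprime G.index → ∀ c ∈ C, χh.1 (c * s0 ^ j) = χh.1 (c * s0) :=
      fun j hj c hc => canonical_ext_mul_pow G (hidx ▸ hcop) χh.2 (res_mem_irr_iff.1 h2)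
        (hidx ▸ hdet) hj (hCG hc) (hord ▸ pow_orderOf_eq_one s0) ((hC0.le hc).2 s0 rfl).symm
    obtain ⟨β, hβ, a, ha, h3⟩ := exists_theta_eq_smul le_top hKn (Subgroup.mem_top s0) hcop0 hC0
      h1 h2
    have hch := isCharacter_ip_theta le_top (Subgroup.mem_top s0) hC0 h1 (chars_of_irr hβ)
    obtain ⟨n, hn'⟩ := hch.exists_int_of_forall_pow (g := ⟨s0, Subgroup.mem_zpowers s0⟩)
      (fun k hk => by
        rw [← Subgroup.orderOf_coe, hord] at hk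
        have : theta C (s0 ^ k) χh.1 = theta C s0 χh.1 :=
          eq_of_eqOn (res_supp C _) (res_supp C _) fun x hx => by
            rw [theta, theta, res_of_mem _ hx, res_of_mem _ hx, hpow k hk x hx]
        simp only [SubmonoidClass.mk_pow, this])
    simp only [h3, ip_smul_left, ip_irr_self hβ, mul_one] at hn'
    subst hn'
    have hn2 : n = 1 ∨ n = -1 := by
      rw [Complex.norm_intCast] at ha
      have : |n| = 1 := by exact_mod_cast ha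
      exact (abs_eq zero_le_one).1 this
    refine ⟨⟨fun x => β x, (mem_irr.1 hβ).2⟩, n, hn2, fun c s hs => ?_⟩
    obtain ⟨j, hj, rfl⟩ := hgen s hs
    rw [hpow j hj c c.2]
    have := congrFun h3 c
    rwa [theta, res_of_mem _ c.2] at this
  have hε0 : ∀ ε : ℤ, (ε = 1 ∨ ε = -1) → (ε : ℂ) ≠ 0 := by rintro _ (rfl | rfl) <;> simp
  have inj : ∀ (χ χ' : IrrCharacter G) (χh χh' : IrrCharacter Γ),
      (∀ g : G, (χh : Γ → ℂ) g = (χ : G → ℂ) g) → (∀ g : G, (χh' : Γ → ℂ) g = (χ' : G → ℂ) g) →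
      ∀ β : IrrCharacter C, ∀ ε ε' : ℤ, (ε = 1 ∨ ε = -1) → (ε' = 1 ∨ ε' = -1) →
      (∀ c : C, (χh : Γ → ℂ) ((c : Γ) * s0) = (ε : ℂ) * (β : C → ℂ) c) →
      (∀ c : C, (χh' : Γ → ℂ) ((c : Γ) * s0) = (ε' : ℂ) * (β : C → ℂ) c) → χ = χ' := by
    intro χ χ' χh χh' h1 h2 β ε ε' hε hε' h3 h4
    by_contra hne
    have := ip_theta_of_ne le_top hKn (Subgroup.mem_top s0) hcop0 hC0
      (mem_chars_top.2 χh.2.isCharacter) (mem_chars_top.2 χh'.2.isCharacter)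
      (hres χ χh h1 ▸ extendByZero_mem_irr.2 χ.2) (hres χ' χh' h2 ▸ extendByZero_mem_irr.2 χ'.2)
      (by rw [hres χ χh h1, hres χ' χh' h2]
          exact fun h => hne (Subtype.ext (extendByZero_injective G h)))
    rw [(theta_iff _ _ _ _).1 h3, (theta_iff _ _ _ _).1 h4, ip_smul_left, ip_smul_right,
      ip_irr_self (extendByZero_mem_irr.2 β.2), mul_one, mul_eq_zero, map_eq_zero] at this
    exact this.elim (hε0 ε hε) (hε0 ε' hε')
  refine ⟨fun χ χh _ hext hdet => ⟨?_, fun β ε hε h => ?_⟩,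
    fun χ χ' χh χh' _ _ h1 h2 _ _ β ε ε' hε hε' h3 h4 =>
      inj χ χ' χh χh' h1 h2 β ε ε' hε hε' (fun c => h3 c s0 hs0) (fun c => h4 c s0 hs0), ?_⟩
  · obtain ⟨β, ε, h1, h2⟩ := main χ χh hext hdet
    refine ⟨(β, ε), ⟨h1, h2⟩, ?_⟩
    rintro ⟨β', ε'⟩ ⟨h3, h4⟩
    have h5 : (ε' : ℂ) • β'.1 = (ε : ℂ) • β.1 := funext fun c =>
      (h4 c s0 hs0).symm.trans (h2 c s0 hs0)
    have h6 := congrArg (fun φ => classInner φ β.1) h5
    simp only [classInner_smul_left, β.2.classInner_self, mul_one] at h6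
    have h7 : β' = β := Subtype.ext (β'.2.eq_of_classInner_ne_zero β.2 fun h => hε0 ε h1 (by
      rw [← h6, h, mul_zero]))
    subst h7
    rw [β'.2.classInner_self, mul_one] at h6
    exact Prod.ext rfl (by exact_mod_cast h6)
  · have hβ := extendByZero_mem_irr.2 β.2
    have hch := isCharacter_ip_theta le_top (Subgroup.mem_top s0) hC0
      (mem_chars_top.2 χh.2.isCharacter) (chars_of_irr hβ)
    rw [classInner_resLe hCG, ← hres χ χh hext, res_res hCG, ← theta_one]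
    intro h0
    have := congrFun (hch.eq_zero_of_apply_one h0) ⟨s0, Subgroup.mem_zpowers s0⟩
    simp only [(theta_iff _ _ _ _).1 (fun c => h c s0 hs0), ip_smul_left, ip_irr_self hβ, mul_one,
      Pi.zero_apply] at this
    exact hε0 ε hε this
  · have hex : ∀ χ : {χ : IrrCharacter G // ∀ s ∈ S, ∀ g g' : G, (g' : Γ) = s * g * s⁻¹ →
        (χ : G → ℂ) g' = (χ : G → ℂ) g}, ∃ (β : IrrCharacter C) (χh : IrrCharacter Γ) (ε : ℤ),
        (∀ g : G, (χh : Γ → ℂ) g = (χ.1 : G → ℂ) g) ∧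
        (detOrder (χh : Γ → ℂ)).Coprime (Nat.card S) ∧ (ε = 1 ∨ ε = -1) ∧
        ∀ c : C, ∀ s : Γ, Subgroup.zpowers s = S →
          (χh : Γ → ℂ) ((c : Γ) * s) = (ε : ℂ) * (β : C → ℂ) c := by
      rintro ⟨χ, hχ⟩
      have h1 : (⊤ : Subgroup Γ) ≤ stabf (extendByZero G χ.1) := htop ▸
        sup_le (le_stabf_of_cf (cf_of_irr (extendByZero_mem_irr.2 χ.2))) ((inv_iff_le_stabf hn _).1 hχ)
      obtain ⟨d, -, hd⟩ := χ.2.exists_apply_one
      obtain ⟨χh, ⟨h2, h3, h4⟩, -⟩ := H6.exists_canonical_ext χ.2 (fun g => funext fun n =>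
        (inv_iff_le_stabf hKn _).2 h1 g (Subgroup.mem_top g) n _ rfl) hd
        (hidx ▸ Nat.Coprime.mul_right (hcop.symm.coprime_dvd_right (H6.detOrder_dvd_card _))
          (hcop.symm.coprime_dvd_right (χ.2.degree_dvd_card hd)))
      have h5 : (detOrder χh).Coprime (Nat.card S) :=
        h4 ▸ hcop.coprime_dvd_left (H6.detOrder_dvd_card _)
      obtain ⟨β, ε, h6, h7⟩ := main χ ⟨χh, h2⟩ h3 h5
      exact ⟨β, ⟨χh, h2⟩, ε, h3, h5, h6, h7⟩
    choose f g e h1 h2 h3 h4 using hex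
    have hinj : Function.Injective f := fun a b hab => Subtype.ext
      (inj _ _ _ _ (h1 a) (h1 b) (f a) _ _ (h3 a) (h3 b) (fun c => h4 a c s0 hs0)
        (fun c => hab ▸ h4 b c s0 hs0))
    have hsurj := (hinj.bijective_of_nat_card_le (by
      rw [card_irr_subtype G _ (fun χ => cjf s0 χ = χ) (fun χ => by
        rw [inv_iff_le_stabf hn, ← hs0, Subgroup.zpowers_le, mem_stabf]),
        card_fixed_irr_cyclic (hn hs0S) hcop0 hC0, card_irr_eq, card_irr_eq_card_conjClasses])).2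
    intro β
    obtain ⟨χ, rfl⟩ := hsurj β
    exact ⟨χ.1, g χ, e χ, χ.2, h1 χ, h2 χ, h3 χ, h4 χ⟩

end Cfsg.Agent.S4446
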