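import Cfsg.Statements.S4452
import Cfsg.Agent.H8.Glaub3
import Cfsg.Agent.H8.SelfCent

set_option autoImplicit false
open Cfsg

namespace Cfsg.Agent.S4452

open H5 H6 Cfsg in
theorem cnt {G : Type*} [Group G] [Finite G] (K H : Subgroup G) [K.Normal] (hKH : K ⊔ H = ⊤)
    (hcop : (Nat.card K).Coprime (Nat.card H)) :
    Nat.card {χ : IrrCharacter G // (charDegree (χ : G → ℂ)).Coprime (Nat.card H)} =
      Nat.card {θ : IrrCharacter K // ∀ g : G, cj θ.1 g = θ.1} * Nat.card (H →* ℂˣ) := by
  classical
  have := Fintype.ofFinite G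
  have := Fintype.ofFinite K
  have hidx : Nat.card H = K.index := H1.card_eq_index_of_sup_eq_top hKH hcop
  have hres : ∀ χ : {χ : IrrCharacter G // (charDegree (χ : G → ℂ)).Coprime (Nat.card H)},
      IsIrrCharacter K fun k : K => χ.1.1 k := by
    rintro ⟨χ, hχ⟩
    obtain ⟨θ, h1, h2⟩ := exists_irr_under (N := K) χ.2
    obtain ⟨b, h3, h4⟩ := degree_ratio_dvd h1 χ.2 h2
    have h5 : charDegree χ.1 = b * charDegree θ := by
      have : (charDegree χ.1 : ℂ) = b * charDegree θ := by
        rw [h1.coe_charDegree, χ.2.coe_charDegree, h4]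
      exact_mod_cast this
    have h6 : b = 1 := Nat.eq_one_of_dvd_coprimes hχ ⟨_, h5⟩ (hidx ▸ h3)
    rw [eq_of_constituent_of_apply_one (χ.2.isCharacter.restrict K) h1 h2
      (by rw [h6] at h4; simpa using h4)]
    exact h1
  refine H8.card_eq_of_card_fiber (fun χ => ⟨⟨_, hres χ⟩, fun g => cj_res χ.1.2.isClassFunction g⟩)
    _ fun θ => ?_
  obtain ⟨η, h1, h2⟩ := ext_of_coprime_card θ.1.2 θ.2 (hidx ▸ hcop)
  have h3 : IsIrrCharacter K fun k : K => η k := (funext h2 : (fun k : K => η k) = θ.1.1) ▸ θ.1.2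
  have hc : K.IsComplement' H := H1.isComplement'_iff_of_normal.2
    ⟨(Subgroup.disjoint_of_coprime_natCard hcop).eq_bot, hKH⟩
  let π : G →* H := (hc.symm.QuotientMulEquiv.toMonoidHom).comp (QuotientGroup.mk' K)
  have hπK : ∀ k : K, π k = 1 := fun k => by
    change hc.symm.QuotientMulEquiv ((k : G) : G ⧸ K) = 1
    rw [(QuotientGroup.eq_one_iff (k : G)).2 k.2, map_one]
  have hπH : ∀ h : H, π h = h := fun h => hc.symm.QuotientMulEquiv.apply_symm_apply h
  symm
  refine Nat.card_congr (Equiv.ofBijective (fun lam => ⟨⟨⟨η * fun g => (lam (π g) : ℂ),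
    h1.mul_hom (lam.comp π)⟩, ?_⟩, Subtype.ext (Subtype.ext (funext fun k => ?_))⟩) ⟨?_, ?_⟩)
  · have : charDegree (η * fun g => (lam (π g) : ℂ)) = charDegree θ.1.1 :=
      H8.charDegree_congr (by simpa using h2 1)
    rw [this]
    exact hcop.coprime_dvd_left θ.1.2.charDegree_dvd_card
  · simp [hπK, h2]
  · intro a b hab
    have h4 : (η * fun g => (a (π g) : ℂ)) = η * fun g => (b (π g) : ℂ) :=
      congrArg (fun x => x.1.1.1) hab
    have h5 := gallagher_inj h1.isCharacter h3 (isIrrCharacter_hom (a.comp π))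
      (fun n => by simp [hπK]) (isIrrCharacter_hom (b.comp π)) (fun n => by simp [hπK])
      (by rw [mul_comm, mul_comm _ η]; exact h4)
    ext h
    simpa [hπH] using congrFun h5 h
  · rintro ⟨χ, hχ⟩
    obtain ⟨lam, h4, h5⟩ := exists_hom_of_ext h1.isCharacter χ.1.2.isCharacter h3 (fun n => by
      rw [h2]; exact congrFun (congrArg (fun x => x.1.1) hχ) n)
    refine ⟨lam.comp H.subtype, Subtype.ext (Subtype.ext (Subtype.ext ?_))⟩
    refine Eq.trans ?_ (h5.trans (mul_comm _ _)).symm
    change (η * fun g => (lam (π g) : ℂ)) = _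
    congr 1
    ext g
    obtain ⟨k, hk, h, hh, rfl⟩ := H1.exists_mul_of_isComplement' hc g
    simp [hπK ⟨k, hk⟩, hπH ⟨h, hh⟩, h4 ⟨k, hk⟩]
open H5 H19 H8 H8.Glaub

/-- Let the finite group G be the product of a normal subgroup K and a solvable subgroup H of coprime orders, and let N = N_G(H). Then the number of irreducible characters of G of degree coprime to the order of H equals the number of irreducible characters of N of degree coprime to the order of H. (The two sets are in fact in a canonical bijection; only the equality of their sizes is stated here.) -/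
theorem result {G : Type*} [Group G] [Finite G] (K H : Subgroup G) [K.Normal] (hKH : K ⊔ H = ⊤) (hcop : (Nat.card K).Coprime (Nat.card H)) (hsolv : Group.IsSolvable H) : Nat.card {χ : Cfsg.IrrCharacter G // (Cfsg.charDegree (χ : G → ℂ)).Coprime (Nat.card H)} = Nat.card {η : Cfsg.IrrCharacter (Subgroup.normalizer (H : Set G)) // (Cfsg.charDegree (η : Subgroup.normalizer (H : Set G) → ℂ)).Coprime (Nat.card H)} := by
  have := Fintype.ofFinite G
  set N := Subgroup.normalizer (H : Set G) with hN
  have hHN : H ≤ N := Subgroup.le_normalizer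
  have hn : ∀ S : Subgroup G, S ≤ Subgroup.normalizer (K : Set G) := fun S => by
    rw [Subgroup.normalizer_eq_top]; exact le_top
  have hd : H ⊓ K = ⊥ := (Subgroup.disjoint_of_coprime_natCard hcop.symm).eq_bot
  have hC : K ⊓ N = K ⊓ Subgroup.centralizer (H : Set G) :=
    le_antisymm (le_inf inf_le_left (H1.inf_normalizer_le_centralizer (hn H) hd))
      (inf_le_inf_left _ (Subgroup.centralizer_le_normalizer _))
  have h1 := cnt K H hKH hcop
  have h2 := cnt (K.subgroupOf N) (H.subgroupOf N) (H1.sup_subgroupOf_eq_top hKH hHN)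
    ((hcop.coprime_dvd_left (H1.card_subgroupOf_dvd _ _)).coprime_dvd_right
      (H1.card_subgroupOf_dvd _ _))
  rw [H1.card_subgroupOf_of_le hHN] at h2
  rw [h1, h2]
  congr 1
  · rw [card_irr_subtype K _ (fun χ => H ≤ stabf χ) (fun χ => by
      rw [← inv_iff_le_stabf (hn H)]
      constructor
      · intro h s _ g g' e
        rw [← congrFun (h s) g]; exact congrArg _ (Subtype.ext e)
      · intro h g
        have h3 : (⊤ : Subgroup G) ≤ stabf (extendByZero K χ.1) := hKH ▸ sup_le
          (le_stabf_of_cf (cf_of_irr (extendByZero_mem_irr.2 χ.2))) ((inv_iff_le_stabf (hn H) _).1 h)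
        exact funext fun n => (inv_iff_le_stabf (hn ⊤) _).2 h3 g trivial n _ rfl),
      card_invariant_irr hsolv K (hn H) hcop, card_irr_eq, ← hC, ← card_irr_eq_card_conjClasses]
    have e : K.subgroupOf N ≃* (K ⊓ N : Subgroup G) :=
      (MulEquiv.subgroupCongr (Subgroup.inf_subgroupOf_right K N).symm).trans
        (Subgroup.subgroupOfEquivOfLe inf_le_right)
    rw [Nat.card_congr (Equiv.subtypeUnivEquiv (α := IrrCharacter (K.subgroupOf N)) ?_)]
    · exact Nat.card_congr ⟨fun χ => ⟨_, χ.2.comp_equiv e⟩, fun χ => ⟨_, χ.2.comp_equiv e.symm⟩,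
        fun χ => Subtype.ext (funext fun x => by simp), fun χ => Subtype.ext (funext fun x => by simp)⟩
    · intro θ g
      have h3 : (⊤ : Subgroup N) ≤ H6.inertia θ.1 := by
        rw [← H1.sup_subgroupOf_eq_top hKH hHN]
        refine sup_le (H6.le_inertia θ.2.isClassFunction) fun h hh => funext fun n => ?_
        rw [H6.cj_apply]
        refine congrArg _ (Subtype.ext (Subtype.ext ?_))
        have := (hC.le ⟨n.2, n.1.2⟩).2 h hh
        exact mul_inv_eq_iff_eq_mul.2 this
      exact h3 (Subgroup.mem_top g)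
  · exact Nat.card_congr (MulEquiv.monoidHomCongrLeftEquiv
      (Subgroup.subgroupOfEquivOfLe hHN).symm)

end Cfsg.Agent.S4452
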