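import Cfsg.Statements.S4453
import Cfsg.Agent.H8.Isa

set_option autoImplicit false
open Cfsg

namespace Cfsg.Agent.S4453

open H5 H19 H8 Glaub

/-- Inside a finite group Γ let S normalise the solvable subgroup G of odd order with the orders of G and S coprime, let C = G ⊓ C(S), and let L ≤ K be S-invariant normal subgroups of G with K/L abelian, G = KC and H = LC (so C ≤ H ≤ G). Then for each S-invariant irreducible character χ of G there is exactly one S-invariant irreducible character ψ of H whose multiplicity in the restriction of χ to H is odd, and χ ↦ ψ is a bijection from the S-invariant irreducible characters of G onto those of H (distinct χ give distinct ψ, and every S-invariant ψ arises). -/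
theorem result {Γ : Type*} [Group Γ] [Fintype Γ] (G S : Subgroup Γ) [Fintype G] (hnorm : ∀ s ∈ S, ∀ g ∈ G, s * g * s⁻¹ ∈ G) (hcop : (Nat.card G).Coprime (Nat.card S)) (hGsolv : Group.IsSolvable G) (hodd : Odd (Nat.card G)) (C : Subgroup Γ) [Fintype C] (hC : C = G ⊓ Subgroup.centralizer (S : Set Γ)) (hCG : C ≤ G) (K L H : Subgroup Γ) [Fintype H] (hLK : L ≤ K) (hKG : K ≤ G) (hKn : ∀ g ∈ G, ∀ k ∈ K, g * k * g⁻¹ ∈ K) (hLn : ∀ g ∈ G, ∀ l ∈ L, g * l * g⁻¹ ∈ L) (hKS : ∀ s ∈ S, ∀ k ∈ K, s * k * s⁻¹ ∈ K) (hLS : ∀ s ∈ S, ∀ l ∈ L, s * l * s⁻¹ ∈ L) (hab : ∀ a ∈ K, ∀ b ∈ K, a * b * a⁻¹ * b⁻¹ ∈ L) (hGKC : K ⊔ C = G) (hH : H = L ⊔ C) (hHG : H ≤ G) : (∀ χ : Cfsg.IrrCharacter G, (∀ s ∈ S, ∀ g g' : G, (g' : Γ) = s * g * s⁻¹ → (χ : G → ℂ) g' = (χ : G → ℂ) g) → ∃! ψ : Cfsg.IrrCharacter H, (∀ s ∈ S, ∀ g g' : H, (g' : Γ) = s * g * s⁻¹ → (ψ : H → ℂ) g' = (ψ : H → ℂ) g) ∧ ∃ m : ℕ,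 Cfsg.classInner (fun h : H => (χ : G → ℂ) ⟨h, hHG h.2⟩) (ψ : H → ℂ) = (m : ℂ) ∧ Odd m) ∧ (∀ χ χ' : Cfsg.IrrCharacter G, (∀ s ∈ S, ∀ g g' : G, (g' : Γ) = s * g * s⁻¹ → (χ : G → ℂ) g' = (χ : G → ℂ) g) → (∀ s ∈ S, ∀ g g' : G, (g' : Γ) = s * g * s⁻¹ → (χ' : G → ℂ) g' = (χ' : G → ℂ) g) → ∀ ψ : Cfsg.IrrCharacter H, (∀ s ∈ S, ∀ g g' : H, (g' : Γ) = s * g * s⁻¹ → (ψ : H → ℂ) g' = (ψ : H → ℂ) g) → ∀ m m' : ℕ, Cfsg.classInner (fun h : H => (χ : G → ℂ) ⟨h, hHG h.2⟩) (ψ : H → ℂ) = (m : ℂ) → Odd m → Cfsg.classInner (fun h : H => (χ' : G → ℂ) ⟨h, hHG h.2⟩) (ψ : H → ℂ) = (m' : ℂ) → Odd m' → χ = χ') ∧ (∀ ψ : Cfsg.IrrCharacter H, (∀ s ∈ S, ∀ g g' : H, (g' : Γ) = s * g * s⁻¹ → (ψ : H → ℂ) g' = (ψ : H → ℂ) g) → ∃ χ : Cfsg.IrrCharacter G, (∀ s ∈ S, ∀ g g' : G, (g' : Γ) = s * g * s⁻¹ → (χ : G → ℂ) g' = (χ : G → ℂ) g) ∧ ∃ m : ℕ, Cfsg.classInner (fun h : H => (χ : G → ℂ) ⟨h, hHG h.2⟩)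 (ψ : H → ℂ) = (m : ℂ) ∧ Odd m) := by
  have SG := le_normalizer_of_forall hnorm
  have nK := le_normalizer_of_forall hKn
  have nL := le_normalizer_of_forall hLn
  have SK := le_normalizer_of_forall hKS
  have SL := le_normalizer_of_forall hLS
  have CS : C ≤ Subgroup.centralizer (S : Set Γ) := hC ▸ inf_le_right
  have LK : L ⊔ K ⊓ C ≤ K := sup_le hLK inf_le_left
  have n0 : K ⊓ C ≤ Subgroup.normalizer (L : Set Γ) := inf_le_left.trans (hKG.trans nL)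
  have n1 : K ≤ Subgroup.normalizer ((L ⊔ K ⊓ C : Subgroup Γ) : Set Γ) :=
    le_normalizer_of_forall fun k hk x hx => by
      simpa using Subgroup.mul_mem _ (Subgroup.mem_sup_left (hab k hk x (LK hx))) hx
  have n2 : S ≤ Subgroup.normalizer ((L ⊔ K ⊓ C : Subgroup Γ) : Set Γ) := le_norm_sup n0 SL
    (le_normalizer_of_forall fun s hs c hc => by rwa [CS hc.2 s hs, mul_inv_cancel_right])
  have h : Isa G K (L ⊔ K ⊓ C) H S := ⟨LK, hKG, hH ▸ sup_le_sup_left inf_le_right _, hHG, nK,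
    hGKC.ge.trans (sup_le n1 (le_norm_sup n0 (hCG.trans nL)
      (le_norm_inf (hCG.trans nK) Subgroup.le_normalizer))), SG, SK, n2,
    fun a ha b hb => Subgroup.mem_sup_left (hab a ha b hb), hodd,
    hGKC.ge.trans (sup_le_sup_left (hH ▸ le_sup_right) _), fun s hs x hx => by
      obtain ⟨l, hl, c, hc, rfl⟩ := (mem_sup_iff_of_le_normalizer (hCG.trans nL)).1 (hH ▸ hx)
      exact Subgroup.mem_sup_left ((comm_mul_right hl (SL hs)).2 (by simp [CS hc s hs])),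
    fun k hk e => by
      have a : L ⊔ K ⊓ C ≤ relC _ K S n1 := fun l hl => mem_relC.2 ⟨LK hl, fun s hs =>
        Subgroup.mul_mem _ (conj_mem_of_le_normalizer n2 hs hl) (Subgroup.inv_mem _ hl)⟩
      have b : relC _ K S n1 ≤ K := fun _ hx => (mem_relC.1 hx).1
      exact ((H1.cop_of_coprime (le_normalizer_of_forall fun s hs u hu => by
        simpa using Subgroup.mul_mem _ (a ((mem_relC.1 hu).2 s hs)) hu) (hcop.symm.coprime_dvd_right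
        (Subgroup.card_dvd_of_le (b.trans hKG)))).le_sup_of_comm_le
        ((Subgroup.commutator_comm _ _).le.trans (Subgroup.commutator_le.2 fun s hs u hu =>
          (mem_relC.1 hu).2 s hs))).trans (sup_le le_rfl ((le_inf (inf_le_left.trans b)
          ((inf_le_inf_right _ (b.trans hKG)).trans hC.ge)).trans le_sup_right)) (mem_relC.2 ⟨hk, e⟩)⟩
  have co := h.birel hcop.symm
  have hgl : ∀ (χ : IrrCharacter G) (β : IrrCharacter H), (∃ m : ℕ, classInner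
      (fun c : H => (χ : G → ℂ) ⟨c, hHG c.2⟩) (β : H → ℂ) = (m : ℂ) ∧ Odd m) ↔
      Gl 2 H (extendByZero G χ) (extendByZero H β) := fun χ β => by
    rw [classInner_resLe]
    simp only [Gl, ← Nat.not_even_iff_odd, even_iff_two_dvd]
  simp only [inv_iff_le_stabf SG, inv_iff_le_stabf h.SH, hgl]
  refine ⟨fun χ hχ => ?_, fun χ χ' hχ hχ' β hβ m m' h1 h2 h3 h4 => ?_, fun β hβ => ?_⟩
  · obtain ⟨β, ⟨⟨h1, h2⟩, h3⟩, h4⟩ := co.1 _ ⟨extendByZero_mem_irr.2 χ.2, hχ⟩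
    have e := extendByZero_comp_of_supp (irr_supp h1)
    exact ⟨⟨fun x => β x, (mem_irr.1 h1).2⟩, ⟨e.symm ▸ h2, e.symm ▸ h3⟩, fun β' h' =>
      Subtype.ext (H19.extendByZero_injective H
        ((h4 _ ⟨⟨extendByZero_mem_irr.2 β'.2, h'.1⟩, h'.2⟩).trans e.symm))⟩
  · exact Subtype.ext (H19.extendByZero_injective G
      ((co.2 _ ⟨extendByZero_mem_irr.2 β.2, hβ⟩).unique
        ⟨⟨extendByZero_mem_irr.2 χ.2, hχ⟩, (hgl _ _).1 ⟨m, h1, h2⟩⟩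
        ⟨⟨extendByZero_mem_irr.2 χ'.2, hχ'⟩, (hgl _ _).1 ⟨m', h3, h4⟩⟩))
  · obtain ⟨χ, ⟨⟨h1, h2⟩, h3⟩, -⟩ := co.2 _ ⟨extendByZero_mem_irr.2 β.2, hβ⟩
    have e := extendByZero_comp_of_supp (irr_supp h1)
    exact ⟨⟨fun x => χ x, (mem_irr.1 h1).2⟩, e.symm ▸ h2, e.symm ▸ h3⟩

end Cfsg.Agent.S4453
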