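import Cfsg.Statements.S4466
import Cfsg.Agent.H8.Cd3
import Cfsg.Agent.S4441
import Cfsg.Agent.H7.Misc2

set_option autoImplicit false
open Cfsg

namespace Cfsg.Agent.S4466

open H5 H6 H7 H8 Cfsg
universe u

theorem card_sylow {G : Type*} [Group G] [Finite G] {χ : G → ℂ} (hχ : IsIrrCharacter G χ) (hz : charCenter χ = ⊥)
    {p : ℕ} [hp : Fact p.Prime] (hd : charDegree χ = p) (P : Sylow p G) : Nat.card P = p := by
  haveI := Fintype.ofFinite P
  have h0 : ∀ z ∈ P, z ≠ 1 → (∀ y ∈ P, y * z = z * y) → χ z = 0 := fun z _ z1 h =>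
    (hχ.eq_zero_or_mem_charCenter_of_coprime (hd ▸ hp.out.coprime_iff_not_dvd.2 fun e => P.not_dvd_index
      (e.trans (Subgroup.index_dvd_of_le fun y hy => Subgroup.mem_centralizer_singleton_iff.2 (h y hy))))).resolve_right
      fun e => z1 (hz.le e)
  have h1 := P.ne_bot_of_dvd_card (hd ▸ hχ.charDegree_dvd_card)
  have h2 : commutator P = ⊥ := eq_bot_iff.2 fun c hc => by_contra fun c1 => by
    have hr := hχ.isCharacter.restrict P
    obtain ⟨η, h3⟩ : ∃ η : IrrCharacter P, classInner (fun x : P => χ x) η ≠ 0 ∧ charDegree η.1 ≠ 1 := by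
      by_contra! e
      refine c1 (Subtype.ext (hz.le (charKer_le_charCenter (hχ.mem_charKer.2 ?_))))
      refine (hr.isClassFunction.apply_eq_sum_irr c).trans ((Finset.sum_congr rfl fun η _ => ?_).trans
        (hr.isClassFunction.apply_eq_sum_irr 1).symm)
      by_cases k : classInner (fun x : P => χ x) η = 0
      · exact (mul_eq_zero_of_left k _).trans (mul_eq_zero_of_left k _).symm
      · rw [apply_eq_of_mem_charKer ((not_iff_not.1 (not_le_ker_iff η.2)).2 (e η k) hc)]
    have h4 := hr.charDegree_le_of_constituent η.2 h3.1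
    have h5 := Nat.le_of_dvd η.2.charDegree_pos ((dvd_deg_iff P.isPGroup' η.2).2 h3.2)
    have h6 := eq_of_constituent_of_apply_one hr η.2 h3.1 (by
      rw [← η.2.coe_charDegree, ← hr.coe_charDegree, le_antisymm h4 (hd.le.trans h5)])
    haveI := (Subgroup.nontrivial_iff_ne_bot _).2 h1
    obtain ⟨z, -, z1, z2⟩ := exists_central_of_normal P.isPGroup' (N := ⊤) top_ne_bot
    have h7 := η.2.mem_charCenter.1 (η.2.center_le_charCenter z1)
    rw [show η.1 z = 0 from (congrFun h6 z).symm.trans <| h0 z z.2 (fun e => hp.out.ne_one (by rw [← z2, show z = 1 from Subtype.ext e, orderOf_one]))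
      fun y hy => congrArg Subtype.val (Subgroup.mem_center_iff.1 z1 ⟨y, hy⟩), norm_zero] at h7
    exact η.2.apply_one_ne_zero (norm_eq_zero.1 h7.symm)
  obtain ⟨k, hk⟩ := card_dvd_of_vanish hχ.isGen P fun z hz z1 => h0 z hz z1 fun y hy =>
    congrArg Subtype.val (commutatorElement_eq_one_iff_mul_comm.1 (h2.le (Subgroup.commutator_mem_commutator
      (Subgroup.mem_top (⟨y, hy⟩ : P)) (Subgroup.mem_top ⟨z, hz⟩))))
  rw [← hχ.coe_charDegree, hd] at hk
  exact ((Nat.dvd_prime hp.out).1 (Int.natCast_dvd_natCast.1 ⟨k, by exact_mod_cast hk⟩)).resolve_left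
    fun e => h1 (Subgroup.card_eq_one.1 e)

theorem aux (G : Type u) [Group G] [Finite G] :
    (∀ χ, IsIrrCharacter G χ → charDegree χ ≠ 1 → (charDegree χ).Prime) → Group.IsSolvable G := by
  refine H1.card_induction (P := fun G _ _ => (∀ χ, IsIrrCharacter G χ → charDegree χ ≠ 1 →
    (charDegree χ).Prime) → Group.IsSolvable G) (fun G _ _ ih h => by_contra fun hs => ?_) G
  haveI := Fintype.ofFinite G
  haveI : Nontrivial G := by_contra fun e => hs (by haveI := not_nontrivial_iff_subsingleton.1 e; infer_instance)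
  haveI : IsSimpleGroup G := ⟨fun N _ => by_contra fun e => by
    obtain ⟨e1, e2⟩ := not_or.1 e
    haveI := ih _ (card_quot_lt e1) fun χ hχ => h _ hχ.inflate
    haveI := ih N (H1.card_lt_of_ne_top e2) fun θ hθ h1 => by
      obtain ⟨χ, b, h2, -, h3, -⟩ := exists_deg_over hθ
      have := h χ h2 fun e => h1 (Nat.eq_one_of_mul_eq_one_left (h3 ▸ e))
      exact ((Nat.dvd_prime this).1 (h3 ▸ dvd_mul_left _ _)).resolve_left h1 ▸ this
    exact hs (H1.isSolvable_of_normal_of_quotient N)⟩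
  have pn : ∀ (p : ℕ) [Fact p.Prime], p ∣ Nat.card G → ¬ PNil p G := fun p hp hd ⟨k, hk⟩ => by
    rcases IsSimpleGroup.eq_bot_or_eq_top_of_normal (pPrimeCore p G) inferInstance with e | e
    · exact hs (H1.isSolvable_of_isPGroup (.of_card (by rwa [e, Subgroup.index_bot] at hk)))
    · exact not_dvd_card_pPrimeCore (by rwa [e, Subgroup.card_top])
  have hc : commutator G = ⊤ := (IsSimpleGroup.eq_bot_or_eq_top_of_normal _ inferInstance).resolve_left fun e =>
    hs (Group.isSolvable_of_comm fun a b => commutatorElement_eq_one_iff_mul_comm.1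
      (e.le (Subgroup.commutator_mem_commutator trivial trivial)))
  have hz : ∀ χ, IsIrrCharacter G χ → charDegree χ ≠ 1 → charCenter χ = ⊥ := fun χ hχ h1 =>
    (hχ.isCharacter.normal_charCenter.eq_bot_or_eq_top).resolve_right fun e =>
      h1 (charDegree_of_eq (by simpa using apply_one_of_charCenter_eq_top hχ e))
  have h2 : ∀ χ, IsIrrCharacter G χ → charDegree χ ≠ 2 := fun χ hχ e => by
    obtain ⟨P⟩ : Nonempty (Sylow 2 G) := inferInstance
    haveI := isCyclic_of_prime_card (card_sylow hχ (hz χ hχ (by omega)) e P)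
    exact pn 2 (e ▸ hχ.charDegree_dvd_card) (pnil_of_le P (IsCyclic.normalizer_le_centralizer
      ((Nat.minFac_eq_two_iff _).2 (e ▸ hχ.charDegree_dvd_card)) ‹_›))
  obtain ⟨χ, -, hm⟩ := Finset.exists_max_image Finset.univ (fun χ : IrrCharacter G => charDegree χ.1) ⟨irrOne G, by simp⟩
  have h1 : charDegree χ.1 ≠ 1 := fun e => top_ne_bot (hc.symm.trans (comm_of_forall_deg fun ψ hψ =>
    le_antisymm (e ▸ hm ⟨ψ, hψ⟩ (Finset.mem_univ _)) hψ.charDegree_pos))
  haveI := Fact.mk (h _ χ.2 h1)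
  obtain ⟨P⟩ : Nonempty (Sylow (charDegree χ.1) G) := inferInstance
  obtain ⟨M, hM⟩ := exists_isPModular (charDegree χ.1)
  obtain ⟨X, Y, -, -, h3, -, ε, -, h4, -⟩ := Cfsg.Agent.S4441.result _ M hM (h2 _ χ.2) P
    (card_sylow χ.2 (hz _ χ.2 h1) rfl P) _ rfl
  have h5 : X ⊆ {irrOne G} := fun ψ hψ => Subtype.ext (ψ.2.charKer_eq_top_iff.1 (eq_top_iff.2 (hc.ge.trans
    ((not_iff_not.1 (not_le_ker_iff ψ.2)).2 (by_contra fun e => ?_)))))
  · have h6 := Nat.card_mono (Set.toFinite _) h5
    rw [h3, Nat.card_unique] at h6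
    exact pn _ χ.2.charDegree_dvd_card (pnil_of_le P (Subgroup.relIndex_eq_one.1 (le_antisymm h6
      (Nat.pos_of_ne_zero Subgroup.index_ne_zero_of_finite))))
  obtain ⟨a, b, -⟩ := h4 ψ hψ
  have c := hm ψ (Finset.mem_univ _)
  have d := (h _ ψ.2 e).eq_two_or_odd.resolve_left (h2 _ ψ.2)
  have d' := (h _ χ.2 h1).eq_two_or_odd.resolve_left (h2 _ χ.2)
  have f := ψ.2.charDegree_pos
  obtain ⟨t, ht⟩ := b.symm.dvd
  rcases lt_trichotomy t 1 with k | rfl | k
  · have : (charDegree χ.1 : ℤ) * t ≤ 0 := mul_nonpos_of_nonneg_of_nonpos (by positivity) (by omega)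
    omega
  · omega
  · have : (charDegree χ.1 : ℤ) * 2 ≤ charDegree χ.1 * t := mul_le_mul_of_nonneg_left (by omega) (by positivity)
    omega

/-- If every irreducible character of the finite group G of degree greater than one has prime degree, then G is solvable. -/
theorem result {G : Type*} [Group G] [Finite G] (h : ∀ χ : Cfsg.IrrCharacter G, Cfsg.charDegree (χ : G → ℂ) ≠ 1 → (Cfsg.charDegree (χ : G → ℂ)).Prime) : Group.IsSolvable G := by
  exact aux G fun χ hχ => h ⟨χ, hχ⟩

end Cfsg.Agent.S4466
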