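import Cfsg.Statements.S4467
import Cfsg.Agent.H23.Ito
import Cfsg.Agent.H1.Harv1
import Cfsg.Agent.H6.Monomial

set_option autoImplicit false
open Cfsg

namespace Cfsg.Agent.S4467

open H5 H6 H8 H18 H23 Subgroup
open scoped commutatorElement

theorem nsyl_of_const {G : Type*} [Group G] [Finite G] {p : ℕ} [hp : Fact p.Prime] {χ : G → ℂ} (hχ : IsCharacter G χ)
    (hf : ∀ g, χ g = χ 1 → g = 1) (h : ∀ ψ θ, ∀ hψ : IsIrrCharacter G ψ, IsCharacter G θ → χ = ψ + θ →
      haveI := hψ.isCharacter.normal_charKer; NSyl p (G ⧸ charKer ψ)) : NSyl p G := fun S => by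
  have hS := hall_sylow_top hp.out S
  refine nml_top_iff.1 ⟨le_top, norm_iff.2 fun g _ x hx => ?_⟩
  let D := normalClosure (S : Set G)
  rw [← hS.eq_of_le (K := D) le_normalClosure le_top (piGrp_of_elt fun d hd => hS.pi.of_dvd
    (orderOf_dvd_of_pow_eq_one (hf _ (by_contra fun e => ?_))))]
  · exact Normal.conj_mem inferInstance _ (le_normalClosure hx) g
  obtain ⟨ψ, θ, h1, h2, h3, h4⟩ := exists_const hχ e
  haveI := h1.isCharacter.normal_charKer
  haveI := (h ψ θ h1 h2 h3).sup_normal S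
  obtain ⟨a, ha, b, hb, rfl⟩ := (mem_sup_of_norm' norm_of_normal).1
    (normalClosure_le_normal (N := charKer ψ ⊔ S) (le_sup_right (a := charKer ψ)) hd)
  refine h4 ((QuotientGroup.eq_one_iff _).1 ?_)
  rw [QuotientGroup.mk_pow, QuotientGroup.mk_mul, (QuotientGroup.eq_one_iff _).2 ha, one_mul, ← QuotientGroup.mk_pow,
    pow_card_eq_one_of_mem hb, QuotientGroup.mk_one]

theorem const_dvd {G : Type*} [Group G] [Finite G] {N : Subgroup G} [N.Normal] {χ : G → ℂ} (hχ : IsIrrCharacter G χ)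
    {ψ θ : N → ℂ} (hψ : IsIrrCharacter N ψ) (hθ : IsCharacter N θ) (e : (fun n : N => χ n) = ψ + θ) :
    charDegree ψ ∣ charDegree χ := by
  letI := Fintype.ofFinite G
  letI := Fintype.ofFinite N
  obtain ⟨a, ha⟩ := hθ.exists_classInner_nat hψ.isCharacter
  obtain ⟨b, -, e⟩ := degree_ratio_dvd hψ hχ (by
    rw [e, classInner_add_left, hψ.classInner_self, ha]; exact_mod_cast (by omega : 1 + a ≠ 0))
  rw [← hχ.coe_charDegree, ← hψ.coe_charDegree] at e
  exact ⟨b, by rw [mul_comm]; exact_mod_cast e⟩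

theorem aux {p : ℕ} [hp : Fact p.Prime] (m : ℕ) : ∀ (G : Type*) [Group G] [Finite G], Nat.card G = m → ∀ χ : G → ℂ,
    IsIrrCharacter G χ → (∀ g, χ g = χ 1 → g = 1) → Group.IsSolvable G → ¬ NSyl p G →
    ∃ q : ℕ, IsPrimePow q ∧ q ∣ charDegree χ ∧ ((q : ℤ) ≡ -1 [ZMOD p] ∨ (q : ℤ) ≡ 0 [ZMOD p] ∨ (q : ℤ) ≡ 1 [ZMOD p]) := by
  induction m using Nat.strong_induction_on with
  | _ m ih =>
  intro G _ _ hm χ hχ hf hs hn
  by_contra hc
  letI := Fintype.ofFinite G
  have hlt : ∀ K : Subgroup G, K ≠ ⊤ → Nat.card K < m := fun K hK =>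
    hm ▸ (card_lt (lt_top_iff_ne_top.2 hK)).trans_eq card_top
  have hd : ¬ p ∣ charDegree χ := fun h => hc ⟨p, hp.out.isPrimePow, h, Or.inr (Or.inl (by simp [Int.ModEq]))⟩
  obtain ⟨S, hS⟩ := not_forall.1 hn
  have hP := hall_sylow_top hp.out S
  set P : Subgroup G := (S : Subgroup G)
  replace hS : ¬ P ⊴ ⊤ := mt nml_top_iff.1 hS
  have key : ∀ K, K ⊴ ⊤ → K ≠ ⊤ → P ⊓ K ⊴ ⊤ := fun K hK h => by
    haveI := hK.normal
    rw [← (hP.inf_nml hK).eq_pcore (nsyl_iff.1 (nsyl_of_const (hχ.isCharacter.restrict K)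
      (fun g hg => Subtype.ext (hf _ hg)) fun ψ θ h1 h2 h3 => by_contra fun h4 => ?_) _ (hP.inf_nml hK))]
    · exact hK.pcore
    haveI := h1.isCharacter.normal_charKer
    obtain ⟨φ, h5, h6⟩ := h1.exists_deflate _ le_rfl
    obtain ⟨q, h7, h8, h9⟩ := ih _ ((Nat.le_of_dvd Nat.card_pos (card_quotient_dvd_card _)).trans_lt (hlt K h)) _ rfl φ h5
      (fun g hg => by
        obtain ⟨g, rfl⟩ := QuotientGroup.mk_surjective g
        exact (QuotientGroup.eq_one_iff _).2 (h1.mem_charKer.2 (by rw [← h6, hg, ← h6 1]; rfl))) inferInstance h4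
    rw [charDegree_eq_of_apply_one (n := charDegree ψ) ((h6 1).trans h1.coe_charDegree.symm)] at h8
    exact hc ⟨q, h7, h8.trans (const_dvd hχ h1 h2 h3), h9⟩
  have key' : ∀ K, K ⊴ ⊤ → P ≤ K → K = ⊤ := fun K hK h => by_contra fun e => hS (inf_eq_left.2 h ▸ key K hK e)
  obtain ⟨K, -, ⟨hK, hi⟩, hmin⟩ := exists_minimal_sub (fun K : Subgroup G => K ⊴ ⊤ ∧ PiNat {p} (K.relIndex ⊤)) (A := ⊤)
    ⟨Nml.rfl, by simpa using PiNat.one⟩
  have hKP := hP.sup_of_idx le_top hi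
  have h1 : K ≠ ⊥ := fun e => hS (by rw [← hKP, e, sup_bot_eq]; exact Nml.rfl)
  obtain ⟨L, hL, h2⟩ := exists_chief_below hK.der hK (Group.IsSolvable.commutator_lt_of_ne_bot h1)
  obtain ⟨r, hr, -, h3⟩ := hL.exists_prime inferInstance
  have h4 : r ≠ p := fun e => hL.lt.ne (hmin L ⟨hL.nmlV, by
    rw [← relIndex_tower hL.le le_top]; exact (e ▸ h3).mul hi⟩ hL.le)
  have h5 : P ⊓ K ≤ L := hP.pi.inf_left.le_of_nml inf_le_right hL.nml (h3.p'_of_ne h4)
  have h6 : (L ⊔ P) ⊓ K = L := by rw [(hL.nmlV.nrm2 le_top).modular hL.le, sup_eq_left.2 h5]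
  have h7 : L ⊔ P ≠ ⊤ := fun e => hL.lt.ne' (by rw [← h6, e, top_inf_eq])
  have h8 : K ⊓ N(P) ≤ L := by
    rcases hL.eq_or_eq (W := L ⊔ (K ⊓ N(P))) le_sup_left (sup_le hL.le inf_le_left) (by
      rw [← hKP]
      exact sup_le (norm_sup (le_top.trans hL.nmlV.norm) (norm_inf (le_top.trans hK.norm) (le_N.trans le_N)))
        (norm_of_der_le (h2.trans le_sup_left) (sup_le hL.le inf_le_left))) with e | e
    · exact sup_eq_left.1 e
    · refine absurd (key' _ ⟨le_top, ?_⟩ le_sup_right) h7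
      rw [← hKP, ← e]
      exact sup_le (le_norm le_sup_right) (sup_le (le_norm le_sup_left)
        (norm_sup (le_top.trans hL.nmlV.norm) inf_le_right))
  have h9 : L.relIndex K ≡ 1 [MOD p] := by
    have := H1.relIndex_modEq_of_N_le hp.out hP (U := L ⊔ P) (by
      rw [← hKP, (hK.nrm2' le_top).modular le_N]; exact sup_le le_sup_right (h8.trans le_sup_left))
    rwa [← top_le_iff.1 (hKP.ge.trans (sup_le_sup_right (le_sup_right (a := L)) K)), (hK.nrm2' le_top).relIndex_sup',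
      ← relIndex_inf_right, h6] at this
  have h10 : 1 < L.relIndex K := one_lt_relIndex hL.lt.not_ge
  have pp : ∀ e, 1 < e → e ∣ L.relIndex K → IsPrimePow e := fun e h1 h => by
    obtain ⟨k, rfl⟩ := (h3.of_dvd h).eq_pow (by omega)
    exact hr.isPrimePow.pow (by rintro rfl; simp at h1)
  haveI := hK.normal
  haveI := hL.nmlV.normal
  rcases going_down K L hL.le (fun M h a b => hL.eq_or_eq a b norm_of_normal) h2
    (res_irr hp.out (by simpa using hi) hχ hd) (cj_res hχ.isClassFunction) with h | ⟨φ, e, h, h', h''⟩ | ⟨F, h, h', h''⟩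
  · have hH : IsIrrCharacter (L ⊔ P :) fun x => χ x :=
      irr_of_comp_irr (inclusion le_sup_left) (hχ.isCharacter.restrict _) h
    have e : charDegree (fun x : (L ⊔ P :) => χ x) = charDegree χ := charDegree_eq_of_apply_one hχ.coe_charDegree.symm
    have hN : L ⊔ P ≤ N(P) := nsyl_iff.1 (by_contra fun h' => hc (e ▸ ih _ (hlt _ h7) _ rfl _ hH
      (fun g hg => Subtype.ext (hf _ hg)) inferInstance h')) _ (hP.of_le le_sup_right le_top)
    have hA : Abel P := cent_iff.2 fun x hx y hy => by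
      haveI := (Nml.mk le_sup_right hN).subgroupOf_normal
      refine commutatorElement_eq_one_iff_mul_comm.1 (hf _ (by_contra fun h' => ?_))
      obtain ⟨ψ, θ, h1, h2, h3, h4⟩ := exists_const (hH.isCharacter.restrict (P.subgroupOf _))
        (g := ⁅(⟨⟨x, mem_sup_right hx⟩, hx⟩ : P.subgroupOf (L ⊔ P)),
          (⟨⟨y, mem_sup_right hy⟩, hy⟩ : P.subgroupOf (L ⊔ P))⁆) h'
      exact h4 (h1.commutator_le_charKer_iff.2 (apply_one_of_pgroup (PiGrp.isPGroup (p := p) (by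
        rw [PiGrp, H18.card_subgroupOf le_sup_right]; exact hP.pi)) h1 fun h5 =>
          hd (h5.trans (e ▸ const_dvd hH h1 h2 h3))) (commutator_mem_commutator (mem_top _) (mem_top _)))
    have hL' : L ≠ ⊤ := (hL.lt.trans_le le_top).ne
    have g2 : C(P ⊓ L) = ⊤ := key' _ ⟨le_top, norm_C (key L hL.nmlV hL').norm⟩ (cent_mono hA le_rfl inf_le_left)
    obtain ⟨H, hH'⟩ := (hP.inf_nml hL.nmlV).exists_sd (cent_norm (g2 ▸ le_top))
    have g3 := hH'.hall_compl (hP.inf_nml hL.nmlV)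
    have g4 : H ⊴ ⊤ := by
      rw [← g3.eq_pcore (hH'.dp (cent_symm (g2 ▸ le_top))).nml_right.norm]; exact hL.nmlV.pcore
    have g5 : C(L) = ⊤ := key' _ ⟨le_top, norm_C hL.nmlV.norm⟩ (by
      rw [← hH'.sup]
      exact cent_sup (g2 ▸ le_top) (cent_of_inf_eq_bot (le_top.trans g4.norm)
        (hH'.le_right.trans (le_sup_left.trans hN)) (hP.pi.inf_eq_bot g3.pi)))
    have g6 : χ 1 = 1 := h.apply_one_of_comm fun a b => Subtype.ext (comm_of_cent (g5 ▸ le_top) a.2 b.2)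
    exact hS ⟨le_top, cent_norm (cent_iff.2 fun a _ b _ => commutatorElement_eq_one_iff_mul_comm.1 (hf _
      (hχ.mem_charKer.1 (hχ.commutator_le_charKer_iff.2 g6 (commutator_mem_commutator (mem_top _) (mem_top _))))))⟩
  · have e1 : χ 1 = e * φ 1 := congrFun h' 1
    rw [← hχ.coe_charDegree, ← h.coe_charDegree] at e1
    refine hc ⟨e, pp e (by by_contra h0; rw [← h''] at h10; interval_cases e <;> simp at h10) (h'' ▸ dvd_pow_self e two_ne_zero),
      ⟨charDegree φ, by exact_mod_cast e1⟩, ?_⟩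
    rw [← h'', ← Int.natCast_modEq_iff] at h9
    have := (Nat.prime_iff_prime_int.1 hp.out).dvd_or_dvd (a := 1 - (e : ℤ)) (b := -1 - e) (by
      have := h9.dvd; push_cast at this
      rwa [show (1 - (e : ℤ)) * (-1 - e) = -(1 - (e : ℤ) ^ 2) by ring, dvd_neg])
    exact this.symm.imp Int.modEq_of_dvd fun h => Or.inr (Int.modEq_of_dvd h)
  · classical
    letI := Fintype.ofFinite L
    have g1 : ∀ φ ∈ F, classInner (fun n : L => χ n) φ ≠ 0 := fun φ hφ => by
      rw [show (fun n : L => χ n) = _ from h'', classInner_sum_left, Finset.sum_eq_single_of_mem φ hφ fun ψ h1 h2 =>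
        (h ψ h1).classInner_of_ne (h φ hφ) h2, (h φ hφ).classInner_self]
      exact one_ne_zero
    obtain ⟨φ, hφ⟩ := Finset.card_pos.1 (h' ▸ h10.le : 0 < F.card)
    have e1 : χ 1 = (∑ φ ∈ F, φ) 1 := congrFun h'' 1
    rw [Finset.sum_apply, Finset.sum_congr rfl (g := fun _ => φ 1) fun ψ h1 => by
      obtain ⟨g, rfl⟩ := exists_cj_of_constituents hχ (h φ hφ) (h ψ h1) (g1 φ hφ) (g1 ψ h1)
      exact cj_apply_one _ _, Finset.sum_const, nsmul_eq_mul, h', ← hχ.coe_charDegree, ← (h φ hφ).coe_charDegree] at e1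
    exact hc ⟨_, pp _ h10 dvd_rfl, ⟨charDegree φ, by exact_mod_cast e1⟩, Or.inr (Or.inr (Int.natCast_modEq_iff.2 h9))⟩

/-- Let the finite solvable group G have a faithful irreducible character of degree n, and suppose that for the prime p a Sylow p-subgroup of G is not normal. Then n is divisible by a prime power q > 1 with q congruent to −1, 0 or 1 modulo p. -/
theorem result {G : Type*} [Group G] [Finite G] (χ : Cfsg.IrrCharacter G) (hfaith : ∀ g : G, (χ : G → ℂ) g = (χ : G → ℂ) 1 → g = 1) (n : ℕ) (hn : Cfsg.charDegree (χ : G → ℂ) = n) (hsolv : Group.IsSolvable G) (p : ℕ) (hp : p.Prime) (P : Sylow p G) (hP : ¬ (P : Subgroup G).Normal) : ∃ q : ℕ, IsPrimePow q ∧ q ∣ n ∧ ((q : ℤ) ≡ -1 [ZMOD p] ∨ (q : ℤ) ≡ 0 [ZMOD p] ∨ (q : ℤ) ≡ 1 [ZMOD p]) := by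
  haveI := Fact.mk hp
  exact hn ▸ aux _ G rfl _ χ.2 hfaith hsolv fun h => hP (h P)

end Cfsg.Agent.S4467
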