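import Cfsg.Statements.S4468
import Cfsg.Agent.H23.Ito

set_option autoImplicit false
open Cfsg

namespace Cfsg.Agent.S4468

open H5 H6 H8 H18 H23 Subgroup

theorem top_step {G : Type*} [Group G] [Finite G] {p : ℕ} (hp : p.Prime) (h : IsPSolvable p G) {L : Subgroup G}
    (hL : L ≠ ⊥) : ∃ M : Subgroup L, M.Normal ∧ M ≠ ⊤ ∧ (PiNat {p} M.index ∨ PiNat {p}ᶜ M.index) := by
  obtain ⟨n, H, h0, h1, -, h2, h3⟩ := h
  obtain ⟨i, hi, hi'⟩ : ∃ i : Fin n, ¬ L ≤ H i.castSucc ∧ L ≤ H i.succ := by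
    by_contra hc
    push Not at hc
    have : ∀ i, ¬ L ≤ H i := fun i => Fin.induction (by rwa [h0, le_bot_iff]) (fun i => hc i) i
    exact this _ (h1 ▸ le_top)
  haveI := h2 i.castSucc
  have hd : (H i.castSucc).relIndex L ∣ (H i.castSucc).relIndex (H i.succ) := by
    have := (Nml.inf_right (A := H i.castSucc) nml_top (le_top (a := H i.succ))).relIndex_dvd hi'
    rwa [relIndex_inf_right, ← relIndex_inf_right (B := L), inf_assoc, inf_eq_right.2 hi', relIndex_inf_right] at this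
  exact ⟨(H i.castSucc).subgroupOf L, inferInstance, mt subgroupOf_eq_top.1 hi, (h3 i).imp
    (fun ⟨m, e⟩ => (piNat_pow_self hp m).of_dvd (e ▸ hd)) fun e => ((piNat_compl_iff_coprime hp).2 e).of_dvd hd⟩

/-- Let the finite p-solvable group G have a faithful character χ of degree n ≤ p − 1 and suppose that a Sylow p-subgroup of G is not normal. Then n = p − 1, n is a power of 2, and χ is irreducible. -/
theorem result {G : Type*} [Group G] [Finite G] (χ : G → ℂ) (hχ : Cfsg.IsCharacter G χ) (hfaith : ∀ g : G, χ g = χ 1 → g = 1) (n : ℕ) (hn : Cfsg.charDegree χ = n) (p : ℕ) (hp : p.Prime) (hsolv : Cfsg.IsPSolvable p G) (hnp : n + 1 ≤ p) (P : Sylow p G) (hP : ¬ (P : Subgroup G).Normal) : n + 1 = p ∧ (∃ k : ℕ, n = 2 ^ k) ∧ Cfsg.IsIrrCharacter G χ := by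
  haveI := Fact.mk hp
  obtain ⟨L, hL, hmin⟩ := exists_min_card (fun K : Subgroup G => ¬ NSyl p K) (A := ⊤) fun h =>
    hP (nml_top_iff.1 ⟨le_top, nsyl_iff.1 h _ (hall_sylow_top hp P)⟩)
  obtain ⟨S, hS⟩ := not_forall.1 hL
  have hS' := hall_sylow_top hp S
  have e : charDegree (fun x : L => χ x) = n := charDegree_eq_of_apply_one (hn ▸ hχ.coe_charDegree.symm)
  have hf : ∀ g : L, χ g = χ (1 : L) → g = 1 := fun g hg => Subtype.ext (hfaith _ hg)
  obtain ⟨M, h1, h2, h3⟩ := top_step hp hsolv (L := L) (by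
    rintro rfl; exact hS (Subsingleton.elim (S : Subgroup (⊥ : Subgroup G)) ⊤ ▸ inferInstance))
  obtain ⟨q, Q, hq, h4, h5, h6, h7⟩ := ito_exists_pair (fun K hK => by_contra fun h => by
      have := hmin (K.map L.subtype) fun h' => h (h'.of_surjective
        (f := (K.equivMapOfInjective _ L.subtype_injective).symm.toMonoidHom) (MulEquiv.surjective _))
      rw [H18.card_map_subtype] at this
      exact this.not_gt ((card_lt (lt_top_iff_ne_top.2 hK)).trans_eq card_top)) hS'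
    (cent_iff.2 (comm_of_primes (hχ.restrict L) hf le_rfl _ fun q hq e' => by rw [hS'.pi.eq_of_dvd hq e']; omega))
    (mt nml_top_iff.1 hS) nml_top h2 h3
  obtain ⟨h8, ⟨k, hk⟩, h9⟩ := ito_pair (hχ.restrict L) hf hp (by omega) h4 hS'.pi h5 h6 h7
  rw [e] at h8 hk
  refine ⟨h8, ?_, irr_of_comp_irr L.subtype hχ h9⟩
  rcases hp.eq_two_or_odd' with rfl | ho
  · exact ⟨0, by omega⟩
  · have : 2 ∣ q ^ k := by obtain ⟨a, ha⟩ := ho; exact ⟨a, by omega⟩
    exact ⟨k, by rw [hk, (Nat.prime_dvd_prime_iff_eq Nat.prime_two hq).1 (Nat.prime_two.dvd_of_dvd_pow this)]⟩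

end Cfsg.Agent.S4468
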