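import Cfsg.Statements.S4469
import Cfsg.Agent.H8.Blich
import Cfsg.Agent.S4470

set_option autoImplicit false
open Cfsg

namespace Cfsg.Agent.S4469

open H5
open scoped commutatorElement

/-- The classical bound for finite linear groups, in explicit form. Let the finite group G have a faithful character of degree n. Then G has an abelian normal subgroup whose index is at most n! · 12^(n·(π(n+1)+1)), π(k) denoting the number of primes not exceeding k. -/
theorem result {G : Type*} [Group G] [Finite G] (χ : G → ℂ) (hχ : Cfsg.IsCharacter G χ) (hfaith : ∀ g : G, χ g = χ 1 → g = 1) (n : ℕ) (hn : Cfsg.charDegree χ = n) : ∃ A : Subgroup G, A.Normal ∧ (∀ x ∈ A, ∀ y ∈ A, x * y = y * x) ∧ A.index ≤ Nat.factorial n * 12 ^ (n * (Nat.primeCounting (n + 1) + 1)) := by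
  obtain ⟨A, hA, hAc, hb⟩ := Cfsg.Agent.S4470.result χ hχ hfaith n hn
  obtain ⟨H, hHc, hH⟩ := H8.blichfeldt hχ hfaith hn.le
  refine ⟨A, hA, hAc, ?_⟩
  have e1 : ∀ K : Subgroup G, A.index = A.relIndex K * (A ⊔ K).index := fun K => by
    rw [← Subgroup.relIndex_mul_index (le_sup_left : A ≤ A ⊔ K), Subgroup.relIndex_sup_left]
  set m := (A ⊔ H).index with hm
  have hm0 : m ≠ 0 := Subgroup.index_ne_zero_of_finite
  have hmA : m ∣ A.index := Subgroup.index_dvd_of_le le_sup_left
  have key : ∀ p : ℕ, p.Prime → p ^ m.factorization p ≤ p ^ n.factorial.factorization p * 12 ^ n := by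
    intro p hp
    haveI := Fact.mk hp
    obtain ⟨P⟩ : Nonempty (Sylow p G) := inferInstance
    haveI : Group.IsNilpotent (P : Subgroup G) := P.2.isNilpotent
    obtain ⟨K, hK, h1, h2⟩ := H8.exists_fact_index (hχ.restrict (P : Subgroup G))
    rw [charDegree_eq_of_apply_one (n := n) (by rw [← hn]; simpa using hχ.coe_charDegree.symm)] at h1
    have h3 : p ^ m.factorization p ∣ A.relIndex P := by
      have := (Nat.ordProj_dvd m p).trans hmA
      rw [e1 P] at this
      refine Nat.Coprime.dvd_of_dvd_mul_right (Nat.Coprime.pow_left _ ?_) this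
      exact hp.coprime_iff_not_dvd.2 fun h =>
        P.not_dvd_index (h.trans (Subgroup.index_dvd_of_le le_sup_right))
    have h4 : K.index ∣ p ^ n.factorial.factorization p := by
      obtain ⟨k, hk⟩ := P.2.index K
      rw [hk] at h1 ⊢
      exact pow_dvd_pow _ ((hp.pow_dvd_iff_le_factorization (Nat.factorial_ne_zero n)).1 h1)
    set K' := K.map (P : Subgroup G).subtype
    have h5 := hb K' (by
      rintro _ ⟨x, hx, rfl⟩ _ ⟨y, hy, rfl⟩
      have h6 := h2 (Subgroup.commutator_mem_commutator hx hy)
      rw [(hχ.restrict (P : Subgroup G)).mem_charKer] at h6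
      have : ⁅(x : G), (y : G)⁆ = 1 := hfaith _ h6
      exact commutatorElement_eq_one_iff_mul_comm.1 this)
    have hle : K' ≤ P := Subgroup.map_subtype_le _
    have h6 : A.relIndex P ∣ A.relIndex K' * K'.relIndex P := by
      have := Subgroup.relIndex_inf_mul_relIndex A K' P
      rw [inf_eq_left.2 hle] at this
      rw [this]
      exact Subgroup.relIndex_dvd_of_le_left _ inf_le_left
    have h7 : K'.relIndex P = K.index := H1.relIndex_map_subtype K
    calc _ ≤ A.relIndex K' * K'.relIndex P := Nat.le_of_dvd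
          (Nat.pos_of_ne_zero (mul_ne_zero (H1.relIndex_ne_zero _ _) (H1.relIndex_ne_zero _ _)))
          (h3.trans h6)
      _ ≤ 12 ^ n * p ^ n.factorial.factorization p := by
          rw [h7]
          exact Nat.mul_le_mul h5 (Nat.le_of_dvd (pow_pos hp.pos _) h4)
      _ = _ := mul_comm _ _
  have hsub : m.primeFactors ⊆ (n + 2).primesBelow := by
    intro q hq
    have hq1 := Nat.prime_of_mem_primeFactors hq
    rw [Nat.mem_primesBelow]
    have := hH.2 q hq1 ((Nat.dvd_of_mem_primeFactors hq).trans (Subgroup.index_dvd_of_le le_sup_right))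
    exact ⟨by omega, hq1⟩
  have hcard : m.primeFactors.card ≤ Nat.primeCounting (n + 1) := by
    rw [Nat.primeCounting_eq_primeCounting'_succ, ← Nat.primesBelow_card_eq_primeCounting']
    exact Finset.card_le_card hsub
  have h8 : ∏ p ∈ m.primeFactors, p ^ n.factorial.factorization p ≤ n.factorial := by
    refine Nat.le_of_dvd (Nat.factorial_pos n) (Finset.prod_dvd_of_isRelPrime ?_ ?_)
    · intro p hp q hq hne
      exact Nat.coprime_iff_isRelPrime.1 (Nat.Coprime.pow _ _ ((Nat.coprime_primes
        (Nat.prime_of_mem_primeFactors hp) (Nat.prime_of_mem_primeFactors hq)).2 hne))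
    · exact fun p _ => Nat.ordProj_dvd _ p
  have h9 : m ≤ n.factorial * 12 ^ (n * Nat.primeCounting (n + 1)) := by
    calc m = ∏ p ∈ m.primeFactors, p ^ m.factorization p := (Nat.prod_factorization_pow_eq_self hm0).symm
      _ ≤ ∏ p ∈ m.primeFactors, (p ^ n.factorial.factorization p * 12 ^ n) :=
          Finset.prod_le_prod' fun p hp => key p (Nat.prime_of_mem_primeFactors hp)
      _ = (∏ p ∈ m.primeFactors, p ^ n.factorial.factorization p) * (12 ^ n) ^ m.primeFactors.card := by
          rw [Finset.prod_mul_distrib, Finset.prod_const]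
      _ ≤ _ := by
          rw [← pow_mul]
          exact Nat.mul_le_mul h8 (Nat.pow_le_pow_right (by norm_num) (Nat.mul_le_mul_left _ hcard))
  rw [e1 H, mul_add, mul_one, pow_add, ← mul_assoc, mul_comm]
  exact Nat.mul_le_mul h9 (hb H hHc)

end Cfsg.Agent.S4469
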