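import Cfsg.Statements.S4471
import Cfsg.Agent.H7.TwoEig

set_option autoImplicit false
open Cfsg

namespace Cfsg.Agent.S4471

open H5 H7
open scoped commutatorElement

theorem main {G : Type*} [Group G] [Finite G] {χ : G → ℂ} (hχ : IsIrrCharacter G χ)
    (hf : ∀ g : G, χ g = χ 1 → g = 1) {p : ℕ} [hp : Fact p.Prime] (h7 : 7 ≤ p)
    (hn2 : charDegree χ < 2 * p) (hnp : charDegree χ ≠ p) (P : Sylow p G)
    (hP : ∃ x ∈ (P : Subgroup G), ∃ y ∈ (P : Subgroup G), x * y ≠ y * x) :
    ¬ p ^ 2 ∣ (pCore p G).index := by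
  classical
  letI := Fintype.ofFinite G
  have hp' := hp.out
  have hres := hχ.isCharacter.restrict (P : Subgroup G)
  have hc : commutator (P : Subgroup G) ≠ ⊥ := by
    intro h
    obtain ⟨x, hx, y, hy, hxy⟩ := hP
    have : ⁅(⟨x, hx⟩ : (P : Subgroup G)), (⟨y, hy⟩ : (P : Subgroup G))⁆ ∈
      commutator (P : Subgroup G) := Subgroup.commutator_mem_commutator (Subgroup.mem_top _) (Subgroup.mem_top _)
    rw [h, Subgroup.mem_bot, commutatorElement_eq_one_iff_mul_comm] at this
    exact hxy (congrArg Subtype.val this)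
  obtain ⟨z, hz, hzc, hzo⟩ := H8.exists_central_of_normal P.isPGroup' hc
  have hz1 : z ≠ 1 := fun e => hp'.ne_one (by rw [← hzo, e, orderOf_one])
  obtain ⟨θ, hθ, hin, hzθ⟩ : ∃ θ, IsIrrCharacter (P : Subgroup G) θ ∧
      classInner (fun x : (P : Subgroup G) => χ x) θ ≠ 0 ∧ θ z ≠ θ 1 := by
    by_contra h
    push Not at h
    apply hz1
    refine Subtype.ext (hf _ ?_)
    have e1 := hres.isClassFunction.apply_eq_sum_irr z
    have e2 := hres.isClassFunction.apply_eq_sum_irr 1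
    refine e1.trans (Eq.trans ?_ e2.symm)
    refine Finset.sum_congr rfl fun θ _ => ?_
    by_cases h0 : classInner (fun x : (P : Subgroup G) => χ x) θ = 0
    · rw [h0, zero_mul, zero_mul]
    · rw [h θ θ.2 h0]
  have hψ := hres.sub_irr hθ hin
  set ψ := (fun x : (P : Subgroup G) => χ x) - θ with hψd
  have hsum : ∀ x : (P : Subgroup G), χ x = θ x + ψ x := fun x => by simp [hψd]
  have hdeg : charDegree χ = charDegree θ + charDegree ψ := by
    apply charDegree_eq_of_apply_one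
    rw [show χ 1 = _ from hsum 1, ← hθ.coe_charDegree, ← hψ.coe_charDegree]; push_cast; rfl
  have hθp : charDegree θ = p := by
    obtain ⟨k, hk⟩ := P.isPGroup'.exists_card_eq
    obtain ⟨j, -, hj⟩ := (Nat.dvd_prime_pow hp').1 (hk ▸ hθ.charDegree_dvd_card)
    rcases j with _ | _ | j
    · exact absurd (apply_eq_of_mem_charKer (hθ.commutator_le_charKer_iff.2
        (hθ.isCharacter.charDegree_eq_one_iff.1 hj) hz)) hzθ
    · simpa using hj
    · exfalso
      have : p * p ≤ p ^ (j + 1 + 1) := by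
        rw [← sq]; exact Nat.pow_le_pow_right hp'.pos (by omega)
      nlinarith
  have hψz : z ∈ charKer ψ := H8.commutator_le_ker_of_primes hψ le_rfl (fun q hq hd => by
    obtain ⟨k, hk⟩ := P.isPGroup'.exists_card_eq
    rw [hk] at hd
    rw [(Nat.prime_dvd_prime_iff_eq hq hp').1 (hq.dvd_of_dvd_pow hd)]
    omega) hz
  obtain ⟨c, -, hcz⟩ := hθ.center_le_charCenter hzc
  have hθ1 : θ 1 = p := by rw [← hθ.coe_charDegree, hθp]
  have hθj : ∀ j : ℕ, θ (z ^ j) = p * c ^ j := by
    intro j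
    induction j with
    | zero => simp [hθ1]
    | succ j ih => rw [pow_succ', hcz, ih]; ring
  have hp0 : (p : ℂ) ≠ 0 := Nat.cast_ne_zero.2 hp'.ne_zero
  have hcp : c ^ p = 1 := by
    have := hθj p
    rw [orderOf_dvd_iff_pow_eq_one.1 hzo.dvd, hθ1] at this
    exact (mul_left_cancel₀ hp0 (by rw [← this, mul_one])).symm
  have hc1 : c ≠ 1 := fun e => hzθ (by simpa [e, hθ1] using hθj 1)
  have hprim : IsPrimitiveRoot c p := by
    have := IsPrimitiveRoot.orderOf c
    rwa [orderOf_eq_prime hcp hc1] at this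
  have hω := Complex.isPrimitiveRoot_exp p hp'.ne_zero
  haveI : NeZero p := ⟨hp'.ne_zero⟩
  obtain ⟨k, -, hk⟩ := hprim.eq_pow_of_pow_eq_one hω.pow_eq_one
  have hlt : ‖Complex.exp (2 * Real.pi * Complex.I / p) - 1‖ < 1 := by
    have := Real.norm_exp_I_mul_ofReal_sub_one_le (x := 2 * Real.pi / p)
    rw [show Complex.I * ((2 * Real.pi / p : ℝ) : ℂ) = 2 * Real.pi * Complex.I / p by
      push_cast; ring] at this
    refine this.trans_lt ?_
    have h7' : (7 : ℝ) ≤ p := by exact_mod_cast h7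
    rw [Real.norm_eq_abs, abs_of_nonneg (by positivity), div_lt_one (by linarith)]
    linarith [Real.pi_lt_d2]
  obtain ⟨K, hK, hKi, hKc⟩ := two_eig_monomial hχ hf (w := (z ^ k : (P : Subgroup G)))
    (a := p) (b := charDegree ψ) hlt (hω.ne_one hp'.one_lt)
    ((Nat.coprime_primes hp' hp').elim (fun _ _ => (Nat.Prime.coprime_iff_not_dvd hp').2
      (Nat.not_dvd_of_pos_of_lt (by omega) (by omega)))) (fun j => by
      rw [← Subgroup.coe_pow, hsum, ← pow_mul, hθj, pow_mul, hk,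
        apply_eq_of_mem_charKer (pow_mem hψz _), hψ.coe_charDegree])
  obtain ⟨Q⟩ : Nonempty (Sylow p K) := inferInstance
  haveI : (Q : Subgroup K).Normal := ⟨fun x hx g => by
    rwa [show g * x = x * g from Subtype.ext (hKc _ g.2 _ x.2), mul_inv_cancel_right]⟩
  have hle : (Q : Subgroup K).map K.subtype ≤ pCore p G := by
    rw [← H1.pCore_eq_of_normal_sylow Q]; exact H1.map_pCore_le_of_normal K
  intro hd
  have h1 := hd.trans (Subgroup.index_dvd_of_le hle)
  rw [Subgroup.index_map_subtype] at h1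
  have h2 := (((Nat.Prime.coprime_iff_not_dvd hp').2 Q.not_dvd_index).pow_left 2).dvd_of_dvd_mul_left h1
  have h3 := h2.trans hKi
  rw [hp'.pow_dvd_factorial_iff (b := 2) (Nat.log_lt_of_lt_pow (by omega) (by nlinarith))] at h3
  simp only [Nat.Ico_succ_singleton, Finset.sum_singleton, pow_one] at h3
  have := (Nat.le_div_iff_mul_le hp'.pos).1 h3
  omega

/-- Let p ≥ 7 be a prime and let the finite group G have a faithful irreducible character of degree n with n < 2p and n ≠ p. If the Sylow p-subgroups of G are non-abelian then p² does not divide the index of O_p(G) in G; consequently, in every case G/O_p(G) has abelian Sylow p-subgroups. -/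
theorem result {G : Type*} [Group G] [Finite G] (χ : Cfsg.IrrCharacter G) (hfaith : ∀ g : G, (χ : G → ℂ) g = (χ : G → ℂ) 1 → g = 1) (n : ℕ) (hn : Cfsg.charDegree (χ : G → ℂ) = n) (p : ℕ) (hp : p.Prime) (h7 : 7 ≤ p) (hn2 : n < 2 * p) (hnp : n ≠ p) : ((∃ P : Sylow p G, ∃ x ∈ (P : Subgroup G), ∃ y ∈ (P : Subgroup G), x * y ≠ y * x) → ¬ p ^ 2 ∣ (Cfsg.pCore p G).index) ∧ ∀ Q : Sylow p (G ⧸ Cfsg.pCore p G), ∀ x ∈ (Q : Subgroup (G ⧸ Cfsg.pCore p G)), ∀ y ∈ (Q : Subgroup (G ⧸ Cfsg.pCore p G)), x * y = y * x := by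
  haveI := Fact.mk hp
  subst hn
  refine ⟨fun ⟨P, hP⟩ => main χ.2 hfaith h7 hn2 hnp P hP, fun Q => ?_⟩
  obtain ⟨P, rfl⟩ := Sylow.mapSurjective_surjective (QuotientGroup.mk'_surjective (pCore p G)) p Q
  by_cases hP : ∃ x ∈ (P : Subgroup G), ∃ y ∈ (P : Subgroup G), x * y ≠ y * x
  · have h := main χ.2 hfaith h7 hn2 hnp P hP
    generalize P.mapSurjective (QuotientGroup.mk'_surjective (pCore p G)) = Q
    obtain ⟨k, hk⟩ := Q.isPGroup'.exists_card_eq
    have hd : Nat.card (Q : Subgroup (G ⧸ pCore p G)) ∣ p := by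
      have h1 := Subgroup.card_subgroup_dvd_card (Q : Subgroup (G ⧸ pCore p G))
      rw [hk] at h1 ⊢
      have : k ≤ 1 := by
        by_contra hc
        exact h ((pow_dvd_pow p (by omega)).trans h1)
      simpa using pow_dvd_pow p this
    haveI := isCyclic_of_card_dvd_prime hd
    intro x hx y hy
    exact congrArg Subtype.val (mul_comm' (⟨x, hx⟩ : (Q : Subgroup _)) ⟨y, hy⟩)
  · push Not at hP
    rintro _ ⟨x, hx, rfl⟩ _ ⟨y, hy, rfl⟩
    rw [← map_mul, hP x hx y hy, map_mul]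

end Cfsg.Agent.S4471
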