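import Cfsg.Statements.S4520
import Cfsg.Agent.H8.AD2

set_option autoImplicit false
open Cfsg

namespace Cfsg.Agent.S4520

open H5 H7 H8

/-- Let N be a normal subgroup of odd index in the finite group G, M a maximal ideal of the algebraic integers containing 2, and k coprime to the order of G with k ^ (2 ^ e) ≡ 1 modulo the order of G for some e and g ^ k = g⁻¹ for every element g of odd order. Let θ be an irreducible character of N and χ an irreducible character of G over θ, both unchanged by composing with g ↦ g ^ k. Then χ lies in the principal 2-block of G if and only if θ lies in the principal 2-block of N. -/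
theorem result {G : Type*} [Group G] [Fintype G] (M : Ideal Cfsg.AlgInt) (hM : Cfsg.IsPModular 2 M) (N : Subgroup G) [N.Normal] [Fintype N] (hidx : Odd N.index) (k e : ℕ) (hk : Nat.Coprime k (Nat.card G)) (hke : k ^ (2 ^ e) ≡ 1 [MOD Nat.card G]) (hk₂ : ∀ g : G, Odd (orderOf g) → g ^ k = g⁻¹) (θ : Cfsg.IrrCharacter N) (hθ : ∀ n : N, (θ : N → ℂ) (n ^ k) = (θ : N → ℂ) n) (χ : Cfsg.IrrCharacter G) (hχ : ∀ g : G, (χ : G → ℂ) (g ^ k) = (χ : G → ℂ) g) (hover : Cfsg.classInner (fun n : N => (χ : G → ℂ) n) (θ : N → ℂ) ≠ 0) : χ ∈ Cfsg.principalBlock M G ↔ θ ∈ Cfsg.principalBlock M N := by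
  haveI : PM 2 M := ⟨hM⟩
  refine ⟨fun h => mem_principal_of_over h hover, fun h => ?_⟩
  have hB := isPBlock_blockOf (M := M) χ
  obtain ⟨P⟩ : Nonempty (Sylow 2 G) := inferInstance
  have hP := le_of_not_dvd_index P.isPGroup' hidx.not_two_dvd_nat
  have h1 := (cover_iff_io (isSat_of_isPBlock hB) (isSat_of_isPBlock isPBlock_principalBlock)).1
    ⟨χ, mem_blockOf_self χ, θ, h, hover⟩
  have h2 := left_ne_zero_of_mul (knoerr_Br (tw_top N) (blk_b0 (M := M) N) P.isPGroup' hP
    (by rw [Br_b0 P.isPGroup' hP]; exact (blk_b0 _).ne) (fB_mem_ZI _) (fB_idem hB) h1)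
  obtain ⟨D, hD⟩ := exists_isDefectGroup 2 hB
  have h3 := ((IsDefectGroup.Br_ne_zero_iff hB hD P.isPGroup').1 h2).card_le
  rw [IsDefectGroup.card hB hD, P.card_eq_multiplicity, Nat.pow_le_pow_iff_right (by norm_num)] at h3
  rw [← eq_principal_of_real (M := M) hB (le_antisymm blockDefect_le h3)
    (blockCoeff_inv (p := 2) (M := M) hB (mem_blockOf_self χ) fun g hg => ?_)]
  · exact mem_blockOf_self χ
  rw [← hk₂ g (Nat.not_even_iff_odd.1 (by rwa [even_iff_two_dvd])), hχ]

end Cfsg.Agent.S4520
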