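import Cfsg.Statements.S4521
import Cfsg.Agent.H8.B1

set_option autoImplicit false
open Cfsg

namespace Cfsg.Agent.S4521

open H5 H7 H8
open scoped Pointwise

theorem aux_iff {G : Type*} [Group G] [Fintype G] {p : ℕ} [Fact p.Prime] {M : Ideal AlgInt} [PM p M]
    {χ : IrrCharacter G} : χ ∈ principalBlock M G ↔
      om (χ : G → ℂ) (setSum ℂ {g | ¬ p ∣ orderOf g}) ≠ 0 := by
  classical
  rw [mem_principal_iff (p := p), om_apply, ev_apply, Ne, Ne, div_eq_zero_iff,
    or_iff_left χ.2.apply_one_ne_zero]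
  refine not_congr (Eq.congr_left (Finset.sum_congr rfl fun g _ => ?_))
  rw [coeff_setSum, reg]
  by_cases h : p ∣ orderOf g <;> simp [h]

theorem aux_over {G : Type*} [Group G] [Fintype G] {p : ℕ} [Fact p.Prime] {M : Ideal AlgInt} [PM p M]
    {U : Subgroup G} [U.Normal] [Fintype U] {χ : IrrCharacter G} {ψ : IrrCharacter U}
    (h : classInner (fun u : U => (χ : G → ℂ) u) (ψ : U → ℂ) ≠ 0) :
    setSum ℂ {g | g ∈ U ∧ ¬ p ∣ orderOf g} ∈ Z ℂ G ∧ (ψ ∈ principalBlock M U ↔
      om (χ : G → ℂ) (setSum ℂ {g | g ∈ U ∧ ¬ p ∣ orderOf g}) ≠ 0) := by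
  classical
  have h1 : setSum ℂ {g | g ∈ U ∧ ¬ p ∣ orderOf g} ∈ Z ℂ G := mem_Inv_top.1
    (setSum_mem_Inv fun x _ g => by
      simp only [Set.mem_ofPred_eq, orderOf_conj', conj_mem_of_nN (AD.mem_nN (N := U) x)])
  refine ⟨h1, ?_⟩
  rw [aux_iff (p := p), ← om_eq_of_over (φ := U.subtype) Subtype.val_injective χ.2 ψ.2 h h1
    fun g hg => by rw [coeff_setSum, if_neg fun e => hg ⟨⟨g, e.1⟩, rfl⟩]]
  congr! 2
  refine ga_ext fun u => ?_
  simp [coeff_setSum]

/-- Let the finite group G be generated by subgroups U₁ and U₂ that commute elementwise and whose intersection is a p-group, and let M be a maximal ideal of the algebraic integers containing the prime p. If the irreducible character χ of G has the irreducible constituents ψ₁ on U₁ and ψ₂ on U₂, then χ lies in the principal block of G if and only if ψ₁ and ψ₂ lie in the principal blocks of U₁ and U₂. -/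
theorem result {G : Type*} [Group G] [Fintype G] (p : ℕ) [Fact p.Prime] (M : Ideal Cfsg.AlgInt) (hM : Cfsg.IsPModular p M) (U₁ U₂ : Subgroup G) [Fintype U₁] [Fintype U₂] (hcomm : ∀ u ∈ U₁, ∀ v ∈ U₂, u * v = v * u) (hgen : U₁ ⊔ U₂ = ⊤) (hZ : IsPGroup p ↥(U₁ ⊓ U₂)) (χ : Cfsg.IrrCharacter G) (ψ₁ : Cfsg.IrrCharacter U₁) (ψ₂ : Cfsg.IrrCharacter U₂) (h₁ : Cfsg.classInner (fun u : U₁ => (χ : G → ℂ) u) (ψ₁ : U₁ → ℂ) ≠ 0) (h₂ : Cfsg.classInner (fun u : U₂ => (χ : G → ℂ) u) (ψ₂ : U₂ → ℂ) ≠ 0) : χ ∈ Cfsg.principalBlock M G ↔ (ψ₁ ∈ Cfsg.principalBlock M U₁ ∧ ψ₂ ∈ Cfsg.principalBlock M U₂) := by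
  classical
  haveI : PM p M := ⟨hM⟩
  have hn : ∀ {U V : Subgroup G}, (∀ u ∈ U, ∀ v ∈ V, u * v = v * u) → U ⊔ V = ⊤ → U.Normal :=
    fun {U V} h1 h2 => Subgroup.normalizer_eq_top_iff.1 (top_le_iff.1 (h2 ▸ sup_le Subgroup.le_normalizer
      ((show V ≤ cC U from fun v hv u hu => h1 u hu v hv).trans (Subgroup.centralizer_le_normalizer _))))
  haveI := hn hcomm hgen
  haveI := hn (fun u hu v hv => (hcomm v hv u hu).symm) (sup_comm U₁ U₂ ▸ hgen)
  obtain ⟨a1, a2⟩ := aux_over (p := p) (M := M) h₁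
  obtain ⟨b1, b2⟩ := aux_over (p := p) (M := M) h₂
  rw [a2, b2, aux_iff (p := p), ← mul_ne_zero_iff, ← om_mul χ.2 a1]
  congr! 2
  refine ga_ext fun g => ?_
  rw [coeff_mul_sum, coeff_setSum]
  simp only [coeff_setSum, Set.mem_ofPred_eq]
  split_ifs with hg
  · symm
    refine Finset.sum_eq_zero fun x _ => ?_
    split_ifs with h1 h2
    · refine absurd hg ?_
      have := not_dvd_orderOf_mul (hcomm _ h1.1 _ h2.1) h1.2 h2.2
      rwa [mul_inv_cancel_left] at this
    all_goals simp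
  · have : g ∈ (U₁ : Set G) * (U₂ : Set G) := by rw [← Subgroup.normal_mul, hgen]; trivial
    obtain ⟨u, hu, v, hv, rfl⟩ := this
    have hc : Commute u v := hcomm u hu v hv
    have h1 : u * v = pr p u * pr p v := by
      have h2 : u * v = (pp p u * pp p v) * (pr p u * pr p v) := by
        rw [(commute_pr (commute_pp hc).symm).mul_mul_mul_comm, pp_mul_pr, pp_mul_pr]
      have h3 := pr_mul_of ((isPE_pp (p := p) u).mul (isPE_pp v) (commute_pp (commute_pp hc).symm).symm)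
        (not_dvd_orderOf_mul (commute_pr (commute_pr hc).symm).symm (not_dvd_orderOf_pr u)
          (not_dvd_orderOf_pr v)) (Commute.mul_left
            ((commute_pp_pr u).mul_right (commute_pr (commute_pp hc.symm).symm))
            ((commute_pr (commute_pp hc).symm).mul_right (commute_pp_pr v)))
      rw [← h2, pr_of_not_dvd hg] at h3
      exact h3
    have a := pr_mem (p := p) hu
    have b := pr_mem (p := p) hv
    have c := not_dvd_orderOf_pr (p := p) u
    have d := not_dvd_orderOf_pr (p := p) v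
    beta_reduce
    rw [h1]
    generalize pr p u = x at *
    generalize pr p v = y at *
    rw [Finset.sum_eq_single x]
    · simp [a, b, c, d]
    · intro z _ hz
      split_ifs with h2 h3
      · refine absurd ?_ hz
        have h4 : z⁻¹ * x = z⁻¹ * (x * y) * y⁻¹ := by group
        have h5 : z⁻¹ * x ∈ U₁ ⊓ U₂ := ⟨U₁.mul_mem (U₁.inv_mem h2.1) a,
          h4 ▸ U₂.mul_mem h3.1 (U₂.inv_mem b)⟩
        have h6 : Commute z (z⁻¹ * x) := hcomm _ h2.1 _ h5.2
        have h7 := pr_mul_of (isPE_of_mem hZ h5) h2.2 h6.symm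
        rw [← h6.eq, mul_inv_cancel_left, pr_of_not_dvd c] at h7
        exact h7.symm
      all_goals simp
    · simp

end Cfsg.Agent.S4521
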