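import Cfsg.Statements.S4528
import Cfsg.Agent.H7.TameG

set_option autoImplicit false
open Cfsg

namespace Cfsg.Agent.S4528

open H5 H7

/-- Let B be a 2-block of the finite group G (relative to a maximal ideal M of the algebraic integers containing 2) whose defect group D is dihedral of order 2 ^ n with n ≥ 3. Then B contains exactly 2 ^ (n - 2) + 3 irreducible characters, its 2-regular rank (the number of irreducible Brauer characters) is between 1 and 3, exactly four of its members have height zero, and every member has height at most one. -/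
theorem result {G : Type*} [Group G] [Finite G] (M : Ideal Cfsg.AlgInt) (hM : Cfsg.IsPModular 2 M) (B : Set (Cfsg.IrrCharacter G)) (hB : Cfsg.IsPBlock M B) (D : Subgroup G) (hD : Cfsg.IsDefectGroup 2 M B D) (n : ℕ) (hn : 3 ≤ n) (hdih : Nonempty (D ≃* DihedralGroup (2 ^ (n - 1)))) : Nat.card B = 2 ^ (n - 2) + 3 ∧ 1 ≤ Cfsg.blockRank 2 B ∧ Cfsg.blockRank 2 B ≤ 3 ∧ Nat.card {χ : Cfsg.IrrCharacter G // χ ∈ B ∧ Cfsg.blockHeight 2 B (χ : G → ℂ) = 0} = 4 ∧ ∀ χ ∈ B, Cfsg.blockHeight 2 B (χ : G → ℂ) ≤ 1 := by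
    haveI : PM 2 M := ⟨hM⟩
    obtain ⟨k, rfl⟩ := Nat.exists_eq_add_of_le' hn
    obtain ⟨x, h, hd⟩ := H9.exists_mc_of_dihedral (k := k) hdih.some
    obtain ⟨m, z, g, n, S, E, ξ, t, s⟩ := exists_tame hB hD h
    have c := s.cnt'
    rw [if_pos (.inl (hd _ (g 0).2 (t.out 0))), if_pos (.inl (hd _ (g 1).2 (t.out 1)))] at c
    have r := s.rank'
    refine ⟨s.num'.trans (by simp; omega), by split_ifs at r <;> omega, by omega, s.card0,
      fun χ e => ?_⟩
    have := s.ht e
    omega

end Cfsg.Agent.S4528
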