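import Cfsg.Statements.S4529
import Cfsg.Agent.H7.TameG

set_option autoImplicit false
open Cfsg

namespace Cfsg.Agent.S4529

open H5 H7

/-- Let B be a 2-block of the finite group G (relative to a maximal ideal M of the algebraic integers containing 2) whose defect group D is semidihedral (quasi-dihedral) of order 2 ^ n, n ≥ 4. Then the number of irreducible characters in B is 2 ^ (n - 2) + 3 or 2 ^ (n - 2) + 4, its 2-regular rank l is between 1 and 3, with l = 3 forcing 2 ^ (n - 2) + 4 characters and l = 1 forcing 2 ^ (n - 2) + 3; exactly four members have height zero, exactly 2 ^ (n - 2) - 1 have height one, and every other member has height n - 2. -/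
theorem result {G : Type*} [Group G] [Finite G] (M : Ideal Cfsg.AlgInt) (hM : Cfsg.IsPModular 2 M) (B : Set (Cfsg.IrrCharacter G)) (hB : Cfsg.IsPBlock M B) (D : Subgroup G) (hD : Cfsg.IsDefectGroup 2 M B D) (n : ℕ) (hn : 4 ≤ n) (hcard : Nat.card D = 2 ^ n) (hsd : Cfsg.IsQuasiDihedral D) : (Nat.card B = 2 ^ (n - 2) + 3 ∨ Nat.card B = 2 ^ (n - 2) + 4) ∧ 1 ≤ Cfsg.blockRank 2 B ∧ Cfsg.blockRank 2 B ≤ 3 ∧ (Cfsg.blockRank 2 B = 3 → Nat.card B = 2 ^ (n - 2) + 4) ∧ (Cfsg.blockRank 2 B = 1 → Nat.card B = 2 ^ (n - 2) + 3) ∧ Nat.card {χ : Cfsg.IrrCharacter G // χ ∈ B ∧ Cfsg.blockHeight 2 B (χ : G → ℂ) = 0} = 4 ∧ Nat.card {χ : Cfsg.IrrCharacter G // χ ∈ B ∧ Cfsg.blockHeight 2 B (χ : G → ℂ) = 1} = 2 ^ (n - 2) - 1 ∧ ∀ χ ∈ B, Cfsg.blockHeight 2 B (χ : G → ℂ) = 0 ∨ Cfsg.blockHeight 2 B (χ : G → ℂ) = 1 ∨ Cfsg.blockHeight 2 B (χ : G → ℂ) = n - 2 := by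
    classical
    haveI : PM 2 M := ⟨hM⟩
    obtain ⟨k, x, h, hk, hs⟩ := H9.exists_mc_of_isQuasiDihedral hsd
    obtain rfl : n = k + 3 := Nat.pow_right_injective le_rfl (hcard.symm.trans h.card_eq)
    obtain ⟨m, z, g, n, S, E, ξ, t, s⟩ := exists_tame hB hD h
    obtain ⟨y, hy, hy', y2⟩ := h.sd_exists hs
    obtain ⟨i, hi⟩ := t.exists_sq hy hy'
    obtain ⟨j, hj⟩ := t.exists_sq (mul_mem h.xmem hy)
      (mt (Subgroup.mul_mem_cancel_left _ (Subgroup.mem_zpowers x)).1 hy')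
    rw [h.sd_sq hs hy hy', y2, mul_one] at hj
    have hj : ¬ _ = _ := hj.trans_ne h.u_ne_one
    rw [y2] at hi
    have c := s.cnt'
    have r := s.rank'
    have e := s.num'
    have : n ≤ 1 ∧ 1 ≤ blockRank 2 B ∧ (blockRank 2 B = 3 → n = 1) ∧ (blockRank 2 B = 1 → n = 0) := by
      fin_cases i <;> fin_cases j <;> simp only [Fin.zero_eta, Fin.mk_one] at hi hj <;>
        first | exact absurd hi hj | simp only [hi, hj, true_or, false_or, if_true] at c
      all_goals split_ifs at r c <;> omega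
    rw [show k + 3 - 2 = k + 1 from rfl]
    refine ⟨by omega, this.2.1, by omega, by omega, by omega, s.card0, s.card1 hk, fun χ e => ?_⟩
    have := s.ht e
    omega

end Cfsg.Agent.S4529
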