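import Cfsg.Statements.S4531
import Cfsg.Agent.H7.TameG
import Cfsg.Agent.H8.FR
import Cfsg.Agent.H1.Cores
import Cfsg.Agent.H9.MaxClass

set_option autoImplicit false
open Cfsg

namespace Cfsg.Agent.S4531

open H5 H7

open Subgroup H8 in
theorem rank_le {p : ℕ} {G : Type*} [Group G] [Fintype G] {T : Subgroup G}
    {B : Set (IrrCharacter G)} {B' : Set (IrrCharacter T)}
    (h : ∀ χ ∈ B, ∃ ψ ∈ B', χ.1 = indFun T ψ.1) : blockRank p B ≤ blockRank p B' := by
  refine le_trans (Submodule.finrank_mono ?_) (Submodule.finrank_map_le (indLin T) _)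
  rw [Submodule.map_span]
  refine Submodule.span_mono ?_
  rintro _ ⟨χ, hχ, rfl⟩
  obtain ⟨ψ, hψ, e⟩ := h χ hχ
  refine ⟨_, ⟨ψ, hψ, rfl⟩, ?_⟩
  simp only [pRegularPart_eq, indLin_apply]
  rw [show (χ : G → ℂ) = _ from e, reg_eq_mul, reg_eq_mul (indFun _ _),
    ← indFun_mul_restrict _ _ (isClassFunction_reg fun _ _ => rfl)]
  exact congrArg _ (congrArg _ (reg_comp T.subtype_injective fun _ => 1).symm)

open Subgroup H8 in
theorem fus {M : Ideal AlgInt} [PM 2 M] {G : Type*} [Group G] [Finite G]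
    {B : Set (IrrCharacter G)} (hB : IsPBlock M B) {D : Subgroup G} (hD : IsDefectGroup 2 M B D)
    (hD' : (∃ n : ℕ, 3 ≤ n ∧ Nonempty (D ≃* DihedralGroup (2 ^ (n - 1)))) ∨ IsQuasiDihedral D)
    (hl : 3 ≤ blockRank 2 B) : ∃ k x, H9.MC D k x ∧ (∃ y ∈ D, y ∉ zpowers x ∧
      IsConj y (x ^ 2 ^ (k + 1))) ∧ ∀ y ∈ D, y ∉ zpowers x → ∃ w ∈ zpowers (x ^ 2), IsConj y w := by
  classical
  obtain ⟨k, x, h, ⟨y, hy, hy', y2⟩, h4⟩ : ∃ k x, H9.MC D k x ∧ (∃ y ∈ D, y ∉ zpowers x ∧ y * y = 1)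
      ∧ ∀ y ∈ D, y ∉ zpowers x → y ^ 2 ^ (k + 1) = 1 := by
    rcases hD' with ⟨n, hn, ⟨e⟩⟩ | e
    · obtain ⟨k, rfl⟩ := Nat.exists_eq_add_of_le' hn
      obtain ⟨x, h, hd⟩ := H9.exists_mc_of_dihedral (k := k) e
      obtain ⟨y, hy, hy'⟩ := h.exists_out
      exact ⟨k, x, h, ⟨y, hy, hy', hd y hy hy'⟩, fun y hy hy' => by
        rw [pow_succ', pow_mul, sq, hd y hy hy', one_pow]⟩
    · obtain ⟨k, x, h, hk, hs⟩ := H9.exists_mc_of_isQuasiDihedral e
      obtain ⟨j, rfl⟩ := Nat.exists_eq_add_of_le' hk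
      exact ⟨_, x, h, h.sd_exists hs, fun y hy hy' => by
        rw [add_assoc, add_comm, pow_add, pow_mul, show 2 ^ (1 + 1) = 4 from rfl,
          h.pow_four hy hy', one_pow]⟩
  obtain ⟨m, z, g, n, S, E, ξ, t, s⟩ := exists_tame hB hD h
  have r := s.rank'
  have nU : ∀ v : D, (v : G) ∉ zpowers x → ¬ m.U ⟨x, h.xmem⟩ v := fun v hv u => by
    obtain ⟨i, e⟩ := t.exists_fc m hv
    have : m.U ⟨x, h.xmem⟩ (g i) := fun w e' => u w (e.trans e')
    fin_cases i <;> simp only [Fin.zero_eta, Fin.mk_one] at this <;> rw [if_pos this] at r <;> omega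
  have fc : ∀ {v w : D}, m.FC v w → IsConj (v : G) w := fun ⟨a, _, e⟩ => isConj_iff.2 ⟨a, e⟩
  refine ⟨k, x, h, ⟨y, hy, hy', t.hz ▸ fc (t.fc_z m (nU ⟨y, hy⟩ hy')
    (fun e => hy' ((show y = 1 from congrArg Subtype.val e) ▸ one_mem _)) y2)⟩, fun y hy hy' => ?_⟩
  have := nU ⟨y, hy⟩ hy'
  simp only [MP.U, not_forall, not_not] at this
  obtain ⟨w, e, hw⟩ := this
  refine ⟨w, h.mem_sq_of_orderOf hw ?_, fc e⟩
  rw [← H9.IsConj.orderOf_eq' (fc e)]
  exact orderOf_dvd_of_pow_eq_one (h4 y hy hy')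

open Subgroup H8 in
theorem aux {M : Ideal AlgInt} [PM 2 M] (n : ℕ) :
    ∀ {G : Type*} [Group G] [Finite G], Nat.card G = n → H4.PSol 2 (⊤ : Subgroup G) →
    ∀ {B : Set (IrrCharacter G)}, IsPBlock M B → ∀ {D : Subgroup G}, IsDefectGroup 2 M B D →
    ((∃ n : ℕ, 3 ≤ n ∧ Nonempty (D ≃* DihedralGroup (2 ^ (n - 1)))) ∨ IsQuasiDihedral D) →
    ¬ 3 ≤ blockRank 2 B := by
  classical
  induction n using Nat.strong_induction_on with
  | _ n ih =>
  intro G _ _ hn hs B hB D hD hD' hl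
  haveI := Fintype.ofFinite G
  obtain ⟨θ, h1, h2⟩ | ⟨T, h1, -, B', h2, h3, -, h4⟩ :=
    fong_red (pPrimeCore 2 G) not_dvd_card_pPrimeCore hB
  · obtain ⟨k, x, h, ⟨y, hy, hy', e⟩, h4⟩ := fus hB hD hD' hl
    obtain ⟨S, rfl⟩ := (fong_inv hs hB h1 h2).2 D hD
    let N := pPrimeCore 2 G
    let π := QuotientGroup.mk' N
    have hC := (hs.quotient N).centralizer_pCore_le (H1.pPrimeCore_quotient_eq_bot 2 G)
    set U := pCore 2 (G ⧸ N)
    have hUS : U ≤ (S : Subgroup G).map π :=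
      ((sylIn_top S).map _).le_of_normal isPGroup_pCore'
        (by rw [← MonoidHom.range_eq_map, QuotientGroup.range_mk']; exact le_top)
        Subgroup.le_normalizer_of_normal
    have hz : π (x ^ 2 ^ (k + 1)) ∈ cC U := fun u hu => by
      obtain ⟨s, hs, rfl⟩ := hUS hu
      exact (h.commute_u hs).map π
    have cj : ∀ {a b}, IsConj a b → b ∈ U.comap π → a ∈ U.comap π := fun e hb => by
      obtain ⟨c, rfl⟩ := isConj_iff.1 e.symm
      exact Normal.conj_mem inferInstance _ hb c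
    have sq := h.sq_le_of_normal (N := U.comap π) (le_normalizer_of_normal (mem_top x)) hy hy'
      (cj e (hC hz))
    have out : ∀ v ∈ (S : Subgroup G), v ∉ zpowers x → v ∈ U.comap π := fun v hv hv' =>
      have ⟨w, hw, e⟩ := h4 v hv hv'
      cj e (sq hw)
    have hx : x ∈ U.comap π := (mul_mem_cancel_right (out y hy hy')).1 (out _ (mul_mem h.xmem hy)
      (mt (Subgroup.mul_mem_cancel_left _ (mem_zpowers x)).1 hy'))
    obtain ⟨c, hc⟩ := isConj_iff.1 e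
    have := hz _ (Normal.conj_mem inferInstance _ hx c)
    rw [← hc, ← map_mul, ← map_mul, show c * x * c⁻¹ * (c * y * c⁻¹) = c * (x * y) * c⁻¹ by group,
      show c * y * c⁻¹ * (c * x * c⁻¹) = c * (y * x) * c⁻¹ by group] at this
    simp only [map_mul π _ c⁻¹, map_mul π c, mul_left_inj, mul_right_inj] at this
    have h5 : (x * y)⁻¹ * (y * x) ∈ N ⊓ S := ⟨QuotientGroup.eq.1 this,
      S.1.mul_mem (S.1.inv_mem (mul_mem h.xmem hy)) (mul_mem hy h.xmem)⟩
    rw [H3.inf_eq_bot_of_not_dvd_card not_dvd_card_pPrimeCore S.2, mem_bot, inv_mul_eq_one] at h5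
    exact h.not_commute hy hy' h5.symm
  · obtain ⟨D', hD''⟩ := exists_isDefectGroup 2 h2
    obtain ⟨x, rfl⟩ := IsDefectGroup.exists_cj_eq hB (h3 D' hD'') hD
    have e := (D'.equivMapOfInjective _ T.subtype_injective).trans (cjE x rfl)
    exact ih _ (hn ▸ H6.card_lt_of_ne_top h1) rfl (H4.pSol_top_iff.2 (hs.mono le_top)) h2 hD''
      (hD'.imp (fun ⟨n, a, ⟨b⟩⟩ => ⟨n, a, ⟨e.trans b⟩⟩) (H9.isQuasiDihedral_of_equiv e.symm))
      (hl.trans (rank_le fun χ e => (h4 χ e).imp fun _ e => ⟨e.1, e.2.1⟩))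

/-- Let the finite group G have a 2-block B (relative to a maximal ideal M of the algebraic integers containing 2) of 2-regular rank three (three irreducible Brauer characters) whose defect group D is dihedral of order 2 ^ n with n ≥ 3 or semidihedral. Then the centre of G has odd order and G is not solvable. -/
theorem result {G : Type*} [Group G] [Finite G] (M : Ideal Cfsg.AlgInt) (hM : Cfsg.IsPModular 2 M) (B : Set (Cfsg.IrrCharacter G)) (hB : Cfsg.IsPBlock M B) (D : Subgroup G) (hD : Cfsg.IsDefectGroup 2 M B D) (hD' : (∃ n : ℕ, 3 ≤ n ∧ Nonempty (D ≃* DihedralGroup (2 ^ (n - 1)))) ∨ Cfsg.IsQuasiDihedral D) (hl : Cfsg.blockRank 2 B = 3) : Odd (Nat.card (Subgroup.center G)) ∧ ¬ Group.IsSolvable G := by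
    haveI : PM 2 M := ⟨hM⟩
    refine ⟨Nat.not_even_iff_odd.1 fun e => ?_,
      fun _ => aux _ rfl H4.pSol_top_of_solvable hB hD hD' hl.ge⟩
    obtain ⟨k, x, h, ⟨y, hy, hy', c⟩, -⟩ := fus hB hD hD' hl.ge
    obtain ⟨⟨t, ht⟩, t2⟩ := exists_prime_orderOf_dvd_card' 2 e.two_dvd
    rw [Subgroup.orderOf_mk] at t2
    have := H9.normal_zpowers_of_center ht
    have hD2 := IsDefectGroup.le_of_normal hB hD (IsPGroup.of_card (p := 2) (n := 1)
      ((Nat.card_zpowers t).trans t2)) (Subgroup.mem_zpowers t)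
    rcases h.center_cases hD2 fun g _ => Subgroup.mem_center_iff.1 ht g with rfl | rfl
    · simp at t2
    · obtain ⟨a, ha⟩ := isConj_iff.1 c.symm
      rw [Subgroup.mem_center_iff.1 ht, mul_inv_cancel_right] at ha
      exact hy' (ha ▸ h.u_mem_x)

end Cfsg.Agent.S4531
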