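import Cfsg.Statements.S4534
import Cfsg.Agent.H7.Sn4

set_option autoImplicit false
open Cfsg

namespace Cfsg.Agent.S4534

open H5 H7

/-- Let B be a p-block of a finite symmetric group (relative to a maximal ideal M of the algebraic integers containing p) with a nontrivial defect group D all of whose sections have p-rank at most s. Then the p-regular rank of B is less than p ^ s. -/
theorem result (n : ℕ) (p : ℕ) [Fact p.Prime] (M : Ideal Cfsg.AlgInt) (hM : Cfsg.IsPModular p M) (B : Set (Cfsg.IrrCharacter (Equiv.Perm (Fin n)))) (hB : Cfsg.IsPBlock M B) (D : Subgroup (Equiv.Perm (Fin n))) (hD : Cfsg.IsDefectGroup p M B D) (hD1 : D ≠ ⊥) (s : ℕ) (hs : Cfsg.SectionalPRankLE p s D) : Cfsg.blockRank p B < p ^ s := by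
  classical
  haveI : PM p M := ⟨hM⟩
  have hp : p.Prime := Fact.out
  obtain ⟨w, h1, h2, -⟩ := Sn.exists_weight (p := p) hB
  obtain ⟨t, S, φ, ht, hφ, -, rfl⟩ := h1 D hD
  rw [← Fintype.card_coe] at ht
  have hw : 0 < w := Nat.pos_of_ne_zero fun e => hD1 (by
    haveI : IsEmpty t := Fintype.card_eq_zero_iff.1 (by simp [ht, e])
    rw [Subsingleton.elim S.1 ⊥, Subgroup.map_bot])
  obtain ⟨b, hb, h3, -⟩ := Sn.exists_cv (C := Finset.Ioo 0 p) hw
  rw [Nat.card_Ioo, show p - 0 - 1 + 1 = p by have := hp.pos; omega] at h3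
  exact ((h2 b hb).trans_lt h3).trans_le (Nat.pow_le_pow_right hp.pos (Sn.pow_le_of_sec hs S ht
    (S.1.equivMapOfInjective φ hφ).toMonoidHom (MulEquiv.injective _)))

end Cfsg.Agent.S4534
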