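import Cfsg.Statements.S4535
import Cfsg.Agent.H7.Sn4
import Cfsg.Agent.S4698

set_option autoImplicit false
open Cfsg

namespace Cfsg.Agent.S4535

open H5 H7

/-- Let B be a p-block of a finite alternating group (relative to a maximal ideal M of the algebraic integers containing p) with a nontrivial defect group D all of whose sections have p-rank at most s. Then the p-regular rank of B is less than p ^ s. -/
theorem result (n : ℕ) (p : ℕ) [Fact p.Prime] (M : Ideal Cfsg.AlgInt) (hM : Cfsg.IsPModular p M) (B : Set (Cfsg.IrrCharacter (alternatingGroup (Fin n)))) (hB : Cfsg.IsPBlock M B) (D : Subgroup (alternatingGroup (Fin n))) (hD : Cfsg.IsDefectGroup p M B D) (hD1 : D ≠ ⊥) (s : ℕ) (hs : Cfsg.SectionalPRankLE p s D) : Cfsg.blockRank p B < p ^ s := by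
  classical
  haveI : PM p M := ⟨hM⟩
  have hp : p.Prime := Fact.out
  rcases subsingleton_or_nontrivial (Fin n) with hn | hn
  · exact absurd (Subsingleton.elim _ _) hD1
  obtain ⟨w, t, S, ht, ⟨e⟩, h1, h2, -⟩ := Sn.alt_weight hB hD
  have hd : blockDefect p B ≠ 0 := fun h => hD1 (Subgroup.eq_bot_of_card_eq _ (by
    rw [IsDefectGroup.card hB hD, h, pow_zero]))
  have h3 : blockDefect p B ≤ 2 → blockDefect p B ≤ s → blockRank p B < p ^ s := fun h h' =>
    (blockRank_lt_card hB hd).trans_le (((S4698.result p M hM B hB _ rfl).1 h).trans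
      (Nat.pow_le_pow_right hp.pos h'))
  have hw : 0 < w := Nat.pos_of_ne_zero (by rintro rfl; simp [hd] at h2)
  obtain ⟨b, hb, h4, h5⟩ := Sn.exists_cv (C := Finset.Ioo 0 p) hw
  rw [Nat.card_Ioo, show p - 0 - 1 + 1 = p by have := hp.pos; omega] at h4 h5
  by_cases h : p = 2
  · subst h
    have h6 := Sn.pow_le_of_sec_alt hs S ht e.toMonoidHom e.injective
    rw [if_pos ⟨rfl, hw⟩] at h2
    rcases (show w = 1 ∨ w = 2 ∨ 3 ≤ w by omega) with rfl | rfl | h7
    · simp [hd] at h2
    · have : (Nat.factorial 2).factorization 2 = 1 := Nat.prime_two.factorization_self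
      exact h3 (by omega) (by omega)
    rcases w.even_or_odd with ⟨k, rfl⟩ | ⟨k, rfl⟩
    · exact ((h1 b hb).1.trans_lt (h5 h7)).trans_le (Nat.pow_le_pow_right two_pos (by omega))
    · have := pow_succ 2 (2 * k) ▸ h5 h7
      have := (h1 b hb).2 rfl ⟨k, rfl⟩
      exact lt_of_lt_of_le (by omega) (Nat.pow_le_pow_right two_pos (show 2 * k ≤ s by omega))
  have h6 := Sn.pow_le_of_sec hs S ht (e.toMonoidHom.comp (Subgroup.inclusion
    (le_inf (Sn.le_alt h S.2) le_rfl))) (e.injective.comp (Subgroup.inclusion_injective _))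
  by_cases h7 : 3 ≤ w
  · exact ((h1 b hb).1.trans_lt (h5 h7)).trans_le (Nat.pow_le_pow_right hp.pos h6)
  rw [if_neg fun e => h e.1, Nat.factorization_eq_zero_of_not_dvd (by
    have := hp.two_le; rw [hp.dvd_factorial]; omega)] at h2
  exact h3 (by omega) (by omega)

end Cfsg.Agent.S4535
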