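import Cfsg.Statements.S4538
import Cfsg.Agent.H24.LieAll
import Cfsg.Agent.H12.StBlk
import Cfsg.Agent.H24.SL2Table

set_option autoImplicit false
open Cfsg

namespace Cfsg.Agent.S4538

open H24 H12 H5 H7 H8 Cfsg.Lie

theorem aux {G : Type*} [Group G] [Finite G] {p : ℕ} [Fact p.Prime] {M : Ideal Cfsg.AlgInt} (hM : Cfsg.IsPModular p M) (h : BTp p G)
    (χ : IrrCharacter G) (h1 : (charDegree (χ : G → ℂ)).factorization p = (Nat.card G).factorization p)
    (h2 : ∀ ψ : IrrCharacter G, (charDegree (ψ : G → ℂ)).factorization p = (Nat.card G).factorization p → ψ = χ) :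
    Nat.card {B : Set (IrrCharacter G) // IsPBlock M B ∧ blockDefect p B = 0} = 1 ∧
      ∀ B : Set (IrrCharacter G), IsPBlock M B → blockDefect p B = 0 ∨ blockDefect p B = (Nat.card G).factorization p := by
  have : PM p M := ⟨hM⟩
  refine ⟨Nat.card_eq_one_iff_exists.2 ⟨⟨_, isPBlock_blockOf χ, (blockDefect_eq_zero_iff (isPBlock_blockOf (M := M) χ)
    (mem_blockOf_self χ)).2 h1⟩, fun B => ?_⟩, fun B => h.block hM⟩
  obtain ⟨ψ, hψ⟩ := block_nonempty B.2.1
  obtain rfl := h2 ψ ((blockDefect_eq_zero_iff B.2.1 hψ).1 B.2.2)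
  exact Subtype.ext (eq_blockOf_of_mem B.2.1 hψ)

/-- Let F be a finite field of characteristic p and n ≥ 2. Relative to a maximal ideal M of the algebraic integers containing p, the group SL(n, F) has exactly one p-block of defect zero, and every other p-block has full defect (its defect equals the exponent of p in the order of the group, so its defect groups are Sylow p-subgroups). -/
theorem result {F : Type*} [Field F] [Fintype F] (n : ℕ) (hn : 2 ≤ n) (p : ℕ) [Fact p.Prime] [CharP F p] (M : Ideal Cfsg.AlgInt) (hM : Cfsg.IsPModular p M) : Nat.card {B : Set (Cfsg.IrrCharacter (Matrix.SpecialLinearGroup (Fin n) F)) // Cfsg.IsPBlock M B ∧ Cfsg.blockDefect p B = 0} = 1 ∧ ∀ B : Set (Cfsg.IrrCharacter (Matrix.SpecialLinearGroup (Fin n) F)), Cfsg.IsPBlock M B → Cfsg.blockDefect p B = 0 ∨ Cfsg.blockDefect p B = (Nat.card (Matrix.SpecialLinearGroup (Fin n) F)).factorization p := by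
  classical
  have hp : p.Prime := Fact.out
  rcases hn.eq_or_lt with rfl | hn
  · have := Fintype.ofFinite (GL (Fin 2) F)
    obtain ⟨w, hw⟩ := exists_ell_SL (F := F)
    obtain ⟨k, -, hk⟩ := FiniteField.card F p
    have h0 : p ∣ Fintype.card F := hk ▸ dvd_pow_self p k.ne_zero
    have h1 : ¬ p ∣ Fintype.card F + 1 := fun h => hp.not_dvd_one ((Nat.dvd_add_right h0).1 h)
    have h2 : ∀ n, n + 1 = Fintype.card F → ¬ p ∣ n := fun n e h => hp.not_dvd_one ((Nat.dvd_add_right h).1 (e ▸ h0))
    have h3 : (Nat.card (Matrix.SpecialLinearGroup (Fin 2) F)).factorization p = (Fintype.card F).factorization p := by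
      have := Fintype.one_lt_card (α := F)
      rw [H10.card_SL2, Nat.factorization_mul (Nat.mul_ne_zero (by omega) (by omega)) (by omega), Nat.factorization_mul (by omega) (by omega)]
      simp [Nat.factorization_eq_zero_of_not_dvd h1, Nat.factorization_eq_zero_of_not_dvd (h2 (Fintype.card F - 1) (by omega))]
    refine aux hM (rkSL F).btp ⟨_, isIrr_StS⟩ (by rw [h3, charDegree_eq_of_apply_one StS_one]) fun ψ h => ?_
    have h4 : p ∣ charDegree ψ.1 := Nat.dvd_of_factorization_pos (by
      rw [h, h3]; exact (hp.factorization_pos_of_dvd Fintype.card_ne_zero h0).ne')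
    rcases irr_SL2_degree hw ψ.2 ψ.2.coe_charDegree.symm with a | a | a | a | a | a
    · exact absurd (a.1 ▸ h4) hp.not_dvd_one
    · exact Subtype.ext a.2
    · exact absurd (a.1 ▸ h4) h1
    · exact absurd h4 (h2 _ a.1)
    · exact absurd (a.1 ▸ h4.mul_left 2) h1
    · exact absurd (h4.mul_left 2) (h2 _ a.1)
  · obtain ⟨l, rfl⟩ : ∃ l, n = l + 1 := ⟨n - 1, by omega⟩
    have h : 2 ≤ l := by omega
    have := Fintype.ofFinite (Matrix.SpecialLinearGroup (Fin (l + 1)) F)
    have g := ga0 (cov_A h F) p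
    have h1 := (cov_A h F).factorization_St (sysA_T h F) (H24.not_dvd_card_H p)
    exact aux hM ((btp_K g.adm (cov_A h F) g.hU fun _ _ h => h).of_equiv ((MulEquiv.subgroupCongr (sysA_T h F)).trans Subgroup.topEquiv).symm)
      ⟨_, (cov_A h F).isIrr_St (sysA_T h F)⟩ h1 fun ψ h2 => (cov_A h F).eq_of_defect_zero (r3_of_finite _) (sysA_T h F) h2 h1

end Cfsg.Agent.S4538
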