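import Cfsg.Statements.S4539
import Cfsg.Agent.H8.Avg

set_option autoImplicit false
open Cfsg

namespace Cfsg.Agent.S4539

open H5 H7 H8 Finset

/-- Let B be a p-block of the finite group G (relative to a maximal ideal M of the algebraic integers containing p) of defect d with defect group D. Let z be an element of D commuting with every element of D, and let b be a block of the centralizer C of z with defect group D that induces B (a major subsection (z, b)). If b has p-regular rank at most two, then B contains at most p ^ d irreducible characters. -/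
theorem result {G : Type*} [Group G] [Finite G] (p : ℕ) [Fact p.Prime] (M : Ideal Cfsg.AlgInt) (hM : Cfsg.IsPModular p M) (B : Set (Cfsg.IrrCharacter G)) (hB : Cfsg.IsPBlock M B) (D : Subgroup G) (hD : Cfsg.IsDefectGroup p M B D) (z : G) (hzD : z ∈ D) (hzc : ∀ d ∈ D, d * z = z * d) (b : Set (Cfsg.IrrCharacter ↥(Subgroup.centralizer ({z} : Set G)))) (hb : Cfsg.IsInducedBlock M (Subgroup.centralizer ({z} : Set G)) b B) (hbD : Cfsg.IsDefectGroup p M b (D.subgroupOf (Subgroup.centralizer ({z} : Set G)))) (hl : Cfsg.blockRank p b ≤ 2) : Nat.card B ≤ p ^ Cfsg.blockDefect p B := by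
  classical
  haveI : PM p M := ⟨hM⟩
  letI := Fintype.ofFinite G
  obtain ⟨hs, hd⟩ := Sub.of_major hB hD hzD hzc hb hbD
  have hp : p.Prime := Fact.out
  rw [← hd, ← card_fs]
  by_cases hc : ∃ β, IsGeneralizedCharacter _ β ∧ (p : ℂ) ^ blockDefect p b * ctr p 1 b β β = 1
  · obtain ⟨β, hβ, h1⟩ := hc
    obtain ⟨γ, hγ, g1, g2, g3⟩ := hs.exists_col hβ h1
    obtain ⟨ψ, hψ, h0⟩ := exists_height_zero (p := p) (block_nonempty hB)
    have := row_le_aux ({0} : Finset ℕ) (Subset.refl (fs B)) (fun _ χ => _) (fun _ => g2)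
      (fun _ => 1) (by simp) (fun _ _ χ hχ => ⟨by
        simpa using (AI.of_gen (χ.2.isGen.restrict _)).ctr hs.ind.1 hs.central hs.pe hγ, fun e =>
        (hs.major hd hγ (mem_fs.1 hχ) hψ h0).2.2 (g3 ψ hψ h0) (by rw [e, zero_div, red_zero])⟩)
      (N := p ^ blockDefect p b) (by rw [sum_singleton, hs.row', g1]; simp)
    simpa using this
  · have := hs.brauer_crit (m := 2) (fun β hβ Q e => ?_) (Subset.refl _)
      fun χ hχ => hs.major_self_ne_zero hd (mem_fs.1 hχ)
    · nlinarith [Nat.mul_le_mul_left (p ^ blockDefect p b) hl]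
    · have h1 : Q ≠ 1 := fun e1 => hc ⟨β, hβ, by rw [e, e1, Int.cast_one]⟩
      have h2 := int_nonneg_of_sum (J := {0}) (x := fun _ : ℕ => (Q : ℂ)) (fun _ _ => by
        rw [← e, ← Nat.cast_pow]
        exact (tp_natCast _).mul (tp_ctr hβ)) one_pos (T := Q) (by simp)
      omega

end Cfsg.Agent.S4539
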