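import Cfsg.Statements.S4540
import Cfsg.Agent.H8.Avg

set_option autoImplicit false
open Cfsg

namespace Cfsg.Agent.S4540

open H5 H7 H8 Finset

/-- Let B be a 2-block of the finite group G (relative to a maximal ideal M of the algebraic integers containing 2) of defect d with defect group D. Let z be an element of D commuting with every element of D, and let b be a block of the centralizer C of z with defect group D that induces B (a major subsection (z, b)). If b has 2-regular rank at most three, then 3·k(B) ≤ 3·k₀(B) + 2·Σ 2 ^ h(χ), where k(B) is the number of members of B, k₀(B) the number of members of height zero, and the sum runs over the members χ of B of positive height h(χ); this bound is at most 3·2 ^ d, so in particular B contains at most 2 ^ d irreducible characters. -/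
theorem result {G : Type*} [Group G] [Finite G] (M : Ideal Cfsg.AlgInt) (hM : Cfsg.IsPModular 2 M) (B : Set (Cfsg.IrrCharacter G)) (hB : Cfsg.IsPBlock M B) (D : Subgroup G) (hD : Cfsg.IsDefectGroup 2 M B D) (z : G) (hzD : z ∈ D) (hzc : ∀ d ∈ D, d * z = z * d) (b : Set (Cfsg.IrrCharacter ↥(Subgroup.centralizer ({z} : Set G)))) (hb : Cfsg.IsInducedBlock M (Subgroup.centralizer ({z} : Set G)) b B) (hbD : Cfsg.IsDefectGroup 2 M b (D.subgroupOf (Subgroup.centralizer ({z} : Set G)))) (hl : Cfsg.blockRank 2 b ≤ 3) : 3 * Nat.card B ≤ 3 * Nat.card {χ : Cfsg.IrrCharacter G // χ ∈ B ∧ Cfsg.blockHeight 2 B (χ : G → ℂ) = 0} + 2 * (∑ᶠ χ ∈ {χ : Cfsg.IrrCharacter G | χ ∈ B ∧ 1 ≤ Cfsg.blockHeight 2 B (χ : G → ℂ)}, 2 ^ Cfsg.blockHeight 2 B (χ : G → ℂ)) ∧ 3 * Nat.card {χ : Cfsg.IrrCharacter G // χ ∈ B ∧ Cfsg.blockHeight 2 B (χ : G → ℂ) = 0} + 2 * (∑ᶠ χ ∈ {χ : Cfsg.IrrCharacter G | χ ∈ B ∧ 1 ≤ Cfsg.blockHeight 2 B (χ : G → ℂ)}, 2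 ^ Cfsg.blockHeight 2 B (χ : G → ℂ)) ≤ 3 * 2 ^ Cfsg.blockDefect 2 B := by
  classical
  haveI : PM 2 M := ⟨hM⟩
  letI := Fintype.ofFinite G
  obtain ⟨hs0, hd⟩ := Sub.of_major hB hD hzD hzc hb hbD
  obtain ⟨J, T, hJ, hs, hT, h0, htr, hodd, hdv⟩ := hs0.exists_avg_two
  set ht := fun χ : IrrCharacter G => blockHeight 2 B (χ : G → ℂ) with hht
  have hk : Nat.card {χ : IrrCharacter G // χ ∈ B ∧ blockHeight 2 B (χ : G → ℂ) = 0} =
      ((fs B).filter fun χ => ht χ = 0).card := Nat.subtype_card _ fun χ => by simp [hht]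
  have hset : {χ : IrrCharacter G | χ ∈ B ∧ 1 ≤ blockHeight 2 B (χ : G → ℂ)} =
      ↑((fs B).filter fun χ => ¬ ht χ = 0) := by
    ext χ; simp [hht, Nat.one_le_iff_ne_zero]
  rw [hk, hset, finsum_mem_coe_finset, ← card_fs, ← hd]
  have hL : 3 * ((fs B).filter fun χ => ht χ = 0).card + 2 * ∑ χ ∈ (fs B).filter
      (fun χ => ¬ ht χ = 0), 2 ^ ht χ = ∑ χ ∈ fs B, if ht χ = 0 then 3 else 2 * 2 ^ ht χ := by
    rw [sum_ite, sum_const, mul_sum, smul_eq_mul, mul_comm]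
  rw [hL]
  refine ⟨?_, ?_⟩
  · rw [card_eq_sum_ones, mul_sum]
    refine sum_le_sum fun χ _ => ?_
    split_ifs with e
    · rfl
    · have : 2 ≤ 2 ^ ht χ := Nat.le_self_pow e 2
      omega
  by_cases hc : ∃ χ ∈ B, ht χ = 0 ∧ T χ = 1
  · obtain ⟨χ, hχ, h1, h2⟩ := hc
    have := Sub.row_le hJ hs (hT χ) (Subset.refl _) (fun ψ => 2 ^ ht ψ) (by simp)
      fun j hj ψ hψ => ⟨((hs j hj).major_cm hd (mem_fs.1 hψ) hχ).1,
        (hs j hj).major_ne_zero hd (mem_fs.1 hψ) hχ h1⟩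
    rw [h2, mul_one] at this
    have h3 : ∑ ψ ∈ fs B, (2 ^ ht ψ) ^ 2 ≤ 2 ^ blockDefect 2 b := by exact_mod_cast this
    refine le_trans ?_ (Nat.mul_le_mul_left 3 h3)
    rw [mul_sum]
    refine sum_le_sum fun ψ _ => ?_
    split_ifs with e
    · simp [e]
    · nlinarith [Nat.one_le_two_pow (n := ht ψ)]
  have h3 : ∀ χ ∈ fs B, ((if ht χ = 0 then 3 else 2 * 2 ^ ht χ : ℕ) : ℤ) ≤ T χ := fun χ hχ => by
    rw [mem_fs] at hχ
    split_ifs with h1
    · have h5 : T χ ≠ 1 := fun e => hc ⟨χ, hχ, h1, e⟩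
      obtain ⟨r, hr⟩ := hodd χ hχ h1
      have := h0 χ
      omega
    · have he : (((2 ^ ht χ : ℕ) : ℂ)) ≠ 0 := by simp
      have h4 := diag_lt hJ (fun j _ => tp_cm χ) (c := 2 ^ ht χ) (by simp) (fun j hj =>
        ⟨((hs j hj).major_cm hd hχ hχ).1, (hs j hj).major_self_ne_zero hd hχ, fun e =>
          h1 (((hs j hj).major_cm hd hχ hχ).2.1 (by rw [e, div_self he]; simp))⟩) (hT χ)
      obtain ⟨t, e⟩ := hdv χ ((2 ^ ht χ : ℕ) : ℤ) (by simp)
        (by rw [Int.cast_natCast]; exact (hs0.major_cm hd hχ hχ).1)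
      rw [e] at h4 ⊢
      have h6 : (0 : ℤ) < (2 ^ ht χ : ℕ) := by positivity
      have h7 : 2 ≤ t := by by_contra h; nlinarith
      push_cast at h6 ⊢
      nlinarith
  have h4 := sum_le_sum h3
  rw [htr, ← Nat.cast_sum] at h4
  have h5 : (∑ χ ∈ fs B, if ht χ = 0 then 3 else 2 * 2 ^ ht χ) ≤
      2 ^ blockDefect 2 b * blockRank 2 b := by exact_mod_cast h4
  exact h5.trans (by rw [mul_comm]; exact Nat.mul_le_mul_right _ hl)

end Cfsg.Agent.S4540
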