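import Cfsg.Statements.S4541
import Cfsg.Agent.H8.Avg

set_option autoImplicit false
open Cfsg

namespace Cfsg.Agent.S4541

open H5 H7 H8 Finset

/-- Let B be a 2-block of the finite group G (relative to a maximal ideal M of the algebraic integers containing 2), u a 2-element, and b a block of the centralizer of u inducing B (a subsection (u, b)), of defect q and 2-regular rank l; write s for the integer square root of l and k₀(B) for the number of members of B of height zero. If s is odd then k₀(B) ≤ s·2 ^ q, and otherwise (s + 1)·k₀(B) ≤ l·2 ^ q; in particular k₀(B) ≤ 2 ^ q when l ≤ 3. -/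
theorem result {G : Type*} [Group G] [Finite G] (M : Ideal Cfsg.AlgInt) (hM : Cfsg.IsPModular 2 M) (B : Set (Cfsg.IrrCharacter G)) (hB : Cfsg.IsPBlock M B) (u : G) (hu : ∃ j : ℕ, orderOf u = 2 ^ j) (b : Set (Cfsg.IrrCharacter ↥(Subgroup.centralizer ({u} : Set G)))) (hb : Cfsg.IsInducedBlock M (Subgroup.centralizer ({u} : Set G)) b B) : (Odd (Nat.sqrt (Cfsg.blockRank 2 b)) → Nat.card {χ : Cfsg.IrrCharacter G // χ ∈ B ∧ Cfsg.blockHeight 2 B (χ : G → ℂ) = 0} ≤ Nat.sqrt (Cfsg.blockRank 2 b) * 2 ^ Cfsg.blockDefect 2 b) ∧ (¬ Odd (Nat.sqrt (Cfsg.blockRank 2 b)) → (Nat.sqrt (Cfsg.blockRank 2 b) + 1) * Nat.card {χ : Cfsg.IrrCharacter G // χ ∈ B ∧ Cfsg.blockHeight 2 B (χ : G → ℂ) = 0} ≤ Cfsg.blockRank 2 b * 2 ^ Cfsg.blockDefect 2 b) ∧ (Cfsg.blockRank 2 b ≤ 3 → Nat.card {χ : Cfsg.IrrCharacter G // χ ∈ B ∧ Cfsg.blockHeight 2 B (χ : G → ℂ) = 0} ≤ 2 ^ Cfsg.blockDefect 2 b) := by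
  classical
  haveI : PM 2 M := ⟨hM⟩
  letI := Fintype.ofFinite G
  have h := Sub.of_ind hu hb
  obtain ⟨J, T, hJ, hs, hT, h0, htr, hodd, -⟩ := h.exists_avg_two
  set S := (fs B).filter fun χ : IrrCharacter G => blockHeight 2 B (χ : G → ℂ) = 0 with hS
  have hk : Nat.card {χ : IrrCharacter G // χ ∈ B ∧ blockHeight 2 B (χ : G → ℂ) = 0} = S.card :=
    Nat.subtype_card S fun χ => by simp [hS]
  rw [hk]
  have mS : ∀ χ ∈ S, χ ∈ B ∧ blockHeight 2 B (χ : G → ℂ) = 0 := fun χ hχ => by simpa [hS] using hχ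
  set q := blockDefect 2 b
  set l := blockRank 2 b
  have key : S.card = 0 ∨ ∃ m : ℕ, Odd m ∧ S.card ≤ 2 ^ q * m ∧ S.card * m ≤ 2 ^ q * l := by
    rcases S.eq_empty_or_nonempty with e | hne
    · exact Or.inl (by rw [e, card_empty])
    obtain ⟨χ, hχ, hmin⟩ := S.exists_min_image T hne
    have h1 := Sub.row_le hJ hs (hT χ) (filter_subset _ _ : S ⊆ _) (fun _ => 1) (by simp)
      fun j hj ψ hψ => ⟨by simpa using (hs j hj).isIntegral_cm ψ χ,
        (hs j hj).cm_ne_zero (mS ψ hψ).1 (mS ψ hψ).2 (mS χ hχ).1 (mS χ hχ).2⟩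
    have h2 := (card_nsmul_le_sum S T _ hmin).trans
      (sum_le_sum_of_subset_of_nonneg (filter_subset _ _ : S ⊆ _) fun χ _ _ => h0 χ)
    have h3 := hodd χ (mS χ hχ).1 (mS χ hχ).2
    rw [htr, nsmul_eq_mul] at h2
    obtain ⟨m, hm⟩ := Int.eq_ofNat_of_zero_le (h0 χ)
    rw [hm] at h1 h2 h3
    simp only [one_pow, sum_const, smul_eq_mul, mul_one] at h1
    exact Or.inr ⟨m, by exact_mod_cast h3, by exact_mod_cast h1, by exact_mod_cast h2⟩
  have s1 := Nat.sqrt_le' l
  have s2 := Nat.lt_succ_sqrt' l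
  set s := Nat.sqrt l
  have A : Odd s → S.card ≤ s * 2 ^ q := fun hs => by
    rcases key with e | ⟨m, h1, h2, h3⟩
    · omega
    by_cases hm : m ≤ s
    · exact h2.trans (by rw [mul_comm]; exact Nat.mul_le_mul_right _ hm)
    · have h4 : s + 2 ≤ m := by
        obtain ⟨x, hx⟩ := hs
        obtain ⟨y, hy⟩ := h1
        omega
      refine Nat.le_of_mul_le_mul_right (c := s + 2) ?_ (by omega)
      calc S.card * (s + 2) ≤ S.card * m := Nat.mul_le_mul_left _ h4
        _ ≤ 2 ^ q * l := h3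
        _ ≤ 2 ^ q * (s * (s + 2)) := Nat.mul_le_mul_left _ (by
          simp only [Nat.succ_eq_add_one] at s2; nlinarith)
        _ = _ := by ring
  have C : ¬ Odd s → (s + 1) * S.card ≤ l * 2 ^ q := fun hs => by
    rcases key with e | ⟨m, h1, h2, h3⟩
    · simp [e]
    by_cases hm : s + 1 ≤ m
    · calc (s + 1) * S.card ≤ m * S.card := Nat.mul_le_mul_right _ hm
        _ ≤ _ := by rw [mul_comm, mul_comm l]; exact h3
    · have h4 : m + 1 ≤ s := by
        rw [Nat.not_odd_iff_even] at hs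
        obtain ⟨x, hx⟩ := hs
        obtain ⟨y, hy⟩ := h1
        omega
      calc (s + 1) * S.card ≤ (s + 1) * (2 ^ q * m) := Nat.mul_le_mul_left _ h2
        _ = ((s + 1) * m) * 2 ^ q := by ring
        _ ≤ _ := Nat.mul_le_mul_right _ (by nlinarith)
  refine ⟨A, C, fun h3 => ?_⟩
  have h4 : s ≤ 1 := by nlinarith
  by_cases h5 : s = 1
  · simpa [h5] using A (by simp [h5])
  · have h6 : s = 0 := by omega
    have := C (by simp [h6])
    have h7 : l = 0 := by simp only [h6] at s2; simpa using s2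
    rw [h7, h6] at this
    exact (by omega : S.card = 0) ▸ Nat.zero_le _

end Cfsg.Agent.S4541
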