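import Cfsg.Statements.S4544
import Cfsg.Agent.H7.Cy4d
import Cfsg.Agent.S4540

set_option autoImplicit false
open Cfsg

namespace Cfsg.Agent.S4544

open H5 H7

/-- Let B be a 2-block of the finite group G (relative to a maximal ideal M of the algebraic integers containing 2) whose defect group D contains a cyclic subgroup of index at most 4 in D. Then B contains at most as many irreducible characters as D has elements. -/
theorem result {G : Type*} [Group G] [Finite G] (M : Ideal Cfsg.AlgInt) (hM : Cfsg.IsPModular 2 M) (B : Set (Cfsg.IrrCharacter G)) (hB : Cfsg.IsPBlock M B) (D : Subgroup G) (hD : Cfsg.IsDefectGroup 2 M B D) (C : Subgroup G) (hCD : C ≤ D) (hcyc : IsCyclic C) (hidx : C.relIndex D ≤ 4) : Nat.card B ≤ Nat.card D := by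
  classical
  haveI : PM 2 M := ⟨hM⟩
  obtain ⟨m⟩ := nonempty_mp (p := 2) hB hD
  obtain ⟨c, rfl⟩ := (Subgroup.isCyclic_iff_exists_zpowers_eq_top C).1 hcyc
  have hc := IsDefectGroup.card hB hD
  obtain ⟨z, h1, h2⟩ := m.exists_le_three (Subgroup.zpowers_le.1 hCD) (by
    obtain ⟨j, -, e⟩ := (Nat.dvd_prime_pow Nat.prime_two).1
      (hc ▸ Subgroup.relIndex_dvd_card (Subgroup.zpowers c) D)
    rw [e] at hidx ⊢
    exact pow_dvd_pow 2 ((Nat.pow_le_pow_iff_right (a := 2) (m := 2) one_lt_two).1 hidx))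
  have := Cfsg.Agent.S4540.result M hM B hB D hD z z.2 h1 (m.bu z)
    (isInducedBlock_iff_indB.2 (m.indB_bu z)) (m.dfc_bu h1) h2
  omega

end Cfsg.Agent.S4544
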