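import Cfsg.Statements.S4549
import Cfsg.Agent.H8.Sig

set_option autoImplicit false
open Cfsg

namespace Cfsg.Agent.S4549

open H5 H6 H7 H8

/-- Let G be a finite group and M a maximal ideal of the algebraic integers containing 2. Let k be a natural number with g ^ k = g ^ 3 for every 2-element g and g ^ k = g for every element g of odd order (such k exist); an irreducible character χ is unchanged by g ↦ g ^ k exactly when it is fixed by the field automorphism that cubes the 2-power roots of unity and fixes the roots of unity of odd order. Then G has a normal 2-complement if and only if every member χ of the principal 2-block of odd degree with χ (g ^ k) = χ g for all g has degree one. -/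
theorem result {G : Type*} [Group G] [Finite G] (M : Ideal Cfsg.AlgInt) (hM : Cfsg.IsPModular 2 M) (k : ℕ) (hk₁ : ∀ g : G, (∃ j : ℕ, orderOf g = 2 ^ j) → g ^ k = g ^ 3) (hk₂ : ∀ g : G, Odd (orderOf g) → g ^ k = g) : Cfsg.HasNormalPComplement 2 G ↔ ∀ χ ∈ Cfsg.principalBlock M G, Odd (Cfsg.charDegree (χ : G → ℂ)) → (∀ g : G, (χ : G → ℂ) (g ^ k) = (χ : G → ℂ) g) → Cfsg.charDegree (χ : G → ℂ) = 1 := by
  haveI : PM 2 M := ⟨hM⟩
  obtain ⟨hk, e, he⟩ := sigma_one (p := 2) hk₁ fun g hg => hk₂ g (Nat.odd_iff.2 (by omega))
  refine ⟨fun h χ hχ hd _ => ?_, fun h => pnil_of_lin (M := M) hk he fun χ hχ hd hf =>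
    h χ hχ (Nat.odd_iff.2 (by omega)) (congrFun hf)⟩
  exact deg_eq_one_of_pnil h hχ (by rw [Nat.odd_iff] at hd; omega)

end Cfsg.Agent.S4549
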