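import Cfsg.Statements.S4550
import Cfsg.Agent.H7.Misc2

set_option autoImplicit false
open Cfsg

namespace Cfsg.Agent.S4550

open H5 H7

/-- Let G be a finite group of even order and M a maximal ideal of the algebraic integers containing 2. Let k be a natural number with g ^ k = g ^ 3 for every 2-element g and g ^ k = g for every element g of odd order (such k exist); an irreducible character χ is unchanged by g ↦ g ^ k exactly when it is fixed by the field automorphism that cubes the 2-power roots of unity and fixes the roots of unity of odd order. Then the number of members χ of the principal 2-block of odd degree with χ (g ^ k) = χ g for all g is even. -/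
theorem result {G : Type*} [Group G] [Finite G] (M : Ideal Cfsg.AlgInt) (hM : Cfsg.IsPModular 2 M) (hev : Even (Nat.card G)) (k : ℕ) (hk₁ : ∀ g : G, (∃ j : ℕ, orderOf g = 2 ^ j) → g ^ k = g ^ 3) (hk₂ : ∀ g : G, Odd (orderOf g) → g ^ k = g) : Even (Nat.card {χ : Cfsg.IrrCharacter G // χ ∈ Cfsg.principalBlock M G ∧ Odd (Cfsg.charDegree (χ : G → ℂ)) ∧ ∀ g : G, (χ : G → ℂ) (g ^ k) = (χ : G → ℂ) g}) := by
  haveI : PM 2 M := ⟨hM⟩
  classical
  have hB := isPBlock_principalBlock (M := M) (G := G)
  have hk : k.Coprime (Nat.card G) := Nat.coprime_of_dvd fun r hr h1 h2 => by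
    have := Fact.mk hr
    obtain ⟨g, hg⟩ := exists_prime_orderOf_dvd_card' r h2
    have h3 : g ^ k = 1 := orderOf_dvd_iff_pow_eq_one.1 (hg ▸ h1)
    have h4 : g ≠ 1 := fun e => hr.one_lt.ne (by rw [← hg, e, orderOf_one])
    rcases hr.eq_two_or_odd' with rfl | h
    · rw [hk₁ g ⟨1, hg⟩, ← orderOf_dvd_iff_pow_eq_one, hg] at h3
      omega
    · exact h4 ((hk₂ g (hg ▸ h)).symm.trans h3)
  let X := {χ : IrrCharacter G // χ ∈ principalBlock M G ∧ Odd (charDegree (χ : G → ℂ))}
  have := Fintype.ofFinite G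
  let f : Function.End X := fun χ => ⟨⟨_, χ.1.2.pow_arg hk⟩, by
    have := (mem_principal_iff (p := 2)).1 χ.2.1
    refine (mem_principal_iff (p := 2)).2 (by
      refine (Finset.sum_congr rfl fun g _ => ?_).trans_ne this
      unfold reg
      split_ifs with h
      · rfl
      · exact congrArg _ (hk₂ g (Nat.odd_iff.2 (by omega)))), by
    simpa only [charDegree, one_pow] using χ.2.2⟩
  have h1 : ∀ (n : ℕ) (χ : X) (g : G), ((f ^ n) χ).1.1 g = χ.1.1 (g ^ k ^ n) := fun n => by
    induction n with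
    | zero => intro χ g; rw [pow_zero, pow_zero, pow_one]; rfl
    | succ n ih => intro χ g; rw [pow_succ', pow_succ', pow_mul, ← ih]; rfl
  have h2 : ∀ (n : ℕ) (g : G), g ^ k ^ n = pp 2 g ^ 3 ^ n * pr 2 g := fun n g => by
    induction n with
    | zero => simp [pp_mul_pr]
    | succ n ih => rw [pow_succ, pow_mul, ih, ((commute_pp_pr g).pow_left _).mul_pow,
        hk₁ _ ((isPE_pp g).pow _), hk₂ _ (Nat.odd_iff.2 (by
          have := not_dvd_orderOf_pr (p := 2) g; omega)), ← pow_mul, pow_succ]
  have h3 : f ^ 2 ^ Nat.card G = 1 := funext fun χ => Subtype.ext (Subtype.ext (funext fun g => by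
    rw [h1, h2]
    obtain ⟨j, hj⟩ := isPE_pp (p := 2) g
    have h4 : j ≤ Nat.card G + 1 := by
      have := Nat.le_of_dvd Nat.card_pos (hj ▸ orderOf_dvd_natCard (pp 2 g))
      have := Nat.lt_two_pow_self (n := j)
      omega
    have h5 := Nat.ModEq.pow_totient (x := 3) (n := 2 ^ (Nat.card G + 1))
      (Nat.Coprime.pow_right _ (by norm_num))
    rw [Nat.totient_prime_pow_succ Nat.prime_two, show 2 - 1 = 1 from rfl, mul_one] at h5
    rw [pow_eq_pow_iff_modEq.2 (hj ▸ h5.of_dvd (pow_dvd_pow 2 h4)), pow_one, pp_mul_pr]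
    rfl))
  have := Fintype.ofFinite X
  have h4 := Equiv.Perm.card_fixedPoints_modEq h3
  have h5 : Even (Fintype.card X) := by
    have e1 := factorization_sum_sq (p := 2) hB
    have e2 := blockDefect_principal (p := 2) (M := M) (G := G)
    have e3 := Nat.prime_two.factorization_pos_of_dvd Nat.card_pos.ne' hev.two_dvd
    have e4 := Nat.dvd_of_factorization_pos (n := ∑ᶠ χ ∈ principalBlock M G,
      charDegree (χ : G → ℂ) ^ 2) (p := 2) (by omega)
    rw [finsum_mem_irr, ← even_iff_two_dvd, Finset.even_sum_iff_even_card_odd] at e4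
    convert e4
    rw [Fintype.card_subtype]
    congr 1
    ext χ
    by_cases h : χ ∈ principalBlock M G <;> simp [h, Nat.odd_pow_iff]
  rw [← Nat.card_eq_fintype_card (α := Function.fixedPoints f)] at h4
  rw [Nat.card_congr (β := Function.fixedPoints f) ⟨fun χ => ⟨⟨χ.1, χ.2.1, χ.2.2.1⟩,
    Subtype.ext (Subtype.ext (funext χ.2.2.2))⟩, fun χ => ⟨χ.1.1, χ.1.2.1, χ.1.2.2,
      congrFun (congrArg (fun x : X => x.1.1) χ.2)⟩, fun _ => rfl, fun _ => rfl⟩]
  exact Nat.even_iff.2 (Eq.trans h4.symm (Nat.even_iff.1 h5))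

end Cfsg.Agent.S4550
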