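import Cfsg.Statements.S4551
import Cfsg.Agent.H8.AD2

set_option autoImplicit false
open Cfsg

namespace Cfsg.Agent.S4551

open H5 H7 H8

/-- Let N be a normal subgroup of the finite group G of index prime to p, P a Sylow p-subgroup of G with G = N·C_G(P), and M a maximal ideal of the algebraic integers containing p. Then restriction to N is a bijection from the principal p-block of G onto the principal p-block of N: every member of the principal block of G restricts to a member of the principal block of N, and every member of the principal block of N is the restriction of exactly one member of the principal block of G. -/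
theorem result {G : Type*} [Group G] [Finite G] (p : ℕ) [Fact p.Prime] (M : Ideal Cfsg.AlgInt) (hM : Cfsg.IsPModular p M) (N : Subgroup G) [N.Normal] (hidx : ¬ p ∣ N.index) (P : Sylow p G) (hsup : N ⊔ Subgroup.centralizer ((P : Subgroup G) : Set G) = ⊤) : (∀ χ ∈ Cfsg.principalBlock M G, ∃ θ ∈ Cfsg.principalBlock M ↥N, ∀ n : N, (χ : G → ℂ) n = (θ : N → ℂ) n) ∧ ∀ θ ∈ Cfsg.principalBlock M ↥N, ∃! χ : Cfsg.IrrCharacter G, χ ∈ Cfsg.principalBlock M G ∧ ∀ n : N, (χ : G → ℂ) n = (θ : N → ℂ) n := by
  haveI : PM p M := ⟨hM⟩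
  haveI := Fintype.ofFinite N
  have hQ := sylIn_of_not_dvd_index P hidx
  have hne : ∀ (χ : IrrCharacter G) (θ : IrrCharacter N), (∀ n : N, (χ : G → ℂ) n = (θ : N → ℂ) n) →
      classInner (fun n : N => (χ : G → ℂ) n) θ ≠ 0 := fun χ θ h => by
    rw [funext h, θ.2.classInner_self]; exact one_ne_zero
  refine ⟨fun χ hχ => ⟨⟨_, AD.irr_res hQ hsup hidx hχ⟩, mem_principal_of_over hχ (hne _ _ fun _ => rfl),
    fun _ => rfl⟩, fun θ hθ => ?_⟩
  obtain ⟨χ, h1, h2⟩ := AD.exists_ext hQ hsup hidx hθ
  exact ⟨χ, ⟨h1, h2⟩, fun ψ hψ => AD.eq_of_over hQ hsup hidx hθ hψ.1 h1 (hne _ _ hψ.2) (hne _ _ h2)⟩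

end Cfsg.Agent.S4551
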