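import Cfsg.Statements.S4552
import Cfsg.Agent.H7.Glue

set_option autoImplicit false
open Cfsg

namespace Cfsg.Agent.S4552

open H5 H7

/-- Let B be a 2-block of the finite group G (relative to a maximal ideal M of the algebraic integers containing 2) whose defect group D is the direct product of two cyclic groups of the same order 2 ^ m, m ≥ 2. Then either B has 2-regular rank one and exactly 4 ^ m irreducible characters, or B has 2-regular rank three and exactly (4 ^ m + 8) / 3 irreducible characters. -/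
theorem result {G : Type*} [Group G] [Finite G] (M : Ideal Cfsg.AlgInt) (hM : Cfsg.IsPModular 2 M) (B : Set (Cfsg.IrrCharacter G)) (hB : Cfsg.IsPBlock M B) (D : Subgroup G) (hD : Cfsg.IsDefectGroup 2 M B D) (m : ℕ) (hm : 2 ≤ m) (hiso : Nonempty (D ≃* Multiplicative (ZMod (2 ^ m) × ZMod (2 ^ m)))) : (Cfsg.blockRank 2 B = 1 ∧ Nat.card B = 4 ^ m) ∨ (Cfsg.blockRank 2 B = 3 ∧ 3 * Nat.card B = 4 ^ m + 8) := by
  haveI : PM 2 M := ⟨hM⟩
  have := Fintype.ofFinite G
  have := Fintype.ofFinite D
  obtain ⟨φ⟩ := hiso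
  obtain ⟨n⟩ := nonempty_mp hB hD
  obtain ⟨h, _, _, _, _, s⟩ := n.exists_sf_r2 ((r2_zmod (by omega)).of_equiv φ)
  have h1 : Nat.card D = 4 ^ m := by
    rw [Nat.card_congr φ.toEquiv, Nat.card_congr Multiplicative.toAdd, Nat.card_prod, Nat.card_zmod,
      ← mul_pow]; rfl
  have h2 := s.exc.card s.fam
  have h3 := s.exc.card_add
  rw [s.rank (isSat_of_isPBlock hB), ← h1]
  rw [s.card] at h3
  rcases h with e | e <;> rw [e] at h2 h3 ⊢ <;> omega

end Cfsg.Agent.S4552
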