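import Cfsg.Statements.S4553
import Cfsg.Agent.H8.Sig

set_option autoImplicit false
open Cfsg

namespace Cfsg.Agent.S4553

open H5 H6 H7 H8

/-- Let G be a finite group, p a prime, P a Sylow p-subgroup, N the p-residual of G (the subgroup generated by the elements of order prime to p, the smallest normal subgroup with G/N a p-group), and M a maximal ideal of the algebraic integers containing p; suppose G/N is cyclic and nontrivial. Let k be a natural number with g ^ k = g ^ (1 + p) for every p-element g and g ^ k = g for every element g of order prime to p (so that χ (g ^ k) is the image of χ g under the field automorphism that raises p-power roots of unity to the power 1 + p and fixes the roots of unity of order prime to p). Then the number of members χ of the principal block of G of degree prime to p with χ (g ^ k) = χ g for all g equals p times the number of members θ of the principal block of N of degree prime to p that are invariant under conjugation by P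 and satisfy θ (n ^ k) = θ n for all n. -/
theorem result {G : Type*} [Group G] [Finite G] (p : ℕ) [Fact p.Prime] (M : Ideal Cfsg.AlgInt) (hM : Cfsg.IsPModular p M) (P : Sylow p G) (N : Subgroup G) [hN : N.Normal] (hNres : N = Cfsg.pResidual p G) (hcyc : IsCyclic (G ⧸ N)) (hnt : N ≠ ⊤) (k : ℕ) (hk₁ : ∀ g : G, (∃ j : ℕ, orderOf g = p ^ j) → g ^ k = g ^ (1 + p)) (hk₂ : ∀ g : G, Nat.Coprime (orderOf g) p → g ^ k = g) : Nat.card {χ : Cfsg.IrrCharacter G // χ ∈ Cfsg.principalBlock M G ∧ ¬ p ∣ Cfsg.charDegree (χ : G → ℂ) ∧ ∀ g : G, (χ : G → ℂ) (g ^ k) = (χ : G → ℂ) g} = p * Nat.card {θ : Cfsg.IrrCharacter ↥N // θ ∈ Cfsg.principalBlock M ↥N ∧ ¬ p ∣ Cfsg.charDegree (θ : ↥N → ℂ) ∧ (∀ x ∈ (P : Subgroup G), ∀ n : ↥N, (θ : ↥N → ℂ) ⟨x * n * x⁻¹, hN.conj_mem n n.2 x⟩ = (θ : ↥N → ℂ) n) ∧ ∀ n : ↥N, (θ : ↥N → ℂ) (n ^ k) = (θ : ↥N → ℂ) n} := by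
  classical
  haveI : PM p M := ⟨hM⟩
  haveI := Fintype.ofFinite G
  have hp : p.Prime := Fact.out
  subst hNres
  obtain ⟨hk, -⟩ := sigma_one (p := p) hk₁ fun g hg => hk₂ g ((Nat.Prime.coprime_iff_not_dvd hp).2 hg).symm
  obtain ⟨a, ha⟩ := H3.exists_index_pResidual (p := p) (G := G)
  have hd : p ∣ (pResidual p G).index := ha ▸ dvd_pow_self p fun e =>
    hnt (Subgroup.index_eq_one.1 (by rw [ha, e, pow_zero]))
  have hr : ∀ g : G, ¬ p ∣ orderOf g → g ∈ pResidual p G := fun g hg =>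
    H3.mem_pResidual_of_coprime ((Nat.Prime.coprime_iff_not_dvd hp).2 hg).symm
  have h0 : ∀ lam : G →* ℂˣ, (∀ n : pResidual p G, lam n = 1) → ∀ g, lam (g ^ k) = lam g * lam g ^ p :=
    fun lam h g => by
      have e := h ⟨_, hr _ (not_dvd_orderOf_pr (p := p) g)⟩
      rw [← pp_mul_pr (p := p) g, (commute_pp_pr g).mul_pow, hk₁ _ (isPE_pp g), map_mul, map_mul,
        map_pow, map_pow, show lam (pr p g) = 1 from e, one_pow, mul_one, mul_one, pow_add, pow_one]
  rw [← congrArg (· * _) (card_hom_pow hcyc hd), ← Nat.card_prod]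
  have h1 := fun θ : {θ : IrrCharacter (pResidual p G) // θ ∈ principalBlock M _ ∧ ¬ p ∣ charDegree θ.1 ∧
      (∀ x ∈ (P : Subgroup G), ∀ n : pResidual p G, θ.1 ⟨x * n * x⁻¹, hN.conj_mem n n.2 x⟩ = θ.1 n) ∧
      ∀ n, θ.1 (n ^ k) = θ.1 n} => exists_canon hk θ.1.2 (inertia_eq_top_iff.1 (top_le_iff.1
        (H3.pResidual_sup_sylow P ▸ sup_le (le_inertia θ.1.2.isClassFunction) fun x hx =>
          mem_inertia'.2 (θ.2.2.2.1 x hx)))) θ.2.2.1 (funext θ.2.2.2.2)
  choose c hc hc' using h1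
  have h2 : ∀ θ, IsIrrCharacter _ fun n : pResidual p G => (c θ).1 n := fun θ => by
    rw [funext (hc θ)]; exact θ.1.2
  refine (Nat.card_eq_of_bijective (fun x => ⟨⟨(fun g => (x.1.1 g : ℂ)) * (c x.2).1,
    isIrr_mul_linear (isCharacter_hom _) (by simp) (c x.2).2⟩, ?_, ?_, fun g => ?_⟩)
    ⟨fun x y e => ?_, fun χ => ?_⟩).symm
  rotate_left 2
  · refine mem_principal_of_under (p := p) (pResidual p G).subtype_injective
      (by rwa [Subgroup.range_subtype]) (θ := x.2.1) ?_ x.2.2.1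
    rw [show (fun n => ((fun g => (x.1.1 g : ℂ)) * (c x.2).1) ((pResidual p G).subtype n)) = x.2.1.1 from
      funext fun n => by simp [x.1.2.1 n, hc], x.2.1.2.classInner_self]
    exact one_ne_zero
  · rw [charDegree_congr (ψ := x.2.1.1) (by simpa using hc x.2 1)]; exact x.2.2.2.1
  · simp only [Pi.mul_apply, h0 _ x.1.2.1, x.1.2.2 g, mul_one]
    exact congrArg _ (congrFun (hc' x.2) g)
  · have e := congrArg (fun χ => χ.1.1) e
    have e2 : x.2 = y.2 := Subtype.ext (Subtype.ext (funext fun n => by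
      simpa [x.1.2.1 n, y.1.2.1 n, hc] using congrFun e n))
    refine Prod.ext (Subtype.ext (hom_coe_injective (gallagher_inj (c x.2).2.isCharacter (h2 x.2)
      (isIrrCharacter_hom _) (fun n => by simp [x.1.2.1 n]) (isIrrCharacter_hom _)
      (fun n => by simp [y.1.2.1 n]) (e.trans (by rw [e2]))))) e2
  · have h3 := res_irr_of_not_dvd ha χ.1.2 χ.2.2.1
    let θ : {θ : IrrCharacter (pResidual p G) // θ ∈ principalBlock M _ ∧ ¬ p ∣ charDegree θ.1 ∧
      (∀ x ∈ (P : Subgroup G), ∀ n : pResidual p G, θ.1 ⟨x * n * x⁻¹, hN.conj_mem n n.2 x⟩ = θ.1 n) ∧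
      ∀ n, θ.1 (n ^ k) = θ.1 n} := ⟨⟨_, h3⟩, mem_principal_of_over χ.2.1 (by
        rw [h3.classInner_self]; exact one_ne_zero), χ.2.2.1,
        fun x _ n => χ.1.2.isClassFunction n x, fun n => χ.2.2.2 n⟩
    obtain ⟨lam, h4, h5⟩ := exists_hom_of_ext (c θ).2.isCharacter χ.1.2.isCharacter (h2 θ)
      fun n => (hc θ n).symm
    refine ⟨⟨⟨lam, h4, fun g => ?_⟩, θ⟩, Subtype.ext (Subtype.ext h5.symm)⟩
    have h6 := hom_coe_injective (gallagher_inj (c θ).2.isCharacter (h2 θ)
      (isIrrCharacter_hom (lam * lam ^ p)) (fun n => by simp [h4 n]) (isIrrCharacter_hom lam)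
      (fun n => by simp [h4 n]) (funext fun x => by
        have := χ.2.2.2 x
        rw [h5, Pi.mul_apply, h0 _ h4, show (c θ).1 (x ^ k) = (c θ).1 x from congrFun (hc' θ) x] at this
        simpa using this))
    simpa using DFunLike.congr_fun h6 g

end Cfsg.Agent.S4553
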