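import Cfsg.Statements.S4561
import Cfsg.Agent.H5.Central
import Cfsg.Agent.H1.BGCop

set_option autoImplicit false
universe u
open Cfsg

namespace Cfsg.Agent.S4561
open H5
open H18 Subgroup H5 RegularWreathProduct
open scoped ComplexConjugate

def Br (n : ℕ) (G : Type u) [Group G] : Prop :=
  ∃ (B V : Type u) (_ : Group B) (_ : Finite B) (_ : CommGroup V) (_ : Finite V) (a : B →* Equiv.Perm V) (f : G →* B),
    Function.Injective f ∧ (∀ v : V, v ^ n = 1) ∧ (∀ b u v, a b (u * v) * a b 1 = a b u * a b v) ∧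
    (∀ b v, a b v = v → b = 1) ∧ Nat.card B = Nat.card V

theorem step {n : ℕ} {G : Type u} [Group G] [Finite G] (N : Subgroup G) [N.Normal] (hab : Abel N)
    (hn : ∀ x ∈ N, x ^ n = 1) (h : Br n (G ⧸ N)) : Br n G := by
  obtain ⟨B, V, _, _, _, _, a, f, inj, ex, aff, fr, cd⟩ := h
  letI : CommGroup N := { (inferInstance : Group N) with mul_comm := fun x y => Subtype.ext (comm_of_cent hab x.2 y.2) }
  let φ : G →* B := f.comp (QuotientGroup.mk' N)
  have hφ : ∀ g, φ g = 1 ↔ g ∈ N := fun g => by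
    rw [← QuotientGroup.eq_one_iff]; exact map_eq_one_iff f inj
  let r : B → B := fun x => ((x⁻¹ : B) : B ⧸ φ.range).out
  have hr : ∀ x, x * r x ∈ φ.range := fun x => by
    obtain ⟨q, hq⟩ := QuotientGroup.mk_out_eq_mul φ.range x⁻¹
    simp only [r, hq, mul_inv_cancel_left]; exact q.2
  have hr' : ∀ g x, r ((φ g)⁻¹ * x) = r x := fun g x => by
    simp only [r]; congr 1; rw [QuotientGroup.eq]; simp
  choose s hs using hr
  have mem : ∀ g x, (s x)⁻¹ * g * s ((φ g)⁻¹ * x) ∈ N := fun g x => by
    rw [← hφ, map_mul, map_mul, map_inv, hs, hs, hr']; group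
  let act : MulAction (N ≀ᵣ B) ((B → N) × V) :=
    { smul := fun w p => (w.left * fun x => p.1 (w.right⁻¹ * x), a w.right p.2)
      one_smul := fun p => Prod.ext (funext fun x => by change (1 : N) * p.1 (1⁻¹ * x) = _; simp)
        (by change a 1 p.2 = _; simp)
      mul_smul := fun w w' p => Prod.ext (funext fun x => by
          change w.left x * w'.left (w.right⁻¹ * x) * p.1 ((w.right * w'.right)⁻¹ * x) =
            w.left x * (w'.left (w.right⁻¹ * x) * p.1 (w'.right⁻¹ * (w.right⁻¹ * x)))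
          simp [mul_assoc])
        (by change a (w.right * w'.right) p.2 = a w.right (a w'.right p.2); simp) }
  refine ⟨N ≀ᵣ B, (B → N) × V, inferInstance, inferInstance, inferInstance, inferInstance,
    @MulAction.toPermHom _ _ _ act, MonoidHom.mk' (fun g => ⟨fun x => ⟨_, mem g x⟩, φ g⟩) fun g h => ?_,
    (injective_iff_map_eq_one _).2 fun g hg => ?_, fun v => Prod.ext (funext fun x => Subtype.ext (hn _ (v.1 x).2))
    (ex _), fun w u v => Prod.ext (funext fun x => ?_) (aff w.right u.2 v.2), fun w v e => ?_, ?_⟩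
  · refine RegularWreathProduct.ext (funext fun x => Subtype.ext ?_) (map_mul φ g h)
    simp [mul_assoc]
  · have e1 : φ g = 1 := congrArg RegularWreathProduct.right hg
    have e2 : (s 1)⁻¹ * g * s ((φ g)⁻¹ * 1) = 1 := congrArg (fun w : N ≀ᵣ B => (w.left 1 : G)) hg
    rw [e1, inv_one, one_mul] at e2
    simpa [mul_assoc, inv_mul_eq_one] using e2
  · change w.left x * (u.1 _ * v.1 _) * (w.left x * 1) = w.left x * u.1 _ * (w.left x * v.1 _)
    rw [mul_one]; ac_rfl
  · have e1 : w.right = 1 := fr _ v.2 (congrArg Prod.snd e)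
    refine RegularWreathProduct.ext (funext fun x => ?_) e1
    have e2 : w.left x * v.1 (w.right⁻¹ * x) = v.1 x := congrFun (congrArg Prod.fst e) x
    simpa [e1] using e2
  · rw [RegularWreathProduct.card, Nat.card_prod, Nat.card_fun, cd]

theorem br (n : ℕ) : ∀ (m : ℕ) (G : Type u) [Group G] [Finite G], Nat.card G = m → Group.IsSolvable G →
    (∀ p : ℕ, p.Prime → p ∣ Nat.card G → p ∣ n) → Br n G := by
  intro m
  induction m using Nat.strong_induction_on with
  | _ m ih =>
  intro G _ _ hm hs hp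
  rcases subsingleton_or_nontrivial G with h | h
  · exact ⟨PUnit, PUnit, inferInstance, inferInstance, inferInstance, inferInstance, 1, 1,
      fun a b _ => Subsingleton.elim a b, fun _ => rfl, fun _ _ _ => rfl, fun _ _ _ => rfl, rfl⟩
  obtain ⟨p, W, pp, he, W1, hW, -⟩ := H1.exists_elem_nml (V := (⊤ : Subgroup G)) (A := ⊤) (by infer_instance)
    top_ne_bot le_N
  have : W.Normal := normalizer_eq_top_iff.1 (eq_top_iff.2 hW.norm)
  have d : p ∣ n := by
    obtain ⟨x, hx⟩ := ne_bot_iff_exists_ne_one.1 W1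
    have := Fact.mk pp
    exact hp p pp (orderOf_eq_prime (he.pow x x.2) (fun e => hx (Subtype.ext e)) ▸ orderOf_dvd_natCard (x : G))
  refine step W he.abel (fun x hx => by obtain ⟨k, rfl⟩ := d; rw [pow_mul, he.pow x hx, one_pow])
    (ih _ ?_ _ rfl inferInstance fun q hq hd => hp q hq (hd.trans (card_quotient_dvd_card W)))
  rw [← hm, card_eq_card_quotient_mul_card_subgroup W]
  exact lt_mul_of_one_lt_right Nat.card_pos (one_lt_card_iff_ne_bot W |>.2 W1)

def Aff (n : ℕ) (V : Type u) [CommGroup V] : Subgroup (V → ℂˣ) where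
  carrier := {f | (∀ v, f v ^ n = 1) ∧ ∀ u v, f (u * v) * f 1 = f u * f v}
  one_mem' := ⟨fun _ => one_pow _, fun _ _ => rfl⟩
  mul_mem' := fun {f g} hf hg => ⟨fun v => by rw [Pi.mul_apply, mul_pow, hf.1, hg.1, one_mul], fun u v => by
    simp only [Pi.mul_apply]; rw [mul_mul_mul_comm, hf.2, hg.2, mul_mul_mul_comm]⟩
  inv_mem' := fun {f} hf => ⟨fun v => by rw [Pi.inv_apply, inv_pow, hf.1, inv_one], fun u v => by
    simp only [Pi.inv_apply]; rw [← mul_inv, hf.2, mul_inv]⟩

theorem card_aff {n : ℕ} (hn : n ≠ 0) {V : Type u} [CommGroup V] [Finite V] (ex : ∀ v : V, v ^ n = 1) :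
    Nat.card (Aff n V) = n * Nat.card V := by
  have := NeZero.mk hn
  let e : Aff n V ≃ rootsOfUnity n ℂ × (V →* ℂˣ) :=
    { toFun := fun f => (⟨f.1 1, f.2.1 1⟩, MonoidHom.mk' (fun v => f.1 v * (f.1 1)⁻¹) fun u v => by
        rw [eq_mul_inv_of_mul_eq (f.2.2 u v)]; simp only [mul_comm, mul_left_comm, mul_assoc])
      invFun := fun x => ⟨fun v => x.2 v * x.1, fun v => by
        rw [mul_pow, ← map_pow, ex, map_one, one_mul]; exact x.1.2, fun u v => by
        simp only [map_mul, map_one, one_mul]; ac_rfl⟩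
      left_inv := fun f => Subtype.ext (funext fun v => by simp)
      right_inv := fun x => Prod.ext (Subtype.ext (by simp)) (MonoidHom.ext fun v => by simp) }
  rw [Nat.card_congr e, Nat.card_prod, CommGroup.card_monoidHom_of_hasEnoughRootsOfUnity,
    Complex.card_rootsOfUnity]

variable {n : ℕ} {B V : Type u} [Group B] [CommGroup V] (a : B →* Equiv.Perm V)
  (aff : ∀ b u v, a b (u * v) * a b 1 = a b u * a b v)

def pre (b : B) (f : Aff n V) : Aff n V := ⟨fun v => f.1 (a b v), fun v => f.2.1 _, fun u v => by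
  beta_reduce; rw [← f.2.2, aff, ← f.2.2 (a b u)]⟩

def phi : B →* MulAut (Aff n V) := MonoidHom.mk' (fun b =>
  { toFun := pre a aff b⁻¹
    invFun := pre a aff b
    left_inv := fun f => Subtype.ext (funext fun v => by simp [pre])
    right_inv := fun f => Subtype.ext (funext fun v => by simp [pre])
    map_mul' := fun f g => rfl }) fun b c => MulEquiv.ext fun f => Subtype.ext (funext fun v => by
      change f.1 (a (b * c)⁻¹ v) = f.1 (a c⁻¹ (a b⁻¹ v)); simp)

def rho : Representation ℂ (Aff n V ⋊[phi a aff] B) (V → ℂ) where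
  toFun h :=
    { toFun := fun w v => (h.left.1 v : ℂ) * w (a h.right⁻¹ v)
      map_add' := fun _ _ => funext fun v => mul_add _ _ _
      map_smul' := fun c w => funext fun v => mul_left_comm _ _ _ }
  map_one' := LinearMap.ext fun w => funext fun v => by simp
  map_mul' g h := LinearMap.ext fun w => funext fun v => by
    change ((g.left.1 v * h.left.1 (a g.right⁻¹ v) : ℂˣ) : ℂ) * w (a (g.right * h.right)⁻¹ v) =
      g.left.1 v * (h.left.1 (a g.right⁻¹ v) * w (a h.right⁻¹ (a g.right⁻¹ v)))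
    simp [mul_assoc]

theorem rho_char [Fintype V] [DecidableEq V] (h : Aff n V ⋊[phi a aff] B) :
    (rho a aff).character h = ∑ v, if a h.right⁻¹ v = v then (h.left.1 v : ℂ) else 0 := by
  rw [Representation.character, LinearMap.trace_eq_matrix_trace ℂ (Pi.basisFun ℂ V), Matrix.trace]
  refine Finset.sum_congr rfl fun v _ => ?_
  simp [LinearMap.toMatrix_apply, rho, Pi.single_apply]

/-- For every finite solvable group G there is a finite group H with a faithful irreducible character χ whose degree squared equals the index of the centre Z(H) (so χ is fully ramified over the centre), such that G is isomorphic to a subgroup of H/Z(H), the primes dividing the orders of H, of Z(H) and of G are the same, and the order of Z(H) is squarefree. -/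
theorem result {G : Type u} [Group G] [Finite G] (hsolv : Group.IsSolvable G) : ∃ (H : Type u) (_ : Group H) (_ : Finite H) (χ : Cfsg.IrrCharacter H), (∀ h : H, (χ : H → ℂ) h = (χ : H → ℂ) 1 → h = 1) ∧ (Cfsg.charDegree (χ : H → ℂ)) ^ 2 = (Subgroup.center H).index ∧ (∃ f : G →* H ⧸ Subgroup.center H, Function.Injective f) ∧ (∀ p : ℕ, p.Prime → ((p ∣ Nat.card H ↔ p ∣ Nat.card G) ∧ (p ∣ Nat.card (Subgroup.center H) ↔ p ∣ Nat.card G))) ∧ Squarefree (Nat.card (Subgroup.center H)) := by
  classical
  set n := ∏ p ∈ (Nat.card G).primeFactors, p with hn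
  have hd : ∀ p : ℕ, p.Prime → (p ∣ n ↔ p ∣ Nat.card G) := fun p hp =>
    ⟨fun h => h.trans (Nat.prod_primeFactors_dvd _), fun h => Finset.dvd_prod_of_mem _
      (Nat.mem_primeFactors.2 ⟨hp, h, Nat.card_pos.ne'⟩)⟩
  have sq : Squarefree n := Finset.squarefree_prod_of_pairwise_isCoprime (fun p hp q hq ne => Nat.coprime_iff_isRelPrime.1
    ((Nat.coprime_primes (Nat.prime_of_mem_primeFactors hp) (Nat.prime_of_mem_primeFactors hq)).2 ne))
    fun p hp => (Nat.prime_of_mem_primeFactors hp).prime.squarefree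
  obtain ⟨B, V, _, _, _, _, a, f, inj, ex, aff, fr, cd⟩ := br n _ G rfl hsolv fun p hp => (hd p hp).2
  have := Fintype.ofFinite V
  have cA := card_aff sq.ne_zero ex
  have : Finite (Aff n V) := Nat.finite_of_card_ne_zero (cA ▸ mul_ne_zero sq.ne_zero Nat.card_pos.ne')
  let H := Aff n V ⋊[phi a aff] B
  have : Finite H := Finite.of_equiv _ SemidirectProduct.equivProd.symm
  have := Fintype.ofFinite H
  have cH : Nat.card H = n * Nat.card V ^ 2 := by rw [SemidirectProduct.card, cA, cd, pow_two, mul_assoc]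
  let χ : H → ℂ := (rho a aff).character
  have ch : IsCharacter H χ := isCharacter_character _
  have V0 : (Nat.card V : ℂ) ≠ 0 := by exact_mod_cast Nat.card_pos.ne'
  let K : H → Prop := fun h => h.right = 1 ∧ ∀ v, h.left.1 v = h.left.1 1
  have c1 : ∀ h, K h → χ h = Nat.card V * (h.left.1 1 : ℂ) := fun h hh => by
    simp only [χ, rho_char, hh.1, hh.2]; simp
  have c0 : ∀ h, ¬ K h → χ h = 0 := fun h hh => by
    simp only [χ, rho_char]
    by_cases e : h.right = 1
    · let l : V →* ℂˣ := MonoidHom.mk' (fun v => h.left.1 v * (h.left.1 1)⁻¹) fun u v => by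
        rw [eq_mul_inv_of_mul_eq (h.left.2.2 u v)]; simp only [mul_comm, mul_left_comm, mul_assoc]
      have s := sum_hom_units_eq_zero ((Units.coeHom ℂ).comp l) fun e' => hh ⟨e, fun v => by
        have : ((h.left.1 v * (h.left.1 1)⁻¹ : ℂˣ) : ℂ) = 1 := DFunLike.congr_fun e' v
        exact mul_inv_eq_one.1 (Units.ext this)⟩
      have : ∑ v, (h.left.1 v : ℂ) = (∑ v, ((Units.coeHom ℂ).comp l) v) * h.left.1 1 := by
        rw [Finset.sum_mul]; exact Finset.sum_congr rfl fun v _ => by simp [l]
      rw [s, zero_mul] at this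
      simpa [e] using this
    · exact Finset.sum_eq_zero fun v _ => if_neg fun e' => e (inv_eq_one.1 (fr _ _ e'))
  have K1 : K 1 := ⟨rfl, fun _ => rfl⟩
  have d1 : χ 1 = Nat.card V := by rw [c1 1 K1]; simp
  have := NeZero.mk sq.ne_zero
  have cK : Nat.card {h // K h} = n := by
    refine Eq.trans ?_ (Complex.card_rootsOfUnity n)
    exact Nat.card_congr ⟨fun h => ⟨h.1.left.1 1, h.1.left.2.1 1⟩, fun z => ⟨⟨⟨fun _ => z.1, fun _ => z.2,
      fun _ _ => rfl⟩, 1⟩, rfl, fun _ => rfl⟩, fun h => Subtype.ext (SemidirectProduct.ext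
        (Subtype.ext (funext fun v => (h.2.2 v).symm)) h.2.1.symm), fun z => rfl⟩
  have nm : ∀ h, K h → ‖χ h‖ = Nat.card V := fun h hh => by
    have : (h.left.1 1 : ℂ) ^ n = 1 := by rw [← Units.val_pow_eq_pow_val, h.left.2.1, Units.val_one]
    rw [c1 h hh, norm_mul, Complex.norm_eq_one_of_pow_eq_one this sq.ne_zero, mul_one, Complex.norm_natCast]
  have ir : IsIrrCharacter H χ := ch.isIrr_of_classInner_self (by
    rw [classInner_self, Finset.sum_congr rfl (g := fun h => if K h then (Nat.card V : ℝ) ^ 2 else 0) fun h _ => by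
      split_ifs with hh
      · rw [nm h hh]
      · rw [c0 h hh]; simp, ← Finset.sum_filter, Finset.sum_const, ← Fintype.card_subtype, ← Nat.card_eq_fintype_card,
      cK, cH, nsmul_eq_mul]
    have : (n : ℂ) ≠ 0 := by exact_mod_cast sq.ne_zero
    push_cast; field_simp)
  have fa : ∀ h, χ h = χ 1 → h = 1 := fun h e => by
    have hh : K h := by by_contra k; exact V0 (by rw [← d1, ← e, c0 h k])
    rw [c1 h hh, d1, mul_eq_left₀ V0, Units.val_eq_one] at e
    exact SemidirectProduct.ext (Subtype.ext (funext fun v => (hh.2 v).trans e)) hh.1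
  have zK : ∀ h, h ∈ center H ↔ K h := fun h => by
    rw [← ir.charCenter_eq_center (eq_bot_iff.2 fun h hh => fa h (ir.mem_charKer.1 hh)), ir.mem_charCenter, d1,
      Complex.norm_natCast]
    exact ⟨fun e => by by_contra k; rw [c0 h k, norm_zero] at e; exact V0 (by exact_mod_cast e.symm), nm h⟩
  have cZ : Nat.card (center H) = n := (Nat.card_congr (Equiv.subtypeEquivRight zK)).trans cK
  refine ⟨H, inferInstance, inferInstance, ⟨χ, ir⟩, fa, ?_, ⟨((QuotientGroup.mk' _).comp SemidirectProduct.inr).comp f,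
    (injective_iff_map_eq_one _).2 fun g hg => (map_eq_one_iff f inj).1
      ((zK _).1 ((QuotientGroup.eq_one_iff _).1 hg)).1⟩, fun p hp => ⟨?_, by rw [cZ]; exact hd p hp⟩, by rw [cZ]; exact sq⟩
  · refine Nat.eq_of_mul_eq_mul_left (Nat.pos_of_ne_zero sq.ne_zero) ?_
    rw [charDegree_eq_of_apply_one d1, ← cH, ← card_mul_index (center H), cZ]
  · rw [cH, ← hd p hp]
    refine ⟨fun h => (hp.dvd_mul.1 h).elim id fun h => ?_, fun h => h.mul_right _⟩
    have := Fact.mk hp
    obtain ⟨v, hv⟩ := exists_prime_orderOf_dvd_card' p (hp.dvd_of_dvd_pow h)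
    exact hv ▸ orderOf_dvd_of_pow_eq_one (ex v)

end Cfsg.Agent.S4561
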