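import Cfsg.Statements.S4565
import Cfsg.Agent.H8.FRam
import Cfsg.Agent.H5.TI

set_option autoImplicit false
open Cfsg

namespace Cfsg.Agent.S4565

open H5 H8
open scoped ComplexConjugate

/-- Let χ be an irreducible character of the finite group H that is fully ramified over the normal subgroup Z: the restriction of χ to Z is e times an irreducible character of Z with e ^ 2 equal to the index of Z. If Z ≠ H, then H/Z has no cyclic subgroup that is its own centralizer. -/
theorem result {H : Type*} [Group H] [Finite H] (Z : Subgroup H) [Z.Normal] (χ : Cfsg.IrrCharacter H) (hfr : ∃ (θ : Cfsg.IrrCharacter ↥Z) (e : ℕ), e ^ 2 = Z.index ∧ ∀ z : ↥Z, (χ : H → ℂ) z = (e : ℂ) * (θ : ↥Z → ℂ) z) (hZ : Z ≠ ⊤) (C : Subgroup (H ⧸ Z)) (hC : IsCyclic C) : Subgroup.centralizer (C : Set (H ⧸ Z)) ≠ C := by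
  classical
  obtain ⟨θ, e, h1, h2⟩ := hfr
  have h : FRam Z χ.1 θ.1 e := ⟨χ.2, θ.2, h1, h2⟩
  intro hc
  letI := Fintype.ofFinite H
  letI := Fintype.ofFinite Z
  obtain ⟨c, hcC⟩ := (Subgroup.isCyclic_iff_exists_zpowers_eq_top C).1 hC
  obtain ⟨g, rfl⟩ := QuotientGroup.mk_surjective c
  set L := C.comap (QuotientGroup.mk' Z) with hL
  have hZL : Z ≤ L := H1.le_comap_mk' Z C
  have hg : g ∈ L := by
    show (g : H ⧸ Z) ∈ C
    rw [← hcC]; exact Subgroup.mem_zpowers _
  have hcen : ∀ x : H, (x : H ⧸ Z) * g = g * x → x ∈ L := fun x hx => by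
    show (x : H ⧸ Z) ∈ C
    rw [← hc, ← hcC]
    rintro _ ⟨k, rfl⟩
    exact (Commute.zpow_right hx k).eq.symm
  have hgZ : g ∉ Z := fun hg => hZ (by
    rw [eq_top_iff]
    intro x _
    have := hcen x (by rw [(QuotientGroup.eq_one_iff g).2 hg]; simp)
    rw [hL, ← hcC, (QuotientGroup.eq_one_iff g).2 hg, Subgroup.zpowers_one_eq_bot,
      MonoidHom.comap_bot, QuotientGroup.ker_mk'] at this
    exact this)
  obtain ⟨η, hη, hres⟩ := exists_ext_zpowers θ.2 hZL (fun g _ => h.inv g) (by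
    rwa [hL, Subgroup.map_comap_eq_self_of_surjective (QuotientGroup.mk'_surjective Z)])
  letI := Fintype.ofFinite (Z.subgroupOf L)
  have hres' : (fun n : Z.subgroupOf L => η n) = H6.sOf θ.1 L := funext hres
  have k1 : ∀ ψ : IrrCharacter H, ∑ n : Z.subgroupOf L, η (n * ⟨g, hg⟩) *
      conj (ψ.1 ((n : L) * g)) = 0 := fun ψ => by
    by_cases h0 : classInner (fun z : Z => ψ.1 z) θ.1 = 0
    · refine sum_coset_zero hη.isCharacter (ψ.2.isCharacter.restrict L) ?_ ⟨g, hg⟩
      rw [hres', classInner_eq_zero_comm, H6.inner_res_sOf hZL (fun x : L => ψ.1 x)]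
      exact h0
    · rw [h.unique ψ.2 h0]
      refine Finset.sum_eq_zero fun n _ => ?_
      rw [h.vanish (g := (n : L) * g) (fun h3 => hgZ ((Z.mul_mem_cancel_left n.2).1 h3)), map_zero, mul_zero]
  let η' : L → ℂ := fun y => if ((y : H) : H ⧸ Z) = g then η y else 0
  have k2 : ∑ n : Z.subgroupOf L, η (n * ⟨g, hg⟩) * conj (indFun L η' ((n : L) * g)) = 0 := by
    simp only [(isClassFunction_indFun L η').apply_eq_sum_irr, map_sum, map_mul, Finset.mul_sum]
    rw [Finset.sum_comm]
    refine Finset.sum_eq_zero fun ψ _ => ?_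
    have := congrArg (fun t => conj (classInner (indFun L η') ψ) * t) (k1 ψ)
    simp only [Finset.mul_sum, mul_zero] at this
    rw [← this]
    exact Finset.sum_congr rfl fun n _ => by ring
  have k3 := sum_coset_self hη.isCharacter (hres' ▸ H6.isIrr_sOf hZL θ.2) ⟨g, hg⟩
  have hq : ∀ n : Z.subgroupOf L, ((((n : L) * ⟨g, hg⟩ : L) : H) : H ⧸ Z) = g := fun n => by
    rw [Subgroup.coe_mul, QuotientGroup.mk_mul, (QuotientGroup.eq_one_iff ((n : L) : H)).2 n.2, one_mul]
  have hcl : IsClassFunction L η' := fun a b => by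
    have : (((b * a * b⁻¹ : L) : H) : H ⧸ Z) = (a : H) := by
      have := H1.isMulCommutative_iff.1 (hC.isMulCommutative) _ b.2 _ a.2
      simp only [QuotientGroup.mk'_apply] at this
      simp only [Subgroup.coe_mul, Subgroup.coe_inv, QuotientGroup.mk_mul, QuotientGroup.mk_inv]
      rw [this, mul_inv_cancel_right]
    simp only [η', this, hη.isClassFunction a b]
  rw [Finset.sum_congr rfl fun n _ => ?_, k2] at k3
  · exact card_ne_zero_complex k3.symm
  · congr 2
    rw [show ((n : L) : H) * g = ((n : L) * ⟨g, hg⟩ : L) from rfl, indFun_apply_of_TI L hcl]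
    · simp only [η', if_pos (hq n)]
    · intro x hx h0
      refine hcen x ?_
      have h3 : ((x * ((n : L) * ⟨g, hg⟩ : L) * x⁻¹ : H) : H ⧸ Z) = g := by
        by_contra h3
        exact h0 (if_neg h3)
      rw [QuotientGroup.mk_mul, QuotientGroup.mk_mul, hq, QuotientGroup.mk_inv] at h3
      exact mul_inv_eq_iff_eq_mul.1 h3

end Cfsg.Agent.S4565
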