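import Cfsg.Statements.S4566
import Cfsg.Agent.H5.Gen

set_option autoImplicit false
open Cfsg

namespace Cfsg.Agent.S4566

open H5 Cfsg

/-- Let N be a central subgroup of the finite group G, ψ a faithful irreducible (hence degree-one) character of N, and χ an irreducible character of G whose restriction to N contains ψ. If g ∈ G and some x ∈ G has commutator x⁻¹ g⁻¹ x g in N but different from 1, then χ g = 0. -/
theorem result {G : Type*} [Group G] [Fintype G] (N : Subgroup G) [Fintype N] (hN : N ≤ Subgroup.center G) (ψ : Cfsg.IrrCharacter ↥N) (hfaith : ∀ n : ↥N, (ψ : ↥N → ℂ) n = (ψ : ↥N → ℂ) 1 → n = 1) (χ : Cfsg.IrrCharacter G) (hover : Cfsg.classInner (fun n : ↥N => (χ : G → ℂ) n) (ψ : ↥N → ℂ) ≠ 0) (g x : G) (hcomm : x⁻¹ * g⁻¹ * x * g ∈ N) (hne : x⁻¹ * g⁻¹ * x * g ≠ 1) : (χ : G → ℂ) g = 0 := by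
  obtain ⟨n, ρ, hρ, hχ⟩ := χ.2
  have hsc : ∀ z : N, ∃ c : ℂ, ρ z = c • LinearMap.id := fun z =>
    exists_scalar_of_commute ρ (ρ z) fun y => by
      rw [← Module.End.mul_eq_comp, ← Module.End.mul_eq_comp, ← map_mul, ← map_mul,
        Subgroup.mem_center_iff.mp (hN z.2) y]
  choose c hc using hsc
  have hval : ∀ (z : N) (y : G), (χ : G → ℂ) (y * z) = c z * (χ : G → ℂ) y := by
    intro z y
    rw [← hχ]
    simp only [Representation.character, map_mul, hc, Module.End.mul_eq_comp, LinearMap.comp_smul,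
      LinearMap.comp_id, map_smul, smul_eq_mul]
  have h1 : (χ : G → ℂ) 1 ≠ 0 := χ.2.apply_one_ne_zero
  have hc1 : c 1 = 1 := by
    have := hval 1 1
    simp only [OneMemClass.coe_one, mul_one] at this
    exact (mul_left_eq_self₀.mp this.symm).resolve_right h1
  have hcmul : ∀ a b : N, c (a * b) = c a * c b := by
    intro a b
    have e1 := hval (a * b) 1
    have e2 := hval b a
    have e3 := hval a 1
    rw [one_mul] at e1 e3
    rw [Subgroup.coe_mul, e2, e3] at e1
    exact mul_right_cancel₀ h1 (by rw [← e1]; ring)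
  let lam : N →* ℂ := { toFun := c, map_one' := hc1, map_mul' := hcmul }
  have hirr : IsIrrCharacter N c := isIrrCharacter_hom lam.toHomUnits
  have hres : (fun n : N => (χ : G → ℂ) n) = (χ : G → ℂ) 1 • c := by
    ext z
    have := hval z 1
    rw [one_mul] at this
    rw [this, Pi.smul_apply, smul_eq_mul, mul_comm]
  rw [hres, classInner_smul_left] at hover
  have hcψ : c = ψ := hirr.eq_of_classInner_ne_zero ψ.2 (right_ne_zero_of_mul hover)
  have hz : c ⟨_, hcomm⟩ ≠ 1 := by
    intro h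
    apply hne
    have := hfaith ⟨_, hcomm⟩ (by rw [← hcψ, h, hc1])
    exact congrArg Subtype.val this
  have e1 := hval ⟨_, hcomm⟩⁻¹ g
  have e2 : g * ((⟨_, hcomm⟩⁻¹ : N) : G) = x⁻¹ * g * x := by
    simp only [InvMemClass.coe_inv]
    group
  rw [e2, χ.2.isClassFunction.apply_conj'] at e1
  by_contra h0
  have e3 : c ⟨_, hcomm⟩⁻¹ = 1 := (mul_left_eq_self₀.mp e1.symm).resolve_right h0
  have e4 := hcmul ⟨_, hcomm⟩ ⟨_, hcomm⟩⁻¹
  rw [mul_inv_cancel, hc1, e3, mul_one] at e4
  exact hz e4.symm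

end Cfsg.Agent.S4566
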