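import Cfsg.Statements.S4567
import Cfsg.Agent.H8.Good

set_option autoImplicit false
open Cfsg

namespace Cfsg.Agent.S4567

open H5 H8

/-- Let N be a central subgroup of the finite group G and ψ a faithful irreducible (hence degree-one) character of N. Call a coset g N special when every x ∈ G whose commutator x⁻¹ g⁻¹ x g lies in N actually commutes with g (this depends only on the coset). Then the number of irreducible characters of G whose restriction to N contains ψ equals the number of conjugacy classes of G/N consisting of special cosets. -/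
theorem result {G : Type*} [Group G] [Fintype G] (N : Subgroup G) [N.Normal] [Fintype N] (hN : N ≤ Subgroup.center G) (ψ : Cfsg.IrrCharacter ↥N) (hfaith : ∀ n : ↥N, (ψ : ↥N → ℂ) n = (ψ : ↥N → ℂ) 1 → n = 1) : Nat.card {χ : Cfsg.IrrCharacter G // Cfsg.classInner (fun n : ↥N => (χ : G → ℂ) n) (ψ : ↥N → ℂ) ≠ 0} = Nat.card {C : ConjClasses (G ⧸ N) // ∃ g : G, ConjClasses.mk (g : G ⧸ N) = C ∧ ∀ x : G, x⁻¹ * g⁻¹ * x * g ∈ N → x * g = g * x} := by
  obtain ⟨lam, e⟩ := ψ.2.exists_hom_of_comm fun a b =>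
    Subtype.ext (Subgroup.mem_center_iff.1 (hN b.2) a)
  rw [e, card_over_central hN lam]
  refine Nat.card_congr (Equiv.subtypeEquivRight fun C => exists_congr fun g => and_congr_right fun _ => ?_)
  constructor
  · intro h x hx
    have hc := Subgroup.mem_center_iff.1 (hN hx)
    have e1 : x⁻¹ * g * x⁻¹⁻¹ * g⁻¹ = (x⁻¹ * g⁻¹ * x * g)⁻¹ := by
      rw [eq_inv_iff_mul_eq_one]
      calc _ = x⁻¹ * g * x * (g⁻¹ * (x⁻¹ * g⁻¹ * x * g)) := by group
        _ = 1 := by rw [hc]; group
    have h1 := hfaith ⟨_, e1 ▸ inv_mem hx⟩ (by rw [e]; simp only [h x⁻¹ (e1 ▸ inv_mem hx), map_one])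
    rw [Subtype.ext_iff, Subgroup.coe_mk, e1, Subgroup.coe_one, inv_eq_one] at h1
    calc x * g = g * x * (x⁻¹ * g⁻¹ * x * g) := by group
      _ = _ := by rw [h1, mul_one]
  · intro h x hx
    have hc := Subgroup.mem_center_iff.1 (hN hx)
    have e1 : x⁻¹⁻¹ * g⁻¹ * x⁻¹ * g = (x * g * x⁻¹ * g⁻¹)⁻¹ := by
      rw [eq_inv_iff_mul_eq_one]
      calc _ = x * g⁻¹ * x⁻¹ * (g * (x * g * x⁻¹ * g⁻¹)) := by group
        _ = 1 := by rw [hc]; group
    have h1 := h x⁻¹ (e1 ▸ inv_mem hx)
    rw [← map_one lam]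
    congr 1
    ext
    calc x * g * x⁻¹ * g⁻¹ = x * (g * x⁻¹) * g⁻¹ := by group
      _ = 1 := by rw [← h1]; group

end Cfsg.Agent.S4567
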