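import Cfsg.Statements.S4570
import Cfsg.Agent.H7.Ab3

set_option autoImplicit false
open Cfsg

namespace Cfsg.Agent.S4570

open H5 H7

theorem comm15 {H : Type*} [Group H] (h : Nat.card H = 15) (a b : H) : a * b = b * a := by
  have : Finite H := Nat.finite_of_card_ne_zero (by omega)
  have key : ∀ p q : ℕ, p.Prime → p * q = 15 → ¬ p ∣ q → (∀ n, n ∣ q → n ≡ 1 [MOD p] → n = 1) →
      ∃ x : H, orderOf x = p ∧ (Subgroup.zpowers x).Normal := fun p q hp e h1 h2 => by
    haveI := Fact.mk hp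
    obtain ⟨x, hx⟩ := exists_prime_orderOf_dvd_card' (G := H) p (h ▸ e ▸ dvd_mul_right _ _)
    have h3 := (Subgroup.zpowers x).card_mul_index
    rw [Nat.card_zpowers, hx, h, ← e, mul_right_inj' hp.ne_zero] at h3
    let S : Sylow p H := (IsPE.isPGroup_zpowers ⟨1, by simpa using hx⟩).toSylow (h3 ▸ h1)
    haveI := (Nat.card_eq_one_iff_unique.1 (h2 _ (h3 ▸ S.card_dvd_index) (card_sylow_modEq_one p H))).1
    exact ⟨x, hx, S.normal_of_subsingleton⟩
  obtain ⟨x, hx, n1⟩ := key 3 5 Nat.prime_three rfl (by norm_num) fun n h1 h2 => by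
    rcases (Nat.dvd_prime Nat.prime_five).1 h1 with rfl | rfl <;> simp_all [Nat.ModEq]
  obtain ⟨y, hy, n2⟩ := key 5 3 Nat.prime_five rfl (by norm_num) fun n h1 h2 => by
    rcases (Nat.dvd_prime Nat.prime_three).1 h1 with rfl | rfl <;> simp_all [Nat.ModEq]
  have c := Subgroup.commute_of_normal_of_disjoint _ _ n1 n2 (Subgroup.disjoint_of_coprime_natCard (by
    rw [Nat.card_zpowers, Nat.card_zpowers, hx, hy]; norm_num)) x y (Subgroup.mem_zpowers x)
    (Subgroup.mem_zpowers y)
  exact (isCyclic_of_orderOf_eq_card (x * y) (by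
    rw [c.orderOf_mul_eq_mul_orderOf_of_coprime (by rw [hx, hy]; norm_num), hx, hy, h])
    ).isMulCommutative.is_comm.comm a b

/-- Let G be a finite group with a commutative Sylow 2-subgroup P and M a maximal ideal of the algebraic integers containing 2, and suppose some involution x of G has the property that the principal 2-block of its centralizer has 2-regular rank one. If P has order 8 then the principal 2-block of G contains exactly 8 irreducible characters, and if P has order 16 it contains 8 or 16. -/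
theorem result {G : Type*} [Group G] [Finite G] (M : Ideal Cfsg.AlgInt) (hM : Cfsg.IsPModular 2 M) (P : Sylow 2 G) (hab : IsMulCommutative P) (x : G) (hx : orderOf x = 2) (hl : Cfsg.blockRank 2 (Cfsg.principalBlock M ↥(Subgroup.centralizer ({x} : Set G))) = 1) : (Nat.card P = 8 → Nat.card (Cfsg.principalBlock M G) = 8) ∧ (Nat.card P = 16 → Nat.card (Cfsg.principalBlock M G) = 8 ∨ Nat.card (Cfsg.principalBlock M G) = 16) := by
  classical
  haveI : PM 2 M := ⟨hM⟩
  have h := as_sylow P hab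
  generalize (P : Subgroup G) = Q at h ⊢
  have := Fintype.ofFinite Q
  obtain ⟨m⟩ := h.nonempty_mp (M := M)
  have x2 : IsPE 2 x := ⟨1, hx⟩
  obtain ⟨g, -, hg⟩ := h.syl.exists_cj_le x2.isPGroup_zpowers le_top
  have hv := cj_le_iff'.1 hg x (Subgroup.mem_zpowers x)
  rw [← lr_principal' x2, lr_conj (isSat_of_isPBlock isPBlock_principalBlock) x2
    (isConj_iff.2 ⟨g, rfl⟩), lr_principal' (x2.conj g)] at hl
  rw [← orderOf_conj' g] at hx
  generalize g * x * g⁻¹ = v at *
  have v1 : v ≠ 1 := by rintro rfl; simp at hx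
  have h1 : es Q v = 1 := (ei_sub (h.le_c1 hv)).symm.trans ((h.sub (h.le_c1 hv)).ei_eq_one hl)
  have h2 := es_mul hv
  rw [h1, one_mul] at h2
  have h3 : ∀ R : Subgroup G, (∀ n ∈ H8.nN Q, n * v * n⁻¹ ∈ R) → ei Q < Nat.card R := fun R hR => by
    rw [← h2, ← ncard_cls]
    refine Set.ncard_lt_ncard (t := (R : Set G)) ⟨?_, fun e => ?_⟩
    · rintro _ ⟨n, hn, rfl⟩; exact hR n hn
    · obtain ⟨n, -, e⟩ := e R.one_mem
      exact v1 (by simpa using e)
  have h4 := h3 Q fun n hn => conj_mem_nN hn hv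
  have h5 := h.not_dvd
  have h6 : ei Q = 1 → Nat.card (principalBlock M G) = Nat.card Q := fun e => by
    have := h.card_mul (M := M)
    have e1 : ∀ w : Q, es Q w = 1 := fun w => Nat.eq_one_of_mul_eq_one_right ((es_mul w.2).trans e)
    simpa [e, h.rank_c1 (Subtype.coe_prop _) (Or.inl (e1 _)), e1] using this
  have h7 : ∀ e, ei Q = e → e.Prime → ∃ z ∈ Nat.divisors (Nat.card Q), z ≠ Nat.card Q ∧
      (∃ y, z + y * e = Nat.card Q) ∧
      Nat.card (principalBlock M G) * e + z = z * e ^ 2 + Nat.card Q := by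
    rintro _ rfl e
    obtain ⟨z, a, b, c⟩ := h.card_prime (M := M) e
    refine ⟨z, Nat.mem_divisors.2 ⟨Dvd.intro _ a, Nat.card_pos.ne'⟩, fun e' => e.ne_one ?_, b, c⟩
    rw [e', mul_eq_left₀ Nat.card_pos.ne', Subgroup.relIndex_eq_one] at a
    exact Subgroup.relIndex_eq_one.2 (Subgroup.le_centralizer_iff.1 a)
  refine ⟨fun c => ?_, fun c => ?_⟩
  · rw [c] at h4 h6 h7
    have : ∀ e, ei Q = e → e = 3 ∨ e = 5 ∨ e = 7 → Nat.card (principalBlock M G) = 8 := fun e a b => by
      obtain ⟨z, hz, d, ⟨y, f⟩, k⟩ := h7 e a (by rcases b with rfl | rfl | rfl <;> norm_num)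
      rcases b with rfl | rfl | rfl <;> fin_cases hz <;> omega
    have := this _ rfl
    omega
  have h8 : ei Q = 9 → Nat.card (principalBlock M G) = 16 := fun e => by
    obtain ⟨V, hV, a⟩ := h.abs.exists_om
    have b := h3 V fun n hn => (a _).2 ⟨conj_mem_nN hn hv, by
      rw [← sq, ← hx, ← orderOf_conj' n, pow_orderOf_eq_one]⟩
    have d := Subgroup.card_dvd_of_le hV
    rw [c] at d
    have f := Nat.le_of_dvd (by norm_num) d
    have k : Nat.card V = 16 := by
      generalize Nat.card V = n at *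
      interval_cases n <;> omega
    obtain rfl := Subgroup.eq_of_le_of_card_ge hV (by omega)
    exact (h.nine c (fun x => Subtype.ext ((a _).1 x.2).2) e).1
  have h9 : ei Q = 15 → Nat.card (principalBlock M G) = 16 := fun e => by
    have a : ∀ y ∈ Q, y ≠ 1 → H8.c1 y ⊓ H8.nN Q ≤ H8.cC Q := fun y hy y1 => by
      obtain ⟨n, -, b⟩ := cls_eq hv v1 (by omega) hy y1
      have d := MP.FC.cl_eq ((m.fc_pr (v := ⟨v, hv⟩) (w := ⟨y, hy⟩)).2 (isConj_iff.2 ⟨n, b⟩))
      rw [m.cl_pr h, m.cl_pr h, h2] at d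
      have f := es_mul hy
      rw [← d, mul_eq_right₀ (ei_ne_zero Q)] at f
      exact Subgroup.relIndex_eq_one.1 f
    haveI : Nontrivial Q := Finite.one_lt_card_iff_nontrivial.1 (by omega)
    have b := (FA.rank_le (M := M) ⟨h.syl, h.ab, a⟩).2
    rw [(h.main ⟨fun y hy => ?_, fun _ ha _ hb => comm_of_quot (comm15 e) ha hb, by omega⟩).1, e] at b
    · omega
    · by_cases y1 : y = 1
      · exact Or.inl fun n _ => by simp [y1, mem_c1']
      · exact Or.inr (a y hy y1)
  rw [c] at h4 h6 h7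
  have : ∀ e, ei Q = e → e = 3 ∨ e = 5 ∨ e = 7 ∨ e = 11 ∨ e = 13 →
      Nat.card (principalBlock M G) = 8 ∨ Nat.card (principalBlock M G) = 16 := fun e a b => by
    obtain ⟨z, hz, d, ⟨y, f⟩, k⟩ := h7 e a (by rcases b with rfl | rfl | rfl | rfl | rfl <;> norm_num)
    rcases b with rfl | rfl | rfl | rfl | rfl <;> fin_cases hz <;> omega
  have := this _ rfl
  omega

end Cfsg.Agent.S4570
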