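import Cfsg.Statements.S4574
import Cfsg.Agent.H5.Central

set_option autoImplicit false
open Cfsg

namespace Cfsg.Agent.S4574

open H5

/-- Let χ be an irreducible character of the finite group G, of degree d, and let Z(χ) be the set of elements g with |χ g| = d (the centre of χ). Then χ vanishes on at least (d ^ 2 - 1) · |Z(χ)| elements of G, with equality when every value |χ g| is 0, 1 or d. -/
theorem result {G : Type*} [Group G] [Fintype G] [DecidableEq G] (χ : G → ℂ) (hχ : Cfsg.IsIrrCharacter G χ) : (Cfsg.charDegree χ ^ 2 - 1) * (Finset.univ.filter (fun g : G => ‖χ g‖ = (Cfsg.charDegree χ : ℝ))).card ≤ (Finset.univ.filter (fun g : G => χ g = 0)).card ∧ ((∀ g : G, ‖χ g‖ = 0 ∨ ‖χ g‖ = 1 ∨ ‖χ g‖ = (Cfsg.charDegree χ : ℝ)) → (Cfsg.charDegree χ ^ 2 - 1) * (Finset.univ.filter (fun g : G => ‖χ g‖ = (Cfsg.charDegree χ : ℝ))).card = (Finset.univ.filter (fun g : G => χ g = 0)).card) := by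
  classical
  have hd := hχ.charDegree_pos
  have hd' : (0 : ℝ) < charDegree χ := Nat.cast_pos.2 hd
  have hZ : ∀ g, ‖χ g‖ = charDegree χ ↔ g ∈ charCenter χ := fun g => by
    rw [hχ.mem_charCenter, hχ.isCharacter.norm_apply_one]
  set Z := Finset.univ.filter fun g : G => ‖χ g‖ = (charDegree χ : ℝ)
  set V := Finset.univ.filter fun g : G => χ g = 0
  set S := Finset.univ.filter fun g : G => ¬ ‖χ g‖ = (charDegree χ : ℝ) ∧ ¬ χ g = 0
  have h1 := hχ.isCharacter.card_le_sum_norm_sq S (fun s hs k hk => by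
      simp only [S, Finset.mem_filter, Finset.mem_univ, true_and, hZ] at hs ⊢
      obtain ⟨σ, hσ⟩ := exists_ringEquiv_char G hk
      refine ⟨fun h => hs.1 ?_, by rw [← hσ _ hχ.isCharacter]; simpa using hs.2⟩
      obtain ⟨m, hm⟩ := exists_pow_eq_self_of_coprime (x := s)
        (hk.coprime_dvd_right (orderOf_dvd_natCard s))
      exact hm ▸ pow_mem h m) fun s hs => (Finset.mem_filter.1 hs).2.2
  have hs : ∀ f : G → ℝ, ∑ g, f g = ∑ g ∈ Z, f g + ∑ g ∈ V, f g + ∑ g ∈ S, f g := fun f => by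
    rw [← Finset.sum_filter_add_sum_filter_not _ (fun g => ‖χ g‖ = (charDegree χ : ℝ)),
      ← Finset.sum_filter_add_sum_filter_not (Finset.univ.filter (¬ ‖χ ·‖ = (charDegree χ : ℝ)))
        (χ · = 0), Finset.filter_filter, Finset.filter_filter, add_assoc]
    congr 3
    exact Finset.filter_congr fun g _ => ⟨fun h => h.2, fun h => ⟨by rw [h, norm_zero]; exact hd'.ne, h⟩⟩
  have h2 := hs fun g => ‖χ g‖ ^ 2
  have h3 := hs fun _ => 1
  rw [hχ.sum_norm_sq, Finset.sum_congr rfl (s₁ := Z) (g := fun _ => (charDegree χ : ℝ) ^ 2)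
    fun g hg => by rw [(Finset.mem_filter.1 hg).2], Finset.sum_eq_zero (s := V)
    fun g hg => by rw [(Finset.mem_filter.1 hg).2]; simp, Nat.card_eq_fintype_card] at h2
  simp only [Finset.sum_const, nsmul_eq_mul, mul_one, Finset.card_univ] at h2 h3
  have h4 : (((charDegree χ ^ 2 - 1) * Z.card : ℕ) : ℝ) = (charDegree χ ^ 2 - 1) * Z.card := by
    rw [Nat.cast_mul, Nat.cast_sub (Nat.one_le_pow _ _ hd)]; simp
  refine ⟨Nat.cast_le (α := ℝ).1 (by rw [h4]; linarith), fun h => Nat.cast_injective (R := ℝ) ?_⟩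
  rw [Finset.sum_congr rfl (s₁ := S) (g := fun _ => 1) fun g hg => by
    have := (Finset.mem_filter.1 hg).2
    rw [((h g).resolve_left (by simpa using this.2)).resolve_right this.1, one_pow]] at h2
  simp only [Finset.sum_const, nsmul_eq_mul, mul_one] at h2
  rw [h4]; linarith

end Cfsg.Agent.S4574
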