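import Cfsg.Statements.S4575
import Cfsg.Agent.H8.Avg

set_option autoImplicit false
open Cfsg

namespace Cfsg.Agent.S4575

open H5 H7 H8 Finset
open scoped ComplexConjugate ComplexOrder

/-- Let B be a 2-block of the finite group G (relative to a maximal ideal M of the algebraic integers containing 2) of defect d with defect group D. Let z be an element of D commuting with every element of D, and let b be a block of the centralizer of z with defect group D that induces B (a major subsection (z, b)). If the number of irreducible characters in B exceeds the 2-regular rank of b by at most three, then B contains at most 2 ^ d irreducible characters. -/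
theorem result {G : Type*} [Group G] [Finite G] (M : Ideal Cfsg.AlgInt) (hM : Cfsg.IsPModular 2 M) (B : Set (Cfsg.IrrCharacter G)) (hB : Cfsg.IsPBlock M B) (D : Subgroup G) (hD : Cfsg.IsDefectGroup 2 M B D) (z : G) (hzD : z ∈ D) (hzc : ∀ d ∈ D, d * z = z * d) (b : Set (Cfsg.IrrCharacter ↥(Subgroup.centralizer ({z} : Set G)))) (hb : Cfsg.IsInducedBlock M (Subgroup.centralizer ({z} : Set G)) b B) (hbD : Cfsg.IsDefectGroup 2 M b (D.subgroupOf (Subgroup.centralizer ({z} : Set G)))) (h : Nat.card B ≤ Cfsg.blockRank 2 b + 3) : Nat.card B ≤ 2 ^ Cfsg.blockDefect 2 B := by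
  classical
  haveI : PM 2 M := ⟨hM⟩
  letI := Fintype.ofFinite G
  obtain ⟨hs0, hd⟩ := Sub.of_major hB hD hzD hzc hb hbD
  obtain ⟨J, T, hJ, hs, hT, h0, htr, hodd, -⟩ := hs0.exists_avg_two
  by_cases d0 : blockDefect 2 B = 0
  · rw [card_eq_one_of_defect_zero hB d0]; exact Nat.one_le_two_pow
  rw [← card_fs] at h ⊢
  rw [← hd] at d0 ⊢
  set d := blockDefect 2 b
  set u := selfC z
  have hv : ((2 : ℕ) : ℂ) ^ d ∈ mC M := by
    rw [← Nat.cast_pow, natCast_mem_mC_iff (p := 2)]; exact dvd_pow_self 2 d0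
  let x : IrrCharacter G → ℕ → IrrCharacter G → ℂ := fun χ j ψ =>
    (if ψ = χ then ((2 : ℕ) : ℂ) ^ d else 0) - cm 2 (u ^ j) b ψ χ
  have xCM : ∀ χ j ψ, x χ j ψ ∈ CM := fun χ j ψ => sub_mem (by
    split_ifs
    · exact pow_mem (natCast_mem _ _) _
    · exact zero_mem _) (cm_mem_CM _ _)
  have xI : ∀ χ, ∀ j ∈ J, ∀ ψ, IsIntegral ℤ (x χ j ψ) := fun χ j hj ψ => IsIntegral.sub (by
    split_ifs
    · exact (isIntegral_algebraMap (R := ℤ) (x := (2 : ℕ))).pow _
    · exact isIntegral_zero) ((hs j hj).isIntegral_cm _ _)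
  have xrow : ∀ χ ∈ B, ∀ j ∈ J, ∑ ψ ∈ fs B, x χ j ψ * conj (x χ j ψ) =
      ((2 : ℕ) : ℂ) ^ d * x χ j χ := fun χ hχ j hj => by
    have e : ∀ ψ, x χ j ψ * conj (x χ j ψ) = cm 2 (u ^ j) b ψ χ * conj (cm 2 (u ^ j) b ψ χ) +
        if ψ = χ then ((2 : ℕ) : ℂ) ^ d * (((2 : ℕ) : ℂ) ^ d - 2 * cm 2 (u ^ j) b χ χ) else 0 := by
      intro ψ
      simp only [x]
      split_ifs with e
      · subst e
        simp only [map_sub, map_pow, map_natCast, cm_conj]; ring
      · simp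
    simp only [e, sum_add_distrib, (hs j hj).row χ, sum_ite_eq', mem_fs, hχ, if_true, x]
    ring
  have h2 : (((2 : ℕ) : ℂ) ^ d) ≠ 0 := by simp
  have xTP : ∀ χ ∈ B, ∀ j ∈ J, TP (x χ j χ) := fun χ hχ j hj => by
    rw [← inv_mul_cancel_left₀ h2 (x χ j χ), ← xrow χ hχ j hj, ← Nat.cast_pow]
    exact (tp_natCast _).inv.mul (TP.sum fun ψ _ => tp_mul_conj (xCM _ _ _))
  have xsum : ∀ χ, ∑ j ∈ J, x χ j χ = J.card * ((2 ^ d - T χ : ℤ) : ℂ) := fun χ => by
    simp only [x, if_true, sum_sub_distrib, hT, sum_const, nsmul_eq_mul]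
    push_cast
    ring
  have xne : ∀ χ ∈ B, blockHeight 2 B (χ : G → ℂ) = 0 → ∀ j ∈ J, ∀ ψ ∈ B, x χ j ψ ≠ 0 := by
    intro χ hχ h0 j hj ψ hψ
    simp only [x]
    split_ifs with e
    · subst e
      intro e
      refine (hs j hj).red_cm.2 ⟨⟨hχ, h0⟩, hχ, h0⟩ ?_
      rw [← sub_eq_zero.1 e, red_eq_zero hv]
    · simpa using (hs j hj).major_ne_zero hd hψ hχ h0
  by_cases hc : ∃ χ ∈ B, blockHeight 2 B (χ : G → ℂ) = 0 ∧ 2 ^ d - T χ = 1
  · obtain ⟨χ, hχ, h1, h3⟩ := hc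
    have := row_le_aux J (Subset.refl (fs B)) (x χ) (xCM χ) (fun _ => 1) (by simp)
      (fun j hj ψ hψ => ⟨by simpa using xI χ j hj ψ, xne χ hχ h1 j hj ψ (mem_fs.1 hψ)⟩)
      (N := J.card * 2 ^ d) (by
        rw [sum_congr rfl fun j hj => xrow χ hχ j hj, ← mul_sum, xsum, h3]; push_cast; ring)
    simpa using Nat.le_of_mul_le_mul_left this hJ.card_pos
  have h3 : ∀ χ ∈ fs B, 3 ≤ 2 ^ d - T χ := fun χ hχ => by
    rw [mem_fs] at hχ
    by_cases h1 : blockHeight 2 B (χ : G → ℂ) = 0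
    · have h4 := int_nonneg_of_sum (xTP χ hχ) hJ.card_pos (xsum χ)
      have h5 : 2 ^ d - T χ ≠ 1 := fun e => hc ⟨χ, hχ, h1, e⟩
      obtain ⟨r, hr⟩ := (Even.pow_of_ne_zero even_two d0).sub_odd (hodd χ hχ h1)
      omega
    · obtain ⟨χ₀, g1, g0⟩ := exists_height_zero (p := 2) ⟨χ, hχ⟩
      have hlt := (bf_pos hB hχ h1 ∅ (by simp)).2
      rw [← hd] at hlt
      set e := blockHeight 2 B (χ : G → ℂ)
      have he : (((2 ^ e : ℕ) : ℂ)) ≠ 0 := by simp
      have h4 := diag_lt hJ (xTP χ hχ) (c := 2 ^ e) (by simp) (fun j hj => ?_) (xsum χ)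
      · have : 2 ≤ 2 ^ e := Nat.le_self_pow h1 2
        omega
      obtain ⟨m1, m2⟩ := (hs j hj).major_cm hd hχ hχ
      have e1 : x χ j χ / (2 ^ e : ℕ) = ((2 ^ (d - e) : ℕ) : ℂ) - cm 2 (u ^ j) b χ χ / (2 ^ e : ℕ) := by
        simp only [x, if_true, sub_div]
        rw [← Nat.cast_pow, ← Nat.cast_div (pow_dvd_pow 2 (by omega)) he,
          Nat.pow_div (by omega) two_pos]
      refine ⟨e1 ▸ (isIntegral_algebraMap (R := ℤ) (x := (2 ^ (d - e) : ℕ))).sub m1, fun e2 => ?_,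
        fun e2 => ?_⟩
      · have e3 := xrow χ hχ j hj
        rw [e2, mul_zero] at e3
        have e4 := (sum_eq_zero_iff_of_nonneg fun ψ _ => (tp_mul_conj (xCM χ j ψ)).nonneg).1 e3
          χ₀ (mem_fs.2 g1)
        have hne : χ₀ ≠ χ := fun e' => h1 (by subst e'; exact g0)
        simp only [x, if_neg hne, zero_sub, map_neg, neg_mul_neg, cm_conj, mul_self_eq_zero,
          mul_eq_zero] at e4
        have e5 := (hs j hj).major_ne_zero hd hχ g1 g0
        rcases e4 with e4 | e4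
        · exact e5 (by rw [← cm_conj, e4, map_zero])
        · exact e5 e4
      · rw [e2, div_self he] at e1
        refine h1 (m2.1 ?_)
        rw [← sub_sub_cancel ((2 ^ (d - e) : ℕ) : ℂ) (cm 2 (u ^ j) b χ χ / _), ← e1,
          red_sub (natCast_mem _ _) (one_mem _), red_natCast, (natCast_F_eq_zero_iff (p := 2) _).2
            (dvd_pow_self 2 (by omega))]
        simp
  have h4 := card_nsmul_le_sum _ _ _ h3
  rw [sum_sub_distrib, htr, sum_const, nsmul_eq_mul, nsmul_eq_mul] at h4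
  have h5 : ((fs B).card : ℤ) ≤ blockRank 2 b + 3 := by exact_mod_cast h
  have h6 : ((fs B).card : ℤ) ≤ 2 ^ d := by nlinarith [pow_pos (two_pos : (0 : ℤ) < 2) d]
  exact_mod_cast h6

end Cfsg.Agent.S4575
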