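import Cfsg.Statements.S4580
import Cfsg.Agent.H8.AD2

set_option autoImplicit false
open Cfsg

namespace Cfsg.Agent.S4580

open H5 H7 H8

/-- Let N be a normal subgroup of the finite group G, M a maximal ideal of the algebraic integers containing 2, and θ a real-valued irreducible character of N of odd degree that extends to G (some irreducible character of G restricts to θ). Then θ has an extension to G lying in the principal 2-block of G. -/
theorem result {G : Type*} [Group G] [Finite G] (N : Subgroup G) [N.Normal] (M : Ideal Cfsg.AlgInt) (hM : Cfsg.IsPModular 2 M) (θ : Cfsg.IrrCharacter N) (hreal : ∀ n : N, ((θ : N → ℂ) n).im = 0) (hodd : Odd (Cfsg.charDegree (θ : N → ℂ))) (hext : ∃ η : Cfsg.IrrCharacter G, ∀ n : N, (η : G → ℂ) n = (θ : N → ℂ) n) :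
    ∃ η : Cfsg.IrrCharacter G, (∀ n : N, (η : G → ℂ) n = (θ : N → ℂ) n) ∧ η ∈ Cfsg.principalBlock M G := by
  haveI : PM 2 M := ⟨hM⟩
  haveI := Fintype.ofFinite G
  obtain ⟨η, hη⟩ := hext
  obtain ⟨l, h1, h2⟩ := H6.exists_hom_of_ext (N := N) η.2.isCharacter η.2.inv.isCharacter
    (by simpa only [hη] using θ.2) fun n => by
      show (η : G → ℂ) (n⁻¹ : N) = _
      rw [hη, hη, θ.2.apply_inv, Complex.conj_eq_iff_im.2 (hreal n)]
  obtain ⟨m, hm, e⟩ := exists_natCast_eq_pow_mul (p := 2) (Nat.card_pos (α := G)).ne'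
  obtain ⟨k, hk⟩ : ∃ k, m = 2 * k + 1 := ⟨m / 2, by omega⟩
  let χ : IrrCharacter G := ⟨_, isIrr_mul_linear (isCharacter_hom (l ^ (k + 1))) (by simp) η.2⟩
  have h3 : ∀ x : N, (χ : G → ℂ) x = (θ : N → ℂ) x := fun x => by
    show (((l ^ (k + 1)) x : ℂˣ) : ℂ) * _ = _
    rw [MonoidHom.pow_apply, h1, hη]; simp
  refine ⟨χ, h3, ?_⟩
  have h4 : charDegree (χ : G → ℂ) = charDegree (θ : N → ℂ) := by
    have := h3 1
    rw [OneMemClass.coe_one, ← coe_deg, ← coe_deg] at this
    exact_mod_cast this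
  rw [← eq_principal_of_real (M := M) (isPBlock_blockOf χ) (blockDefect_eq_of_not_dvd (M := M) (mem_blockOf_self χ)
    (by rw [h4]; exact hodd.not_two_dvd_nat))
    (blockCoeff_inv (p := 2) (M := M) (isPBlock_blockOf χ) (mem_blockOf_self χ) fun g hg => ?_)]
  · exact mem_blockOf_self χ
  have h5 : g ^ m = 1 := by
    have h6 : orderOf g ∣ 2 ^ (Nat.card G).factorization 2 * m := e ▸ orderOf_dvd_natCard g
    exact orderOf_dvd_iff_pow_eq_one.1 (Nat.Coprime.dvd_of_dvd_mul_left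
      (((Nat.Prime.coprime_iff_not_dvd Nat.prime_two).2 hg).symm.pow_right _) h6)
  have h6 : ((l g : ℂˣ) : ℂ) ^ (2 * k + 1) = 1 := by
    rw [← hk, ← Units.val_pow_eq_pow_val, ← map_pow, h5, map_one, Units.val_one]
  show (((l ^ (k + 1)) g⁻¹ : ℂˣ) : ℂ) * (η : G → ℂ) g⁻¹ = (((l ^ (k + 1)) g : ℂˣ) : ℂ) * (η : G → ℂ) g
  rw [congrFun h2 g]
  have h7 := (l g).ne_zero
  simp only [MonoidHom.pow_apply, map_inv, Pi.mul_apply, Units.val_pow_eq_pow_val,
    Units.val_inv_eq_inv_val, inv_pow]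
  field_simp
  linear_combination (-(η : G → ℂ) g * (l g : ℂ)) * h6

end Cfsg.Agent.S4580
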