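import Cfsg.Statements.S4582
import Cfsg.Agent.H3.HallTransfer
import Cfsg.Agent.H1.Basic

set_option autoImplicit false
open Cfsg

namespace Cfsg.Agent.S4582

open H1
open scoped commutatorElement

/-- Let N be a normal subgroup of the finite group G, P a Sylow 2-subgroup of G and Q = P ∩ N. Suppose that P/QP' and Q/Q' are elementary abelian (every square of an element of P lies in the subgroup generated by Q and the derived subgroup of P, and every square of an element of Q lies in the derived subgroup of Q), and that the commutator factor group N/N' has odd order. Then P/P' is elementary abelian. -/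
theorem result {G : Type*} [Group G] [Finite G] (N : Subgroup G) [N.Normal] (P : Sylow 2 G)
    (hP : ∀ x ∈ (P : Subgroup G), x ^ 2 ∈ ((P : Subgroup G) ⊓ N) ⊔ ⁅(P : Subgroup G), (P : Subgroup G)⁆)
    (hQ : ∀ x ∈ (P : Subgroup G) ⊓ N, x ^ 2 ∈ ⁅(P : Subgroup G) ⊓ N, (P : Subgroup G) ⊓ N⁆)
    (hodd : Odd (Nat.card (Abelianization N))) :
    ∀ x ∈ (P : Subgroup G), x ^ 2 ∈ ⁅(P : Subgroup G), (P : Subgroup G)⁆ := by
  set H := N ⊔ (P : Subgroup G) with hH
  have hPH : (P : Subgroup G) ≤ H := le_sup_right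
  have hNH : N ≤ H := le_sup_left
  let A := Abelianization (P : Subgroup G)
  let ϕ : (P : Subgroup G).subgroupOf H →* A :=
    Abelianization.of.comp (Subgroup.subgroupOfEquivOfLe hPH).toMonoidHom
  let W : Subgroup A := (N.subgroupOf P).map Abelianization.of
  let V : H →* A := MonoidHom.transfer ϕ
  have hA : IsPGroup 2 A := P.2.of_surjective Abelianization.of (QuotientGroup.mk'_surjective _)
  have hodd' : ∀ (a : A) (m : ℕ), Odd m → a ^ m = 1 → a = 1 := fun a m hm h => by
    obtain ⟨k, hk⟩ := hA a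
    rw [← orderOf_dvd_iff_pow_eq_one] at h hk
    exact orderOf_eq_one_iff.1 (Nat.eq_one_of_dvd_coprimes
      (Nat.Coprime.pow_left k (Nat.coprime_two_left.2 hm)) hk h)
  have h1 : ∀ n : N, V (Subgroup.inclusion hNH n) = 1 := fun n => by
    refine hodd' _ _ hodd ?_
    have : V (Subgroup.inclusion hNH n) =
      Abelianization.lift (V.comp (Subgroup.inclusion hNH)) (Abelianization.of n) := rfl
    rw [this, ← map_pow, pow_card_eq_one', map_one]
  have h2 : (P : Subgroup G) ⊓ N ⊔ ⁅(P : Subgroup G), (P : Subgroup G)⁆ ≤ V.ker.map H.subtype := by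
    refine sup_le (fun x hx => ⟨_, h1 ⟨x, hx.2⟩, rfl⟩) (Subgroup.commutator_le.2 fun a ha b hb => ?_)
    refine ⟨⁅(⟨a, hPH ha⟩ : H), (⟨b, hPH hb⟩ : H)⁆, ?_, rfl⟩
    rw [SetLike.mem_coe, MonoidHom.mem_ker, map_commutatorElement,
      commutatorElement_eq_one_iff_mul_comm, mul_comm]
  have h3 : ∀ y : (P : Subgroup G), Abelianization.of y = 1 ↔
      (y : G) ∈ ⁅(P : Subgroup G), (P : Subgroup G)⁆ := fun y => by
    rw [← MonoidHom.mem_ker, Abelianization.ker_of, ← Subgroup.map_subtype_commutator,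
      Subgroup.mem_map_iff_mem (Subgroup.subtype_injective _) |>.symm]
    rfl
  intro x hx
  have h4 : (QuotientGroup.mk' W) (V ⟨x, hPH hx⟩) =
      ((QuotientGroup.mk' W) (Abelianization.of ⟨x, hx⟩)) ^ ((P : Subgroup G).subgroupOf H).index := by
    rw [← H3.transfer_eq_pow_of_conj ((QuotientGroup.mk' W).comp ϕ) ⟨x, hPH hx⟩]
    · obtain ⟨T⟩ : Nonempty ((P : Subgroup G).subgroupOf H).LeftTransversal := inferInstance
      simp only [V, MonoidHom.transfer_def _ T, Subgroup.leftTransversals.diff, map_prod]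
      rfl
    · rintro k ⟨t, ht⟩ hk
      obtain ⟨y, hy, n, hn, rfl⟩ := (mem_sup_of_le_normalizer' (H := (P : Subgroup G)) (N := N) (x := t)
        (by rw [Subgroup.normalizer_eq_top]; exact le_top)).1 (by rw [sup_comm]; exact ht)
      have e : (Abelianization.of (⟨x, hx⟩ : (P : Subgroup G))) ^ k =
          Abelianization.of ((⟨y, hy⟩ : (P : Subgroup G))⁻¹ * ⟨x, hx⟩ ^ k * ⟨y, hy⟩) := by
        rw [map_mul, map_mul, map_inv, map_pow, inv_mul_cancel_comm]
      rw [← map_pow, e, MonoidHom.comp_apply, QuotientGroup.mk'_apply, QuotientGroup.mk'_apply,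
        eq_comm, QuotientGroup.eq]
      refine ⟨((⟨y, hy⟩ : (P : Subgroup G))⁻¹ * ⟨x, hx⟩ ^ k * ⟨y, hy⟩)⁻¹ * ⟨_, hk⟩, ?_, by
        rw [map_mul, map_inv]; rfl⟩
      have := mul_mem (Subgroup.Normal.conj_mem ‹N.Normal› _ (inv_mem hn) (y⁻¹ * x ^ k * y)⁻¹) hn
      rw [SetLike.mem_coe, Subgroup.mem_subgroupOf]
      convert this using 1
      simp only [Subgroup.coe_mul, Subgroup.coe_inv, Subgroup.coe_pow, Subgroup.subtype_apply]
      group
  rw [← map_pow, QuotientGroup.mk'_apply, QuotientGroup.mk'_apply, QuotientGroup.eq] at h4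
  obtain ⟨q, hq, e⟩ := h4
  have h5 : (Abelianization.of q) ^ 2 = 1 := by
    rw [← map_pow, h3]
    exact Subgroup.commutator_mono inf_le_left inf_le_left (hQ q ⟨q.2, hq⟩)
  have h6 : V ⟨x, hPH hx⟩ ^ 2 = 1 := by
    obtain ⟨y, hy, e⟩ := h2 (hP x hx)
    rw [← map_pow, show (⟨x, hPH hx⟩ : H) ^ 2 = y from Subtype.ext e.symm]
    exact hy
  rw [e, mul_pow, inv_pow, h6, inv_one, one_mul, ← pow_mul, mul_comm, pow_mul, ← map_pow] at h5
  refine (h3 _).1 (hodd' _ _ ?_ h5)
  rw [← Nat.not_even_iff_odd, even_iff_two_dvd]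
  exact fun h => P.not_dvd_index (h.trans (Subgroup.relIndex_dvd_index_of_le hPH))

end Cfsg.Agent.S4582
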