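import Cfsg.Statements.S4583
import Cfsg.Agent.H8.B1

set_option autoImplicit false
open Cfsg

namespace Cfsg.Agent.S4583

open H5 H7 H8

/-- Let N be a normal subgroup of the finite group G, p a prime, M a maximal ideal of the algebraic integers containing p, and P a Sylow p-subgroup of G. Let θ be an irreducible character of N of degree prime to p lying in the principal p-block of N, and suppose θ extends to the subgroup NP (some irreducible character of NP restricts to θ). Then some irreducible character χ of G of degree prime to p in the principal p-block of G lies over θ (θ is a constituent of the restriction of χ to N). -/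
theorem result {G : Type*} [Group G] [Finite G] (N : Subgroup G) [N.Normal] (p : ℕ) [Fact p.Prime] (M : Ideal Cfsg.AlgInt) (hM : Cfsg.IsPModular p M) (P : Sylow p G)
    (θ : Cfsg.IrrCharacter N) (hθ : θ ∈ Cfsg.principalBlock M N) (hdeg : ¬ p ∣ Cfsg.charDegree (θ : N → ℂ))
    (hext : ∃ η : Cfsg.IrrCharacter ↥(N ⊔ (P : Subgroup G)), ∀ n : N, (η : ↥(N ⊔ (P : Subgroup G)) → ℂ) (Subgroup.inclusion le_sup_left n) = (θ : N → ℂ) n) :
    ∃ χ : Cfsg.IrrCharacter G, χ ∈ Cfsg.principalBlock M G ∧ ¬ p ∣ Cfsg.charDegree (χ : G → ℂ) ∧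
      haveI := Fintype.ofFinite N; Cfsg.classInner (fun n : N => (χ : G → ℂ) n) (θ : N → ℂ) ≠ 0 := by
  haveI : PM p M := ⟨hM⟩
  letI := Fintype.ofFinite N
  haveI := Fintype.ofFinite ↥(N ⊔ (P : Subgroup G))
  obtain ⟨η, hη⟩ := hext
  have h1 : classInner (fun n : N => (η : ↥(N ⊔ (P : Subgroup G)) → ℂ)
      (Subgroup.inclusion le_sup_left n)) θ ≠ 0 := by
    rw [funext hη, θ.2.classInner_self]; exact one_ne_zero
  obtain ⟨χ, h2, h3, h4⟩ := exists_over_not_dvd (p := p) (M := M) (η := η)
    (fun h => P.not_dvd_index (h.trans (Subgroup.index_dvd_of_le le_sup_right)))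
    (mem_principal_of_under (p := p) (Subgroup.inclusion_injective _) (fun g hg =>
      ⟨⟨g, mem_of_mem_sup P.isPGroup' g.2 (by simpa using hg)⟩, rfl⟩) h1 hθ)
    (by rwa [charDegree_congr (ψ := (θ : N → ℂ)) (by simpa using hη 1)])
  exact ⟨χ, h2, h3, H6.inner_comp_ne_zero_of_constituent (Subgroup.inclusion le_sup_left)
    (χ.2.isCharacter.restrict _) η.2 h4 θ.2.isCharacter h1⟩

end Cfsg.Agent.S4583
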