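import Cfsg.Statements.S4584
import Cfsg.Agent.H8.CyclicTop
import Cfsg.Agent.H8.Basic
import Mathlib.GroupTheory.IndexNormal
import Mathlib.Tactic.IntervalCases

set_option autoImplicit false
open Cfsg

namespace Cfsg.Agent.S4584

open Subgroup in
theorem key {P : Type*} [Group P] [Finite P] (p : ℕ) [Fact p.Prime] (hP : Nat.card P = p ^ 4)
    (x : P) (hx : x ∉ center P) (hi : (centralizer ({x} : Set P)).index = p) :
    Nat.card (center P) * Nat.card (_root_.commutator P) = p ^ 3 := by
  have hp : p.Prime := Fact.out
  set A := centralizer ({x} : Set P) with hA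
  have hPp : IsPGroup p P := IsPGroup.of_card hP
  have hAn : A.Normal := by
    apply normal_of_index_eq_minFac_card
    rw [hi, hP, Nat.pow_minFac (by norm_num), hp.minFac_eq]
  have hAc : Nat.card A = p ^ 3 := by
    have := card_mul_index A
    rw [hi, hP] at this
    exact Nat.eq_of_mul_eq_mul_right hp.pos (by rw [this]; ring)
  have hZA : center P ≤ A := center_le_centralizer _
  have hxA : x ∈ A := mem_centralizer_singleton_iff.mpr rfl
  have hnt : Nontrivial P := ⟨⟨x, 1, fun h => hx (h ▸ one_mem _)⟩⟩
  -- A is abelian
  have hAcomm : IsMulCommutative A := by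
    have h1 : (center P).subgroupOf A < center A := by
      refine lt_of_le_of_ne (fun z hz => mem_center_iff.mpr fun g => Subtype.ext
        (mem_center_iff.mp (mem_subgroupOf.mp hz) g)) fun h => hx ?_
      have : (⟨x, hxA⟩ : A) ∈ center A := mem_center_iff.mpr fun g =>
        Subtype.ext (mem_centralizer_singleton_iff.mp g.2)
      rw [← h] at this
      exact this
    have h2 : Nat.card ((center P).subgroupOf A) = Nat.card (center P) :=
      Nat.card_congr (subgroupOfEquivOfLe hZA).toEquiv
    obtain ⟨a, ha⟩ := IsPGroup.iff_card.mp (hPp.to_subgroup (center P))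
    obtain ⟨b, hb⟩ := IsPGroup.iff_card.mp ((hPp.to_subgroup A).to_subgroup (center A))
    have ha0 : a ≠ 0 := by
      rintro rfl
      have := hPp.center_nontrivial
      have := Finite.one_lt_card (α := center P)
      simp [ha] at this
    have hab : p ^ a < p ^ b := by
      rw [← ha, ← hb, ← h2]
      exact Nat.lt_of_le_of_ne (card_le_of_le h1.le) fun h => h1.ne (eq_of_le_of_card_ge h1.le h.ge)
    have hab' : a < b := (Nat.pow_lt_pow_iff_right hp.one_lt).mp hab
    have h3 := card_mul_index (center A)
    rw [hb, hAc] at h3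
    have h4 : (center A).index ∣ p := by
      have : p ^ 2 * (center A).index ∣ p ^ 2 * p := by
        rw [← pow_succ, ← h3]
        exact Nat.mul_dvd_mul_right (pow_dvd_pow p (by omega)) _
      exact Nat.dvd_of_mul_dvd_mul_left (pow_pos hp.pos 2) this
    have : IsCyclic (A ⧸ center A) := isCyclic_of_card_dvd_prime (p := p) h4
    exact isMulCommutative_of_isCyclic_quotient_center_self A
  obtain ⟨y, hy⟩ : ∃ y, y ∉ A := by
    by_contra h
    push Not at h
    exact hx (mem_center_iff.mpr fun g => mem_centralizer_singleton_iff.mp (h g))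
  have hgen := H8.zpowers_sup_eq_top_of_index_prime hp hi hy
  have h1 := H8.card_comm_mem_mul_card_commutator A y hgen
  have hA' : _root_.commutator A = ⊥ := by
    rw [_root_.commutator_def, commutator_eq_bot_iff_le_centralizer]
    intro a _
    rw [mem_centralizer_iff]
    intro b _
    exact hAcomm.is_comm.comm b a
  rw [hA', card_bot, mul_one, hAc] at h1
  rw [← h1]
  congr 1
  refine Nat.card_congr ⟨fun z => ⟨⟨z, hZA z.2⟩, ?_⟩, fun n => ⟨n.1, ?_⟩, fun _ => rfl, fun _ => rfl⟩
  · simp [mem_center_iff.mp z.2 y]
  · obtain ⟨n, hn⟩ := n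
    rw [Subgroup.map_bot, mem_bot, mul_inv_eq_one, mul_inv_eq_iff_eq_mul] at hn
    have : (⊤ : Subgroup P) ≤ centralizer {(n : P)} := by
      rw [← hgen, sup_le_iff, zpowers_le]
      refine ⟨mem_centralizer_singleton_iff.mpr hn, fun a ha => mem_centralizer_singleton_iff.mpr ?_⟩
      exact congrArg Subtype.val (hAcomm.is_comm.comm ⟨a, ha⟩ n)
    exact mem_center_iff.mpr fun g => mem_centralizer_singleton_iff.mp (this (mem_top g))

/-- Let p be a prime and P a group of order p^4. Then the derived subgroup P' has order p if and only if the centre Z(P) has index p^2 in P. -/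
theorem result {P : Type*} [Group P] [Finite P] (p : ℕ) [Fact p.Prime] (hP : Nat.card P = p ^ 4) :
    Nat.card (commutator P) = p ↔ (Subgroup.center P).index = p ^ 2 := by
  have hp : p.Prime := Fact.out
  have hPp : IsPGroup p P := IsPGroup.of_card hP
  have hZ := Subgroup.card_mul_index (Subgroup.center P)
  have hidx : ∀ x : P, x ∉ Subgroup.center P → (Subgroup.centralizer ({x} : Set P)).index ≠ 1 := by
    intro x hx h
    rw [Subgroup.index_eq_one] at h
    exact hx (Subgroup.mem_center_iff.mpr fun g =>
      Subgroup.mem_centralizer_singleton_iff.mp (h ▸ Subgroup.mem_top g))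
  constructor
  · intro h
    obtain ⟨x, hx⟩ : ∃ x, x ∉ Subgroup.center P := by
      by_contra hc
      push Not at hc
      have : commutator P = ⊥ := by
        rw [commutator_def, Subgroup.commutator_eq_bot_iff_le_centralizer]
        intro a _
        rw [Subgroup.mem_centralizer_iff]
        intro b _
        exact Subgroup.mem_center_iff.mp (hc a) b
      rw [this, Subgroup.card_bot] at h
      exact hp.one_lt.ne h
    obtain ⟨n, hn⟩ := hPp.index (Subgroup.centralizer ({x} : Set P))
    have h1 := H8.index_centralizer_le_card_commutator x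
    have h2 := hidx x hx
    rw [hn] at h2
    rw [hn, h] at h1
    have h3 : n ≤ 1 := (Nat.pow_le_pow_iff_right hp.one_lt).mp (by simpa using h1)
    have h4 : n = 1 := by
      interval_cases n
      · simp at h2
      · rfl
    rw [h4, pow_one] at hn
    have h5 := key p hP x hx hn
    rw [h] at h5
    have h6 : Nat.card (Subgroup.center P) = p ^ 2 :=
      Nat.eq_of_mul_eq_mul_right hp.pos (by rw [h5]; ring)
    rw [h6, hP] at hZ
    exact Nat.eq_of_mul_eq_mul_left (pow_pos hp.pos 2) (by rw [hZ]; ring)
  · intro h
    obtain ⟨x, hx⟩ : ∃ x, x ∉ Subgroup.center P := by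
      by_contra hc
      push Not at hc
      have : Subgroup.center P = ⊤ := eq_top_iff.mpr fun x _ => hc x
      rw [this, Subgroup.index_top] at h
      exact (Nat.one_lt_pow two_ne_zero hp.one_lt).ne h
    have hle : Subgroup.center P ≤ Subgroup.centralizer ({x} : Set P) :=
      Subgroup.center_le_centralizer _
    have h1 := Subgroup.index_dvd_of_le hle
    rw [h] at h1
    obtain ⟨n, hn2, hn⟩ := (Nat.dvd_prime_pow hp).mp h1
    have h2 := hidx x hx
    have h4 : n = 1 := by
      interval_cases n
      · simp [hn] at h2
      · rfl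
      · exfalso
        have h3 := Subgroup.relIndex_mul_index hle
        rw [hn, h] at h3
        have h5 : (Subgroup.center P).relIndex (Subgroup.centralizer ({x} : Set P)) = 1 :=
          Nat.eq_of_mul_eq_mul_right (pow_pos hp.pos 2) (by rw [h3, one_mul])
        rw [Subgroup.relIndex_eq_one] at h5
        exact hx (h5 (Subgroup.mem_centralizer_singleton_iff.mpr rfl))
    rw [h4, pow_one] at hn
    have h5 := key p hP x hx hn
    rw [h, hP] at hZ
    have h6 : Nat.card (Subgroup.center P) = p ^ 2 :=
      Nat.eq_of_mul_eq_mul_right (pow_pos hp.pos 2) (by rw [hZ]; ring)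
    rw [h6] at h5
    exact Nat.eq_of_mul_eq_mul_left (pow_pos hp.pos 2) (by rw [h5]; ring)

end Cfsg.Agent.S4584
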