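import Cfsg.Statements.S4585
import Cfsg.Agent.S4584
import Cfsg.Agent.H8.Basic

set_option autoImplicit false
open Cfsg

namespace Cfsg.Agent.S4585

open Subgroup in
theorem strict {P : Type*} [Group P] [Group.IsNilpotent P] (n : ℕ)
    (h : (⊤ : Subgroup P).lowerCentralSeries (n + 1) = (⊤ : Subgroup P).lowerCentralSeries n) :
    (⊤ : Subgroup P).lowerCentralSeries n = ⊥ := by
  have h1 : ∀ k, (⊤ : Subgroup P).lowerCentralSeries (n + k) = (⊤ : Subgroup P).lowerCentralSeries n := by
    intro k
    induction k with
    | zero => rfl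
    | succ k ih => rw [← add_assoc, Subgroup.lowerCentralSeries_succ, ih, ← Subgroup.lowerCentralSeries_succ, h]
  rw [← h1 (Group.nilpotencyClass P), Subgroup.lowerCentralSeries_eq_bot_iff_nilpotencyClass_le]
  omega

open Subgroup in
theorem strict' {P : Type*} [Group P] [Finite P] (p : ℕ) [Fact p.Prime] (hP : IsPGroup p P) (n : ℕ)
    (h : (⊤ : Subgroup P).lowerCentralSeries n ≠ ⊥) :
    p * Nat.card ((⊤ : Subgroup P).lowerCentralSeries (n + 1)) ∣
      Nat.card ((⊤ : Subgroup P).lowerCentralSeries n) := by
  have := hP.isNilpotent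
  have hp : p.Prime := Fact.out
  obtain ⟨a, ha⟩ := IsPGroup.iff_card.mp (hP.to_subgroup ((⊤ : Subgroup P).lowerCentralSeries (n + 1)))
  obtain ⟨b, hb⟩ := IsPGroup.iff_card.mp (hP.to_subgroup ((⊤ : Subgroup P).lowerCentralSeries n))
  have hle : (⊤ : Subgroup P).lowerCentralSeries (n + 1) ≤ (⊤ : Subgroup P).lowerCentralSeries n :=
    Subgroup.lowerCentralSeries_antitone _ (Nat.le_succ n)
  have hab : p ^ a < p ^ b := by
    rw [← ha, ← hb]
    exact Nat.lt_of_le_of_ne (card_le_of_le hle) fun h' => h (strict n (eq_of_le_of_card_ge hle h'.ge))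
  have hab' : a < b := (Nat.pow_lt_pow_iff_right hp.one_lt).mp hab
  rw [ha, hb, ← pow_succ']
  exact pow_dvd_pow p hab'

/-- Let p be a prime and P a group of order p^4. Then P' has index p^2 in P if and only if P has maximal nilpotency class, that is, nilpotency class exactly 3. -/
theorem result {P : Type*} [Group P] [Finite P] (p : ℕ) [Fact p.Prime] (hP : Nat.card P = p ^ 4) :
    (commutator P).index = p ^ 2 ↔ Group.nilpotencyClass P = 3 := by
  have hp : p.Prime := Fact.out
  have hPp : IsPGroup p P := IsPGroup.of_card hP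
  have hnil := hPp.isNilpotent
  have hc := Subgroup.card_mul_index (commutator P)
  rw [hP] at hc
  have e1 : (⊤ : Subgroup P).lowerCentralSeries 1 = commutator P := rfl
  constructor
  · intro h
    rw [h] at hc
    have h1 : Nat.card (commutator P) = p ^ 2 :=
      Nat.eq_of_mul_eq_mul_right (pow_pos hp.pos 2) (by rw [hc]; ring)
    have hne : p ^ 2 ≠ 1 := (Nat.one_lt_pow two_ne_zero hp.one_lt).ne'
    apply le_antisymm
    · rw [← Subgroup.lowerCentralSeries_eq_bot_iff_nilpotencyClass_le]
      by_contra h3
      have h2 : (⊤ : Subgroup P).lowerCentralSeries 2 ≠ ⊥ := fun h => h3 (by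
        rw [eq_bot_iff, ← h]; exact Subgroup.lowerCentralSeries_antitone _ (by norm_num))
      have h1' : (⊤ : Subgroup P).lowerCentralSeries 1 ≠ ⊥ := fun h => h2 (by
        rw [eq_bot_iff, ← h]; exact Subgroup.lowerCentralSeries_antitone _ (by norm_num))
      have a1 := strict' p hPp 1 h1'
      have a2 := strict' p hPp 2 h2
      have a3 := strict' p hPp 3 h3
      rw [e1, h1] at a1
      have a4 : p * (p * (p * Nat.card ((⊤ : Subgroup P).lowerCentralSeries (3 + 1)))) ∣ p ^ 2 :=
        (Nat.mul_dvd_mul_left p ((Nat.mul_dvd_mul_left p a3).trans a2)).trans a1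
      have a5 : p ^ 3 ∣ p ^ 2 := Dvd.dvd.trans ⟨Nat.card ((⊤ : Subgroup P).lowerCentralSeries (3 + 1)), by ring⟩ a4
      have := (Nat.pow_dvd_pow_iff_le_right hp.one_lt).mp a5
      omega
    · by_contra h3
      have h2 : (⊤ : Subgroup P).lowerCentralSeries 2 = ⊥ :=
        Subgroup.lowerCentralSeries_eq_bot_iff_nilpotencyClass_le.mpr (by omega)
      have h4 : commutator P ≤ Subgroup.center P := by
        rw [Subgroup.lowerCentralSeries_succ, e1, Subgroup.commutator_eq_bot_iff_le_centralizer] at h2
        intro x hx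
        exact Subgroup.mem_center_iff.mpr fun g => Subgroup.mem_centralizer_iff.mp (h2 hx) g trivial
      have h5 := Subgroup.index_dvd_of_le h4
      rw [h] at h5
      obtain ⟨n, hn2, hn⟩ := (Nat.dvd_prime_pow hp).mp h5
      have habel : (Subgroup.center P).index ∣ p → False := by
        intro hd
        have : IsCyclic (P ⧸ Subgroup.center P) := isCyclic_of_card_dvd_prime (p := p) hd
        have hcomm := isMulCommutative_of_isCyclic_quotient_center_self P
        have : commutator P = ⊥ := by
          rw [commutator_def, Subgroup.commutator_eq_bot_iff_le_centralizer]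
          intro a _
          rw [Subgroup.mem_centralizer_iff]
          intro b _
          exact hcomm.is_comm.comm b a
        rw [this, Subgroup.card_bot] at h1
        exact hne h1.symm
      interval_cases n
      · exact habel (by simp [hn])
      · exact habel (by simp [hn])
      · have := (Cfsg.Agent.S4584.result p hP).mpr hn
        rw [h1] at this
        have := Nat.pow_right_injective hp.two_le (this.trans (pow_one p).symm)
        omega
  · intro h
    have h2 : (⊤ : Subgroup P).lowerCentralSeries 2 ≠ ⊥ := fun h' => by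
      have := Subgroup.lowerCentralSeries_eq_bot_iff_nilpotencyClass_le.mp h'
      omega
    have h1' : (⊤ : Subgroup P).lowerCentralSeries 1 ≠ ⊥ := fun h => h2 (by
      rw [eq_bot_iff, ← h]; exact Subgroup.lowerCentralSeries_antitone _ (by norm_num))
    have a1 := strict' p hPp 1 h1'
    have a2 := strict' p hPp 2 h2
    have a3 : p ^ 2 ∣ Nat.card (commutator P) :=
      Dvd.dvd.trans ⟨Nat.card ((⊤ : Subgroup P).lowerCentralSeries (2 + 1)), by ring⟩ ((Nat.mul_dvd_mul_left p a2).trans a1)
    have a4 : (commutator P).index ∣ p ^ 2 := by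
      have : p ^ 2 * (commutator P).index ∣ p ^ 2 * p ^ 2 := by
        rw [← pow_add, ← hc]; exact Nat.mul_dvd_mul_right a3 _
      exact Nat.dvd_of_mul_dvd_mul_left (pow_pos hp.pos 2) this
    obtain ⟨n, hn2, hn⟩ := (Nat.dvd_prime_pow hp).mp a4
    have hcyc : (commutator P).index ∣ p → False := by
      intro hd
      have : IsCyclic (P ⧸ commutator P) := isCyclic_of_card_dvd_prime (p := p) hd
      obtain ⟨g, hg⟩ := IsCyclic.exists_generator (α := P ⧸ commutator P)
      obtain ⟨x, rfl⟩ := QuotientGroup.mk_surjective g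
      have hgen : Subgroup.zpowers x ⊔ commutator P = ⊤ := by
        rw [eq_top_iff]
        intro y _
        obtain ⟨k, hk⟩ := hg (y : P ⧸ commutator P)
        have : (x ^ k)⁻¹ * y ∈ commutator P := QuotientGroup.eq.mp (by simpa using hk)
        have h3 : y = x ^ k * ((x ^ k)⁻¹ * y) := by group
        rw [h3]
        exact Subgroup.mul_mem_sup (Subgroup.zpow_mem_zpowers x k) this
      have := H8.commutator_eq_of_zpowers_sup (commutator P) x hgen
      exact h1' (strict 1 this.symm)
    interval_cases n
    · exact (hcyc (by simp [hn])).elim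
    · exact (hcyc (by simp [hn])).elim
    · exact hn

end Cfsg.Agent.S4585
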