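import Cfsg.Statements.S4586
import Cfsg.Agent.H8.CyclicTop

set_option autoImplicit false
open Cfsg

namespace Cfsg.Agent.S4586



/-- Let p be a prime, P a finite p-group and N a normal subgroup of P of index p. For x ∈ P write c(x) for the number of elements n of N whose commutator x n x⁻¹ n⁻¹ lies in the derived subgroup N' (so c(x)/#N' is the order of the centralizer of x acting on N/N'). Then [P : P'] = p² if and only if c(x) = p·#N' for every x ∈ P outside N, and also if and only if c(x) = p·#N' for some x ∈ P outside N. -/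
theorem result {P : Type*} [Group P] [Finite P] (p : ℕ) [Fact p.Prime] (hP : IsPGroup p P) (N : Subgroup P) [N.Normal] (hN : N.index = p) :
    ((commutator P).index = p ^ 2 ↔ ∀ x : P, x ∉ N →
        Nat.card {n : N // x * n * x⁻¹ * (n : P)⁻¹ ∈ (commutator N).map N.subtype} = p * Nat.card (commutator N)) ∧
    ((commutator P).index = p ^ 2 ↔ ∃ x : P, x ∉ N ∧
        Nat.card {n : N // x * n * x⁻¹ * (n : P)⁻¹ ∈ (commutator N).map N.subtype} = p * Nat.card (commutator N)) := by
  have hp : p.Prime := Fact.out
  have key : ∀ x : P, x ∉ N → ((commutator P).index = p ^ 2 ↔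
      Nat.card {n : N // x * n * x⁻¹ * (n : P)⁻¹ ∈ (commutator N).map N.subtype} =
        p * Nat.card (commutator N)) := by
    intro x hx
    have h1 := H8.card_comm_mem_mul_card_commutator N x
      (H8.zpowers_sup_eq_top_of_index_prime hp hN hx)
    have h2 := Subgroup.card_mul_index N
    have h3 := Subgroup.card_mul_index (commutator P)
    rw [hN] at h2
    have a1 : 0 < Nat.card (commutator P) := Nat.card_pos
    have a2 : 0 < Nat.card (commutator N) := Nat.card_pos
    constructor
    · intro h
      rw [h, ← h2] at h3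
      have h4 : Nat.card N = p * Nat.card (commutator P) := by
        apply Nat.eq_of_mul_eq_mul_right hp.pos
        rw [← h3]; ring
      apply Nat.eq_of_mul_eq_mul_right a1
      rw [h1, h4]; ring
    · intro h
      rw [h] at h1
      have h4 : Nat.card N = p * Nat.card (commutator P) := by
        apply Nat.eq_of_mul_eq_mul_right a2
        rw [← h1]; ring
      apply Nat.eq_of_mul_eq_mul_left a1
      rw [h3, ← h2, h4]; ring
  have hex : ∃ x : P, x ∉ N := by
    by_contra h
    push Not at h
    have : N = ⊤ := eq_top_iff.mpr fun x _ => h x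
    rw [this, Subgroup.index_top] at hN
    exact hp.one_lt.ne hN
  obtain ⟨x0, hx0⟩ := hex
  exact ⟨⟨fun h x hx => (key x hx).mp h, fun h => (key x0 hx0).mpr (h x0 hx0)⟩,
    ⟨fun h => ⟨x0, hx0, (key x0 hx0).mp h⟩, fun ⟨x, hx, h⟩ => (key x hx).mpr h⟩⟩

end Cfsg.Agent.S4586
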