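import Cfsg.Statements.S4588
import Cfsg.Agent.H8.Avg2

set_option autoImplicit false
open Cfsg

namespace Cfsg.Agent.S4588

open H5 H7 H8 Finset

/-- Let G be a finite group, p a prime and M a maximal ideal of the algebraic integers containing p. If some p-element x of G (possibly x = 1) has centralizer whose order has p-part at most p², then the principal p-block of G contains at most p² irreducible characters of degree prime to p. -/
theorem result {G : Type*} [Group G] [Finite G] (p : ℕ) [Fact p.Prime] (M : Ideal Cfsg.AlgInt) (hM : Cfsg.IsPModular p M)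
    (hx : ∃ x : G, (∃ k : ℕ, orderOf x = p ^ k) ∧ (Nat.card (Subgroup.centralizer ({x} : Set G))).factorization p ≤ 2) :
    Nat.card {χ : Cfsg.IrrCharacter G // χ ∈ Cfsg.principalBlock M G ∧ ¬ p ∣ Cfsg.charDegree (χ : G → ℂ)} ≤ p ^ 2 := by
  classical
  haveI : PM p M := ⟨hM⟩
  letI := Fintype.ofFinite G
  have hp : p.Prime := Fact.out
  have hB := isPBlock_principalBlock (M := M) (G := G)
  by_cases h1 : (Nat.card G).factorization p ≤ 2
  · refine le_trans (Nat.card_le_card_of_injective (β := principalBlock M G)
      (fun χ => ⟨χ.1, χ.2.1⟩) fun χ ψ e => Subtype.ext (congrArg (fun x => x.1) e)) ?_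
    rw [← blockDefect_principal (M := M)] at h1
    exact (card_le_of_defect_le_two hB h1).trans (Nat.pow_le_pow_right hp.pos h1)
  obtain ⟨x, hx, h2⟩ := hx
  have x1 : x ≠ 1 := by
    rintro rfl
    rw [Subgroup.centralizer_eq_top_iff_subset.2 (by simp), Subgroup.card_top] at h2
    exact h1 h2
  have hs : Sub M p (c1 x) (selfC x) (principalBlock M _) (principalBlock M G) :=
    ⟨(locSet_centralizer hx).indB_principal, isPE_coe.1 hx, rfl⟩
  rw [← blockDefect_principal (M := M)] at h2
  rw [Nat.subtype_card ((fs (principalBlock M G)).filter fun χ : IrrCharacter G =>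
    ¬ p ∣ charDegree (χ : G → ℂ)) fun χ => by simp]
  refine (hs.card_le_of_FB (FB.of_central hs.central hs.pe (fun e => x1 (congrArg Subtype.val e))
    hs.ind.1 h2) (filter_subset _ _) fun χ hχ => ?_).trans (Nat.pow_le_pow_right hp.pos h2)
  obtain ⟨h3, h4⟩ := mem_filter.1 hχ
  rw [mem_fs] at h3
  have h5 := blockHeight_eq_zero_of_not_dvd (B := principalBlock M G) h4
  exact hs.cm_ne_zero h3 h5 h3 h5

end Cfsg.Agent.S4588
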