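import Cfsg.Statements.S4601
import Cfsg.Agent.H18.BG1

set_option autoImplicit false
open Cfsg

open H18 H1 Subgroup

namespace Cfsg.Agent.S4601

section
variable {G : Type*} [Group G] [Finite G] {H K L P Q : Subgroup G} {p q : ℕ}

theorem step (hp : p.Prime) (hq : q.Prime) (ne : p ≠ q)
    (h : ∀ y ∈ H, PiElt {q} y → PiNat {p}ᶜ ((H ⊓ C1(y)).relIndex H)) (hP : Hall {p} P H)
    (hQ : Hall {q} Q H) (hL : L ⊴ H) (hn : P ≤ N(Q ⊔ L)) (hπ : PiGrp {p}ᶜ L ∨ PiGrp {q}ᶜ L) :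
    ∃ P Q, Hall {p} P H ∧ Hall {q} Q H ∧ P ≤ N(Q) := by
  have nL := hQ.le.trans hL.norm
  have le := sup_le hQ.le hL.le
  rcases hπ with c | c
  · obtain ⟨R, hR, n⟩ := (cop_of_pi hn hP.pi ((PiNat.p'_of_ne hQ.pi ne.symm |> PiGrp.sup_norm) c nL)
      (.inl hP.pi.solv)).exists_sylow hq
    exact ⟨P, R, hP, hR.of_idx le (hQ.idx_of_le le_sup_left), n⟩
  have cop := cop_of_pi nL hQ.pi c (.inl hQ.pi.solv)
  obtain ⟨R, hR, n⟩ := cop.exists_sylow hp
  have RC : R ≤ C(Q) := cent_symm fun y hy => by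
    have h1 := (cop.left (zpowers_le.2 hy)).sylow_inf_cent hp hR ((zpowers_le.2 hy).trans n)
    rw [C_zpowers] at h1
    have h2 := h1.of_idx inf_le_left (by
      have := (h y (hQ.le hy) (hQ.pi.elt hy)).of_dvd (hL.relIndex_dvd' inf_le_left)
      rwa [← inf_relIndex_left, ← inf_assoc, inf_eq_left.2 hL.le] at this)
    exact le_C1_iff.1 ((h2.eq_of_le' hR inf_le_left).ge.trans inf_le_right)
  have f := frattini_arg hq (nml_sup_right hn) (hQ.of_le le_sup_left le)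
  set M := (P ⊔ (Q ⊔ L)) ⊓ N(Q)
  have e : M ⊔ L = P ⊔ (Q ⊔ L) := by
    rw [← f, sup_comm Q, sup_assoc, sup_eq_right.2 (le_inf (le_sup_of_le_right le_sup_left) le_N),
      sup_comm]
  have le' := sup_le hP.le le
  obtain ⟨T, hT⟩ := exists_sylow hp M
  refine ⟨T, Q, (hT.of_idx inf_le_left ?_).of_idx le' (hP.idx_of_le le_sup_left), hQ,
    hT.le.trans inf_le_right⟩
  rw [← e, (hL.nrm2' (inf_le_left.trans le')).relIndex_sup']
  exact hR.idx_of_le (le_inf (hR.le.trans (le_sup_of_le_right le_sup_right)) (cent_norm RC))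

theorem lift (hp : p.Prime) [K.Normal] {U : Subgroup (Coset K)} (hU : Hall {p} U (⊤ ⫽ K)) :
    ∃ P, Hall {p} P ⊤ ∧ P ⫽ K = U := by
  obtain ⟨P, -, h, e⟩ := exists_pGrp_lift hp nml_top.norm hU.le hU.pi
  exact ⟨P, h.of_idx le_top (by rw [top_inf_eq, relIndex_qpre nml_top hU.le]; exact hU.idx), e⟩

end

/-- Let p and q be primes and G a finite group that is p-solvable or q-solvable, in which no q-element has conjugacy class size divisible by p. Then some Sylow p-subgroup of G normalizes some Sylow q-subgroup of G. -/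
theorem result {G : Type*} [Group G] [Finite G] (p q : ℕ) [Fact p.Prime] [Fact q.Prime] (hsolv : Cfsg.IsPSolvable p G ∨ Cfsg.IsPSolvable q G)
    (h : ∀ y : G, (∃ k : ℕ, orderOf y = q ^ k) → ¬ p ∣ (Subgroup.centralizer ({y} : Set G)).index) :
    ∃ (P : Sylow p G) (Q : Sylow q G), (P : Subgroup G) ≤ Subgroup.normalizer ((Q : Subgroup G) : Set G) := by
  have hp : p.Prime := Fact.out
  have hq : q.Prime := Fact.out
  by_cases ne : p = q
  · subst ne
    exact ⟨default, default, le_normalizer⟩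
  obtain ⟨n, H, h0, h1, h2, h3, h4⟩ : ∃ (n : ℕ) (H : Fin (n + 1) → Subgroup G), H 0 = ⊥ ∧
      H (Fin.last n) = ⊤ ∧ Monotone H ∧ (∀ i, (H i).Normal) ∧ ∀ i : Fin n,
        PiNat {p}ᶜ ((H i.castSucc).relIndex (H i.succ)) ∨
          PiNat {q}ᶜ ((H i.castSucc).relIndex (H i.succ)) := by
    rcases hsolv with ⟨n, H, h0, h1, h2, h3, h4⟩ | ⟨n, H, h0, h1, h2, h3, h4⟩ <;>
      refine ⟨n, H, h0, h1, h2, h3, fun i => ?_⟩ <;> rcases h4 i with ⟨m, e⟩ | e
    · exact .inr (e ▸ (piNat_pow_self hp m).p'_of_ne ne)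
    · exact .inl ((piNat_compl_iff_coprime hp).2 e)
    · exact .inl (e ▸ (piNat_pow_self hq m).p'_of_ne (Ne.symm ne))
    · exact .inr ((piNat_compl_iff_coprime hq).2 e)
  have key : ∀ i, ∃ P Q : Subgroup G, Hall {p} P ⊤ ∧ Hall {q} Q ⊤ ∧ P ≤ N(Q ⊔ H i) := fun i => by
    induction i using Fin.reverseInduction with
    | last => exact ⟨_, _, hall_sylow_top hp default, hall_sylow_top hq default, by simp [h1]⟩
    | cast i ih =>
      obtain ⟨P, Q, hP, hQ, n⟩ := ih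
      have N : ∀ {A}, A ≤ N(H i.castSucc) := fun {_} => norm_of_normal
      obtain ⟨U, V, hU, hV, n⟩ := step hp hq ne (fun z hz o => by
        obtain ⟨y, -, -, o', rfl⟩ := exists_piElt_lift hz o
        obtain ⟨k, hk⟩ := o'.eq_pow (orderOf_pos y).ne'
        have := (piNat_compl_iff hp).2 (h y ⟨k, hk⟩)
        rw [← relIndex_top_right] at this
        exact (this.of_dvd (relIndex_mim_dvd le_top N)).of_dvd (relIndex_dvd_of_le_left _
          (le_inf (mim_mono le_top) (mim_C1 (N (mem_top y)) le_rfl))))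
        (hP.mim N) (hQ.mim N) (nml_top (K := H i.succ)).mim (by rw [← mim_sup N N]; exact mim_norm n)
        ((h4 i).imp (piGrp_quo_iff N).2 (piGrp_quo_iff N).2)
      obtain ⟨P, hP, rfl⟩ := lift hp hU
      obtain ⟨Q, hQ, rfl⟩ := lift hq hV
      exact ⟨P, Q, hP, hQ, norm_of_quo_norm N (nml_sup_right N) (by rwa [quo_sup_self N])⟩
  obtain ⟨P, Q, hP, hQ, n⟩ := key 0
  obtain ⟨P, rfl⟩ := hP.exists_sylow_top hp
  obtain ⟨Q, rfl⟩ := hQ.exists_sylow_top hq
  exact ⟨P, Q, by simpa [h0] using n⟩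

end Cfsg.Agent.S4601
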