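import Cfsg.Statements.S4602
import Cfsg.Agent.H4.PSol
import Cfsg.Agent.H1.Coprime
import Cfsg.Agent.H1.Cores

set_option autoImplicit false
open Cfsg

namespace Cfsg.Agent.S4602

open H1

/-- Let G be a finite p-solvable group and q a prime different from p. Some Sylow p-subgroup of G normalizes some Sylow q-subgroup of G if and only if q does not divide the order of G/O_{p'}(G), the quotient by the largest normal subgroup of order prime to p. -/
theorem result {G : Type*} [Group G] [Finite G] (p q : ℕ) [Fact p.Prime] [Fact q.Prime] (hpq : p ≠ q) (hsolv : Cfsg.IsPSolvable p G) :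
    (∃ (P : Sylow p G) (Q : Sylow q G), (P : Subgroup G) ≤ Subgroup.normalizer ((Q : Subgroup G) : Set G)) ↔ ¬ q ∣ (Cfsg.pPrimeCore p G).index := by
  have hp : p.Prime := Fact.out
  have hq : q.Prime := Fact.out
  have hs := H4.isPSolvable_iff.1 hsolv
  constructor
  · rintro ⟨P, Q, h⟩ hd
    set N := pPrimeCore p G
    let π := QuotientGroup.mk' N
    have hπ : Function.Surjective π := QuotientGroup.mk'_surjective N
    have h1 : pCore p (G ⧸ N) ≤ (P : Subgroup G).map π := pCore_le_sylow (P.mapSurjective hπ)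
    have h2 : pCore p (G ⧸ N) ≤ Subgroup.normalizer (((Q : Subgroup G).map π : Subgroup (G ⧸ N)) : Set (G ⧸ N)) :=
      h1.trans ((Subgroup.map_mono h).trans (Subgroup.le_normalizer_map _))
    have h3 : pCore p (G ⧸ N) ⊓ (Q : Subgroup G).map π = ⊥ :=
      inf_eq_bot_of_isPGroup_of_coprime (pCore_isPGroup p _)
        (IsPGroup.coprime_card (Q.2.map π) ((Nat.coprime_primes hp hq).2 hpq))
    have h4 : (Q : Subgroup G).map π ≤ pCore p (G ⧸ N) := by
      refine le_trans ?_ ((hs.quotient N).centralizer_pCore_le (pPrimeCore_quotient_eq_bot p G))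
      rw [← Subgroup.commutator_eq_bot_iff_le_centralizer, eq_bot_iff, ← h3]
      exact le_inf (Subgroup.commutator_le_right _ _) (commutator_le_of_le_normalizer h2)
    rw [inf_eq_right.2 h4, map_mk'_eq_bot_iff] at h3
    exact Q.not_dvd_index (hd.trans (Subgroup.index_dvd_of_le h3))
  · intro h
    obtain ⟨P⟩ : Nonempty (Sylow p G) := inferInstance
    obtain ⟨Q, h1, h2⟩ := exists_invariant_isSylowIn (A := (P : Subgroup G)) (K := pPrimeCore p G)
      (by rw [Subgroup.normalizer_eq_top]; exact le_top)
      (IsPGroup.coprime_card P.2 (coprime_card_pPrimeCore p G))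
      (Or.inl (isSolvable_of_isPGroup P.2)) q
    obtain ⟨S, rfl⟩ := isSylowIn_top_iff.1 (h1.trans le_top (by rwa [Subgroup.relIndex_top_right]))
    exact ⟨P, S, h2⟩

end Cfsg.Agent.S4602
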