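import Cfsg.Statements.S4604
import Cfsg.Agent.H8.Sec
import Cfsg.Agent.H8.Glaub

set_option autoImplicit false
open Cfsg

namespace Cfsg.Agent.S4604

open H5 H7 H8

/-- Let G be a finite group, p a prime and p^a the p-part of the order of G. Let x, y ∈ G and let x′, y′ be their p-regular parts: x′ has order prime to p, commutes with x·x′⁻¹, and x·x′⁻¹ has p-power order (likewise for y). Then x′ and y′ are conjugate in G if and only if for every irreducible character χ of G the algebraic integer χ(x)^(p^a) − χ(y)^(p^a) is p times an algebraic integer. -/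
theorem result {G : Type*} [Group G] [Finite G] (p : ℕ) [Fact p.Prime] (x y x' y' : G)
    (hx : (∃ k : ℕ, orderOf (x * x'⁻¹) = p ^ k) ∧ Commute (x * x'⁻¹) x' ∧ ¬ p ∣ orderOf x')
    (hy : (∃ k : ℕ, orderOf (y * y'⁻¹) = p ^ k) ∧ Commute (y * y'⁻¹) y' ∧ ¬ p ∣ orderOf y') :
    IsConj x' y' ↔ ∀ χ : Cfsg.IrrCharacter G, ∃ γ : Cfsg.AlgInt,
      (χ : G → ℂ) x ^ (p ^ (Nat.card G).factorization p) - (χ : G → ℂ) y ^ (p ^ (Nat.card G).factorization p) = (p : ℂ) * (γ : ℂ) := by
  have key : ∀ {x x' : G}, ((∃ k : ℕ, orderOf (x * x'⁻¹) = p ^ k) ∧ Commute (x * x'⁻¹) x' ∧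
      ¬ p ∣ orderOf x') → pr p x = x' ∧
        x ^ p ^ (Nat.card G).factorization p = x' ^ p ^ (Nat.card G).factorization p := by
    rintro x x' ⟨h1, h2, h3⟩
    have h4 := pr_mul_of h1 h3 h2
    rw [inv_mul_cancel_right] at h4
    refine ⟨h4, ?_⟩
    obtain ⟨k, hk⟩ := h1
    have h5 : (x * x'⁻¹) ^ p ^ (Nat.card G).factorization p = 1 := by
      rw [← orderOf_dvd_iff_pow_eq_one, hk]
      exact pow_dvd_pow _ (((Fact.out : p.Prime).pow_dvd_iff_le_factorization Nat.card_pos.ne').1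
        (hk ▸ orderOf_dvd_natCard _))
    rw [← inv_mul_cancel_right x x', h2.mul_pow, h5, one_mul]
  obtain ⟨a1, a2⟩ := key hx
  obtain ⟨b1, b2⟩ := key hy
  refine ⟨fun h χ => ?_, fun h => ?_⟩
  · obtain ⟨v, h1, h2⟩ := exists_pow_sub_eq_mul χ.2.isCharacter (Fact.out : p.Prime) x
      ((Nat.card G).factorization p)
    obtain ⟨w, h3, h4⟩ := exists_pow_sub_eq_mul χ.2.isCharacter (Fact.out : p.Prime) y
      ((Nat.card G).factorization p)
    refine ⟨⟨v - w, h1.sub h3⟩, ?_⟩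
    rw [h2, h4, a2, b2, χ.2.isClassFunction.eq_of_isConj (h.pow _)]
    ring
  · obtain ⟨M, hM⟩ := exists_isPModular p
    haveI : PM p M := ⟨hM⟩
    rw [← a1, ← b1]
    refine isConj_of_red (M := M) fun χ => ?_
    obtain ⟨γ, e⟩ := h χ
    have h1 := char_mem_O (M := M) χ.2.isCharacter
    have h2 := congrArg (red M) e
    rw [red_sub (pow_mem (h1 _) _) (pow_mem (h1 _) _), red_pow (h1 _), red_pow (h1 _),
      ← sub_pow_char_pow, red_mul (natCast_mem _ _) (mem_O_of_isIntegral γ.2), red_natCast,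
      (natCast_F_eq_zero_iff (p := p) _).2 dvd_rfl, zero_mul] at h2
    exact sub_eq_zero.1 (pow_eq_zero_iff (pow_ne_zero _ (Fact.out : p.Prime).ne_zero) |>.1 h2)

end Cfsg.Agent.S4604
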