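import Cfsg.Statements.S4608
import Cfsg.Agent.H7.SL5b
import Cfsg.Agent.H7.Wat
import Cfsg.Agent.H7.Tame
import Cfsg.Agent.H7.Misc2
import Cfsg.Agent.S4698

set_option autoImplicit false
open Cfsg

namespace Cfsg.Agent.S4608

open H5 H7

open H8 (cC nN c1 St)

theorem odd_small {M : Ideal AlgInt} {G : Type*} [Group G] [Finite G] [PM 2 M] {B : Set (IrrCharacter G)}
    {P : Subgroup G} (m : MP 2 M B P) (h : Nat.card P ∣ 4) : Odd (blockRank 2 B) := by
  by_cases hc : IsCyclic P
  · rw [m.rank_one_of (cyc_ab hc) fun t ht ho => ?_]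
    · exact odd_one
    obtain ⟨κ, hκ⟩ := exists_hom_autE (T := nN P) P.subtype_injective (by rw [Subgroup.range_subtype])
    have h1 : Nat.card (MulAut P) ∣ 2 := by
      rw [hc.card_mulAut]
      have := Nat.le_of_dvd (by norm_num) h
      generalize Nat.card P = n at *
      interval_cases n <;> first | decide | simp_all
    have h2 : κ ⟨t, ht⟩ = 1 := orderOf_eq_one_iff.1 (Nat.eq_one_of_dvd_coprimes
      ((Nat.Prime.coprime_iff_not_dvd Nat.prime_two).2 ho) ((orderOf_dvd_natCard _).trans h1)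
      ((orderOf_map_dvd κ _).trans (by rw [Subgroup.orderOf_mk])))
    intro a ha
    have := hκ ⟨t, ht⟩ ⟨a, ha⟩
    rw [h2] at this
    exact eq_mul_inv_iff_mul_eq.1 this
  · have h4 : Nat.card P = 4 := by
      have := Nat.le_of_dvd (by norm_num) h
      have h1 : Nat.card P ≠ 1 := fun e => hc (by
        have := (Nat.card_eq_one_iff_unique.1 e).1
        infer_instance)
      have h2 : Nat.card P ≠ 2 := fun e => hc (isCyclic_of_prime_card e)
      generalize Nat.card P = n at *
      interval_cases n <;> simp_all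
    obtain ⟨n, S, τ, d⟩ := dh_klein m ⟨h4, (not_isCyclic_iff_exponent_eq_prime Nat.prime_two
      (h4.trans rfl)).1 hc⟩
    rw [d.rank]
    exact (by simpa using d.ev : Even n).add_one

theorem five_sq {ι : Type*} (s : Finset ι) (f : ι → ℕ) (h : s.card = 5) (h0 : ∀ i ∈ s, f i ≠ 0)
    (h9 : ∑ i ∈ s, f i ^ 2 ≤ 9) : ∑ i ∈ s, f i ^ 2 = 5 ∨ ∑ i ∈ s, f i ^ 2 = 8 := by
  have h1 : ∀ i ∈ s, 1 ≤ f i ^ 2 := fun i hi => Nat.pos_of_ne_zero (pow_ne_zero _ (h0 i hi))
  have h2 : ∀ i ∈ s, f i ^ 2 % 3 = 1 := fun i hi => by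
    classical
    have := Finset.card_nsmul_le_sum (s.erase i) _ 1 fun j hj => h1 j (Finset.mem_of_mem_erase hj)
    rw [← Finset.add_sum_erase _ _ hi] at h9
    rw [Finset.card_erase_of_mem hi, h, smul_eq_mul] at this
    have h3 := h0 i hi
    have : f i < 3 := lt_of_pow_lt_pow_left₀ 2 (by norm_num) (by omega)
    interval_cases f i <;> simp_all
  have h3 := Finset.card_nsmul_le_sum s _ 1 h1
  have h4 := Finset.sum_nat_mod s 3 fun i => f i ^ 2
  rw [Finset.sum_congr rfl h2, Finset.sum_const, h] at h4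
  rw [h] at h3
  simp only [smul_eq_mul] at h3 h4
  omega

/-- Let G be a finite group, p a prime, M a maximal ideal of the algebraic integers containing p, and B a p-block of G with defect group D. If B has p-regular rank one and exactly five irreducible characters, then D is cyclic of order 5, or D has order 8 and is non-abelian (dihedral or quaternion). -/
theorem result {G : Type*} [Group G] [Finite G] (p : ℕ) [Fact p.Prime] (M : Ideal Cfsg.AlgInt) (hM : Cfsg.IsPModular p M) (B : Set (Cfsg.IrrCharacter G)) (hB : Cfsg.IsPBlock M B) (D : Subgroup G) (hD : Cfsg.IsDefectGroup p M B D)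
    (hl : Cfsg.blockRank p B = 1) (hk : Nat.card B = 5) :
    (Nat.card D = 5) ∨ (Nat.card D = 8 ∧ ¬ IsMulCommutative D) := by
  classical
  haveI : PM p M := ⟨hM⟩
  have hp : p.Prime := Fact.out
  have := Fintype.ofFinite G
  have hs := isSat_of_isPBlock hB
  obtain ⟨j, hj⟩ := hs.exists_IB hl
  have h1 := hs.cart_le_nine hj hk.le
  have h2 := hs.cart_eq (hj.ge rfl)
  rw [finsum_mem_irr', ← Finset.sum_filter] at h2
  have h3 := five_sq _ (fun χ : IrrCharacter G => dec (χ : G → ℂ) j) ((card_eq_fl B).symm.trans hk)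
    (fun χ hχ e => charDegree_ne_zero χ.2 (by
      rw [hs.charDegree_eq hj (Finset.mem_filter.1 hχ).2, e, zero_mul])) (h2 ▸ h1)
  rw [← h2] at h3
  rcases h3 with h3 | h3
  · exact .inl ((okuyama_tsushima hB hj (by omega) hD).2.2.trans hk)
  have h4 := pow_dvd_cart (p := p) hB hj
  have h5 := (S4698.result p M hM B hB _ rfl).1
  have h6 := IsDefectGroup.card hB hD
  rw [h3, show 8 = 2 ^ 3 from rfl] at h4
  obtain ⟨d, hd, e⟩ := (Nat.dvd_prime_pow Nat.prime_two).1 h4
  have h7 : 3 ≤ blockDefect p B := by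
    by_contra! h
    have := h5 (by omega)
    rw [hk, e] at this
    have h8 : d = 3 := by interval_cases d <;> simp_all
    subst h8
    have : p ∣ 2 := hp.dvd_of_dvd_pow (n := 3) (e ▸ dvd_pow_self p (by rintro e0; simp [e0] at e))
    obtain rfl := (Nat.prime_dvd_prime_iff_eq hp Nat.prime_two).1 this
    have := Nat.pow_right_injective le_rfl e
    omega
  obtain rfl := (Nat.prime_dvd_prime_iff_eq hp Nat.prime_two).1
    (hp.dvd_of_dvd_pow ((dvd_pow_self p (by omega)).trans h4))
  have h8 : Nat.card D = 8 := by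
    have := (Nat.pow_dvd_pow_iff_le_right one_lt_two).1 h4
    rw [h6, show blockDefect 2 B = 3 by omega]; rfl
  refine .inr ⟨h8, fun hc => ?_⟩
  have hab : D ≤ cC D := fun x hx y hy => congrArg Subtype.val (hc.is_comm.comm ⟨y, hy⟩ ⟨x, hx⟩)
  obtain ⟨m⟩ := nonempty_mp hB hD
  have := Fintype.ofFinite D
  set E := autE D.subtype (nN D ⊓ St m.e)
  have he : Odd (Nat.card E) := Nat.not_even_iff_odd.1 (mt even_iff_two_dvd.1 (m.not_dvd_card_autE hab))
  have hcl : ∀ v, m.cl v ∣ Nat.card E := fun v => by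
    rw [show m.cl v = (MulAction.stabilizer E v).index by
      rw [MulAction.index_stabilizer]
      exact Nat.card_congr (Equiv.subtypeEquivRight fun w => (m.fc_iff_ec hab).trans
        ⟨fun ⟨σ, h, e⟩ => ⟨⟨σ, h⟩, e⟩, fun ⟨σ, e⟩ => ⟨σ, σ.2, e⟩⟩)]
    exact Subgroup.index_dvd_card _
  have hr : ∀ v, Odd (blockRank 2 (m.bu v)) := fun v => by
    by_cases hv : v = 1
    · rw [hv, m.rank_bu_one, hl]; exact odd_one
    obtain ⟨L, _, _, π, hπ, hk, h1, h2⟩ := H8.exists_quot_central (p := 2) (z := selfC (v : G))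
      (fun c => Subtype.ext (Subgroup.mem_centralizer_singleton_iff.1 c.2))
      (isPE_coe.1 (m.isPE v))
    obtain ⟨b1, b2, b3⟩ := H8.dominated hπ h1 (fun y _ => h2 y) (m.bu_blk v)
    obtain ⟨m'⟩ := nonempty_mp b1 (b2 _ (m.dfc_bu (hab v.2)))
    rw [blockRank_quot hπ h1 (fun y _ => h2 y) (m.bu_sat v)]
    refine odd_small m' ?_
    rw [m.defect_bu (hab v.2), ← h6, ← IsDefectGroup.card b1 m'.dfc, h8, hk] at b3
    obtain ⟨a, ha⟩ := (IsPGroup.iff_card.1 (hk ▸ h1))
    rw [ha] at b3
    rcases a with _ | a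
    · have : (v : G) = 1 := congrArg Subtype.val (Subgroup.zpowers_eq_bot.1 (Subgroup.card_eq_one.1 ha))
      exact absurd (Subtype.ext this) hv
    · exact ⟨2 ^ a, by rw [pow_succ] at b3; linarith⟩
  have key : Nat.card E * 5 = ∑ v, Nat.card E / m.cl v * blockRank 2 (m.bu v) := by
    apply Nat.cast_injective (R := ℂ)
    have := m.card_eq
    rw [hk] at this
    push_cast at this ⊢
    rw [this, Finset.mul_sum]
    refine Finset.sum_congr rfl fun v _ => ?_
    rw [Nat.cast_div (hcl v) (m.cl_ne_zero v), div_eq_mul_inv, mul_assoc]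
  have := (Finset.odd_sum_iff_odd_card_odd _).1 (key ▸ he.mul (by decide))
  rw [Finset.filter_true_of_mem fun v _ => (he.of_dvd_nat (Nat.div_dvd_of_dvd (hcl v))).mul (hr v),
    Finset.card_univ, Fintype.card_eq_nat_card, h8] at this
  exact absurd this (by decide)

end Cfsg.Agent.S4608
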