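import Cfsg.Statements.S4609
import Cfsg.Agent.H7.NA
import Cfsg.Agent.H3.PGrpBasic
import Cfsg.Agent.S4607
import Cfsg.Agent.H6.Extension

set_option autoImplicit false
open Cfsg

namespace Cfsg.Agent.S4609

open H5 H7

/-- Let G be a finite group, p a prime, M a maximal ideal of the algebraic integers containing p, and B a p-block of G with defect group D containing exactly three irreducible characters. Suppose the number of height-zero characters of B equals the number of height-zero characters of its Brauer correspondent b, the block of N_G(D) with defect group D inducing B (as the Alperin–McKay conjecture predicts). Then D has order 3. -/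
theorem result {G : Type*} [Group G] [Finite G] (p : ℕ) [Fact p.Prime] (M : Ideal Cfsg.AlgInt) (hM : Cfsg.IsPModular p M) (B : Set (Cfsg.IrrCharacter G)) (hB : Cfsg.IsPBlock M B) (D : Subgroup G) (hD : Cfsg.IsDefectGroup p M B D) (hk : Nat.card B = 3)
    (b : Set (Cfsg.IrrCharacter (Subgroup.normalizer (D : Set G)))) (hbB : Cfsg.IsInducedBlock M (Subgroup.normalizer (D : Set G)) b B)
    (hbD : Cfsg.IsDefectGroup p M b (D.subgroupOf (Subgroup.normalizer (D : Set G))))
    (hAM : Nat.card {χ : Cfsg.IrrCharacter G // χ ∈ B ∧ Cfsg.blockHeight p B (χ : G → ℂ) = 0} =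
           Nat.card {ψ : Cfsg.IrrCharacter (Subgroup.normalizer (D : Set G)) // ψ ∈ b ∧ Cfsg.blockHeight p b (ψ : Subgroup.normalizer (D : Set G) → ℂ) = 0}) :
    Nat.card D = 3 := by
  classical
  haveI : PM p M := ⟨hM⟩
  have hb := hbB.1
  obtain ⟨P, hP⟩ : ∃ P, P = D.subgroupOf (Subgroup.normalizer (D : Set G)) := ⟨_, rfl⟩
  haveI : P.Normal := hP ▸ inferInstance
  have hc : Nat.card P = Nat.card D :=
    hP ▸ Nat.card_congr (Subgroup.subgroupOfEquivOfLe Subgroup.le_normalizer).toEquiv
  rw [← hP] at hbD
  have hp := IsDefectGroup.isPGroup hbD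
  have hπ := QuotientGroup.mk'_surjective ⁅P, P⁆
  obtain ⟨c, h1, h2, h3⟩ := exists_dominated hπ (by
    rw [QuotientGroup.ker_mk']; exact hp.to_le (Subgroup.commutator_le_left P P)) hb
  have h4 := (h3 _).2 ⟨P, hbD, rfl⟩
  haveI : (P.map (QuotientGroup.mk' ⁅P, P⁆)).Normal := Subgroup.Normal.map inferInstance _ hπ
  have h5 : ∀ x ∈ P.map (QuotientGroup.mk' ⁅P, P⁆), ∀ y ∈ P.map (QuotientGroup.mk' ⁅P, P⁆),
      x * y = y * x := by
    rintro _ ⟨x, hx, rfl⟩ _ ⟨y, hy, rfl⟩
    rw [← commutatorElement_eq_one_iff_mul_comm, ← map_commutatorElement]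
    exact (QuotientGroup.eq_one_iff _).2 (Subgroup.commutator_mem_commutator hx hy)
  have h6 : Nat.card c ≤ 3 := by
    refine le_trans ?_ (hAM.ge.trans (hk ▸ Nat.card_le_card_of_injective
      (fun χ => (⟨χ.1, χ.2.1⟩ : B)) fun _ _ e => Subtype.ext (congrArg (·.1) e)))
    refine Nat.card_le_card_of_injective (fun χ => ⟨icomp _ hπ χ.1, h2 χ.2, ?_⟩)
      fun _ _ e => Subtype.ext (icomp_injective _ hπ (congrArg (·.1) e))
    letI := Fintype.ofFinite (_ ⧸ ⁅P, P⁆)
    have e1 := (Nat.factorization_le_iff_dvd (charDegree_ne_zero χ.1.2)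
      Subgroup.index_ne_zero_of_finite).2 (H6.ito_degree_dvd _ h5 χ.1.2) p
    have e2 := factorization_add_defect (M := M) (p := p) (B := b) (χ := icomp _ hπ χ.1) (h2 χ.2)
    have e3 := factorization_index_add (p := p) P
    rw [IsDefectGroup.card hb hbD, Nat.factorization_pow_self Fact.out] at e3
    rw [Subgroup.index_map_eq _ hπ (by
      rw [QuotientGroup.ker_mk']; exact Subgroup.commutator_le_left P P)] at e1
    rw [show charDegree (icomp _ hπ χ.1).1 = charDegree χ.1.1 by simp [charDegree]] at e2
    omega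
  have h7 := card_le_three h1 h4 (fun x hx y hy => h5 y hy x hx) h6
  have h8 : Nat.card (P ⧸ commutator P) = Nat.card (P.map (QuotientGroup.mk' ⁅P, P⁆)) := by
    have := Subgroup.index_ker ((QuotientGroup.mk' ⁅P, P⁆).comp P.subtype)
    rw [MonoidHom.range_comp, Subgroup.range_subtype, ← MonoidHom.comap_ker, QuotientGroup.ker_mk']
      at this
    rw [← this, ← Subgroup.map_subtype_commutator,
      Subgroup.comap_map_eq_self_of_injective P.subtype_injective]
    rfl
  haveI : IsCyclic (P ⧸ commutator P) := by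
    have := Nat.card_pos (α := P ⧸ commutator P)
    obtain e | e | e : Nat.card (P ⧸ commutator P) = 1 ∨ Nat.card (P ⧸ commutator P) = 2 ∨
      Nat.card (P ⧸ commutator P) = 3 := by omega
    · haveI := (Nat.card_eq_one_iff_unique.1 e).1
      infer_instance
    · exact isCyclic_of_prime_card e
    · exact isCyclic_of_prime_card e
  haveI := H3.isCyclic_of_isCyclic_quotient_commutator hp
  rw [← h8, (commutator_eq_bot_iff P).2 inferInstance, ← Subgroup.index, Subgroup.index_bot, hc] at h7
  have h9 := (Cfsg.Agent.S4607.result p M hM B hB D hD).2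
  have h10 := (card_eq_one_iff (p := p) hB).2
  have h11 := IsDefectGroup.card hB hD
  have h12 := Nat.card_pos (α := D)
  by_contra h
  have : Nat.card D = 1 := by omega
  rw [this, eq_comm, Nat.pow_eq_one] at h11
  have := h10 (h11.resolve_left (Fact.out : p.Prime).ne_one)
  omega

end Cfsg.Agent.S4609
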