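import Cfsg.Statements.S4611
import Cfsg.Agent.H8.BSol

set_option autoImplicit false
open Cfsg

namespace Cfsg.Agent.S4611

open H5 H7 H8

/-- Let G be a finite solvable group and π a nonempty set of primes, each dividing the order of G; fix for each p in π a maximal ideal M p of the algebraic integers containing p. Then the only irreducible character lying in the principal p-block for every p in π is the principal character if and only if G is generated by the subgroups O_{p'}(G), p in π (the largest normal subgroups of order prime to p). -/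
theorem result {G : Type*} [Group G] [Finite G] [Group.IsSolvable G] (π : Set ℕ) (hπ : ∀ p ∈ π, p.Prime ∧ p ∣ Nat.card G) (hne : π.Nonempty) (M : ℕ → Ideal Cfsg.AlgInt) (hM : ∀ p ∈ π, Cfsg.IsPModular p (M p)) :
    (∀ χ : Cfsg.IrrCharacter G, (∀ p ∈ π, χ ∈ Cfsg.principalBlock (M p) G) → (χ : G → ℂ) = fun _ => 1) ↔
      ⨆ p ∈ π, Cfsg.pPrimeCore p G = ⊤ := by
  have key : ∀ χ : IrrCharacter G, (∀ p ∈ π, χ ∈ principalBlock (M p) G) ↔
      ⨆ p ∈ π, pPrimeCore p G ≤ charKer (χ : G → ℂ) := fun χ => by
    rw [iSup₂_le_iff]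
    refine forall₂_congr fun p hp => ?_
    haveI : Fact p.Prime := ⟨(hπ p hp).1⟩
    haveI : PM p (M p) := ⟨hM p hp⟩
    rw [principal_of_pSol (p := p) H4.pSol_top_of_solvable, mem_kerSet_iff_le]
  simp only [key]
  refine ⟨fun h => ?_, fun h χ hχ => χ.2.charKer_eq_top_iff.1 (top_le_iff.1 (h ▸ hχ))⟩
  haveI : (⨆ p ∈ π, pPrimeCore p G).Normal := Subgroup.biSup_normal π _ fun _ _ => inferInstance
  refine top_le_iff.1 fun g _ => by_contra fun hg => ?_
  obtain ⟨χ, h1, h2, h3⟩ := exists_irr_le_charKer_not_mem _ hg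
  exact h3 (h1.charKer_eq_top_iff.2 (h ⟨χ, h1⟩ h2) ▸ trivial)

end Cfsg.Agent.S4611
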