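import Cfsg.Statements.S4613
import Cfsg.Agent.H24.LieAll

set_option autoImplicit false
open Cfsg

namespace Cfsg.Agent.S4613

open H24

/-- Let G be a finite simple group of Lie type in characteristic p and α an automorphism of G of order prime to p that fixes some Sylow p-subgroup of G elementwise. Then α is the identity. -/
theorem result {G : Type*} [Group G] [Finite G] [IsSimpleGroup G] (p : ℕ) [Fact p.Prime] (hG : Cfsg.IsLieTypeChar p G) (α : MulAut G) (hα : ¬ p ∣ orderOf α) (U : Sylow p G) (hfix : ∀ x ∈ (U : Subgroup G), α x = x) : α = 1 := by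
  exact (lie_lp hG).aut α hα U hfix

end Cfsg.Agent.S4613
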