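import Cfsg.Statements.S4620
import Cfsg.Agent.H1.Cores
import Cfsg.Agent.H1.SylowIn

set_option autoImplicit false
open scoped Pointwise
open Cfsg

namespace Cfsg.Agent.S4620

open H1
theorem not_le {H : Type*} [Group H] [Finite H] {p : ℕ} [hp : Fact p.Prime] (hOp : pCore p H = ⊥)
    (hOp' : pPrimeCore p H = ⊥)
    (hT : ∀ P Q : Sylow p H, (P : Subgroup H) ⊓ Q ≠ ⊥ → P = Q) (N K : Subgroup H) [N.Normal]
    [K.Normal] (hN : N ≠ ⊥) (hK : K ≠ ⊥) : ¬ K ≤ Subgroup.centralizer (N : Set H) := by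
  have hd : ∀ N : Subgroup H, N.Normal → N ≠ ⊥ → p ∣ Nat.card N := fun N _ hN => by
    by_contra h
    exact hN (eq_bot_of_pPrimeCore_eq_bot hOp' (hp.out.coprime_iff_not_dvd.2 h).symm)
  intro h
  obtain ⟨x, hx, ho⟩ := exists_prime_orderOf_mem hp.out (hd N ‹_› hN)
  obtain ⟨P, hP⟩ := (IsPGroup.of_card (p := p) (n := 1) (G := Subgroup.zpowers x)
    (by rw [Nat.card_zpowers, ho, pow_one])).exists_le_sylow
  have hxP : x ∈ (P : Subgroup H) := hP (Subgroup.mem_zpowers x)
  have h1 : K ≤ Subgroup.normalizer ((P : Subgroup H) : Set H) := fun k hk => by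
    refine Sylow.smul_eq_iff_mem_normalizer.1 (hT _ _ fun e => ?_)
    have : x ∈ ((k • P : Sylow p H) : Subgroup H) ⊓ P := by
      refine ⟨?_, hxP⟩
      have := conj_mem_conj_smul (g := k) hxP
      rwa [← h hk x hx, mul_inv_cancel_right] at this
    rw [e, Subgroup.mem_bot] at this
    rw [this, orderOf_one] at ho
    exact hp.out.ne_one ho.symm
  have h2 : IsSylowIn p ((P : Subgroup H) ⊓ K) K :=
    (isSylowIn_top P).inf le_top (by rw [Subgroup.normalizer_eq_top])
  have h3 := h2.eq_map_pCore (le_normalizer_inf h1 Subgroup.le_normalizer)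
  exact h2.ne_bot (hd K ‹_› hK) (eq_bot_iff.2 (h3.le.trans ((map_pCore_le_of_normal K).trans hOp.le)))

theorem exists_min {H : Type*} [Group H] [Finite H] {p : ℕ} [hp : Fact p.Prime] (hOp : pCore p H = ⊥)
    (hOp' : pPrimeCore p H = ⊥)
    (hT : ∀ P Q : Sylow p H, (P : Subgroup H) ⊓ Q ≠ ⊥ → P = Q) (h : (⊤ : Subgroup H) ≠ ⊥) :
    ∃ N : Subgroup H, N.Normal ∧ N ≠ ⊥ ∧ ∀ K : Subgroup H, K.Normal → K ≠ ⊥ → N ≤ K := by
  obtain ⟨N, h1, h2, -, h3⟩ := exists_minimal_normal_le ⊤ h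
  refine ⟨N, h1, h2, fun K hK h4 => ?_⟩
  rcases h3 (N ⊓ K) inferInstance inf_le_left with e | e
  · refine absurd ?_ (not_le hOp hOp' hT N K h2 h4)
    rw [← Subgroup.commutator_eq_bot_iff_le_centralizer, eq_bot_iff, ← e, inf_comm]
    exact Subgroup.commutator_le_inf _ _
  · exact inf_eq_left.1 e

/-- Let H be a finite group with no nontrivial normal p-subgroup and no nontrivial normal subgroup of order prime to p, whose Sylow p-subgroup P is nontrivial and a trivial-intersection set (P meets its conjugates by elements outside N_H(P) trivially). Then H has a unique minimal normal subgroup N; N is non-abelian simple with trivial centralizer in H (so H embeds in Aut(N)), and a Sylow p-subgroup of N is again a nontrivial trivial-intersection set in N. -/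
theorem result {H : Type*} [Group H] [Finite H] (p : ℕ) [Fact p.Prime] (hOp : Cfsg.pCore p H = ⊥) (hOp' : Cfsg.pPrimeCore p H = ⊥) (P : Sylow p H) (hP1 : (P : Subgroup H) ≠ ⊥)
    (hTI : ∀ g : H, g ∉ Subgroup.normalizer ((P : Subgroup H) : Set H) → (P : Subgroup H) ⊓ (MulAut.conj g • (P : Subgroup H)) = ⊥) :
    ∃ N : Subgroup H, N.Normal ∧ N ≠ ⊥ ∧ (∀ K : Subgroup H, K.Normal → K ≠ ⊥ → N ≤ K) ∧
      IsSimpleGroup N ∧ ¬ IsMulCommutative N ∧ Subgroup.centralizer (N : Set H) = ⊥ ∧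
      ∀ Q : Sylow p N, (Q : Subgroup N) ≠ ⊥ ∧
        ∀ n : N, n ∉ Subgroup.normalizer ((Q : Subgroup N) : Set N) → (Q : Subgroup N) ⊓ (MulAut.conj n • (Q : Subgroup N)) = ⊥ := by
  have hT : ∀ P Q : Sylow p H, (P : Subgroup H) ⊓ Q ≠ ⊥ → P = Q := by
    intro A B h
    obtain ⟨a, rfl⟩ := MulAction.exists_smul_eq H P A
    obtain ⟨b, rfl⟩ := MulAction.exists_smul_eq H (a • P) B
    by_contra hne
    have := hTI (a⁻¹ * b * a) (fun h => hne (by
      have h := Sylow.smul_eq_iff_mem_normalizer.2 h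
      rw [mul_smul, mul_smul, inv_smul_eq_iff] at h
      exact h.symm))
    apply h
    rw [← conj_smul_eq_bot_iff (g := a), Subgroup.smul_inf, conj_smul_conj_smul] at this
    rw [← this, ← mul_smul, show a * (a⁻¹ * b * a) = b * a by group]
    rfl
  obtain ⟨N, hN, h1, h2⟩ := exists_min hOp hOp' hT fun h => hP1 (eq_bot_iff.2 (le_top.trans h.le))
  have hC : Subgroup.centralizer (N : Set H) = ⊥ := by
    by_contra h
    exact not_le hOp hOp' hT N _ h1 h le_rfl
  have hinj : ∀ K : Subgroup N, K.map N.subtype = ⊥ → K = ⊥ := fun K h =>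
    (Subgroup.map_eq_bot_iff_of_injective _ N.subtype_injective).1 h
  have hO1 : pCore p N = ⊥ := hinj _ (eq_bot_iff.2 ((map_pCore_le_of_normal N).trans hOp.le))
  have hO2 : pPrimeCore p N = ⊥ :=
    hinj _ (eq_bot_iff.2 ((map_pPrimeCore_le_of_normal N).trans hOp'.le))
  have hTN : ∀ P Q : Sylow p N, (P : Subgroup N) ⊓ Q ≠ ⊥ → P = Q := by
    intro A B h
    obtain ⟨A', hA⟩ := A.exists_comap_subtype_eq
    obtain ⟨B', hB⟩ := B.exists_comap_subtype_eq
    have := hT A' B' fun e => h (by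
      rw [← hA, ← hB, ← Subgroup.comap_inf, e, MonoidHom.comap_bot, Subgroup.ker_subtype])
    exact Sylow.ext (by rw [← hA, ← hB, this])
  haveI : Nontrivial N := (Subgroup.nontrivial_iff_ne_bot N).2 h1
  obtain ⟨M, hM, h3, h4⟩ := exists_min hO1 hO2 hTN top_ne_bot
  haveI : M.Characteristic := Subgroup.characteristic_iff_le_comap.2 fun ϕ =>
    h4 _ inferInstance fun e => h3 (by
      rw [← Subgroup.map_comap_eq_self_of_surjective (f := ϕ.toMonoidHom) ϕ.surjective M]
      exact (congrArg _ e).trans (Subgroup.map_bot _))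
  have h5 : M = ⊤ := by
    have := h2 (M.map N.subtype) inferInstance fun e => h3 (hinj _ e)
    rw [eq_top_iff]
    intro x _
    obtain ⟨y, hy, e⟩ := this x.2
    rwa [← Subtype.ext e]
  refine ⟨N, hN, h1, h2, ⟨fun K hK => ?_⟩, fun h => h1 ?_, hC, fun Q => ⟨fun h => ?_, fun n hn => ?_⟩⟩
  · by_cases h : K = ⊥
    · exact Or.inl h
    · exact Or.inr (eq_top_iff.2 (h5 ▸ h4 K hK h))
  · rw [eq_bot_iff, ← hC]
    exact fun x hx y hy => isMulCommutative_iff.1 h y hy x hx
  · have := Q.not_dvd_index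
    rw [h, Subgroup.index_bot] at this
    exact h1 (eq_bot_of_pPrimeCore_eq_bot hOp' ((Fact.out : p.Prime).coprime_iff_not_dvd.2 this).symm)
  · by_contra h
    exact hn (Sylow.smul_eq_iff_mem_normalizer.1 (hTN Q (n • Q) h).symm)

end Cfsg.Agent.S4620
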