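import Cfsg.Statements.S4630
import Cfsg.Agent.H11.Syl2

set_option autoImplicit false
open Cfsg

namespace Cfsg.Agent.S4630

/-- Let F be a finite field of odd order and m ≥ 1 with m even or m ≥ 4. For the commutator subgroup Ω of the isometry group of the plus-type quadratic form Σ_{i<m} x_i y_i in dimension 2m over F, a Sylow 2-subgroup P of Ω has P/P' elementary abelian: the square of every element of P lies in the derived subgroup of P. -/
theorem result {F : Type*} [Field F] [Fintype F] (hF : Odd (Fintype.card F)) (m : ℕ) (hm : 1 ≤ m) (hm' : Even m ∨ 4 ≤ m) (P : Sylow 2 (Cfsg.Omega F (Cfsg.quadFormPlus m F))) : ∀ x : (P : Subgroup (Cfsg.Omega F (Cfsg.quadFormPlus m F))), x ^ 2 ∈ commutator (P : Subgroup (Cfsg.Omega F (Cfsg.quadFormPlus m F))) := by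
  have h2 := H11.two_ne_zero_iff_odd.2 hF
  have := H11.PForm.finite_isom (S := H11.sPlus m F)
  have := Finite.of_equiv _ (H11.omegaEquiv (H11.qPlus m F)).symm.toEquiv
  have hd : Module.finrank F (Fin m ⊕ Fin m → F) = 2 * m := by simp [two_mul]
  refine H11.ex_sylow_equiv (H11.omegaEquiv (H11.qPlus m F)) ((H11.sPlus_nondeg m F).ex_omega h2 ?_) P
  by_cases h : m = 2
  · subst h
    exact .inr ⟨hd, by simpa using ((H11.sPlus_nondeg 2 F).hasTS_iff_disc h2 hd).1 (H11.sPlus_hasTS 2 F)⟩
  · exact .inl (by rw [hd]; rcases hm' with ⟨k, rfl⟩ | h <;> omega)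

end Cfsg.Agent.S4630
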