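import Cfsg.Statements.S4632
import Cfsg.Agent.H12.Zorn

set_option autoImplicit false
open Cfsg

namespace Cfsg.Agent.S4632

theorem result {F : Type*} [Field F] [Fintype F] (hF : Odd (Fintype.card F)) (P : Sylow 2 (Cfsg.Lie.G2 F)) : ∀ x : (P : Subgroup (Cfsg.Lie.G2 F)), x ^ 2 ∈ commutator (P : Subgroup (Cfsg.Lie.G2 F)) := by
  exact H12.ex_zorn hF P

end Cfsg.Agent.S4632
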