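import Cfsg.Statements.S4705
import Cfsg.Agent.H8.Fe2
import Cfsg.Agent.H8.Cd1
import Cfsg.Agent.S2202

set_option autoImplicit false
open Cfsg

namespace Cfsg.Agent.S4705

open H5 H7 H8 H10 Subgroup
open scoped commutatorElement

theorem core {G : Type*} [Group G] [Finite G] {p : ℕ} [hp : Fact p.Prime] (h5 : 5 < p) {P : Sylow p G}
    (hP : Nat.card (P : Subgroup G) = p) (hn : ¬ (P : Subgroup G).Normal) {χ : G → ℂ}
    (hχ : IsIrrCharacter G χ) (hf : ∀ g, χ g = χ 1 → g = 1) (hd : charDegree χ + 2 = p)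
    (hG : commutator G = ⊤) : ∃ (a : ℕ) (F : Type) (_ : Field F) (_ : Fintype F), p = 2 ^ a + 1 ∧
      Fintype.card F = 2 ^ a ∧ Nonempty (G ≃* Matrix.SpecialLinearGroup (Fin 2) F) := by
  classical
  obtain ⟨l, hl, h1, h2, h3, t, -, ht⟩ := shape2 hP (by omega) hn (χ := ⟨χ, hχ⟩) hd hf
  have h : FT P χ l := ⟨hP, h5, hχ, hd, hf, hG, hl, h1, h2⟩
  have he : 2 ∣ Nat.card G := h3 ▸ (relIndex_dvd_card _ _).trans (card_subgroup_dvd_card _)
  obtain ⟨T⟩ : Nonempty (Sylow 2 G) := inferInstance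
  rcases Cfsg.Agent.S2202.result (even_iff_two_dvd.2 he) (fun t ht => h.comm ht) with
    hc | hc | ⟨F, _, _, A, _, _, _, -, ⟨e⟩⟩
  · exact absurd (hc T) (not_isCyclic_sylow_two_of_perfect hG he T)
  · exfalso
    haveI := hc T
    obtain ⟨v, hv⟩ : ∃ x : (P : Subgroup G), x ≠ 1 := by
      have := Finite.one_lt_card_iff_nontrivial.1 (hp.out.one_lt.trans_eq hP.symm)
      exact exists_ne 1
    obtain ⟨m, hm⟩ : Odd (T : Subgroup G).index := Nat.not_even_iff_odd.1 fun e =>
      T.not_dvd_index (even_iff_two_dvd.1 e)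
    have e1 : ∀ j : ℕ, t ^ (2 * j + 1) * v * (t ^ (2 * j + 1))⁻¹ = (v : G)⁻¹ := fun j => by
      induction j with
      | zero => simpa using ht v v.2
      | succ j ih =>
        calc _ = t * (t * (t ^ (2 * j + 1) * v * (t ^ (2 * j + 1))⁻¹) * t⁻¹) * t⁻¹ := by group
          _ = _ := by rw [ih, ht _ (inv_mem v.2), inv_inv, ht _ v.2]
    have e2 : t ^ (2 * m + 1) ∈ (T : Subgroup G) := hm ▸ pow_index_mem _ t
    have e3 : (v : G)⁻¹ * (v : G)⁻¹ ∈ (T : Subgroup G) := by
      have := mul_mem e2 ((hc T).conj_mem _ (inv_mem e2) v)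
      rwa [← mul_assoc, ← mul_assoc, e1] at this
    obtain ⟨j, hj⟩ := T.isPGroup' ⟨_, e3⟩
    have hj' : ((v : G)⁻¹ * (v : G)⁻¹) ^ 2 ^ j = 1 := congrArg Subtype.val hj
    have e4 : (v : G) ^ 2 ^ (j + 1) = 1 := by
      rw [← sq, ← pow_mul, ← pow_succ', inv_pow, inv_eq_one] at hj'
      exact hj'
    refine h.reg_two e4 ?_
    rcases (Nat.dvd_prime hp.out).1 ((Subgroup.orderOf_dvd_natCard _ v.2).trans hP.dvd) with h2 | h2
    · exact absurd (Subtype.ext (orderOf_eq_one_iff.1 h2)) hv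
    · exact h2.symm.dvd
  · have hA : ∀ g, (e g).2 = 1 := fun g => by
      have : commutator G ≤ ((MonoidHom.snd _ A).comp e.toMonoidHom).ker :=
        Abelianization.commutator_subset_ker _
      exact this (hG ▸ mem_top g)
    haveI : Unique A := ⟨⟨1⟩, fun a => by simpa using hA (e.symm (1, a))⟩
    let e' := e.trans (MulEquiv.prodUnique)
    obtain ⟨a, -, ha⟩ := FiniteField.card F 2
    refine ⟨a, F, inferInstance, inferInstance, ?_, ha, ⟨e'⟩⟩
    have hc : Nat.card G = 2 ^ (a : ℕ) * (2 ^ (a : ℕ) - 1) * (2 ^ (a : ℕ) + 1) := by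
      rw [Nat.card_congr e'.toEquiv, card_SL2, ha]
    have h6 : 2 ^ (a : ℕ) ∣ Nat.card (T : Subgroup G) :=
      T.pow_dvd_card_of_pow_dvd_card (hc ▸ (Dvd.intro _ rfl).mul_right _)
    haveI := Fintype.ofFinite (T : Subgroup G)
    obtain ⟨m, hm⟩ := (hχ.isCharacter.restrict (T : Subgroup G)).exists_classInner_nat isCharacter_one
    have h7 := card_mul_classInner (fun x : (T : Subgroup G) => χ x) (fun _ => 1)
    simp only [map_one, mul_one] at h7
    rw [hm, sum_eq_of_const (T : Subgroup G) χ (-1) fun x hx hx1 => by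
      obtain ⟨j, hj⟩ := T.isPGroup' ⟨x, hx⟩
      exact h.inv_val (h.two_elt (congrArg Subtype.val hj)) hx1, h.one] at h7
    have h8 : Nat.card (T : Subgroup G) * (m + 1) + 1 = p := by
      apply Nat.cast_injective (R := ℂ); push_cast; linear_combination h7
    have h9 : 2 ^ (a : ℕ) + 1 ≤ p := by
      have := Nat.le_of_dvd Nat.card_pos h6
      nlinarith
    have h10 : p ∣ Nat.card G := hP ▸ card_subgroup_dvd_card _
    have h11 : 1 < 2 ^ (a : ℕ) := Nat.one_lt_two_pow a.ne_zero
    rw [hc] at h10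
    rcases (hp.out.dvd_mul).1 h10 with h | h
    · rcases (hp.out.dvd_mul).1 h with h | h
      · have := Nat.le_of_dvd (by omega) h; omega
      · have := Nat.le_of_dvd (by omega) h; omega
    · have := Nat.le_of_dvd (by omega) h; omega

theorem not_normal_sub {G : Type*} [Group G] [Finite G] {p : ℕ} [hp : Fact p.Prime] {P : Sylow p G}
    (hn : ¬ (P : Subgroup G).Normal) (L : Subgroup G) [L.Normal] (h : (P : Subgroup G) ≤ L) :
    ¬ (P.subtype h : Subgroup L).Normal := fun hh => by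
  haveI := hh
  haveI := Sylow.characteristic_of_normal (P.subtype h) hh
  have := ConjAct.normal_of_characteristic_of_normal (H := L) (K := (P.subtype h : Subgroup L))
  rw [Sylow.coe_subtype, map_subgroupOf_eq_of_le h] at this
  exact hn this

/-- Let G be a finite group with centre Z and p > 5 a prime such that a Sylow p-subgroup of G has order p and is not normal. If G has a faithful irreducible character of degree p − 2, then p = 2^a + 1 for some a and G is isomorphic to the direct product of SL(2, 2^a) with Z. -/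
theorem result {G : Type*} [Group G] [Finite G] (p : ℕ) [Fact p.Prime] (hp : 5 < p) (P : Sylow p G) (hP : Nat.card P = p) (hnn : ¬ (P : Subgroup G).Normal) (ζ : G → ℂ) (hζ : Cfsg.IsIrrCharacter G ζ) (hfaith : ∀ g : G, ζ g = ζ 1 → g = 1) (hdeg : Cfsg.charDegree ζ = p - 2) : ∃ (a : ℕ) (F : Type) (_ : Field F) (_ : Fintype F), p = 2 ^ a + 1 ∧ Fintype.card F = 2 ^ a ∧ Nonempty (G ≃* Matrix.SpecialLinearGroup (Fin 2) F × Subgroup.center G) := by
  classical
  haveI := Fintype.ofFinite G
  have hd : charDegree ζ + 2 = p := by omega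
  obtain ⟨l, hl, h1, h2, h3, t, htN, ht⟩ := shape2 hP (by omega) hnn (χ := ⟨ζ, hζ⟩) hd hfaith
  have p2 : ¬ 2 ∣ p := fun e => by
    have := (Nat.prime_dvd_prime_iff_eq Nat.prime_two Fact.out).1 e
    omega
  have hPH : (P : Subgroup G) ≤ commutator G := fun v hv => by
    have e1 : v * v ∈ commutator G := by
      have := commutator_mem_commutator (mem_top t) (mem_top v⁻¹)
      rwa [commutatorElement_def, ht _ (inv_mem hv), inv_inv] at this
    obtain ⟨m, hm⟩ := exists_pow_eq_self_of_coprime (x := v) (n := 2)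
      ((Nat.Prime.coprime_iff_not_dvd Nat.prime_two).2 fun e =>
        p2 (e.trans ((Subgroup.orderOf_dvd_natCard _ hv).trans hP.dvd)))
    rw [← hm, sq]; exact pow_mem e1 m
  let L := commutator G ⊔ center G
  have hPL : (P : Subgroup G) ≤ L := hPH.trans le_sup_left
  have hCL : cC (P : Subgroup G) ≤ L := fun y hy => by
    obtain ⟨v, hv, w, hw, e⟩ : ∃ v ∈ (P : Subgroup G), ∃ w ∈ center G, y = v * w := by
      refine ⟨pp p y, ?_, pr p y, h2 _ (pr_mem hy) (not_dvd_orderOf_pr y), (pp_mul_pr y).symm⟩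
      have h3 : IsPGroup p (zpowers (pp p y)) := by
        obtain ⟨k, hk⟩ := isPE_pp (p := p) y
        exact IsPGroup.of_card (n := k) (by rw [Nat.card_zpowers, hk])
      exact (P.is_maximal' (IsPGroup.to_sup_of_normal_right' h3 P.isPGroup' (by
        rw [Subgroup.zpowers_le]; exact cC_le_nN _ (pp_mem hy))) le_sup_right).le
        (Subgroup.mem_sup_left (Subgroup.mem_zpowers _))
    rw [e]; exact mul_mem (hPL hv) (mem_sup_right hw)
  have hfr : nN (P : Subgroup G) ⊔ L = ⊤ := Sylow.normalizer_sup_eq_top' P hPL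
  have hidx : L.index ∣ 2 := by
    rw [← h3, ← relIndex_top_right, ← hfr, relIndex_sup_right]
    exact relIndex_dvd_of_le_left _ hCL
  have hres : ∀ (K : Subgroup G) [K.Normal], K.index ∣ 2 → IsIrrCharacter K fun x : K => ζ x :=
    fun K _ hK => by
    obtain ⟨θ, hθ, h⟩ := H6.exists_irr_under (N := K) hζ
    obtain ⟨b, hb, e⟩ := deg_dvd_of_under hζ hθ h
    rcases (Nat.dvd_prime Nat.prime_two).1 (hb.trans hK) with rfl | rfl
    · rw [H6.eq_of_constituent_of_apply_one (hζ.isCharacter.restrict K) hθ h (by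
        rw [← hθ.coe_charDegree, OneMemClass.coe_one, ← hζ.coe_charDegree, e, one_mul])]
      exact hθ
    · omega
  have hL : L = ⊤ := by
    have hi := hres L hidx
    obtain ⟨-, -, -, -, -, s, hsN, hs⟩ := shape2 (P := P.subtype hPL) (by
      rw [Sylow.coe_subtype, Nat.card_congr (subgroupOfEquivOfLe hPL).toEquiv, hP]) (by omega)
      (not_normal_sub hnn L hPL) (χ := ⟨_, hi⟩) hd (fun g hg => Subtype.ext (hfaith g hg))
    have hs' : ∀ v ∈ (P : Subgroup G), (s : G) * v * (s : G)⁻¹ = v⁻¹ := fun v hv =>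
      congrArg Subtype.val (hs ⟨v, hPL hv⟩ hv)
    have hsN' : (s : G) ∈ nN (P : Subgroup G) :=
      mem_normalizer_fintype fun v hv => by rw [hs' v hv]; exact inv_mem hv
    obtain ⟨v, hv⟩ : ∃ x : (P : Subgroup G), x ≠ 1 := by
      have := Finite.one_lt_card_iff_nontrivial.1 ((Fact.out : p.Prime).one_lt.trans_eq hP.symm)
      exact exists_ne 1
    have hsC : (s : G) ∉ cC (P : Subgroup G) := fun e => by
      have e1 := hs' v v.2
      rw [← e v v.2, mul_inv_cancel_right, eq_inv_iff_mul_eq_one, ← sq] at e1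
      rcases (Nat.dvd_prime Fact.out).1 ((Subgroup.orderOf_dvd_natCard _ v.2).trans hP.dvd) with h | h
      · exact hv (Subtype.ext (orderOf_eq_one_iff.1 h))
      · have := Nat.le_of_dvd two_pos (h ▸ orderOf_dvd_of_pow_eq_one e1)
        omega
    rw [eq_top_iff, ← hfr]
    refine sup_le (fun n hn => ?_) le_rfl
    by_cases hc : n ∈ cC (P : Subgroup G)
    · exact hCL hc
    · have := (mul_mem_iff_of_index_two h3 (a := ⟨n, hn⟩) (b := ⟨s, hsN'⟩)).2
        ⟨fun e => absurd e hc, fun e => absurd e hsC⟩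
      exact (L.mul_mem_cancel_right s.2).1 (hCL this)
  let H := commutator G
  have hdec : ∀ g : G, ∃ a ∈ H, ∃ z ∈ center G, a * z = g := fun g =>
    mem_sup_of_normal_right.1 (show g ∈ L from hL ▸ mem_top g)
  have hi : IsIrrCharacter H fun x : H => ζ x := H6.irr_res_of_closure le_rfl hζ (by
    rw [eq_top_iff, ← hL]
    refine sup_le_sup_left (fun z hz => Subgroup.subset_closure fun e => ?_) _
    have := hζ.mem_charCenter.1 (hζ.center_le_charCenter hz)
    rw [e, norm_zero] at this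
    exact hζ.apply_one_ne_zero (norm_eq_zero.1 this.symm))
  have hperf : commutator H = ⊤ := by
    rw [← map_subtype_inj, map_subtype_commutator, ← MonoidHom.range_eq_map, range_subtype]
    refine le_antisymm (commutator_le_left _ _) (commutator_le.2 fun a _ b _ => ?_)
    obtain ⟨a, ha, z, hz, rfl⟩ := hdec a
    obtain ⟨b, hb, w, hw, rfl⟩ := hdec b
    have : ⁅a * z, b * w⁆ = ⁅a, b⁆ := by
      simp only [commutatorElement_def]
      calc _ = a * (z * (b * w) * z⁻¹) * (a⁻¹ * w⁻¹) * b⁻¹ := by group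
        _ = _ := by
          rw [← mem_center_iff.1 hz, mem_center_iff.1 (inv_mem hw)]; group
    rw [this]; exact commutator_mem_commutator ha hb
  obtain ⟨a, F, _, _, e1, e2, ⟨e⟩⟩ := core hp (P := P.subtype hPH) (by
      rw [Sylow.coe_subtype, Nat.card_congr (subgroupOfEquivOfLe hPH).toEquiv, hP])
      (not_normal_sub hnn H hPH) hi (fun g hg => Subtype.ext (hfaith g hg)) hd hperf
  refine ⟨a, F, inferInstance, inferInstance, e1, e2, ⟨MulEquiv.trans (MulEquiv.symm ?_)
    (MulEquiv.prodCongr e (MulEquiv.refl _))⟩⟩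
  have hZ : Nat.card (center (Matrix.SpecialLinearGroup (Fin 2) F)) = 1 := by
    rw [card_center_SL2, e2]
    have : a ≠ 0 := by rintro rfl; omega
    exact Nat.coprime_two_left.2 (Nat.Even.sub_odd (Nat.one_le_two_pow)
      (Nat.even_pow.2 ⟨even_two, this⟩) odd_one)
  refine MulEquiv.ofBijective (H.subtype.noncommCoprod (center G).subtype
    fun x z => mem_center_iff.1 z.2 x) ⟨(injective_iff_map_eq_one _).2 fun x hx => ?_, fun g => ?_⟩
  · have hx : (x.1 : G) * x.2 = 1 := hx
    have h4 : (x.1 : G) ∈ center G := by rw [eq_inv_of_mul_eq_one_left hx]; exact inv_mem x.2.2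
    have h6 : e x.1 ∈ center (Matrix.SpecialLinearGroup (Fin 2) F) := mem_center_iff.2 fun y => by
      obtain ⟨y, rfl⟩ := e.surjective y
      rw [← map_mul, ← map_mul]
      exact congrArg e (Subtype.ext (mem_center_iff.1 h4 y))
    rw [card_eq_one.1 hZ, mem_bot, map_eq_one_iff _ e.injective] at h6
    rw [h6, OneMemClass.coe_one, one_mul] at hx
    exact Prod.ext h6 (Subtype.ext hx)
  · obtain ⟨a, ha, z, hz, rfl⟩ := hdec g
    exact ⟨(⟨a, ha⟩, ⟨z, hz⟩), rfl⟩

end Cfsg.Agent.S4705
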