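import Cfsg.Statements.S4710
import Cfsg.Agent.H8.BF

set_option autoImplicit false
open Cfsg

namespace Cfsg.Agent.S4710

open H5 H7 H8

/-- Let p be a prime, M a maximal ideal of the algebraic integers containing p, and B a p-block of defect d of the finite group G containing k irreducible characters. If B contains a character of positive height then 2k ≤ p^(2d − 2); and every character in B has height 0 when d ≤ 1 and height at most d − 2 when d ≥ 2. -/
theorem result {G : Type*} [Group G] [Finite G] (p : ℕ) [Fact p.Prime] (M : Ideal Cfsg.AlgInt) (hM : Cfsg.IsPModular p M) (B : Set (Cfsg.IrrCharacter G)) (hB : Cfsg.IsPBlock M B) (d : ℕ) (hd : Cfsg.blockDefect p B = d) : ((∃ χ ∈ B, 0 < Cfsg.blockHeight p B (χ : G → ℂ)) → 2 * Nat.card B ≤ p ^ (2 * d - 2)) ∧ ∀ χ ∈ B, (d ≤ 1 → Cfsg.blockHeight p B (χ : G → ℂ) = 0) ∧ (2 ≤ d → Cfsg.blockHeight p B (χ : G → ℂ) ≤ d - 2) := by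
  classical
  haveI : PM p M := ⟨hM⟩
  subst hd
  have hp : p.Prime := Fact.out
  refine ⟨fun ⟨χ, hχ, h0⟩ => ?_, fun χ hχ => ?_⟩
  · set T := (Set.toFinite B).toFinset
    have hT : ∀ ψ, ψ ∈ T ↔ ψ ∈ B := fun ψ => by simp [T]
    obtain ⟨h1, h2⟩ := bf_pos hB hχ h0.ne'
      (T.filter fun ψ => blockHeight p B (ψ : G → ℂ) = 0) fun ψ hψ => by
        simpa [hT] using hψ
    obtain ⟨ξ, hξ, h3⟩ := exists_height_zero (p := p) ⟨χ, hχ⟩
    have h4 := bf_sum hB hξ h3 (T.filter fun ψ : IrrCharacter G => ¬ blockHeight p B (ψ : G → ℂ) = 0)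
      (by simp [h3]) fun ψ hψ => (hT ψ).1 (Finset.mem_filter.1 hψ).1
    have h5 : (T.filter fun ψ : IrrCharacter G => ¬ blockHeight p B (ψ : G → ℂ) = 0).card * p ^ 2 ≤
        ∑ ψ ∈ T.filter fun ψ : IrrCharacter G => ¬ blockHeight p B (ψ : G → ℂ) = 0,
          p ^ (2 * blockHeight p B (ψ : G → ℂ)) := by
      rw [← smul_eq_mul]
      refine Finset.card_nsmul_le_sum _ _ _ fun ψ hψ => Nat.pow_le_pow_right hp.pos ?_
      have := (Finset.mem_filter.1 hψ).2
      omega
    have h6 : p ^ 2 ≤ p ^ (2 * blockHeight p B (χ : G → ℂ)) := Nat.pow_le_pow_right hp.pos (by omega)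
    have h7 := Finset.card_filter_add_card_filter_not (s := T)
      (fun ψ => blockHeight p B (ψ : G → ℂ) = 0)
    have h8 : Nat.card B = T.card := by
      rw [Nat.card_coe_set_eq, Set.ncard_eq_toFinset_card _ (Set.toFinite B)]
    have h9 : p ^ (2 * blockDefect p B) = p ^ (2 * blockDefect p B - 2) * p ^ 2 := by
      rw [← pow_add]; congr 1; omega
    have h10 := Nat.mul_le_mul_left
      (T.filter fun ψ : IrrCharacter G => blockHeight p B (ψ : G → ℂ) = 0).card h6
    rw [h8, ← h7]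
    refine Nat.le_of_mul_le_mul_right ?_ (pow_pos hp.pos 2)
    rw [← h9]
    nlinarith
  · by_cases h0 : blockHeight p B (χ : G → ℂ) = 0
    · simp [h0]
    · have := (bf_pos hB hχ h0 ∅ (by simp)).2
      constructor <;> omega

end Cfsg.Agent.S4710
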