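import Cfsg.Statements.S4741
import Cfsg.Agent.H8.Rob

set_option autoImplicit false
open Cfsg

namespace Cfsg.Agent.S4741

open H5 H7 H8

/-- Let p be a prime, M a maximal ideal of the algebraic integers containing p, and D a subgroup of the finite group G. Let x₁, …, x_r be pairwise non-conjugate elements of G such that D is a Sylow p-subgroup of the centralizer of each xᵢ, and such that for any conjugates g of some xᵢ and h of some xⱼ the element g h⁻¹ is never a non-identity p-element. Then there are r distinct p-blocks B₁, …, B_r of G, each having D as a defect group, such that for every choice of characters χᵢ ∈ Bᵢ of height zero the determinant of the r × r matrix (χᵢ(xⱼ)) does not lie in the local ideal at M. -/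
theorem result {G : Type*} [Group G] [Finite G] (p : ℕ) [Fact p.Prime] (M : Ideal Cfsg.AlgInt) (hM : Cfsg.IsPModular p M) (D : Subgroup G) {r : ℕ} (x : Fin r → G) (hx : ∀ i j : Fin r, IsConj (x i) (x j) → i = j) (hD : ∀ i : Fin r, ∃ S : Sylow p ↥(Subgroup.centralizer ({x i} : Set G)), (S : Subgroup ↥(Subgroup.centralizer ({x i} : Set G))).map (Subgroup.centralizer ({x i} : Set G)).subtype = D) (hsep : ∀ i j : Fin r, ∀ g h : G, IsConj (x i) g → IsConj (x j) h → ∀ k : ℕ, 0 < k → orderOf (g * h⁻¹) ≠ p ^ k) : ∃ B : Fin r → Set (Cfsg.IrrCharacter G), Function.Injective B ∧ (∀ i : Fin r, Cfsg.IsPBlock M (B i) ∧ Cfsg.IsDefectGroup p M (B i) D) ∧ ∀ χ : Fin r → Cfsg.IrrCharacter G, (∀ i : Fin r, χ i ∈ B i ∧ Cfsg.blockHeight p (B i) (χ i : G → ℂ) = 0) → ¬ Cfsg.MemLocalIdeal M (Matrix.det (Matrix.of fun i j : Fin r => (χ i : G → ℂ) (x j))) := by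
  haveI : PM p M := ⟨hM⟩
  have hD' : ∀ i, SylIn p D (c1 (x i)) := fun i => (hD i).imp fun S h => h.symm
  obtain ⟨B, h1, h2⟩ := exists_blocks_of_sep (M := M) x hx hD' fun i j g h hg hh ⟨k, hk⟩ => by
    rcases Nat.eq_zero_or_pos k with rfl | h0
    · exact mul_inv_eq_one.1 (orderOf_eq_one_iff.1 (by simpa using hk))
    · exact (hsep i j g h hg hh k h0 hk).elim
  refine ⟨fun i => (B i).1, fun i j e => h1 (Subtype.ext e), fun i => (B i).2, fun χ hχ => ?_⟩
  obtain ⟨h3, h4⟩ := red_det (M := M) (Matrix.of fun i j : Fin r => (χ i : G → ℂ) (x j))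
    fun i j => char_mem_O (χ i).2.isCharacter _
  rw [← mem_mC, ← red_eq_zero_iff h3, h4]
  intro h5
  have h6 : (Matrix.of fun i j : Fin r => (χ i : G → ℂ) (x j)).map (red M) *
      Matrix.diagonal (fun j => ((ordCompl[p] (c1 (x j)).index : ℕ) : F M)) =
      Matrix.diagonal (fun i => ((ordCompl[p] (charDegree (χ i : G → ℂ)) : ℕ) : F M)) *
        Matrix.of fun i j => red M (centralChar (χ i : G → ℂ) (x j)) := by
    ext i j
    rw [Matrix.mul_diagonal, Matrix.diagonal_mul]
    exact red_char_mul (B i).2.1 (B i).2.2 (hχ i).1 (hχ i).2 (hD' j)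
  have h7 := congrArg Matrix.det h6
  rw [Matrix.det_mul, Matrix.det_mul, h5, zero_mul, Matrix.det_diagonal] at h7
  exact mul_ne_zero (Finset.prod_ne_zero_iff.2 fun i _ => ordCompl_ne_zero (p := p)
    (charDegree_ne_zero (χ i).2)) (h2 χ fun i => (hχ i).1) h7.symm

end Cfsg.Agent.S4741
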