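import Cfsg.Statements.S4742
import Cfsg.Agent.H8.Rob

set_option autoImplicit false
open Cfsg

namespace Cfsg.Agent.S4742

open H5 H7 H8

/-- Let p ≠ q be primes dividing the order of the finite group G, and suppose the centralizer of every non-identity p-element of G has order prime to q. Then either G has an irreducible character of p-defect zero, or for every non-identity q-element z of G there are conjugates g, h of z such that g h⁻¹ is a non-identity p-element. -/
theorem result {G : Type*} [Group G] [Finite G] (p q : ℕ) [Fact p.Prime] [Fact q.Prime] (hppq : p ≠ q) (hpG : p ∣ Nat.card G) (hqG : q ∣ Nat.card G) (hC : ∀ g : G, g ≠ 1 → (∃ k : ℕ, orderOf g = p ^ k) → ¬ q ∣ Nat.card ↥(Subgroup.centralizer ({g} : Set G))) : (∃ χ : Cfsg.IrrCharacter G, (Cfsg.charDegree (χ : G → ℂ)).factorization p = (Nat.card G).factorization p) ∨ ∀ z : G, z ≠ 1 → (∃ k : ℕ, orderOf z = q ^ k) → ∃ g h : G, IsConj z g ∧ IsConj z h ∧ g * h⁻¹ ≠ 1 ∧ ∃ k : ℕ, orderOf (g * h⁻¹) = p ^ k := by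
  obtain ⟨M, hM⟩ := exists_isPModular p
  haveI : PM p M := ⟨hM⟩
  by_contra h
  push Not at h
  obtain ⟨h1, z, hz, ⟨k, hk⟩, h2⟩ := h
  obtain ⟨χ, hχ⟩ := exists_defect_zero_of_sep (M := M) (p := p) (x := z) (fun hd => by
    obtain ⟨g, hg⟩ := exists_prime_orderOf_dvd_card' p hd
    have hp : p.Prime := Fact.out
    refine hC g (fun e => hp.ne_one ?_) ⟨1, by rw [Subgroup.orderOf_coe, hg, pow_one]⟩ ?_
    · rw [← hg, orderOf_eq_one_iff]; exact Subtype.ext e
    · refine dvd_trans ?_ (orderOf_dvd_natCard (⟨z, Subgroup.mem_centralizer_singleton_iff.2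
        (Subgroup.mem_centralizer_singleton_iff.1 g.2).symm⟩ : c1 (g : G)))
      rw [Subgroup.orderOf_mk, hk]
      refine dvd_pow_self _ fun e => hz ?_
      rw [← orderOf_eq_one_iff, hk, e, pow_zero]) fun g h hg hh ⟨j, hj⟩ => by
    by_contra e
    exact h2 g h hg hh (fun e' => e (mul_inv_eq_one.1 e')) j hj
  exact h1 χ hχ

end Cfsg.Agent.S4742
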