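import Cfsg.Statements.S4743
import Cfsg.Agent.S4742
import Cfsg.Agent.H4.PSol

set_option autoImplicit false
open Cfsg

namespace Cfsg.Agent.S4743

open H7
theorem key {G : Type*} [Group G] [Finite G] {r s : ℕ} [hr : Fact r.Prime]
    (h : ∀ z : G, z ≠ 1 → (∃ k : ℕ, orderOf z = r ^ k) → ∃ g h : G, IsConj z g ∧ IsConj z h ∧
      g * h⁻¹ ≠ 1 ∧ ∃ k : ℕ, orderOf (g * h⁻¹) = s ^ k) (K : Subgroup G) [hK : K.Normal]
    (hd : r ∣ Nat.card K) : s ∣ Nat.card K := by
  obtain ⟨z, hz⟩ := exists_prime_orderOf_dvd_card' r hd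
  obtain ⟨g, h, h1, h2, h3, k, hk⟩ := h z (fun e => hr.out.ne_one (by
    rw [← hz, ← Subgroup.orderOf_coe, e, orderOf_one])) ⟨1, by rw [Subgroup.orderOf_coe, hz, pow_one]⟩
  obtain ⟨a, rfl⟩ := isConj_iff.1 h1
  obtain ⟨b, rfl⟩ := isConj_iff.1 h2
  refine dvd_trans ?_ (K.orderOf_dvd_natCard (mul_mem (hK.conj_mem _ z.2 a)
    (inv_mem (hK.conj_mem _ z.2 b))))
  exact hk ▸ dvd_pow_self s fun e => h3 (by rw [← orderOf_eq_one_iff, hk, e, pow_zero])

theorem main {G : Type*} [Group G] [Finite G] {r s : ℕ} [hr : Fact r.Prime] [hs : Fact s.Prime]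
    (hrs : r ≠ s) (hd : r ∣ Nat.card G) (h : IsPSolvable r G)
    (h1 : ∀ K : Subgroup G, K.Normal → r ∣ Nat.card K → s ∣ Nat.card K)
    (h2 : ∀ K : Subgroup G, K.Normal → s ∣ Nat.card K → r ∣ Nat.card K) : False := by
  have h3 := ((H4.isPSolvable_iff.1 h).quotient (pPrimeCore r G)).centralizer_pCore_le
    (H1.pPrimeCore_quotient_eq_bot r G)
  obtain ⟨k, hk⟩ := IsPGroup.iff_card.1 (isPGroup_pCore' (p := r) (G := G ⧸ pPrimeCore r G))
  have h4 : Nat.card ((pCore r (G ⧸ pPrimeCore r G)).comap (QuotientGroup.mk' _)) =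
      r ^ k * Nat.card (pPrimeCore r G) := by
    rw [← hk, H1.card_comap_mk']
  have h5 := not_dvd_card_pPrimeCore (p := r) (G := G)
  have h6 : k ≠ 0 := by
    rintro rfl
    have h7 : pCore r (G ⧸ pPrimeCore r G) = ⊤ := by
      rw [pow_zero, Subgroup.card_eq_one] at hk
      refine top_le_iff.1 (le_trans (fun x _ => Subgroup.mem_centralizer_iff.2 fun y hy => ?_) h3)
      rw [hk] at hy
      rw [Subgroup.mem_bot.1 hy]; simp
    rw [h7, Subgroup.comap_top, Subgroup.card_top, pow_zero, one_mul] at h4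
    exact h5 (h4 ▸ hd)
  rcases (Nat.Prime.dvd_mul hs.out).1 (h4 ▸ h1 _ inferInstance
    (h4 ▸ (dvd_pow_self r h6).mul_right _)) with e | e
  · exact hrs ((Nat.prime_dvd_prime_iff_eq hs.out hr.out).1 (hs.out.dvd_of_dvd_pow e)).symm
  · exact h5 (h2 _ inferInstance e)

/-- Let p ≠ q be primes dividing the order of the finite group G, suppose the centralizer of every non-identity p-element has order prime to q, and suppose G is p-solvable or q-solvable. Then G has an irreducible character of p-defect zero or an irreducible character of q-defect zero. -/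
theorem result {G : Type*} [Group G] [Finite G] (p q : ℕ) [Fact p.Prime] [Fact q.Prime] (hppq : p ≠ q) (hpG : p ∣ Nat.card G) (hqG : q ∣ Nat.card G) (hC : ∀ g : G, g ≠ 1 → (∃ k : ℕ, orderOf g = p ^ k) → ¬ q ∣ Nat.card ↥(Subgroup.centralizer ({g} : Set G))) (hsolv : Cfsg.IsPSolvable p G ∨ Cfsg.IsPSolvable q G) : (∃ χ : Cfsg.IrrCharacter G, (Cfsg.charDegree (χ : G → ℂ)).factorization p = (Nat.card G).factorization p) ∨ (∃ χ : Cfsg.IrrCharacter G, (Cfsg.charDegree (χ : G → ℂ)).factorization q = (Nat.card G).factorization q) := by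
  have hp : p.Prime := Fact.out
  have hq : q.Prime := Fact.out
  by_contra h
  rw [not_or] at h
  have h1 := (S4742.result p q hppq hpG hqG hC).resolve_left h.1
  have h2 := (S4742.result q p hppq.symm hqG hpG fun z hz ⟨k, hk⟩ hd => by
    obtain ⟨g, hg⟩ := exists_prime_orderOf_dvd_card' p hd
    refine hC g (fun e => hp.ne_one ?_) ⟨1, by rw [Subgroup.orderOf_coe, hg, pow_one]⟩ ?_
    · rw [← hg, orderOf_eq_one_iff]; exact Subtype.ext e
    · refine dvd_trans ?_ (Subgroup.orderOf_dvd_natCard _ (Subgroup.mem_centralizer_singleton_iff.2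
        (Subgroup.mem_centralizer_singleton_iff.1 g.2).symm))
      exact hk ▸ dvd_pow_self _ fun e => hz (by
        rw [← orderOf_eq_one_iff, hk, e, pow_zero])).resolve_left h.2
  rcases hsolv with e | e
  · exact main hppq hpG e (fun K _ => key h2 K) fun K _ => key h1 K
  · exact main hppq.symm hqG e (fun K _ => key h1 K) fun K _ => key h2 K

end Cfsg.Agent.S4743
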