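import Cfsg.Statements.S4744
import Cfsg.Agent.H8.Inv

set_option autoImplicit false
open Cfsg

namespace Cfsg.Agent.S4744

open H8

/-- Let p be an odd prime and G a finite group of even order divisible by p in which the centralizer of every non-identity p-element has odd order. Then either G has an irreducible character of p-defect zero, or the normalizer of every Sylow p-subgroup P of G has even order and P is abelian. -/
theorem result {G : Type*} [Group G] [Finite G] (p : ℕ) [Fact p.Prime] (hp2 : p ≠ 2) (hpG : p ∣ Nat.card G) (h2G : 2 ∣ Nat.card G) (hC : ∀ g : G, g ≠ 1 → (∃ k : ℕ, orderOf g = p ^ k) → Odd (Nat.card ↥(Subgroup.centralizer ({g} : Set G)))) : (∃ χ : Cfsg.IrrCharacter G, (Cfsg.charDegree (χ : G → ℂ)).factorization p = (Nat.card G).factorization p) ∨ ∀ P : Sylow p G, Even (Nat.card ↥(Subgroup.normalizer ((P : Subgroup G) : Set G))) ∧ IsMulCommutative ↥(P : Subgroup G) := by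
  refine or_iff_not_imp_left.2 fun h0 P => ?_
  obtain ⟨t, ht⟩ := exists_prime_orderOf_dvd_card' 2 h2G
  obtain ⟨s, h1, h2⟩ := exists_inverted hp2 hC h0 ht P
  refine ⟨even_iff_two_dvd.2 ?_, comm_of_inverts h2⟩
  rw [← ht, H9.IsConj.orderOf_eq' h1]
  exact H18.orderOf_dvd_card (H18.mem_N_of_finite fun b hb => by rw [h2 b hb]; exact inv_mem hb)

end Cfsg.Agent.S4744
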