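import Cfsg.Statements.S4746
import Cfsg.Agent.H8.Inv

set_option autoImplicit false
open Cfsg

namespace Cfsg.Agent.S4746

open H5 H7 H8

/-- Let p be an odd prime and G a finite group of even order divisible by p in which the centralizer of every non-identity p-element has odd order. Then G has an irreducible character of p-defect zero or an irreducible character of even degree. -/
theorem result {G : Type*} [Group G] [Finite G] (p : ℕ) [Fact p.Prime] (hp2 : p ≠ 2) (hpG : p ∣ Nat.card G) (h2G : 2 ∣ Nat.card G) (hC : ∀ g : G, g ≠ 1 → (∃ k : ℕ, orderOf g = p ^ k) → Odd (Nat.card ↥(Subgroup.centralizer ({g} : Set G)))) : (∃ χ : Cfsg.IrrCharacter G, (Cfsg.charDegree (χ : G → ℂ)).factorization p = (Nat.card G).factorization p) ∨ ∃ χ : Cfsg.IrrCharacter G, Even (Cfsg.charDegree (χ : G → ℂ)) := by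
  classical
  have hp : p.Prime := Fact.out
  refine or_iff_not_imp_left.2 fun h0 => ?_
  by_contra h1
  push Not at h1
  haveI : Fact (Nat.Prime 2) := ⟨Nat.prime_two⟩
  obtain ⟨M, hM⟩ := exists_isPModular 2
  haveI : PM 2 M := ⟨hM⟩
  obtain ⟨t, ht⟩ := exists_prime_orderOf_dvd_card' 2 h2G
  obtain ⟨P⟩ : Nonempty (Sylow p G) := inferInstance
  obtain ⟨s, -, h2⟩ := exists_inverted hp2 hC h0 ht P
  obtain ⟨u, hu, u1⟩ := H18.exists_mem_ne_one' (P.ne_bot_of_dvd_card hpG)
  haveI : CharP (F M) 2 := (CharP.charP_iff_prime_eq_zero Nat.prime_two).2 (p_eq_zero_F (M := M))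
  have hO : ∀ χ : IrrCharacter G, (χ : G → ℂ) u ∈ O M := fun χ => char_mem_O χ.2.isCharacter _
  have h3 := congrArg (red M) (sum_irr_mul_conj_of_isConj (IsConj.refl u))
  have h4 := congrArg (red M) (sum_irr_mul_conj_of_not_isConj (g := u) (h := 1)
    fun e => u1 (isConj_one_right.1 e.symm))
  have h5 : ∀ χ : IrrCharacter G, (starRingEnd ℂ) ((χ : G → ℂ) u) = (χ : G → ℂ) u := fun χ => by
    rw [← χ.2.apply_inv, ← h2 u hu, χ.2.isClassFunction u s]
  have h6 : ∀ χ : IrrCharacter G, (starRingEnd ℂ) ((χ : G → ℂ) 1) = charDegree (χ : G → ℂ) :=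
    fun χ => by rw [← charDegree_cast χ.2.isCharacter, map_natCast]
  simp only [h5, h6] at h3 h4
  rw [red_sum _ fun χ _ => mul_mem (hO χ) (hO χ), red_natCast] at h3
  rw [red_sum _ fun χ _ => mul_mem (hO χ) (natCast_mem _ _), red_zero,
    Finset.sum_congr rfl (g := fun χ : IrrCharacter G => red M ((χ : G → ℂ) u)) fun χ _ => by
      rw [red_mul (hO χ) (natCast_mem _ _), red_natCast, CharTwo.natCast_eq_ite,
        if_neg (h1 χ), mul_one]] at h4
  have h7 := congrArg (· ^ 2) h4
  simp only [sum_pow_char] at h7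
  rw [CharTwo.natCast_eq_ite, if_neg (Nat.not_even_iff_odd.2
    (hC u u1 (isPE_of_mem P.isPGroup' hu))), Finset.sum_congr rfl fun χ _ =>
      (red_mul (hO χ) (hO χ)).trans (sq _).symm, h7] at h3
  simp at h3

end Cfsg.Agent.S4746
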