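import Cfsg.Statements.S4748
import Cfsg.Agent.H21.MinAct
import Cfsg.Agent.H21.PLen
import Cfsg.Agent.H5.FS
import Cfsg.Agent.H5.Central
import Cfsg.Agent.H1.FTCor

set_option autoImplicit false
open scoped Pointwise
open Cfsg

namespace Cfsg.Agent.S4748

open H18 H21 H1 Subgroup H5
open scoped commutatorElement

theorem key {G : Type*} [Group G] [Finite G] {P Q : Subgroup G} {q : ℕ} (h : MinAct q P P Q)
    (hs : ∀ w ∈ P, w ≠ 1 → Q ⊓ C1(w) ≤ C(P)) {χ : G → ℂ} (hχ : IsCharacter G χ) (hf : ∀ g : G, χ g = χ 1 → g = 1) :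
    Nat.card P < charDegree χ ^ 2 := by
  classical
  have := Fintype.ofFinite Q
  have hD : ∀ w ∈ P, w ≠ 1 → Q ⊓ C1(w) ≤ ⁅Q, Q⁆ := fun w hw h1 => h.cent_eq_der ▸ le_inf inf_le_left (hs w hw h1)
  have hDP : ⁅Q, Q⁆ ≤ C(P) := h.cent_eq_der ▸ inf_le_right
  have gen : ∀ w ∈ P, w ≠ 1 → ∀ R W : Subgroup G, R ≤ Q → w ∈ N(R) → ⁅Q, Q⁆ ≤ W →
      (∀ x ∈ R, w * x * w⁻¹ * x⁻¹ ∈ W) → R ≤ W := by
    intro w hw h1 R W hR hn hW e
    refine ((h.cop.mono (zpowers_le.2 hw) hR (zpowers_le.2 hn)).le_sup_of_comm_le (W := W) ?_).trans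
      (sup_le le_rfl ((inf_le_inf hR C_zpowers.le).trans ((hD w hw h1).trans hW)))
    rw [H18.comm_comm, commutator_le]
    intro g hg
    obtain ⟨n, rfl⟩ := mem_powers_iff_mem_zpowers.2 hg
    clear hg
    induction n with
    | zero => intro x _; simp [W.one_mem]
    | succ n ih =>
      intro x hx
      have : ⁅w ^ (n + 1), x⁆ = ⁅w ^ n, w * x * w⁻¹⁆ * (w * x * w⁻¹ * x⁻¹) := by simp only [commutatorElement_def]; group
      change ⁅w ^ (n + 1), x⁆ ∈ W
      rw [this]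
      exact W.mul_mem (ih _ (conj_mem_N hn hx)) (e x hx)
  have hQ := hχ.restrict Q
  obtain ⟨m, hm, em⟩ := hQ.exists_nat
  have hdeg : charDegree χ = ∑ θ : IrrCharacter Q, m θ * charDegree (θ : Q → ℂ) := by
    have := congrFun em 1
    simp only [Finset.sum_apply, Pi.smul_apply, smul_eq_mul, OneMemClass.coe_one] at this
    rw [← hχ.coe_charDegree] at this
    simp only [← fun θ : IrrCharacter Q => Cfsg.IsIrrCharacter.coe_charDegree θ.2] at this
    exact_mod_cast this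
  obtain ⟨x, hx, hx1⟩ := exists_mem_ne_one' h.ne_bot
  obtain ⟨θ, hθ, hk⟩ : ∃ θ : IrrCharacter Q, m θ ≠ 0 ∧ charKer (θ : Q → ℂ) ≠ ⊤ := by
    by_contra! e
    refine hx1 (hf x ?_)
    have e1 := congrFun em ⟨x, hx⟩
    have e2 := congrFun em 1
    simp only [Finset.sum_apply, Pi.smul_apply, smul_eq_mul, OneMemClass.coe_one] at e1 e2
    rw [e1, e2]
    refine Finset.sum_congr rfl fun θ _ => ?_
    by_cases h0 : m θ = 0
    · simp [h0]
    · rw [apply_eq_of_mem_charKer (χ := (θ : Q → ℂ)) (g := ⟨x, hx⟩) (by rw [e θ h0]; trivial)]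
  have hi : IsIrrCharacter Q (θ : Q → ℂ) := θ.2
  have hP1 : 1 < Nat.card P := one_lt_card fun e => h.nt (by simp [e])
  set K := (charKer (θ : Q → ℂ)).map Q.subtype
  have hK : ∀ y : Q, (y : G) ∈ K ↔ y ∈ charKer (θ : Q → ℂ) := fun y => mem_map_iff_mem Q.subtype_injective
  by_cases hl : (θ : Q → ℂ) 1 = 1
  · have hDK : ⁅Q, Q⁆ ≤ K := by
      rw [← map_subtype_commutator]; exact map_mono (hi.commutator_le_charKer_iff.2 hl)
    let e : P → Q ≃* Q := fun u => Q.normalizerMonoidHom ⟨u, h.norm u.2⟩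
    have he : ∀ (u : P) (y : Q), (e u y : G) = u * y * (u : G)⁻¹ := fun _ _ => rfl
    let f : P → IrrCharacter Q := fun u => ⟨fun y => (θ : Q → ℂ) (e u y), hi.comp_equiv (e u)⟩
    have hm' : ∀ u, m (f u) = m θ := fun u => by
      have := classInner_comp_equiv (fun y : Q => χ y) (θ : Q → ℂ) (e u)
      simp only [he, hχ.isClassFunction _ _] at this
      exact_mod_cast (hm (f u)).symm.trans (this.trans (hm θ))
    have hinj : Function.Injective f := fun u v huv => by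
      by_contra hne
      have hw : (v : G) * (u : G)⁻¹ ∈ P := P.mul_mem v.2 (P.inv_mem u.2)
      have := gen _ hw (fun e => hne (Subtype.ext (mul_inv_eq_one.1 e).symm)) Q K le_rfl (h.norm hw) hDK fun y hy => by
        have e1 : (θ : Q → ℂ) (e u ((e u).symm ⟨y, hy⟩)) = (θ : Q → ℂ) (e v ((e u).symm ⟨y, hy⟩)) :=
          congrFun (congrArg Subtype.val huv) _
        have e2 : (((e u).symm ⟨y, hy⟩ : Q) : G) = (u : G)⁻¹ * y * u := by
          have := he u ((e u).symm ⟨y, hy⟩)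
          rw [MulEquiv.apply_symm_apply] at this
          simp only at this
          rw [eq_comm, mul_inv_eq_iff_eq_mul, ← eq_inv_mul_iff_mul_eq] at this
          rw [this, mul_assoc]
        rw [MulEquiv.apply_symm_apply] at e1
        have : (v : G) * (u : G)⁻¹ * y * ((v : G) * (u : G)⁻¹)⁻¹ * y⁻¹ =
            ((e v ((e u).symm ⟨y, hy⟩) * (⟨y, hy⟩ : Q)⁻¹ : Q) : G) := by
          rw [coe_mul, he, e2]; simp [mul_assoc]
        rw [this, hK, hi.mem_charKer, hi.isCharacter.map_mul_of_apply_one hl, ← e1,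
          ← hi.isCharacter.map_mul_of_apply_one hl, mul_inv_cancel]
      exact hk (top_le_iff.1 fun y _ => (hK y).1 (this y.2))
    have := Fintype.ofFinite P
    have : Nat.card P ≤ charDegree χ := by
      rw [hdeg, Nat.card_eq_fintype_card, ← Finset.card_univ, ← Finset.card_image_of_injective _ hinj, Finset.card_eq_sum_ones]
      refine (Finset.sum_le_sum fun ψ hψ => ?_).trans (Finset.sum_le_sum_of_subset (Finset.subset_univ _))
      obtain ⟨u, -, rfl⟩ := Finset.mem_image.1 hψ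
      exact Nat.mul_pos (hm' u ▸ Nat.pos_of_ne_zero hθ) (Cfsg.IsIrrCharacter.charDegree_pos (f u).2)
    nlinarith
  · set Z := charCenter (θ : Q → ℂ)
    have hZ : ∀ y : Q, y ∈ Z ↔ ∀ x ∈ Q, ⁅(y : G), x⁆ ∈ K := fun y => by
      rw [hi.mem_charCenter_iff_commutator]
      exact ⟨fun a x hx => (hK ⁅y, ⟨x, hx⟩⁆).2 (a _), fun a x => (hK ⁅y, x⁆).1 (a x x.2)⟩
    have hZP : Z.map Q.subtype ≤ C(P) := h.min _ (lt_of_le_of_ne (map_subtype_le _) fun e => hl
      (hi.commutator_le_charKer_iff.1 (commutator_le.2 fun a _ b _ => (hi.mem_charCenter_iff_commutator).1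
        ((mem_map_iff_mem Q.subtype_injective).1 (e.ge a.2)) b))) (norm_iff.2 ?_)
    swap
    · rintro u hu _ ⟨y, hy, rfl⟩
      refine ⟨⟨_, conj_mem h.norm hu y.2⟩, (hZ _).2 fun x hx => ?_, rfl⟩
      have h1 := conj_mem' h.norm hu hx
      have h2 : ⁅u * (y : G) * u⁻¹, x⁆ = u * ⁅(y : G), u⁻¹ * x * u⁆ * u⁻¹ := by simp only [commutatorElement_def]; group
      change ⁅u * (y : G) * u⁻¹, x⁆ ∈ K
      rw [h2, mem_C.1 (hDP (commutator_mem_commutator y.2 h1)) u hu, mul_inv_cancel_right]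
      exact (hZ y).1 hy _ h1
    have hZD : ∀ y ∈ Z, (y : G) ∈ ⁅Q, Q⁆ := fun y hy => h.cent_eq_der ▸ mem_inf.2 ⟨y.2, hZP ⟨y, hy, rfl⟩⟩
    have van : ∀ y, y ∉ Z → (θ : Q → ℂ) y = 0 := fun y hy => by
      rw [hi.mem_charCenter_iff_commutator] at hy
      push Not at hy
      obtain ⟨x, hx⟩ := hy
      have hc : ⁅y, x⁆⁻¹ ∈ Z := hi.center_le_charCenter (mem_center_iff.2 fun g => Subtype.ext
        (mem_C.1 (h.der_cent (inv_mem (commutator_mem_commutator y.2 x.2))) g g.2))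
      obtain ⟨c, -, hc⟩ := mem_charCenter_def.1 hc
      by_contra h0
      have e := hc y
      rw [show ⁅y, x⁆⁻¹ * y = x * y * x⁻¹ by simp only [commutatorElement_def]; group, hi.isClassFunction] at e
      have : c = 1 := by simpa [h0] using e
      exact hx ((inv_mem_iff).1 (mem_charKer_def.2 fun x => by rw [hc, this, one_mul]))
    have h1 : Z.index ≤ charDegree (θ : Q → ℂ) ^ 2 := by
      have e := hi.sum_norm_sq
      rw [← Finset.sum_filter_add_sum_filter_not _ (· ∈ Z), Finset.sum_eq_zero (s := Finset.filter (fun y => ¬ y ∈ Z) _)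
        (fun y hy => by simp [van y (Finset.mem_filter.1 hy).2]), add_zero,
        Finset.sum_congr rfl (g := fun _ => ((charDegree (θ : Q → ℂ) : ℝ)) ^ 2)
        (fun y hy => by rw [hi.mem_charCenter.1 (Finset.mem_filter.1 hy).2, hi.isCharacter.norm_apply_one]),
        Finset.sum_const, nsmul_eq_mul, ← Z.card_mul_index, ← Fintype.card_subtype, ← Nat.card_eq_fintype_card] at e
      have e' : Nat.card Z * charDegree (θ : Q → ℂ) ^ 2 = Nat.card Z * Z.index := by exact_mod_cast e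
      exact (Nat.eq_of_mul_eq_mul_left Nat.card_pos e').ge
    have h2 : charDegree (θ : Q → ℂ) ≤ charDegree χ := by
      rw [hdeg]
      exact (Nat.le_mul_of_pos_left _ (Nat.pos_of_ne_zero hθ)).trans (Finset.single_le_sum
        (f := fun θ : IrrCharacter Q => m θ * charDegree (θ : Q → ℂ)) (fun _ _ => Nat.zero_le _) (Finset.mem_univ θ))
    refine lt_of_lt_of_le ?_ (h1.trans (Nat.pow_le_pow_left h2 2))
    obtain ⟨x, hx, hxD⟩ := SetLike.not_le_iff_exists.1 (h.pi.solv.der_lt h.ne_bot).not_ge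
    have hN : P ≤ N(⁅Q, Q⁆) := norm_der h.norm
    let f : Option P → Q ⧸ Z := fun o => o.elim ((1 : Q) : Q ⧸ Z) fun u => ((⟨_, conj_mem h.norm u.2 hx⟩ : Q) : Q ⧸ Z)
    have hne : ∀ u : P, f (some u) ≠ f none := fun u e => hxD (by
      have := conj_mem' hN u.2 (inv_mem (hZD _ (QuotientGroup.eq.1 e)))
      simpa [mul_assoc] using this)
    have := Nat.card_le_card_of_injective f (by
      rintro (_ | u) (_ | v) e
      · rfl
      · exact absurd e.symm (hne v)
      · exact absurd e (hne u)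
      · by_contra hne
        have hw : (u : G)⁻¹ * v ∈ P := P.mul_mem (P.inv_mem u.2) v.2
        have h3 : x⁻¹ * ((u : G)⁻¹ * v * x * ((u : G)⁻¹ * v)⁻¹) ∈ ⁅Q, Q⁆ := by
          have := conj_mem' hN u.2 (hZD _ (QuotientGroup.eq.1 e))
          simpa [mul_assoc] using this
        have hR : ⁅Q, Q⁆ ⊔ zpowers x ≤ Q := sup_le der_le (zpowers_le.2 hx)
        have h4 : ∀ y ∈ ⁅Q, Q⁆ ⊔ zpowers x, (u : G)⁻¹ * v * y * ((u : G)⁻¹ * v)⁻¹ * y⁻¹ ∈ ⁅Q, Q⁆ := by
          set w := (u : G)⁻¹ * v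
          intro y hy
          obtain ⟨d, hd, _, ⟨k, rfl⟩, rfl⟩ := (mem_sup_of_norm' ((zpowers_le.2 hx).trans nml_der.2)).1 hy
          have h5 : w * x * w⁻¹ = x * (x⁻¹ * (w * x * w⁻¹)) := by group
          have h6 : Commute x (x⁻¹ * (w * x * w⁻¹)) := mem_C.1 (h.der_cent h3) x hx
          have : w * (d * x ^ k) * w⁻¹ * (d * x ^ k)⁻¹ =
              (w * d * w⁻¹) * (x ^ k * (x⁻¹ * (w * x * w⁻¹)) ^ k * (x ^ k)⁻¹) * d⁻¹ := by
            rw [← h6.mul_zpow, ← h5, conj_zpow]; group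
          simp only
          rw [this]
          exact mul_mem (mul_mem (conj_mem hN hw hd) (conj_mem nml_der.2 (zpow_mem hx k) (zpow_mem h3 k))) (inv_mem hd)
        refine hxD (gen _ hw (fun e => hne (congrArg some (Subtype.ext (inv_mul_eq_one.1 e)))) _ _ hR
          (mem_N_of_finite fun y hy => ?_) le_rfl h4 (mem_sup_right (mem_zpowers x)))
        simpa using mul_mem (mem_sup_left (h4 y hy)) hy)
    rwa [Finite.card_option] at this

/-- Let G be a finite p-solvable group whose Sylow p-subgroup P meets each conjugate g P g⁻¹ with g outside N_G(P) trivially, and let χ be a faithful character of G (χ g = χ 1 only for g = 1) whose degree d satisfies d² ≤ |P|. Then P is normal in G. -/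
theorem result {G : Type*} [Group G] [Finite G] (p : ℕ) [Fact p.Prime] (hsolv : Cfsg.IsPSolvable p G) (P : Sylow p G) (hTI : ∀ g : G, g ∉ Subgroup.normalizer ((P : Subgroup G) : Set G) → (P : Subgroup G) ⊓ (MulAut.conj g • (P : Subgroup G)) = ⊥) (χ : G → ℂ) (hχ : Cfsg.IsCharacter G χ) (hfaith : ∀ g : G, χ g = χ 1 → g = 1) (hdeg : Cfsg.charDegree χ ^ 2 ≤ Nat.card ↥(P : Subgroup G)) : (P : Subgroup G).Normal := by
  have hp : p.Prime := Fact.out
  by_contra hn
  have hP := hall_sylow_top hp P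
  obtain ⟨g, -, hg⟩ := SetLike.not_le_iff_exists.1 (mt norm_top_iff.1 hn)
  have hO : O[{p}]((⊤ : Subgroup G)) = ⊥ := le_bot_iff.1 ((le_inf hP.pcore_le (hP.cj_top g).pcore_le).trans (hTI g hg).le)
  set K := O[{p}ᶜ]((⊤ : Subgroup G))
  have hK : Cop (P : Subgroup G) K := cop_pi (le_top.trans pcore_nml.2) hP.pi pcore_pi
  have h1 : ¬ K ≤ C((P : Subgroup G)) := fun e => hn (by
    have := le_inf le_rfl ((le_inf le_top (cent_symm e)).trans
      (psol_cent_p'core (H4.isPSolvable_iff.1 hsolv) hO))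
    rw [hK.inf_eq_bot, le_bot_iff] at this
    rw [this]; infer_instance)
  obtain ⟨q, hq, hqK, h2⟩ : ∃ q, q.Prime ∧ q ∣ Nat.card K ∧ ∀ R, Hall {q} R K → ¬ R ≤ C((P : Subgroup G)) := by
    by_contra! e
    exact h1 (le_of_sylows e)
  obtain ⟨R, hR, hRn⟩ := hK.exists_sylow hq
  obtain ⟨Q, hQ, h⟩ := exists_minAct hR.pi hRn le_rfl le_N
    (hP.pi.p' fun e => (pcore_pi (π := {p}ᶜ) (H := (⊤ : Subgroup G))) q hq hqK e) (h2 R hR)
  refine (key h (fun w hw hw1 => ?_) hχ hfaith).not_ge hdeg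
  refine le_trans (fun c hc => ?_) (hK.inf_N.le.trans inf_le_right)
  refine ⟨hR.le (hQ hc.1), by_contra fun e => hw1 (eq_one_of_eq_bot (hTI c e) ⟨hw, ?_⟩)⟩
  exact conj_eq_self_of_C1 hc.2 ▸ conj_mem_cj (g := c) hw

end Cfsg.Agent.S4748
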