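import Cfsg.Statements.S4750
import Cfsg.Agent.H8.Lat
import Cfsg.Agent.H5.Central

set_option autoImplicit false
open scoped Pointwise
open Cfsg

namespace Cfsg.Agent.S4750

open H5 H8
open scoped Pointwise ComplexConjugate

theorem avg_eq {G : Type*} [Group G] [Fintype G] (p : ℕ) [Fact p.Prime] (P : Sylow p G)
    (hTI : ∀ g : G, g ∉ Subgroup.normalizer ((P : Subgroup G) : Set G) →
      (P : Subgroup G) ⊓ (MulAut.conj g • (P : Subgroup G)) = ⊥)
    {ψ : G → ℂ} (hψ : IsCharacter G ψ) (hdeg : charDegree ψ < Nat.card (P : Subgroup G))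
    (H : Subgroup G) [Fintype H] (hH : Subgroup.normalizer ((P : Subgroup G) : Set G) ≤ H) :
    (Nat.card G : ℂ)⁻¹ * ∑ g, ψ g = (Nat.card H : ℂ)⁻¹ * ∑ h : H, ψ h := by
  classical
  obtain ⟨𝒪, hp⟩ := exists_valSub p Fact.out
  obtain ⟨n, R, hR⟩ := exists_lat 𝒪 hψ
  have hn : charDegree ψ = n := charDegree_eq_of_apply_one (by rw [← hR, map_one]; simp)
  set N := Subgroup.normalizer ((P : Subgroup G) : Set G) with hN
  let k := IsLocalRing.ResidueField 𝒪
  let r : 𝒪 →+* k := IsLocalRing.residue 𝒪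
  haveI : CharP k p := by
    apply (CharP.charP_iff_prime_eq_zero Fact.out).2
    rw [← map_natCast r]
    exact (IsLocalRing.residue_eq_zero_iff _).2 hp
  let S : Matrix (Fin n) (Fin n) 𝒪 := ∑ u : (P : Subgroup G), R u
  have hS : r.mapMatrix S = 0 := by
    let Rk : (P : Subgroup G) →* Matrix (Fin n) (Fin n) k :=
      (r.mapMatrix.toMonoidHom.comp R).comp (P : Subgroup G).subtype
    have := sum_pgroup_eq_zero P.isPGroup'
      ((Matrix.toLinAlgEquiv' (R := k) (n := Fin n)).toMonoidHom.comp Rk)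
      (by rw [Module.finrank_fin_fun, ← hn]; exact hdeg)
    apply (Matrix.toLinAlgEquiv' (R := k) (n := Fin n)).injective
    rw [map_zero, ← this, map_sum, map_sum]
    rfl
  obtain ⟨t, -, ht⟩ := sum_free_dc (P : Subgroup G) N (Finset.univ.filter fun g => g ∉ N)
    (fun g hg u m => by
      rw [Finset.mem_filter] at hg ⊢
      refine ⟨Finset.mem_univ _, fun h => hg.2 ?_⟩
      have h1 : (u : G) ∈ N := Subgroup.le_normalizer u.2
      exact (N.mul_mem_cancel_left h1).1 ((N.mul_mem_cancel_right m.2).1 h))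
    (fun g hg u m h => by
      have h0 := hTI g (Finset.mem_filter.1 hg).2
      have h1 : g⁻¹ * u * g = (m : G)⁻¹ := by
        calc _ = g⁻¹ * (u * g * m) * (m : G)⁻¹ := by group
          _ = _ := by rw [h]; group
      obtain ⟨j, hj⟩ := P.isPGroup' u
      have hj' : (u : G) ^ p ^ j = 1 := congrArg Subtype.val hj
      have h2 : g⁻¹ * u * g ∈ (P : Subgroup G) := by
        have h3 : IsPGroup p (Subgroup.zpowers (g⁻¹ * u * g)) := by
          refine IsPGroup.iff_card.2 ?_
          rw [Nat.card_zpowers]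
          have : orderOf (g⁻¹ * u * g) ∣ p ^ j := orderOf_dvd_of_pow_eq_one (by
            have := conj_pow (a := g⁻¹) (b := (u : G)) (i := p ^ j)
            rw [inv_inv] at this
            rw [this, hj']; group)
          obtain ⟨i, -, hi⟩ := (Nat.dvd_prime_pow Fact.out).1 this
          exact ⟨i, hi⟩
        have h4 := P.is_maximal' (IsPGroup.to_sup_of_normal_right' h3 P.isPGroup' (by
          rw [Subgroup.zpowers_le, h1]; exact N.inv_mem m.2)) le_sup_right
        exact h4.le (Subgroup.mem_sup_left (Subgroup.mem_zpowers _))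
      have h5 : (u : G) ∈ (P : Subgroup G) ⊓ (MulAut.conj g • (P : Subgroup G)) :=
        ⟨u.2, (Subgroup.mem_smul_pointwise_iff_exists _ _ _).2 ⟨_, h2, by simp [mul_assoc]⟩⟩
      rw [h0] at h5
      exact Subtype.ext h5)
  let A : Matrix (Fin n) (Fin n) 𝒪 := ∑ y ∈ t, R y
  have hG : ∑ g, R g = (1 + S * A) * ∑ m : N, R m := by
    rw [← Finset.sum_filter_add_sum_filter_not Finset.univ (fun g => g ∈ N), ht R, add_mul, one_mul]
    congr 1
    · exact Finset.sum_subtype _ (by simp) _
    · simp only [map_mul, S, A, ← Finset.mul_sum, ← Finset.sum_mul]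
  have hU : IsUnit (1 + S * A) := by
    rw [Matrix.isUnit_iff_isUnit_det, ← IsLocalRing.residue_ne_zero_iff_isUnit]
    show r _ ≠ 0
    rw [RingHom.map_det, map_add, map_mul, hS, zero_mul, add_zero, map_one, Matrix.det_one]
    exact one_ne_zero
  let D : Matrix (Fin n) (Fin n) 𝒪 := Nat.card G • ∑ h : H, R h - Nat.card H • ∑ g, R g
  have e1 : ∀ x : G, R x * ∑ g, R g = ∑ g, R g := fun x => by
    rw [Finset.mul_sum, ← Equiv.sum_comp (Equiv.mulLeft x) (fun g => R g)]
    simp
  have e1' : ∀ x : G, (∑ g, R g) * R x = ∑ g, R g := fun x => by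
    rw [Finset.sum_mul, ← Equiv.sum_comp (Equiv.mulRight x) (fun g => R g)]
    simp
  have e2 : ∀ x : N, R x * ∑ h : H, R h = ∑ h : H, R h := fun x => by
    rw [Finset.mul_sum, ← Equiv.sum_comp (Equiv.mulLeft (⟨x, hH x.2⟩ : H)) (fun g : H => R g)]
    simp
  have e3 : (∑ m : N, R m) * D = Nat.card N • D := by
    rw [Finset.sum_mul, Finset.sum_congr rfl (g := fun _ => D) fun x _ => by
      simp only [D, mul_sub, mul_smul_comm, e1, e2]]
    rw [Finset.sum_const, Finset.card_univ, Nat.card_eq_fintype_card]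
  have e4 : (∑ g, R g) * D = 0 := by
    simp only [D, mul_sub, mul_smul_comm, Finset.mul_sum, e1', Finset.sum_const, Finset.card_univ,
      Nat.card_eq_fintype_card, smul_smul, mul_comm, sub_self]
  rw [hG, mul_assoc, e3, hU.mul_right_eq_zero] at e4
  have e5 := congrArg (fun X : Matrix (Fin n) (Fin n) 𝒪 => ((X.trace : 𝒪) : ℂ)) e4
  simp only [D, Matrix.trace_smul, Matrix.trace_sub, Matrix.trace_sum, Matrix.trace_zero] at e5
  simp only [nsmul_eq_mul] at e5
  push_cast at e5
  simp only [hR] at e5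
  have hG0 : (Nat.card G : ℂ) ≠ 0 := card_ne_zero_complex
  have hH0 : (Nat.card H : ℂ) ≠ 0 := card_ne_zero_complex
  have hN0 : (Nat.card N : ℂ) ≠ 0 := card_ne_zero_complex
  have e6 := (mul_eq_zero.1 e5).resolve_left hN0
  field_simp
  linear_combination -e6

/-- Let P be a Sylow p-subgroup of the finite group G that meets each conjugate g P g⁻¹ with g outside N_G(P) trivially, χ a character of G with χ(1)² ≤ |P|, and H a subgroup of G containing N_G(P). Then the inner product of χ with itself over G equals the inner product over H of the restriction of χ to H. -/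
theorem result {G : Type*} [Group G] [Fintype G] [DecidableEq G] (p : ℕ) [Fact p.Prime] (P : Sylow p G) (hTI : ∀ g : G, g ∉ Subgroup.normalizer ((P : Subgroup G) : Set G) → (P : Subgroup G) ⊓ (MulAut.conj g • (P : Subgroup G)) = ⊥) (χ : G → ℂ) (hχ : Cfsg.IsCharacter G χ) (hdeg : Cfsg.charDegree χ ^ 2 ≤ Nat.card ↥(P : Subgroup G)) (H : Subgroup G) [Fintype ↥H] (hH : Subgroup.normalizer ((P : Subgroup G) : Set G) ≤ H) : Cfsg.classInner χ χ = Cfsg.classInner (fun h : ↥H => χ h) (fun h : ↥H => χ h) := by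
  by_cases h0 : χ = 0
  · subst h0; simp [classInner]
  let ψ : G → ℂ := χ * fun g => conj (χ g)
  have hψ : IsCharacter G ψ := hχ.mul hχ.conj
  have hne : classInner ψ (fun _ => 1) ≠ 0 := by
    intro h
    apply h0
    rw [← classInner_self_eq_zero, ← h]
    simp [classInner, ψ]
  have h1 := hψ.sub_irr isIrrCharacter_one hne
  have hd : charDegree (ψ - fun _ => 1) < Nat.card (P : Subgroup G) := by
    have e1 := h1.coe_charDegree
    have e2 : (ψ - fun _ => (1 : ℂ) : G → ℂ) 1 = (charDegree χ : ℂ) ^ 2 - 1 := by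
      show χ 1 * conj (χ 1) - 1 = _
      rw [hχ.conj_apply_one, hχ.coe_charDegree, sq]
    have e3 : ((charDegree (ψ - fun _ => 1) + 1 : ℕ) : ℂ) = ((charDegree χ ^ 2 : ℕ) : ℂ) := by
      push_cast; rw [e1, e2]; ring
    have e4 : charDegree (ψ - fun _ => 1) + 1 = charDegree χ ^ 2 := by exact_mod_cast e3
    omega
  have := avg_eq p P hTI h1 hd H hH
  have hG0 : (Nat.card G : ℂ) ≠ 0 := card_ne_zero_complex
  have hH0 : (Nat.card H : ℂ) ≠ 0 := card_ne_zero_complex
  simp only [Pi.sub_apply, Finset.sum_sub_distrib, Finset.sum_const, Finset.card_univ,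
    ← Nat.card_eq_fintype_card, nsmul_eq_mul, mul_one, mul_sub, inv_mul_cancel₀ hG0,
    inv_mul_cancel₀ hH0, sub_left_inj] at this
  exact this

end Cfsg.Agent.S4750
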