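import Cfsg.Statements.S4752
import Cfsg.Agent.H7.Ext3b

set_option autoImplicit false
open Cfsg

namespace Cfsg.Agent.S4752

open H5 H7
open scoped commutatorElement

/-- Let G be a finite group whose Sylow 3-subgroup P is extraspecial of order 27 and exponent 3, with N_G(P) ≤ C_G(Z(P)), and let M be a maximal ideal of the algebraic integers containing 3, B the principal 3-block of G, k its number of irreducible characters, k₀ the number of those of height zero, l its 3-regular rank (number of irreducible Brauer characters), and e the index of P·C_G(P) in N_G(P) (the order of the inertial quotient). Then e = 1 gives (k, k₀, l) = (11, 9, 1); e = 2 gives (10, 6, 2); e = 4 gives (14, 6, 4); e = 8 gives (16, 6, 5). -/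
theorem result {G : Type*} [Group G] [Finite G] (P : Sylow 3 G) (hE : Cfsg.IsExtraspecial 3 ↥(P : Subgroup G)) (h27 : Nat.card ↥(P : Subgroup G) = 27) (hexp : ∀ x ∈ (P : Subgroup G), x ^ 3 = 1) (hNC : ∀ g ∈ Subgroup.normalizer ((P : Subgroup G) : Set G), ∀ z ∈ (P : Subgroup G), (∀ y ∈ (P : Subgroup G), z * y = y * z) → g * z = z * g) (M : Ideal Cfsg.AlgInt) (hM : Cfsg.IsPModular 3 M) (k k₀ l e : ℕ) (hk : Nat.card ↥(Cfsg.principalBlock M G) = k) (hk₀ : Nat.card {χ : Cfsg.IrrCharacter G // χ ∈ Cfsg.principalBlock M G ∧ Cfsg.blockHeight 3 (Cfsg.principalBlock M G) (χ : G → ℂ) = 0} = k₀) (hl : Cfsg.blockRank 3 (Cfsg.principalBlock M G) = l) (he : ((P : Subgroup G) ⊔ Subgroup.centralizer ((P : Subgroup G) : Set G)).relIndex (Subgroup.normalizer ((P : Subgroup G) : Set G)) = e) : (e = 1 → k = 11 ∧ k₀ = 9 ∧ l = 1) ∧ (e = 2 → k = 10 ∧ k₀ = 6 ∧ l = 2) ∧ (e = 4 → k = 14 ∧ k₀ = 6 ∧ l = 4) ∧ (e = 8 → k = 16 ∧ k₀ = 6 ∧ l = 5) := by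
  haveI : PM 3 M := ⟨hM⟩
  subst hk hk₀ hl he
  obtain ⟨z, hz⟩ := exists_prime_orderOf_dvd_card' (G := Subgroup.center P.1) 3 hE.2.symm.dvd
  have hz' : orderOf z.1.1 = 3 := by rw [Subgroup.orderOf_coe, Subgroup.orderOf_coe]; exact hz
  have h0 : Subgroup.zpowers z.1 = Subgroup.center P.1 := Subgroup.eq_of_le_of_card_ge
    (Subgroup.zpowers_le.2 z.2) (by rw [hE.2, Nat.card_zpowers, ← Subgroup.orderOf_coe, hz'])
  have h1 : ∀ y : P.1, y ∈ Subgroup.center P.1 ↔ y.1 ∈ Subgroup.zpowers z.1.1 := fun y =>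
    (SetLike.ext_iff.1 h0 y).symm.trans (exists_congr fun k => by simp [Subtype.ext_iff])
  have h : EX P.1 z.1.1 := ⟨sylIn_top P, h27, hexp, z.1.2, fun e => by simp [e] at hz',
    fun y hy => Iff.trans ⟨fun e => Subgroup.mem_center_iff.2 fun x => Subtype.ext (e _ x.2),
      fun e x hx => congrArg Subtype.val (Subgroup.mem_center_iff.1 e ⟨x, hx⟩)⟩ (h1 ⟨y, hy⟩),
    fun x hx y hy => (h1 ⁅(⟨x, hx⟩ : P.1), ⟨y, hy⟩⁆).1 (hE.1.2.2 ▸
      Subgroup.commutator_mem_commutator trivial trivial),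
    fun g hg => Subgroup.mem_centralizer_singleton_iff.2 (hNC g hg _ z.1.2 fun y hy =>
      (congrArg Subtype.val (Subgroup.mem_center_iff.1 z.2 ⟨y, hy⟩)).symm)⟩
  refine ⟨h.one, fun e => ?_, fun e => ?_, fun e => ?_⟩ <;>
  · obtain ⟨n, h1, h2, h3, h4⟩ := h.main (M := M) (by rw [eE, e] <;> norm_num)
    rw [eE, e] at h1
    omega

end Cfsg.Agent.S4752
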