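import Cfsg.Statements.S4754
import Cfsg.Agent.H5.FS

set_option autoImplicit false
open Cfsg

namespace Cfsg.Agent.S4754

open H5

/-- For elements x, y of a finite group G, the conjugacy class of x y equals the set of all products of a conjugate of x with a conjugate of y if and only if χ(1) χ(a x a⁻¹ b y b⁻¹) = χ(x) χ(y) for all a, b ∈ G and every irreducible character χ. -/
theorem result {G : Type*} [Group G] [Finite G] (x y : G) : (∀ z : G, IsConj (x * y) z ↔ ∃ a b : G, z = a * x * a⁻¹ * (b * y * b⁻¹)) ↔ ∀ (a b : G) (χ : Cfsg.IrrCharacter G), (χ : G → ℂ) 1 * (χ : G → ℂ) (a * x * a⁻¹ * (b * y * b⁻¹)) = (χ : G → ℂ) x * (χ : G → ℂ) y := by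
  haveI := Fintype.ofFinite G
  have h0 := card_ne_zero_complex (G := G)
  constructor
  · intro h a b χ
    have h1 := χ.2.sum_conj_mul x y
    have h2 : ∀ a b : G, (χ : G → ℂ) (a * x * a⁻¹ * (b * y * b⁻¹)) = (χ : G → ℂ) (x * y) :=
      fun a b => (χ.2.isClassFunction.eq_of_isConj ((h _).2 ⟨a, b, rfl⟩)).symm
    rw [Finset.sum_congr rfl (g := fun _ => (χ : G → ℂ) (x * y)) fun c _ => by
      simpa using h2 c 1, Finset.sum_const, Finset.card_univ, ← Nat.card_eq_fintype_card,
      nsmul_eq_mul, eq_div_iff χ.2.apply_one_ne_zero, mul_assoc, mul_assoc] at h1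
    rw [h2, mul_comm, mul_left_cancel₀ h0 h1]
  · intro h z
    refine ⟨fun e => ?_, ?_⟩
    · obtain ⟨c, rfl⟩ := isConj_iff.1 e
      exact ⟨c, c, by group⟩
    · rintro ⟨a, b, rfl⟩
      refine (isConj_iff_forall_irr _ _).2 fun χ => mul_left_cancel₀ χ.2.apply_one_ne_zero ?_
      rw [h a b χ, ← h 1 1 χ]; simp

end Cfsg.Agent.S4754
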