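import Cfsg.Statements.S4755
import Cfsg.Agent.H8.Van

set_option autoImplicit false
open Cfsg

namespace Cfsg.Agent.S4755

open H5 H8
open scoped ComplexConjugate

/-- Let x, y be non-identity elements of the finite group G such that χ(x' y') = χ(x') χ(y') for all conjugates x' of x, y' of y and every irreducible character χ. Then the conjugacy class of x y is the set of all products of a conjugate of x with a conjugate of y; every irreducible character of degree greater than 1 vanishes at x y; and the conjugacy class of x y is the coset of the commutator subgroup containing x y. -/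
theorem result {G : Type*} [Group G] [Finite G] (x y : G) (hx : x ≠ 1) (hy : y ≠ 1) (h : ∀ (a b : G) (χ : Cfsg.IrrCharacter G), (χ : G → ℂ) (a * x * a⁻¹ * (b * y * b⁻¹)) = (χ : G → ℂ) (a * x * a⁻¹) * (χ : G → ℂ) (b * y * b⁻¹)) : (∀ z : G, IsConj (x * y) z ↔ ∃ a b : G, z = a * x * a⁻¹ * (b * y * b⁻¹)) ∧ (∀ χ : Cfsg.IrrCharacter G, (χ : G → ℂ) 1 ≠ 1 → (χ : G → ℂ) (x * y) = 0) ∧ (∀ z : G, IsConj (x * y) z ↔ (x * y)⁻¹ * z ∈ commutator G) := by
  classical
  haveI := Fintype.ofFinite G
  have h0 := card_ne_zero_complex (G := G)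
  have h1 : ∀ (a b : G) (χ : IrrCharacter G), (χ : G → ℂ) (a * x * a⁻¹ * (b * y * b⁻¹)) =
      (χ : G → ℂ) x * (χ : G → ℂ) y := fun a b χ => by
    rw [h, χ.2.isClassFunction, χ.2.isClassFunction]
  have h2 : ∀ χ : IrrCharacter G, (χ : G → ℂ) (x * y) = (χ : G → ℂ) x * (χ : G → ℂ) y := fun χ => by
    simpa using h1 1 1 χ
  have h3 : ∀ χ : IrrCharacter G, (χ : G → ℂ) 1 ≠ 1 → (χ : G → ℂ) (x * y) = 0 := fun χ hχ => by
    have h1' := χ.2.sum_conj_mul x y
    rw [Finset.sum_congr rfl (g := fun _ => (χ : G → ℂ) x * (χ : G → ℂ) y) fun c _ => by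
      simpa using h1 c 1 χ, Finset.sum_const, Finset.card_univ, ← Nat.card_eq_fintype_card,
      nsmul_eq_mul, eq_div_iff χ.2.apply_one_ne_zero, mul_assoc, mul_assoc (Nat.card G : ℂ), ← h2] at h1'
    by_contra e
    exact hχ (mul_left_cancel₀ e ((mul_left_cancel₀ h0 h1').trans (mul_one _).symm))
  refine ⟨fun z => ⟨fun e => ?_, ?_⟩, h3, fun z => ⟨fun e => ?_, fun e => ?_⟩⟩
  · obtain ⟨c, rfl⟩ := isConj_iff.1 e
    exact ⟨c, c, by group⟩
  · rintro ⟨a, b, rfl⟩
    exact (isConj_iff_forall_irr _ _).2 fun χ => by rw [h1, h2]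
  · obtain ⟨c, rfl⟩ := isConj_iff.1 e
    have := Subgroup.commutator_mem_commutator (Subgroup.mem_top (x * y)⁻¹) (Subgroup.mem_top c)
    rwa [commutatorElement_def, inv_inv, mul_assoc, mul_assoc, ← mul_assoc c] at this
  · by_contra hc
    have h4 := sum_irr_mul_conj_of_not_isConj hc
    rw [Finset.sum_congr rfl (g := fun χ => if χ.1 1 = 1 then 1 else 0) fun χ _ => ?_] at h4
    · simp only [Finset.sum_boole, Nat.cast_eq_zero, Finset.card_eq_zero] at h4
      exact Finset.filter_eq_empty_iff.1 h4 (Finset.mem_univ (irrOne G)) rfl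
    split_ifs with e'
    · have h5 := apply_eq_of_mem_charKer (χ.2.commutator_le_charKer_iff.2 e' e)
      have h6 := χ.2.isCharacter.map_mul_of_apply_one e'
      have h7 : z = (x * y) * ((x * y)⁻¹ * z) := by group
      rw [h7, h6 (x * y), h5, e', mul_one, ← χ.2.apply_inv, ← h6, mul_inv_cancel, e']
    · rw [h3 χ e', zero_mul]

end Cfsg.Agent.S4755
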