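import Cfsg.Statements.S4756
import Cfsg.Agent.H5.Central
import Cfsg.Agent.H1.BGCop
import Cfsg.Agent.H18.BG1

set_option autoImplicit false
open Cfsg

namespace Cfsg.Agent.S4756
open H5
open H18 Subgroup H5
open H1 (Cop)
open scoped commutatorElement ComplexConjugate

variable {G : Type*} [Group G] [Finite G]

theorem conj_of_van {g h : G} (hv : ∀ χ : IrrCharacter G, (χ : G → ℂ) 1 ≠ 1 → (χ : G → ℂ) g = 0)
    (hd : g * h⁻¹ ∈ _root_.commutator G) : IsConj g h := by
  classical
  by_contra hc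
  have s := sum_irr_mul_conj_of_not_isConj hc
  have e : ∀ χ : IrrCharacter G, (χ : G → ℂ) g * conj ((χ : G → ℂ) h) =
      ((if (χ : G → ℂ) 1 = 1 then 1 else 0 : ℕ) : ℂ) := fun χ => by
    split_ifs with h1
    · have k := χ.2.commutator_le_charKer_iff.2 h1 hd h
      rw [inv_mul_cancel_right] at k
      obtain ⟨lam, hl⟩ := χ.2.isCharacter.exists_hom_of_apply_one h1
      rw [k, ← χ.2.isCharacter.apply_inv, ← χ.2.isCharacter.map_mul_of_apply_one h1, mul_inv_cancel, h1, Nat.cast_one]
    · rw [hv χ h1, zero_mul, Nat.cast_zero]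
  rw [Finset.sum_congr rfl fun χ _ => e χ, ← Nat.cast_sum, Nat.cast_eq_zero, Finset.sum_eq_zero_iff] at s
  simpa using s ⟨_, isIrrCharacter_one⟩ (Finset.mem_univ _)

theorem van_of_conj {g : G} (hc : ∀ d ∈ _root_.commutator G, IsConj g (d * g)) (χ : IrrCharacter G)
    (h1 : (χ : G → ℂ) 1 ≠ 1) : (χ : G → ℂ) g = 0 := by
  have := Fintype.ofFinite G
  obtain ⟨a, ha⟩ := χ.2.exists_apply_eq_zero h1
  have s := χ.2.sum_conj_mul a (a⁻¹ * g)
  rw [Finset.sum_congr rfl (g := fun _ => (χ : G → ℂ) g) fun y _ => by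
    rw [χ.2.isClassFunction.eq_of_isConj (hc ⁅y, a⁆
      (commutator_mem_commutator (mem_top y) (mem_top a))), commutatorElement_def]; congr 1; group,
    ha, Finset.sum_const, mul_zero, zero_mul, zero_div, nsmul_eq_mul, mul_eq_zero] at s
  exact s.resolve_left (by exact_mod_cast Fintype.card_ne_zero)

theorem conj_coset {D : Subgroup G} [D.Normal] {b : G} (h : ∀ d ∈ D, b * d = d * b → d = 1) {d : G} (hd : d ∈ D) :
    IsConj b (d * b) := by
  let f : D → D := fun e => ⟨e * (b * (e : G)⁻¹ * b⁻¹), mul_mem e.2 (‹D.Normal›.conj_mem _ (inv_mem e.2) b)⟩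
  have inj : Function.Injective f := fun e e' k => by
    have k' : (e : G) * (b * (e : G)⁻¹ * b⁻¹) = e' * (b * (e' : G)⁻¹ * b⁻¹) := congrArg Subtype.val k
    have := h ((e' : G)⁻¹ * e) (mul_mem (inv_mem e'.2) e.2) (by
      calc b * ((e' : G)⁻¹ * e) = (e' : G)⁻¹ * (e' * (b * (e' : G)⁻¹ * b⁻¹)) * b * e := by group
        _ = _ := by rw [← k']; group)
    exact Subtype.ext (inv_mul_eq_one.1 this).symm
  obtain ⟨e, he⟩ := Finite.injective_iff_surjective.1 inj ⟨d, hd⟩
  have k : (e : G) * (b * (e : G)⁻¹ * b⁻¹) = d := congrArg Subtype.val he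
  exact isConj_iff.2 ⟨e, by rw [← k]; group⟩

/-- For a finite group G the following are equivalent. (1) χ(x y) = χ(x) χ(y) for every irreducible character χ and all non-identity elements x, y of prime power orders for two different primes. (2) G is a p-group for some prime p, or G is abelian, or for some prime p: G = A P with P a normal Sylow p-subgroup and A a nontrivial cyclic subgroup of order prime to p such that, with C = C_P(A) and D = [A, P], one has P = C D, C abelian, D normal in G, C ∩ D = 1, and A acts fixed-point-freely on D (no non-identity element of A centralizes a non-identity element of D). -/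
theorem result {G : Type*} [Group G] [Finite G] : (∀ (x y : G) (χ : Cfsg.IrrCharacter G), x ≠ 1 → y ≠ 1 → (∃ p q a b : ℕ, p.Prime ∧ q.Prime ∧ p ≠ q ∧ orderOf x = p ^ a ∧ orderOf y = q ^ b) → (χ : G → ℂ) (x * y) = (χ : G → ℂ) x * (χ : G → ℂ) y) ↔ ((∃ p : ℕ, p.Prime ∧ IsPGroup p G) ∨ IsMulCommutative G ∨ ∃ (p : ℕ) (_ : Fact p.Prime) (P : Sylow p G) (A : Subgroup G), (P : Subgroup G).Normal ∧ IsCyclic ↥A ∧ A ≠ ⊥ ∧ (Nat.card ↥A).Coprime p ∧ A ⊔ (P : Subgroup G) = ⊤ ∧ IsMulCommutative ↥((P : Subgroup G) ⊓ Subgroup.centralizer (A : Set G)) ∧ (⁅A, (P : Subgroup G)⁆).Normal ∧ ((P : Subgroup G) ⊓ Subgroup.centralizer (A : Set G)) ⊔ ⁅A, (P : Subgroup G)⁆ = (P : Subgroup G) ∧ ((P : Subgroup G) ⊓ Subgroup.centralizer (A : Set G)) ⊓ ⁅A, (P : Subgroup G)⁆ = ⊥ ∧ ∀ a ∈ A, a ≠ 1 → ∀ d ∈ ⁅A, (P : Subgroup G)⁆, a * d = d * a → d = 1) := by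
  constructor
  · intro H
    by_cases hp : ∃ p : ℕ, p.Prime ∧ IsPGroup p G
    · exact Or.inl hp
    by_cases hab : IsMulCommutative G
    · exact Or.inr (Or.inl hab)
    refine Or.inr (Or.inr ?_)
    have := Fintype.ofFinite G
    have key : ∀ x y h : G, x ≠ 1 → y ≠ 1 → (∃ p q a b : ℕ, p.Prime ∧ q.Prime ∧ p ≠ q ∧ orderOf x = p ^ a ∧
        orderOf y = q ^ b) → x * y * h⁻¹ ∈ _root_.commutator G → IsConj (x * y) h := fun x y h hx hy ho hd => by
      refine conj_of_van (fun χ h1 => ?_) hd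
      have s := χ.2.sum_conj_mul x y
      rw [Finset.sum_congr rfl (g := fun _ => (χ : G → ℂ) (x * y)) fun g _ => by
        rw [H _ y χ (by simpa using hx) hy (by rwa [← MulAut.conj_apply, MulEquiv.orderOf_eq]),
          χ.2.isClassFunction x g, H x y χ hx hy ho], Finset.sum_const, nsmul_eq_mul, Finset.card_univ,
        ← Nat.card_eq_fintype_card, mul_assoc, ← H x y χ hx hy ho, mul_div_assoc,
        mul_right_inj' (by exact_mod_cast Nat.card_pos.ne'), eq_div_iff χ.2.apply_one_ne_zero] at s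
      by_contra h0
      exact h1 (mul_left_cancel₀ h0 (s.trans (mul_one _).symm))
    have hD : _root_.commutator G ≠ ⊥ := fun e => hab ⟨⟨fun a b => commutatorElement_eq_one_iff_mul_comm.1 (by
      have := commutator_mem_commutator (mem_top a) (mem_top b)
      rwa [← _root_.commutator_def, e, mem_bot] at this)⟩⟩
    obtain ⟨x, hx, hp'⟩ := exists_prime_order hD
    set p := orderOf x with hpx
    have hx1 : x ≠ 1 := fun e => hp'.ne_one (by rw [hpx, e, orderOf_one])
    have : Fact p.Prime := ⟨hp'⟩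
    have hDp : IsPGroup p (_root_.commutator G) := by
      rw [IsPGroup.iff_card]
      refine ⟨_, Nat.eq_prime_pow_of_unique_prime_dvd Nat.card_pos.ne' fun {q} hq hd => ?_⟩
      by_contra ne
      have := Fact.mk hq
      obtain ⟨y, hy⟩ := exists_prime_orderOf_dvd_card' q hd
      have hy' : orderOf (y : G) = q := by rw [Subgroup.orderOf_coe, hy]
      have k := key x y 1 hx1 (fun e => hq.ne_one (by rw [← hy', e, orderOf_one]))
        ⟨p, q, 1, 1, hp', hq, Ne.symm ne, by rw [pow_one], by rw [pow_one, hy']⟩ (by simpa using mul_mem hx y.2)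
      rw [isConj_one_left, mul_eq_one_iff_eq_inv] at k
      exact ne (by rw [← hy', hpx, k, orderOf_inv])
    obtain ⟨P, hP⟩ := hDp.exists_le_sylow
    have nP : (P : Subgroup G).Normal := ⟨fun a ha g => by
      have := mul_mem (hP (commutator_mem_commutator (mem_top g) (mem_top a))) ha
      simpa [commutatorElement_def] using this⟩
    obtain ⟨A, hA⟩ := Subgroup.exists_right_complement'_of_coprime (N := (P : Subgroup G)) P.card_coprime_index
    have cA : (Nat.card A).Coprime (Nat.card P) := by rw [← hA.symm.index_eq_card]; exact P.card_coprime_index.symm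
    have cp : (Nat.card A).Coprime p := by
      rw [← hA.symm.index_eq_card, Nat.coprime_comm, hp'.coprime_iff_not_dvd]; exact P.not_dvd_index
    have hAP : ∀ a ∈ A, a ∈ (P : Subgroup G) → a = 1 := fun a ha h => by
      have := hA.disjoint.le_bot ⟨h, ha⟩; exact this
    have ab : Abel A := fun a ha => mem_centralizer_iff.2 fun b hb => commutatorElement_eq_one_iff_mul_comm.1
      (hAP _ (by rw [commutatorElement_def]; exact mul_mem (mul_mem (mul_mem hb ha) (inv_mem hb)) (inv_mem ha))
        (hP (commutator_mem_commutator (mem_top b) (mem_top a))))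
    have fpf : ∀ a ∈ A, a ≠ 1 → ∀ d ∈ _root_.commutator G, a * d = d * a → d = 1 := fun a ha a1 d hd hc => by
      by_contra d1
      obtain ⟨y, hy, hq⟩ := exists_prime_order (H := zpowers a) (by simpa using a1)
      have yA : y ∈ A := zpowers_le.2 ha hy
      have cq : (orderOf y).Coprime p := cp.coprime_dvd_left (orderOf_dvd_card yA)
      obtain ⟨k, hk⟩ := IsPGroup.iff_orderOf.1 hDp ⟨d, hd⟩
      rw [← Subgroup.orderOf_coe] at hk
      have c := key d y y d1 (fun e => hq.ne_one (by rw [e, orderOf_one]))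
        ⟨p, orderOf y, k, 1, hp', hq, fun e => hp'.ne_one (by rw [← e] at cq; simpa using cq), hk, (pow_one _).symm⟩
        (by simpa using hd)
      have cm : Commute d y := by
        obtain ⟨n, rfl⟩ := hy; exact (Commute.zpow_left hc n).symm
      obtain ⟨c, hc'⟩ := isConj_iff.1 c
      have o : orderOf (d * y) = orderOf y := by
        rw [← (MulAut.conj c).orderOf_eq (d * y), MulAut.conj_apply, hc']
      rw [cm.orderOf_mul_eq_mul_orderOf_of_coprime (by rw [hk]; exact (cq.pow_right k).symm)] at o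
      exact d1 (orderOf_eq_one_iff.1 (Nat.eq_of_mul_eq_mul_right hq.pos (by rw [o, one_mul])))
    have A1 : A ≠ ⊥ := fun e => hp ⟨p, hp', by
      have t : (P : Subgroup G) = ⊤ := by simpa [e] using hA.sup_eq_top
      exact P.2.of_surjective (P : Subgroup G).subtype fun g => ⟨⟨g, t ▸ mem_top g⟩, rfl⟩⟩
    have nA : A ≤ N((P : Subgroup G)) := le_normalizer_of_normal
    have cyc : IsCyclic A := by
      by_contra h
      obtain ⟨a, ha, a1, k⟩ := exists_cent1_ne_bot (K := _root_.commutator G) ab h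
        le_normalizer_of_normal (cA.coprime_dvd_right (card_dvd_of_le hP)) hD
      exact k (eq_bot_iff.2 fun d hd => fpf a ha a1 d hd.1 (mem_C1.1 hd.2).symm)
    have co : Cop A P := ⟨nA, cA, Or.inl ab.solv⟩
    obtain ⟨a, a1⟩ := ne_bot_iff_exists_ne_one.1 A1
    have a1' : (a : G) ≠ 1 := fun e => a1 (Subtype.ext e)
    have le : ⁅A, (P : Subgroup G)⁆ ≤ _root_.commutator G := commutator_mono le_top le_top
    refine ⟨p, this, P, A, nP, cyc, A1, cp, by rw [sup_comm]; exact hA.sup_eq_top, ⟨⟨fun u v => Subtype.ext ?_⟩⟩, ?_,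
      by rw [commutator_comm, sup_comm]; exact co.comm_sup, eq_bot_iff.2 fun d hd => ?_,
      fun a ha a1 d hd => fpf a ha a1 d (le hd)⟩
    · refine commutatorElement_eq_one_iff_mul_comm.1 (fpf a a.2 a1' _
        (commutator_mem_commutator (mem_top _) (mem_top _)) ?_)
      have : ⁅(u : G), (v : G)⁆ ∈ C(A) := by
        rw [commutatorElement_def]
        exact mul_mem (mul_mem (mul_mem u.2.2 v.2.2) (inv_mem u.2.2)) (inv_mem v.2.2)
      exact this a a.2
    · rw [← normalizer_eq_top_iff, eq_top_iff, ← hA.sup_eq_top]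
      exact sup_le norm_comm_right norm_comm_left
    · exact fpf a a.2 a1' d (le hd.2) (hd.1.2 a a.2)
  · rintro (⟨p, hp, h⟩ | h | ⟨p, _, P, A, nP, cyc, A1, cp, top, abC, nD, sup, -, fpf⟩) x y χ hx hy
      ⟨r, q, a, b, hr, hq, ne, ox, oy⟩
    · have := Fact.mk hp
      have k : ∀ (z : G) (s n : ℕ), z ≠ 1 → s.Prime → orderOf z = s ^ n → s = p := fun z s n hz hs e => by
        obtain ⟨k, hk⟩ := IsPGroup.iff_orderOf.1 h z
        have n0 : n ≠ 0 := by rintro rfl; exact hz (orderOf_eq_one_iff.1 e)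
        exact (Nat.prime_dvd_prime_iff_eq hs hp).1 (hs.dvd_of_dvd_pow (hk ▸ e ▸ dvd_pow_self s n0))
      exact absurd ((k x r a hx hr ox).trans (k y q b hy hq oy).symm) ne
    · exact χ.2.isCharacter.map_mul_of_apply_one (χ.2.apply_one_of_comm h.1.1) x y
    by_cases h1 : (χ : G → ℂ) 1 = 1
    · exact χ.2.isCharacter.map_mul_of_apply_one h1 x y
    set D := ⁅A, (P : Subgroup G)⁆
    set Z := (P : Subgroup G) ⊓ C(A)
    have dec : ∀ g : G, ∃ a ∈ A, ∃ c ∈ Z, ∃ d ∈ D, g = d * (a * c) := fun g => by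
      obtain ⟨a, ha, u, hu, rfl⟩ := mem_sup_of_normal_right.1 (top ▸ mem_top g : g ∈ A ⊔ P)
      rw [← sup] at hu
      obtain ⟨c, hc, d, hd, rfl⟩ := mem_sup_of_normal_right.1 hu
      exact ⟨a, ha, c, hc, _, nD.conj_mem d hd (a * c), by group⟩
    have DP : D ≤ P := commutator_le_right _ _
    have GD : _root_.commutator G ≤ D := by
      refine commutator_le.2 fun g _ h _ => ?_
      obtain ⟨a, ha, c, hc, d, hd, rfl⟩ := dec g
      obtain ⟨a', ha', c', hc', d', hd', rfl⟩ := dec h
      have c1 : Commute a a' := by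
        letI := cyc.commGroup
        exact congrArg Subtype.val (mul_comm (⟨a, ha⟩ : A) ⟨a', ha'⟩)
      have c2 : Commute c c' := congrArg Subtype.val (abC.1.1 ⟨c, hc⟩ ⟨c', hc'⟩)
      have c3 : Commute (a * c) (a' * c') :=
        (c1.mul_right (hc'.2 a ha)).mul_left ((Commute.symm (hc.2 a' ha')).mul_right c2)
      rw [← QuotientGroup.eq_one_iff]
      change QuotientGroup.mk' D _ = 1
      rw [map_commutatorElement, commutatorElement_eq_one_iff_commute, map_mul _ d, map_mul _ d',
        QuotientGroup.mk'_apply D d, QuotientGroup.mk'_apply D d', (QuotientGroup.eq_one_iff d).2 hd,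
        (QuotientGroup.eq_one_iff d').2 hd', one_mul, one_mul]
      exact c3.map _
    have van : ∀ g : G, g ∉ (P : Subgroup G) → (χ : G → ℂ) g = 0 := fun g hg => by
      obtain ⟨a, ha, c, hc, d, hd, rfl⟩ := dec g
      have a1 : a ≠ 1 := by rintro rfl; exact hg (mul_mem (DP hd) (mul_mem (one_mem _) hc.1))
      obtain ⟨k, hk⟩ := P.2 ⟨c, hc.1⟩
      have hk' : c ^ p ^ k = 1 := congrArg Subtype.val hk
      have f : ∀ e ∈ D, a * c * e = e * (a * c) → e = 1 := fun e he h => by
        refine fpf (a ^ p ^ k) (pow_mem ha _) (fun o => a1 ?_) e he ?_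
        · exact orderOf_eq_one_iff.1 (((cp.coprime_dvd_left (orderOf_dvd_card ha)).pow_right k).eq_one_of_dvd
            (orderOf_dvd_of_pow_eq_one o))
        · have := Commute.pow_left h (p ^ k)
          rwa [Commute.mul_pow (hc.2 a ha), hk', mul_one] at this
      refine van_of_conj (fun e he => (conj_coset f hd).symm.trans ?_) χ h1
      rw [← mul_assoc]; exact conj_coset f (mul_mem (GD he) hd)
    have k : ∀ (z : G) (s n : ℕ), z ≠ 1 → s.Prime → orderOf z = s ^ n → z ∈ (P : Subgroup G) → s = p :=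
      fun z s n hz hs e h => by
        obtain ⟨k, hk⟩ := IsPGroup.iff_orderOf.1 P.2 ⟨z, h⟩
        rw [← Subgroup.orderOf_coe] at hk
        have n0 : n ≠ 0 := by rintro rfl; exact hz (orderOf_eq_one_iff.1 e)
        exact (Nat.prime_dvd_prime_iff_eq hs Fact.out).1 (hs.dvd_of_dvd_pow (hk ▸ e ▸ dvd_pow_self s n0))
    have nb : ¬ (x ∈ (P : Subgroup G) ∧ y ∈ (P : Subgroup G)) := fun h =>
      ne ((k x r a hx hr ox h.1).trans (k y q b hy hq oy h.2).symm)
    have nxy : x * y ∉ (P : Subgroup G) := fun h => by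
      have e : (x : G ⧸ (P : Subgroup G)) = (y : G ⧸ (P : Subgroup G))⁻¹ :=
        mul_eq_one_iff_eq_inv.1 ((QuotientGroup.eq_one_iff _).2 h)
      have d1 := orderOf_map_dvd (QuotientGroup.mk' (P : Subgroup G)) x
      have d2 := orderOf_map_dvd (QuotientGroup.mk' (P : Subgroup G)) y
      rw [QuotientGroup.mk'_apply] at d1 d2
      rw [← orderOf_inv, ← e, oy] at d2
      rw [ox] at d1
      have := (QuotientGroup.eq_one_iff x).1 (orderOf_eq_one_iff.1
        (Nat.eq_one_of_dvd_coprimes (Nat.coprime_pow_primes a b hr hq ne) d1 d2))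
      exact nb ⟨this, (mul_mem_cancel_left this).1 h⟩
    rw [van _ nxy]
    rcases not_and_or.1 nb with h | h
    · rw [van _ h, zero_mul]
    · rw [van _ h, mul_zero]

end Cfsg.Agent.S4756
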