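import Cfsg.Statements.S4757
import Cfsg.Agent.H8.Hz2

set_option autoImplicit false
open Cfsg

namespace Cfsg.Agent.S4757

open H5 H7 H8 Cfsg Finset

/-- Let u ≠ 1 be an element of the finite group G and c a complex number such that every non-principal irreducible character χ satisfies χ(1) − χ(u) = c or χ(u) = 0. Then the following are equivalent: (a) u has order 2, G is generated by u together with O(G), the largest normal subgroup of G of odd order, and the centralizer of u is {1, u}; (b) G is not perfect; (c) c = 2. -/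
theorem result {G : Type*} [Group G] [Finite G] (u : G) (hu : u ≠ 1) (c : ℂ) (hyp : ∀ χ : Cfsg.IrrCharacter G, (χ : G → ℂ) ≠ (fun _ => (1 : ℂ)) → ((χ : G → ℂ) 1 - (χ : G → ℂ) u = c ∨ (χ : G → ℂ) u = 0)) : ((orderOf u = 2 ∧ Subgroup.zpowers u ⊔ Cfsg.oddCore G = ⊤ ∧ Subgroup.centralizer ({u} : Set G) = Subgroup.zpowers u) ↔ commutator G ≠ ⊤) ∧ (commutator G ≠ ⊤ ↔ c = 2) := by
  classical
  have h : Hz u c := hyp
  have hs := h.sum hu
  have hd : ∀ χ ∈ nIr G, χ.1 u * (χ.1 u + c) = if χ.1 u = 0 then 0 else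
      ((charDegree χ.1 : ℂ) - c) * charDegree χ.1 := fun χ e => by
    split_ifs with k
    · simp [k]
    · rw [coe_deg, ← (h χ (ne_irrOne.1 (mem_nIr.1 e))).resolve_right k]; ring
  have hlin : commutator G ≠ ⊤ ↔ ∃ χ ∈ nIr G, χ.1 1 = 1 := by
    rw [ne_eq, ← Subgroup.index_eq_one, ← card_linear_irr]
    refine ⟨fun e => by_contra fun k => e (Nat.card_eq_one_iff_exists.2 ⟨⟨irrOne G, rfl⟩, fun χ =>
      Subtype.ext (by_contra fun e => k ⟨χ, mem_nIr.2 e, χ.2⟩)⟩), fun ⟨χ, e, k⟩ k' => mem_nIr.1 e ?_⟩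
    exact congrArg Subtype.val ((Nat.card_eq_one_iff_unique.1 k').1.elim ⟨χ, k⟩ ⟨irrOne G, rfl⟩)
  have h2 : (∃ χ ∈ nIr G, χ.1 1 = 1) → c = 2 := fun ⟨χ, e, k⟩ => by
    have e1 := ne_irrOne.1 (mem_nIr.1 e)
    have nz : ∀ {ψ : G → ℂ}, IsIrrCharacter G ψ → ψ 1 = 1 → ψ u ≠ 0 := fun hψ k e => by
      simpa [e] using norm_lin hψ k u
    have e2 := (h χ e1).resolve_right (nz χ.2 k)
    have c0 : c ≠ 0 := fun c0 => by
      rw [sum_congr rfl hd, c0] at hs
      have := congrArg Complex.re hs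
      simp only [Complex.add_re, Complex.re_sum, Complex.one_re, Complex.zero_re] at this
      have : 0 ≤ ∑ χ ∈ nIr G, (if χ.1 u = 0 then 0 else ((charDegree χ.1 : ℂ) - 0) * charDegree χ.1).re :=
        sum_nonneg fun χ _ => by split_ifs <;> simp [mul_self_nonneg]
      linarith
    have h3 := (χ.2.isCharacter.mul χ.2.isCharacter).isIrr_of_apply_one (by simp [k])
    by_cases e3 : χ.1 * χ.1 = fun _ => 1
    · rcases sq_eq_one_iff_of_ne_zero' ((pow_two _).trans (congrFun e3 u)) with e4 | e4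
      · exact absurd (by rw [← e2, k, e4, sub_self]) c0
      · rw [← e2, k, e4]; norm_num
    · have e4 := (h ⟨_, h3⟩ e3).resolve_right (nz h3 (by simp [k]))
      simp only [Pi.mul_apply, k] at e4 e2
      exact absurd (by linear_combination mul_left_cancel₀ (nz χ.2 k) (show χ.1 u * c = χ.1 u * 0 by
        linear_combination e4 - (1 + χ.1 u) * e2 + 0 * e2)) c0
  have key : c = 2 → ∃ χ ∈ nIr G, χ.1 1 = 1 ∧ Nat.card (Subgroup.centralizer ({u} : Set G)) = 2 := by
    rintro rfl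
    let f : IrrCharacter G → ℤ := fun χ => if χ.1 u = 0 then 0 else ((charDegree χ.1 : ℤ) - 2) * charDegree χ.1
    have h3 : ∑ χ ∈ nIr G, f χ = -1 := by
      rw [sum_congr rfl hd] at hs
      exact_mod_cast (show ((∑ χ ∈ nIr G, f χ : ℤ) : ℂ) = -1 by
        simp only [f]; push_cast; linear_combination hs)
    have h4 : ∀ χ : IrrCharacter G, χ.1 1 ≠ 1 → 0 ≤ f χ := fun χ e => by
      have := deg_pos χ
      have : charDegree χ.1 ≠ 1 := fun k => e (by rw [← coe_deg, k, Nat.cast_one])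
      have : (0 : ℤ) ≤ charDegree χ.1 - 2 := by omega
      simp only [f]; split_ifs <;> positivity
    obtain ⟨χ, e, k⟩ : ∃ χ ∈ nIr G, χ.1 1 = 1 := by_contra fun k => by
      have := sum_nonneg fun χ e => h4 χ fun k' => k ⟨χ, e, k'⟩
      omega
    have h5 : ∀ ψ ∈ nIr G, ψ.1 1 = 1 → ψ.1 u = -1 := fun ψ e k => by
      rcases h ψ (ne_irrOne.1 (mem_nIr.1 e)) with k' | k'
      · linear_combination k - k'
      · simpa [k'] using norm_lin ψ.2 k u
    have h6 : ∀ ψ ∈ nIr G, ψ.1 1 = 1 → ∀ g, χ.1 g * ψ.1 g = 1 := fun ψ e' k' => congrFun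
      (h.eq_one_of_ker two_ne_zero ((χ.2.isCharacter.mul ψ.2.isCharacter).isIrr_of_apply_one (by simp [k, k']))
        (by simp [k, k', h5 χ e k, h5 ψ e' k']))
    have h7 : ∀ ψ ∈ (nIr G).erase χ, ψ.1 1 ≠ 1 := fun ψ e' k' => (mem_erase.1 e').1 (Subtype.ext (funext fun g =>
      mul_left_cancel₀ (left_ne_zero_of_mul_eq_one (h6 χ e k g))
        ((h6 ψ (mem_erase.1 e').2 k' g).trans (h6 χ e k g).symm)))
    rw [← add_sum_erase _ _ e, show f χ = -1 by simp [f, h5 χ e k, charDegree_of_eq (n := 1) (k.trans Nat.cast_one.symm)],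
      add_eq_left, sum_eq_zero_iff_of_nonneg fun ψ e' => h4 ψ (h7 ψ e')] at h3
    refine ⟨χ, e, k, ?_⟩
    have := sum_irr_mul_conj_of_isConj (IsConj.refl u)
    rw [sum_irr_split, ← add_sum_erase _ _ e, sum_eq_zero fun ψ e' => ?_, h5 χ e k] at this
    · exact_mod_cast this.symm.trans (show _ = (2 : ℂ) by simp; norm_num)
    refine mul_eq_zero_of_left (by_contra fun k' => ?_) _
    have h8 := h3 ψ e'
    have := deg_pos ψ
    simp only [f, if_neg k', mul_eq_zero] at h8
    have h9 := (h ψ (ne_irrOne.1 (mem_nIr.1 (mem_erase.1 e').2))).resolve_right k'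
    rw [← coe_deg, show charDegree ψ.1 = 2 by omega] at h9
    exact k' (by push_cast at h9; linear_combination -h9)
  refine ⟨⟨fun ⟨h3, h4, _⟩ e => ?_, fun e => ?_⟩, hlin.trans ⟨h2, fun e => (key e).imp fun χ e => ⟨e.1, e.2.1⟩⟩⟩
  · have h5 : IsCyclic (G ⧸ oddCore G) := ⟨⟨u, fun x => by
      induction x using QuotientGroup.induction_on with | H x => ?_
      obtain ⟨y, ⟨n, rfl⟩, z, hz, rfl⟩ := Subgroup.mem_sup_of_normal_right.1 (h4.ge (Subgroup.mem_top x))
      exact ⟨n, by simp [(QuotientGroup.eq_one_iff z).2 hz]⟩⟩⟩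
    have h6 := Subgroup.Normal.quotient_commutative_iff_commutator_le.1 h5.commutative
    exact hu (HzE.eq_one_of_odd (h6 (e.ge trivial)) (by rw [← pow_two, ← h3, pow_orderOf_eq_one]))
  obtain ⟨-, -, -, h3⟩ := key (h2 (hlin.1 e))
  have h4 : Subgroup.zpowers u ≤ Subgroup.centralizer {u} :=
    Subgroup.zpowers_le.2 (Subgroup.mem_centralizer_singleton_iff.2 rfl)
  have h5 : orderOf u = 2 := by
    have := Subgroup.card_dvd_of_le h4
    rw [h3, Nat.card_zpowers, Nat.dvd_prime Nat.prime_two, orderOf_eq_one_iff] at this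
    exact this.resolve_left hu
  have h6 := (Subgroup.eq_of_le_of_card_ge h4 (by rw [h3, Nat.card_zpowers, h5])).symm
  refine ⟨h5, ?_, h6⟩
  have hp : IsPE 2 u := ⟨1, by simp [h5]⟩
  have h7 : ∀ n ∈ Subgroup.normalizer (Subgroup.zpowers u : Set G), n ∈ Subgroup.zpowers u := fun n hn => by
    obtain ⟨i, hi, e⟩ := Finset.mem_image.1 (mem_zpowers_iff_mem_range_orderOf.1
      ((Subgroup.mem_normalizer_iff.1 hn u).1 (Subgroup.mem_zpowers u)))
    rw [h5, mem_range] at hi
    interval_cases i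
    · exact absurd (by simpa using e.symm) hu
    · exact h6.le (Subgroup.mem_centralizer_singleton_iff.2 (mul_inv_eq_iff_eq_mul.1 (by simpa using e.symm)))
  have h8 : SylIn 2 (Subgroup.zpowers u) ⊤ := SylIn.of_normalizer (sylIn_of_maximal
    (le_inf le_top Subgroup.le_normalizer) hp.isPGroup_zpowers fun Q _ e1 e2 =>
      le_antisymm (fun x e => h7 x (e2 e).2) e1)
  obtain ⟨P, hP⟩ := h8.exists_sylow
  have h9 := (pnil_of_le P fun n hn x hx => by
    rw [hP] at hn
    obtain ⟨i, rfl⟩ := h7 n hn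
    obtain ⟨j, rfl⟩ := hP.le hx
    exact zpow_mul_comm u j i).index
  rw [← Subgroup.card_top (G := G), ← h8.card, Nat.card_zpowers, h5] at h9
  refine eq_top_iff.2 fun g _ => ?_
  by_cases k : g ∈ oddCore G
  · exact Subgroup.mem_sup_right k
  exact (Subgroup.mul_mem_cancel_right _ (Subgroup.mem_sup_left (Subgroup.mem_zpowers u))).1
    (Subgroup.mem_sup_right ((Subgroup.mul_mem_iff_of_index_two h9).2 (iff_of_false k fun e =>
      hu (HzE.eq_one_of_odd e (by rw [← pow_two, ← h5, pow_orderOf_eq_one])))))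

end Cfsg.Agent.S4757
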