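import Cfsg.Statements.S4758
import Cfsg.Agent.H8.Hz2
import Cfsg.Agent.S0253

set_option autoImplicit false
open Cfsg

namespace Cfsg.Agent.S4758

open H5 H7 H8 Cfsg

/-- Let u ≠ 1 be an element of the finite group G such that every non-principal irreducible character χ satisfies χ(1) − χ(u) = 4 or χ(u) = 0. Then O(G), the largest normal subgroup of odd order, is abelian, and either G ⧸ O(G) ≅ PSL₂(5) and u is an involution, or G ⧸ O(G) ≅ SL₂(5) and u has order 4. -/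
theorem result {G : Type*} [Group G] [Finite G] (u : G) (hu : u ≠ 1) (hyp : ∀ χ : Cfsg.IrrCharacter G, (χ : G → ℂ) ≠ (fun _ => (1 : ℂ)) → ((χ : G → ℂ) 1 - (χ : G → ℂ) u = 4 ∨ (χ : G → ℂ) u = 0)) : IsMulCommutative ↥(Cfsg.oddCore G) ∧ ((Nonempty (G ⧸ Cfsg.oddCore G ≃* Matrix.ProjectiveSpecialLinearGroup (Fin 2) (ZMod 5)) ∧ orderOf u = 2) ∨ (Nonempty (G ⧸ Cfsg.oddCore G ≃* Matrix.SpecialLinearGroup (Fin 2) (ZMod 5)) ∧ orderOf u = 4)) := by
  obtain ⟨K, hN, P, v, h, ⟨e⟩⟩ := Hz.ex hyp hu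
  have hO : oddCore G ≤ K := by
    haveI : IsSimpleGroup (G ⧸ K) := e.isSimpleGroup
    rcases IsSimpleGroup.eq_bot_or_eq_top_of_normal (pPrimeCore 2 (G ⧸ K)) inferInstance with k | k
    · simpa [k, Subgroup.map_eq_bot_iff] using H1.map_pPrimeCore_le (p := 2) (QuotientGroup.mk'_surjective K)
    · exact absurd (by rw [k, Subgroup.card_top, Nat.card_congr e.toEquiv, H10.card_alt_five']; norm_num)
        (not_dvd_card_pPrimeCore (p := 2) (G := G ⧸ K))
  by_cases h2 : u * u = 1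
  · have h3 := h.eq_bot h2
    obtain rfl : oddCore G = K := le_antisymm hO (by simp [h3])
    haveI := Fact.mk Nat.prime_five
    obtain ⟨f⟩ := S0253.result (F := ZMod 5) (ZMod.card 5)
    refine ⟨⟨⟨fun a b => Subtype.ext ?_⟩⟩, Or.inl ⟨⟨e.trans f.symm⟩, orderOf_eq_prime (by rwa [pow_two]) hu⟩⟩
    simp [show a.1 = 1 from h3.le a.2]
  · exact ⟨h.comm h2 hO, Or.inr ⟨h.sl h2 hO e, (h.cyc h2 (IsConj.refl u)).1⟩⟩

end Cfsg.Agent.S4758
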