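import Cfsg.Statements.S4759
import Cfsg.Agent.H2.Xs4
import Cfsg.Agent.H6.Extension
import Cfsg.Agent.H3.PGrpBasic

set_option autoImplicit false
open Cfsg

open H5 H6 H2.Xs Finset
open scoped commutatorElement

namespace Cfsg.Agent.S4759

theorem idx {G : Type*} [Group G] [Finite G] (E H P : Subgroup G) [E.Normal] (h : E ⊔ H = ⊤)
    (hP : E ≤ P) : P.index = (P.subgroupOf H).index := by
  have hs : Function.Surjective ((QuotientGroup.mk' E).comp H.subtype) := fun q => by
    obtain ⟨g, rfl⟩ := QuotientGroup.mk_surjective q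
    obtain ⟨a, ha, b, hb, rfl⟩ := Subgroup.mem_sup_of_normal_left.1 (h ▸ Subgroup.mem_top g)
    refine ⟨⟨b, hb⟩, ?_⟩
    change ((b : G) : G ⧸ E) = _
    rw [QuotientGroup.mk_mul, (QuotientGroup.eq_one_iff a).2 ha, one_mul]
  rw [← Subgroup.index_map_eq P (QuotientGroup.mk'_surjective E) (by simpa using hP),
    ← Subgroup.index_comap_of_surjective _ hs, ← Subgroup.comap_comap, Subgroup.comap_map_eq,
    QuotientGroup.ker_mk', sup_eq_left.2 hP]
  rfl

/-- Let G be a finite group that is the semidirect product of a normal extraspecial 2-subgroup E and a complement H acting faithfully on E (no non-identity element of H centralizes E), and suppose H has a normal subgroup K of odd order with [E, K] = E. Then every faithful irreducible character θ of E (there is exactly one) extends to G: some irreducible character of G restricts to θ on E. -/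
theorem result {G : Type*} [Group G] [Finite G] (E H : Subgroup G) [E.Normal] (hE : Cfsg.IsExtraspecial 2 ↥E) (hEH : E ⊓ H = ⊥) (hEHtop : E ⊔ H = ⊤) (hfaith : ∀ h ∈ H, (∀ e ∈ E, h * e = e * h) → h = 1) (K : Subgroup G) (hKH : K ≤ H) (hKn : ∀ h ∈ H, ∀ k ∈ K, h * k * h⁻¹ ∈ K) (hKodd : Odd (Nat.card ↥K)) (hEK : ⁅E, K⁆ = E) (θ : Cfsg.IrrCharacter ↥E) (hθ : ∀ e : ↥E, (θ : ↥E → ℂ) e = (θ : ↥E → ℂ) 1 → e = 1) : ∃ χ : Cfsg.IrrCharacter G, ∀ e : ↥E, (χ : G → ℂ) e = (θ : ↥E → ℂ) e := by
  classical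
  obtain ⟨θ, n, ρ, hρ, rfl⟩ := θ
  simp only at hθ ⊢
  have := Fintype.ofFinite E
  have := Fintype.ofFinite K
  have hV := nontrivial_of_isIrreducible ρ
  have hirr : IsIrrCharacter E ρ.character := ⟨n, ρ, hρ, rfl⟩
  obtain ⟨⟨hp, hfr, -⟩, hz⟩ := hE
  have inj : Function.Injective ρ := (injective_iff_map_eq_one ρ).2 fun e h => hθ e (by
    simp only [Representation.character, h, map_one])
  have cen : ∀ x ∈ Subgroup.center E, ρ x = 1 ∨ ρ x = -1 := fun x hx => by
    obtain ⟨c, hc⟩ := exists_scalar_of_commute ρ (ρ x) fun g => by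
      change ρ x * ρ g = ρ g * ρ x
      rw [← map_mul, ← map_mul, Subgroup.mem_center_iff.1 hx]
    have h2 : x ^ 2 = 1 := congrArg Subtype.val (hz ▸ pow_card_eq_one' (x := (⟨x, hx⟩ : Subgroup.center E)))
    have h3 : (c * c) • (1 : Module.End ℂ (Fin n → ℂ)) = (1 : ℂ) • 1 := by
      rw [one_smul]
      nth_rewrite 2 [← map_one ρ]
      rw [← h2, pow_two, map_mul, hc]
      exact (smul_mul_smul_comm c 1 c 1).symm.trans rfl
    have h4 : c * c = 1 := smul_left_injective ℂ (one_ne_zero (α := Module.End ℂ (Fin n → ℂ))) h3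
    rcases mul_self_eq_one_iff.1 h4 with rfl | rfl
    · exact Or.inl (by rw [hc, one_smul]; rfl)
    · exact Or.inr (by rw [hc]; ext v; simp)
  have cen' : ∀ x, (∀ y, ρ x * ρ y = ρ y * ρ x) → x ∈ Subgroup.center E := fun x h =>
    Subgroup.mem_center_iff.2 fun y => inj (by rw [map_mul, map_mul, h])
  obtain ⟨z, hzc, hz1⟩ : ∃ z ∈ Subgroup.center E, z ≠ 1 := by
    obtain ⟨y, hy, -⟩ := (Nat.card_eq_two_iff' (1 : Subgroup.center E)).1 hz
    exact ⟨y, y.2, fun h => hy (Subtype.ext h)⟩
  have hz2 := (cen z hzc).resolve_left fun h => hz1 (inj (h.trans (map_one ρ).symm))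
  let X : Finset (Module.End ℂ (Fin n → ℂ)) := univ.image ρ
  have mX : ∀ x, ρ x ∈ X := fun x => mem_image_of_mem _ (mem_univ x)
  have oX : ∀ x ∈ X, ∃ y, ρ y = x := fun x hx => by simpa [X] using hx
  have hX : ES 1 X := by
    refine ⟨⟨one_ne_zero, map_one ρ ▸ mX 1, hz2 ▸ mX z, fun x hx y hy => ?_, fun x _ => one_mul x,
      fun x _ => mul_one x, fun x hx => ?_⟩, fun x hx h => ?_⟩ <;> obtain ⟨x, rfl⟩ := oX x hx
    · obtain ⟨y, rfl⟩ := oX y hy
      exact map_mul ρ x y ▸ mX _
    · rw [← map_mul, ← pow_two]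
      exact cen _ (hfr ▸ H3.pow_mem_frattini hp x)
    · exact cen _ (cen' x fun y => h _ (mX y))
  have van : ∀ x, x ∉ Subgroup.center E → ρ.character x = 0 := fun x hx => by
    obtain ⟨y, hy⟩ : ∃ y, ρ x * ρ y ≠ ρ y * ρ x := by
      by_contra h
      push Not at h
      exact hx (cen' x h)
    have h1 := (hX.comm (mX x) (mX y)).resolve_left hy
    have h2 := hirr.isClassFunction x y⁻¹
    have h3 : ρ (y⁻¹ * x * y⁻¹⁻¹) = -ρ x := by
      rw [inv_inv, mul_assoc, map_mul ρ, map_mul ρ, h1]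
      refine (mul_neg (α := Module.End ℂ (Fin n → ℂ)) _ _).trans ?_
      rw [← mul_assoc, ← map_mul ρ, inv_mul_cancel, map_one ρ, one_mul]
    rw [Representation.character, h3, map_neg] at h2
    exact neg_eq_self.1 h2
  have hinv : ∀ g : G, cj ρ.character g = ρ.character := fun g => funext fun x => by
    rw [cj_eq_comp]
    have hc : ∀ y, MulAut.conjNormal g y ∈ Subgroup.center E ↔ y ∈ Subgroup.center E := fun y => by
      nth_rewrite 2 [← (Subgroup.characteristic_iff_comap_eq (H := Subgroup.center E)).1 inferInstance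
        (MulAut.conjNormal g)]
      rfl
    by_cases hx : x ∈ Subgroup.center E
    · by_cases h1 : x = 1
      · simp [h1]
      · have h2 : ∀ y ∈ Subgroup.center E, y ≠ 1 → ρ y = -1 := fun y hy h =>
          (cen y hy).resolve_left fun k => h (inj (k.trans (map_one ρ).symm))
        simp only [Representation.character]
        rw [h2 x hx h1, h2 _ ((hc x).2 hx) (by simpa using h1)]
    · simp only
      rw [van x hx, van _ (mt (hc x).1 hx)]
  choose A hA using fun g => exists_intertwiner ρ g (hinv g)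
  replace hA : ∀ g x, (A g : Module.End ℂ (Fin n → ℂ)) * ρ x = ρ (MulAut.conjNormal g x) * A g := hA
  have sc : ∀ B : Module.End ℂ (Fin n → ℂ), (∀ x, B * ρ x = ρ x * B) → ∀ a, B * a = a * B :=
    fun B h a => by
      obtain ⟨c, rfl⟩ := exists_scalar_of_commute ρ B h
      exact (smul_mul_assoc c 1 a).trans (by rw [one_mul]; exact ((mul_smul_comm c a 1).trans
        (by rw [mul_one])).symm)
  letI : MulSemiringAction G (Module.End ℂ (Fin n → ℂ)) :=
    { smul := fun g a => A g * a * (A g)⁻¹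
      one_smul := fun a => by
        change A 1 * a * (A 1)⁻¹ = a
        rw [sc (A 1) (fun x => by simpa using hA 1 x), Units.mul_inv_cancel_right]
      mul_smul := fun g h a => by
        change A (g * h) * a * (A (g * h))⁻¹ = A g * (A h * a * (A h)⁻¹) * (A g)⁻¹
        have := sc ((A (g * h))⁻¹ * A g * A h : (Module.End ℂ (Fin n → ℂ))ˣ) (fun x => by
          rw [Units.val_mul, Units.val_mul, mul_assoc, mul_assoc, hA, ← mul_assoc (A g).1, hA,
            Units.inv_mul_eq_iff_eq_mul, ← mul_assoc (A (g * h)).1, hA,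
            map_mul, MulAut.mul_apply]
          simp [mul_assoc]) a
        simp only [Units.val_mul, mul_assoc, Units.inv_mul_eq_iff_eq_mul] at this
        simp only [← mul_assoc, Units.eq_mul_inv_iff_mul_eq]
        simpa only [mul_assoc] using this.symm
      smul_zero := fun g => by change (A g).1 * 0 * _ = 0; simp
      smul_add := fun g a b => by
        change A g * (a + b) * _ = A g * a * _ + A g * b * _; rw [mul_add, add_mul]
      smul_one := fun g => by change (A g).1 * 1 * _ = 1; simp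
      smul_mul := fun g a b => by
        change A g * (a * b) * _ = A g * a * _ * (A g * b * _); simp [mul_assoc] }
  haveI : SMulCommClass G ℂ (Module.End ℂ (Fin n → ℂ)) := ⟨fun g c a => by
    change A g * (c • a) * _ = c • (A g * a * _); rw [mul_smul_comm, smul_mul_assoc]⟩
  have sm : ∀ (g : G) x, g • ρ x = ρ (MulAut.conjNormal g x) := fun g x => by
    change A g * ρ x * _ = _
    rw [hA, Units.mul_inv_cancel_right]
  have iX : ∀ g : G, ∀ x ∈ X, g • x ∈ X := fun g x hx => by
    obtain ⟨x, rfl⟩ := oX x hx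
    exact sm g x ▸ mX _
  have fpf : ∀ x ∈ X, (∀ k ∈ K, k • x = x ∨ k • x = -x) → x = 1 ∨ x = -1 := by
    obtain ⟨V, _, _, π, β, a, hs⟩ := exists_sp (G := G) hX.toES0
    have hG : ∀ g, g ∈ stabX G X := fun g => ⟨iX g, iX _⟩
    have ha := hs.isAct hX
    let f : E →* Multiplicative V := MonoidHom.mk'
      (fun x => Multiplicative.ofAdd (∑ k : K, a k (π (ρ x)))) fun x y => by
        rw [map_mul, hs.quo.hom _ (mX x) _ (mX y), ← ofAdd_add, ← sum_add_distrib]
        simp only [map_add]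
    have hf : ⁅E, K⁆ ≤ f.ker.map E.subtype := Subgroup.commutator_le.2 fun x hx k hk => by
      refine ⟨⟨x, hx⟩ * MulAut.conjNormal k (⟨x, hx⟩ : E)⁻¹, ?_, by simp [commutatorElement_def, mul_assoc]⟩
      have : f (MulAut.conjNormal k (⟨x, hx⟩ : E)⁻¹) = f (⟨x, hx⟩ : E)⁻¹ := by
        refine congrArg Multiplicative.ofAdd
          (Fintype.sum_equiv (Equiv.mulRight (⟨k, hk⟩ : K)) _ _ fun l => ?_)
        rw [← sm, ← hs.act k (hG k) _ (mX _), ha.app (hG _) (hG _)]; rfl
      change f _ = 1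
      rw [map_mul, this, ← map_mul, mul_inv_cancel, map_one]
    intro x hx h
    obtain ⟨x, rfl⟩ := oX x hx
    obtain ⟨y, hy, e⟩ := hf (by rw [hEK]; exact x.2 : (x : G) ∈ ⁅E, K⁆)
    obtain rfl : y = x := Subtype.ext e
    have h1 : ∑ k : K, a k (π (ρ y)) = 0 := hy
    rw [sum_congr rfl (g := fun _ => π (ρ y)), sum_const, card_univ, ← Nat.card_eq_fintype_card,
      odd_smul hKodd] at h1
    · exact (hs.quo.ker _ hx).1 h1
    · intro k _
      rw [hs.act k (hG k) _ hx, hs.eq_iff hX (iX k _ hx) hx]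
      exact h k k.2
  obtain ⟨χ, h1, h2⟩ := ext_of_sylow hirr hinv fun p hpp => by
    haveI := Fact.mk hpp
    obtain ⟨S⟩ : Nonempty (Sylow p H) := inferInstance
    set T := (S : Subgroup H).map H.subtype
    have hT : IsPGroup p T := S.isPGroup'.map _
    have hTH : T ≤ H := Subgroup.map_subtype_le _
    have hi : ¬ p ∣ (E ⊔ T).index := fun h => S.not_dvd_index (h.trans (by
      rw [idx E H _ hEHtop le_sup_left]
      exact Subgroup.index_dvd_of_le fun x hx => Subgroup.mem_sup_right ⟨x, hx, rfl⟩))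
    refine ⟨E ⊔ T, le_sup_left, ?_⟩
    by_cases hp2 : p = 2
    · subst hp2
      obtain ⟨u, hu⟩ := main _ 1 X K T le_rfl hX (fun g _ => iX g) (fun g _ => iX g) hKodd hT
        (fun t ht => hKn t (hTH ht)) fpf
      have dec : ∀ g : ↥(E ⊔ T), ∃ x : E, ∃ t ∈ T, (g : G) = x * t := fun g => by
        obtain ⟨a, ha, b, hb, e⟩ := Subgroup.mem_sup_of_normal_left.1 g.2
        exact ⟨⟨a, ha⟩, b, hb, e.symm⟩
      choose a b hb hab using dec
      have uq : ∀ g : ↥(E ⊔ T), ∀ x : E, ∀ t ∈ T, (g : G) = x * t → a g = x ∧ b g = t :=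
        fun g x t ht e => by
        have e1 := (hab g).symm.trans e
        have e2 : ((x⁻¹ * a g : E) : G) = t * (b g)⁻¹ := by
          rw [Subgroup.coe_mul, Subgroup.coe_inv, inv_mul_eq_iff_eq_mul, ← mul_assoc, ← e1,
            mul_inv_cancel_right]
        have e3 : t * (b g)⁻¹ ∈ E ⊓ H := ⟨e2 ▸ (x⁻¹ * a g).2, hTH (mul_mem ht (inv_mem (hb g)))⟩
        rw [hEH, Subgroup.mem_bot, mul_inv_eq_one] at e3
        subst e3
        exact ⟨Subtype.ext (mul_right_cancel e1), rfl⟩
      let σ : Representation ℂ ↥(E ⊔ T) (Fin n → ℂ) :=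
        { toFun := fun g => ρ (a g) * u (b g)
          map_one' := by
            obtain ⟨e1, e2⟩ := uq 1 1 1 T.one_mem (by simp)
            rw [e1, e2, hu.one, map_one, mul_one]
          map_mul' := fun g h => by
            obtain ⟨e1, e2⟩ := uq (g * h) (a g * MulAut.conjNormal (b g) (a h)) _
              (mul_mem (hb g) (hb h)) (by rw [Subgroup.coe_mul, hab g, hab h]; simp [mul_assoc])
            rw [e1, e2, map_mul, hu.mul _ (hb g) _ (hb h), ← sm, mul_assoc, mul_assoc,
              ← mul_assoc (u (b g)), hu.comm _ (hb g) _ (mX _), mul_assoc] }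
      refine ⟨σ.character, hi, isCharacter_character σ, fun x => ?_⟩
      obtain ⟨e1, e2⟩ := uq ⟨x, Subgroup.mem_sup_left x.2⟩ x 1 T.one_mem (by simp)
      change LinearMap.trace ℂ _ (ρ (a _) * u (b _)) = _
      rw [e1, e2, hu.one, mul_one]; rfl
    · obtain ⟨η, j1, j2⟩ := ext_of_coprime_card (isIrr_sOf (le_sup_left : E ≤ E ⊔ T) hirr)
        (fun g => by rw [cj_sOf, hinv]) (by
          obtain ⟨i, hi⟩ := IsPGroup.iff_card.1 hp
          obtain ⟨j, hj⟩ := IsPGroup.iff_card.1 hT
          rw [Nat.card_congr (Subgroup.subgroupOfEquivOfLe (le_sup_left : E ≤ E ⊔ T)).toEquiv, hi]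
          refine Nat.Coprime.coprime_dvd_right ?_
            (Nat.coprime_pow_primes i j Nat.prime_two hpp (Ne.symm hp2))
          rw [← hj, ← Subgroup.relIndex, Subgroup.relIndex_sup_left]
          exact Subgroup.relIndex_dvd_card _ _)
      exact ⟨η, hi, j1.isCharacter, fun x => j2 ⟨⟨x, Subgroup.mem_sup_left x.2⟩, x.2⟩⟩
  exact ⟨⟨χ, h1⟩, h2⟩

end Cfsg.Agent.S4759
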