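import Cfsg.Statements.S4762
import Cfsg.Agent.H8.PDeg
import Cfsg.Agent.H1.Fitting
import Cfsg.Agent.H1.SylowIn

set_option autoImplicit false
open Cfsg

namespace Cfsg.Agent.S4762

open H5 H8 H6 Cfsg
open scoped commutatorElement

theorem pgrp {G : Type*} [Group G] [Finite G] [Group.IsNilpotent G] (p : ℕ) [hp : Fact p.Prime]
    (χ : IrrCharacter G) (hχ : p ∣ charDegree χ.1)
    (hu : ∀ ψ : IrrCharacter G, p ∣ charDegree ψ.1 → ψ = χ) : IsPGroup p G := by
  classical
  letI := Fintype.ofFinite G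
  obtain ⟨P⟩ : Nonempty (Sylow p G) := inferInstance
  haveI : (P : Subgroup G).Normal := Sylow.normal_of_normalizerCondition
    (Group.normalizerCondition_of_isNilpotent) P
  have hsup := H1.nilpotent_eq_pCore_sup_pPrimeCore (G := G) p
  rw [H1.pCore_eq_of_normal_sylow P] at hsup
  obtain ⟨k, hk⟩ := IsPGroup.iff_card.1 P.isPGroup'
  have hcomm : ⁅(P : Subgroup G), pPrimeCore p G⁆ = ⊥ :=
    H1.commutator_eq_bot_of_coprime_of_isNilpotent (by
      rw [hk]; exact (H1.coprime_card_pPrimeCore p G).symm.pow_left k)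
  obtain ⟨α, hα, hne⟩ := (χ.2.isCharacter.restrict P).exists_irr_constituent (fun e => by
    have := congrFun e 1
    exact χ.2.apply_one_ne_zero this)
  have hinv : ∀ g : G, H6.cj α g = α := by
    intro g
    obtain ⟨x, hx, y, hy, rfl⟩ := Subgroup.mem_sup_of_normal_left.1 (hsup ▸ Subgroup.mem_top g :
      g ∈ (P : Subgroup G) ⊔ pPrimeCore p G)
    rw [H6.cj_mul, H6.cj_of_mem hα.isClassFunction hx]
    ext n
    rw [H6.cj_apply]
    congr 1
    ext
    have : ⁅(n : G), y⁆ = 1 := by
      rw [← Subgroup.mem_bot, ← hcomm]; exact Subgroup.commutator_mem_commutator n.2 hy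
    rw [commutatorElement_eq_one_iff_mul_comm] at this
    simp only [← this, mul_inv_cancel_right]
  have hidx : ¬ p ∣ (P : Subgroup G).index := P.not_dvd_index
  obtain ⟨a, ha, hae⟩ := H6.ext_of_coprime_card hα hinv (by
    rw [hk]; exact ((Nat.Prime.coprime_iff_not_dvd hp.out).2 hidx).pow_left k)
  have har : (fun n : (P : Subgroup G) => a n) = α := funext hae
  have hN : IsIrrCharacter P (fun n : (P : Subgroup G) => a n) := har ▸ hα
  obtain ⟨β, hβ, hβ1, hβe⟩ := H6.gallagher_surj ha.isCharacter hN χ.2 (by rw [har]; exact hne)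
  have hdeg : ∀ γ, IsIrrCharacter G γ → charDegree (γ * a) = charDegree γ * charDegree a := by
    intro γ hγ
    apply charDegree_eq_of_apply_one
    rw [Pi.mul_apply, ← hγ.coe_charDegree, ← ha.coe_charDegree]; push_cast; rfl
  have hβd : charDegree β ∣ (P : Subgroup G).index := deg_dvd_index_of_comm hβ P
    ((Subgroup.commutator_le_left _ _).trans fun x hx =>
      hβ.isCharacter.mem_charKer.2 (hβ1 ⟨x, hx⟩))
  have hpa : p ∣ charDegree a := by
    rw [← hβe, hdeg β hβ] at hχ
    exact (hp.out.dvd_mul.1 hχ).resolve_left fun h => hidx (h.trans hβd)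
  by_contra hG
  have hP : (P : Subgroup G) ≠ ⊤ := fun e => hG (by
    have := P.isPGroup'
    rw [e] at this
    exact this.of_equiv Subgroup.topEquiv)
  obtain ⟨g, hg⟩ : ∃ g, g ∉ (P : Subgroup G) := by
    by_contra h; push Not at h; exact hP (eq_top_iff.2 fun x _ => h x)
  obtain ⟨γ, h1, h2, h3⟩ := exists_irr_le_charKer_not_mem (P : Subgroup G) hg
  have hγ1 : ∀ n : (P : Subgroup G), γ n = γ 1 := fun n => h1.isCharacter.mem_charKer.1 (h2 n.2)
  have e1 := hu ⟨_, H6.gallagher_irr ha.isCharacter hN h1 hγ1⟩ (by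
    rw [hdeg γ h1]; exact hpa.mul_left _)
  have e2 := hu ⟨_, ha⟩ hpa
  have e3 : γ * a = (fun _ => 1) * a := by
    have := congrArg Subtype.val (e1.trans e2.symm)
    rw [show γ * a = a from this]; ext; simp
  have := H6.gallagher_inj ha.isCharacter hN h1 hγ1 isIrrCharacter_one (fun _ => rfl) e3
  exact h3 (h1.isCharacter.mem_charKer.2 (by rw [this]))

theorem arith {p a n k : ℕ} (hp : p.Prime) (h : p ^ (2 * k) + p ^ a = p ^ n) :
    p = 2 ∧ a = 2 * k ∧ n = a + 1 := by
  have h1 := hp.one_lt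
  have key : ∀ {x y : ℕ}, x ≤ y → p ^ x + p ^ y = p ^ n → p = 2 ∧ x = y ∧ n = x + 1 := by
    intro x y hxy h
    obtain ⟨d, rfl⟩ := Nat.exists_eq_add_of_le hxy
    have hn : x < n := by
      rw [← Nat.pow_lt_pow_iff_right h1, ← h]
      have := pow_pos hp.pos (x + d); omega
    obtain ⟨e, rfl⟩ := Nat.exists_eq_add_of_lt hn
    have h2 : 1 + p ^ d = p ^ (e + 1) := by
      apply Nat.eq_of_mul_eq_mul_left (pow_pos hp.pos x)
      rw [mul_add, mul_one, ← pow_add, h, ← pow_add, add_assoc]
    rcases d with _ | d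
    · have h3 : p ^ (e + 1) = 2 := by simpa using h2.symm
      have := (Nat.pow_eq_self_iff (a := 2) (b := e + 1) (by norm_num))
      have hp2 : p = 2 := (Nat.prime_dvd_prime_iff_eq hp Nat.prime_two).1
        (h3 ▸ dvd_pow_self p (by omega))
      subst hp2
      exact ⟨rfl, rfl, by have := this.1 h3; omega⟩
    · exfalso
      have : p ∣ 1 := (Nat.dvd_add_left (dvd_pow_self p (by omega : d + 1 ≠ 0))).1
        (h2 ▸ dvd_pow_self p (by omega))
      exact hp.one_lt.ne' (Nat.dvd_one.1 this)
  rcases le_total (2 * k) a with hh | hh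
  · obtain ⟨h1, h2, h3⟩ := key hh h; exact ⟨h1, h2.symm, by omega⟩
  · obtain ⟨h1, h2, h3⟩ := key hh (by rw [add_comm]; exact h); exact ⟨h1, h2, h3⟩

/-- Let p be a prime and G a finite nilpotent group. Then G has exactly one irreducible complex character of degree divisible by p if and only if p = 2 and G is an extraspecial 2-group. -/
theorem result {G : Type*} [Group G] [Finite G] [Group.IsNilpotent G] (p : ℕ) [Fact p.Prime] : Nat.card {χ : Cfsg.IrrCharacter G // p ∣ Cfsg.charDegree (χ : G → ℂ)} = 1 ↔ (p = 2 ∧ Cfsg.IsExtraspecial 2 G) := by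
  classical
  have hp : p.Prime := Fact.out
  constructor
  · intro h
    obtain ⟨⟨χ, hχ⟩, hu'⟩ := Nat.card_eq_one_iff_exists.1 h
    have hu : ∀ ψ : IrrCharacter G, p ∣ charDegree ψ.1 → ψ = χ := fun ψ hψ =>
      congrArg Subtype.val (hu' ⟨ψ, hψ⟩)
    have hG := pgrp p χ hχ hu
    have hs := sum_nonlinear (G := G)
    have hχ1 := (dvd_deg_iff hG χ.2).1 hχ
    rw [Finset.sum_eq_single_of_mem χ (by simpa using hχ1) (fun ψ hψ hne =>
      (hne (hu ψ ((dvd_deg_iff hG ψ.2).2 (by simpa using hψ)))).elim)] at hs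
    obtain ⟨k, hk⟩ := deg_eq_pow hG χ.2
    obtain ⟨n, hn⟩ := IsPGroup.iff_card.1 hG
    obtain ⟨a, -, ha⟩ := (Nat.dvd_prime_pow hp).1 (hn ▸ (commutator G).index_dvd_card)
    rw [hk, ha, hn, ← pow_mul, mul_comm] at hs
    obtain ⟨rfl, h2, h3⟩ := arith hp hs
    have hc : Nat.card (commutator G) = 2 := by
      have := (commutator G).card_mul_index
      rw [ha, hn, h3, pow_succ, mul_comm] at this
      exact Nat.eq_of_mul_eq_mul_left (by positivity) this
    have hle : commutator G ≤ Subgroup.center G := le_center_of_card_prime hG (by rw [hc])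
    have hsq := deg_sq_of_comm χ.2 (hle.trans χ.2.center_le_charCenter)
    have hZ : Subgroup.center G = commutator G := by
      symm
      apply Subgroup.eq_of_le_of_card_ge hle
      have h4 := Subgroup.index_dvd_of_le χ.2.center_le_charCenter
      rw [← hsq, hk, ← pow_mul, mul_comm, ← h2, ← ha] at h4
      have h5 := (Subgroup.center G).card_mul_index
      rw [← (commutator G).card_mul_index] at h5
      have h6 := Nat.le_of_dvd (Nat.pos_of_ne_zero Subgroup.FiniteIndex.index_ne_zero) h4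
      have h7 : 0 < (commutator G).index := Nat.pos_of_ne_zero Subgroup.FiniteIndex.index_ne_zero
      by_contra h8
      push Not at h8
      nlinarith
    refine ⟨rfl, ⟨hG, le_antisymm ((H3.frattini_le_iff hG).2 ⟨hle, fun x => ?_⟩)
      (hZ ▸ H3.commutator_le_frattini hG), hZ.symm⟩, by rw [hZ, hc]⟩
    exact pow_mem_center_of_comm hle (fun m hm => by
      have := pow_card_eq_one' (x := (⟨m, hm⟩ : commutator G))
      rw [hc] at this
      exact congrArg Subtype.val this) fun y => Subgroup.commutator_mem_commutator trivial trivial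
  · rintro ⟨rfl, ⟨hG, -, hZ⟩, hc⟩
    have hs := sum_nonlinear (G := G)
    have key : ∀ ψ : IrrCharacter G, charDegree ψ.1 ≠ 1 →
        charDegree ψ.1 ^ 2 = (commutator G).index := by
      intro ψ hψ
      rw [deg_sq_of_comm ψ.2 (hZ.le.trans ψ.2.center_le_charCenter)]
      congr 1
      refine le_antisymm (fun g hg => ?_) (hZ.le.trans ψ.2.center_le_charCenter)
      rw [hZ, Subgroup.mem_center_iff]
      intro x
      have h1 := ψ.2.mem_charCenter_iff_commutator.1 hg x
      have h2 : charKer ψ.1 ⊓ commutator G = ⊥ := by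
        haveI : Fact (Nat.card (commutator G)).Prime := ⟨by rw [hZ, hc]; exact Nat.prime_two⟩
        rcases (Subgroup.eq_bot_or_eq_top_of_prime_card ((charKer ψ.1).subgroupOf (commutator G))) with h | h
        · exact disjoint_iff.1 (Subgroup.subgroupOf_eq_bot.1 h)
        · exact absurd (Subgroup.subgroupOf_eq_top.1 h) ((not_le_ker_iff ψ.2).2 hψ)
      have h3 : ⁅g, x⁆ ∈ charKer ψ.1 ⊓ commutator G :=
        ⟨h1, Subgroup.commutator_mem_commutator trivial trivial⟩
      rw [h2, Subgroup.mem_bot, commutatorElement_eq_one_iff_mul_comm] at h3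
      exact h3.symm
    rw [Finset.sum_congr rfl (fun ψ hψ => key ψ (Finset.mem_filter.1 hψ).2), Finset.sum_const,
      ← (commutator G).card_mul_index, hZ, hc, ← hZ, smul_eq_mul] at hs
    rw [Nat.subtype_card (Finset.univ.filter fun ψ : IrrCharacter G => charDegree ψ.1 ≠ 1)
      (fun ψ => by simp [dvd_deg_iff hG ψ.2])]
    have h7 : 0 < (commutator G).index := Nat.pos_of_ne_zero Subgroup.FiniteIndex.index_ne_zero
    apply Nat.eq_of_mul_eq_mul_right h7
    omega

end Cfsg.Agent.S4762
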