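import Cfsg.Statements.S4763
import Cfsg.Agent.H8.Cd3
import Cfsg.Agent.H8.AD
import Cfsg.Agent.S4452

set_option autoImplicit false
open Cfsg

namespace Cfsg.Agent.S4763

open H5 H6 H7 H8 Cfsg
open scoped commutatorElement

/-- Let p be a prime and G a finite group that is not nilpotent and has a normal p-complement (a normal subgroup of order prime to p and index a power of p). If G has exactly one irreducible complex character of degree divisible by p, then G has exactly one conjugacy class whose size is divisible by p. -/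
theorem result {G : Type*} [Group G] [Finite G] (p : ℕ) [Fact p.Prime] (hnil : ¬ Group.IsNilpotent G) (N : Subgroup G) [N.Normal] (hN : (Nat.card N).Coprime p) (hidx : ∃ k : ℕ, N.index = p ^ k) (hone : Nat.card {χ : Cfsg.IrrCharacter G // p ∣ Cfsg.charDegree (χ : G → ℂ)} = 1) : Nat.card {C : ConjClasses G // p ∣ Nat.card C.carrier} = 1 := by
  have hp : p.Prime := Fact.out
  haveI := Fintype.ofFinite N
  haveI := Fintype.ofFinite G
  obtain ⟨P⟩ : Nonempty (Sylow p G) := inferInstance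
  obtain ⟨k, hk⟩ := hidx
  obtain ⟨a, ha⟩ := P.isPGroup'.exists_card_eq
  have h1 : N ⊔ P = ⊤ := Subgroup.index_eq_one.1 (Nat.eq_one_of_dvd_coprimes
    ((hp.coprime_iff_not_dvd.2 P.not_dvd_index).pow_left k) (hk ▸ Subgroup.index_dvd_of_le le_sup_left)
    (Subgroup.index_dvd_of_le le_sup_right))
  have uq := (Nat.card_eq_one_iff_unique.1 hone).1
  have h2 : commutator G ≤ N := by_contra fun e => by
    obtain ⟨β, b1, b2, b3⟩ := exists_deg_top (K := N) fun e' => e ((commutator_le_comap (QuotientGroup.mk' N)).trans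
      (by rw [e', MonoidHom.comap_bot, QuotientGroup.ker_mk']))
    obtain ⟨b, b4, b5⟩ := deg_dvd_of_under (N := N) b1 isIrrCharacter_one
      ((inner_res_one_ne_zero_iff b1).2 fun n => apply_eq_of_mem_charKer (b2 n.2))
    rw [charDegree_of_eq (χ := fun _ => 1) (n := 1) (by simp), mul_one] at b5
    have dv : ∀ {m}, m ∣ N.index → m ≠ 1 → p ∣ m := fun h h' => by
      obtain ⟨j, -, rfl⟩ := (Nat.dvd_prime_pow hp).1 (hk ▸ h)
      exact dvd_pow_self p fun e => h' (by simp [e])
    have b6 := dv (b5 ▸ b4) b3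
    obtain ⟨g, hg⟩ := Subgroup.ne_bot_iff_exists_ne_one.1 (show N ≠ ⊥ from fun e =>
      hnil (IsPGroup.of_card (by rwa [e, Subgroup.index_bot] at hk)).isNilpotent)
    obtain ⟨θ, hθ, h3⟩ := exists_irr_not_mem_charKer hg
    obtain ⟨η, hη, he⟩ := exists_ext_inertia (hk ▸ hN.pow_right k) hθ
    obtain ⟨β', c1, c2, c3⟩ : ∃ β' : inertia θ → ℂ, IsIrrCharacter _ β' ∧ N.subgroupOf (inertia θ) ≤ charKer β' ∧
        p ∣ (inertia θ).index * charDegree β' := by
      by_cases e : inertia θ = ⊤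
      · have := b1.comp_surjective (inertia θ).subtype fun x => ⟨⟨x, e.ge trivial⟩, rfl⟩
        exact ⟨_, this, fun x hx => this.mem_charKer.2 (apply_eq_of_mem_charKer (b2 hx)), b6.mul_left _⟩
      · exact ⟨_, isIrrCharacter_one, charKer_one.ge.trans' le_top, (dv (Subgroup.index_dvd_of_le
          (le_inertia hθ.isClassFunction)) fun e' => e (Subgroup.index_eq_one.1 e')).mul_right _⟩
    obtain ⟨χ, d1, d2, d3⟩ := deg_over_ext hθ hη he c1 c2
    obtain rfl : χ = β := congrArg (·.1.1) (uq.elim ⟨⟨χ, d1⟩, by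
      rw [d2, ← mul_assoc]; exact c3.mul_right _⟩ ⟨⟨β, b1⟩, b6⟩)
    exact h3 (d3 (b2 g.2))
  have h3 : nN (P : Subgroup G) ≤ cC P := fun g hg x hx => commutatorElement_eq_one_iff_mul_comm.1
    ((H1.inf_eq_bot_of_isPGroup_of_coprime P.isPGroup' hN).le ⟨by
      rw [commutatorElement_def, mul_assoc, mul_assoc, ← mul_assoc g]
      exact mul_mem hx ((Subgroup.mem_normalizer_iff.1 hg _).1 (inv_mem hx)),
      h2 (Subgroup.commutator_mem_commutator trivial trivial)⟩)
  have a0 : a ≠ 0 := fun e => by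
    obtain ⟨χ, hχ⟩ := (Nat.card_eq_one_iff_unique.1 hone).2
    exact P.ne_bot_of_dvd_card (hχ.trans χ.2.charDegree_dvd_card) (Subgroup.card_eq_one.1 (by simp [ha, e]))
  have h4 := Cfsg.Agent.S4452.result N P h1 (ha ▸ hN.pow_right a) (H1.isSolvable_of_isPGroup P.isPGroup')
  simp only [ha, Nat.coprime_pow_right_iff (Nat.pos_of_ne_zero a0),
    fun n => (Nat.coprime_comm (n := n)).trans hp.coprime_iff_not_dvd] at h4
  rw [Nat.card_congr (Equiv.subtypeUnivEquiv fun η : IrrCharacter (nN (P : Subgroup G)) => fun e =>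
    (P.subtype Subgroup.le_normalizer).not_dvd_index (e.trans (η.2.charDegree_dvd_index_charCenter.trans
      (Subgroup.index_dvd_of_le (le_trans (fun x hx => Subgroup.mem_center_iff.2 fun y =>
        Subtype.ext (h3 y.2 x.1 hx).symm) η.2.center_le_charCenter))))), card_irr_eq_card_conjClasses] at h4
  have h5 : ∀ g : G, Nat.card (ConjClasses.mk g).carrier = (c1 g).index := ncard_carrier_mk
  have h6 : ∀ g ∈ cC (P : Subgroup G), ¬ p ∣ (c1 g).index := fun g hg e => P.not_dvd_index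
    (e.trans (Subgroup.index_dvd_of_le (le_centralizer_singleton_iff.2 hg)))
  rw [Nat.card_congr (Equiv.ofBijective (β := {C : ConjClasses G // ¬ p ∣ Nat.card C.carrier})
    (fun C : ConjClasses (nN (P : Subgroup G)) => ⟨C.map (nN (P : Subgroup G)).subtype, by
      obtain ⟨x, rfl⟩ := C.exists_rep
      exact (h5 x).symm ▸ h6 _ (h3 x.2)⟩) ⟨fun C D e => ?_, fun C => ?_⟩)] at h4
  · have h7 := Nat.card_congr (Equiv.sumCompl fun χ : IrrCharacter G => p ∣ charDegree χ.1)
    have h8 := Nat.card_congr (Equiv.sumCompl fun C : ConjClasses G => p ∣ Nat.card C.carrier)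
    rw [Nat.card_sum] at h7 h8
    have := card_irr_eq_card_conjClasses (G := G)
    omega
  · obtain ⟨x, rfl⟩ := C.exists_rep
    obtain ⟨y, rfl⟩ := D.exists_rep
    obtain ⟨n, hn, e⟩ := exists_normalizer_conj ((sylIn_top P).of_le (le_centralizer_singleton_iff.2 (h3 x.2)) le_top)
      (ConjClasses.mk_eq_mk_iff_isConj.1 (congrArg Subtype.val e)) (h3 y.2)
    exact ConjClasses.mk_eq_mk_iff_isConj.2 (isConj_iff.2 ⟨⟨n, hn⟩, Subtype.ext e⟩)
  · obtain ⟨C, hC⟩ := C
    obtain ⟨g, rfl⟩ := C.exists_rep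
    obtain ⟨D, hD⟩ := exists_sylIn p (c1 g)
    obtain ⟨x, -, hx⟩ := (sylIn_top P).exists_cj_eq (hD.of_relIndex le_top (by rwa [Subgroup.relIndex_top_right, ← h5]))
    refine ⟨ConjClasses.mk ⟨x * g * x⁻¹, cC_le_nN _ ?_⟩,
      Subtype.ext (ConjClasses.mk_eq_mk_iff_isConj.2 (isConj_iff.2 ⟨x, rfl⟩).symm)⟩
    rw [← hx, ← cj_cC]
    exact conj_mem_cj.2 (le_centralizer_singleton_iff.1 hD.le)

end Cfsg.Agent.S4763
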