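import Cfsg.Statements.S4765
import Cfsg.Agent.H24.PSL2Deg

set_option autoImplicit false
open Cfsg

namespace Cfsg.Agent.S4765

open H24 H5 Matrix

/-- Let F be a finite field of characteristic p with at least 4 elements. Then PSL(2,F) has exactly one irreducible complex character of degree divisible by p, and its degree is the order of F. -/
theorem result (p : ℕ) [Fact p.Prime] (F : Type*) [Field F] [Fintype F] [CharP F p] (hF : 4 ≤ Fintype.card F) : Nat.card {χ : Cfsg.IrrCharacter (Matrix.ProjectiveSpecialLinearGroup (Fin 2) F) // p ∣ Cfsg.charDegree (χ : Matrix.ProjectiveSpecialLinearGroup (Fin 2) F → ℂ)} = 1 ∧ ∀ χ : Cfsg.IrrCharacter (Matrix.ProjectiveSpecialLinearGroup (Fin 2) F), p ∣ Cfsg.charDegree (χ : Matrix.ProjectiveSpecialLinearGroup (Fin 2) F → ℂ) → Cfsg.charDegree (χ : Matrix.ProjectiveSpecialLinearGroup (Fin 2) F → ℂ) = Fintype.card F := by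
  classical
  have := Fintype.ofFinite (GL (Fin 2) F)
  obtain ⟨w, hw⟩ := exists_ell_SL (F := F)
  have hp : p ∣ Fintype.card F := by
    rw [← CharP.cast_eq_zero_iff F p]; exact FiniteField.cast_card_eq_zero F
  have hp1 : ¬ p ∣ 1 := (Fact.out : p.Prime).not_dvd_one
  have key : ∀ χ : Cfsg.IrrCharacter (Matrix.ProjectiveSpecialLinearGroup (Fin 2) F),
      p ∣ Cfsg.charDegree (χ : Matrix.ProjectiveSpecialLinearGroup (Fin 2) F → ℂ) →
      Cfsg.charDegree (χ : Matrix.ProjectiveSpecialLinearGroup (Fin 2) F → ℂ) = Fintype.card F := by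
    intro χ h
    rcases degree_SL2_dvd (charDegrees_PSL2_subset ⟨χ, rfl⟩) with e | e | e
    · exact e
    · exact absurd ((Nat.dvd_add_right hp).1 (h.trans e)) hp1
    · exact absurd ((Nat.dvd_sub_iff_right (by omega) hp).1 (h.trans e)) hp1
  refine ⟨?_, key⟩
  have hs : IsScal ((-1 : Matrix.SpecialLinearGroup (Fin 2) F) : M2 F) := (isScal_SL_iff _).2 (Or.inr rfl)
  obtain ⟨ψ, h1, h2⟩ := exists_deflate_PSL (isIrr_StS (F := F)) (by rw [StS_scal hs, StS_one])
  rw [Nat.card_eq_one_iff_exists]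
  refine ⟨⟨⟨ψ, h1⟩, by rw [charDegree_eq_of_apply_one ((h2 1).trans StS_one)]; exact hp⟩, ?_⟩
  rintro ⟨χ, h⟩
  have h3 := eq_StS_of_degree hw χ.2.inflate (by
    rw [← key χ h, χ.2.coe_charDegree]; rfl)
  apply Subtype.ext; apply Subtype.ext
  funext x
  obtain ⟨g, rfl⟩ := QuotientGroup.mk_surjective x
  exact (congrFun h3 g).trans (h2 g).symm

end Cfsg.Agent.S4765
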