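import Cfsg.Statements.S4768
import Cfsg.Agent.H8.Ito
import Cfsg.Agent.H6.Det

set_option autoImplicit false
open Cfsg

namespace Cfsg.Agent.S4768

open H5 H6 H8 Subgroup
open scoped commutatorElement Pointwise

universe u

theorem key {G : Type u} [Group G] [Finite G] {p : ℕ} [hp : Fact p.Prime] (hs : H4.PSol p (⊤ : Subgroup G)) {N : Subgroup G} [hN : N.Normal]
    (pN : IsPGroup p N) (aN : ∀ a b : N, a * b = b * a) (n1 : N ≠ ⊥)
    (h : ∀ χ, IsIrrCharacter G χ → p ∣ charDegree χ → N ≤ charKer χ) (P : Sylow p G) : ⁅(P : Subgroup G), (P : Subgroup G)⁆ ≤ N := by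
  classical
  have := Fintype.ofFinite G
  have := Fintype.ofFinite N
  obtain ⟨⟨x, hx⟩, x1⟩ := ne_bot_iff_exists_ne_one.1 n1
  obtain ⟨l, hl, lx⟩ := exists_irr_not_mem_charKer x1
  obtain ⟨lam, rfl⟩ := hl.exists_hom_of_comm aN
  set T := inertia (fun g => (lam g : ℂ))
  have NT : N ≤ T := le_inertia hl.isClassFunction
  have := Fintype.ofFinite T
  have := Fintype.ofFinite (N.subgroupOf T)
  have A : ∀ ψ : T → ℂ, IsIrrCharacter T ψ → classInner (fun n : N => ψ ⟨n, NT n.2⟩) (fun g => (lam g : ℂ)) ≠ 0 →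
      ¬ p ∣ T.index * charDegree ψ := fun ψ hψ i d => by
    obtain ⟨a, b⟩ := corr_irr hl le_rfl NT hψ i
    have k := h _ a (by rwa [charDegree_of_eq (n := T.index * charDegree ψ) (by rw [ind_one, ← hψ.coe_charDegree]; norm_cast)])
    rw [← b, show (fun n : N => indFun T ψ n) = indFun T ψ 1 • fun _ => (1 : ℂ) from funext fun n => (a.mem_charKer.1 (k n.2)).trans (mul_one _).symm,
      classInner_smul_left, isIrrCharacter_one.classInner_of_ne hl fun e => lx (by rw [← e, charKer_one]; trivial), mul_zero] at i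
    exact i rfl
  obtain ⟨ψ, hψ, i⟩ := exists_irr_over (N := N.subgroupOf T) (isIrr_sOf NT hl)
  obtain ⟨e, -, -, r⟩ := exists_res_eq_nsmul_of_invariant hψ (isIrr_sOf NT hl) (fun g => by rw [cj_sOf, mem_inertia.1 g.2]) i
  have d := A ψ hψ (by rwa [← inner_res_sOf NT])
  have o : sOf (fun g => (lam g : ℂ)) T 1 = 1 := congrArg Units.val lam.map_one
  have de : charDegree ψ = e := charDegree_of_eq (by simpa [o] using congrFun r 1)
  obtain ⟨k, hk⟩ := pN.exists_card_eq
  obtain ⟨m, hm⟩ : ∃ m, e * m ≡ 1 [MOD Nat.card N] := (Nat.exists_mul_mod_eq_of_coprime 1 (k := Nat.card N) (n := e) (by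
    rw [hk]; exact ((hp.out.coprime_iff_not_dvd.2 fun f => d (de ▸ f.mul_left _)).symm).pow_right k) Nat.card_pos.ne').imp fun _ h => h.2
  have mu : ∀ n : N, ((detHom ψ ^ m) ⟨n, NT n.2⟩ : ℂ) = lam n := fun n => by
    have a := congrFun (detChar_restrict (N.subgroupOf T) hψ.isCharacter) ⟨⟨n, NT n.2⟩, n.2⟩
    rw [r, detChar_natCast_smul (isCharacter_sOf hl.isCharacter T), detChar_of_apply_one (isCharacter_sOf hl.isCharacter T) o] at a
    rw [MonoidHom.pow_apply, Units.val_pow_eq_pow_val, coe_detHom, ← a, Pi.pow_apply, ← pow_mul]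
    show (lam n : ℂ) ^ _ = _
    rw [← Units.val_pow_eq_pow_val, ← map_pow, pow_eq_pow_of_modEq hm pow_card_eq_one', pow_one]
  have B : ∀ β, IsIrrCharacter (T ⧸ N.subgroupOf T) β → ¬ p ∣ charDegree β := fun β hβ f => A _ (hβ.inflate.mul_hom (detHom ψ ^ m)) (by
    rw [show (fun n : N => _) = β 1 • fun g : N => (lam g : ℂ) from funext fun n => by
      rw [Pi.mul_apply, mu, (QuotientGroup.eq_one_iff (N := N.subgroupOf T) ⟨n, NT n.2⟩).2 n.2]; rfl, classInner_smul_left, hl.classInner_self, mul_one]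
    exact hβ.apply_one_ne_zero) (Dvd.dvd.mul_left (by rwa [charDegree_congr (ψ := β) (by simp)]) _)
  obtain ⟨Q, hQ⟩ := exists_sylow_le (H := T) fun f => d (f.mul_right _)
  obtain ⟨R, hR⟩ := ((Q.isPGroup'.comap_subtype (K := T)).map (QuotientGroup.mk' (N.subgroupOf T))).exists_le_sylow
  have := ito_normal _ ((H4.pSol_top_iff.2 (hs.mono le_top)).quotient _) B R
  have c := comm_of_normal_of_not_dvd R.isPGroup' B
  obtain ⟨g, rfl⟩ := MulAction.exists_smul_eq G Q P
  refine commutator_le.2 ?_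
  rintro _ ⟨a, ha, rfl⟩ _ ⟨b, hb, rfl⟩
  refine (map_commutatorElement (MulAut.conj g) a b).symm ▸ hN.conj_mem _ (show (⁅(⟨a, hQ ha⟩ : T), ⟨b, hQ hb⟩⁆ : T) ∈ N.subgroupOf T from ?_) g
  rw [← QuotientGroup.eq_one_iff, ← QuotientGroup.mk'_apply, map_commutatorElement, commutatorElement_eq_one_iff_mul_comm]
  exact congrArg Subtype.val (c.is_comm.comm (⟨_, hR ⟨_, ha, rfl⟩⟩ : R) ⟨_, hR ⟨_, hb, rfl⟩⟩)

theorem main {p : ℕ} [hp : Fact p.Prime] (G : Type u) [Group G] [Finite G] : H4.PSol p (⊤ : Subgroup G) → ∀ P : Sylow p G,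
    derivedSeries P (Nat.card {χ : IrrCharacter G // p ∣ charDegree (χ : G → ℂ)} + 1) = ⊥ := by
  induction' hn : Nat.card G using Nat.strong_induction_on with n ih generalizing G
  intro hs P
  have q : ∀ N : Subgroup G, ∀ [N.Normal], N ≠ ⊥ → derivedSeries P (Nat.card {χ : IrrCharacter G // p ∣ charDegree (χ : G → ℂ) ∧
      N ≤ charKer (χ : G → ℂ)} + 1) ≤ N.subgroupOf P := fun N _ h0 => by
    have s := QuotientGroup.mk'_surjective N
    have a := ih _ (hn ▸ card_quot_lt h0) (G ⧸ N) rfl (hs.quotient N) (P.mapSurjective s)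
    rw [Nat.card_congr (((irrQuotientEquiv N).subtypeEquiv (q := fun χ => p ∣ charDegree (χ.1 : G → ℂ)) fun χ => by
      rw [charDegree_congr (irrQuotientEquiv_apply N χ 1).symm]).trans (Equiv.subtypeSubtypeEquivSubtypeInter _
        fun χ : IrrCharacter G => p ∣ charDegree (χ : G → ℂ)))] at a
    replace a := (Subgroup.map_eq_bot_iff _).1 ((map_derivedSeries_eq ((QuotientGroup.mk' N).subgroupMap_surjective P) _).trans a)
    simp only [and_comm] at a ⊢
    exact fun x hx => (QuotientGroup.eq_one_iff (N := N) x.1).1 (congrArg Subtype.val (a hx))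
  have le : ∀ N : Subgroup G, Nat.card {χ : IrrCharacter G // p ∣ charDegree (χ : G → ℂ) ∧ N ≤ charKer (χ : G → ℂ)} ≤
      Nat.card {χ : IrrCharacter G // p ∣ charDegree (χ : G → ℂ)} := fun N => Set.ncard_le_ncard fun _ h => h.1
  by_cases h1 : pPrimeCore p G = ⊥
  swap
  · refine le_bot_iff.1 ((derivedSeries_antitone _ (Nat.succ_le_succ (le _))).trans ((q _ h1).trans_eq ?_))
    rw [← inf_subgroupOf_left, H4.inf_pPrimeCore_eq_bot P.isPGroup', bot_subgroupOf]
  by_cases h2 : pCore p G = ⊥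
  · have h3 := hs.centralizer_pCore_le h1
    rw [h2] at h3
    exact le_bot_iff.1 fun x _ => Subtype.ext (h3 (by simp [mem_centralizer_iff]))
  let N := (center (pCore p G)).map (pCore p G).subtype
  have pN : IsPGroup p N := ((H1.pCore_isPGroup p G).to_subgroup _).map _
  have aN : ∀ a b : N, a * b = b * a := by
    rintro ⟨_, a, ha, rfl⟩ ⟨_, b, hb, rfl⟩
    exact Subtype.ext (congrArg (pCore p G).subtype (mem_center_iff.1 hb a))
  have n1 : N ≠ ⊥ := fun e => by
    have := (nontrivial_iff_ne_bot _).2 h2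
    exact (nontrivial_iff_ne_bot _).1 (H1.pCore_isPGroup p G).center_nontrivial ((map_eq_bot_iff_of_injective _ (subtype_injective _)).1 e)
  have st : ∀ k, derivedSeries P k ≤ N.subgroupOf P → derivedSeries P (k + 1) = ⊥ := fun k h => le_bot_iff.1 (commutator_le.2 fun a ha b hb =>
    commutatorElement_eq_one_iff_mul_comm.2 (Subtype.ext (congrArg N.subtype (aN ⟨_, h ha⟩ ⟨_, h hb⟩))))
  by_cases h : ∀ χ, IsIrrCharacter G χ → p ∣ charDegree χ → N ≤ charKer χ
  · rcases Nat.eq_zero_or_pos (Nat.card {χ : IrrCharacter G // p ∣ charDegree (χ : G → ℂ)}) with e | e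
    · have f : ∀ χ, IsIrrCharacter G χ → ¬ p ∣ charDegree χ := fun χ a b => (Nat.card_pos_iff.2 ⟨⟨⟨⟨χ, a⟩, b⟩⟩, inferInstance⟩).ne' e
      have := ito_normal G hs f P
      have := comm_of_normal_of_not_dvd P.isPGroup' f
      exact e ▸ le_bot_iff.1 (commutator_le.2 fun a _ b _ => commutatorElement_eq_one_iff_mul_comm.2 (this.is_comm.comm a b))
    · exact st _ ((derivedSeries_antitone _ e).trans (commutator_le.2 fun a _ b _ => key hs pN aN n1 h P (commutator_mem_commutator a.2 b.2)))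
  · push Not at h
    obtain ⟨χ, a, b, c⟩ := h
    exact st _ ((derivedSeries_antitone _ (Set.ncard_lt_ncard ⟨fun _ h => h.1, fun h => c (h (a := ⟨χ, a⟩) b).2⟩)).trans (q N n1))

/-- Let p be a prime, G a finite p-solvable group and P a Sylow p-subgroup of G. If n is the number of irreducible complex characters of G whose degree is divisible by p, then the (n+1)-st term of the derived series of P is trivial. (The p-solvable case has a direct inductive proof.) -/
theorem result {G : Type*} [Group G] [Finite G] (p : ℕ) [Fact p.Prime] (hG : Cfsg.IsPSolvable p G) (P : Sylow p G) : derivedSeries ↥(P : Subgroup G) (Nat.card {χ : Cfsg.IrrCharacter G // p ∣ Cfsg.charDegree (χ : G → ℂ)} + 1) = ⊥ := by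
  exact main G (H4.isPSolvable_iff.1 hG) P

end Cfsg.Agent.S4768
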