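import Cfsg.Statements.S4774
import Cfsg.Agent.H24.PSL2Deg

set_option autoImplicit false
open Cfsg

namespace Cfsg.Agent.S4774

open H24 H5 Matrix

/-- Let F be a finite field of odd characteristic t with q > 5 elements and let S be isomorphic to PSL(2,F) or to SL(2,F). Then the vertices of the character degree graph of S are the primes dividing q(q²−1); the prime t is adjacent to no vertex; two distinct primes dividing q² − 1 are adjacent exactly when one of them is 2, or both divide q + 1, or both divide q − 1. -/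
theorem result (F : Type*) [Field F] [Fintype F] (t : ℕ) [Fact t.Prime] [CharP F t] (ht : t ≠ 2) (q : ℕ) (hq : Fintype.card F = q) (h5 : 5 < q) {S : Type*} [Group S] [Finite S] (hS : Nonempty (S ≃* Matrix.ProjectiveSpecialLinearGroup (Fin 2) F) ∨ Nonempty (S ≃* Matrix.SpecialLinearGroup (Fin 2) F)) : Cfsg.degreePrimes S = {r : ℕ | r.Prime ∧ r ∣ q * (q ^ 2 - 1)} ∧ ∀ r s : ℕ, (Cfsg.degreeGraph S).Adj r s ↔ (r ≠ s ∧ r.Prime ∧ s.Prime ∧ r ∣ q ^ 2 - 1 ∧ s ∣ q ^ 2 - 1 ∧ (r = 2 ∨ s = 2 ∨ (r ∣ q + 1 ∧ s ∣ q + 1) ∨ (r ∣ q - 1 ∧ s ∣ q - 1))) := by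
  subst hq
  refine ⟨degreePrimes_eq (by omega) (by omega) hS, fun r s => ?_⟩
  rw [degreeGraph_adj (by omega) (by omega) hS,
    show Fintype.card F ^ 2 - 1 = (Fintype.card F + 1) * (Fintype.card F - 1) from
    Nat.pow_two_sub_pow_two _ 1]
  have hodd := FiniteField.odd_card_of_char_ne_two (F := F) (by rw [ringChar.eq F t]; exact ht)
  have a1 : 2 ∣ Fintype.card F + 1 := by omega
  have a2 : 2 ∣ Fintype.card F - 1 := by omega
  refine and_congr_right fun hne => and_congr_right fun hr => and_congr_right fun hs => ⟨?_, ?_⟩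
  · rintro (h | h)
    · exact ⟨h.1.mul_right _, h.2.mul_right _, Or.inr (Or.inr (Or.inl h))⟩
    · exact ⟨h.1.mul_left _, h.2.mul_left _, Or.inr (Or.inr (Or.inr h))⟩
  · rintro ⟨h1, h2, rfl | rfl | h | h⟩
    · exact ((Nat.Prime.dvd_mul hs).1 h2).imp (fun h => ⟨a1, h⟩) fun h => ⟨a2, h⟩
    · exact ((Nat.Prime.dvd_mul hr).1 h1).imp (fun h => ⟨h, a1⟩) fun h => ⟨h, a2⟩
    · exact Or.inl h
    · exact Or.inr h

end Cfsg.Agent.S4774
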