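import Cfsg.Statements.S4775
import Cfsg.Agent.H13.SzChar
import Cfsg.Agent.H13.SzModel
import Cfsg.Agent.H24.PSL2Deg

set_option autoImplicit false
open Cfsg

namespace Cfsg.Agent.S4775

open H5 in
theorem degs (F : Type*) [Field F] [Fintype F] (m : ℕ) [H13.Sz.IsSz F m] (d : ℕ) :
    d ∈ charDegrees (Cfsg.Sz F m) ↔
    d = 1 ∨ d = Fintype.card F ^ 2 ∨ d = 2 ^ m * (Fintype.card F - 1) ∨ d = Fintype.card F ^ 2 + 1 ∨
      d = (Fintype.card F - 2 ^ (m + 1) + 1) * (Fintype.card F - 1) ∨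
      d = (Fintype.card F + 2 ^ (m + 1) + 1) * (Fintype.card F - 1) := by
  rw [← H13.Sz.degree_iff]
  constructor
  · rintro ⟨χ, rfl⟩
    exact ⟨χ, χ.2, χ.2.coe_charDegree.symm⟩
  · rintro ⟨χ, h1, h2⟩
    exact ⟨⟨χ, h1⟩, charDegree_eq_of_apply_one h2⟩

/-- Let F be a finite field with q = 2^(2m+1) ≥ 8 elements and let S be isomorphic to the Suzuki group over F. Then the vertices of the character degree graph of S are 2 and the primes dividing (q − 1)(q² + 1); the primes dividing (q − 1)(q² + 1) are pairwise adjacent, and 2 is adjacent exactly to the primes dividing q − 1. -/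
theorem result (F : Type*) [Field F] [Fintype F] (m : ℕ) (hm : 1 ≤ m) (q : ℕ) (hq : Fintype.card F = q) (hqm : q = 2 ^ (2 * m + 1)) {S : Type*} [Group S] [Finite S] (hS : Nonempty (S ≃* ↥(Cfsg.Lie.Sz F (2 ^ (m + 1))))) : Cfsg.degreePrimes S = {r : ℕ | r.Prime ∧ (r = 2 ∨ r ∣ (q - 1) * (q ^ 2 + 1))} ∧ ∀ r s : ℕ, (Cfsg.degreeGraph S).Adj r s ↔ (r ≠ s ∧ r.Prime ∧ s.Prime ∧ ((r ∣ (q - 1) * (q ^ 2 + 1) ∧ s ∣ (q - 1) * (q ^ 2 + 1)) ∨ (r = 2 ∧ s ∣ q - 1) ∨ (s = 2 ∧ r ∣ q - 1))) := by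
  obtain ⟨e⟩ := hS
  haveI : H13.Sz.IsSz F m := ⟨hm, hq.trans hqm⟩
  have hd : ∀ d, d ∈ charDegrees S ↔ d = 1 ∨ d = q ^ 2 ∨ d = 2 ^ m * (q - 1) ∨ d = q ^ 2 + 1 ∨
      d = (q - 2 ^ (m + 1) + 1) * (q - 1) ∨ d = (q + 2 ^ (m + 1) + 1) * (q - 1) := fun d => by
    rw [H24.charDegrees_congr (e.trans (H13.Sz.lieEquiv F m).symm), degs F m, hq]
  have hle : 2 ^ (m + 1) ≤ q := hqm ▸ Nat.pow_le_pow_right (by norm_num) (by omega)
  have hfac : q ^ 2 + 1 = (q - 2 ^ (m + 1) + 1) * (q + 2 ^ (m + 1) + 1) := by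
    have h2 : (2 ^ (m + 1)) ^ 2 = 2 * q := by rw [hqm]; ring
    zify [hle] at h2 ⊢
    linear_combination h2
  have h2q : 2 ∣ q := hqm ▸ dvd_pow_self 2 (by omega)
  have h2m : 2 ∣ 2 ^ m := dvd_pow_self 2 (by omega)
  have h2m1 : 2 ∣ 2 ^ (m + 1) := dvd_pow_self 2 (by omega)
  have hq1 : 1 ≤ q := hqm ▸ Nat.one_le_two_pow
  have pq : ∀ r, r.Prime → r ∣ q ^ 2 → r = 2 := fun r hr h =>
    (Nat.prime_dvd_prime_iff_eq hr Nat.prime_two).1
      (hr.dvd_of_dvd_pow (hqm ▸ hr.dvd_of_dvd_pow h : r ∣ 2 ^ (2 * m + 1)))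
  have pm : ∀ r, r.Prime → r ∣ 2 ^ m → r = 2 := fun r hr h =>
    (Nat.prime_dvd_prime_iff_eq hr Nat.prime_two).1 (hr.dvd_of_dvd_pow h)
  have o1 : ¬ 2 ∣ q - 1 := by omega
  have o2 : ¬ 2 ∣ q ^ 2 + 1 := by
    have : 2 ∣ q ^ 2 := h2q.trans (dvd_pow_self q two_ne_zero)
    omega
  set A := q - 2 ^ (m + 1) + 1
  set B := q + 2 ^ (m + 1) + 1
  set C := q - 1
  have dA : A * C ∣ C * (q ^ 2 + 1) := by rw [hfac]; exact ⟨B, by ring⟩
  have dB : B * C ∣ C * (q ^ 2 + 1) := by rw [hfac]; exact ⟨A, by ring⟩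
  have cp : ∀ {r s : ℕ}, r ≠ s → r.Prime → s.Prime → ∀ {d}, r ∣ d → s ∣ d → r * s ∣ d :=
    fun hne hr hs _ h1 h2 => ((Nat.coprime_primes hr hs).2 hne).mul_dvd_of_dvd_of_dvd h1 h2
  have key : ∀ r, r.Prime → r ∣ C * (q ^ 2 + 1) → r ∣ C ∨ r ∣ A ∨ r ∣ B := fun r hr h => by
    rw [hfac] at h
    rcases (Nat.Prime.dvd_mul hr).1 h with h | h
    · exact Or.inl h
    · exact Or.inr ((Nat.Prime.dvd_mul hr).1 h)
  refine ⟨Set.ext fun r => ⟨?_, ?_⟩, fun r s => ⟨?_, ?_⟩⟩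
  · rintro ⟨hr, d, h1, h2⟩
    refine ⟨hr, ?_⟩
    rcases (hd d).1 h1 with rfl | rfl | rfl | rfl | rfl | rfl
    · exact absurd h2 hr.not_dvd_one
    · exact Or.inl (pq r hr h2)
    · rcases (Nat.Prime.dvd_mul hr).1 h2 with h | h
      · exact Or.inl (pm r hr h)
      · exact Or.inr (h.mul_right _)
    · exact Or.inr (h2.mul_left _)
    · exact Or.inr (h2.trans dA)
    · exact Or.inr (h2.trans dB)
  · rintro ⟨hr, rfl | h⟩
    · exact ⟨hr, q ^ 2, (hd _).2 (by simp), h2q.trans (dvd_pow_self q two_ne_zero)⟩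
    · rcases key r hr h with h | h | h
      · exact ⟨hr, A * C, (hd _).2 (by simp), h.mul_left _⟩
      · exact ⟨hr, A * C, (hd _).2 (by simp), h.mul_right _⟩
      · exact ⟨hr, B * C, (hd _).2 (by simp), h.mul_right _⟩
  · rintro ⟨hne, hr, hs, d, h1, h2⟩
    refine ⟨hne, hr, hs, ?_⟩
    have a1 : r ∣ d := (dvd_mul_right r s).trans h2
    have a2 : s ∣ d := (dvd_mul_left s r).trans h2
    rcases (hd d).1 h1 with rfl | rfl | rfl | rfl | rfl | rfl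
    · exact absurd a1 hr.not_dvd_one
    · exact absurd ((pq r hr a1).trans (pq s hs a2).symm) hne
    · rcases (Nat.Prime.dvd_mul hr).1 a1 with h | h <;> rcases (Nat.Prime.dvd_mul hs).1 a2 with h' | h'
      · exact absurd ((pm r hr h).trans (pm s hs h').symm) hne
      · exact Or.inr (Or.inl ⟨pm r hr h, h'⟩)
      · exact Or.inr (Or.inr ⟨pm s hs h', h⟩)
      · exact Or.inl ⟨h.mul_right _, h'.mul_right _⟩
    · exact Or.inl ⟨a1.mul_left _, a2.mul_left _⟩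
    · exact Or.inl ⟨a1.trans dA, a2.trans dA⟩
    · exact Or.inl ⟨a1.trans dB, a2.trans dB⟩
  · rintro ⟨hne, hr, hs, ⟨h1, h2⟩ | ⟨rfl, h⟩ | ⟨rfl, h⟩⟩
    · refine ⟨hne, hr, hs, ?_⟩
      have mA : A * C ∈ charDegrees S := (hd _).2 (by simp)
      have mB : B * C ∈ charDegrees S := (hd _).2 (by simp)
      have mC : A * B ∈ charDegrees S := (hd _).2 (by simp [hfac])
      rcases key r hr h1 with h | h | h <;> rcases key s hs h2 with h' | h' | h'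
      · exact ⟨_, mA, cp hne hr hs (h.mul_left _) (h'.mul_left _)⟩
      · exact ⟨_, mA, cp hne hr hs (h.mul_left _) (h'.mul_right _)⟩
      · exact ⟨_, mB, cp hne hr hs (h.mul_left _) (h'.mul_right _)⟩
      · exact ⟨_, mA, cp hne hr hs (h.mul_right _) (h'.mul_left _)⟩
      · exact ⟨_, mA, cp hne hr hs (h.mul_right _) (h'.mul_right _)⟩
      · exact ⟨_, mC, cp hne hr hs (h.mul_right _) (h'.mul_left _)⟩
      · exact ⟨_, mB, cp hne hr hs (h.mul_right _) (h'.mul_left _)⟩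
      · exact ⟨_, mC, cp hne hr hs (h.mul_left _) (h'.mul_right _)⟩
      · exact ⟨_, mB, cp hne hr hs (h.mul_right _) (h'.mul_right _)⟩
    · exact ⟨hne, hr, hs, 2 ^ m * C, (hd _).2 (by simp), cp hne hr hs (h2m.mul_right _) (h.mul_left _)⟩
    · exact ⟨hne, hr, hs, 2 ^ m * C, (hd _).2 (by simp), cp hne hr hs (h.mul_left _) (h2m.mul_right _)⟩

end Cfsg.Agent.S4775
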