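import Cfsg.Statements.S4784
import Cfsg.Agent.H8.Real2

set_option autoImplicit false
open Cfsg

namespace Cfsg.Agent.S4784

open H5 H6 H8
open scoped ComplexConjugate

/-- Let H be a subgroup of the finite group G and consider the permutation character of G on the cosets of H (the function induced from the principal character of H). Then exactly one irreducible constituent of it is real-valued with Frobenius–Schur indicator +1 (namely the principal character) if and only if the normal core of H has odd index in G. -/
theorem result {G : Type*} [Group G] [Fintype G] (H : Subgroup G) : Nat.card {χ : Cfsg.IrrCharacter G // Cfsg.classInner (Cfsg.indFun H (fun _ : H => (1 : ℂ))) (χ : G → ℂ) ≠ 0 ∧ (∀ g : G, (starRingEnd ℂ) ((χ : G → ℂ) g) = (χ : G → ℂ) g) ∧ (Nat.card G : ℂ)⁻¹ * ∑ g : G, (χ : G → ℂ) (g * g) = 1} = 1 ↔ Odd H.normalCore.index := by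
  classical
  have := Fintype.ofFinite H
  have hπ : IsCharacter G (indFun H fun _ => 1) := isCharacter_one.indFun
  have h1 : classInner (indFun H (fun _ : H => (1 : ℂ))) (irrOne G).1 = 1 := by
    rw [frobenius_reciprocity _ _ (irrOne G).2.isClassFunction]; exact inner_one_one
  rw [Nat.card_eq_one_iff_exists]
  constructor
  · rintro ⟨χ₀, hu⟩
    by_contra hodd
    rw [Nat.not_odd_iff_even, Subgroup.index_eq_card] at hodd
    obtain ⟨u, hu2⟩ := exists_prime_orderOf_dvd_card' 2 hodd.two_dvd
    obtain ⟨g, rfl⟩ := QuotientGroup.mk_surjective u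
    have hg1 : g ∉ H.normalCore := by
      rw [← QuotientGroup.eq_one_iff]; intro e; simp [e] at hu2
    have hg2 : g * g ∈ H.normalCore := by
      rw [← QuotientGroup.eq_one_iff, QuotientGroup.mk_mul, ← pow_two, ← hu2, pow_orderOf_eq_one]
    obtain ⟨b, hb⟩ : ∃ b, b * g * b⁻¹ ∉ H := not_forall.mp hg1
    let S : Finset G := Finset.univ.filter fun x => x ∈ H
    have h2 : Nat.card H < Nat.card {u : G // u * u ∈ S} := by
      rw [Nat.subtype_card S (p := fun x => x ∈ H) (by simp [S]),
        Nat.subtype_card (Finset.univ.filter fun u : G => u * u ∈ S) (p := fun u => u * u ∈ S)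
          (by simp)]
      refine Finset.card_lt_card ⟨fun x hx => ?_, fun h => hb ?_⟩
      · simp only [S, Finset.mem_filter, Finset.mem_univ, true_and] at hx ⊢
        exact mul_mem hx hx
      · have := @h (b * g * b⁻¹) (by
          simp only [S, Finset.mem_filter, Finset.mem_univ, true_and]
          have := hg2 b
          simpa [mul_assoc] using this)
        simpa [S] using this
    obtain ⟨n, hn⟩ := exists_fs_int (G := G)
    obtain ⟨m, hm, -⟩ := hπ.exists_nat
    have h3 : ∀ χ : IrrCharacter G, ∑ g ∈ S, χ.1 g = Nat.card H * m χ := by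
      intro χ
      rw [← hm, hπ.classInner_comm χ.2.isCharacter,
        frobenius_reciprocity' _ _ χ.2.isClassFunction, card_mul_classInner]
      simp only [map_one, mul_one]
      exact Finset.sum_subtype S (p := fun x => x ∈ H) (by simp [S]) _
    have h4 := card_sqrt_set S
    simp only [h3, (hn _).1] at h4
    have h5 : (Nat.card {u : G // u * u ∈ S} : ℤ) = ∑ χ, n χ * (Nat.card H * m χ) := by
      exact_mod_cast h4
    have h6 : ∑ χ, n χ * (Nat.card H * m χ) ≤ Nat.card H := by
      rw [← Finset.add_sum_erase _ _ (Finset.mem_univ (irrOne G))]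
      have e1 : m (irrOne G) = 1 := by exact_mod_cast (hm _).symm.trans h1
      have e2 : n (irrOne G) = 1 := by exact_mod_cast (hn (irrOne G)).1.symm.trans fsInd_one
      rw [e1, e2, add_comm]
      simp only [Nat.cast_one, mul_one, one_mul, add_le_iff_nonpos_left]
      refine Finset.sum_nonpos fun χ hχ => ?_
      rcases (hn χ).2.1 with e | e | e
      · simp [e]
      · by_cases h0 : m χ = 0
        · simp [h0]
        exfalso
        have e' : fsInd χ.1 = 1 := by rw [(hn χ).1, e]; simp
        have a := hu ⟨χ, by rw [hm]; exact_mod_cast h0,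
          congrFun (real_of_fs χ.2 (e' ▸ one_ne_zero)), e'⟩
        have b := hu ⟨irrOne G, by rw [h1]; exact one_ne_zero, by simp, fsInd_one⟩
        exact Finset.ne_of_mem_erase hχ (congrArg Subtype.val (a.trans b.symm))
      · rw [e]; simp only [neg_mul, one_mul, Left.neg_nonpos_iff]; positivity
    omega
  · intro hodd
    refine ⟨⟨irrOne G, by rw [h1]; exact one_ne_zero, by simp, fsInd_one⟩, ?_⟩
    rintro ⟨χ, a, b, c⟩
    have hk : H.normalCore ≤ charKer χ.1 := by
      refine le_trans (fun x hx => ?_) (hπ.charKer_le_of_constituent χ.2 a)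
      rw [hπ.mem_charKer, indFun_one_apply, indFun_one_apply]
      congr 2
      refine Nat.card_congr (Equiv.subtypeEquivRight fun y => ?_)
      have := hx y⁻¹
      simpa using this
    obtain ⟨χ', h2, h3⟩ := χ.2.exists_deflate _ hk
    have := h2.eq_one_of_real_of_odd hodd (funext fun x => by
      obtain ⟨g, rfl⟩ := QuotientGroup.mk_surjective x
      rw [h3, b])
    refine Subtype.ext (Subtype.ext (funext fun g => ?_))
    change χ.1 g = 1
    rw [← h3, this]

end Cfsg.Agent.S4784
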