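import Cfsg.Statements.S4796
import Cfsg.Agent.H8.Cod
import Cfsg.Agent.H22.Misc2

set_option autoImplicit false
open Cfsg

namespace Cfsg.Agent.S4796

open H5 H8 H18

/-- Let G be a finite group with a faithful irreducible complex character χ whose codegree #G / χ(1) is a prime p (for a faithful character the kernel is trivial, so the codegree is #G / χ(1)). Then either G is cyclic of order p, or G is a Frobenius group whose Frobenius kernel has order p: some proper non-trivial subgroup H satisfies H ∩ gHg⁻¹ = 1 for every element g outside H, and the set of elements lying in no conjugate of H, together with the identity, has exactly p elements. -/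
theorem result {G : Type*} [Group G] [Finite G] (χ : Cfsg.IrrCharacter G) (hfaith : ∀ g : G, (χ : G → ℂ) g = (χ : G → ℂ) 1 → g = 1) (p : ℕ) (hp : p.Prime) (hcod : Nat.card G = p * Cfsg.charDegree (χ : G → ℂ)) : (IsCyclic G ∧ Nat.card G = p) ∨ ∃ H : Subgroup G, Cfsg.IsFrobeniusComplement H ∧ Nat.card ↥(Cfsg.frobeniusKernel H) = p := by
  obtain ⟨P, h1, h2, h3, h4⟩ := exists_selfcent_of_cod_prime hp χ.2
    (charKer_eq_bot χ.2.isCharacter hfaith) hcod
  haveI := Fact.mk hp
  obtain ⟨H, hH⟩ := Subgroup.exists_right_complement'_of_coprime (N := P) (by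
    rw [h2]; exact (Nat.Prime.coprime_iff_not_dvd hp).2 h3)
  by_cases e : H = ⊥
  · have : Nat.card G = p := by rw [← hH.card_mul, e, h2]; simp
    exact Or.inl ⟨isCyclic_of_prime_card this, this⟩
  obtain ⟨h5, h6⟩ := H22.frobenius_of_fpf P H hH.disjoint.eq_bot hH.sup_eq_top
    (ne_bot_of_prime (h2 ▸ hp)) e fun h hh h1 k hk e' => by
      by_contra k1
      exact h1 (eq_one_of_eq_bot hH.disjoint.eq_bot
        ⟨h4 (C1_eq_of_prime (h2 ▸ hp) hk k1 ▸ mem_C1.2 e'), hh⟩)
  exact Or.inr ⟨H, h5, by rw [h6]; exact h2⟩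

end Cfsg.Agent.S4796
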