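import Cfsg.Statements.S4797
import Cfsg.Agent.H8.Cod

set_option autoImplicit false
open Cfsg

namespace Cfsg.Agent.S4797

open H5 H8 H18

/-- The codegree of an irreducible complex character χ of a finite group G is [G : ker χ] / χ(1), where ker χ is the set of elements at which χ takes the value χ(1). A non-trivial finite group is perfect if and only if no irreducible complex character of it has prime codegree. -/
theorem result {G : Type*} [Group G] [Finite G] [Nontrivial G] : commutator G = ⊤ ↔ ∀ χ : Cfsg.IrrCharacter G, ¬ ((Nat.card G / (Nat.card {g : G // (χ : G → ℂ) g = (χ : G → ℂ) 1} * Cfsg.charDegree (χ : G → ℂ)))).Prime := by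
  simp only [fun χ : IrrCharacter G => cod_eq χ.2]
  constructor
  · intro h χ hp
    haveI := χ.2.isCharacter.normal_charKer
    obtain ⟨ψ, h1, h2, h3⟩ := χ.2.exists_faithful_deflate
    obtain ⟨P, h4, h5, h6, h7⟩ := exists_selfcent_of_cod_prime hp h1 h2 (by
      rw [charDegree_congr (χ := ψ) (ψ := χ.1) (h3 1), cod_mul χ.2]; rfl)
    haveI := Fact.mk hp
    have h8 : commutator (G ⧸ charKer χ.1) = ⊤ := by
      have := Subgroup.map_commutator (⊤ : Subgroup G) ⊤ (QuotientGroup.mk' (charKer χ.1))
      rwa [← commutator_def, h, Subgroup.map_top_of_surjective _ (QuotientGroup.mk'_surjective _),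
        ← commutator_def, eq_comm] at this
    have h9 : (⊤ : Subgroup (G ⧸ charKer χ.1)) ≤ C(P) :=
      h8 ▸ Cyc.der_cent (X := P) (isCyclic_of_prime_card h5) (A := ⊤) norm_of_normal
    have h10 : P = ⊤ := top_le_iff.1 (h9.trans h7)
    rw [h10] at h9 h5
    rw [commutator_def, (Abel.der h9)] at h8
    rw [← h8, Subgroup.card_bot] at h5
    exact hp.ne_one h5.symm
  · intro h
    by_contra hc
    obtain ⟨M, hM, h1⟩ := (eq_top_or_exists_le_coatom (commutator G)).resolve_left hc
    haveI : M.Normal := (nml_of_der_le (H := ⊤) h1 le_top).normal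
    obtain ⟨g, hg⟩ := SetLike.exists_not_mem_of_ne_top M hM.1 rfl
    obtain ⟨χ, h2, h3, h4⟩ := exists_irr_le_charKer_not_mem M hg
    have h5 : charKer χ = M := (hM.le_iff.1 h3).resolve_left (fun e => h4 (e ▸ trivial))
    have h6 := h2.commutator_le_charKer_iff.1 (h1.trans h3)
    refine h ⟨χ, h2⟩ ?_
    rw [cod, h5, charDegree_of_eq (n := 1) (by simpa using h6), Nat.div_one]
    haveI := isSimpleGroup_quot hM.1 fun K _ e => (hM.le_iff.1 e).symm
    refine card_prime_of_isSimpleGroup_of_comm (G := G ⧸ M) fun a b => ?_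
    obtain ⟨a, rfl⟩ := QuotientGroup.mk_surjective a
    obtain ⟨b, rfl⟩ := QuotientGroup.mk_surjective b
    rw [← QuotientGroup.mk_mul, ← QuotientGroup.mk_mul, QuotientGroup.eq]
    exact h1 (by simpa [commutatorElement_def, mul_assoc, commutator_def] using
      Subgroup.commutator_mem_commutator (Subgroup.mem_top b⁻¹) (Subgroup.mem_top a⁻¹))

end Cfsg.Agent.S4797
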