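import Cfsg.Statements.S4798
import Cfsg.Agent.H8.Cod

set_option autoImplicit false
open Cfsg

namespace Cfsg.Agent.S4798

open H5 H6 H8

/-- Let p be a prime and χ a faithful irreducible complex character of the finite group G (χ(g) = χ(1) only for g = 1), so that its codegree is #G / χ(1). Then #G / χ(1) is a power of p if and only if χ is induced from a character of a Sylow p-subgroup of G. -/
theorem result {G : Type*} [Group G] [Fintype G] (p : ℕ) [Fact p.Prime] (χ : Cfsg.IrrCharacter G) (hfaith : ∀ g : G, (χ : G → ℂ) g = (χ : G → ℂ) 1 → g = 1) : (∃ k : ℕ, Nat.card G = p ^ k * Cfsg.charDegree (χ : G → ℂ)) ↔ ∃ (P : Sylow p G) (θ : ↥(P : Subgroup G) → ℂ), Cfsg.IsCharacter ↥(P : Subgroup G) θ ∧ (χ : G → ℂ) = Cfsg.indFun (P : Subgroup G) θ := by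
  classical
  have hp : p.Prime := Fact.out
  constructor
  · rintro ⟨k, hk⟩
    obtain ⟨P⟩ : Nonempty (Sylow p G) := inferInstance
    have h0 := (deg_pos χ).ne'
    obtain ⟨θ, h1, h2⟩ := exists_constituent_not_dvd (χ.2.isCharacter.restrict P)
      (n := p ^ ((charDegree χ.1).factorization p + 1)) (Nat.pow_succ_factorization_not_dvd h0 hp)
    obtain ⟨c, -, hc⟩ := (Nat.dvd_prime_pow hp).1 (P.card_eq_multiplicity ▸ θ.2.charDegree_dvd_card)
    have h3 : classInner (indFun (P : Subgroup G) θ) χ ≠ 0 := by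
      rwa [Ne, classInner_eq_zero_comm, frobenius_reciprocity' _ _ χ.2.isClassFunction]
    refine ⟨P, θ, θ.2.isCharacter, (eq_of_constituent_of_apply_one θ.2.isCharacter.indFun χ.2 h3 ?_).symm⟩
    rw [← θ.2.isCharacter.indFun.coe_charDegree, ← coe_deg, Nat.cast_inj]
    refine le_antisymm (Nat.le_of_dvd (deg_pos χ) ?_)
      (θ.2.isCharacter.indFun.charDegree_le_of_constituent χ.2 h3)
    have h4 := (Nat.Prime.coprime_iff_not_dvd hp).2 P.not_dvd_index
    rw [deg_ind θ.2.isCharacter, hc]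
    refine Nat.Coprime.mul_dvd_of_dvd_of_dvd (h4.pow_left c).symm
      ((h4.pow_left k).symm.dvd_of_dvd_mul_left (hk ▸ Subgroup.index_dvd_card _)) ?_
    rw [hc, Nat.pow_dvd_pow_iff_le_right hp.one_lt] at h2
    exact (hp.pow_dvd_iff_le_factorization h0).2 (by omega)
  · rintro ⟨P, θ, h1, h2⟩
    obtain ⟨c, hc⟩ := (irr_of_ind_irr _ h1 (h2 ▸ χ.2)).charDegree_dvd_card
    obtain ⟨k, -, hk⟩ := (Nat.dvd_prime_pow hp).1 (P.card_eq_multiplicity ▸ Dvd.intro_left _ hc.symm)
    exact ⟨k, by rw [h2, deg_ind h1, ← hk, ← Subgroup.card_mul_index P.1, hc]; ring⟩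

end Cfsg.Agent.S4798
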