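import Cfsg.Statements.S4801
import Cfsg.Agent.H8.Cod

set_option autoImplicit false
open Cfsg

namespace Cfsg.Agent.S4801

open H5 H8

/-- The codegree of an irreducible complex character χ of a finite group G is [G : ker χ] / χ(1), where ker χ is the set of elements at which χ takes the value χ(1). Let S be a finite simple group and G a finite group such that every codegree of an irreducible character of S is a codegree of an irreducible character of G. Then the order of S divides the order of G. -/
theorem result {S : Type*} [Group S] [Finite S] (hS : IsSimpleGroup S) {G : Type*} [Group G] [Finite G] (hsub : ∀ χ : Cfsg.IrrCharacter S, ∃ ψ : Cfsg.IrrCharacter G, (Nat.card S / (Nat.card {g : S // (χ : S → ℂ) g = (χ : S → ℂ) 1} * Cfsg.charDegree (χ : S → ℂ))) = (Nat.card G / (Nat.card {g : G // (ψ : G → ℂ) g = (ψ : G → ℂ) 1} * Cfsg.charDegree (ψ : G → ℂ)))) : Nat.card S ∣ Nat.card G := by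
  classical
  simp only [fun χ : IrrCharacter G => cod_eq χ.2, fun χ : IrrCharacter S => cod_eq χ.2] at hsub
  have h1 := sum_sq_degrees (G := S)
  simp only [← coe_deg] at h1
  have h2 : ∑ χ : IrrCharacter S, charDegree χ.1 ^ 2 = Nat.card S := by exact_mod_cast h1
  rw [← Finset.add_sum_erase _ _ (Finset.mem_univ (irrOne S)),
    charDegree_of_eq (χ := (irrOne S).1) (n := 1) (by simp), one_pow] at h2
  have h3 : Nat.card S ∣ Nat.card G * ∑ χ ∈ Finset.univ.erase (irrOne S), charDegree χ.1 ^ 2 := by
    rw [Finset.mul_sum]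
    refine Finset.dvd_sum fun χ hχ => ?_
    obtain ⟨ψ, hψ⟩ := hsub χ
    have h4 := cod_mul χ.2
    rw [χ.2.charKer_eq_bot_of_isSimpleGroup fun e => (Finset.mem_erase.1 hχ).1 (Subtype.ext e),
      Subgroup.index_bot] at h4
    rw [← h4, hψ]
    exact Nat.mul_dvd_mul ((Dvd.intro _ (cod_mul ψ.2)).trans (Subgroup.index_dvd_card _))
      (dvd_pow_self _ two_ne_zero)
  refine Nat.Coprime.dvd_of_dvd_mul_right ?_ h3
  rw [← h2]; simp

end Cfsg.Agent.S4801
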