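import Cfsg.Statements.S4802
import Cfsg.Agent.H8.Van

set_option autoImplicit false
open Cfsg

namespace Cfsg.Agent.S4802

open H5 H8
open scoped ComplexConjugate

/-- Let N < M be normal subgroups of the finite group G and g ∈ M ∖ N. Then the conjugacy class of g is exactly M ∖ N if and only if every irreducible complex character of G whose kernel contains N takes the same value at all elements of M ∖ N, and every irreducible complex character of G whose kernel does not contain N vanishes at g. -/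
theorem result {G : Type*} [Group G] [Finite G] (N M : Subgroup G) [N.Normal] [M.Normal] (hNM : N < M) (g : G) (hgM : g ∈ M) (hgN : g ∉ N) : {h : G | IsConj g h} = (M : Set G) \ (N : Set G) ↔ ((∀ χ : Cfsg.IrrCharacter G, (∀ x ∈ N, (χ : G → ℂ) x = (χ : G → ℂ) 1) → ∀ x ∈ M, x ∉ N → ∀ y ∈ M, y ∉ N → (χ : G → ℂ) x = (χ : G → ℂ) y) ∧ (∀ χ : Cfsg.IrrCharacter G, (∃ x ∈ N, (χ : G → ℂ) x ≠ (χ : G → ℂ) 1) → (χ : G → ℂ) g = 0)) := by
  classical
  haveI := Fintype.ofFinite G
  have hk : ∀ χ : IrrCharacter G, (∀ x ∈ N, (χ : G → ℂ) x = (χ : G → ℂ) 1) ↔ N ≤ charKer χ.1 :=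
    fun χ => forall₂_congr fun x _ => χ.2.mem_charKer.symm
  constructor
  · intro h
    have h1 : ∀ (χ : IrrCharacter G), ∀ x ∈ M, x ∉ N → (χ : G → ℂ) x = (χ : G → ℂ) g := fun χ x hx hx' =>
      (χ.2.isClassFunction.eq_of_isConj (h.ge ⟨hx, hx'⟩)).symm
    refine ⟨fun χ _ x hx hx' y hy hy' => (h1 χ x hx hx').trans (h1 χ y hy hy').symm, fun χ hχ => ?_⟩
    have h2 := χ.2.sum_coset_eq_zero N (fun e => by
      obtain ⟨x, hx, hx'⟩ := hχ
      exact hx' ((hk χ).2 e x hx)) g
    rw [Finset.sum_congr rfl (g := fun _ => (χ : G → ℂ) g) fun n _ => h1 χ _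
      (mul_mem (hNM.le n.2) hgM) (by rwa [N.mul_mem_cancel_left n.2]), Finset.sum_const,
      Finset.card_univ, ← Nat.card_eq_fintype_card, nsmul_eq_mul] at h2
    exact (mul_eq_zero.1 h2).resolve_left card_ne_zero_complex
  · rintro ⟨h1, h2⟩
    ext x
    constructor
    · intro e
      obtain ⟨c, rfl⟩ := isConj_iff.1 e
      exact ⟨Subgroup.Normal.conj_mem inferInstance _ hgM c, fun e' => hgN (by
        simpa [mul_assoc] using Subgroup.Normal.conj_mem inferInstance _ e' c⁻¹)⟩
    · rintro ⟨hx, hx'⟩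
      by_contra hc
      have h3 := sum_irr_mul_conj_of_not_isConj hc
      rw [Finset.sum_congr rfl (g := fun χ => χ.1 g * conj (χ.1 g)) fun χ _ => ?_,
        sum_irr_mul_conj_of_isConj (IsConj.refl g)] at h3
      · exact card_ne_zero_complex h3
      by_cases e : ∀ x ∈ N, (χ : G → ℂ) x = (χ : G → ℂ) 1
      · rw [h1 χ e x hx hx' g hgM hgN]
      · push Not at e
        rw [h2 χ e, zero_mul, zero_mul]

end Cfsg.Agent.S4802
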