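import Cfsg.Statements.S4805
import Cfsg.Agent.H27.VnS

set_option autoImplicit false
open Cfsg H5

namespace Cfsg.Agent.S4805

/-- Let G be a finite group, g an element outside the centre of G, and χ an irreducible complex character of degree greater than one with χ(g) ≠ 0 such that every other irreducible character of degree greater than one vanishes at g. Then g lies in the derived subgroup G′ and χ(g) = −[G : G′]/χ(1); G′ is the union of the kernel of χ (the elements where χ takes the value χ(1)) and the conjugacy class of g, and χ vanishes outside G′; every irreducible character of degree greater than one whose kernel contains that of χ equals χ; and G is solvable. -/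
theorem result {G : Type*} [Group G] [Finite G] (g : G) (hg : g ∉ Subgroup.center G) (χ : Cfsg.IrrCharacter G) (hχ1 : Cfsg.charDegree (χ : G → ℂ) ≠ 1) (hχg : (χ : G → ℂ) g ≠ 0) (hother : ∀ ψ : Cfsg.IrrCharacter G, Cfsg.charDegree (ψ : G → ℂ) ≠ 1 → ψ ≠ χ → (ψ : G → ℂ) g = 0) : g ∈ commutator G ∧ (χ : G → ℂ) g = -(((commutator G).index : ℂ) / (χ : G → ℂ) 1) ∧ ((commutator G : Set G) = {x : G | (χ : G → ℂ) x = (χ : G → ℂ) 1} ∪ {h : G | IsConj g h}) ∧ (∀ x : G, x ∉ commutator G → (χ : G → ℂ) x = 0) ∧ (∀ ψ : Cfsg.IrrCharacter G, Cfsg.charDegree (ψ : G → ℂ) ≠ 1 → (∀ x : G, (χ : G → ℂ) x = (χ : G → ℂ) 1 → (ψ : G → ℂ) x = (ψ : G → ℂ) 1) → ψ = χ) ∧ Group.IsSolvable G := by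
  have hg1 : g ≠ 1 := fun h => hg (h ▸ Subgroup.one_mem _)
  have ho : ∀ ψ, IsIrrCharacter G ψ → charDegree ψ ≠ 1 → ψ ≠ χ.1 → ψ g = 0 := fun ψ hψ h1 h2 =>
    hother ⟨ψ, hψ⟩ h1 fun e => h2 (congrArg Subtype.val e)
  obtain ⟨a1, a2, a3, a4, a5, a6⟩ := H28.VnA.pA G g χ.1 hg1 χ.2 hχ1 hχg ho
  obtain ⟨b1, b2⟩ := H27.VnS.solv G g χ.1 hg1 χ.2 hχ1 hχg ho
  refine ⟨a1, a2, ?_, a5, fun ψ h1 h2 => Subtype.ext (a6 ψ.1 ψ.2 h1 fun x hx =>
    ψ.2.mem_charKer.2 (h2 x (χ.2.mem_charKer.1 hx))), b2⟩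
  ext x
  refine ⟨fun hx => ?_, ?_⟩
  · by_cases h : x ∈ H5.charKer χ.1
    · exact Or.inl (χ.2.mem_charKer.1 h)
    · exact Or.inr (a4 x hx h)
  · rintro (h | h)
    · exact b1 (χ.2.mem_charKer.2 h)
    · obtain ⟨c, rfl⟩ := isConj_iff.1 h
      exact Subgroup.Normal.conj_mem inferInstance g a1 c

end Cfsg.Agent.S4805
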