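import Cfsg.Statements.S4808
import Cfsg.Agent.H8.Cod

set_option autoImplicit false
open Cfsg

namespace Cfsg.Agent.S4808

open H5 H8

/-- The codegree of an irreducible complex character χ of a finite group G is [G : ker χ] / χ(1), where ker χ is the set of elements at which χ takes the value χ(1). A prime divides the order of G if and only if it divides the codegree of some irreducible complex character of G. -/
theorem result {G : Type*} [Group G] [Finite G] (p : ℕ) (hp : p.Prime) : p ∣ Nat.card G ↔ ∃ χ : Cfsg.IrrCharacter G, p ∣ (Nat.card G / (Nat.card {g : G // (χ : G → ℂ) g = (χ : G → ℂ) 1} * Cfsg.charDegree (χ : G → ℂ))) := by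
  classical
  simp only [fun χ : IrrCharacter G => cod_eq χ.2]
  refine ⟨fun h => ?_, fun ⟨χ, h⟩ => h.trans (((Dvd.intro _ (cod_mul χ.2))).trans
    (Subgroup.index_dvd_card _))⟩
  by_contra hc
  push Not at hc
  haveI := Fact.mk hp
  obtain ⟨x, hx⟩ := exists_prime_orderOf_dvd_card' p h
  have h1 := sum_degree_mul_apply_of_ne_one (g := x) fun e => hp.ne_one (by rw [← hx, e, orderOf_one])
  rw [Finset.sum_congr rfl (g := fun χ => ((if x ∈ charKer χ.1 then charDegree χ.1 ^ 2 else 0 : ℕ) : ℂ))
    fun χ _ => ?_, ← Nat.cast_sum, Nat.cast_eq_zero, Finset.sum_eq_zero_iff] at h1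
  · have := h1 (irrOne G) (Finset.mem_univ _)
    rw [if_pos (by rw [coe_irrOne, charKer_one]; trivial)] at this
    exact (pow_pos (deg_pos _) 2).ne' this
  split_ifs with e
  · rw [apply_eq_of_mem_charKer e, Nat.cast_pow, coe_deg, sq]
  · rw [vanish_of_cod hp χ.2 (hc χ) hx e]; simp

end Cfsg.Agent.S4808
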