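import Cfsg.Statements.S4813
import Cfsg.Agent.S4466

set_option autoImplicit false
open Cfsg

namespace Cfsg.Agent.S4813

open H5 H6 H8 Cfsg

/-- If every irreducible complex character of the finite group G of degree greater than one has prime degree, then G has at most three distinct irreducible character degrees. -/
theorem result {G : Type*} [Group G] [Finite G] (hprime : ∀ d ∈ Cfsg.charDegrees G, d = 1 ∨ d.Prime) : Nat.card ↥(Cfsg.charDegrees G) ≤ 3 := by
  have h : ∀ χ, IsIrrCharacter G χ → charDegree χ ≠ 1 → (charDegree χ).Prime := fun χ hχ =>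
    (hprime _ ⟨⟨χ, hχ⟩, rfl⟩).resolve_left
  suffices e : ∃ a b, Cd3 G a b by
    obtain ⟨a, b, e⟩ := e
    exact (Set.ncard_le_ncard (t := {1, a, b}) (by rintro _ ⟨χ, rfl⟩; exact e _ χ.2)).trans
      ((Set.ncard_insert_le _ _).trans (Nat.succ_le_succ ((Set.ncard_insert_le _ _).trans (by simp))))
  by_cases h0 : commutator G = ⊥
  · exact ⟨1, 1, fun χ hχ => Or.inl (by_contra fun e => (not_le_ker_iff hχ).2 e (h0.le.trans bot_le))⟩
  haveI := Cfsg.Agent.S4466.result (G := G) fun χ => h χ χ.2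
  haveI := Fintype.ofFinite G
  obtain ⟨K, _, h1, h2⟩ := exists_just_nonab h0
  obtain ⟨p, hp, h3 | ⟨h3, h4, h5, h6⟩⟩ := just_nonab h1 h2 <;> haveI := Fact.mk hp
  · obtain ⟨β, e1, e2, e3⟩ := exists_deg_top h1
    obtain ⟨k, hk⟩ := h3.exists_card_eq
    refine ⟨p, p, fun χ hχ => or_iff_not_imp_left.2 fun e => Or.inl (by_contra fun e' => ?_)⟩
    have h4 := mul_irr_of_not_dvd hk hχ (fun d => e' ((Nat.prime_dvd_prime_iff_eq hp (h χ hχ e)).1 d).symm) e1 e2
    have h5 := h _ h4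
    rw [deg_mul e1.isCharacter hχ.isCharacter] at h5
    exact Nat.not_prime_mul e3 e (h5 fun d => e (Nat.eq_one_of_mul_eq_one_left d))
  have hπ := QuotientGroup.mk'_surjective K
  have h7 : (commutator (G ⧸ K)).index ≠ 1 := fun e => h5 (Subgroup.index_eq_one.1 e)
  have h8 : ∀ ψ, IsIrrCharacter ((commutator (G ⧸ K)).comap (QuotientGroup.mk' K)) ψ → ¬ p ∣ charDegree ψ →
      charDegree ψ = 1 ∧ (commutator (G ⧸ K)).index.Prime := fun ψ hψ hd => by
    obtain ⟨χ, e1, e2⟩ := frob_cd hπ h4 h1 h3 h6 hψ hd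
    have := h χ e1 fun e => h7 (Nat.eq_one_of_mul_eq_one_right (e2 ▸ e))
    have e3 : charDegree ψ = 1 := by_contra fun e => Nat.not_prime_mul h7 e (e2 ▸ this)
    exact ⟨e3, by rwa [e2, e3, mul_one] at this⟩
  refine ⟨p, (commutator (G ⧸ K)).index, fun χ hχ => or_iff_not_imp_left.2 fun e => or_iff_not_imp_left.2 fun e' => ?_⟩
  haveI := Fintype.ofFinite ((commutator (G ⧸ K)).comap (QuotientGroup.mk' K))
  obtain ⟨ψ, hψ, h9⟩ := exists_irr_under (N := (commutator (G ⧸ K)).comap (QuotientGroup.mk' K)) hχ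
  obtain ⟨b, b1, b2⟩ := deg_dvd_of_under hχ hψ h9
  obtain ⟨c1, c2⟩ := h8 ψ hψ fun d => e' ((Nat.prime_dvd_prime_iff_eq hp (h χ hχ e)).1 (b2 ▸ d.mul_left b)).symm
  rw [Subgroup.index_comap_of_surjective _ hπ] at b1
  rw [c1, mul_one] at b2
  exact (Nat.prime_dvd_prime_iff_eq (h χ hχ e) c2).1 (b2 ▸ b1)

end Cfsg.Agent.S4813
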