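import Cfsg.Statements.S4814
import Cfsg.Agent.H5.FS
import Cfsg.Agent.H5.Central

set_option autoImplicit false
open Cfsg

namespace Cfsg.Agent.S4814

open H5
open scoped ComplexConjugate

/-- Let G be a finite group such that the sum, over the irreducible complex characters χ of G, of 1/χ(1)² is less than 2. Then every element of G is a product of two commutators. -/
theorem result {G : Type*} [Group G] [Finite G]
    (h : ∑ᶠ χ : Cfsg.IrrCharacter G, 1 / ‖(χ : G → ℂ) 1‖ ^ 2 < (2 : ℝ)) (g : G) :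
    ∃ a b c d : G, (a * b * a⁻¹ * b⁻¹) * (c * d * c⁻¹ * d⁻¹) = g := by
  classical
  haveI := Fintype.ofFinite G
  rw [finsum_eq_sum_of_fintype] at h
  by_contra hc
  push Not at hc
  have h0 := card_ne_zero_complex (G := G)
  have h1 : ∀ z : G, (∑ χ : IrrCharacter G, (χ : G → ℂ) (z * g) / (χ : G → ℂ) 1) *
      ∑ χ : IrrCharacter G, (χ : G → ℂ) z⁻¹ / (χ : G → ℂ) 1 = 0 := fun z => by
    by_contra e
    have e1 := mul_ne_zero h0 (left_ne_zero_of_mul e)
    have e2 := mul_ne_zero h0 (right_ne_zero_of_mul e)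
    rw [← card_commutator_eq, Nat.cast_ne_zero] at e1 e2
    obtain ⟨⟨c, d⟩, e3⟩ := (Nat.card_ne_zero.1 e1).1
    obtain ⟨⟨a, b⟩, e4⟩ := (Nat.card_ne_zero.1 e2).1
    exact hc a b c d (by rw [e3, e4]; simp)
  have h2 : ∑ χ : IrrCharacter G, (χ : G → ℂ) g / (χ : G → ℂ) 1 ^ 3 = 0 := by
    apply mul_left_cancel₀ h0
    rw [mul_zero, ← Finset.sum_eq_zero fun z (_ : z ∈ Finset.univ) => h1 z, Finset.mul_sum]
    simp only [Finset.sum_mul_sum]
    rw [Finset.sum_comm]
    refine Finset.sum_congr rfl fun χ _ => ?_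
    rw [Finset.sum_comm, Finset.sum_eq_single χ]
    · simp only [div_mul_div_comm, χ.2.apply_inv, ← Finset.sum_div]
      rw [χ.2.sum_mul_conj χ.2, if_pos rfl]
      have := χ.2.apply_one_ne_zero
      field_simp
    · intro ψ _ e
      simp only [div_mul_div_comm, ψ.2.apply_inv, ← Finset.sum_div]
      rw [χ.2.sum_mul_conj ψ.2, if_neg fun e' => e (Subtype.ext e').symm, zero_div]
    · simp
  rw [← Finset.add_sum_erase _ _ (Finset.mem_univ (irrOne G))] at h h2
  simp only [irrOne_apply, norm_one, one_pow, div_one] at h h2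
  have h3 := congrArg norm (eq_neg_of_add_eq_zero_left h2)
  rw [norm_one, norm_neg] at h3
  have h4 := (norm_sum_le _ _).trans (Finset.sum_le_sum (s := Finset.univ.erase (irrOne G))
    (f := fun χ : IrrCharacter G => ‖(χ : G → ℂ) g / (χ : G → ℂ) 1 ^ 3‖)
    (g := fun χ : IrrCharacter G => 1 / ‖(χ : G → ℂ) 1‖ ^ 2) fun χ _ => by
      have := norm_pos_iff.2 χ.2.apply_one_ne_zero
      rw [norm_div, norm_pow, div_le_div_iff₀ (by positivity) (by positivity), one_mul,
        pow_succ' _ 2]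
      exact mul_le_mul_of_nonneg_right (χ.2.isCharacter.norm_le g) (by positivity))
  linarith

end Cfsg.Agent.S4814
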