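import Cfsg.Statements.S4825
import Cfsg.Agent.H7.Misc
import Cfsg.Agent.H6.Clifford

set_option autoImplicit false
open Cfsg

namespace Cfsg.Agent.S4825

open H5 H7

/-- Let p be a prime, G a finite group with Sylow p-subgroup P, M a maximal ideal of the algebraic integers containing p, and B a p-block of G with defect group P. Let N be a normal subgroup of G not containing P and θ an irreducible character of N. Then the number of irreducible characters in B of degree prime to p lying over θ (having θ as a constituent on restriction to N) is either 0 or at least 2, and when p ≤ 3 it is divisible by p. -/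
theorem result {G : Type*} [Group G] [Fintype G] (p : ℕ) [Fact p.Prime] (P : Sylow p G) (M : Ideal Cfsg.AlgInt) (hM : Cfsg.IsPModular p M) (B : Set (Cfsg.IrrCharacter G)) (hB : Cfsg.IsPBlock M B) (hBP : Cfsg.IsDefectGroup p M B P) (N : Subgroup G) [N.Normal] [Fintype N] (hPN : ¬ (P : Subgroup G) ≤ N) (θ : Cfsg.IrrCharacter N) :
    (Nat.card {χ : Cfsg.IrrCharacter G // χ ∈ B ∧ ¬ p ∣ Cfsg.charDegree (χ : G → ℂ) ∧ Cfsg.classInner (fun n : N => (χ : G → ℂ) n) (θ : N → ℂ) ≠ 0} = 0 ∨
      2 ≤ Nat.card {χ : Cfsg.IrrCharacter G // χ ∈ B ∧ ¬ p ∣ Cfsg.charDegree (χ : G → ℂ) ∧ Cfsg.classInner (fun n : N => (χ : G → ℂ) n) (θ : N → ℂ) ≠ 0}) ∧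
    (p ≤ 3 → p ∣ Nat.card {χ : Cfsg.IrrCharacter G // χ ∈ B ∧ ¬ p ∣ Cfsg.charDegree (χ : G → ℂ) ∧ Cfsg.classInner (fun n : N => (χ : G → ℂ) n) (θ : N → ℂ) ≠ 0}) := by
  classical
  haveI : PM p M := ⟨hM⟩
  have hp : p.Prime := Fact.out
  obtain ⟨x, hxP, hxN⟩ := SetLike.not_le_iff_exists.1 hPN
  have hx : IsPE p x := isPE_of_mem P.isPGroup' hxP
  have h1 : blockPart B (indFun N (θ : N → ℂ)) x = 0 := by
    refine blockPart_eq_zero_of_section (p := p) (isSat_of_isPBlock hB) fun g hg => ?_
    refine indFun_eq_zero_of_normal _ _ fun h => hxN ?_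
    rw [pp_of_isPE hx] at hg
    obtain ⟨c, hc⟩ := isConj_iff.1 hg.symm
    exact hc ▸ Subgroup.Normal.conj_mem ‹_› _ (pp_mem h) c
  have hm : ∀ χ : IrrCharacter G, ∃ m : ℕ, classInner (fun n : N => (χ : G → ℂ) n) θ = m :=
    fun χ => (χ.2.isCharacter.restrict N).exists_classInner_nat θ.2.isCharacter
  choose m hm using hm
  set t := (H6.inertia (θ : N → ℂ)).index * charDegree (θ : N → ℂ)
  have hdeg : ∀ χ : IrrCharacter G, m χ ≠ 0 → charDegree (χ : G → ℂ) = m χ * t := fun χ h => by
    have := H6.clifford_degree χ.2 θ.2 (by rw [hm]; exact_mod_cast h)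
    rw [hm, ← χ.2.coe_charDegree, ← θ.2.coe_charDegree, mul_assoc] at this
    exact_mod_cast this
  have h2 : ((∑ χ : IrrCharacter G, if χ ∈ B then m χ * charDegree (χ : G → ℂ) else 0 : ℕ) : F M)
      = 0 := by
    have h3 := congrArg (red M) h1
    rw [blockPart_eq_sum, red_zero, red_sum] at h3
    · rw [← h3]
      push_cast
      refine Finset.sum_congr rfl fun χ _ => ?_
      split_ifs
      · rw [frobenius_reciprocity _ _ χ.2.isClassFunction, ← classInner_conj_symm, hm, map_natCast,
          red_mul (natCast_mem _ _) (char_mem_O χ.2.isCharacter _),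
          red_char_eq_red_pr (p := p) χ.2.isCharacter, pr_of_isPE hx, ← χ.2.coe_charDegree,
          red_natCast, red_natCast]
      · simp
    · intro χ _
      split_ifs
      · rw [frobenius_reciprocity _ _ χ.2.isClassFunction, ← classInner_conj_symm, hm, map_natCast]
        exact mul_mem (natCast_mem _ _) (char_mem_O χ.2.isCharacter _)
      · exact zero_mem _
  set S := Finset.univ.filter fun χ : IrrCharacter G => χ ∈ B ∧ ¬ p ∣ charDegree (χ : G → ℂ) ∧
    classInner (fun n : N => (χ : G → ℂ) n) (θ : N → ℂ) ≠ 0 with hS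
  have hcard : Nat.card {χ : IrrCharacter G // χ ∈ B ∧ ¬ p ∣ charDegree (χ : G → ℂ) ∧
      classInner (fun n : N => (χ : G → ℂ) n) (θ : N → ℂ) ≠ 0} = S.card := by
    rw [Nat.card_eq_fintype_card, Fintype.card_subtype]
  have h4 : ∑ χ ∈ S, (charDegree (χ : G → ℂ) : ZMod p) ^ 2 = 0 := by
    have h5 := ((natCast_F_eq_zero_iff (p := p) _).1 h2).mul_right t
    rw [← ZMod.natCast_eq_zero_iff] at h5
    rw [← h5, hS, Finset.sum_filter, Finset.sum_mul]
    push_cast
    refine Finset.sum_congr rfl fun χ _ => ?_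
    by_cases h6 : χ ∈ B
    · by_cases h7 : m χ = 0
      · simp [hm, h7]
      · have h8 : (m χ : ZMod p) * charDegree (χ : G → ℂ) * t = charDegree (χ : G → ℂ) ^ 2 := by
          rw [hdeg χ h7]; push_cast; ring
        rw [if_pos h6, h8]
        split_ifs with h9
        · rfl
        · have : p ∣ charDegree (χ : G → ℂ) := by
            by_contra h10
            exact h9 ⟨h6, h10, by rw [hm]; exact_mod_cast h7⟩
          rw [(ZMod.natCast_eq_zero_iff _ _).2 this, sq, mul_zero]
    · simp [h6]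
  have h5 : ∀ χ ∈ S, (charDegree (χ : G → ℂ) : ZMod p) ≠ 0 := fun χ h => by
    rw [ne_eq, ZMod.natCast_eq_zero_iff]
    exact (Finset.mem_filter.1 h).2.2.1
  rw [hcard]
  constructor
  · by_contra h
    obtain ⟨χ, hχ⟩ := Finset.card_eq_one.1 (show S.card = 1 by omega)
    rw [hχ, Finset.sum_singleton] at h4
    exact h5 χ (by simp [hχ]) (pow_eq_zero_iff two_ne_zero |>.1 h4)
  · intro h3
    rw [← ZMod.natCast_eq_zero_iff, ← h4, Finset.card_eq_sum_ones, Nat.cast_sum]
    refine Finset.sum_congr rfl fun χ h => ?_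
    have h6 := ZMod.pow_card_sub_one_eq_one (h5 χ h)
    have h7 := hp.two_le
    rcases (show p = 2 ∨ p = 3 by omega) with h8 | h8
    · rw [show p - 1 = 1 by omega, pow_one] at h6
      rw [h6]; simp
    · rw [show p - 1 = 2 by omega] at h6
      rw [h6]; simp

end Cfsg.Agent.S4825
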