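import Cfsg.Statements.S4828
import Cfsg.Agent.H8.Pairs4
import Cfsg.Agent.H7.Fong
import Cfsg.Agent.H7.Quot

set_option autoImplicit false
open Cfsg

namespace Cfsg.Agent.S4828

open H5 H7 H8
open scoped Pointwise

/-- Let p be a prime, M a maximal ideal of the algebraic integers containing p, and (Q, e) a Brauer pair of the finite group G (Q a p-subgroup, e a block of C_G(Q)). Then (Q, e) is a maximal Brauer pair of some block of G if and only if e contains an irreducible character θ such that θ takes the value θ(1) at every element of Z(Q) = Q ∩ C_G(Q), the p-part of θ(1) times the p-part of the order of Z(Q) equals the p-part of the order of C_G(Q) (θ has defect zero as a character of C_G(Q)/Z(Q)), and every element of N_G(Q) of p-power order that stabilizes e lies in Q·C_G(Q) (the stabilizer of e in N_G(Q) has index prime to p over Q·C_G(Q)). -/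
theorem result {G : Type*} [Group G] [Finite G] (p : ℕ) [Fact p.Prime] (M : Ideal Cfsg.AlgInt) (hM : Cfsg.IsPModular p M) (Q : Subgroup G) (e : Set (Cfsg.IrrCharacter (Subgroup.centralizer (Q : Set G)))) (he : Cfsg.IsBrauerPair p M Q e) :
    (∃ B : Set (Cfsg.IrrCharacter G), Cfsg.IsMaximalBrauerPair p M B Q e) ↔
      ∃ θ ∈ e, (∀ z : Subgroup.centralizer (Q : Set G), (z : G) ∈ Q → (θ : Subgroup.centralizer (Q : Set G) → ℂ) z = (θ : Subgroup.centralizer (Q : Set G) → ℂ) 1) ∧
        (Cfsg.charDegree (θ : Subgroup.centralizer (Q : Set G) → ℂ)).factorization p + (Nat.card ↥(Q ⊓ Subgroup.centralizer (Q : Set G))).factorization p = (Nat.card (Subgroup.centralizer (Q : Set G))).factorization p ∧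
        (∀ g : G, g ∈ Subgroup.normalizer (Q : Set G) → Cfsg.StabilizesBlock (Subgroup.centralizer (Q : Set G)) e g → (∃ k : ℕ, orderOf g = p ^ k) → g ∈ Q ⊔ Subgroup.centralizer (Q : Set G)) := by
  classical
  haveI : PM p M := ⟨hM⟩
  have hb : IsPBlock M e := he.2
  have hQ : IsPGroup p Q := he.1
  have hcard : Nat.card ((Q ⊓ cC Q).subgroupOf (cC Q)) = Nat.card (Q ⊓ cC Q : Subgroup G) :=
    Nat.card_congr (Subgroup.subgroupOfEquivOfLe inf_le_right).toEquiv
  have hidx := factorization_index_add (p := p) ((Q ⊓ cC Q).subgroupOf (cC Q))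
  rw [hcard] at hidx
  have hZ : (Q ⊓ cC Q).subgroupOf (cC Q) ≤ Subgroup.center (cC Q) := fun x hx => by
    rw [Subgroup.mem_center_iff]
    exact fun y => Subtype.ext (y.2 x hx.1).symm
  constructor
  · rintro ⟨B, hB⟩
    have m := mx_of hB
    obtain ⟨D, hD, hle⟩ := m.exists_def_le (T := cC Q) Le.refl inf_le_right
      (le_inf (le_inf le_top (cC_le_nN Q)) ((cC_le_stab e).trans inf_le_right))
    obtain ⟨x, -, h1, h2⟩ := m.exists_cj m.bp (hD.le.trans
      (le_inf (le_inf le_top (cC_le_nN Q)) ((cC_le_stab e).trans inf_le_right))) hD.pg hD.ne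
    have h3 : cj x Q = Q := Subgroup.eq_of_le_of_card_ge h1.le (card_cj x Q).ge
    have h4 : D = Q ⊓ cC Q := by
      refine le_antisymm (le_inf ?_ hD.le) hle
      rw [← h3] at h2
      have := cj_mono x⁻¹ h2
      rwa [cj_inv_cj, cj_inv_cj] at this
    subst h4
    have h5 := (def_io' hb inf_le_right).2 hD
    have pc : PC p M e ((Q ⊓ cC Q).subgroupOf (cC Q)) :=
      ⟨hb, h5, ⟨fun a ha g => by
        rw [Subgroup.mem_center_iff.1 (hZ ha) g, mul_inv_cancel_right]; exact ha⟩,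
        fun y _ x hx => (Subgroup.mem_center_iff.1 (hZ hx) y).symm⟩
    obtain ⟨θ, hθ, hd⟩ := pc.exists_theta
    have hθ' : θ ∈ e ∩ kerSet ((Q ⊓ cC Q).subgroupOf (cC Q)) := hθ ▸ rfl
    refine ⟨θ, hθ'.1, fun z hz => hθ'.2 z ⟨hz, z.2⟩, by rw [hd]; exact hidx, fun g h1 h2 h3 => ?_⟩
    have := m.mem_sup_of_isPE (x := g)
      ⟨⟨trivial, h1⟩, ((stab_pair_iff hb).1 ⟨h1, h2⟩).2⟩ h3
    rwa [top_inf_eq, sup_comm] at this
  · rintro ⟨θ, hθ, h1, h2, h3⟩
    have h4 := laradji (hQ.to_inf_left.comap_subtype) hZ hθ hb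
      (Nat.add_right_cancel (h2.trans hidx.symm))
    have h5 := (def_io' hb inf_le_right).1 h4
    have hp' := (pair_iff hb).1 he
    obtain ⟨b, hb1, hb2⟩ := exists_prim_BP tw_tt hp' le_top
    obtain ⟨B, hB, rfl⟩ := exists_fB_eq hb1
    refine ⟨B, (max_iff hB hb).2 ⟨hb2, ?_⟩⟩
    by_contra hn
    obtain ⟨R, g, hlt, -, ns⟩ := hb2.exists_NS tw_tt hb1 hn
    have h6 : R ⊓ cC Q ≤ Q ⊓ cC Q := h5.le_of_normal' inf_le_right ns.hi.pg.to_inf_left
      (Br_ne_zero_of_le inf_le_left ns.Br_ne_zero)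
      (le_nN_inf (cC_le_nN Q) (le_nN_self _))
    refine hlt.not_ge fun r hr => ?_
    have h7 := (stab_pair_iff hb).2 ⟨ns.norm hr, mem_Inv_iff_le.1 ns.inv hr⟩
    have h8 := h3 r h7.1 h7.2 (isPE_of_mem ns.hi.pg hr)
    have h9 : (Q ⊔ cC Q : Subgroup G) = cC Q ⊔ Q := sup_comm _ _
    have h10 : r ∈ ((cC Q : Subgroup G) : Set G) * (Q : Set G) := by
      rw [← Subgroup.coe_mul_of_left_le_normalizer_right _ _ (cC_le_nN Q), ← h9]; exact h8
    obtain ⟨c, hc, q, hq, rfl⟩ := h10
    have h11 : c ∈ R := by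
      have := R.mul_mem hr (R.inv_mem (hlt.le hq))
      simpa using this
    exact Q.mul_mem (h6 ⟨h11, hc⟩).1 hq

end Cfsg.Agent.S4828
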