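import Cfsg.Statements.S4837
import Cfsg.Agent.H8.Gag

set_option autoImplicit false
open Cfsg

namespace Cfsg.Agent.S4837

open H5 H6 H8
open scoped ComplexConjugate

/-- Let G be a finite group of order greater than 2 with an irreducible character χ nonzero on exactly two conjugacy classes, and let N be the set of elements where χ is nonzero, given as a nontrivial normal p-subgroup of G for the prime p. Then for every nonidentity x in N the centralizer C_G(x) is a Sylow p-subgroup of G, and for every irreducible character λ ≠ 1 of N the stabilizer of λ in G (its inertia group) is a Sylow p-subgroup of G. -/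
theorem result {G : Type*} [Group G] [Finite G] (hG : 2 < Nat.card G) (χ : Cfsg.IrrCharacter G) (hχ : Nat.card {C : ConjClasses G // ∃ g ∈ C.carrier, (χ : G → ℂ) g ≠ 0} = 2) (p : ℕ) [Fact p.Prime] (N : Subgroup G) [N.Normal] (hN : ∀ g : G, g ∈ N ↔ (χ : G → ℂ) g ≠ 0) (hNp : IsPGroup p N) (hN1 : N ≠ ⊥) :
    (∀ x ∈ N, x ≠ 1 → ∃ P : Sylow p G, Subgroup.centralizer ({x} : Set G) = P) ∧
      (∀ μ : Cfsg.IrrCharacter N, (μ : N → ℂ) ≠ (fun _ => (1 : ℂ)) → ∃ P : Sylow p G, ∀ g : G, g ∈ (P : Subgroup G) ↔ ∀ n n' : N, (n' : G) = g * n * g⁻¹ → (μ : N → ℂ) n' = (μ : N → ℂ) n) := by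
  classical
  obtain ⟨x, h⟩ := gag_of_card hG χ hχ
  obtain rfl : N = h.N := Subgroup.ext fun g => (hN g).trans h.mem_N.symm
  refine ⟨fun a ha ha1 => ?_, fun μ hμ => ?_⟩
  · have h' := h.of_mem ha ha1
    have e : h'.N = h.N := rfl
    exact ⟨(h'.pgroup_cent (e ▸ hNp)).toSylow (h'.not_dvd_k (e ▸ hNp)), rfl⟩
  · have := Fintype.ofFinite G
    have := Fintype.ofFinite h.N
    obtain ⟨e, he0, he1, he2⟩ := h.exists_e
    obtain ⟨q, -, hq, -⟩ := h.elem
    have hμ1 : μ.1 1 = 1 := μ.2.apply_one_of_comm fun a b => hq.1.1 a b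
    have hv := h.val
    have hχ1 : χ.1 1 = e * (Subgroup.centralizer ({x} : Set G)).index := by
      rw [← χ.2.coe_charDegree, he1]; push_cast; ring
    have hin : classInner (fun n : h.N => χ.1 n) μ.1 = e := by
      apply mul_left_cancel₀ (card_ne_zero_complex (G := h.N))
      rw [card_mul_classInner]
      have h0 : ∑ n : h.N, conj (μ.1 n) = 0 := by
        rw [← map_sum, μ.2.sum_eq_zero hμ, map_zero]
      have h1 : ∀ n : h.N, χ.1 n * conj (μ.1 n) =
          -e * conj (μ.1 n) + if n = 1 then (Nat.card h.N : ℂ) * e else 0 := by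
        intro n
        split_ifs with hn
        · subst hn
          rw [hμ1, h.card_N, OneMemClass.coe_one, hχ1]; push_cast; simp; ring
        · have hn' : (n : G) ≠ 1 := fun e => hn (Subtype.ext e)
          rw [← χ.2.isClassFunction.eq_of_isConj ((h.mem_N'.mp n.2).resolve_left hn'), he0]
          ring
      simp only [h1, Finset.sum_add_distrib, ← Finset.mul_sum, h0]
      simp
    have he : (e : ℂ) ≠ 0 := by
      intro h0
      apply χ.2.apply_one_ne_zero
      rw [hχ1, h0, zero_mul]
    have hd := clifford_degree χ.2 μ.2 (hin ▸ he)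
    rw [hin, hμ1, hχ1, mul_one] at hd
    have hidx : (inertia μ.1).index = (Subgroup.centralizer ({x} : Set G)).index :=
      Nat.cast_injective (R := ℂ) (mul_left_cancel₀ he hd).symm
    have hc : Nat.card (inertia μ.1) = Nat.card (Subgroup.centralizer ({x} : Set G)) := by
      have h1 := (inertia μ.1).card_mul_index
      rw [hidx, ← (Subgroup.centralizer ({x} : Set G)).card_mul_index] at h1
      exact Nat.eq_of_mul_eq_mul_right (Nat.pos_of_ne_zero Subgroup.index_ne_zero_of_finite) h1
    obtain ⟨n, hn⟩ := (h.pgroup_cent hNp).exists_card_eq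
    have hP : IsPGroup p (inertia μ.1) := IsPGroup.of_card (hc.trans hn)
    refine ⟨hP.toSylow (hidx ▸ h.not_dvd_k hNp), fun g => ?_⟩
    change g ∈ inertia μ.1 ↔ _
    rw [mem_inertia']
    constructor
    · intro hg n n' e
      rw [← hg n]
      exact congrArg μ.1 (Subtype.ext e)
    · intro hg n
      exact hg n _ rfl

end Cfsg.Agent.S4837
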