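import Cfsg.Statements.S4838
import Cfsg.Agent.H8.Gag

set_option autoImplicit false
open Cfsg

namespace Cfsg.Agent.S4838

open H5 H6 H8
open scoped ComplexConjugate commutatorElement

/-- Let G be a finite group of order greater than 2 with an irreducible character χ nonzero on exactly two conjugacy classes, N the normal p-subgroup of elements where χ is nonzero, and P a Sylow p-subgroup of G. Then (a) for every x outside N the centralizer of x in G has the same order as the centralizer of xN in G/N; (b) the centre of P lies in N, and equals N exactly when P is normal in G; (c) N, viewed inside P, is a term of the upper central series of P. -/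
theorem result {G : Type*} [Group G] [Finite G] (hG : 2 < Nat.card G) (χ : Cfsg.IrrCharacter G) (hχ : Nat.card {C : ConjClasses G // ∃ g ∈ C.carrier, (χ : G → ℂ) g ≠ 0} = 2) (p : ℕ) [Fact p.Prime] (N : Subgroup G) [N.Normal] (hN : ∀ g : G, g ∈ N ↔ (χ : G → ℂ) g ≠ 0) (hNp : IsPGroup p N) (hN1 : N ≠ ⊥) (P : Sylow p G) :
    (∀ x : G, x ∉ N → Nat.card (Subgroup.centralizer ({x} : Set G)) = Nat.card (Subgroup.centralizer ({(x : G ⧸ N)} : Set (G ⧸ N)))) ∧
      ((Subgroup.center ↥(P : Subgroup G)).map (P : Subgroup G).subtype ≤ N ∧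
        ((Subgroup.center ↥(P : Subgroup G)).map (P : Subgroup G).subtype = N ↔ (P : Subgroup G).Normal)) ∧
      (∃ i : ℕ, Subgroup.upperCentralSeries ↥(P : Subgroup G) i = N.subgroupOf (P : Subgroup G)) := by
  classical
  obtain ⟨x, h⟩ := gag_of_card hG χ hχ
  obtain rfl : N = h.N := Subgroup.ext fun g => (hN g).trans h.mem_N.symm
  have hp : p.Prime := Fact.out
  have hNP : h.N ≤ P := hNp.le_sylow_of_normal P
  have hcard : Nat.card (h.N.subgroupOf P) = Nat.card h.N :=
    Nat.card_congr (Subgroup.subgroupOfEquivOfLe hNP).toEquiv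
  have key : ∀ y : P, (y : G) ∉ h.N →
      Nat.card h.N ≤ (Subgroup.centralizer ({y} : Set P)).index := by
    intro y hy
    have h1 : Nat.card (Subgroup.centralizer ({y} : Set P)) ∣
        Nat.card (Subgroup.centralizer ({(y : G)} : Set G)) := by
      rw [← Subgroup.card_map_of_injective (f := (P : Subgroup G).subtype)
        (P : Subgroup G).subtype_injective]
      refine Subgroup.card_dvd_of_le ?_
      rintro _ ⟨z, hz, rfl⟩
      rw [Subgroup.mem_centralizer_singleton_iff]
      exact congrArg Subtype.val (Subgroup.mem_centralizer_singleton_iff.mp hz)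
    rw [h.cent_quot hy] at h1
    have h2 := h1.trans (Subgroup.card_subgroup_dvd_card _)
    rw [← Subgroup.index_eq_card, ← Subgroup.relIndex_mul_index hNP] at h2
    obtain ⟨n, hn⟩ := (P.2.to_subgroup (Subgroup.centralizer ({y} : Set P))).exists_card_eq
    have h3 : Nat.card (Subgroup.centralizer ({y} : Set P)) ∣ h.N.relIndex P := by
      refine Nat.Coprime.dvd_of_dvd_mul_right ?_ h2
      rw [hn]
      exact Nat.Coprime.pow_left _ ((Nat.Prime.coprime_iff_not_dvd hp).mpr P.not_dvd_index)
    have h4 := (Subgroup.centralizer ({y} : Set P)).card_mul_index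
    have h5 := (h.N.subgroupOf P).card_mul_index
    rw [hcard] at h5
    have h6 := Nat.le_of_dvd (Nat.pos_of_ne_zero Subgroup.index_ne_zero_of_finite) h3
    change _ ≤ (h.N.subgroupOf P).index at h6
    have h7 : 0 < Nat.card (Subgroup.centralizer ({y} : Set P)) := Nat.card_pos
    by_contra hlt
    push Not at hlt
    have : Nat.card (Subgroup.centralizer ({y} : Set P)) *
      (Subgroup.centralizer ({y} : Set P)).index < (h.N.subgroupOf P).index * Nat.card h.N :=
      lt_of_lt_of_le (Nat.mul_lt_mul_of_pos_left hlt h7) (Nat.mul_le_mul_right _ h6)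
    rw [h4, mul_comm, h5] at this
    exact lt_irrefl _ this
  -- classes inside cosets
  have key2 : ∀ (Z : Subgroup P) (y : P), (∀ g : P, ⁅g, y⁆ ∈ Z) →
      (Subgroup.centralizer ({y} : Set P)).index ≤ Nat.card Z := by
    intro Z y hy
    rw [← card_isConj]
    refine Nat.card_le_card_of_injective (fun z => (⟨z.1 * y⁻¹, ?_⟩ : Z)) ?_
    · obtain ⟨c, hc⟩ := isConj_iff.mp z.2
      rw [← hc]; exact hy c
    · intro a b e
      exact Subtype.ext (mul_right_cancel (congrArg Subtype.val e))
  have step : ∀ i, Subgroup.upperCentralSeries P i < h.N.subgroupOf P →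
      Subgroup.upperCentralSeries P (i + 1) ≤ h.N.subgroupOf P := by
    intro i hi y hy
    by_contra hyN
    have h1 := key y hyN
    have h2 := key2 (Subgroup.upperCentralSeries P i) y fun g => by
      have := Subgroup.mem_upperCentralSeries_succ_iff.mp hy g
      rw [← commutatorElement_inv]
      exact inv_mem this
    have h3 : Nat.card (Subgroup.upperCentralSeries P i) < Nat.card (h.N.subgroupOf P) :=
      lt_of_le_of_ne (Subgroup.card_le_of_le hi.le) fun e =>
        hi.ne (Subgroup.eq_of_le_of_card_ge hi.le e.ge)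
    omega
  have hZ : (Subgroup.center ↥(P : Subgroup G)).map (P : Subgroup G).subtype ≤ h.N := by
    have h1 := step 0 (by
      rw [Subgroup.upperCentralSeries_zero, bot_lt_iff_ne_bot]
      intro e
      rw [e, Subgroup.card_bot] at hcard
      exact h.ne_bot (Subgroup.eq_bot_of_card_eq _ hcard.symm))
    rw [zero_add, Subgroup.upperCentralSeries_one] at h1
    exact Subgroup.map_le_iff_le_comap.mpr h1
  refine ⟨fun y hy => h.cent_quot hy, ⟨hZ, fun e => ?_, fun hPn => ?_⟩, ?_⟩
  · have h1 : (P : Subgroup G) ≤ Subgroup.centralizer (h.N : Set G) := by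
      intro g hg n hn
      rw [SetLike.mem_coe, ← e] at hn
      obtain ⟨z, hz, rfl⟩ := hn
      exact (congrArg Subtype.val (Subgroup.mem_center_iff.mp hz ⟨g, hg⟩)).symm
    have h2 : IsPGroup p (Subgroup.centralizer (h.N : Set G)) :=
      (h.pgroup_cent hNp).to_le (Subgroup.centralizer_le (Set.singleton_subset_iff.mpr h.x_mem))
    rw [← P.3 h2 h1]
    infer_instance
  · refine le_antisymm hZ (h.le_of_normal _ fun e => ?_)
    rw [Subgroup.map_eq_bot_iff_of_injective _ (P : Subgroup G).subtype_injective] at e
    have : Nontrivial (P : Subgroup G) := (Subgroup.nontrivial_iff_ne_bot _).mpr fun e' =>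
      h.ne_bot (le_bot_iff.mp (e' ▸ hNP))
    exact (Subgroup.nontrivial_iff_ne_bot _).mp P.2.center_nontrivial e
  · by_contra hne
    push Not at hne
    have hall : ∀ i, Subgroup.upperCentralSeries P i ≤ h.N.subgroupOf P := by
      intro i
      induction i with
      | zero => rw [Subgroup.upperCentralSeries_zero]; exact bot_le
      | succ i ih => exact step i (lt_of_le_of_ne ih (hne i))
    obtain ⟨n, hn⟩ := (P.2.isNilpotent).nilpotent
    exact hne n (le_antisymm (hall n) (hn ▸ le_top))

end Cfsg.Agent.S4838
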