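import Cfsg.Statements.S4839
import Cfsg.Agent.H8.Cam

set_option autoImplicit false
open Cfsg

namespace Cfsg.Agent.S4839

open H5 H18 H1 H8 Subgroup
open scoped Pointwise

/-- Let G be a finite group of order greater than 2 with an irreducible character χ nonzero on exactly two conjugacy classes, and let N be the normal p-subgroup of elements where χ is nonzero. Then N is the whole p-core O_p(G) if and only if G is a doubly transitive Frobenius group with kernel N: G has a Frobenius complement H whose Frobenius kernel is N and whose order is one less than that of N. -/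
theorem result {G : Type*} [Group G] [Finite G] (hG : 2 < Nat.card G) (χ : Cfsg.IrrCharacter G) (hχ : Nat.card {C : ConjClasses G // ∃ g ∈ C.carrier, (χ : G → ℂ) g ≠ 0} = 2) (p : ℕ) [Fact p.Prime] (N : Subgroup G) [N.Normal] (hN : ∀ g : G, g ∈ N ↔ (χ : G → ℂ) g ≠ 0) (hNp : IsPGroup p N) (hN1 : N ≠ ⊥) :
    N = Cfsg.pCore p G ↔ ∃ H : Subgroup G, Cfsg.IsFrobeniusComplement H ∧ Cfsg.frobeniusKernel H = (N : Set G) ∧ Nat.card H + 1 = Nat.card N := by
  have hp : p.Prime := Fact.out
  obtain ⟨x, h0⟩ := gag_of_card hG χ hχ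
  obtain rfl : N = h0.N := Subgroup.ext fun g => (hN g).trans h0.mem_N.symm
  have h := h0.cam hp hNp
  have hc := h.card x h0.x_mem h0.ne
  constructor
  · intro e
    rw [pCore_eq hp] at e
    have h1 : ∀ k ∈ h0.N, k ≠ 1 → ⊤ ⊓ C1(k) ≤ h0.N := fun k hk k1 g hg => by
      obtain ⟨j, hj⟩ := (h.cen k hk k1).isPGroup ⟨g, hg.2⟩
      exact h.mem_of_pow e.symm j g (by rw [show g ^ p ^ j = 1 from congrArg Subtype.val hj]; simp)
    have h2 : C1(x) = h0.N := le_antisymm (by simpa using h1 x h0.x_mem h0.ne)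
      (h.elem.abel.trans (C_le_C1 h0.x_mem))
    obtain ⟨H, hH⟩ := H23.exists_frob_of_cent h.nml h.ne (fun e => by
      rw [h2, e, index_top, card_top] at hc; omega) h1
    obtain ⟨a, b⟩ := H21.isFrobeniusComplement_of_frob hH
    exact ⟨H, a, b, by rw [hc, h2, ← hH.sd.relIndex, relIndex_top_right]⟩
  · rintro ⟨H, -, h2, h3⟩
    rw [pCore_eq hp]
    refine (le_pcore h.nml h.pi).antisymm fun g hg => by_contra fun hn => ?_
    have : g ∉ frobeniusKernel H := h2 ▸ hn
    simp only [frobeniusKernel, Set.mem_setOf_eq, not_or, not_forall, not_not] at this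
    obtain ⟨g1, c, hc'⟩ := this
    obtain ⟨r, r1, r2, r3⟩ := (pcore_pi.elt hg).exists_mem g1
    obtain rfl : r = p := r3
    have d1 : r ∣ Nat.card H := by
      have := r2.trans (orderOf_dvd_natCard _ hc')
      rwa [show MulAut.conj c • H = H18.cj c H from rfl, card_cj] at this
    obtain ⟨s, s1, s2, s3⟩ := (h.pi.elt h0.x_mem).exists_mem h0.ne
    obtain rfl : s = r := s3
    have d2 := s2.trans (orderOf_dvd_natCard _ h0.x_mem)
    rw [← h3] at d2
    exact s1.one_lt.ne' (Nat.dvd_one.1 ((Nat.dvd_add_right d1).1 d2))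

end Cfsg.Agent.S4839
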