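import Cfsg.Statements.S4840
import Cfsg.Agent.H8.Cam

set_option autoImplicit false
open Cfsg

namespace Cfsg.Agent.S4840

open H5 H18 H1 H8 Subgroup
open scoped Pointwise commutatorElement

section
variable {G : Type*} [Group G] [Finite G] {A B P Q V : Subgroup G} {p : ℕ}

theorem ncard_conj (O : Subgroup G) (x : G) :
    {z | ∃ o ∈ O, o * x * o⁻¹ = z}.ncard = C1(x).relIndex O := by
  let : MulAction G G := MulAction.compHom G (MulAut.conj (G := G))
  have h := MulAction.index_stabilizer O x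
  have e : MulAction.stabilizer O x = C1(x).subgroupOf O := by
    ext g; rw [mem_subgroupOf, mem_C1]; exact mul_inv_eq_iff_eq_mul
  rw [relIndex, ← e, h]
  congr 1
  ext z
  exact ⟨fun ⟨o, ho, e⟩ => ⟨⟨o, ho⟩, e⟩, fun ⟨o, e⟩ => ⟨o, o.2, e⟩⟩

theorem card_aut {V : Type*} [Group V] [Finite V] (h : Nat.card V = 4) : Nat.card (MulAut V) ∣ 6 := by
  classical
  have := Fintype.ofFinite V
  let φ : MulAut V →* Equiv.Perm {v : V // v ≠ 1} :=
    { toFun := fun a => Equiv.Perm.subtypePerm a.toEquiv fun v => by simp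
      map_one' := by ext; simp
      map_mul' := fun a b => by ext; simp }
  have hi : Function.Injective φ := (injective_iff_map_eq_one _).2 fun a ha => by
    ext v
    by_cases hv : v = 1
    · simp [hv]
    · exact congrArg Subtype.val (DFunLike.congr_fun ha ⟨v, hv⟩)
  have := card_dvd_of_injective φ hi
  rwa [Nat.card_perm, Nat.card_eq_fintype_card (α := {v : V // v ≠ 1}), Fintype.card_subtype_compl,
    ← Nat.card_eq_fintype_card, h, Fintype.card_unique] at this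

theorem large (h : PiGrp {2}ᶜ A) : ∀ q : ℕ, q.Prime → q ∣ Nat.card A → 2 < q := fun q a b =>
  lt_of_le_of_ne a.two_le fun e => h q a b e.symm

theorem cent_idx_two (hQ : PiGrp {2} Q) (hB : B ≤ Q) (hi : B.relIndex Q = 2) (hc : Cyc B)
    (hA : PiGrp {2}ᶜ A) (n1 : A ≤ N(Q)) (n2 : A ≤ N(B)) : A ≤ C(Q) := by
  have nB := hQ.nml_of_relIndex Nat.prime_two hB hi
  have h1 := hc.cent_of_large Nat.prime_two (hQ.of_le hB) n2 (large hA)
  have h2 := (cyc_quo_of_prime nB.norm (hi ▸ Nat.prime_two)).cent_of_large Nat.prime_two hQ.mim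
    (mim_norm n1) (large hA.mim)
  exact cent_symm ((cop_pi' n1 hA hQ).cent_of_comm_cent (comm_comm.le.trans
    (((comm_le_iff_quo n2 nB.norm).2 h2).trans (cent_symm h1))))

theorem eight {m : ℕ} (h : 4 ∣ 3 ^ m - 1) : 8 ∣ 3 ^ m - 1 := by
  have a : 1 ≤ 3 ^ m := Nat.one_le_pow _ _ (by norm_num)
  rcases Nat.even_or_odd' m with ⟨k, rfl | rfl⟩
  · rw [pow_mul]; exact (Nat.modEq_iff_dvd' (Nat.one_le_pow _ _ (by norm_num))).1
      (by simpa using ((by decide : 1 ≡ 3 ^ 2 [MOD 8]).pow k))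
  · have : 1 * 3 ≡ (3 ^ 2) ^ k * 3 [MOD 4] := Nat.ModEq.mul_right _
      (by simpa using ((by decide : 1 ≡ 3 ^ 2 [MOD 4]).pow k))
    rw [← pow_mul, ← pow_succ] at this
    have := ((Nat.modEq_iff_dvd' a).2 h).trans this.symm
    exact absurd this (by decide)

theorem q8 (hp : p.Prime) (h2 : p ≠ 2) (hP : Hall {p} P ⊤) {m : ℕ} (hm : P.relIndex N(P) + 1 = p ^ m)
    (hR : ∀ R : Subgroup G, PiGrp {2} R → Cyc R ∨ ∃ n x y, H9.QData R (2 ^ (n + 1)) x y)
    (nQ : Q ⊴ ⊤) {x y : G} (hQ : H9.QData Q 2 x y) : P ⊓ ⁅(⊤ : Subgroup G), ⊤⁆ ≤ C(Q) := by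
  have c8 : Nat.card Q = 2 ^ 3 := hQ.card_eq
  have q2 : PiGrp {2} Q := by unfold PiGrp; rw [c8]; exact piNat_pow_self Nat.prime_two 3
  have p2 : PiGrp {2}ᶜ P := fun r a b e => h2 ((hP.pi r a b).symm.trans e)
  have zc : ∀ g : G, g ∈ C1(x ^ 2) := fun g => by
    rw [mem_C1, ← mul_inv_eq_iff_eq_mul]
    exact hQ.eq_u (conj_mem nQ.norm (mem_top g) hQ.umem) (by rw [H18.orderOf_conj, hQ.orderOf_u])
  set Z := zpowers (x ^ 2) with hZ
  have cZ : ∀ U : Subgroup G, U ≤ C(Z) := fun U g _ => by rw [hZ, C_zpowers]; exact zc g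
  have nZ : ∀ U : Subgroup G, U ≤ N(Z) := fun U => cent_norm (cZ U)
  have ZQ : Z ≤ Q := zpowers_le.2 hQ.umem
  have c2 : Nat.card Z = 2 := by rw [hZ, Nat.card_zpowers, hQ.orderOf_u]
  have c4 : Nat.card (Q ⫽ Z) = 4 := by
    have := card_quo_mul (A := Q) ⟨ZQ, nZ Q⟩
    rw [c2, c8] at this; omega
  set D := qpre Z C(Q ⫽ Z) with hD
  have tZ : (⊤ : Subgroup G) ⫽ Z = ⊤ := top_le_iff.1 (quo_N.ge.trans (mim_mono le_top))
  have nD : D ⊴ ⊤ := nml_qpre ⟨le_top, nZ _⟩ ⟨tZ.symm ▸ le_top, norm_C (mim_norm nQ.norm)⟩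
  have i6 : D.relIndex ⊤ ∣ 6 := by
    rw [hD, relIndex_qpre ⟨le_top, nZ _⟩ (tZ.symm ▸ le_top)]
    exact (relIndex_C_dvd_card_aut (mim_norm nQ.norm)).trans (card_aut c4)
  have key : P ⊓ D ≤ C(Q) := cent_symm (cent_of_comm_le (U := Z) (comm_comm.le.trans
    ((comm_le_iff_quo (nZ _) (nZ _)).2 ((mim_le_iff (nZ _)).2 inf_le_right))) (cent_symm (cZ _))
    (p2.inf_left.coprime' (q2.of_le ZQ)))
  refine le_trans ?_ key
  by_cases hPD : P ≤ D
  · exact le_inf inf_le_left (inf_le_left.trans hPD)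
  refine inf_le_inf_left _ (by_contra fun hn => ?_)
  have e6 : D.relIndex ⊤ = 6 := by
    have h1 : D.relIndex ⊤ ≠ 1 := fun e => hPD (le_top.trans (relIndex_eq_one_iff.1 e))
    have h3 : ¬ (D.relIndex ⊤).Prime := fun e =>
      hn ((abel_quo_iff nD.norm).1 (cyc_quo_of_prime nD.norm e).abel)
    have := Nat.le_of_dvd (by norm_num) i6
    generalize D.relIndex ⊤ = k at *
    interval_cases k <;> simp_all (config := {decide := true})
  have nP : P ≤ N(D) := le_top.trans nD.norm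
  have t := relIndex_tower (le_sup_right : D ≤ P ⊔ D) le_top
  rw [relIndex_sup_of_norm nP, e6] at t
  obtain ⟨r, r1, r2⟩ := Nat.exists_prime_and_dvd (one_lt_relIndex hPD).ne'
  obtain rfl : r = p := hP.pi.relIndex r r1 r2
  have r3 : r = 3 := by
    have d : r ∣ 2 * 3 := r2.trans (Dvd.intro _ t)
    rcases (Nat.Prime.dvd_mul r1).1 d with d | d
    · exact absurd ((Nat.prime_dvd_prime_iff_eq r1 Nat.prime_two).1 d) h2
    · exact (Nat.prime_dvd_prime_iff_eq r1 Nat.prime_three).1 d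
  subst r3
  have i2 : (P ⊔ D).relIndex ⊤ = 2 := by
    have : ¬ 2 ∣ D.relIndex P := (piNat_compl_iff Nat.prime_two).1 p2.relIndex
    obtain ⟨c, hc⟩ := r2
    rw [hc] at t this
    have : c * (P ⊔ D).relIndex ⊤ = 2 := by linarith [mul_assoc 3 c ((P ⊔ D).relIndex ⊤)]
    rcases (Nat.dvd_prime Nat.prime_two).1 (Dvd.intro _ this) with rfl | rfl <;> omega
  have nK : P ⊔ D ⊴ ⊤ := by
    haveI := normal_of_index_eq_two (H := P ⊔ D) (by simpa using i2)
    exact nml_top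
  have fr := frattini_arg r1 nK (hP.of_le le_sup_left le_top)
  have j2 : (P ⊔ D).relIndex N(P) = 2 := by
    refine ((Nat.dvd_prime Nat.prime_two).1 (i2 ▸ nK.relIndex_dvd le_top)).resolve_left fun e => ?_
    rw [top_inf_eq, sup_eq_left.2 (relIndex_eq_one_iff.1 e)] at fr
    rw [fr] at i2; simp at i2
  have d4 : 4 ∣ Nat.card N(P) := by
    rw [← card_mul_relIndex' (A := P ⊔ D), j2]
    exact mul_dvd_mul_right (c2 ▸ card_dvd_of_le (le_inf (le_sup_of_le_right le_qpre)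
      (cent_norm (cent_symm (cZ P))))) 2
  have d8 : 2 ^ 3 ∣ Nat.card N(P) := by
    rw [← H18.card_mul_relIndex (le_N (H := P))] at d4 ⊢
    have e : P.relIndex N(P) = 3 ^ m - 1 := by omega
    rw [e] at d4 ⊢
    refine Dvd.dvd.mul_left (eight (Nat.Coprime.dvd_of_dvd_mul_left ?_ d4)) _
    exact ((piNat_pow_self Nat.prime_two 2).coprime p2 :)
  obtain ⟨T, hT, cT⟩ := exists_sub_card_pow Nat.prime_two d8
  have t2 : PiGrp {2} T := by unfold PiGrp; rw [cT]; exact piNat_pow_self Nat.prime_two 3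
  have nc : ¬ Cyc Q := fun c => hQ.ynot (hQ.mem_zpowers_of_commute hQ.ymem (mem_zpowers x)
    (hQ.x_mul_x_ne_one le_rfl) (comm_of_cent c.abel hQ.ymem hQ.xmem))
  obtain ⟨n, w, v, hW⟩ := (hR _ (q2.sup t2 (Or.inr (le_top.trans nQ.norm)))).resolve_left
    fun c => nc (c.of_le le_sup_left)
  have nW : zpowers w ⊴ Q ⊔ T := ⟨hW.zpowers_le, norm_iff.2 fun a ha b hb => hW.conj_mem_zpowers ha hb⟩
  have d2 : ∀ U ≤ Q ⊔ T, (zpowers w).relIndex U = 1 ∨ (zpowers w).relIndex U = 2 := fun U hU =>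
    (Nat.dvd_prime Nat.prime_two).1 (hW.relIndex_eq ▸ nW.relIndex_dvd hU)
  have k2 := (d2 Q le_sup_left).resolve_left fun e => nc (cyc_zpowers.of_le (relIndex_eq_one_iff.1 e))
  have k4 : Nat.card ↥(zpowers w ⊓ Q) = 4 := by
    have := card_mul_relIndex' (A := zpowers w) (B := Q)
    rw [k2, c8] at this; omega
  have k5 : zpowers w ⊓ Q ≤ zpowers w ⊓ T := cyc_zpowers.le_of_card_dvd inf_le_left inf_le_left (by
    have := card_mul_relIndex' (A := zpowers w) (B := T)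
    rw [cT] at this
    rw [k4]
    rcases d2 T le_sup_right with e | e <;> rw [e] at this <;> omega)
  have nPQ : P ≤ N(Q) := le_top.trans nQ.norm
  have k6 : zpowers w ⊓ Q ≤ C(P) := (le_inf inf_le_right (k5.trans (inf_le_right.trans hT))).trans
    ((cop_pi' nPQ p2 q2).inf_N.le.trans inf_le_right)
  exact hPD ((mim_le_iff (nZ _)).1 (mim_cent (cent_idx_two q2 inf_le_right (by
    rw [relIndex_inf_right, k2]) (cyc_zpowers.of_le inf_le_left) p2 nPQ (cent_norm (cent_symm k6)))))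

theorem der_inf (hp : p.Prime) (hs : Solv (⊤ : Subgroup G)) (hO : O[{p}]((⊤ : Subgroup G)) = ⊥)
    (hP : Hall {p} P ⊤) {m : ℕ} (hm : P.relIndex N(P) + 1 = p ^ m)
    (hR : ∀ R : Subgroup G, PiGrp {p}ᶜ R → H16.FC R) : P ⊓ ⁅(⊤ : Subgroup G), ⊤⁆ = ⊥ := by
  have h1 : P ⊓ ⁅(⊤ : Subgroup G), ⊤⁆ ≤ C(F((⊤ : Subgroup G))) := cent_symm (fit_le_of_pcores fun r hr _ => by
    by_cases e : r = p
    · rw [e, hO]; exact bot_le
    have pp : ∀ R : Subgroup G, PiGrp {r} R → PiGrp {p}ᶜ R := fun R h s a b c =>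
      e ((h s a b).symm.trans c)
    refine cent_symm (by_contra fun hn => ?_)
    have nc : ¬ Cyc O[{r}]((⊤ : Subgroup G)) := fun c =>
      hn (inf_le_right.trans (c.der_cent pcore_nml.norm))
    by_cases r2 : r = 2
    · subst r2
      have hR' : ∀ R : Subgroup G, PiGrp {2} R → Cyc R ∨ ∃ n x y, H9.QData R (2 ^ (n + 1)) x y :=
        fun R h => ((hR R (pp R h)).two_group (P := ⊤) (h.isPGroup.to_subgroup _)).imp
          (fun c => by rwa [← cyc_map_subtype, ← MonoidHom.range_eq_map, range_subtype] at c)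
          fun ⟨n, x, y, c⟩ => ⟨n, R.subtype x, R.subtype y, by
            simpa only [← MonoidHom.range_eq_map, range_subtype] using c.map _ R.subtype_injective⟩
      obtain ⟨n, x, y, hQ⟩ := (hR' _ pcore_pi).resolve_left nc
      rcases n with _ | n
      · exact hn (q8 hp (Ne.symm e) hP hm hR' pcore_nml hQ)
      refine hn (inf_le_left.trans (cent_idx_two pcore_pi hQ.zpowers_le hQ.relIndex_eq cyc_zpowers
        (fun s a b c => e (c.symm.trans (hP.pi s a b))) (le_top.trans pcore_nml.norm) fun g _ => ?_))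
      refine mem_N_of_cj_le ?_
      rw [H18.cj_zpowers, zpowers_le]
      by_contra hx
      have := hQ.orderOf_of_notMem (conj_mem pcore_nml.norm (mem_top g) hQ.xmem) hx
      rw [H18.orderOf_conj, hQ.ordx, pow_succ, pow_succ] at this
      have := Nat.pos_of_ne_zero (pow_ne_zero n two_ne_zero)
      omega
    · have := (hR _ (pp _ pcore_pi)).isCyclic_of_odd hr r2 (P := ⊤)
        ((pcore_pi (π := {r}) (H := (⊤ : Subgroup G))).isPGroup.to_subgroup _)
      rw [← cyc_map_subtype, ← MonoidHom.range_eq_map, range_subtype] at this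
      exact nc this)
  rw [eq_bot_iff, ← hO]
  exact le_pcore_of_le_fit ((le_inf le_top h1).trans (cent_sub_Fitting hs)) hP.pi.inf_left

theorem cam_norm {N : Subgroup G} (h : Cam p N) (hP : Hall {p} P ⊤) :
    ∃ m, P.relIndex N(P) + 1 = p ^ m := by
  obtain ⟨a, ha, a1⟩ := exists_mem_ne_one' (hP.pi.meet_cent h.pi (h.nrm P) h.ne)
  have e : ∀ b ∈ N ⊓ C(P), b ≠ 1 → C1(b) = P := fun b hb b1 =>
    hP.eq_of_le (le_C1_iff.2 hb.2) le_top (h.cen b hb.1 b1)
  haveI : Fact p.Prime := ⟨h.pr⟩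
  obtain ⟨m, hm⟩ := (h.pi.inf_left (B := C(P))).isPGroup.exists_card_eq
  refine ⟨m, ?_⟩
  rw [← hm, ← e a ha a1, ← ncard_conj, e a ha a1, ← SetLike.coe_sort_coe, Nat.card_coe_set_eq,
    ← Set.ncard_diff_singleton_add_one (a := 1) (s := ((N ⊓ C(P) : Subgroup G) : Set G)) (one_mem _)]
  congr 2
  ext z
  constructor
  · rintro ⟨o, ho, rfl⟩
    exact ⟨conj_mem_N (norm_inf (h.nrm _) N_le_N_C ho) ha, by simpa using a1⟩
  · rintro ⟨hz, z1⟩
    obtain ⟨c, rfl⟩ := isConj_iff.1 (h.conj a ha.1 z hz.1 a1 z1)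
    refine ⟨c, mem_N_iff_cj.2 ?_, rfl⟩
    rw [← e _ hz z1, ← cj_C1, e a ha a1]
    nth_rw 1 [← e a ha a1]
    rw [cj_C1, e _ hz z1]
end

/-- Let G be a finite solvable group of order greater than 2 with an irreducible character nonzero on exactly two conjugacy classes. Then there is exactly one prime p with O_p(G) ≠ 1, and the quotient G/O_p(G) has a normal p-complement and commutative Sylow p-subgroups. -/
theorem result {G : Type*} [Group G] [Finite G] [hs : Group.IsSolvable G] (hG : 2 < Nat.card G) (χ : Cfsg.IrrCharacter G) (hχ : Nat.card {C : ConjClasses G // ∃ g ∈ C.carrier, (χ : G → ℂ) g ≠ 0} = 2) :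
    ∃ p : ℕ, p.Prime ∧ (∀ q : ℕ, q.Prime → (Cfsg.pCore q G ≠ ⊥ ↔ q = p)) ∧
      Cfsg.HasNormalPComplement p (G ⧸ Cfsg.pCore p G) ∧ ∀ Q : Sylow p (G ⧸ Cfsg.pCore p G), IsMulCommutative (Q : Subgroup (G ⧸ Cfsg.pCore p G)) := by
  obtain ⟨x, h0⟩ := gag_of_card hG χ hχ
  obtain ⟨p, hp, a, b⟩ := h0.elem
  haveI : Fact p.Prime := ⟨hp⟩
  have h := h0.cam hp (Elem.pi' ⟨abel_of_comm a, b⟩ hp).isPGroup
  refine ⟨p, hp, fun q hq => ⟨fun e => ?_, fun e e' => h.ne ?_⟩, ?_⟩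
  · haveI : Fact q.Prime := ⟨hq⟩
    have := h0.le_of_normal _ e h0.x_mem
    rw [pCore_eq hq] at this
    obtain ⟨r, r1, r2, r3⟩ := (pcore_pi.elt this).exists_mem h0.ne
    exact r3.symm.trans (h.pi.elt h0.x_mem r r1 r2)
  · rw [e, pCore_eq hp] at e'
    exact eq_bot_iff.2 (e' ▸ le_pcore h.nml h.pi)
  let f : (⊤ : Subgroup G) →* G ⧸ pCore p G := (QuotientGroup.mk' _).comp (⊤ : Subgroup G).subtype
  have ft : mim f ⊤ = ⊤ := top_le_iff.1 fun z _ => by
    obtain ⟨g, rfl⟩ := QuotientGroup.mk_surjective z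
    exact ⟨⟨g, mem_top g⟩, mem_top g, rfl⟩
  have fk : mker f = O[{p}]((⊤ : Subgroup G)) := by
    ext g
    rw [mem_mker, mfun_of_mem (mem_top g), ← pCore_eq hp]
    simp [f]
  obtain ⟨P, hP⟩ := exists_sylow hp (⊤ : Subgroup G)
  obtain ⟨m, hm⟩ := cam_norm h hP
  have kP : mker f ≤ P := fk ▸ hP.pcore_le
  have hP' : Hall {p} (mim f P) ⊤ := ft ▸ hP.mim le_rfl
  have key := der_inf (m := m) hp solv_of_solv (by
    rw [← ft, ← mim_pcore le_rfl (fk ▸ pcore_pi.inf_right), ← fk, mim_mker]) hP' (by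
    rw [← hm, ← top_inf_eq N(mim f P), ← ft, ← mim_inf_N le_top kP, top_inf_eq,
      relIndex_mim le_N le_top (inf_le_right.trans kP)]) fun R hR => by
    obtain ⟨S, hS⟩ := exists_sd (K := mker f) (L := mpre f R) (nml_mker.of_le mker_le_mpre le_top)
      (by
        rw [← card_mim le_top, mim_mpre (ft ▸ le_top), fk]; exact pcore_pi.coprime hR)
    have e : mim f S = R := by
      rw [← mim_sup_mker le_top, sup_comm, hS.sup, mim_mpre (ft ▸ le_top)]
    have d : S ⊓ mker f = ⊥ := inf_comm S _ ▸ hS.inf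
    have s : PiGrp {p}ᶜ S := by unfold PiGrp; rwa [← card_mim_of_disj le_top d, e]
    exact e ▸ (H16.fc_of_semireg S.subtype (fun g => h.nrm ⊤ (mem_top _)) h.ne fun g hg =>
      h.reg (s.elt g.2) fun e => hg (Subtype.ext e)).of_equiv (mimEquiv f S le_top d).symm
  have hd : PiGrp {p}ᶜ (⁅⊤, ⊤⁆ : Subgroup (G ⧸ pCore p G)) :=
    (key ▸ hP'.inf_nml nml_der).compl_of_eq_bot
  refine ⟨(hasNormalPComplement_top_iff' hp).2 ?_, fun Q => Abel.comm (abel_iff_der.2 ?_)⟩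
  · obtain ⟨K, k1, k2⟩ := (piSep_of_solv (π := {p}ᶜ) solv_of_solv).hall_superset le_top hd
    exact k1.pcore_hall (norm_of_der_le k2 le_top)
  · exact eq_bot_iff.2 ((le_inf der_le (der_mono le_top)).trans
      ((hall_sylow_top hp Q).pi.inf_eq_bot hd).le)

end Cfsg.Agent.S4840
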