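import Cfsg.Statements.S4843
import Cfsg.Agent.H5.Central
import Cfsg.Agent.H1.Fitting

set_option autoImplicit false
open Cfsg

namespace Cfsg.Agent.S4843

open H5 H1 Subgroup
open scoped commutatorElement ComplexConjugate

section
variable {G : Type*} [Group G] [Finite G] {χ : G → ℂ} {k : ℕ}

theorem key (hχ : IsIrrCharacter G χ) (hk : k.Coprime (Nat.card G))
    (hirr : IsIrrCharacter G fun g => χ g * χ (g ^ k)) (N : Subgroup G) [hN : N.Normal] {m : ℕ}
    (hg : ∀ n ∈ N, ∀ y ∈ N, χ ((n ^ m * (y ^ m)⁻¹) ^ k) = χ (n * y⁻¹)) : N ≤ charCenter χ := by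
  classical
  have := Fintype.ofFinite G
  obtain ⟨a, ρ, hρ⟩ := hχ.isCharacter
  obtain ⟨b, σ, hσ⟩ := hχ.isCharacter.pow_arg hk
  have hi : (ρ.tprod σ).IsIrreducible := isIrreducible_of_isIrrCharacter _ (by
    rw [Representation.char_tensor, hρ, hσ]; exact hirr)
  let T : Module.End ℂ (TensorProduct ℂ (Fin a → ℂ) (Fin b → ℂ)) :=
    ∑ n : N, TensorProduct.map (ρ (n : G)⁻¹) (σ ((n : G) ^ m))
  obtain ⟨c, hc⟩ := exists_scalar_of_commute (ρ.tprod σ) T fun g => by
    show T * TensorProduct.map (ρ g) (σ g) = TensorProduct.map (ρ g) (σ g) * T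
    simp only [T, Finset.sum_mul, Finset.mul_sum]
    refine Fintype.sum_equiv (MulAut.conjNormal g⁻¹ : MulAut N).toEquiv _ _ fun n => ?_
    rw [← TensorProduct.map_mul, ← TensorProduct.map_mul, ← map_mul, ← map_mul, ← map_mul, ← map_mul]
    congr 2
    · simp [mul_assoc]
    · simp only [MulEquiv.toEquiv_eq_coe, EquivLike.coe_coe, MulAut.conjNormal_apply, inv_inv]
      rw [show g⁻¹ * n * g = g⁻¹ * n * g⁻¹⁻¹ by simp, conj_pow]; group
  have h1 : ∀ x : G, ∀ y ∈ N, ∑ n : N, χ ((n : G)⁻¹ * x) * χ (n * y⁻¹) = c * (χ x * χ y⁻¹) := fun x y hy => by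
    have e := congrArg (fun f => LinearMap.trace ℂ _ (f * TensorProduct.map (ρ x) (σ (y ^ m)⁻¹))) hc
    simp only [T, Finset.sum_mul, map_sum, smul_mul_assoc, map_smul, ← TensorProduct.map_mul,
      ← map_mul, LinearMap.trace_tensorProduct'] at e
    rw [← Module.End.one_eq_id, one_mul, LinearMap.trace_tensorProduct'] at e
    have e1 : ∀ g, LinearMap.trace ℂ _ (ρ g) = χ g := fun g => congrFun hρ g
    have e2 : ∀ g, LinearMap.trace ℂ _ (σ g) = χ (g ^ k) := fun g => congrFun hσ g
    simp only [e1, e2] at e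
    have e3 := hg 1 N.one_mem y hy
    rw [one_pow, one_mul, one_mul] at e3
    rw [e3] at e
    rw [← smul_eq_mul, ← e]
    exact Finset.sum_congr rfl fun n _ => by rw [hg n n.2 y hy]
  have h0 : c ≠ 0 := by
    rintro rfl
    have e := h1 1 1 N.one_mem
    simp only [mul_one, inv_one, zero_mul, hχ.apply_inv] at e
    have e' : classInner (fun n : N => χ n) (fun n : N => χ n) = 0 := by
      have := card_mul_classInner (fun n : N => χ n) (fun n : N => χ n)
      simp only [mul_comm (χ _) (conj _)] at this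
      exact (mul_eq_zero.1 (this.trans e)).resolve_left card_ne_zero_complex
    exact hχ.apply_one_ne_zero (congrFun ((classInner_self_eq_zero _).1 e') 1)
  intro x hx
  have e : χ x * χ x⁻¹ = χ 1 * χ 1⁻¹ := by
    refine mul_left_cancel₀ h0 ?_
    rw [← h1 x x hx, ← h1 1 1 N.one_mem]
    refine (Fintype.sum_equiv (Equiv.mulRight (⟨x, hx⟩ : N)) _ _ fun n => ?_).symm
    simp only [Equiv.coe_mulRight, coe_mul, mul_inv_rev, mul_one, inv_one, mul_inv_cancel_right]
    rw [hχ.isCharacter.apply_mul_comm _ x, mul_inv_cancel_left]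
  rw [hχ.mem_charCenter]
  rw [hχ.apply_inv, hχ.apply_inv, Complex.mul_conj, Complex.mul_conj, Complex.ofReal_inj,
    Complex.normSq_eq_norm_sq, Complex.normSq_eq_norm_sq] at e
  exact (pow_left_inj₀ (norm_nonneg _) (norm_nonneg _) two_ne_zero).1 e
end

/-- Let G be a finite group with a faithful irreducible character χ (taking the value χ(1) only at the identity) and let k be prime to the order of G, so that g ↦ χ(g^k) is a Galois conjugate of χ. If the pointwise product g ↦ χ(g)·χ(g^k) is again an irreducible character, then the Fitting subgroup of G equals its centre. -/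
theorem result {G : Type*} [Group G] [Finite G] (χ : Cfsg.IrrCharacter G) (hfaith : ∀ g : G, (χ : G → ℂ) g = (χ : G → ℂ) 1 → g = 1) (k : ℕ) (hk : Nat.Coprime k (Nat.card G)) (hirr : Cfsg.IsIrrCharacter G (fun g => (χ : G → ℂ) g * (χ : G → ℂ) (g ^ k))) : Cfsg.fittingSubgroup G = Subgroup.center G := by
  obtain ⟨χ, hχ⟩ := χ
  have hker : charKer χ = ⊥ := eq_bot_iff.2 fun g hg => hfaith g (apply_eq_of_mem_charKer hg)
  have hZ := hχ.charCenter_eq_center hker
  refine le_antisymm ?_ center_le_fitting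
  by_contra hF
  obtain ⟨N, ⟨hN, hNF, hNZ⟩, hmin⟩ := exists_minimal_of_wellFoundedLT
    (fun N : Subgroup G => N.Normal ∧ N ≤ fittingSubgroup G ∧ ¬ N ≤ center G) ⟨_, inferInstance, le_rfl, hF⟩
  obtain ⟨m, hm⟩ : ∃ m, ∀ g : G, g ^ (m * k) = g := by
    obtain ⟨m, hm⟩ := Nat.exists_mul_mod_eq_of_coprime 1 hk Nat.card_pos.ne'
    refine ⟨m, fun g => ?_⟩
    rw [← pow_mod_natCard, mul_comm, hm.2, pow_mod_natCard, pow_one]
  have hle : ∀ A : Subgroup G, A.Normal → A < N → A ≤ center G := fun A hA h => by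
    by_contra h'
    exact h.not_ge (hmin ⟨hA, h.le.trans hNF, h'⟩ h.le)
  have hc : ⁅N, fittingSubgroup G⁆ ≤ center G := hle _ inferInstance
    (commutator_lt_of_isNilpotent hNF le_normalizer_of_normal fun h => hNZ (h ▸ bot_le))
  refine hNZ (hZ ▸ key hχ hk hirr N (m := m) fun n hn y hy => ?_)
  by_cases hab : N ⊓ centralizer (N : Set G) = N
  · have : Commute n y := (mem_centralizer_iff.1 (mem_inf.1 (hab.ge hy)).2 n hn)
    rw [← inv_pow, ← this.inv_right.mul_pow, ← pow_mul, hm]
  have hA := hle _ inferInstance (lt_of_le_of_ne inf_le_left hab)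
  have h0 : ∀ x ∈ N, x ∉ center G → χ x = 0 := fun x hx hxZ => by
    obtain ⟨z, hz, hne⟩ : ∃ z ∈ N, z * x ≠ x * z := by
      by_contra! h
      exact hxZ (hA (mem_inf.2 ⟨hx, mem_centralizer_iff.2 h⟩))
    obtain ⟨c, -, hc'⟩ := hZ.ge (hc (commutator_mem_commutator hz (hNF hx)))
    have e := hc' x
    rw [show ⁅z, x⁆ * x = z * x * z⁻¹ by simp [commutatorElement_def], hχ.isClassFunction] at e
    by_contra h
    have c1 : c = 1 := mul_right_cancel₀ h (by rw [← e, one_mul])
    have := hc' 1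
    rw [mul_one, c1, one_mul] at this
    exact hne (commutatorElement_eq_one_iff_mul_comm.1 (hfaith _ this))
  by_cases hz : n * y⁻¹ ∈ center G
  · have : Commute n y⁻¹ := by
      have := mem_center_iff.1 hz y
      rw [inv_mul_cancel_right, ← mul_assoc, mul_inv_eq_iff_eq_mul] at this
      exact (show Commute n y from this.symm).inv_right
    rw [← inv_pow, ← this.mul_pow, ← pow_mul, hm]
  rw [h0 _ (mul_mem hn (inv_mem hy)) hz, h0 _ (pow_mem (mul_mem (pow_mem hn _) (inv_mem (pow_mem hy _))) _)]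
  intro h
  apply hz
  rw [← QuotientGroup.eq_one_iff] at h ⊢
  have : Commute (n : G ⧸ center G) (y : G ⧸ center G)⁻¹ := by
    refine Commute.inv_right (commutatorElement_eq_one_iff_commute.1 ?_)
    exact (QuotientGroup.eq_one_iff ⁅n, y⁆).2 (hc (commutator_mem_commutator hn (hNF hy)))
  rw [← h, ← hm (n * y⁻¹)]
  simp only [QuotientGroup.mk_pow, QuotientGroup.mk_mul, QuotientGroup.mk_inv]
  rw [pow_mul, this.mul_pow, inv_pow]

end Cfsg.Agent.S4843
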