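import Cfsg.Statements.S4845
import Cfsg.Agent.H8.PDeg
import Cfsg.Agent.H1.Fitting
import Cfsg.Agent.H25.CycIdx

set_option autoImplicit false
open Cfsg

namespace Cfsg.Agent.S4845

open H5 H8 H6 Cfsg
open scoped commutatorElement

theorem idx {G : Type*} [Group G] [Finite G] {p : ℕ} [hp : Fact p.Prime] (hG : IsPGroup p G)
    {χ : G → ℂ} (hχ : IsIrrCharacter G χ) (hk : Nat.card (charKer χ) ∣ p) :
    (Subgroup.center G).index ∣ (charCenter χ).index * p := by
  haveI := hχ.isCharacter.normal_charKer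
  have hle := le_center_of_card_prime hG hk
  obtain ⟨lam, -, hl⟩ := exists_centerHom hχ.apply_one_ne_zero
  haveI : Finite lam.range := Finite.of_surjective _ lam.rangeRestrict_surjective
  obtain ⟨⟨_, w, rfl⟩, hw⟩ := IsCyclic.exists_generator (α := lam.range)
  have hwp : (w : G) ^ p ∈ Subgroup.center G := pow_mem_center_of_comm hle (fun m hm => by
    have := orderOf_dvd_natCard (⟨m, hm⟩ : charKer χ)
    exact congrArg Subtype.val (orderOf_dvd_iff_pow_eq_one.1 (this.trans hk)))
    (hχ.mem_charCenter_iff_commutator.1 w.2)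
  rw [← Subgroup.relIndex_mul_index hχ.center_le_charCenter, mul_comm]
  refine mul_dvd_mul_left _ ?_
  have h1 : (charCenter χ).map (QuotientGroup.mk' (Subgroup.center G)) ≤
      Subgroup.zpowers (QuotientGroup.mk' (Subgroup.center G) w) := by
    rintro _ ⟨z, hz, rfl⟩
    obtain ⟨i, hi⟩ := hw ⟨lam ⟨z, hz⟩, _, rfl⟩
    have h2 : lam (w ^ i) = lam ⟨z, hz⟩ := by rw [map_zpow]; exact congrArg Subtype.val hi
    have h3 := (hl ((w ^ i)⁻¹ * ⟨z, hz⟩)).1 (by rw [map_mul, map_inv, h2, inv_mul_cancel])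
    exact ⟨i, by
      simp only [← map_zpow, QuotientGroup.mk'_apply]
      exact QuotientGroup.eq.2 (hle h3)⟩
  have h4 := Subgroup.relIndex_ker (charCenter χ) (QuotientGroup.mk' (Subgroup.center G))
  rw [QuotientGroup.ker_mk'] at h4
  rw [h4]
  refine (Subgroup.card_dvd_of_le h1).trans ?_
  rw [Nat.card_zpowers, orderOf_dvd_iff_pow_eq_one, ← map_pow, QuotientGroup.mk'_apply,
    QuotientGroup.eq_one_iff]
  exact hwp

def K (G : Type*) [Group G] : Prop := ∀ χ ψ : G → ℂ, IsIrrCharacter G χ → IsIrrCharacter G ψ →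
  charDegree χ ≠ 1 → charDegree χ = charDegree ψ → charKer χ = charKer ψ

theorem K.ker_le {G : Type*} [Group G] [Finite G] (h : K G) {χ : G → ℂ} (hχ : IsIrrCharacter G χ)
    (h1 : charDegree χ ≠ 1) : charKer χ ≤ commutator G := by
  intro g hg
  by_contra hn
  obtain ⟨lam, -, h2⟩ := exists_lin_ne_one le_rfl hn
  have h3 := h χ _ hχ (hχ.mul_hom lam) h1 (charDegree_mul_hom lam).symm
  have h4 := apply_eq_of_mem_charKer (h3 ▸ hg)
  simp only [Pi.mul_apply, apply_eq_of_mem_charKer hg, map_one, Units.val_one, mul_one] at h4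
  exact h2 (Units.ext (mul_left_cancel₀ hχ.apply_one_ne_zero (by rw [h4]; simp)))

theorem dvd_p {G : Type*} [Group G] [Finite G] {p : ℕ} (hp : p.Prime) {A B : Subgroup G}
    (h : A ≤ B) (hne : A ≠ B) (hB : Nat.card B = p ^ 2) : Nat.card A ∣ p := by
  obtain ⟨i, hi, e⟩ := (Nat.dvd_prime_pow hp).1 (hB ▸ Subgroup.card_dvd_of_le h)
  rw [e]
  have : i ≠ 2 := fun e2 => hne (Subgroup.eq_of_le_of_card_ge h (by rw [e, e2, hB]))
  simpa using pow_dvd_pow p (show i ≤ 1 by omega)

theorem sq_eq {p a b z : ℕ} (hp : p.Prime) (h1 : (p ^ a) ^ 2 ∣ z) (h2 : z ∣ (p ^ b) ^ 2 * p) :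
    a ≤ b := by
  have := h1.trans h2
  rw [← pow_mul, ← pow_mul, ← pow_succ, Nat.pow_dvd_pow_iff_le_right hp.one_lt] at this
  omega

universe u in
theorem main {p : ℕ} [hp : Fact p.Prime] (G : Type u) [Group G] [Finite G] :
    IsPGroup p G → commutator G ≠ ⊥ → K G → Nat.card (commutator G) = p := by
  refine H1.card_induction (P := fun G _ _ =>
    IsPGroup p G → commutator G ≠ ⊥ → K G → Nat.card (commutator G) = p) ?_ G
  intro G _ _ ih hG hne hK
  obtain ⟨z, hz1, hz2, hz3⟩ := exists_central_of_normal hG hne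
  set N := Subgroup.zpowers z with hN
  have hNc : Nat.card N = p := by rw [hN, Nat.card_zpowers, hz3]
  have hNZ : N ≤ Subgroup.center G := Subgroup.zpowers_le.2 hz2
  have hNG : N ≤ commutator G := Subgroup.zpowers_le.2 hz1
  have hz0 : z ≠ 1 := fun e => hp.out.ne_one (by rw [← hz3, e, orderOf_one])
  haveI : N.Normal := ⟨fun n hn g => by
    rw [Subgroup.mem_center_iff.1 (hNZ hn) g, mul_inv_cancel_right]; exact hn⟩
  have hmap : (commutator G).map (QuotientGroup.mk' N) = commutator (G ⧸ N) := by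
    rw [commutator_def, commutator_def, Subgroup.map_commutator,
      Subgroup.map_top_of_surjective _ (QuotientGroup.mk'_surjective N)]
  by_cases hab : commutator G ≤ N
  · rw [← hNc, le_antisymm hab hNG]
  exfalso
  have hq := ih (G ⧸ N) (H1.card_quotient_lt (by simpa [hN] using hz0)) (hG.to_quotient N)
    (by rwa [← hmap, Ne, Subgroup.map_eq_bot_iff, QuotientGroup.ker_mk']) (by
      intro χ ψ hχ hψ h1 h2
      have := hK _ _ hχ.inflate hψ.inflate (by rwa [charDegree_congr (ψ := χ) (by simp)])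
        ((charDegree_congr (ψ := χ) (by simp)).trans (h2.trans (charDegree_congr (by simp))))
      rw [show charKer (fun g : G => χ g) = _ from charKer_comp _ (QuotientGroup.mk'_surjective N),
        show charKer (fun g : G => ψ g) = _ from charKer_comp _ (QuotientGroup.mk'_surjective N)]
        at this
      exact Subgroup.comap_injective (QuotientGroup.mk'_surjective N) this)
  have hc : Nat.card (commutator G) = p ^ 2 := by
    have h4 := Subgroup.relIndex_ker (commutator G) (QuotientGroup.mk' N)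
    rw [QuotientGroup.ker_mk', hmap, hq] at h4
    rw [← (N.subgroupOf (commutator G)).card_mul_index, ← Subgroup.relIndex, h4,
      Nat.card_congr (Subgroup.subgroupOfEquivOfLe hNG).toEquiv, hNc, sq]
  have hcm : ∀ y ∈ commutator G, ∀ x, ⁅y, x⁆ ∈ N := by
    intro y hy x
    have := Subgroup.mem_center_iff.1 (le_center_of_card_prime (hG.to_quotient N) (by rw [hq])
      (hmap ▸ Subgroup.mem_map_of_mem _ hy)) (QuotientGroup.mk' N x)
    rw [← QuotientGroup.eq_one_iff, ← QuotientGroup.mk'_apply, map_commutatorElement,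
      commutatorElement_eq_one_iff_mul_comm, this]
  obtain ⟨y, hy, hyN⟩ := SetLike.not_le_iff_exists.1 hab
  obtain ⟨φ, hφ, hφ1, hφ2⟩ := exists_irr_le_charKer_not_mem N hyN
  obtain ⟨χ, hχ, hχ1⟩ := exists_irr_not_mem_charKer hz0
  have hφn := (not_le_ker_iff hφ).1 fun h => hφ2 (h hy)
  have hχn := (not_le_ker_iff hχ).1 fun h => hχ1 (h hz1)
  have hφk := dvd_p hp.out (hK.ker_le hφ hφn) (fun h => hφ2 (h ▸ hy)) hc
  have hχk := dvd_p hp.out (hK.ker_le hχ hχn) (fun h => hχ1 (h ▸ hz1)) hc
  have hφs := deg_sq_of_comm hφ fun g hg =>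
    hφ.mem_charCenter_iff_commutator.2 fun x => hφ1 (hcm g hg x)
  obtain ⟨a, ha⟩ := deg_eq_pow hG hφ
  obtain ⟨b, hb⟩ := deg_eq_pow hG hχ
  have hiφ := idx hG hφ hφk
  have hiχ := idx hG hχ hχk
  suffices a = b by
    have := hK φ χ hφ hχ hφn (by rw [ha, hb, this])
    exact hχ1 (this ▸ hφ1 (Subgroup.mem_zpowers z))
  rw [← hφs, ha] at hiφ
  have hba : b ≤ a := by
    obtain ⟨n, hn⟩ := IsPGroup.iff_card.1 hG
    obtain ⟨c, -, hc⟩ := (Nat.dvd_prime_pow hp.out).1 (hn ▸ (charCenter χ).index_dvd_card)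
    have h1 := hχ.degree_sq_le_index
    rw [hχ.isCharacter.norm_apply_one, hb, hc] at h1
    have h2 : (p ^ b) ^ 2 ≤ p ^ c := by exact_mod_cast h1
    rw [← pow_mul, Nat.pow_le_pow_iff_right hp.out.one_lt] at h2
    refine sq_eq hp.out (dvd_trans ?_ (Subgroup.index_dvd_of_le hχ.center_le_charCenter)) hiφ
    rw [hc, ← pow_mul]; exact pow_dvd_pow p h2
  refine le_antisymm ?_ hba
  by_cases hcl : commutator G ≤ Subgroup.center G
  · have hχs := deg_sq_of_comm hχ (hcl.trans hχ.center_le_charCenter)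
    rw [← hχs, hb] at hiχ
    refine sq_eq hp.out ?_ hiχ
    rw [← ha, hφs]; exact Subgroup.index_dvd_of_le hφ.center_le_charCenter
  have hb0 : b ≠ 0 := fun e => hχn (by rw [hb, e, pow_zero])
  suffices a ≤ 1 by omega
  have hZN : commutator G ⊓ Subgroup.center G ≤ N := by
    rw [Subgroup.eq_of_le_of_card_ge (le_inf hNG hNZ) (by
      rw [hNc]
      exact Nat.le_of_dvd hp.out.pos (dvd_p hp.out inf_le_left
        (fun e => hcl (e ▸ inf_le_right)) hc))]
  set D := Subgroup.centralizer (commutator G : Set G) with hD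
  have hDD : ⁅D, D⁆ ≤ N := by
    refine le_trans (le_inf (Subgroup.commutator_mono le_top le_top) ?_) hZN
    have h1 : ⁅commutator G, D⁆ = ⊥ := by
      rw [Subgroup.commutator_comm]; exact Subgroup.commutator_eq_bot_iff_le_centralizer.2 le_rfl
    have := Subgroup.commutator_commutator_eq_bot_of_rotate (H₁ := D) (H₂ := D) (H₃ := ⊤)
      (eq_bot_iff.2 (h1 ▸ Subgroup.commutator_mono (Subgroup.commutator_mono le_top le_top) le_rfl))
      (eq_bot_iff.2 (h1 ▸ Subgroup.commutator_mono (Subgroup.commutator_mono le_top le_top) le_rfl))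
    rwa [Subgroup.commutator_eq_bot_iff_le_centralizer, Subgroup.coe_top,
      Subgroup.centralizer_univ] at this
  have h5 := deg_dvd_index_of_comm hφ D (hDD.trans hφ1)
  let f : G →* N :=
    { toFun := fun x => ⟨⁅y, x⁆, hcm y hy x⟩
      map_one' := by ext; simp
      map_mul' := fun x w => by
        ext
        have := Subgroup.mem_center_iff.1 (hNZ (hcm y hy w)) x
        calc ⁅y, x * w⁆ = ⁅y, x⁆ * (x * ⁅y, w⁆) * x⁻¹ := by
              simp only [commutatorElement_def]; group
          _ = _ := by rw [this]; simp [mul_assoc] }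
  have h6 : f.ker ≤ D := by
    intro x hx
    have h7 : ⁅y, x⁆ = 1 := congrArg Subtype.val hx
    have h8 : commutator G ≤ N ⊔ Subgroup.zpowers y := by
      have h9 : N ⊔ Subgroup.zpowers y ≤ commutator G := sup_le hNG (Subgroup.zpowers_le.2 hy)
      by_contra h10
      have h11 := dvd_p hp.out h9 (fun e => h10 e.ge) hc
      have h12 := Subgroup.eq_of_le_of_card_ge (le_sup_left : N ≤ N ⊔ Subgroup.zpowers y)
        (by rw [hNc]; exact Nat.le_of_dvd hp.out.pos h11)
      exact hyN (h12 ▸ Subgroup.mem_sup_right (Subgroup.mem_zpowers y))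
    have h9 : N ⊔ Subgroup.zpowers y ≤ Subgroup.centralizer {x} := by
      refine sup_le (hNZ.trans (Subgroup.center_le_centralizer _)) (Subgroup.zpowers_le.2 ?_)
      rw [Subgroup.mem_centralizer_singleton_iff]
      exact commutatorElement_eq_one_iff_mul_comm.1 h7
    intro g hg
    exact Subgroup.mem_centralizer_singleton_iff.1 (h9 (h8 hg))
  have h7 := h5.trans (Subgroup.index_dvd_of_le h6)
  rw [Subgroup.index_ker, ha] at h7
  have h8 := h7.trans (Subgroup.card_subgroup_dvd_card _)
  rw [hNc] at h8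
  rw [← Nat.pow_dvd_pow_iff_le_right hp.out.one_lt, pow_one]; exact h8

/-- Let p be a prime and P a finite non-commutative p-group. Then every two irreducible characters of P of the same degree greater than 1 are Galois conjugate (one is obtained from the other by composing with g ↦ g^k for some k prime to the order of P) if and only if the centre of P is cyclic and the derived subgroup of P has order p. -/
theorem result {P : Type*} [Group P] [Finite P] (p : ℕ) [Fact p.Prime] (hP : IsPGroup p P) (hna : ¬ IsMulCommutative P) :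
    (∀ χ ψ : Cfsg.IrrCharacter P, Cfsg.charDegree (χ : P → ℂ) ≠ 1 → Cfsg.charDegree (χ : P → ℂ) = Cfsg.charDegree (ψ : P → ℂ) → ∃ k : ℕ, Nat.Coprime k (Nat.card P) ∧ ∀ g : P, (ψ : P → ℂ) g = (χ : P → ℂ) (g ^ k)) ↔
      (IsCyclic (Subgroup.center P) ∧ Nat.card (commutator P) = p) := by
  have hp : p.Prime := Fact.out
  have hne : commutator P ≠ ⊥ := fun e => hna ⟨⟨fun a b => by
    rw [← commutatorElement_eq_one_iff_mul_comm, ← Subgroup.mem_bot, ← e]
    exact Subgroup.commutator_mem_commutator trivial trivial⟩⟩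
  have faith : Nat.card (commutator P) = p → ∀ χ, IsIrrCharacter P χ → charDegree χ ≠ 1 →
      charKer χ ⊓ commutator P = ⊥ := by
    intro hc χ hχ h1
    haveI : Fact (Nat.card (commutator P)).Prime := ⟨by rw [hc]; exact hp⟩
    rcases (Subgroup.eq_bot_or_eq_top_of_prime_card ((charKer χ).subgroupOf (commutator P))) with h | h
    · exact disjoint_iff.1 (Subgroup.subgroupOf_eq_bot.1 h)
    · exact absurd (Subgroup.subgroupOf_eq_top.1 h) ((not_le_ker_iff hχ).2 h1)
  constructor
  · intro h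
    have hK : K P := by
      have key : ∀ χ ψ : P → ℂ, IsIrrCharacter P χ → IsIrrCharacter P ψ →
          charDegree χ ≠ 1 → charDegree χ = charDegree ψ → charKer χ ≤ charKer ψ := by
        intro χ ψ hχ hψ h1 h2 g hg
        obtain ⟨k, -, hk⟩ := h ⟨χ, hχ⟩ ⟨ψ, hψ⟩ h1 h2
        simp only at hk
        rw [hψ.mem_charKer, hk g, hk 1, one_pow]
        exact apply_eq_of_mem_charKer (pow_mem hg k)
      exact fun χ ψ hχ hψ h1 h2 => le_antisymm (key χ ψ hχ hψ h1 h2)
        (key ψ χ hψ hχ (h2 ▸ h1) h2.symm)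
    have hc := main P hP hne hK
    refine ⟨?_, hc⟩
    obtain ⟨⟨z, hz⟩, hz0⟩ := Subgroup.ne_bot_iff_exists_ne_one.1 hne
    obtain ⟨χ, hχ, hχ1⟩ := exists_irr_not_mem_charKer (g := z) (by simpa using hz0)
    have hχn := (not_le_ker_iff hχ).1 fun h => hχ1 (h hz)
    have := faith hc χ hχ hχn
    rw [inf_eq_left.2 (hK.ker_le hχ hχn)] at this
    exact hχ.isCyclic_center this
  · rintro ⟨hZ, hc⟩
    have hle : commutator P ≤ Subgroup.center P := le_center_of_card_prime hP (by rw [hc])
    obtain ⟨z, hz⟩ := IsCyclic.exists_generator (α := Subgroup.center P)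
    have hker : ∀ χ, IsIrrCharacter P χ → charDegree χ ≠ 1 → charKer χ = ⊥ := by
      intro χ hχ h1
      by_contra h0
      haveI := hχ.isCharacter.normal_charKer
      obtain ⟨w, hw1, hw2, hw3⟩ := exists_central_of_normal hP h0
      have h2 : (Subgroup.zpowers w).subgroupOf (Subgroup.center P) =
          (commutator P).subgroupOf (Subgroup.center P) := by
        letI : CommGroup (Subgroup.center P) := { (inferInstance : Group (Subgroup.center P)) with
          mul_comm := fun a b => Subtype.ext (Subgroup.mem_center_iff.1 b.2 a) }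
        refine H25.eq_of_card_eq (C := Subgroup.center P) ?_
        rw [Nat.card_congr (Subgroup.subgroupOfEquivOfLe hle).toEquiv,
          Nat.card_congr (Subgroup.subgroupOfEquivOfLe (Subgroup.zpowers_le.2 hw2)).toEquiv,
          Nat.card_zpowers, hw3, hc]
      have h3 : (⟨w, hw2⟩ : Subgroup.center P) ∈ (commutator P).subgroupOf (Subgroup.center P) :=
        h2 ▸ Subgroup.mem_zpowers w
      have h4 : w ∈ charKer χ ⊓ commutator P := ⟨hw1, h3⟩
      rw [faith hc χ hχ h1, Subgroup.mem_bot] at h4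
      exact hp.ne_one (by rw [← hw3, h4, orderOf_one])
    have hlam : ∀ χ, IsIrrCharacter P χ → charDegree χ ≠ 1 →
        (∀ g ∉ Subgroup.center P, χ g = 0) ∧ ∃ c : ℂ, IsPrimitiveRoot c (orderOf z) ∧
          ∀ i : ℕ, χ (z ^ i) = c ^ i * χ 1 := by
      intro χ hχ h1
      have hk := hker χ hχ h1
      have hcz := hχ.charCenter_eq_center hk
      refine ⟨fun g hg => vanish_of_comm hχ (hcz ▸ hle) (hcz ▸ hg), ?_⟩
      obtain ⟨c, hc0, hc⟩ := hχ.center_le_charCenter z.2
      have h2 : ∀ i : ℕ, χ (z ^ i) = c ^ i * χ 1 := by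
        intro i
        induction i with
        | zero => simp
        | succ i ih => rw [pow_succ', hc, ih]; ring
      refine ⟨c, ⟨?_, fun l hl => ?_⟩, h2⟩
      · have := h2 (orderOf z)
        rw [← Subgroup.coe_pow, pow_orderOf_eq_one] at this
        exact mul_right_cancel₀ hχ.apply_one_ne_zero (by rw [← this]; simp)
      · have := hχ.mem_charKer.2 (show χ (z ^ l) = χ 1 by rw [h2, hl, one_mul])
        rw [hk, Subgroup.mem_bot] at this
        exact orderOf_dvd_of_pow_eq_one (Subtype.ext this)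
    intro χ ψ h1 h2
    obtain ⟨v1, c, hc1, hc2⟩ := hlam _ χ.2 h1
    obtain ⟨v2, d, hd1, hd2⟩ := hlam _ ψ.2 (h2 ▸ h1)
    haveI : NeZero (orderOf z) := ⟨(orderOf_pos z).ne'⟩
    obtain ⟨k, -, hk1, rfl⟩ := (hc1.isPrimitiveRoot_iff).1 hd1
    have hpz : p ∣ orderOf z := by
      rw [orderOf_eq_card_of_forall_mem_zpowers hz, ← hc]; exact Subgroup.card_dvd_of_le hle
    obtain ⟨n, hn⟩ := IsPGroup.iff_card.1 hP
    have hcop : k.Coprime (Nat.card P) := by
      rw [hn]; exact (hk1.coprime_dvd_right hpz).pow_right n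
    refine ⟨k, hcop, fun g => ?_⟩
    by_cases hg : g ∈ Subgroup.center P
    · obtain ⟨i, hi⟩ := (mem_powers_iff_mem_zpowers.2 (hz ⟨g, hg⟩) : _ ∈ Submonoid.powers z)
      have : g = (z : P) ^ i := (congrArg Subtype.val hi).symm
      rw [this, ← pow_mul, hd2, hc2, ← pow_mul, mul_comm k, ← ψ.2.coe_charDegree, ← h2,
        χ.2.coe_charDegree]
    · rw [v2 g hg, v1 _ fun h => hg ?_]
      obtain ⟨m, hm⟩ := exists_pow_eq_self_of_coprime (x := g)
        (hcop.coprime_dvd_right (orderOf_dvd_natCard g))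
      rw [← hm]; exact pow_mem h m

end Cfsg.Agent.S4845
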