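import Cfsg.Statements.S4850
import Cfsg.Agent.H2.Van1

set_option autoImplicit false
open Cfsg

open H5

namespace Cfsg.Agent.S4850

/-- Let p be a prime and G a finite solvable group whose vanishing elements (elements at which some irreducible character is zero) of order divisible by p all have the same order, with at least one such element. Let P be a Sylow p-subgroup of G. Then the derived subgroup of P is subnormal in G and the image of P in G/O_p(G) is cyclic. -/
theorem result {G : Type*} [Group G] [Finite G] [hs : Group.IsSolvable G] (p : ℕ) [Fact p.Prime] (b : ℕ) (hvo : {n : ℕ | p ∣ n ∧ ∃ (g : G) (χ : Cfsg.IrrCharacter G), orderOf g = n ∧ (χ : G → ℂ) g = 0} = {b}) (P : Sylow p G) :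
    ((commutator ↥(P : Subgroup G)).map (P : Subgroup G).subtype).IsSubnormal ∧ IsCyclic ↥((P : Subgroup G).map (QuotientGroup.mk' (Cfsg.pCore p G))) := by
  have h := H2.Van.card_map_dvd (p := p) (H2.Van.hyp_of fun x y hx hy dx dy => by
    have key : ∀ x : G, H2.Van.Van x → p ∣ orderOf x → orderOf x = b := by
      rintro x ⟨χ, hχ, h0⟩ hd
      rw [← Set.mem_singleton_iff, ← hvo]
      exact ⟨hd, x, ⟨χ, hχ⟩, rfl, h0⟩
    exact (key x hx dx).trans (key y hy dy).symm) P
  have hc := isCyclic_of_card_dvd_prime h
  refine ⟨.step _ (pCore p G) ?_ (Subgroup.Normal.isSubnormal inferInstance) ?_, hc⟩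
  · rw [Subgroup.map_subtype_commutator, ← QuotientGroup.ker_mk' (pCore p G),
      ← Subgroup.map_eq_bot_iff, Subgroup.map_commutator, Subgroup.commutator_eq_bot_iff_le_centralizer]
    intro x hx y hy
    exact congrArg Subtype.val (hc.isMulCommutative.is_comm.comm (⟨y, hy⟩ : (P : Subgroup G).map _) ⟨x, hx⟩)
  · refine ⟨fun x hx g => ?_⟩
    obtain ⟨y, hy, e⟩ := hx
    exact ⟨_, Subgroup.Normal.conj_mem inferInstance y hy ⟨g, H1.pCore_le_sylow P g.2⟩, by
      simp only [Subgroup.coe_subtype] at e
      simp [e]⟩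

end Cfsg.Agent.S4850
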