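import Cfsg.Statements.S4864
import Cfsg.Agent.H8.RealC

set_option autoImplicit false
open Cfsg

namespace Cfsg.Agent.S4864

open H5 H8

/-- Let p be a prime and G a finite group such that the subgroup generated by the p-elements of G is solvable and every real-valued irreducible complex character of G has degree prime to p. Then the normalizer of a Sylow p-subgroup of G contains an element of every real conjugacy class of G: every element conjugate to its inverse is conjugate to an element of that normalizer. -/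
theorem result {G : Type*} [Group G] [Finite G] (p : ℕ) [Fact p.Prime] (hsolv : Group.IsSolvable ↥(Subgroup.closure {g : G | ∃ k : ℕ, orderOf g = p ^ k})) (hreal : ∀ χ : Cfsg.IrrCharacter G, (∀ g : G, ((χ : G → ℂ) g).im = 0) → ¬ p ∣ Cfsg.charDegree (χ : G → ℂ)) (P : Sylow p G) (x : G) (hx : IsConj x x⁻¹) : ∃ y ∈ Subgroup.normalizer ((P : Subgroup G) : Set G), IsConj x y := by
  have := Fintype.ofFinite G
  have h : ∀ χ, IsIrrCharacter G χ → (fun g => starRingEnd ℂ (χ g)) = χ → ¬ p ∣ charDegree χ :=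
    fun χ hχ hr => hreal ⟨χ, hχ⟩ (conj_eq_self_iff_im.1 hr)
  obtain ⟨Q, h1, h2, h3, h4⟩ := exists_normal_sylow_pGen hsolv h
  have := Fintype.ofFinite (G ⧸ Q)
  have hπ := QuotientGroup.mk'_surjective Q
  haveI := (instNormalPGen 2 G).map _ hπ
  obtain ⟨y, hy, h5⟩ := exists_conj_mem_normalizer (K := (pGen 2 G).map (QuotientGroup.mk' Q))
    (odd_index_pGen.of_dvd_nat (Subgroup.index_map_dvd _ hπ)) (by
      rwa [← Subgroup.relIndex_ker, QuotientGroup.ker_mk']) (P.mapSurjective hπ) (fun χ hχ hr => by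
      rw [← charDegree_inflate]
      exact h _ hχ.inflate (funext fun g => congrFun hr g)) ((QuotientGroup.mk' Q).map_isConj hx)
  obtain ⟨g, rfl⟩ := isConj_iff.1 h5
  obtain ⟨g, rfl⟩ := hπ g
  refine ⟨g * x * g⁻¹, H1.mem_normalizer_of_conj_mem fun a ha => ?_, isConj_iff.2 ⟨g, rfl⟩⟩
  have h6 := (conj_mem_iff_of_normalizer hy _).2 (Subgroup.mem_map_of_mem (QuotientGroup.mk' Q) ha)
  have h7 : g * x * g⁻¹ * a * (g * x * g⁻¹)⁻¹ ∈
      ((P : Subgroup G).map (QuotientGroup.mk' Q)).comap (QuotientGroup.mk' Q) := h6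
  rwa [Subgroup.comap_map_eq, QuotientGroup.ker_mk', sup_eq_left.2 (h3.le_sylow_of_normal P)] at h7

end Cfsg.Agent.S4864
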