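import Cfsg.Statements.S4866
import Cfsg.Agent.H8.RealC

set_option autoImplicit false
open Cfsg

namespace Cfsg.Agent.S4866

open H5 H8

/-- Let K be a normal subgroup of odd index in the finite group G. Then G has as many orbits on the real-valued irreducible complex characters of K (acting by conjugation) as it has orbits on the conjugacy classes of K that are real in K; equivalently, the number of G-orbits of real-valued irreducible characters of K equals the number of G-conjugacy classes of elements of K that are conjugate in K to their inverses. -/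
theorem result {G : Type*} [Group G] [Finite G] (K : Subgroup G) [K.Normal] (hodd : Odd K.index) : Nat.card (Quot (fun θ η : {θ : Cfsg.IrrCharacter ↥K // (∀ k : ↥K, ((θ : ↥K → ℂ) k).im = 0)} => ∃ g : G, ∀ k k' : ↥K, (k' : G) = g * (k : G) * g⁻¹ → (η.1 : ↥K → ℂ) k' = (θ.1 : ↥K → ℂ) k)) = Nat.card (Quot (fun x y : {x : ↥K // IsConj x x⁻¹} => ∃ g : G, (y.1 : G) = g * x.1 * g⁻¹)) := by
  letI aX : MulAction G {θ : IrrCharacter ↥K // (∀ k : ↥K, ((θ : ↥K → ℂ) k).im = 0)} :=
    { smul := fun g θ => ⟨⟨H6.cj θ.1.1 g⁻¹, H6.isIrr_cj θ.1.2 _⟩, fun k => θ.2 _⟩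
      one_smul := fun θ => Subtype.ext (Subtype.ext (show H6.cj θ.1.1 1⁻¹ = θ.1.1 by rw [inv_one, H6.cj_one]))
      mul_smul := fun g h θ => Subtype.ext (Subtype.ext (show H6.cj θ.1.1 (g * h)⁻¹ =
        H6.cj (H6.cj θ.1.1 h⁻¹) g⁻¹ by rw [mul_inv_rev, H6.cj_mul])) }
  have hre : ∀ {x : K}, IsConj x x⁻¹ → ∀ y, ConjClasses.mk y = ConjClasses.mk x → IsConj y y⁻¹ :=
    fun hx y hy => by
      have h3 := ConjClasses.mk_eq_mk_iff_isConj.1 hy
      exact h3.trans (hx.trans (isConj_inv_inv2 h3.symm))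
  letI aY : MulAction G {C : ConjClasses K // ∀ x, ConjClasses.mk x = C → IsConj x x⁻¹} :=
    { smul := fun g C => ⟨C.1.map (MulAut.conjNormal g : MulAut K).toMonoidHom, by
        obtain ⟨C, hC⟩ := C
        obtain ⟨c, rfl⟩ := ConjClasses.mk_surjective C
        exact hre (map_inv (MulAut.conjNormal g : MulAut K).toMonoidHom c ▸
          (MulAut.conjNormal g : MulAut K).toMonoidHom.map_isConj (hC c rfl))⟩
      one_smul := fun ⟨C, hC⟩ => Subtype.ext (by
        obtain ⟨c, rfl⟩ := ConjClasses.mk_surjective C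
        change ConjClasses.mk (MulAut.conjNormal 1 c) = _
        simp)
      mul_smul := fun g h ⟨C, hC⟩ => Subtype.ext (by
        obtain ⟨c, rfl⟩ := ConjClasses.mk_surjective C
        change ConjClasses.mk (MulAut.conjNormal (g * h) c) =
          ConjClasses.mk (MulAut.conjNormal g (MulAut.conjNormal h c))
        simp) }
  have h1 := card_orbits_eq_of_fixed (Γ := G) (X := {θ : IrrCharacter ↥K // (∀ k : ↥K, ((θ : ↥K → ℂ) k).im = 0)})
    (Y := {C : ConjClasses K // ∀ x, ConjClasses.mk x = C → IsConj x x⁻¹}) fun g => by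
      refine Eq.trans ?_ ((card_fixed_real K hodd g).trans ?_)
      · refine Nat.card_congr ((Equiv.subtypeSubtypeEquivSubtypeExists _ _).trans
          (Equiv.subtypeEquivRight fun θ => ?_))
        rw [conj_eq_self_iff_im]
        refine ⟨fun ⟨h1, h2⟩ => ⟨h1, ?_⟩, fun ⟨h1, h2⟩ => ⟨h1, Subtype.ext (Subtype.ext ?_)⟩⟩
        · have h3 : H6.cj θ.1 g⁻¹ = θ.1 := congrArg (fun x => x.1.1) h2
          exact (H6.inertia θ.1).inv_mem_iff.1 h3
        · exact (H6.inertia θ.1).inv_mem h2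
      · refine Nat.card_congr ((Equiv.subtypeSubtypeEquivSubtypeExists _ _).trans
          (Equiv.subtypeEquivRight fun C => ?_)).symm
        exact ⟨fun ⟨h1, h2⟩ => ⟨h1, congrArg Subtype.val h2⟩, fun ⟨h1, h2⟩ => ⟨h1, Subtype.ext h2⟩⟩
  refine Eq.trans (Nat.card_congr (Quot.congrRight fun θ η => ?_)) (h1.trans (Nat.card_congr
    (Equiv.ofBijective (Quot.lift (fun x => Quotient.mk _ ⟨ConjClasses.mk x.1, hre x.2⟩) ?_) ⟨?_, ?_⟩).symm))
  · change _ ↔ θ ∈ MulAction.orbit G η
    refine ⟨fun ⟨g, hg⟩ => ⟨g⁻¹, Subtype.ext (Subtype.ext (funext fun k => ?_))⟩, fun ⟨g, hg⟩ => ⟨g⁻¹, ?_⟩⟩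
    · exact hg k _ (by simp)
    · intro k k' e
      rw [← hg]
      exact congrArg η.1.1 (Subtype.ext e)
  · rintro x y ⟨g, hg⟩
    refine Quotient.sound (MulAction.orbitRel_apply.2 ⟨g⁻¹, Subtype.ext ?_⟩)
    change ConjClasses.mk (MulAut.conjNormal g⁻¹ y.1) = ConjClasses.mk x.1
    congr 1
    refine Subtype.ext ?_
    simp [hg, mul_assoc]
  · intro a b
    induction' a using Quot.ind with x
    induction' b using Quot.ind with y
    intro e
    obtain ⟨g, hg⟩ := MulAction.orbitRel_apply.1 (Quotient.exact e)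
    have h2 : ConjClasses.mk (MulAut.conjNormal g y.1) = ConjClasses.mk x.1 := congrArg Subtype.val hg
    obtain ⟨k, hk⟩ := isConj_iff.1 (ConjClasses.mk_eq_mk_iff_isConj.1 h2)
    refine (Quot.sound ⟨k * g, ?_⟩).symm
    rw [← hk]; simp [mul_assoc]
  · intro c
    induction' c using Quotient.ind with c
    obtain ⟨c, hc⟩ := c
    obtain ⟨x, rfl⟩ := ConjClasses.mk_surjective c
    exact ⟨Quot.mk _ ⟨x, hc x rfl⟩, rfl⟩

end Cfsg.Agent.S4866
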