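import Cfsg.Statements.S4870
import Cfsg.Agent.H8.Real2

set_option autoImplicit false
open Cfsg

namespace Cfsg.Agent.S4870

open H5 H6 H8

/-- Let G be a finite group with a non-abelian minimal normal subgroup N, and let φ be an irreducible complex character of N with stabilizer I in G (the elements g with φ(g n g⁻¹) = φ(n) for all n ∈ N) such that φ extends to an irreducible character of I. Put d = φ(1)·[G : I]. Then the number of linear characters of G is at most [G : I] times the number of irreducible characters of G of degree d. -/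
theorem result {G : Type*} [Group G] [Finite G] (N : Subgroup G) (hN : N.Normal) (hN1 : N ≠ ⊥) (hmin : ∀ M : Subgroup G, M.Normal → M ≤ N → M = ⊥ ∨ M = N) (hna : ¬ IsMulCommutative ↥N) (φ : Cfsg.IrrCharacter ↥N) (I : Subgroup G) (hI : ∀ g : G, g ∈ I ↔ ∀ n n' : ↥N, (n' : G) = g * (n : G) * g⁻¹ → (φ : ↥N → ℂ) n' = (φ : ↥N → ℂ) n) (hNI : N ≤ I) (hext : ∃ ψ : Cfsg.IrrCharacter ↥I, ∀ n : ↥N, (ψ : ↥I → ℂ) (Subgroup.inclusion hNI n) = (φ : ↥N → ℂ) n) : Nat.card {χ : Cfsg.IrrCharacter G // Cfsg.charDegree (χ : G → ℂ) = 1} ≤ I.index * Nat.card {χ : Cfsg.IrrCharacter G // Cfsg.charDegree (χ : G → ℂ) = Cfsg.charDegree (φ : ↥N → ℂ) * I.index} := by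
  have := Fintype.ofFinite G
  have := Fintype.ofFinite N
  obtain ⟨ψ, hψ⟩ := hext
  have hle : inertia φ.1 ≤ I := fun g hg => (hI g).mpr fun n n' e => by
    rw [← mem_inertia'.mp hg n]; exact congrArg φ.1 (Subtype.ext e)
  have hψ' : ∀ n : N, ψ.1 ⟨n, hNI n.2⟩ = φ.1 n := hψ
  obtain ⟨h1, -⟩ := corr_irr φ.2 hle hNI ψ.2 (by
    rw [funext hψ', φ.2.classInner_self]; exact one_ne_zero)
  have hl : ∀ l : IrrCharacter G, charDegree l.1 = 1 → l.1 1 = 1 := fun l h =>
    l.2.isCharacter.charDegree_eq_one_iff.mp h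
  have hlN : ∀ l : IrrCharacter G, charDegree l.1 = 1 → ∀ n : N, l.1 n = 1 := fun l h n => by
    rw [← hl l h]
    exact apply_eq_of_mem_charKer (l.2.commutator_le_charKer_iff.mpr (hl l h)
      (le_commutator_of_min hN hmin hna n.2))
  refine card_lin_le_mul h1 {χ | charDegree χ.1 = 1}
    {χ | charDegree χ.1 = charDegree φ.1 * I.index} I hl (fun l h χ e => ?_)
    fun l h m h' e => res_eq_of_mul_ind φ.2 hle hNI ψ.2 hψ' l.2.isCharacter (hlN l h)
      m.2.isCharacter (hlN m h') e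
  refine charDegree_eq_of_apply_one ?_
  rw [e, Pi.mul_apply, hl l h, indFun_apply_one, Nat.cast_mul, φ.2.coe_charDegree, ← hψ' 1,
    mul_one, mul_comm]
  rfl

end Cfsg.Agent.S4870
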