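import Cfsg.Statements.S4871
import Cfsg.Agent.H8.Ito

set_option autoImplicit false
open Cfsg

namespace Cfsg.Agent.S4871

open H5 H6 H8
open scoped commutatorElement

/-- Let G be a finite group that is the semidirect product of a normal elementary abelian subgroup N of odd order by a non-trivial 2-subgroup P, with N the unique minimal normal subgroup of G. Consider the strongly real irreducible complex characters of G (Frobenius–Schur indicator +1) whose degree is 1 or even. Then their average degree is at least 4/3: four times their number is at most three times the sum of their degrees. -/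
theorem result {G : Type*} [Group G] [Finite G] (N P : Subgroup G) (hN : N.Normal) (q : ℕ) [Fact q.Prime] (hq : q ≠ 2) (hNel : Cfsg.IsElementaryAbelian q N) (hP : IsPGroup 2 ↥P) (hP1 : P ≠ ⊥) (hdisj : N ⊓ P = ⊥) (hprod : N ⊔ P = ⊤) (hmin : N ≠ ⊥ ∧ ∀ M : Subgroup G, M.Normal → M ≠ ⊥ → N ≤ M) : 4 * Nat.card {χ : Cfsg.IrrCharacter G // (Cfsg.charDegree (χ : G → ℂ) = 1 ∨ 2 ∣ Cfsg.charDegree (χ : G → ℂ)) ∧ (Nat.card G : ℂ)⁻¹ * ∑ᶠ g : G, (χ : G → ℂ) (g * g) = 1} ≤ 3 * (∑ᶠ χ : {χ : Cfsg.IrrCharacter G // (Cfsg.charDegree (χ : G → ℂ) = 1 ∨ 2 ∣ Cfsg.charDegree (χ : G → ℂ)) ∧ (Nat.card G : ℂ)⁻¹ * ∑ᶠ g : G, (χ : G → ℂ) (g * g) = 1}, Cfsg.charDegree (χ.1 : G → ℂ)) := by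
  classical
  have := Fintype.ofFinite G
  have := Fintype.ofFinite N
  have hq' : q.Prime := Fact.out
  haveI : Fact (Nat.Prime 2) := ⟨Nat.prime_two⟩
  have hcomp : Subgroup.IsComplement' N P := H1.isComplement'_iff_of_normal.2 ⟨hdisj, hprod⟩
  obtain ⟨s, hs, h1⟩ : ∃ s ∈ P, s ∉ Subgroup.centralizer (N : Set G) := by
    by_contra h
    push Not at h
    have h1 := normal_inf_of_sup (C := Subgroup.centralizer (N : Set G)) le_rfl hprod
    rw [inf_eq_right.2 h] at h1
    exact hmin.1 (hdisj ▸ (inf_eq_left.2 (hmin.2 P h1 hP1)).symm)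
  have hNc : N ≤ commutator G := hmin.2 _ inferInstance fun h => h1 fun n _ => by
    have : ⁅n, s⁆ ∈ commutator G := Subgroup.commutator_mem_commutator (Subgroup.mem_top _) (Subgroup.mem_top _)
    rw [h] at this
    exact commutatorElement_eq_one_iff_mul_comm.1 this
  obtain ⟨k, hk⟩ := hP ⟨s, hs⟩
  have hk' : s ^ 2 ^ k = 1 := congrArg Subtype.val hk
  obtain ⟨j, h2, h3⟩ := exists_pow_sq_mem (k := k) (hk' ▸ Subgroup.one_mem _) h1
  obtain ⟨μ, m1, m2, m3, m4⟩ := exists_lin_inverted hNel.1 h2 h3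
  obtain ⟨χ, hχ, c1, c2⟩ := exists_real_over_compl hcomp m1 m2 m4
  have hμ := m1.isIrr_of_apply_one m2
  have hNI := le_inertia hμ.isClassFunction
  have hd : χ 1 = (inertia μ).index := by
    rw [clifford_degree hχ hμ (c1 ▸ one_ne_zero), c1, m2, one_mul, mul_one]
  have h2d : 2 ∣ (inertia μ).index := by
    obtain ⟨a, ha⟩ := hP.exists_card_eq
    obtain ⟨i, -, hi⟩ := (Nat.dvd_prime_pow Nat.prime_two).1
      (ha ▸ hcomp.symm.index_eq_card ▸ Subgroup.index_dvd_of_le hNI)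
    rcases i with _ | i
    · obtain ⟨b, hb⟩ := (H1.isPGroup_of_pow_eq_one hNel.2).exists_card_eq
      refine absurd (hμ.eq_one_of_real_of_odd (hb ▸ (hq'.odd_of_ne_two hq).pow) ?_) m3
      rw [m4, ← mem_inertia, Subgroup.index_eq_one.1 hi]; trivial
    · exact hi ▸ Dvd.intro_left _ (pow_succ 2 i).symm
  obtain ⟨ψ, hψ, e1, e2⟩ := corr_surj hμ le_rfl hNI hχ (c1 ▸ one_ne_zero)
  have hext : ∀ n : N, ψ ⟨n, hNI n.2⟩ = μ n := by
    refine congrFun (eq_of_constituent_of_apply_one (isCharacter_resLe hNI hψ.isCharacter) hμ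
      (by rw [e2, c1]; exact one_ne_zero) ?_)
    have h4 := ind_one (inertia μ) ψ
    rw [e1, hd] at h4
    rw [m2]
    exact (mul_eq_left₀ (Nat.cast_ne_zero.2 (inertia μ).index_ne_zero_of_finite)).1 h4.symm
  have hlN : ∀ l : IrrCharacter G, l.1 1 = 1 → ∀ n : N, l.1 n = 1 := fun l h n => by
    rw [← h]
    exact apply_eq_of_mem_charKer (l.2.commutator_le_charKer_iff.mpr h (hNc n.2))
  set d := (inertia μ).index with hdd
  have hle := card_lin_le_mul hχ {l | l.1 1 = 1 ∧ fsInd l.1 = 1} {ψ | charDegree ψ.1 = d ∧ fsInd ψ.1 = 1}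
    (inertia μ) (fun l h => h.1) (fun l h ξ e => ⟨charDegree_eq_of_apply_one (by
      rw [e, Pi.mul_apply, h.1, hd, mul_one]), by
      rw [e, fsInd_mul_lin χ (sq_eq_one_of_fs l.2 h.1 (h.2 ▸ one_ne_zero)), c2]⟩)
    fun l h m h' e => res_eq_of_mul_ind hμ le_rfl hNI hψ hext l.2.isCharacter (hlN l h.1)
      m.2.isCharacter (hlN m h'.1) (e1 ▸ e)
  have hd2 : 2 ≤ d := Nat.le_of_dvd (Nat.pos_of_ne_zero (inertia μ).index_ne_zero_of_finite) h2d
  simp only [finsum_eq_sum_of_fintype]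
  rw [← Finset.sum_subtype (Finset.univ.filter fun χ : IrrCharacter G => (charDegree χ.1 = 1 ∨ 2 ∣ charDegree χ.1) ∧
    fsInd χ.1 = 1) (fun χ => by simp [fsInd, finsum_eq_sum_of_fintype]) fun χ => charDegree χ.1,
    Nat.subtype_card (Finset.univ.filter fun χ : IrrCharacter G => (charDegree χ.1 = 1 ∨ 2 ∣ charDegree χ.1) ∧
    fsInd χ.1 = 1) (fun χ => by simp [fsInd, finsum_eq_sum_of_fintype])]
  set S := Finset.univ.filter fun χ : IrrCharacter G => (charDegree χ.1 = 1 ∨ 2 ∣ charDegree χ.1) ∧ fsInd χ.1 = 1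
  have e3 := Nat.subtype_card (S.filter fun χ => charDegree χ.1 = 1)
    (p := fun l => l ∈ {l : IrrCharacter G | l.1 1 = 1 ∧ fsInd l.1 = 1}) fun χ => by
      simp only [S, Finset.mem_filter, Finset.mem_univ, true_and, Set.mem_ofPred_eq,
        ← χ.2.isCharacter.charDegree_eq_one_iff]
      tauto
  have e4 := Nat.subtype_card (S.filter fun χ => charDegree χ.1 = d)
    (p := fun l => l ∈ {ψ : IrrCharacter G | charDegree ψ.1 = d ∧ fsInd ψ.1 = 1}) fun χ => by
      simp only [S, Finset.mem_filter, Finset.mem_univ, true_and, Set.mem_ofPred_eq]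
      exact ⟨fun h => ⟨h.2, h.1.2⟩, fun h => ⟨⟨Or.inr (h.1 ▸ h2d), h.2⟩, h.1⟩⟩
  rw [show Nat.card _ = _ from e3, show Nat.card _ = _ from e4, Finset.card_filter, Finset.card_filter,
    Finset.mul_sum, ← hdd] at hle
  have h5 : ∑ χ ∈ S, (4 + d * if charDegree χ.1 = d then 1 else 0) ≤
      ∑ χ ∈ S, (3 * charDegree χ.1 + if charDegree χ.1 = 1 then 1 else 0) := Finset.sum_le_sum fun χ hχ => by
    have := χ.2.charDegree_pos
    split_ifs <;> omega
  rw [Finset.sum_add_distrib, Finset.sum_add_distrib, ← Finset.mul_sum _ _ 3, Finset.sum_const, smul_eq_mul] at h5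
  omega

end Cfsg.Agent.S4871
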