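import Cfsg.Statements.S4872
import Cfsg.Agent.H8.Real3
import Cfsg.Agent.H6.BrauerApp

set_option autoImplicit false
open Cfsg

namespace Cfsg.Agent.S4872

open H5 H6 H8

/-- Let N be a normal subgroup of the finite group G with G/N a 2-group, and let φ be an irreducible complex character of N of 2-defect zero (the 2-part of #N divides φ(1)) whose complex conjugate is G-conjugate to φ. Then some irreducible character of G with Frobenius–Schur indicator +1 contains φ with multiplicity exactly one on restriction to N. -/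
theorem result {G : Type*} [Group G] [Finite G] (N : Subgroup G) [N.Normal] (h2 : IsPGroup 2 (G ⧸ N)) (φ : Cfsg.IrrCharacter ↥N) (hdef : 2 ^ (Nat.card ↥N).factorization 2 ∣ Cfsg.charDegree (φ : ↥N → ℂ)) (hconj : ∃ g : G, ∀ n n' : ↥N, (n' : G) = g * (n : G) * g⁻¹ → (φ : ↥N → ℂ) n' = (starRingEnd ℂ) ((φ : ↥N → ℂ) n)) : ∃ χ : Cfsg.IrrCharacter G, (Nat.card G : ℂ)⁻¹ * ∑ᶠ g : G, (χ : G → ℂ) (g * g) = 1 ∧ (Nat.card ↥N : ℂ)⁻¹ * ∑ᶠ n : ↥N, (χ : G → ℂ) n * (starRingEnd ℂ) ((φ : ↥N → ℂ) n) = 1 := by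
  have := Fintype.ofFinite G
  have := Fintype.ofFinite N
  haveI : Fact (Nat.Prime 2) := ⟨Nat.prime_two⟩
  obtain ⟨t, ht⟩ := hconj
  have ht' : (fun n => starRingEnd ℂ (φ.1 n)) = cj φ.1 t := funext fun n => (ht n _ rfl).symm
  obtain ⟨S⟩ : Nonempty (Sylow 2 G) := inferInstance
  have := Fintype.ofFinite S
  have := Fintype.ofFinite (N.subgroupOf S)
  obtain ⟨j, hj⟩ := h2.exists_card_eq
  have hj' : N.index = 2 ^ j := hj
  have htop : N ⊔ (S : Subgroup G) = ⊤ := by
    rw [← Subgroup.index_eq_one]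
    obtain ⟨i, -, hi⟩ := (Nat.dvd_prime_pow Nat.prime_two).1
      (hj' ▸ Subgroup.index_dvd_of_le (le_sup_left : N ≤ N ⊔ (S : Subgroup G)))
    rcases i with _ | i
    · exact hi
    · refine absurd (Dvd.dvd.trans ?_ (Subgroup.index_dvd_of_le (le_sup_right : _ ≤ N ⊔ _))) S.not_dvd_index
      exact hi ▸ Dvd.intro_left _ (pow_succ 2 i).symm
  obtain ⟨c, hc⟩ := (S.isPGroup'.to_subgroup (N.subgroupOf S)).exists_card_eq
  have hN : Nat.card N = 2 ^ c * (S : Subgroup G).index := by
    have h1 := (N.subgroupOf S).card_mul_index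
    have h3 : (N.subgroupOf S).index = N.index := by
      rw [← N.relIndex_top_right, ← htop, Subgroup.relIndex_sup_left]; rfl
    have h4 := N.card_mul_index
    rw [← (S : Subgroup G).card_mul_index, ← h1, h3, hc] at h4
    exact Nat.eq_of_mul_eq_mul_right (Nat.pos_of_ne_zero N.index_ne_zero_of_finite) (h4.trans (by ring))
  have hd : 2 ^ c ∣ charDegree φ.1 := (pow_dvd_pow 2 ((Nat.prime_two.pow_dvd_iff_le_factorization
    Nat.card_pos.ne').1 (Dvd.intro _ hN.symm))).trans hdef
  obtain ⟨k, hk⟩ := id hd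
  have hko : Odd k := by
    have h1 := φ.2.charDegree_dvd_card
    rw [hk, hN] at h1
    rw [← Nat.not_even_iff_odd, even_iff_two_dvd]
    exact fun h3 => S.not_dvd_index (h3.trans (Nat.dvd_of_mul_dvd_mul_left (by positivity) h1))
  have hΛ := isCharacter_ind N φ.2.isCharacter
  obtain ⟨χ, hχ, h3, m, h4, h5⟩ := exists_real_odd (S : Subgroup G).subtype hΛ
    (by rw [← ind_conj, ht', ind_cj]) hko (by
      have h3 := res_ind_of_mul_eq N S (fun g => by
        obtain ⟨n, hn, s, hs, e⟩ := Subgroup.mem_sup_of_normal_left.1 (htop ▸ Subgroup.mem_top g)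
        exact ⟨n, hn, s, hs, e.symm⟩) φ.2.isClassFunction
      refine (congrArg (classInner · _) h3).trans ?_
      rw [inner_ind_left _ _ (isClassFunction_const 1), classInner_one_right, Finset.sum_eq_single 1, hc]
      · have : φ.1 1 = 2 ^ c * k := by rw [← φ.2.coe_charDegree, hk]; push_cast; rfl
        change _ * φ.1 1 = _
        rw [this]; push_cast; field_simp
      · intro x _ hx
        refine defect_zero_vanish Nat.prime_two hN S.not_dvd_index φ.2 hd ?_
        obtain ⟨i, hi⟩ := IsPGroup.iff_orderOf.1 (S.isPGroup'.to_subgroup (N.subgroupOf S)) x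
        rw [Subgroup.orderOf_mk, Subgroup.orderOf_coe, Subgroup.orderOf_coe, hi]
        rcases i with _ | i
        · exact absurd (orderOf_eq_one_iff.1 hi) hx
        · exact Dvd.intro_left _ (pow_succ 2 i).symm
      · simp)
  rw [hΛ.classInner_comm hχ.isCharacter, inner_ind_right _ _ hχ.isClassFunction] at h5
  have h6 : classInner (fun n : N => χ n) φ.1 ≠ 0 := by rw [h5]; exact_mod_cast h4.pos.ne'
  obtain ⟨b, hb, h7⟩ := degree_ratio_dvd φ.2 hχ h6
  have h8 := clifford_degree hχ φ.2 h6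
  rw [h7, h5] at h8
  have h9 : b = m * (inertia φ.1).index := by exact_mod_cast mul_right_cancel₀ φ.2.apply_one_ne_zero h8
  have h10 : m = 1 := Nat.eq_one_of_dvd_coprimes ((Nat.coprime_two_left.2 h4).pow_left j)
    (hj' ▸ (Dvd.intro _ h9.symm).trans hb) dvd_rfl
  refine ⟨⟨χ, hχ⟩, ?_, ?_⟩
  · rw [finsum_eq_sum_of_fintype]; exact h3
  · rw [finsum_eq_sum_of_fintype]; rw [h10, Nat.cast_one] at h5; exact h5

end Cfsg.Agent.S4872
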