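import Cfsg.Statements.S4873
import Cfsg.Agent.H8.Real2

set_option autoImplicit false
open Cfsg

namespace Cfsg.Agent.S4873

open H5 H6 H8

/-- Let N be a normal subgroup of odd index in the finite group G. Then every irreducible complex character of N with Frobenius–Schur indicator +1 lies under exactly one irreducible character of G with Frobenius–Schur indicator +1. -/
theorem result {G : Type*} [Group G] [Finite G] (N : Subgroup G) [N.Normal] (hodd : Odd N.index) (φ : Cfsg.IrrCharacter ↥N) (hφ : (Nat.card ↥N : ℂ)⁻¹ * ∑ᶠ g : ↥N, (φ : ↥N → ℂ) (g * g) = 1) : ∃! χ : Cfsg.IrrCharacter G, (Nat.card G : ℂ)⁻¹ * ∑ᶠ g : G, (χ : G → ℂ) (g * g) = 1 ∧ (∑ᶠ n : ↥N, (χ : G → ℂ) n * (starRingEnd ℂ) ((φ : ↥N → ℂ) n)) ≠ 0 := by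
  have := Fintype.ofFinite G
  have := Fintype.ofFinite N
  simp only [finsum_eq_sum_of_fintype] at hφ ⊢
  have hφ' : fsInd φ.1 = 1 := hφ
  have hr := real_of_fs φ.2 (hφ' ▸ one_ne_zero)
  obtain ⟨χ, h1, h2, h3, -, h5⟩ := existsUnique_real_over hodd φ.2 hr
  have hc := card_ne_zero_complex (G := N)
  refine ⟨⟨χ, h1⟩, ⟨(fsInd_eq_of_inner_one h1 h3 N.subtype φ.2 hr h2).trans hφ', ?_⟩, ?_⟩
  · have := card_mul_classInner (fun n : N => χ n) φ.1
    rw [h2, mul_one] at this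
    exact this ▸ hc
  · rintro ψ ⟨a, b⟩
    have a' : fsInd ψ.1 = 1 := a
    refine Subtype.ext (h5 _ ψ.2 (fun h0 => b ?_) (real_of_fs ψ.2 (a' ▸ one_ne_zero)))
    rw [← card_mul_classInner (fun n : N => ψ.1 n) φ.1, h0, mul_zero]

end Cfsg.Agent.S4873
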