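import Cfsg.Statements.S4885
import Cfsg.Agent.H8.NW

set_option autoImplicit false
open Cfsg

namespace Cfsg.Agent.S4885

open H18 H1 H8
open scoped commutatorElement

theorem sep {G : Type*} [Group G] [Finite G] {p : ℕ} (hp : p.Prime) (h : IsPSolvable p G) :
    PiSep {p} (⊤ : Subgroup G) :=
  let ⟨_, S, h0, h1, hm, hn, h⟩ := h
  piSep_of_chain S h0 h1 hm hn fun i => (h i).imp
    (fun ⟨m, e⟩ => e ▸ piNat_pow_self hp m) (piNat_compl_iff_coprime hp).2

theorem key {G : Type*} [Group G] [Finite G] {p q : ℕ} [hp : Fact p.Prime] [hq : Fact q.Prime]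
    (hne : p ≠ q) (hqs : IsPSolvable q G) {Mp Mq : Ideal AlgInt} (hMp : IsPModular p Mp)
    (hMq : IsPModular q Mq) (h : ∀ χ : IrrCharacter G, χ ∈ principalBlock Mp G →
      ¬ p ∣ charDegree (χ : G → ℂ) → χ ∈ principalBlock Mq G) {D : Subgroup G} (hD : D ⊴ ⊤)
    (hπ : PiGrp {q}ᶜ D) {E : Subgroup (Coset D)} (hE : E ⊴ ⊤ ⫽ D) (h1 : PiGrp {p} E) :
    E ≤ Φ(⊤ ⫽ D) := by
  haveI : H7.PM p Mp := ⟨hMp⟩
  haveI : H7.PM q Mq := ⟨hMq⟩
  obtain ⟨P⟩ : Nonempty (Sylow p G) := inferInstance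
  have hP := hall_sylow_top hp.out P
  have a := inf_le_der_of_ker (M := Mp) P (L := pPrimeCore q G) fun χ a b =>
    principal_of_pSol (M := Mq) (H4.isPSolvable_iff.1 hqs) ▸ h χ a b
  have n : (P : Subgroup G) ≤ N(D) := le_top.trans hD.norm
  have hQ := hP.mim (f := coset D) hD.norm
  refine le_phi_of_le_der hp.out hE hQ.le hQ.pi ?_
  rw [← mim_comm n n, ← mim_inf_mpre_of_le (hQ.nml_le hE h1)]
  refine mim_mono (le_trans (inf_le_inf_left _ ?_) a)
  rw [pPrimeCore_eq hq.out]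
  exact le_pcore (nml_qpre hD hE) (PiGrp.qpre (fun r hr hd e => hne ((h1 r hr hd).symm.trans e)) hπ)

/-- Let p and q be primes dividing the order of the finite group G, and suppose G is p-solvable and q-solvable. Fix maximal ideals of the algebraic integers containing p and q, defining the principal p-block and the principal q-block. If the irreducible characters of degree prime to p in the principal p-block are exactly the irreducible characters of degree prime to q in the principal q-block, then p = q. -/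
theorem result {G : Type*} [Group G] [Finite G] (p q : ℕ) [Fact p.Prime] [Fact q.Prime] (hp : p ∣ Nat.card G) (hq : q ∣ Nat.card G) (hps : Cfsg.IsPSolvable p G) (hqs : Cfsg.IsPSolvable q G) (Mp Mq : Ideal Cfsg.AlgInt) (hMp : Cfsg.IsPModular p Mp) (hMq : Cfsg.IsPModular q Mq) (h : ∀ χ : Cfsg.IrrCharacter G, (χ ∈ Cfsg.principalBlock Mp G ∧ ¬ p ∣ Cfsg.charDegree (χ : G → ℂ)) ↔ (χ ∈ Cfsg.principalBlock Mq G ∧ ¬ q ∣ Cfsg.charDegree (χ : G → ℂ))) : p = q := by
  by_contra hne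
  have hp' : p.Prime := Fact.out
  have hD : O[{p}ᶜ]((⊤ : Subgroup G)) ⊓ O[{q}ᶜ]((⊤ : Subgroup G)) ⊴ ⊤ := pcore_nml.inf pcore_nml
  have h1 : PiGrp {p}ᶜ (O[{p}ᶜ]((⊤ : Subgroup G)) ⊓ O[{q}ᶜ]((⊤ : Subgroup G))) :=
    pcore_pi.of_le inf_le_left
  have h2 : PiGrp {q}ᶜ (O[{p}ᶜ]((⊤ : Subgroup G)) ⊓ O[{q}ᶜ]((⊤ : Subgroup G))) :=
    pcore_pi.of_le inf_le_right
  have := eq_bot_of_le_phi (sep hp' hps).mim (sep Fact.out hqs).mim (by
    rintro π (rfl | rfl | rfl) E hE hπ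
    · exact key hne hqs hMp hMq (fun χ a b => ((h χ).1 ⟨a, b⟩).1) hD h2 hE hπ
    · exact key (Ne.symm hne) hps hMq hMp (fun χ a b => ((h χ).2 ⟨a, b⟩).1) hD h1 hE hπ
    · refine le_trans ?_ bot_le
      rw [← qpre_le_qpre, qpre_bot]
      exact le_inf (le_pcore (nml_qpre hD hE) (PiGrp.qpre (fun r a b => (hπ r a b).1) h1))
        (le_pcore (nml_qpre hD hE) (PiGrp.qpre (fun r a b => (hπ r a b).2) h2)))
  have h3 := h1.of_le ((quo_eq_bot_iff hD.norm).1 this)
  exact h3 p hp' (by simpa using hp) rfl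

end Cfsg.Agent.S4885
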