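import Cfsg.Statements.S4888
import Cfsg.Agent.H8.Sig

set_option autoImplicit false
open Cfsg

namespace Cfsg.Agent.S4888

open H5 H6 H7 H8

/-- Let G be a finite group, p a prime and M a maximal ideal of the algebraic integers containing p. Then all height-zero irreducible characters of the principal p-block of G (equivalently, all its characters of degree prime to p) have the same degree if and only if G has a normal p-complement. -/
theorem result {G : Type*} [Group G] [Finite G] (p : ℕ) [Fact p.Prime] (M : Ideal Cfsg.AlgInt) (hM : Cfsg.IsPModular p M) : (∃ d : ℕ, ∀ χ : Cfsg.IrrCharacter G, χ ∈ (Cfsg.principalBlock M G) → Cfsg.blockHeight p (Cfsg.principalBlock M G) (χ : G → ℂ) = 0 → Cfsg.charDegree (χ : G → ℂ) = d) ↔ Cfsg.HasNormalPComplement p G := by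
  haveI : PM p M := ⟨hM⟩
  refine ⟨fun ⟨d, h⟩ => pnil_of_lin (M := M) (k := 1) (e := 0) (Nat.coprime_one_left _) (by simp)
    fun χ hχ hd _ => ?_, fun h => ⟨1, fun χ hχ h0 => deg_eq_one_of_pnil h hχ ((height_principal_iff hχ).1 h0)⟩⟩
  have h1 : charDegree (irrOne G).1 = 1 := charDegree_of_eq (n := 1) (by simp [irrOne])
  rw [h χ hχ ((height_principal_iff hχ).2 hd), ← h _ irrOne_mem_principalBlock
    ((height_principal_iff irrOne_mem_principalBlock).2 (by
      rw [h1]; simpa using (Fact.out : p.Prime).ne_one)), h1]

end Cfsg.Agent.S4888
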