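import Cfsg.Statements.S4890
import Cfsg.Agent.H7.NormD

set_option autoImplicit false
open Cfsg

namespace Cfsg.Agent.S4890

open H5 H7

/-- Let G be a finite group, p a prime, M a maximal ideal of the algebraic integers containing p, and B a p-block of G with a defect group that is normal in G. Then all height-zero irreducible characters of B have the same degree if and only if B is a nilpotent block. -/
theorem result {G : Type*} [Group G] [Finite G] (p : ℕ) [Fact p.Prime] (M : Ideal Cfsg.AlgInt) (hM : Cfsg.IsPModular p M) (B : Set (Cfsg.IrrCharacter G)) (hB : Cfsg.IsPBlock M B) (D : Subgroup G) (hD : Cfsg.IsDefectGroup p M B D) (hDn : D.Normal) : (∃ d : ℕ, ∀ χ : Cfsg.IrrCharacter G, χ ∈ B → Cfsg.blockHeight p B (χ : G → ℂ) = 0 → Cfsg.charDegree (χ : G → ℂ) = d) ↔ Cfsg.IsNilpotentBlock p M B := by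
    haveI : PM p M := ⟨hM⟩
    obtain ⟨m⟩ := nonempty_mp hB hD
    refine ⟨fun ⟨d, hd⟩ => ?_, fun hn => ?_⟩
    · have hP := IsDefectGroup.isPGroup hD
      have hπ := QuotientGroup.mk'_surjective ⁅D, D⁆
      have hk := QuotientGroup.ker_mk' ⁅D, D⁆
      have hk' := hk.le.trans (Subgroup.commutator_le_left D D)
      obtain ⟨b, b1, b2, b3⟩ := exists_dominated hπ (hP.to_le hk') hB
      refine m.nil_of_quot hπ hk.le b2 (nil_of_deg b1 (d := d) (fun χ hχ => hd _ (b2 hχ) ?_)
        ((b3 _).2 ⟨D, hD, rfl⟩)).2.1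
      have h1 := factorization_add_defect (M := M) (p := p) (B := B) (b2 hχ)
      have h2 := H8.deg_dvd_index_of_comm (icomp _ hπ χ).2 D (mem_kerSet_iff_le.1
        (mem_kerSet_iff_exists.2 ⟨χ, rfl⟩))
      have h3 := (Nat.factorization_le_iff_dvd (icomp _ hπ χ).2.charDegree_pos.ne'
        Subgroup.index_ne_zero_of_finite).2 h2 p
      rw [← D.card_mul_index, Nat.factorization_mul Nat.card_pos.ne' Subgroup.index_ne_zero_of_finite,
        IsDefectGroup.card hB hD, Finsupp.add_apply, Nat.factorization_pow_self Fact.out] at h1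
      omega
    · obtain ⟨χ, h1, h2⟩ := exists_height_zero (p := p) (block_nonempty hB)
      refine ⟨_, fun ψ h3 h4 => H8.charDegree_congr (ψ := (χ : G → ℂ)) ?_⟩
      obtain ⟨η, e⟩ := (m.nl_of_nil hn).exists_star h1 h2 h3
      rw [MP.Nl.height_star h1 h2 h3 e] at h4
      rw [← e, m.star_reg _ h1 not_dvd_orderOf_one, H8.apply_one_of_pgroup
        (IsDefectGroup.isPGroup hD) η.2 fun h => (Nat.Prime.factorization_pos_of_dvd Fact.out
          η.2.charDegree_pos.ne' h).ne' h4, one_mul]

end Cfsg.Agent.S4890
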