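import Cfsg.Statements.S4892
import Cfsg.Agent.H8.AD3

set_option autoImplicit false
open Cfsg

namespace Cfsg.Agent.S4892

open H5 H7 H8

/-- Let p be an odd prime, M a maximal ideal of the algebraic integers containing p, N a normal subgroup of the finite group G, and θ an irreducible character of N that is G-invariant, of degree prime to p, p-rational (values in the field generated over ℚ by a root of unity of order prime to p) and lies in the principal p-block of N. Let Q be a Sylow p-subgroup of N and suppose the index of N·C_G(Q) in G is a power of p. Then θ extends to a p-rational irreducible character of G lying in the principal p-block of G. -/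
theorem result {G : Type*} [Group G] [Finite G] (p : ℕ) [Fact p.Prime] (hp : p ≠ 2) (M : Ideal Cfsg.AlgInt) (hM : Cfsg.IsPModular p M) (N : Subgroup G) [N.Normal] (θ : Cfsg.IrrCharacter ↥N) (hinv : ∀ g : G, ∀ n n' : ↥N, (n' : G) = g * (n : G) * g⁻¹ → (θ : ↥N → ℂ) n' = (θ : ↥N → ℂ) n) (hdeg : ¬ p ∣ Cfsg.charDegree (θ : ↥N → ℂ)) (hrat : ∃ m : ℕ, ¬ p ∣ m ∧ ∀ n : ↥N, (θ : ↥N → ℂ) n ∈ IntermediateField.adjoin ℚ ({Complex.exp (2 * Real.pi * Complex.I / m)} : Set ℂ)) (hB : θ ∈ Cfsg.principalBlock M ↥N) (Q : Sylow p ↥N) (hidx : ∃ a : ℕ, (N ⊔ Subgroup.centralizer (((Q : Subgroup ↥N).map N.subtype : Subgroup G) : Set G)).index = p ^ a) : ∃ χ : Cfsg.IrrCharacter G, χ ∈ (Cfsg.principalBlock M G) ∧ (∃ n : ℕ, ¬ p ∣ n ∧ ∀ g : G, (χ : G → ℂ) g ∈ IntermediateField.adjoin ℚ ({Complex.exp (2 * Real.pi * Complex.I / n)} : Set ℂ)) ∧ ∀ n : ↥N, (χ : G → ℂ) n = (θ : ↥N → ℂ) n := by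
  haveI : PM p M := ⟨hM⟩
  have hp' : p.Prime := Fact.out
  obtain ⟨m, hm, hrat⟩ := hrat
  obtain ⟨a, ha⟩ := hidx
  have hm0 : m ≠ 0 := by rintro rfl; exact hm (dvd_zero p)
  have hQ : SylIn p ((Q : Subgroup N).map N.subtype) N := ⟨Q, rfl⟩
  have hfix : ∀ σ : ℂ ≃+* ℂ, (∀ x ∈ ({Complex.exp (2 * Real.pi * Complex.I / m)} : Set ℂ), σ x = x) →
      ∀ n, σ ((θ : N → ℂ) n) = (θ : N → ℂ) n := fun σ h n => apply_eq_of_mem_adjoin h (hrat n)
  have ho : ¬ p ∣ detOrder (θ : N → ℂ) := by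
    obtain ⟨u, hu, e⟩ := exists_natCast_eq_pow_mul (p := p) (Nat.card_pos (α := N)).ne'
    have hc : ¬ p ∣ m * u := by simp only [hp'.dvd_mul, not_or]; exact ⟨hm, hu⟩
    obtain ⟨r, h1, h2⟩ : ∃ r, ¬ p ∣ r ∧ ¬ p ∣ m * u * r + 1 := by
      by_cases h : p ∣ m * u * 1 + 1
      · refine ⟨2, fun h => hp ((Nat.prime_dvd_prime_iff_eq hp' Nat.prime_two).1 h), fun h' => hc ?_⟩
        have := Nat.dvd_sub h' h
        rwa [show m * u * 2 + 1 - (m * u * 1 + 1) = m * u by omega] at this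
      · exact ⟨1, hp'.not_dvd_one, h⟩
    obtain ⟨σ, hσ⟩ := exists_ringEquiv_pow (m := p ^ (Nat.card N).factorization p * (m * u))
      (k := m * u * r + 1) (Nat.pos_of_ne_zero (mul_ne_zero (pow_ne_zero _ hp'.ne_zero)
        fun h => hc (h ▸ dvd_zero p)))
      (Nat.Coprime.mul_right (((Nat.Prime.coprime_iff_not_dvd hp').2 h2).symm.pow_right _) (by simp))
    have h3 := hfix σ fun x hx => by
      rw [hx, hσ _ (by rw [mul_left_comm, pow_mul, exp_pow_eq_one hm0, one_pow]), pow_succ,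
        mul_assoc m, pow_mul, exp_pow_eq_one hm0, one_pow, one_mul]
    have h4 := H6.detChar_ringHom (σ : ℂ →+* ℂ) θ.2.isCharacter
    simp only [RingHom.coe_coe, h3] at h4
    intro h
    have h5 : orderOf (detChar (θ : N → ℂ)) ∣ m * u * r := orderOf_dvd_of_pow_eq_one (funext fun n => by
      have h6 := congrFun h4 n
      rw [hσ _ (by
        rw [mul_left_comm, ← e, ← H6.coe_detHom, ← Units.val_pow_eq_pow_val, ← map_pow, mul_comm,
          pow_mul, pow_card_eq_one', one_pow, map_one, Units.val_one]), pow_succ, eq_comm,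
        mul_eq_right₀ (by rw [← H6.coe_detHom]; exact Units.ne_zero _)] at h6
      exact h6)
    exact (hp'.dvd_mul.1 (h.trans h5)).elim hc h1
  obtain ⟨χ, h1, h2, h3, h4⟩ := AD.exists_canonical hQ ha hB (fun g => funext fun n => hinv g n _ rfl)
    hdeg ho
  refine ⟨χ, h1, ⟨m, hm, fun g => ?_⟩, h2⟩
  refine (mem_adjoin_iff_forall (isAlgebraic_rat_of_isIntegral (χ.2.isCharacter.isIntegral g))).2
    fun σ hσ => ?_
  obtain ⟨k, -, hk⟩ := exists_pow_ringHom_char G (σ : ℂ →+* ℂ)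
  refine congrFun (AD.canonical_unique (M := M) hQ ha χ.2.isCharacter
    (χ.2.isCharacter.map_ringHom (σ : ℂ →+* ℂ)) (by simpa only [h2] using θ.2)
    (fun n => by simp only [h2, RingHom.coe_coe, hfix σ hσ]) (by rwa [charDegree_congr (h2 1)]) h3
    (fun h => h3 (h.trans ?_)) h4 fun t ht => ?_) g
  · refine orderOf_dvd_of_pow_eq_one (funext fun x => ?_)
    rw [Pi.pow_apply, H6.detChar_ringHom _ χ.2.isCharacter, ← map_pow,
      show _ ^ _ = _ from congrFun (pow_orderOf_eq_one (detChar (χ : G → ℂ))) x]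
    simp
  · simp only [hk _ χ.2.isCharacter, one_pow]
    exact h4 _ (pow_mem ht k)

end Cfsg.Agent.S4892
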