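import Cfsg.Statements.S4911
import Cfsg.Agent.H8.RealC

set_option autoImplicit false
open Cfsg

namespace Cfsg.Agent.S4911

open H5 H19 H8 H8.Glaub

/-- Let P and K be subgroups of a finite group with P a p-group normalizing K and K of order prime to p. Then the number of P-invariant real-valued irreducible complex characters of K equals the number of conjugacy classes of K that are real (closed under inversion) and P-invariant. Moreover, if every real-valued irreducible character of K is P-invariant, then every real element of K (one conjugate in K to its inverse) is conjugate in K to an element centralized by P. -/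
theorem result {G : Type*} [Group G] [Finite G] (p : ℕ) [Fact p.Prime] (P K : Subgroup G) (hP : IsPGroup p ↥P) (hK : ¬ p ∣ Nat.card ↥K) (hPK : P ≤ Subgroup.normalizer (K : Set G)) : Nat.card {θ : Cfsg.IrrCharacter ↥K // (∀ k : ↥K, ((θ : ↥K → ℂ) k).im = 0) ∧ (∀ x ∈ P, ∀ k k' : ↥K, (k' : G) = x * (k : G) * x⁻¹ → (θ : ↥K → ℂ) k' = (θ : ↥K → ℂ) k)} = Nat.card {c : ConjClasses ↥K // (∀ k : ↥K, ConjClasses.mk k = c → IsConj k k⁻¹) ∧ ∀ k : ↥K, ConjClasses.mk k = c → ∀ x ∈ P, ∀ k' : ↥K, (k' : G) = x * (k : G) * x⁻¹ → ConjClasses.mk k' = c} ∧ ((∀ θ : Cfsg.IrrCharacter ↥K, (∀ k : ↥K, ((θ : ↥K → ℂ) k).im = 0) → (∀ x ∈ P, ∀ k k' : ↥K, (k' : G) = x * (k : G) * x⁻¹ → (θ : ↥K → ℂ) k' = (θ : ↥K → ℂ) k)) → ∀ k : ↥K, IsConj k k⁻¹ → ∃ k' : ↥K, IsConj k k' ∧ ∀ x ∈ P, x * (k' : G) * x⁻¹ = (k' : G)) := by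
  have := Fintype.ofFinite G
  have hp : p.Prime := Fact.out
  have hcop : (Nat.card P).Coprime (Nat.card K) := by
    obtain ⟨k, hk⟩ := hP.exists_card_eq
    rw [hk]
    exact Nat.Coprime.pow_left _ ((Nat.Prime.coprime_iff_not_dvd hp).2 hK)
  haveI := hP.isNilpotent
  have h1 : Nat.card {θ : IrrCharacter ↥K // (∀ k : ↥K, ((θ : ↥K → ℂ) k).im = 0) ∧ (∀ x ∈ P, ∀ k k' : ↥K, (k' : G) = x * (k : G) * x⁻¹ → (θ : ↥K → ℂ) k' = (θ : ↥K → ℂ) k)} = Nat.card {c : ConjClasses ↥K // (∀ k : ↥K, ConjClasses.mk k = c → IsConj k k⁻¹) ∧ ∀ k : ↥K, ConjClasses.mk k = c → ∀ x ∈ P, ∀ k' : ↥K, (k' : G) = x * (k : G) * x⁻¹ → ConjClasses.mk k' = c} := by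
    rw [card_fixed_real_classes hPK hcop (Or.inl inferInstance) rfl, ← card_real_irr,
      card_irr_subtype K _ (fun χ => star χ = χ ∧ P ≤ stabf χ) fun χ => by
        rw [star_extendByZero_iff, conj_eq_self_iff_im, inv_iff_le_stabf hPK],
      (corr_coprime hp hPK hP hcop.symm rfl).card_real,
      card_irr_subtype _ _ (fun χ => star χ = χ) fun χ => star_extendByZero_iff.symm]
    refine Nat.card_congr (Equiv.subtypeEquivRight fun β => and_congr_right fun hβ =>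
      and_iff_left fun s hs => mem_stabf_of_centralizes (irr_supp hβ) fun c hc => hc.2 s hs)
  refine ⟨h1, fun h k hk => ?_⟩
  have h2 := card_real_irr (G := K)
  rw [Nat.card_congr (Equiv.subtypeEquivRight (q := fun θ : IrrCharacter K => (∀ k : ↥K, ((θ : ↥K → ℂ) k).im = 0) ∧ (∀ x ∈ P, ∀ k k' : ↥K, (k' : G) = x * (k : G) * x⁻¹ → (θ : ↥K → ℂ) k' = (θ : ↥K → ℂ) k)) fun θ => by
    rw [conj_eq_self_iff_im]; exact ⟨fun h3 => ⟨h3, h θ h3⟩, fun h3 => h3.1⟩), h1] at h2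
  have h3 : Function.Injective fun c : {c : ConjClasses ↥K // (∀ k : ↥K, ConjClasses.mk k = c → IsConj k k⁻¹) ∧ ∀ k : ↥K, ConjClasses.mk k = c → ∀ x ∈ P, ∀ k' : ↥K, (k' : G) = x * (k : G) * x⁻¹ → ConjClasses.mk k' = c} => (⟨c.1, c.2.1⟩ : {C : ConjClasses K // ∀ g : K, ConjClasses.mk g = C → IsConj g g⁻¹}) :=
    fun a b e => Subtype.ext (congrArg (fun x => x.1) e)
  obtain ⟨⟨c, h4, h5⟩, e⟩ := (h3.bijective_of_nat_card_le h2.ge).2 ⟨ConjClasses.mk k, fun g hg => by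
    have h3 := ConjClasses.mk_eq_mk_iff_isConj.1 hg
    exact h3.trans (hk.trans (isConj_inv_inv2 h3.symm))⟩
  obtain rfl : c = ConjClasses.mk k := congrArg (fun x => x.1) e
  obtain ⟨u, hu, h6⟩ := exists_conj_mem_centralizer hPK hcop (Or.inl inferInstance) (x := k) (fun a ha => by
    have := h5 k rfl a ha ⟨a * k * a⁻¹, (conj_mem_iff_of_normalizer (hPK ha) _).2 k.2⟩ rfl
    rw [eq_comm, ConjClasses.mk_eq_mk_iff_isConj, isConj_iff] at this
    obtain ⟨k, hk⟩ := this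
    exact ⟨k, k.2, congrArg Subtype.val hk⟩)
  exact ⟨⟨u, hu⟩ * k * ⟨u, hu⟩⁻¹, isConj_iff.2 ⟨_, rfl⟩, fun x hx => mul_inv_eq_iff_eq_mul.2 (h6 x hx)⟩

end Cfsg.Agent.S4911
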