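import Cfsg.Statements.S4916
import Cfsg.Agent.H7.Misc2

set_option autoImplicit false
open Cfsg

namespace Cfsg.Agent.S4916

open H5 H7

/-- Let G be a finite group, p a prime and M a maximal ideal of the algebraic integers containing p. Then the principal character is the only irreducible character of degree prime to p in the principal p-block of G if and only if p does not divide the order of G. -/
theorem result {G : Type*} [Group G] [Finite G] (p : ℕ) [Fact p.Prime] (M : Ideal Cfsg.AlgInt) (hM : Cfsg.IsPModular p M) : (∀ χ : Cfsg.IrrCharacter G, χ ∈ Cfsg.principalBlock M G → ¬ p ∣ Cfsg.charDegree (χ : G → ℂ) → (χ : G → ℂ) = fun _ => (1 : ℂ)) ↔ ¬ p ∣ Nat.card G := by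
  haveI : PM p M := ⟨hM⟩
  classical
  have hp : p.Prime := Fact.out
  have hB := isPBlock_principalBlock (M := M) (G := G)
  have h0 := blockDefect_principal (p := p) (M := M) (G := G)
  refine ⟨fun h hG => ?_, fun h χ hχ _ => ?_⟩
  · have h1 := factorization_sum_sq (p := p) hB
    have h2 := hp.factorization_pos_of_dvd Nat.card_pos.ne' hG
    have h3 := Nat.dvd_of_factorization_pos (n := ∑ᶠ χ ∈ principalBlock M G,
      charDegree (χ : G → ℂ) ^ 2) (p := p) (by omega)
    rw [finsum_mem_irr, ← Finset.add_sum_erase _ _ (Finset.mem_univ (irrOne G)),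
      if_pos irrOne_mem_principalBlock, charDegree_eq (G := G) (n := 1) (by simp),
      Nat.dvd_add_left (Finset.dvd_sum fun χ hχ => ?_)] at h3
    · exact hp.not_dvd_one h3
    split_ifs with h4
    · exact Dvd.dvd.pow (by_contra fun e => Finset.ne_of_mem_erase hχ (Subtype.ext (h χ h4 e)))
        two_ne_zero
    · exact dvd_zero _
  · rw [Nat.factorization_eq_zero_of_not_dvd h] at h0
    rw [(block_eq_singleton_iff hB irrOne_mem_principalBlock).2
      ((blockDefect_eq_zero_iff hB irrOne_mem_principalBlock).1 h0)] at hχ
    exact congrArg Subtype.val hχ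

end Cfsg.Agent.S4916
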