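import Cfsg.Statements.S4923
import Cfsg.Agent.H8.Gal
import Cfsg.Agent.H8.AD
import Cfsg.Agent.H9.MaxClass

set_option autoImplicit false
open Cfsg

namespace Cfsg.Agent.S4923

open H5 H7 H8 Cfsg

theorem adj_iff {G : Type*} [Group G] [Finite G] {g : G} {N : ℕ} (N0 : 0 < N) (hg : g ^ N = 1) {ζ : ℂ} (hζ : ζ ^ N = 1)
    {s : ℤ} (hs : s * s = 1) : IntermediateField.adjoin ℚ {z : ℂ | ∃ χ : IrrCharacter G, χ.1 g = z} =
      IntermediateField.adjoin ℚ {ζ + s * ζ⁻¹} ↔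
    ∀ j : ℕ, j.Coprime N → (IsConj g (g ^ j) ↔ ζ ^ j = ζ ∨ ζ ^ (j + 1) = s) := by
  have z0 : ζ ≠ 0 := fun e => by simp [e, N0.ne'] at hζ
  have s1 : (s : ℂ) * s = 1 := by exact_mod_cast hs
  have k : ∀ (σ : ℂ ≃+* ℂ) (j : ℕ), (∀ ε, ε ^ N = 1 → σ ε = ε ^ j) →
      ((∀ x ∈ {z : ℂ | ∃ χ : IrrCharacter G, χ.1 g = z}, σ x = x) ↔ IsConj g (g ^ j)) ∧
      ((∀ x ∈ ({ζ + s * ζ⁻¹} : Set ℂ), σ x = x) ↔ ζ ^ j = ζ ∨ ζ ^ (j + 1) = s) := fun σ j h => by
    have e := fun χ : IrrCharacter G => χ.2.isCharacter.ringHom_apply (σ : ℂ →+* ℂ) h hg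
    refine ⟨⟨fun h => (isConj_iff_forall_irr _ _).2 fun χ => ((e χ).symm.trans (h _ ⟨χ, rfl⟩)).symm,
      fun h _ ⟨χ, hχ⟩ => hχ ▸ (e χ).trans (χ.2.isClassFunction.eq_of_isConj h).symm⟩, ?_⟩
    simp only [Set.mem_singleton_iff, forall_eq, map_add, map_mul, map_inv₀, map_intCast, h ζ hζ]
    rw [← sub_eq_zero, ← sub_eq_zero (a := ζ ^ j), ← sub_eq_zero (a := ζ ^ (j + 1)), ← mul_eq_zero,
      ← mul_eq_zero_iff_left (mul_ne_zero (pow_ne_zero j z0) z0)]
    refine Eq.congr_left ?_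
    field_simp
    ring
  have al : IsAlgebraic ℚ (ζ + s * ζ⁻¹) := isAlgebraic_rat_of_isIntegral ((isIntegral_of_pow_eq_one N0 hζ).add
    ((isIntegral_intCast s).mul (isIntegral_of_pow_eq_one N0 (by rw [inv_pow, hζ, inv_one]))))
  refine ⟨fun h j hj => ?_, fun h => le_antisymm (IntermediateField.adjoin_le_iff.2 ?_)
    (IntermediateField.adjoin_le_iff.2 ?_)⟩
  · obtain ⟨σ, hσ⟩ := exists_ringEquiv_pow N0 hj
    rw [← (k σ j hσ).1, ← (k σ j hσ).2]
    exact ⟨fun e x hx => apply_eq_of_mem_adjoin e (h ▸ IntermediateField.subset_adjoin ℚ _ hx),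
      fun e x hx => apply_eq_of_mem_adjoin e (h ▸ IntermediateField.subset_adjoin ℚ _ hx)⟩
  · rintro _ ⟨χ, rfl⟩
    refine (mem_adjoin_iff_forall (isAlgebraic_rat_of_isIntegral (χ.2.isCharacter.isIntegral g))).2 fun σ e => ?_
    obtain ⟨j, hj, hσ⟩ := exists_pow_of_ringHom (σ : ℂ →+* ℂ) N0
    exact (k σ j hσ).1.2 ((h j hj).2 ((k σ j hσ).2.1 e)) _ ⟨χ, rfl⟩
  · rintro _ rfl
    refine (mem_adjoin_iff_forall al).2 fun σ e => ?_
    obtain ⟨j, hj, hσ⟩ := exists_pow_of_ringHom (σ : ℂ →+* ℂ) N0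
    exact (k σ j hσ).2.2 ((h j hj).1 ((k σ j hσ).1.1 e)) _ rfl

theorem conj_in {G : Type*} [Group G] [Finite G] {P : Subgroup G} (hP : SylIn 2 P ⊤) {x c : G} {k : ℕ}
    (hx : orderOf x = 2 ^ (k + 1)) (h : P ≤ nN (Subgroup.zpowers x)) (hc : c ∈ nN (Subgroup.zpowers x)) :
    ∃ y ∈ P, y * x * y⁻¹ = c * x * c⁻¹ := by
  have h1 : SylIn 2 (P.subgroupOf (nN (Subgroup.zpowers x))) ⊤ := by
    obtain ⟨P, rfl⟩ := hP.exists_sylow
    exact sylIn_top (P.subtype h)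
  have h2 : IsPGroup 2 (MulAut (Subgroup.zpowers x)) := .of_card (n := k) (by
    rw [IsCyclic.card_mulAut, Nat.card_zpowers, hx, Nat.totient_prime_pow_succ Nat.prime_two]
    simp)
  obtain ⟨y, hy, e⟩ := ((h1.map (Subgroup.zpowers x).normalizerMonoidHom).eq_of_le (h2.to_subgroup _)
    (Subgroup.map_mono le_top) le_rfl).le ⟨⟨c, hc⟩, trivial, rfl⟩
  exact ⟨y, hy, congrArg Subtype.val (DFunLike.congr_fun e (⟨x, Subgroup.mem_zpowers x⟩ : Subgroup.zpowers x))⟩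

/-- Let G be a finite group with Sylow 2-subgroup P of order 2^n ≥ 8, and let ζ be a primitive 2^(n−1)-th root of unity in ℂ. Then the commutator subgroup of P has index 4 in P if and only if there is an element g of P whose conjugacy class in G has even size and such that the field generated over ℚ by the values at g of all irreducible complex characters of G equals ℚ(ζ + ζ⁻¹) or ℚ(ζ − ζ⁻¹). -/
theorem result {G : Type*} [Group G] [Finite G] (P : Sylow 2 G) (n : ℕ) (hn : 3 ≤ n) (hP : Nat.card P = 2 ^ n) (ζ : ℂ) (hζ : IsPrimitiveRoot ζ (2 ^ (n - 1))) :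
    (commutator ↥P).index = 4 ↔
      ∃ g : G, g ∈ (P : Subgroup G) ∧ 2 ∣ (Subgroup.centralizer ({g} : Set G)).index ∧
        (IntermediateField.adjoin ℚ {z : ℂ | ∃ χ : Cfsg.IrrCharacter G, (χ : G → ℂ) g = z} = IntermediateField.adjoin ℚ ({ζ + ζ⁻¹} : Set ℂ) ∨
          IntermediateField.adjoin ℚ {z : ℂ | ∃ χ : Cfsg.IrrCharacter G, (χ : G → ℂ) g = z} = IntermediateField.adjoin ℚ ({ζ - ζ⁻¹} : Set ℂ)) := by
  obtain ⟨k, rfl⟩ : ∃ k, n = k + 3 := ⟨n - 3, by omega⟩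
  rw [show k + 3 - 1 = k + 2 from rfl] at hζ
  have z1 : ζ ^ 2 ^ (k + 3) = 1 := by rw [pow_succ, pow_mul, hζ.pow_eq_one, one_pow]
  have z2 : ζ ^ 2 ^ (k + 1) = -1 := (hζ.pow (by positivity) (pow_succ 2 (k + 1))).eq_neg_one_of_two_right
  have A := fun g (hg : g ∈ (P : Subgroup G)) => @adj_iff G _ _ g _ (by positivity) (orderOf_dvd_iff_pow_eq_one.1
    (hP ▸ Subgroup.orderOf_dvd_natCard _ hg)) _ z1
  rw [show ζ + ζ⁻¹ = ζ + (1 : ℤ) * ζ⁻¹ by simp, show ζ - ζ⁻¹ = ζ + (-1 : ℤ) * ζ⁻¹ by simp [sub_eq_add_neg]]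
  refine (Eq.congr_left (H9.relIndex_commutator_eq (P : Subgroup G))).symm.trans ⟨fun h => ?_, fun ⟨g, hg, h1, h2⟩ => ?_⟩
  · obtain ⟨k', x, m⟩ := H9.taussky_sub P.isPGroup' h.le fun e => by
      rw [Subgroup.commutator_self_eq_bot_iff.2 e, Subgroup.relIndex_bot_left] at h
      have := Nat.pow_le_pow_right two_pos hn
      omega
    obtain rfl : k' = k := by simpa using Nat.pow_right_injective le_rfl (m.card_eq.symm.trans hP)
    obtain ⟨b, hb, b1⟩ := m.exists_out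
    have tr : ∀ i j : ℕ, x ^ i = x ^ j ↔ ζ ^ i = ζ ^ j := fun i j => by
      obtain ⟨ζ, rfl⟩ := hζ.isUnit (by positivity)
      rw [← Units.val_pow_eq_pow_val, ← Units.val_pow_eq_pow_val, Units.val_inj, pow_eq_pow_iff_modEq,
        pow_eq_pow_iff_modEq, m.ordx, (IsPrimitiveRoot.coe_units_iff.1 hζ).eq_orderOf]
    have nm : ∀ {c}, c * x * c⁻¹ ∈ Subgroup.zpowers x → c ∈ nN (Subgroup.zpowers x) := fun {c} hc =>
      Subgroup.mem_normalizer_fintype fun y ⟨i, hi⟩ => by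
        rw [← hi, ← conj_zpow]; exact zpow_mem hc i
    have cj : ∀ j : ℕ, IsConj x (x ^ j) ↔ x ^ j = x ∨ x ^ j = b * x * b⁻¹ := fun j => ⟨fun e => by
      obtain ⟨c, hc⟩ := isConj_iff.1 e
      obtain ⟨y, hy, e⟩ := conj_in (sylIn_top P) m.ordx (fun y hy => nm (m.conj_mem hy (Subgroup.mem_zpowers x)))
        (nm (hc ▸ Subgroup.npow_mem_zpowers x j))
      rw [← hc, ← e]
      refine (em (y ∈ Subgroup.zpowers x)).imp (fun ⟨i, hi⟩ => ?_)
        fun e => m.conj_eq_conj hy hb e b1 (Subgroup.mem_zpowers x)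
      rw [← hi, mul_inv_eq_iff_eq_mul]
      exact (Commute.zpow_self x i).eq, fun e => e.elim (fun e => e.symm ▸ .refl x) fun e => isConj_iff.2 ⟨b, e.symm⟩⟩
    refine ⟨x, m.xmem, by_contra fun e => ?_, (m.act b hb b1).imp (fun e => (A x m.xmem rfl).2 fun j _ => ?_)
      fun e => (A x m.xmem rfl).2 fun j _ => ?_⟩
    · obtain ⟨D, hD⟩ := exists_sylIn 2 (c1 x)
      obtain ⟨c, -, hc⟩ := (sylIn_top P).exists_cj_eq (hD.of_relIndex le_top (by rwa [Subgroup.relIndex_top_right]))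
      have h1 : x ∈ D := hD.le_of_normal (IsPE.isPGroup_zpowers ⟨_, m.ordx⟩) (Subgroup.zpowers_le.2
        (Subgroup.mem_centralizer_singleton_iff.2 rfl)) (fun y hy => nm (by
          simp [Subgroup.mem_centralizer_singleton_iff.1 hy])) (Subgroup.mem_zpowers x)
      have h2 : c * x * c⁻¹ ∈ cC (P : Subgroup G) := by
        rw [← hc, ← cj_cC]
        exact conj_mem_cj.2 (le_centralizer_singleton_iff.1 hD.le)
      have h3 : (c * x * c⁻¹) ^ 2 = 1 := by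
        rcases m.center_cases (hc ▸ conj_mem_cj.2 h1) h2 with e | e <;> simp [e, sq, m.u_mul_u]
      exact m.sq_ne_one (by simpa using h3)
    · rw [cj, e, eq_inv_iff_mul_eq_one, ← pow_succ, ← pow_zero x, tr]
      simpa using or_congr_left (by simpa using tr j 1)
    · rw [cj, e.2, eq_inv_mul_iff_mul_eq, ← pow_succ', tr, z2]
      simpa using or_congr_left (by simpa using tr j 1)
  have na : ¬ IsMulCommutative (P : Subgroup G) := fun e => P.not_dvd_index (h1.trans (Subgroup.index_dvd_of_le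
    fun y hy => Subgroup.mem_centralizer_singleton_iff.2 (congrArg Subtype.val (e.is_comm.comm ⟨y, hy⟩ ⟨g, hg⟩))))
  rcases k.eq_zero_or_pos with rfl | k0
  · obtain ⟨x, hx⟩ := H9.exists_orderOf_four P.isPGroup' na
    rw [H9.relIndex_commutator_eq, ← H9.relIndex_commutator_top]
    exact (H9.mc_of_card_eight hP na hx).index_commutator
  have h3 : ¬ IsConj g (g ^ (2 ^ (k + 1) + 1)) := fun e => by
    obtain ⟨s, s1, h3⟩ : ∃ s : ℤ, s * s = 1 ∧ _ = IntermediateField.adjoin ℚ {ζ + s * ζ⁻¹} :=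
      h2.elim (fun h => ⟨1, rfl, h⟩) fun h => ⟨-1, rfl, h⟩
    have z0 := hζ.ne_zero (by positivity)
    rcases ((A g hg s1).1 h3 _ (by simp [Nat.Coprime.pow_right, Nat.odd_add_one, Nat.even_pow])).1 e with e | e
    · rw [pow_succ, z2, neg_one_mul, neg_eq_iff_add_eq_zero, add_self_eq_zero] at e
      exact z0 e
    · have := Nat.le_of_dvd four_pos (hζ.dvd_of_pow_eq_one 4 (by
        rw [add_assoc, pow_add, z2] at e
        have s2 : (s : ℂ) * s = 1 := by exact_mod_cast s1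
        rw [← s2, ← e]; ring))
      have := Nat.pow_le_pow_right two_pos (show 3 ≤ k + 2 by omega)
      omega
  obtain ⟨r, r1, hr⟩ := (Nat.dvd_prime_pow Nat.prime_two).1 (hP ▸ Subgroup.orderOf_dvd_natCard _ hg)
  have h4 := Subgroup.card_mul_index ((Subgroup.zpowers g).subgroupOf P)
  rw [Nat.card_congr (Subgroup.subgroupOfEquivOfLe (Subgroup.zpowers_le.2 hg)).toEquiv, Nat.card_zpowers, hP, hr] at h4
  obtain rfl : r = k + 2 := by
    by_contra e
    rcases (by omega : r ≤ k + 1 ∨ r = k + 3) with e | rfl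
    · exact h3 (by rw [pow_succ, orderOf_dvd_iff_pow_eq_one.1 (hr ▸ pow_dvd_pow 2 e), one_mul])
    · have := Subgroup.relIndex_eq_one.1 ((mul_eq_left₀ (by positivity)).1 h4)
      exact na ⟨⟨fun ⟨a, ha⟩ ⟨b, hb⟩ => by
        obtain ⟨i, rfl⟩ := this ha
        obtain ⟨j, rfl⟩ := this hb
        exact Subtype.ext (zpow_mul_comm g i j)⟩⟩
  rcases H9.mc_or_mod hr hg (mul_left_cancel₀ (by positivity) (h4.trans (pow_succ 2 _))) na with m | ⟨b, m⟩
  · exact m.index_commutator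
  · exact absurd (isConj_iff.2 ⟨b, by rw [m.act, pow_succ' g]⟩) h3

end Cfsg.Agent.S4923
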