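import Cfsg.Statements.S4937
import Cfsg.Agent.H8.AD2

set_option autoImplicit false
open Cfsg

namespace Cfsg.Agent.S4937

open H5 H7 H8

/-- Let G be a finite group, p a prime, M a maximal ideal of the algebraic integers containing p, N a normal subgroup of G and P a Sylow p-subgroup of N such that G = N·C_G(P). Let θ be an irreducible character in the principal p-block of N that is the restriction of some irreducible character of G. Then θ is the restriction of an irreducible character χ of G lying in the principal p-block of G such that, for every subgroup J of G containing N, the restriction of χ to J is an irreducible character of J lying in the principal p-block of J. -/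
theorem result {G : Type*} [Group G] [Finite G] (p : ℕ) [Fact p.Prime] (M : Ideal Cfsg.AlgInt) (hM : Cfsg.IsPModular p M) (N : Subgroup G) [N.Normal] (P : Sylow p ↥N)
    (hcov : N ⊔ Subgroup.centralizer (((P : Subgroup ↥N).map N.subtype : Subgroup G) : Set G) = ⊤)
    (θ : Cfsg.IrrCharacter ↥N) (hθ : θ ∈ Cfsg.principalBlock M ↥N)
    (hext : ∃ ψ : Cfsg.IrrCharacter G, ∀ x : ↥N, (ψ : G → ℂ) x = (θ : ↥N → ℂ) x) :
    ∃ χ : Cfsg.IrrCharacter G, χ ∈ Cfsg.principalBlock M G ∧ (∀ x : ↥N, (χ : G → ℂ) x = (θ : ↥N → ℂ) x) ∧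
      ∀ J : Subgroup G, N ≤ J → ∃ ξ : Cfsg.IrrCharacter ↥J, ξ ∈ Cfsg.principalBlock M ↥J ∧ ∀ y : ↥J, (ξ : ↥J → ℂ) y = (χ : G → ℂ) y := by
  haveI : PM p M := ⟨hM⟩
  obtain ⟨ψ, hψ⟩ := hext
  obtain ⟨μ, h1, -, h2⟩ := AD.exists_twist (p := p) ⟨P, rfl⟩ hcov ψ.2.isCharacter hθ hψ
  let χ : IrrCharacter G := ⟨_, isIrr_mul_linear (isCharacter_hom μ) (by simp) ψ.2⟩
  have h3 : ∀ x : N, (χ : G → ℂ) x = (θ : N → ℂ) x := fun x => by
    show (μ x : ℂ) * _ = _
    rw [h1 _ x.2, hψ]; simp
  refine ⟨χ, principal_of_red_om h2 (φ := MonoidHom.id G) (fun x _ => ⟨x, rfl⟩) χ fun _ => rfl, h3,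
    fun J hJ => ?_⟩
  have h4 : IsIrrCharacter J fun y : J => (χ : G → ℂ) y :=
    isIrr_of_comp (χ.2.isCharacter.restrict J) (Subgroup.inclusion hJ) (by
      simpa only [Subgroup.coe_inclusion, h3] using θ.2)
  exact ⟨⟨_, h4⟩, principal_of_red_om h2 (φ := J.subtype) (by simpa) _ fun _ => rfl, fun _ => rfl⟩

end Cfsg.Agent.S4937
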