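import Cfsg.Statements.S4949
import Cfsg.Agent.H7.Sn4
import Cfsg.Agent.S4710

set_option autoImplicit false
open Cfsg

namespace Cfsg.Agent.S4949

open H5 H7

/-- Let n be a natural number, p a prime, M a maximal ideal of the algebraic integers containing p, B a p-block of the alternating group of degree n and D a defect group of B. Then either B contains an irreducible character of height 1 and D has an irreducible complex character of degree p, or every irreducible character of B has height zero and D is commutative (so the least positive height in B and the least positive exponent of a character degree of D are both 1 or both absent). -/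
theorem result (n : ℕ) (p : ℕ) [Fact p.Prime] (M : Ideal Cfsg.AlgInt) (hM : Cfsg.IsPModular p M) (B : Set (Cfsg.IrrCharacter ↥(alternatingGroup (Fin n)))) (hB : Cfsg.IsPBlock M B) (D : Subgroup ↥(alternatingGroup (Fin n))) (hD : Cfsg.IsDefectGroup p M B D) :
    ((∃ χ : Cfsg.IrrCharacter ↥(alternatingGroup (Fin n)), χ ∈ B ∧ Cfsg.blockHeight p B (χ : ↥(alternatingGroup (Fin n)) → ℂ) = 1) ∧ (∃ φ : Cfsg.IrrCharacter ↥D, Cfsg.charDegree (φ : ↥D → ℂ) = p)) ∨
    ((∀ χ : Cfsg.IrrCharacter ↥(alternatingGroup (Fin n)), χ ∈ B → Cfsg.blockHeight p B (χ : ↥(alternatingGroup (Fin n)) → ℂ) = 0) ∧ IsMulCommutative D) := by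
  classical
  haveI : PM p M := ⟨hM⟩
  have hp : p.Prime := Fact.out
  have h0 : blockDefect p B ≤ 2 → (∀ χ ∈ B, blockHeight p B χ.1 = 0) ∧ IsMulCommutative D := fun h => by
    have hc := IsDefectGroup.card hB hD
    refine ⟨fun χ hχ => ?_, ?_⟩
    · have := (S4710.result p M hM B hB _ rfl).2 χ hχ
      omega
    rcases (show blockDefect p B = 0 ∨ blockDefect p B = 1 ∨ blockDefect p B = 2 by omega) with e | e | e <;> rw [e] at hc
    · haveI := (Nat.card_eq_one_iff_unique.1 hc).1
      exact ⟨⟨fun _ _ => Subsingleton.elim _ _⟩⟩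
    · haveI := isCyclic_of_prime_card (hc.trans (pow_one p))
      infer_instance
    · exact IsPGroup.isMulCommutative_of_card_eq_prime_sq hc
  rcases subsingleton_or_nontrivial (Fin n) with hn | hn
  · refine .inr (h0 ?_)
    have hc := IsDefectGroup.card hB hD
    rw [Subsingleton.elim D ⊥, Subgroup.card_bot, eq_comm, Nat.pow_eq_one] at hc
    simp [hc.resolve_left hp.ne_one]
  obtain ⟨w, t, S, ht, ⟨e⟩, -, h2, h3, h4⟩ := Sn.alt_weight hB hD
  by_cases h : p = 2
  · subst h
    by_cases h7 : 3 ≤ w
    · exact .inl ⟨h4 h7 (by omega), Sn.deg_of_surj e.symm.toMonoidHom e.symm.surjective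
        (Sn.exists_deg_alt S (by omega))⟩
    have : Nat.factorization 2 2 = 1 := Nat.prime_two.factorization_self
    refine .inr (h0 ?_)
    rcases (show w = 0 ∨ w = 1 ∨ w = 2 by omega) with rfl | rfl | rfl <;> simp at h2 <;> omega
  rw [inf_eq_right.2 (Sn.le_alt h S.2)] at e
  have := hp.two_le
  by_cases h7 : p ≤ w
  · exact .inl ⟨h4 (by omega) h7, Sn.deg_of_surj e.symm.toMonoidHom e.symm.surjective
      (Sn.exists_deg S (ht ▸ Nat.mul_le_mul_left p h7))⟩
  haveI := Sn.comm_of_lt S ht (by omega)
  refine .inr ⟨fun χ hχ => Nat.le_zero.1 ((h3 h χ hχ).trans_eq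
    (Nat.factorization_eq_zero_of_not_dvd (by rw [hp.dvd_factorial]; omega))), ⟨⟨fun a b => ?_⟩⟩⟩
  exact e.symm.injective (by rw [map_mul, map_mul, mul_comm'])

end Cfsg.Agent.S4949
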