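import Cfsg.Statements.S4989
import Cfsg.Agent.H5.Central

set_option autoImplicit false
open Cfsg

namespace Cfsg.Agent.S4989

open H5

/-- Let H be a subgroup of the finite group G and χ an irreducible complex character of G. Then the inner product of the restriction of χ to H with itself, (1/#H)·Σ_{h ∈ H} |χ(h)|², is at most 1 + #(Z ∖ H)/#H, where Z is the set of zeros of χ in G. -/
theorem result {G : Type*} [Group G] [Finite G] (H : Subgroup G) (χ : Cfsg.IrrCharacter G) : (Nat.card ↥H : ℝ)⁻¹ * ∑ᶠ h : ↥H, ‖(χ : G → ℂ) h‖ ^ 2 ≤ 1 + (Set.ncard ({x : G | (χ : G → ℂ) x = 0} \ (H : Set G)) : ℝ) / (Nat.card ↥H : ℝ) := by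
  classical
  haveI := Fintype.ofFinite G
  have h0 : (0 : ℝ) < Nat.card H := Nat.cast_pos.2 Nat.card_pos
  have h1 := χ.2.isCharacter.card_le_sum_norm_sq
    (Finset.univ.filter fun g => g ∉ H ∧ (χ : G → ℂ) g ≠ 0) (fun s hs k hk => by
      simp only [Finset.mem_filter, Finset.mem_univ, true_and] at hs ⊢
      obtain ⟨σ, hσ⟩ := exists_ringEquiv_char G hk
      refine ⟨fun h => hs.1 ?_, by rw [← hσ _ χ.2.isCharacter]; simpa using hs.2⟩
      obtain ⟨m, hm⟩ := exists_pow_eq_self_of_coprime (x := s)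
        (hk.coprime_dvd_right (orderOf_dvd_natCard s))
      exact hm ▸ pow_mem h m) fun s hs => (Finset.mem_filter.1 hs).2.2
  have h2 := χ.2.sum_norm_sq
  rw [← Finset.sum_filter_add_sum_filter_not _ (· ∈ H)] at h2
  have h3 : ∑ g with g ∉ H ∧ (χ : G → ℂ) g ≠ 0, ‖(χ : G → ℂ) g‖ ^ 2 ≤
      ∑ g with g ∉ H, ‖(χ : G → ℂ) g‖ ^ 2 := Finset.sum_le_sum_of_subset_of_nonneg
    (fun g hg => by simp only [Finset.mem_filter] at hg ⊢; exact ⟨hg.1, hg.2.1⟩) fun _ _ _ => by positivity
  have h4 : Nat.card G = Nat.card H + Set.ncard ({x : G | (χ : G → ℂ) x = 0} \ (H : Set G)) +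
      (Finset.univ.filter fun g => g ∉ H ∧ (χ : G → ℂ) g ≠ 0).card := by
    rw [Nat.card_eq_fintype_card, ← Finset.card_univ,
      ← Finset.card_filter_add_card_filter_not (s := Finset.univ) (· ∈ H),
      ← Finset.card_filter_add_card_filter_not (s := Finset.univ.filter (· ∉ H))
        (fun g => (χ : G → ℂ) g = 0), Finset.filter_filter, Finset.filter_filter, add_assoc,
      Nat.card_eq_fintype_card, Fintype.card_subtype, ← Set.ncard_coe_finset (Finset.univ.filter
        fun g => g ∉ H ∧ (χ : G → ℂ) g = 0)]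
    congr 3
    ext; simp [and_comm]
  rw [finsum_eq_sum_of_fintype, inv_mul_le_iff₀ h0, mul_add, mul_one, mul_div_cancel₀ _ h0.ne',
    ← Finset.sum_subtype (Finset.univ.filter (· ∈ H)) (by simp) fun g => ‖(χ : G → ℂ) g‖ ^ 2]
  have h5 := congrArg (Nat.cast : ℕ → ℝ) h4
  push_cast at h5
  linarith

end Cfsg.Agent.S4989
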