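import Cfsg.Statements.S4991
import Cfsg.Agent.H5.Prim
import Cfsg.Agent.H5.Central
import Cfsg.Agent.S0205

set_option autoImplicit false
open Cfsg

namespace Cfsg.Agent.S4991
open H5
open H18 H19

/-- Let G be a group of odd order, χ an irreducible complex character of G that is primitive (not induced from a character of any proper subgroup), and p a prime dividing the order of G. Then there is an element g of G such that the p-part of χ(1) divides the p-part of the size of the conjugacy class of g. -/
theorem result {G : Type*} [Group G] [Fintype G] (hodd : Odd (Nat.card G)) (χ : Cfsg.IrrCharacter G) (hprim : ¬ ∃ (H : Subgroup G), H ≠ ⊤ ∧ ∃ θ : ↥H → ℂ, Cfsg.IsCharacter ↥H θ ∧ Cfsg.indFun H θ = (χ : G → ℂ)) (p : ℕ) [Fact p.Prime] (hp : p ∣ Nat.card G) : ∃ g : G, (Cfsg.charDegree (χ : G → ℂ)).factorization p ≤ ((Subgroup.centralizer ({g} : Set G)).index).factorization p := by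
  refine prim_degree Fact.out (solv_top_iff.2 (S0205.result hodd)) (mem_irr_top.2 χ.2) (fun K hK => ?_)
    χ.2.coe_charDegree.symm
  have := hK.normal
  by_contra h
  obtain ⟨T, -, h1, ψ, h2, h3⟩ := H6.exists_ind_of_not_homogeneous (N := K) χ.2 (by
    rintro ⟨θ, e, h1, h2⟩
    refine h ⟨_, extendByZero_mem_irr.2 h1, e, ?_⟩
    rw [← extendByZero_comp, h2]; exact map_smul (ext0 K) _ _)
  exact hprim ⟨T, h1, ψ, h2.isCharacter, h3⟩

end Cfsg.Agent.S4991
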