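import Cfsg.Statements.S4993
import Cfsg.Agent.H5.Prim2
import Cfsg.Agent.H5.Central
import Cfsg.Agent.S0205

set_option autoImplicit false
open Cfsg

namespace Cfsg.Agent.S4993
open H5
open H18 H19 Subgroup

/-- Let G be a group of odd order whose order has exactly two prime divisors and whose quotient by its Fitting subgroup is nilpotent (G is metanilpotent), and let χ be a primitive irreducible complex character of G (not induced from a character of any proper subgroup). Then χ(1) divides the size of some conjugacy class of G. -/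
theorem result {G : Type*} [Group G] [Fintype G] (hodd : Odd (Nat.card G)) (h2 : (Nat.card G).primeFactors.card = 2) [hF : (Cfsg.fittingSubgroup G).Normal] (hmeta : Group.IsNilpotent (G ⧸ Cfsg.fittingSubgroup G)) (χ : Cfsg.IrrCharacter G) (hprim : ¬ ∃ (H : Subgroup G), H ≠ ⊤ ∧ ∃ θ : ↥H → ℂ, Cfsg.IsCharacter ↥H θ ∧ Cfsg.indFun H θ = (χ : G → ℂ)) : ∃ g : G, Cfsg.charDegree (χ : G → ℂ) ∣ (Subgroup.centralizer ({g} : Set G)).index := by
  have hs := solv_top_iff.2 (S0205.result hodd)
  have hh : ∀ K : Subgroup G, K ⊴ ⊤ → ∃ θ ∈ irr K, ∃ s : ℂ, res K (χ : G → ℂ) = s • θ := fun K hK => by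
    have := hK.normal
    by_contra h
    obtain ⟨T, -, h1, ψ, h2, h3⟩ := H6.exists_ind_of_not_homogeneous (N := K) χ.2 (by
      rintro ⟨θ, e, h1, h2⟩
      refine h ⟨_, extendByZero_mem_irr.2 h1, e, ?_⟩
      rw [← extendByZero_comp, h2]; exact map_smul (ext0 K) _ _)
    exact hprim ⟨T, h1, ψ, h2.isCharacter, h3⟩
  have nm : ∀ (r : ℕ) (P : Subgroup G), r.Prime → Hall {r} P ⊤ → F(⊤) ⊔ P ⊴ ⊤ := fun r P hr hP => by
    have := Fact.mk hr
    obtain ⟨S, rfl⟩ := hP.exists_sylow_top hr
    have h1 := Sylow.normal_of_normalizerCondition (Group.normalizerCondition_of_isNilpotent (h := hmeta))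
      (S.mapSurjective (QuotientGroup.mk'_surjective (fittingSubgroup G)))
    have h2 := h1.comap (QuotientGroup.mk' (fittingSubgroup G))
    rw [Sylow.coe_mapSurjective, comap_map_eq, QuotientGroup.ker_mk', sup_comm] at h2
    rw [fit_top]; exact nml_top
  obtain ⟨p, q, hne, e⟩ := Finset.card_eq_two.1 h2
  have pq : ∀ r, r.Prime → r ∣ Nat.card (⊤ : Subgroup G) → r = p ∨ r = q := fun r hr hd => by
    have : r ∈ (Nat.card G).primeFactors := Nat.mem_primeFactors.2 ⟨hr, by simpa using hd, Nat.card_pos.ne'⟩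
    rw [e] at this; simpa using this
  have hp : p.Prime := Nat.prime_of_mem_primeFactors (n := Nat.card G) (by rw [e]; simp)
  have hq : q.Prime := Nat.prime_of_mem_primeFactors (n := Nat.card G) (by rw [e]; simp)
  obtain ⟨P, hP⟩ := exists_sylow hp (⊤ : Subgroup G)
  obtain ⟨Q, hQ⟩ := exists_sylow hq (⊤ : Subgroup G)
  have hQ' : Hall {p}ᶜ Q ⊤ := hQ.congr fun r hr hd => by
    rcases pq r hr hd with rfl | rfl <;> simp [hne, hne.symm]
  have hP' : Hall {q}ᶜ P ⊤ := hP.congr fun r hr hd => by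
    rcases pq r hr hd with rfl | rfl <;> simp [hne, hne.symm]
  obtain ⟨x, hx, x1⟩ := prim_degree2 hp hs (mem_irr_top.2 χ.2) hh χ.2.coe_charDegree.symm hQ'
    (chief_cent_of_nml hP.pi (nm p P hp hP))
  obtain ⟨y, hy, y1⟩ := prim_degree2 hq hs (mem_irr_top.2 χ.2) hh χ.2.coe_charDegree.symm hP'
    (chief_cent_of_nml hQ.pi (nm q Q hq hQ))
  refine ⟨x * y, (Nat.factorization_prime_le_iff_dvd χ.2.charDegree_pos.ne' index_ne_zero_of_finite).1 fun r hr => ?_⟩
  by_cases hd : r ∣ charDegree (χ : G → ℂ)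
  · rcases pq r hr (by simpa using hd.trans χ.2.charDegree_dvd_card) with rfl | rfl
    · exact x1 _ (by simpa using mem_sup_right hy)
    · exact y1 _ (mul_assoc y⁻¹ x y ▸ conj_mem' (nm r Q hq hQ).norm (mem_top y) (mem_sup_right hx))
  · rw [Nat.factorization_eq_zero_of_not_dvd hd]; exact Nat.zero_le _

end Cfsg.Agent.S4993
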