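import Cfsg.Statements.S4996
import Cfsg.Agent.H8.Van

set_option autoImplicit false
open Cfsg

namespace Cfsg.Agent.S4996

open H5 H6 H8
open scoped ComplexConjugate

/-- Let N be a normal subgroup of the finite group G and χ an irreducible complex character of G. Then the restriction of χ to N is not irreducible if and only if χ vanishes on some whole coset Nx of N in G. -/
theorem result {G : Type*} [Group G] [Finite G] (N : Subgroup G) [N.Normal] (χ : Cfsg.IrrCharacter G) : ¬ Cfsg.IsIrrCharacter ↥N (fun n : ↥N => (χ : G → ℂ) n) ↔ ∃ x : G, ∀ n : ↥N, (χ : G → ℂ) ((n : G) * x) = 0 := by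
  classical
  haveI := Fintype.ofFinite G
  have h0 : (0 : ℝ) < Nat.card N := Nat.cast_pos.2 Nat.card_pos
  have hα := χ.2.isCharacter.mul χ.2.isCharacter.conj
  set r : G → ℝ := fun x => (Nat.card N : ℝ)⁻¹ * ∑ n : N, ‖(χ : G → ℂ) (n * x)‖ ^ 2 with hr
  have h1 : ∀ x, (r x : ℂ) = ∑ ξ : IrrCharacter G, if N ≤ charKer (ξ : G → ℂ) then
      classInner ((χ : G → ℂ) * fun g => conj ((χ : G → ℂ) g)) ξ * (ξ : G → ℂ) x else 0 := fun x => by
    rw [← coset_avg hα.isClassFunction, hr]
    simp [Complex.mul_conj, Complex.normSq_eq_norm_sq]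
  have h2 : classInner (fun n : N => (χ : G → ℂ) n) (fun n : N => (χ : G → ℂ) n) = r 1 := by
    rw [classInner_self, hr]; simp
  constructor
  · intro h
    by_contra hc
    push Not at hc
    have h3 : IsCharacter G fun x => (r x : ℂ) := by
      have : (fun x => (r x : ℂ)) = ∑ ξ : IrrCharacter G, if N ≤ charKer (ξ : G → ℂ) then
          classInner ((χ : G → ℂ) * fun g => conj ((χ : G → ℂ) g)) ξ • (ξ : G → ℂ) else 0 := by
        ext x; rw [h1, Finset.sum_apply]
        exact Finset.sum_congr rfl fun ξ _ => by split_ifs <;> rfl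
      rw [this]
      refine H5.Cfsg.IsCharacter.sum _ fun ξ _ => ?_
      obtain ⟨n, hn⟩ := hα.exists_classInner_nat ξ.2.isCharacter
      split_ifs
      · rw [hn]; exact ξ.2.isCharacter.natCast_smul n
      · exact isCharacter_zero
    have h4 := card_le_sum_re h3 (Finset.univ.erase 1) (fun s hs k hk => by
      simp only [Finset.mem_erase, Finset.mem_univ, and_true] at hs ⊢
      exact fun e => hs ((powCoprime hk.symm).injective (by simpa using e))) r (fun s _ => by
        obtain ⟨n, hn⟩ := hc s
        exact mul_pos (inv_pos.2 h0) (Finset.sum_pos' (fun _ _ => by positivity)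
          ⟨n, Finset.mem_univ _, by positivity⟩)) fun _ _ => rfl
    have h5 : ∑ x, r x = Nat.card G := by
      simp only [hr, ← Finset.mul_sum]
      rw [Finset.sum_comm, Finset.sum_congr rfl (g := fun _ => (Nat.card G : ℝ)) fun n _ => by
        rw [← χ.2.sum_norm_sq]
        exact Equiv.sum_comp (Equiv.mulLeft (n : G)) fun g => ‖(χ : G → ℂ) g‖ ^ 2]
      rw [Finset.sum_const, Finset.card_univ, ← Nat.card_eq_fintype_card, nsmul_eq_mul,
        inv_mul_cancel_left₀ h0.ne']
    rw [← Finset.add_sum_erase _ _ (Finset.mem_univ 1)] at h5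
    rw [Finset.card_erase_of_mem (Finset.mem_univ _), Finset.card_univ, ← Nat.card_eq_fintype_card,
      Nat.cast_sub Nat.card_pos, Nat.cast_one] at h4
    obtain ⟨n, hn⟩ := (χ.2.isCharacter.restrict N).exists_classInner_nat (χ.2.isCharacter.restrict N)
    have h6 : r 1 = n := by exact_mod_cast h2.symm.trans hn
    have h7 : n ≤ 1 := by
      have : (n : ℝ) ≤ 1 := by linarith
      exact_mod_cast this
    interval_cases n
    · exact χ.2.apply_one_ne_zero (congrFun ((classInner_self_eq_zero _).1 (hn.trans Nat.cast_zero)) 1)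
    · exact h ((χ.2.isCharacter.restrict N).isIrr_of_classInner_self (by simpa using hn))
  · rintro ⟨x, hx⟩ h
    have h3 := h1 x
    rw [Finset.sum_eq_single (irrOne G), if_pos (by rw [coe_irrOne, charKer_one]; exact le_top),
      coe_irrOne, ← inner_mul_right, show (fun _ : G => (1 : ℂ)) * χ.1 = χ.1 from one_mul _,
      χ.2.classInner_self, hr] at h3
    · simp [hx] at h3
    · intro ξ _ e
      split_ifs with e'
      · have h4 : ∀ n : N, (ξ : G → ℂ) n = (ξ : G → ℂ) 1 := fun n => apply_eq_of_mem_charKer (e' n.2)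
        rw [← inner_mul_right, χ.2.classInner_of_ne (gallagher_irr χ.2.isCharacter h ξ.2 h4)
          fun e'' => e (Subtype.ext (gallagher_inj χ.2.isCharacter h ξ.2 h4 isIrrCharacter_one
            (fun _ => rfl) (e''.symm.trans (one_mul _).symm))), zero_mul]
      · rfl
    · simp

end Cfsg.Agent.S4996
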