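import Cfsg.Statements.S5001
import Cfsg.Agent.H8.Pairs4
import Cfsg.Agent.H8.Contr

set_option autoImplicit false
open Cfsg

namespace Cfsg.Agent.S5001

open H5 H7 H8

/-- Let p be a prime, G a finite group and B a p-block of G (relative to a maximal ideal M of the algebraic integers containing p) with defect group D. Let Z be a central p-subgroup of G contained in D and λ a linear character of Z (a homomorphism to the nonzero complex numbers). Say an irreducible character χ of G lies over λ when χ(z) = χ(1)λ(z) for all z ∈ Z. If some irreducible character in B lying over λ has height zero, then λ extends to a linear character of D. -/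
theorem result {G : Type*} [Group G] [Finite G] (p : ℕ) [Fact p.Prime] (M : Ideal Cfsg.AlgInt) (hM : Cfsg.IsPModular p M) (B : Set (Cfsg.IrrCharacter G)) (hB : Cfsg.IsPBlock M B) (D : Subgroup G) (hD : Cfsg.IsDefectGroup p M B D) (Z : Subgroup G) (hZc : Z ≤ Subgroup.center G) (hZp : IsPGroup p ↥Z) (hZD : Z ≤ D) (lam : ↥Z →* ℂˣ) (χ : Cfsg.IrrCharacter G) (hχ : χ ∈ B) (hover : (∀ z : ↥Z, (χ : G → ℂ) z = (χ : G → ℂ) 1 * (lam z : ℂ))) (h0 : Cfsg.blockHeight p B (χ : G → ℂ) = 0) : (∃ μ : ↥D →* ℂˣ, ∀ z : ↥Z, μ ⟨(z : G), hZD z.2⟩ = lam z) := by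
  classical
  haveI : PM p M := ⟨hM⟩
  obtain ⟨y, hy, hS⟩ := isDefectGroup_iff.1 hD
  have h1 := IsDefectClass.red_char_ne_zero hB hy hχ h0 isPE_one (Commute.one_left y)
  rw [one_mul] at h1
  haveI := Fintype.ofFinite D
  have hc : ∀ d : D, Commute (d : G) y := fun d =>
    Subgroup.mem_centralizer_singleton_iff.1 (hS.le d.2)
  let f : D → ℂ := fun d => (χ : G → ℂ) (y * d)
  have hf : IsClassFunction D f := fun g h => by
    simp only [f, Subgroup.coe_mul, Subgroup.coe_inv]
    rw [← χ.2.isClassFunction (y * g) h, ← mul_assoc, ← mul_assoc, ← (hc h).eq]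
    simp only [mul_assoc]
  have hint : ∀ ψ : IrrCharacter D, IsIntegral ℤ (classInner f ψ) := fun ψ => by
    let φ : D × Subgroup.zpowers y →* G :=
      (Subgroup.subtype D).noncommCoprod (Subgroup.subtype _) fun d t => by
        obtain ⟨t, k, rfl⟩ := t
        exact (hc d).zpow_right k
    have hθ := (χ.2.isCharacter.comp φ).mul (ψ.2.isCharacter.conj.comp (MonoidHom.fst D (Subgroup.zpowers y)))
    have := isIntegral_avg' (MonoidHom.inl D (Subgroup.zpowers y))
      (z := (1, ⟨y, Subgroup.mem_zpowers y⟩)) (fun g => by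
        ext
        · simp
        · obtain ⟨_, t, k, rfl⟩ := g
          exact ((Commute.refl y).zpow_left k).eq) hθ
    convert this using 1
    rw [classInner, Nat.card_eq_fintype_card]
    congr 1
    refine Finset.sum_congr rfl fun d _ => ?_
    simp [f, φ, (hc d).eq]
  have h2 : f 1 = (χ : G → ℂ) y := by simp [f]
  rw [← h2, hf.apply_eq_sum_irr, red_sum _ fun ψ _ =>
    mul_mem (mem_O_of_isIntegral (hint ψ)) (char_mem_O ψ.2.isCharacter 1)] at h1
  obtain ⟨ψ, -, hψ⟩ := Finset.exists_ne_zero_of_sum_ne_zero h1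
  rw [red_mul (mem_O_of_isIntegral (hint ψ)) (char_mem_O ψ.2.isCharacter 1)] at hψ
  have h3 : classInner f ψ ≠ 0 := fun h => by simp [h] at hψ
  have h4 : (ψ : D → ℂ) 1 = 1 := by
    have h5 := right_ne_zero_of_mul hψ
    rw [← coe_deg, red_natCast, Ne, natCast_F_eq_zero_iff (p := p)] at h5
    obtain ⟨n, hn⟩ := hS.isPGroup.exists_card_eq
    have h6 := ψ.2.charDegree_dvd_card
    rw [hn, Nat.dvd_prime_pow Fact.out] at h6
    obtain ⟨k, -, hk⟩ := h6
    rcases k with _ | k
    · rw [← coe_deg, hk]; simp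
    · exact absurd (hk ▸ dvd_pow_self p k.succ_ne_zero) h5
  obtain ⟨μ, hμ⟩ := ψ.2.isCharacter.exists_hom_of_apply_one h4
  refine ⟨μ, fun z => ?_⟩
  have h5 := classInner_mul_left_eq (⟨z, hZD z.2⟩ : D) f ψ
  have hz : ∀ c, c * (z : G) = z * c := fun c => Subgroup.mem_center_iff.1 (hZc z.2) c
  have h6 : (fun s => f (⟨z, hZD z.2⟩ * s)) = (lam z : ℂ) • f := by
    ext s
    simp only [f, Subgroup.coe_mul, Pi.smul_apply, smul_eq_mul]
    rw [← mul_assoc, hz y, mul_assoc, irr_central_mul χ.2 hz, hover z,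
      mul_div_cancel_left₀ _ χ.2.apply_one_ne_zero]
  have h7 : (fun s => (ψ : D → ℂ) (⟨z, hZD z.2⟩ * s)) = (μ ⟨z, hZD z.2⟩ : ℂ) • (ψ : D → ℂ) := by
    ext s
    simp [hμ]
  rw [h6, h7, classInner_smul_left, classInner_smul_right, ← mul_assoc] at h5
  have h8 := mul_right_cancel₀ h3 (h5.trans (one_mul _).symm)
  have h9 : ‖(μ ⟨z, hZD z.2⟩ : ℂ)‖ = 1 :=
    norm_eq_one_of_pow_eq_one (m := Nat.card D) Nat.card_pos (by
      rw [← Units.val_pow_eq_pow_val, ← map_pow, pow_card_eq_one', map_one, Units.val_one])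
  apply Units.ext
  have h10 := Complex.mul_conj (μ ⟨z, hZD z.2⟩ : ℂ)
  rw [Complex.normSq_eq_norm_sq, h9] at h10
  have h11 : (starRingEnd ℂ) (μ ⟨z, hZD z.2⟩ : ℂ) ≠ 0 := by simp
  apply mul_right_cancel₀ h11
  rw [h8, h10]; simp

end Cfsg.Agent.S5001
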