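import Cfsg.Statements.S5011


set_option autoImplicit false
open Cfsg

namespace Cfsg.Agent.S5011



/-- Let G be a finite non-abelian simple group and ρ an irreducible complex representation of G on a space of dimension greater than one (irreducible in the sense that the only subspaces invariant under every ρ(x) are 0 and the whole space). Then for every non-identity element g of G, the centralizer of g does not act irreducibly: there is a non-zero proper subspace invariant under ρ(c) for every c commuting with g. -/
theorem result {G : Type*} [Group G] [Finite G] [IsSimpleGroup G]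
    (hG : ¬ IsMulCommutative G) {V : Type*} [AddCommGroup V] [Module ℂ V] [FiniteDimensional ℂ V]
    (ρ : Representation ℂ G V)
    (hirr : ∀ W : Submodule ℂ V, (∀ x : G, ∀ v ∈ W, ρ x v ∈ W) → W = ⊥ ∨ W = ⊤)
    (hdim : 1 < Module.finrank ℂ V) (g : G) (hg : g ≠ 1) :
    ∃ W : Submodule ℂ V, W ≠ ⊥ ∧ W ≠ ⊤ ∧ ∀ c ∈ Subgroup.centralizer ({g} : Set G), ∀ v ∈ W, ρ c v ∈ W := by
  by_contra hcon
  push Not at hcon
  have hV : Nontrivial V := Module.nontrivial_of_finrank_pos (R := ℂ) (by omega)
  obtain ⟨μ, hμ⟩ := Module.End.exists_eigenvalue (ρ g)
  -- the eigenspace is invariant under the centralizer, hence everything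
  have htop : Module.End.eigenspace (ρ g) μ = ⊤ := by
    by_contra hne
    obtain ⟨c, hc, v, hv, hcv⟩ := hcon _ hμ hne
    apply hcv
    rw [Module.End.mem_eigenspace_iff] at hv ⊢
    have hcomm : g * c = c * g := by
      have := (Subgroup.mem_centralizer_iff.mp hc) g rfl
      exact this
    rw [← Module.End.mul_apply, ← map_mul, hcomm, map_mul, Module.End.mul_apply, hv, map_smul]
  have hscal : ∀ v, ρ g v = μ • v := fun v =>
    Module.End.mem_eigenspace_iff.mp (htop ▸ Submodule.mem_top)
  have hker : ρ.ker = ⊥ ∨ ρ.ker = ⊤ := Subgroup.Normal.eq_bot_or_eq_top inferInstance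
  rcases hker with hker | hker
  · -- faithful: g is central
    have hinj : Function.Injective ρ := (MonoidHom.ker_eq_bot_iff ρ).mp hker
    have hz : g ∈ Subgroup.center G := by
      rw [Subgroup.mem_center_iff]
      intro x
      apply hinj
      ext v
      rw [map_mul, map_mul, Module.End.mul_apply, Module.End.mul_apply, hscal, hscal, map_smul]
    rcases (Subgroup.Normal.eq_bot_or_eq_top (inferInstance : (Subgroup.center G).Normal)) with h | h
    · rw [h] at hz; exact hg (Subgroup.mem_bot.mp hz)
    · apply hG
      refine ⟨⟨fun a b => ?_⟩⟩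
      have : b ∈ Subgroup.center G := h ▸ Subgroup.mem_top b
      exact Subgroup.mem_center_iff.mp this a
  · obtain ⟨v, hv⟩ := exists_ne (0 : V)
    have htriv : ∀ x : G, ρ x = 1 := fun x => by
      have : x ∈ ρ.ker := hker ▸ Subgroup.mem_top x
      exact this
    rcases hirr (Submodule.span ℂ {v}) (fun x w hw => by rw [htriv]; exact hw) with h | h
    · exact hv (by simpa using h)
    · have := finrank_span_singleton (K := ℂ) hv
      rw [h, finrank_top] at this
      omega

end Cfsg.Agent.S5011
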