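import Cfsg.Statements.S5075
import Cfsg.Agent.H20.McL2

set_option autoImplicit false
open Cfsg H20

namespace Cfsg.Agent.S5075

/-- Let p be an odd prime, V a finite-dimensional vector space over the field with p elements, and H a group of linear automorphisms of V generated by transvections (elements of order p fixing a hyperplane pointwise) and having no nontrivial normal p-subgroup. Then for some n ≥ 1 there are a decomposition V = V₀ ⊕ V₁ ⊕ ⋯ ⊕ Vₙ into H-invariant subspaces and a decomposition of H as the internal direct product of normal subgroups H₁, …, Hₙ such that Hⱼ acts trivially on every Vᵢ with i ≠ j, and Hⱼ induces on Vⱼ exactly the special linear group of Vⱼ or exactly the isometry group of a non-degenerate alternating form on Vⱼ. -/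
theorem result {p : ℕ} [Fact p.Prime] (hp : Odd p) {V : Type*} [AddCommGroup V] [Module (ZMod p) V] [Finite V]
    (H : Subgroup (V ≃ₗ[ZMod p] V)) (T : Set (V ≃ₗ[ZMod p] V)) (hHT : H = Subgroup.closure T)
    (hT : ∀ t ∈ T, orderOf t = p ∧
      Module.finrank (ZMod p) ↥(LinearMap.ker ((t : V →ₗ[ZMod p] V) - LinearMap.id)) + 1 =
        Module.finrank (ZMod p) V)
    (hOp : Cfsg.pCore p ↥H = ⊥) :
    ∃ (n : ℕ) (W : Fin (n + 1) → Submodule (ZMod p) V) (K : Fin n → Subgroup (V ≃ₗ[ZMod p] V)),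
      1 ≤ n ∧ DirectSum.IsInternal W ∧
      (∀ h ∈ H, ∀ i, (W i).map (h : V →ₗ[ZMod p] V) = W i) ∧
      (∀ j, K j ≤ H ∧ ((K j).subgroupOf H).Normal) ∧ ⨆ j, K j = H ∧
      (∀ j, K j ⊓ (⨆ j' ∈ {j' : Fin n | j' ≠ j}, K j') = ⊥) ∧
      (∀ j j', j ≠ j' → ∀ a ∈ K j, ∀ b ∈ K j', a * b = b * a) ∧
      (∀ j, ∀ h ∈ K j, ∀ i : Fin (n + 1), i ≠ j.succ → ∀ v ∈ W i, h v = v) ∧
      (∀ j, ∃ ρ : ↥(K j) →* (↥(W j.succ) ≃ₗ[ZMod p] ↥(W j.succ)),
        (∀ (h : ↥(K j)) (v : ↥(W j.succ)), ((ρ h v : ↥(W j.succ)) : V) = (h : V ≃ₗ[ZMod p] V) (v : V)) ∧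
        ((ρ.range : Set (↥(W j.succ) ≃ₗ[ZMod p] ↥(W j.succ))) =
            {f : ↥(W j.succ) ≃ₗ[ZMod p] ↥(W j.succ) | LinearMap.det (f : ↥(W j.succ) →ₗ[ZMod p] ↥(W j.succ)) = 1} ∨
          ∃ B : LinearMap.BilinForm (ZMod p) ↥(W j.succ), B.IsAlt ∧ B.Nondegenerate ∧
            (ρ.range : Set (↥(W j.succ) ≃ₗ[ZMod p] ↥(W j.succ))) = {f : ↥(W j.succ) ≃ₗ[ZMod p] ↥(W j.succ) | ∀ x y, B (f x) (f y) = B x y})) := by
  have p3 : 3 ≤ p := by
    have := (Fact.out : p.Prime).two_le
    rcases hp with ⟨k, rfl⟩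
    omega
  have gen : H ≤ Subgroup.closure {g | ∃ x φ, McL.R H x φ ∧ ∀ v, g v = v + φ v • x} := by
    refine hHT.le.trans (Subgroup.closure_mono fun t ht => ?_)
    obtain ⟨φ, x, e⟩ := (LinearEquiv.mem_dilatransvections_iff_finrank (e := t)).2 (by
      have := LinearMap.finrank_range_add_finrank_ker ((t : V →ₗ[ZMod p] V) - LinearMap.id)
      have := (hT t ht).2
      omega)
    have e : ∀ v, t v = v + φ v • x := LinearMap.congr_fun e
    have h1 : ∀ n, (t ^ n) x = (1 + φ x) ^ n • x := fun n => by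
      induction n with
      | zero => simp
      | succ n ih => rw [pow_succ', LinearEquiv.mul_apply, ih, map_smul, e, pow_succ, mul_smul, add_smul, one_smul]
    have h2 := h1 p
    have h0 := pow_orderOf_eq_one t
    rw [(hT t ht).1] at h0
    rw [h0, ZMod.pow_card, add_smul, one_smul] at h2
    have h3 : φ x = 0 := by
      have := congrArg φ h2
      simpa using this
    exact ⟨x, φ, ⟨h3, t, hHT ▸ Subgroup.subset_closure ht, e⟩, e⟩
  have inv : ∀ X, McL.Inv H X → ∀ g ∈ H, ∀ v, v ∈ X ↔ g v ∈ X := fun X hX g hg => by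
    replace hg := gen hg
    induction hg using Subgroup.closure_induction with
    | mem g h =>
      obtain ⟨x, φ, r, e⟩ := h
      refine fun v => ⟨fun hv => e v ▸ add_mem hv (hX x φ r v hv), fun hv => ?_⟩
      simpa [e, r.1] using sub_mem hv (hX x φ r _ hv)
    | one => simp
    | mul g g' _ _ h h' => exact fun v => (h' v).trans (h _)
    | inv g _ h => exact fun v => by rw [h (g⁻¹ v)]; simp
  refine McL.mcl ⟨fun x φ c r => ?_, fun X Y hX hY g hg h1 h2 h3 => ?_, 2, fun e => ?_, fun e => ?_⟩ gen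
  · rw [← ZMod.natCast_zmod_val c]
    induction c.val with
    | zero => simpa using McL.R.zl φ
    | succ n ih => simpa [add_smul] using ih.al r
  · let N : Subgroup H :=
      { carrier := {g | (∀ v, g.1 v - v ∈ X) ∧ (∀ v ∈ X, g.1 v - v ∈ Y) ∧ ∀ v ∈ Y, g.1 v = v}
        one_mem' := by simp
        mul_mem' := fun {a b} ha hb => ⟨fun v => by simpa using add_mem (ha.1 (b.1 v)) (hb.1 v),
          fun v hv => by simpa using add_mem (ha.2.1 _ ((inv X hX _ b.2 v).1 hv)) (hb.2.1 v hv),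
          fun v hv => by simp [ha.2.2 v hv, hb.2.2 v hv]⟩
        inv_mem' := fun {a} ha => ⟨fun v => by simpa using neg_mem (ha.1 (a.1⁻¹ v)),
          fun v hv => by simpa using neg_mem (ha.2.1 _ ((inv X hX _ (inv_mem a.2) v).1 hv)),
          fun v hv => a.1.injective (by simp [ha.2.2 v hv])⟩ }
    have n : N.Normal := ⟨fun a ha b => ⟨fun v => by simpa using (inv X hX _ b.2 _).1 (ha.1 (b.1⁻¹ v)),
      fun v hv => by simpa using (inv Y hY _ b.2 _).1 (ha.2.1 _ ((inv X hX _ (inv_mem b.2) v).1 hv)),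
      fun v hv => by
        have := ha.2.2 _ ((inv Y hY _ (inv_mem b.2) v).1 hv)
        simp only [Subgroup.coe_mul, Subgroup.coe_inv, LinearEquiv.mul_apply, this]; simp⟩⟩
    have P : IsPGroup p N := fun a => ⟨1, Subtype.ext (Subtype.ext (LinearEquiv.ext fun v => by
      have : Nontrivial V ∨ Subsingleton V := (subsingleton_or_nontrivial V).symm
      rcases this with _ | _
      swap
      · exact Subsingleton.elim _ _
      have : CharP (Module.End (ZMod p) V) p := charP_of_injective_algebraMap (algebraMap (ZMod p) _).injective p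
      let f : Module.End (ZMod p) V := a.1.1
      have h3 : (f - 1) ^ 3 = 0 := LinearMap.ext fun v => by
        simpa [pow_succ, f, sub_eq_zero, -map_sub] using a.2.2.2 _ (a.2.2.1 _ (a.2.1 v))
      have h4 : (f - 1) ^ p = f ^ p - 1 ^ p := sub_pow_char_of_commute p (Commute.one_right f)
      rw [pow_eq_zero_of_le p3 h3, one_pow, eq_comm, sub_eq_zero] at h4
      simpa [f, ← LinearEquiv.pow_apply, Module.End.pow_apply] using LinearMap.congr_fun h4 v))⟩
    have : N ≤ Cfsg.pCore p H := le_sSup ⟨n, P⟩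
    rw [hOp] at this
    exact Subtype.ext_iff.1 (Subgroup.mem_bot.1 (this (x := ⟨g, hg⟩) ⟨h1, h2, h3⟩))
  · exact absurd (Nat.le_of_dvd two_pos ((ZMod.natCast_eq_zero_iff 2 p).1 (by exact_mod_cast e))) (by omega)
  · exact one_ne_zero (α := ZMod p) (by linear_combination e)

end Cfsg.Agent.S5075
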