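import Cfsg.Statements.S5121
import Cfsg.Agent.H20.NMod

set_option autoImplicit false
open Cfsg H20

namespace Cfsg.Agent.S5121

/-- Let G be a finite group with Sylow p-subgroup S and C_G(O_p(G)) ≤ O_p(G). For every subgroup T ≤ S and every normal subsystem E over T of the fusion system of G on S there is exactly one normal subgroup H of G containing T as a Sylow p-subgroup whose fusion system on T is E. -/
theorem result {G : Type*} [Group G] [Finite G] (p : ℕ) [Fact p.Prime] (S : Sylow p G) (hG : Subgroup.centralizer ((Cfsg.pCore p G : Subgroup G) : Set G) ≤ Cfsg.pCore p G) (T : Subgroup G) (hTS : T ≤ S) (E : Cfsg.FusionSystem T) (hE : E.IsNormalIn (Cfsg.groupFusionSystem (S : Subgroup G)) p) : ∃ H : Subgroup G, (∃ hTH : T ≤ H, H.Normal ∧ (∃ R : Sylow p H, (R : Subgroup H) = T.subgroupOf H) ∧ ∀ P : Subgroup G, E.Hom P = (Cfsg.fusionSystemOfSubgroup H T hTH).Hom P) ∧ ∀ H' : Subgroup G, (∃ hTH' : T ≤ H', H'.Normal ∧ (∃ R : Sylow p H', (R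 : Subgroup H') = T.subgroupOf H') ∧ ∀ P : Subgroup G, E.Hom P = (Cfsg.fusionSystemOfSubgroup H' T hTH').Hom P) → H' = H := by
  have hc : cIn ⊤ (Op p (⊤ : Subgroup G)) ≤ Op p ⊤ := by rwa [cIn_top, Op_top]
  have key : ∀ H : Subgroup G, (∃ hTH : T ≤ H, H.Normal ∧ (∃ R : Sylow p H, (R : Subgroup H) =
      T.subgroupOf H) ∧ ∀ P : Subgroup G, E.Hom P = (Cfsg.fusionSystemOfSubgroup H T hTH).Hom P) ↔
      NG ⊤ E H p := fun H => ⟨fun ⟨a, b, c, d⟩ => ⟨le_top, Subgroup.le_normalizer_of_normal,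
        (syl_iff a).2 c, fs_ext d⟩, fun a => ⟨a.syl.le, normal_of_top_le a.nrm, a.syl.exists_sylow,
          fun P => congrArg (fun D : FusionSystem T => D.Hom P) a.eq⟩⟩
  obtain ⟨H, a⟩ := exists_NG (syl_top S) hc (groupFS_eq (S : Subgroup G) ▸ hE)
  exact ⟨H, (key H).2 a, fun H' b => ((key H').1 b).unique hc a⟩

end Cfsg.Agent.S5121
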