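import Cfsg.Statements.S5125
import Cfsg.Agent.H20.AFT

set_option autoImplicit false
open Cfsg H20

namespace Cfsg.Agent.S5125

/-- Let F be a saturated fusion system over a finite p-group S and Q a subgroup strongly closed in F. If Q has a subgroup Q₁ that is normal in F, with Q/Q₁ abelian and Aut_F(Q₁) a p-group, then Q is normal in F. -/
theorem result {Ω : Type*} [Group Ω] {S : Subgroup Ω} [Finite S] (p : ℕ) [Fact p.Prime] (hS : IsPGroup p S) (F : Cfsg.FusionSystem S) (hF : F.IsSaturated p) (Q Q₁ : Subgroup Ω) (hQ : F.StronglyClosed Q) (hQ₁Q : Q₁ ≤ Q) (hQ₁ : F.IsNormal Q₁) (hab : ⁅Q, Q⁆ ≤ Q₁) (hAut : IsPGroup p ↥(F.autGroup Q₁)) : F.IsNormal Q := by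
  refine normal_of_sc hS hF hQ fun P hP => le_of_cr_mem_Op hS hP.1 (ess_rad hS hF hP) hQ.1
    (hP.1.1.trans (sc_normal hQ)) fun g h1 h2 => ?_
  have hPS := hP.1.1
  have h3 := normal_le_of_cr hS hQ₁ hP.1 (ess_rad hS hF hP)
  refine mem_Op_of_chain (hS.to_le hPS) AutF_le_Supp (fun _ => AutF_hom)
    (cr_mem_AutF F hPS (hQ.1 h1) h2) (Y₀ := Q₁) (fun a ha hq => ?_)
    (Relation.ReflTransGen.tail (b := P ⊓ Q) (.single ⟨inf_le_left, fun a ha =>
      ((AutF_mor hPS ha).mono inf_le_left).stab fun x hx =>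
        ⟨AutF_apply_mem ha hx.1, (AutF_mor hPS ha).sc hQ hx.1 hx.2⟩,
      fun a ha y hy hy' => (AutF_mor hPS ha).sc (normal_sc hQ₁) hy.1 hy', fun x hx => hab ?_⟩)
      ⟨le_rfl, AutF_le_Stab, fun a ha y hy hy' => Subgroup.mem_inf.2 ⟨AutF_apply_mem ha hy,
        (AutF_mor hPS ha).sc hQ hy hy'.2⟩, fun x hx => Subgroup.mem_inf.2 ⟨mul_mem (inv_mem hx)
          (stab_mem (cr_mem_Stab P g) hx), (cr_mem_Triv (hPS.trans (sc_normal hQ)) h1 h2).2 x hx⟩⟩)
  · have hs := (AutF_mor hPS ha).sc_stab (normal_sc hQ₁) h3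
    exact (res_eq_one_iff hs).1 ((pElt_of_mem (pgroup_autGroup_iff.1 hAut)
      (((AutF_mor hPS ha).mono h3).res_mem hs)).eq_one ((homOn_res Q₁).qElt hs hq))
  · rw [inv_mul_cr h2 hx.1]
    exact Subgroup.commutator_mem_commutator (inv_mem hx.2) h1

end Cfsg.Agent.S5125
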