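import Cfsg.Statements.S5135
import Cfsg.Agent.H20.Solv

set_option autoImplicit false
open Cfsg H20

namespace Cfsg.Agent.S5135

/-- Let G be a finite group, S a Sylow p-subgroup and H a normal subgroup of G. Then the fusion system of G/H on the image SH/H of S is the factor system of the fusion system of G on S modulo S ∩ H, read through the quotient map restricted to S: for each subgroup P' of SH/H, the conjugation maps by elements of G/H defined on P' with values in SH/H are exactly the homomorphisms induced by the conjugation maps by elements of G defined on the full preimage of P' in S with values in S. -/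
theorem result {G : Type*} [Group G] [Finite G] (p : ℕ) [Fact p.Prime] (S : Sylow p G) (H : Subgroup G) [H.Normal] : (Cfsg.groupFusionSystem (S : Subgroup G)).IsFactorSystem ((S : Subgroup G) ⊓ H) ((QuotientGroup.mk' H).comp (S : Subgroup G).subtype) (Cfsg.groupFusionSystem ((S : Subgroup G).map (QuotientGroup.mk' H))) := by
  rw [groupFS_eq, groupFS_eq]
  have h := epi_group (syl_top S) (homOn_hom ⊤ (QuotientGroup.mk' H)) (H' := ⊤) (by
    rw [img_hom, ← MonoidHom.range_eq_map, MonoidHom.range_eq_top]
    exact QuotientGroup.mk'_surjective H) (img_hom _ _) (h1 := le_top) (h2 := le_top)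
  refine (fac_iff (f := QuotientGroup.mk' H) fun _ => rfl).2 ⟨h.fac, ?_⟩
  exact h.hom.ker_eq_of inf_le_left fun x hx =>
    (QuotientGroup.eq_one_iff x).trans ⟨fun h => ⟨hx, h⟩, fun h => h.2⟩

end Cfsg.Agent.S5135
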