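import Cfsg.Statements.S5151
import Cfsg.Agent.H20.Bal

set_option autoImplicit false
open Cfsg H20

namespace Cfsg.Agent.S5151

/-- E-balance for fusion systems: let F be a saturated fusion system over a finite p-group S, X a fully normalized subgroup and N the normalizer system of X. Then the layer of N is a subsystem of the layer of F. -/
theorem result {Ω : Type*} [Group Ω] {S : Subgroup Ω} [Finite S] (p : ℕ) [Fact p.Prime] (hS : IsPGroup p S) (F : Cfsg.FusionSystem S) (hF : F.IsSaturated p) (X : Subgroup Ω) (hX : F.IsFullyNormalized X) (N : Cfsg.FusionSystem (Cfsg.FusionSystem.normalizerIn S X)) (hN : F.IsNormalizerSystem X N) {U : Subgroup Ω} (EN : Cfsg.FusionSystem U) (hEN : EN.IsLayerOf N p) {T : Subgroup Ω} (E : Cfsg.FusionSystem T) (hE : E.IsLayerOf F p) : EN.IsSubsystemOf E := by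
  have := fin_of_le (nrm_inv hEN.1).le
  exact sub_iff.2 (lay_balance hS ((lay_iff hS).1 hE) hX (isKN_Stab.2 hN)
    ((lay_iff (hS.to_le nIn_le)).1 hEN))

end Cfsg.Agent.S5151
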