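import Cfsg.Statements.S5153
import Cfsg.Agent.H20.Solv

set_option autoImplicit false
open Cfsg H20

namespace Cfsg.Agent.S5153

/-- Let F be a saturated fusion system over a finite p-group S and E a subnormal subsystem of F over T. Then every subgroup of T that is fully normalized in F is fully normalized in E. -/
theorem result {Ω : Type*} [Group Ω] {S : Subgroup Ω} [Finite S] (p : ℕ) [Fact p.Prime] (hS : IsPGroup p S) (F : Cfsg.FusionSystem S) (hF : F.IsSaturated p) {T : Subgroup Ω} (E : Cfsg.FusionSystem T) (hE : E.IsSubnormalIn F p) (P : Subgroup Ω) (hPT : P ≤ T) (hP : F.IsFullyNormalized P) : E.IsFullyNormalized P := by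
  have key := subn_ind (C := fun {S} F => T ≤ S → F.IsFullyNormalized P) hE ‹_› hS
    (fun {S U} _ F D h1 h2 h3 h4 => (nrm_inv h2).sub.fn_of_sc h1 h2.1.2.1 (nrm_inv h2).sc
      (hPT.trans h4) (h3 (h4.trans (nrm_inv h2).le))) fun _ => hP
  exact key le_rfl

end Cfsg.Agent.S5153
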