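import Cfsg.Statements.S5194
import Cfsg.Agent.H27.FSFun

set_option autoImplicit false
open Cfsg

namespace Cfsg.Agent.S5194

open H20 H27 Subgroup

/-- Thompson's normal p-complement Theorem for fusion systems. Let F be a saturated fusion system over a finite p-group S such that p is odd or F is S₄-free (the symmetric group of degree 4 is not involved in any model of the normalizer system of a fully normalized F-centric subgroup), and let J(S) be the subgroup generated by the abelian subgroups of S of largest order. If the centralizer fusion system of Z(S) in F is the inner fusion system of C_S(Z(S)) = S and the normalizer fusion system of J(S) in F is the inner fusion system of N_S(J(S)) = S, then F is the inner fusion system of S. -/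
theorem result {Ω : Type*} [Group Ω] {S : Subgroup Ω} [Finite S] (p : ℕ) [Fact p.Prime] (hS : IsPGroup p S) (F : Cfsg.FusionSystem S) (hF : F.IsSaturated p) (hp : p ≠ 2 ∨ F.IsSectionFree p (Equiv.Perm (Fin 4))) (hC : ∀ C : Cfsg.FusionSystem (Cfsg.FusionSystem.centralizerIn S (S ⊓ Subgroup.centralizer (S : Set Ω))), F.IsCentralizerSystem (S ⊓ Subgroup.centralizer (S : Set Ω)) C → ∀ P : Subgroup Ω, C.Hom P = (Cfsg.innerFusionSystem (Cfsg.FusionSystem.centralizerIn S (S ⊓ Subgroup.centralizer (S : Set Ω)))).Hom P) (hN : ∀ N : Cfsg.FusionSystem (Cfsg.FusionSystem.normalizerIn S (Cfsg.thompsonSubgroupAOf S)), F.IsNormalizerSystem (Cfsg.thompsonSubgroupAOf S) N → ∀ P : Subgroup Ω, N.Hom P = (Cfsg.innerFusionSystem (Cfsg.FusionSystem.normalizerIn S (Cfsg.thompsonSubgroupAOf S))).Hom P) : ∀ P : Subgroup Ω, F.Hom P = (Cfsg.innerFusionSystem S).Hom P := by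
  have h0 := free_S4 hS hF hp
  refine hom_eq_inner_iff.2 (by_contra fun h => ?_)
  obtain ⟨D, h1, h2, h3⟩ := exists_constr hS hF h0 h
  obtain ⟨C, h4⟩ := exists_isKN_Fix F (cIn_le : cIn S S ≤ S)
  rw [H4.thompsonSubgroupAOf_eq] at hN
  exact h3 (inner_JZ_constr hS h1 le_rfl (h0.imp_right fun h5 h6 => h5 (h6.sub h2)) (pt_inner hS)
    ((((loc_inner_iff (H4.thompsonOf_le 0 S)).1 hN).trans (inner_sub _ nIn_le)).of_sub h2)
    ((cloc_of_kn h4 ((sub_of_hom_eq (hC C (isKN_Fix.1 h4))).trans (inner_sub _ cIn_le))).of_sub h2))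

end Cfsg.Agent.S5194
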