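import Cfsg.Statements.S5195
import Cfsg.Agent.H27.FSFun

set_option autoImplicit false
open Cfsg

namespace Cfsg.Agent.S5195

open H20 H27 Subgroup

/-- A strengthened Frobenius normal p-complement criterion for fusion systems. Let F be a saturated fusion system over a finite p-group S such that p is odd or F is S₄-free (the symmetric group of degree 4 is not involved in any model of the normalizer system of a fully normalized F-centric subgroup). If Aut_F(Q) is a p-group for every nontrivial characteristic subgroup Q of S, then F is the inner fusion system of S. -/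
theorem result {Ω : Type*} [Group Ω] {S : Subgroup Ω} [Finite S] (p : ℕ) [Fact p.Prime] (hS : IsPGroup p S) (F : Cfsg.FusionSystem S) (hF : F.IsSaturated p) (hp : p ≠ 2 ∨ F.IsSectionFree p (Equiv.Perm (Fin 4))) (h : ∀ Q : Subgroup Ω, Q ≤ S → Q ≠ ⊥ → (Q.subgroupOf S).Characteristic → IsPGroup p (F.autGroup Q)) : ∀ P : Subgroup Ω, F.Hom P = (Cfsg.innerFusionSystem S).Hom P := by
  have h0 := free_S4 hS hF hp
  refine hom_eq_inner_iff.2 ?_
  revert hF h h0
  clear hp
  refine sparse_ind (C := fun F => F.IsSaturated p → (∀ Q : Subgroup Ω, Q ≤ S → Q ≠ ⊥ →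
    (Q.subgroupOf S).Characteristic → IsPGroup p (F.autGroup Q)) → (p ≠ 2 ∨ ¬ QdF F p) →
    Sub F (innerFusionSystem S)) (fun F ih hF h h0 => ?_) F
  have : Finite {Q : Subgroup Ω // Q ≤ S} := Finite.of_injective (fun Q => Q.1.subgroupOf S) fun Q R e =>
    Subtype.ext (by rw [← map_subgroupOf_eq_of_le Q.2, ← map_subgroupOf_eq_of_le R.2]; exact congrArg _ e)
  obtain ⟨Q, ⟨h1, h2⟩, h3⟩ := Set.Finite.exists_maximal (s := {Q | F.IsNormal Q ∧
    ∀ σ : Equiv.Perm Ω, HomOn S σ → σ ∈ Stab S → σ ∈ Stab Q})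
    (Set.Finite.subset (s := {Q | Q ≤ S}) this fun _ h => h.1.1)
    ⟨⊥, normal_bot F, fun _ h _ => Fix_le_Stab (fix_bot h)⟩
  refine inner_of_quot hS hF le_rfl h0 (pt_inner hS) h1 ?_ fun X h4 h5 h6 => loc_of_ih hS hF
    (fun D h7 h8 h9 => ih D h8 h9 h7 (fun Q h1 h2 h3 => pgroup_autGroup_iff.2 ((pgroup_autGroup_iff.1
      (h Q h1 h2 h3)).to_le h8.AutF_le)) (h0.imp_right fun h5 h6 => h5 (h6.sub h8))) h4
    (fun g hg => cj_mem_Stab.1 (h6 _ (homOn_cj S g) (cj_mem_Stab.2 (le_normalizer hg))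
      (cj_mem_Stab.2 (sc_normal (normal_sc h1) hg))))
    fun h7 => h5.not_ge (h3 ⟨h7, fun σ a b => h6 σ a b (h2 σ a b)⟩ h5.le)
  by_cases h4 : Q = ⊥
  · exact pgroup_iff.2 fun σ hσ => ⟨0, by
      simpa using eq_one_of_Supp (AutF_le_Supp hσ) (h4 ▸ fix_bot (AutF_hom hσ))⟩
  · exact pgroup_autGroup_iff.1 (h Q h1.1 h4 (characteristic_iff_le_comap.2 fun φ x hx =>
      mem_subgroupOf.2 (ext_apply_coe φ x ▸ stab_mem (h2 _ (homOn_ext φ) (Supp_le_Stab (ext_mem_Supp φ))) hx)))

end Cfsg.Agent.S5195
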