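import Cfsg.Statements.S5198
import Cfsg.Agent.H20.Inv

set_option autoImplicit false
open Cfsg H20

namespace Cfsg.Agent.S5198

/-- Let F be a saturated fusion system over a finite p-group S and T a subgroup of S strongly closed in F (so T is normal in S). Then every element x of the hyperfocal subgroup of F acts on T by conjugation as an element of O^p(Aut_F(T))·Inn(T): there is an automorphism of T in the subgroup generated by the elements of Aut_F(T) of order prime to p together with the inner automorphisms of T that agrees with conjugation by x. -/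
theorem result {Ω : Type*} [Group Ω] {S : Subgroup Ω} [Finite S] (p : ℕ) [Fact p.Prime] (hS : IsPGroup p S) (F : Cfsg.FusionSystem S) (hF : F.IsSaturated p) (T : Subgroup Ω) (hT : F.StronglyClosed T) : ∀ x ∈ F.hyperfocalSubgroup p, ∃ α ∈ ((Cfsg.pResidual p ↥(F.autGroup T)).map (F.autGroup T).subtype ⊔ Cfsg.Inn ↥T : Subgroup (MulAut ↥T)), ∀ t : ↥T, ((α t : ↥T) : Ω) = x * (t : Ω) * x⁻¹ := by
  intro x hx
  have h := hyp_acts hS hF hT hx
  have h2 := (mem_RB.1 h).2
  rw [← map_ext_Res, ← map_Inn, ← Subgroup.map_sup] at h2
  obtain ⟨α, hα, e⟩ := h2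
  exact ⟨α, hα, fun t => by rw [← ext_apply_coe, e, cr_apply h.1.2 t.2]⟩

end Cfsg.Agent.S5198
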