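import Cfsg.Statements.S5201
import Cfsg.Agent.H20.RL

set_option autoImplicit false
open Cfsg H20

namespace Cfsg.Agent.S5201

/-- A reduction to normal subsystems. Let F be a saturated fusion system over a finite p-group S and E a normal subsystem of F over T whose centralizer in S lies in T (every subgroup Y of C_S(T) with E contained in the centralizer fusion system of Y in F satisfies Y ≤ T), and suppose Aut_F(T)/Aut_E(T) is p-solvable. Then F and E have the same residual limit: if F∞ is the residual limit of F (reached by alternately passing to the p-residual and the p'-residual subsystem until nothing changes) and E∞ that of E, then F∞ and E∞ have the same maps. -/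
theorem result {Ω : Type*} [Group Ω] {S : Subgroup Ω} [Finite S] (p : ℕ) [Fact p.Prime] (hS : IsPGroup p S) (F : Cfsg.FusionSystem S) (hF : F.IsSaturated p) {T : Subgroup Ω} (E : Cfsg.FusionSystem T) (hE : E.IsNormalIn F p) (hCE : ∀ Y : Subgroup Ω, Y ≤ Cfsg.FusionSystem.centralizerIn S T → (∀ C : Cfsg.FusionSystem (Cfsg.FusionSystem.centralizerIn S Y), F.IsCentralizerSystem Y C → E.IsSubsystemOf C) → Y ≤ T) [hn : ((E.autGroup T).subgroupOf (F.autGroup T)).Normal] (hsolv : Cfsg.IsPSolvable p (↥(F.autGroup T) ⧸ (E.autGroup T).subgroupOf (F.autGroup T))) {U V : Subgroup Ω} (Finf : Cfsg.FusionSystem U) (hFinf : Finf.IsResidualLimitOf F p) (Einf : Cfsg.FusionSystem V) (hEinf : Einf.IsResidualLimitOf E p) : ∀ P : Subgroup Ω, Finf.Hom P = Einf.Hom P := by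
  have i := nrm_inv hE
  have := fin_of_le i.le
  obtain ⟨D, a, b, c, d⟩ := exists_F0 hS hE (psq_of i.sub hsolv)
  obtain ⟨g, k, -⟩ := rl_spec hS hFinf (nrm_refl hF)
  have h : CS F E p ≤ T := hCE _ CS_le fun C e => sub_iff.2 ((isKN_Fix.2 e).cz_iff.2 (cz_CS hS hE))
  exact rl_eq hS hE hFinf hEinf ((k.le (k.sub hS g a (d _ _ g k))).trans (hyp_le_foc.trans
    ((foc_le_of_aut hS hE a.1.1 (nrm_inv a).sub le_sup_left le_rfl c.le).trans (sup_le le_rfl h))))

end Cfsg.Agent.S5201
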