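import Cfsg.Statements.S5202
import Cfsg.Agent.H20.RL

set_option autoImplicit false
open Cfsg H20

namespace Cfsg.Agent.S5202

/-- Let F be a saturated fusion system over a finite p-group S and E a normal subsystem of F over T such that Aut_F(T)/Aut_E(T) is p-solvable. Then there is a normal subsystem F₀ of F over T·C_S(T) containing E, with Aut_{F₀}(T) = Aut_E(T), containing every residual limit of F, and whose residual limits have the same maps as those of F. -/
theorem result {Ω : Type*} [Group Ω] {S : Subgroup Ω} [Finite S] (p : ℕ) [Fact p.Prime] (hS : IsPGroup p S) (F : Cfsg.FusionSystem S) (hF : F.IsSaturated p) {T : Subgroup Ω} (E : Cfsg.FusionSystem T) (hE : E.IsNormalIn F p) [hn : ((E.autGroup T).subgroupOf (F.autGroup T)).Normal] (hsolv : Cfsg.IsPSolvable p (↥(F.autGroup T) ⧸ (E.autGroup T).subgroupOf (F.autGroup T))) : ∃ F₀ : Cfsg.FusionSystem (T ⊔ Cfsg.FusionSystem.centralizerIn S T), F₀.IsNormalIn F p ∧ E.IsSubsystemOf F₀ ∧ F₀.autGroup T =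 E.autGroup T ∧ ∀ {U : Subgroup Ω} (Finf : Cfsg.FusionSystem U), Finf.IsResidualLimitOf F p → Finf.IsSubsystemOf F₀ ∧ ∀ {V : Subgroup Ω} (L : Cfsg.FusionSystem V), L.IsResidualLimitOf F₀ p → ∀ P : Subgroup Ω, L.Hom P = Finf.Hom P := by
  obtain ⟨D, a, b, c, d⟩ := exists_F0 hS hE (psq_of (nrm_inv hE).sub hsolv)
  have := fin_of_le (nrm_inv hE).le
  refine ⟨D, a, sub_iff.2 b, autGroup_eq_iff.2 c, fun Finf e => ?_⟩
  obtain ⟨g, k, -⟩ := rl_spec hS e (nrm_refl hF)
  have := fin_of_le (nrm_inv g).le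
  exact ⟨sub_iff.2 (k.sub hS g a (d _ _ g k)), fun L l P => (rl_eq hS a e l (d _ _ g k) P).symm⟩

end Cfsg.Agent.S5202
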