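import Cfsg.Statements.S5212
import Cfsg.Agent.H3.FS5

set_option autoImplicit false
open Cfsg

namespace Cfsg.Agent.S5212

/-- Let S be a finite metacyclic 2-group that is not homocyclic abelian (a direct product of cyclic groups of one common order), not dihedral, not semidihedral and not generalized quaternion. Then every saturated fusion system over S is the inner fusion system of S. -/
theorem result {Ω : Type*} [Group Ω] {S : Subgroup Ω} [Finite S] (hS : IsPGroup 2 S) (F : Cfsg.FusionSystem S) (hF : F.IsSaturated 2) (hm : Cfsg.IsMetacyclic ↥S) (hh : ¬ ∃ n k : ℕ, Nonempty (↥S ≃* Multiplicative (Fin k → ZMod (2 ^ n)))) (hd : ¬ ∃ m : ℕ, Nonempty (↥S ≃* DihedralGroup m)) (hq : ¬ ∃ m : ℕ, Nonempty (↥S ≃* QuaternionGroup m)) (hsd : ¬ Cfsg.IsQuasiDihedral ↥S) : ∀ P : Subgroup Ω, F.Hom P = (Cfsg.innerFusionSystem S).Hom P := by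
  have := Fact.mk Nat.prime_two
  refine H20.Sub.hom_eq (H3.inner_of_aut hS hF (H3.normal_of_metacyc_two hS hF (H20.sc_top F) hm
    (fun m _ h => hd ⟨m, h⟩) (fun m _ h => hq ⟨m, h⟩) hsd) ?_) (H20.inner_sub F le_rfl)
  by_contra h
  rcases H3.aut_metacyc hS hm h with h | ⟨n, -, ⟨e⟩⟩
  · exact hq ⟨2, h⟩
  · exact hh ⟨n, 2, ⟨e.trans ((MulEquiv.prodMultiplicative _ _).symm.trans
      (AddEquiv.toMultiplicative (LinearEquiv.finTwoArrow ℤ (ZMod (2 ^ n))).toAddEquiv.symm))⟩⟩

end Cfsg.Agent.S5212
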