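import Cfsg.Statements.S5214
import Cfsg.Agent.H20.AFT
import Cfsg.Agent.S1137
import Cfsg.Agent.S1138

set_option autoImplicit false
open Cfsg

namespace Cfsg.Agent.S5214

/-- Let S be a Suzuki 2-group (a finite nonabelian 2-group with more than one involution admitting a cyclic group of automorphisms permuting its involutions regularly). Then S is normal in every saturated fusion system over S (such a group is resistant). -/
theorem result {Ω : Type*} [Group Ω] {S : Subgroup Ω} [Finite S] (hS : IsPGroup 2 S) (F : Cfsg.FusionSystem S) (hF : F.IsSaturated 2) (hsz : Cfsg.IsSuzukiTwoGroup ↥S) : F.IsNormal S := by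
  have : Fact (Nat.Prime 2) := ⟨Nat.prime_two⟩
  obtain ⟨h1, h2⟩ := S1137.result hsz
  have h3 := (S1138.result hsz).2.1
  have key : ∀ x ∈ S, x ∈ Cfsg.FusionSystem.centralizerIn S S ↔ x * x = 1 := fun x hx => by
    have e : x ∈ Cfsg.FusionSystem.centralizerIn S S ↔ (⟨x, hx⟩ : S) ∈ Subgroup.center S :=
      ⟨fun h => Subgroup.mem_center_iff.2 fun y => Subtype.ext (h.2 y y.2),
        fun h => ⟨hx, fun y hy => congrArg Subtype.val (Subgroup.mem_center_iff.1 h ⟨y, hy⟩)⟩⟩
    rw [e]
    refine ⟨fun h => congrArg Subtype.val (h2 _ h), fun h => ?_⟩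
    by_cases e' : (⟨x, hx⟩ : S) = 1
    · rw [e']; exact one_mem _
    · exact ((h1 _).1 ⟨e', Subtype.ext h⟩).1
  have hZ : F.StronglyClosed (Cfsg.FusionSystem.centralizerIn S S) := H20.sc_of' inf_le_left fun x hx σ hσ => by
    have hx' := Subgroup.mem_zpowers x
    rw [key _ (hσ.maps hx'), ← hσ.hom.mul hx' hx', (key x hx.1).1 hx, hσ.hom.one]
  refine H20.normal_of_chain hS hF (H20.sc_top F) (.tail (.single ⟨hZ, H20.sc_bot F, ?_⟩)
    ⟨H20.sc_top F, hZ, ?_⟩)
  · refine Subgroup.commutator_le.2 fun a ha b hb => ?_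
    rw [Subgroup.mem_bot, commutatorElement_eq_one_iff_mul_comm]
    exact hb.2 a ha
  · refine Subgroup.commutator_le.2 fun a ha b hb => ⟨S.mul_mem (S.mul_mem (S.mul_mem ha hb)
      (S.inv_mem ha)) (S.inv_mem hb), fun y hy => ?_⟩
    simpa [commutatorElement_def] using congrArg Subtype.val
      (Subgroup.mem_center_iff.1 (h3 ⟨a, ha⟩⁻¹ ⟨b, hb⟩⁻¹) ⟨y, hy⟩)

end Cfsg.Agent.S5214
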