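import Cfsg.Statements.S5222
import Cfsg.Agent.H27.Tate

set_option autoImplicit false
open Cfsg

namespace Cfsg.Agent.S5222

open H20 H27 Subgroup

/-- Let F be a saturated fusion system over a finite p-group S whose normalizer fusion system of S is the inner fusion system of S (Aut_F(S) is a p-group). Then for every subgroup Q of S with [S, S] ≤ Q ≤ Φ(S), the normalizer fusion system of Q in F is the inner fusion system of N_S(Q) = S. -/
theorem result {Ω : Type*} [Group Ω] {S : Subgroup Ω} [Finite S] (p : ℕ) [Fact p.Prime] (hS : IsPGroup p S) (F : Cfsg.FusionSystem S) (hF : F.IsSaturated p) (hN : ∀ N : Cfsg.FusionSystem (Cfsg.FusionSystem.normalizerIn S S), F.IsNormalizerSystem S N → ∀ P : Subgroup Ω, N.Hom P = (Cfsg.innerFusionSystem (Cfsg.FusionSystem.normalizerIn S S)).Hom P) (Q : Subgroup Ω) (h1 : (commutator ↥S).map S.subtype ≤ Q) (h2 : Q ≤ (frattini ↥S).map S.subtype) : ∀ N : Cfsg.FusionSystem (Cfsg.FusionSystem.normalizerIn S Q), F.IsNormalizerSystem Q N → ∀ P : Subgroup Ω, N.Hom P = (Cfsg.innerFusionSystem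 (Cfsg.FusionSystem.normalizerIn S Q)).Hom P := by
  rw [← H4.phi_eq_frattini hS] at h2
  refine (loc_inner_iff (h2.trans (H4.phi_le p S))).2 (loc_inner_of_between hS hF
    (((loc_inner_iff le_rfl).1 hN).pgroup_aut (pt_inner (hS.to_le nIn_le))) ?_ h2)
  rwa [map_subtype_commutator] at h1

end Cfsg.Agent.S5222
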