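import Cfsg.Statements.S5223
import Cfsg.Agent.H20.AFT

set_option autoImplicit false
open Cfsg H20

namespace Cfsg.Agent.S5223

/-- Let F be a saturated fusion system over a finite p-group S. Suppose there are subgroups Q₀ = S, Q₁, …, Qₙ = 1 (not required to be nested) such that for each i < n the focal subgroup of Qᵢ (generated by the elements x⁻¹φ(x), x ∈ Qᵢ, φ a map of F defined on the cyclic group generated by x) lies in Qᵢ₊₁. Then F is the inner fusion system of S. -/
theorem result {Ω : Type*} [Group Ω] {S : Subgroup Ω} [Finite S] (p : ℕ) [Fact p.Prime] (hS : IsPGroup p S) (F : Cfsg.FusionSystem S) (hF : F.IsSaturated p) (n : ℕ) (Q : Fin (n + 1) → Subgroup Ω) (hQ0 : Q 0 = S) (hQn : Q (Fin.last n) = ⊥) (hstep : ∀ i : Fin n, Subgroup.closure {y : Ω | ∃ x ∈ Q i.castSucc, ∃ φ ∈ F.Hom (Subgroup.zpowers x), y = x⁻¹ * φ ⟨x, Subgroup.mem_zpowers x⟩} ≤ Q i.succ) : ∀ P : Subgroup Ω, F.Hom P = (Cfsg.innerFusionSystem S).Hom P := by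
  refine Sub.hom_eq (sub_inner_of hS hF fun P hP α hα hq => ?_) (inner_sub F le_rfl)
  have hm := AutF_mor hP.le hα
  have key : ∀ i : Fin (n + 1), ∀ x ∈ P, x ∈ Q i → α x = x := by
    intro i
    induction i using Fin.reverseInduction with
    | last => intro x _ hx; rw [hQn, Subgroup.mem_bot] at hx; rw [hx, hm.hom.one]
    | cast i ih =>
      intro x hx hx'
      refine coprime_fix_perm_bot (Q := P ⊓ Q i.succ) hm.hom inf_le_left
        (hS.to_le (inf_le_left.trans hP.le)) (fun y hy => ih y hy.1 hy.2) hq hx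
        (Subgroup.mem_inf.2 ⟨mul_mem (inv_mem hx) (AutF_apply_mem hα hx), hstep i
          (Subgroup.subset_closure ⟨x, hx', _, (hm.mono (Subgroup.zpowers_le.2 hx)).toHom_mem, rfl⟩)⟩)
  exact eq_one_of_Supp (AutF_le_Supp hα) fun x hx => key 0 x hx (hQ0 ▸ hP.le hx)

end Cfsg.Agent.S5223
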