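import Cfsg.Statements.S5224
import Cfsg.Agent.H27.Tate

set_option autoImplicit false
open Cfsg

namespace Cfsg.Agent.S5224

open H20 H27 Subgroup

/-- Tate's Theorem for fusion systems. Let F be a saturated fusion system over a finite p-group S and H a saturated fusion system over S contained in F. Then the following are equivalent: the elementary focal subgroups Φ(S)·foc agree for F and H; the focal subgroups of F and H agree; the hyperfocal subgroups of F and H agree. -/
theorem result {Ω : Type*} [Group Ω] {S : Subgroup Ω} [Finite S] (p : ℕ) [Fact p.Prime] (hS : IsPGroup p S) (F : Cfsg.FusionSystem S) (hF : F.IsSaturated p) (H : Cfsg.FusionSystem S) (hH : H.IsSaturated p) (hHF : H.IsSubsystemOf F) : (((frattini ↥S).map S.subtype ⊔ F.focalSubgroup) = ((frattini ↥S).map S.subtype ⊔ H.focalSubgroup) ↔ F.focalSubgroup = H.focalSubgroup) ∧ (F.focalSubgroup = H.focalSubgroup ↔ F.hyperfocalSubgroup p = H.hyperfocalSubgroup p) := by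
  rw [← H4.phi_eq_frattini hS]
  have h := sub_iff.1 hHF
  have h1 : F.hyperfocalSubgroup p = H.hyperfocalSubgroup p → F.focalSubgroup = H.focalSubgroup := fun e => by
    rw [foc_eq hS hF, foc_eq hS hH, e]
  exact ⟨⟨fun e => h1 (hyp_eq_of_efoc hS hF hH h (le_sup_right.trans e.le)), fun e => by rw [e]⟩,
    fun e => hyp_eq_of_efoc hS hF hH h (e.le.trans le_sup_right), h1⟩

end Cfsg.Agent.S5224
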