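import Cfsg.Statements.S5226
import Cfsg.Agent.H20.AFT

set_option autoImplicit false
open Cfsg H20

namespace Cfsg.Agent.S5226

/-- Let F be a saturated fusion system over a finite p-group S and Q a subgroup of S. Then Q is normal in F (F equals the normalizer system of Q) if and only if Q is strongly closed in F and admits a central series 1 = Q₀ ≤ Q₁ ≤ ⋯ ≤ Qₙ = Q ([Qᵢ₊₁, Q] ≤ Qᵢ) all of whose proper terms are weakly closed in F. -/
theorem result {Ω : Type*} [Group Ω] {S : Subgroup Ω} [Finite S] (p : ℕ) [Fact p.Prime] (hS : IsPGroup p S) (F : Cfsg.FusionSystem S) (hF : F.IsSaturated p) (Q : Subgroup Ω) : F.IsNormal Q ↔ F.StronglyClosed Q ∧ ∃ (n : ℕ) (C : Fin (n + 1) → Subgroup Ω), C 0 = ⊥ ∧ C (Fin.last n) = Q ∧ Monotone C ∧ (∀ i : Fin n, ⁅C i.succ, Q⁆ ≤ C i.castSucc) ∧ ∀ i : Fin n, F.WeaklyClosed (C i.castSucc) := by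
  constructor
  · intro h
    obtain ⟨n, c, h0, h1, h2⟩ := chain_iff.1 (normal_chain hS h)
    exact ⟨normal_sc h, n, c, h0, h1, monotone_of_chain fun i => (h2 i).1,
      fun i => Subgroup.commutator_comm Q _ ▸ (h2 i).2.2.2, fun i => sc_wc (normal_sc (h2 i).2.1)⟩
  · rintro ⟨hQ, n, c, h0, h1, h2, h3, h4⟩
    have hwc : ∀ i, F.WeaklyClosed (c i) := fun i => by
      refine Fin.lastCases ?_ h4 i
      rw [h1]; exact sc_wc hQ
    have hle : ∀ i, c i ≤ Q := fun i => h1 ▸ h2 (Fin.le_last i)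
    refine normal_of_sc hS hF hQ fun P hP => ?_
    have hPS := hP.1.1
    let r : Ω → Subgroup Ω → Subgroup Ω → Prop := fun g Y X => X ≤ P ∧ AutF F P ≤ Stab X ∧
      (∀ a ∈ AutF F P, ∀ y ∈ X, y ∈ Y → a y ∈ Y) ∧ ∀ x ∈ X, x⁻¹ * cr P g x ∈ Y
    have key : ∀ i, c i ≤ P ∧ ∀ g ∈ Q, g ∈ Subgroup.normalizer (P : Set Ω) →
        Relation.ReflTransGen (r g) ⊥ (c i) := by
      intro i
      induction i using Fin.induction with
      | zero => rw [h0]; exact ⟨bot_le, fun _ _ _ => .refl⟩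
      | succ i ih =>
        have hs : ∀ a ∈ AutF F P, a ∈ Stab (c i.castSucc) := fun a ha =>
          (AutF_mor hPS ha).wc_stab (hwc _) ih.1
        have hP' : c i.succ ≤ P := le_of_cr_mem_Op hS hP.1 (ess_rad hS hF hP) (hwc _).1
          (hPS.trans (wc_normal (hwc _))) fun g g1 g2 =>
            mem_Op_of_chain (hS.to_le hPS) AutF_le_Supp (fun _ => AutF_hom)
              (cr_mem_AutF F hPS ((hwc _).1 g1) g2) (Y₀ := ⊥) (fun a ha _ => fix_bot (AutF_hom ha))
              (((ih.2 g (hle _ g1) g2).tail (c := P ⊓ Q) ⟨inf_le_left, fun a ha =>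
                ((AutF_mor hPS ha).mono inf_le_left).stab fun x hx =>
                  ⟨AutF_apply_mem ha hx.1, (AutF_mor hPS ha).sc hQ hx.1 hx.2⟩,
                fun a ha y _ hy => stab_mem (hs a ha) hy, fun x hx => h3 i (by
                  rw [inv_mul_cr g2 hx.1, Subgroup.commutator_comm]
                  exact Subgroup.commutator_mem_commutator (inv_mem hx.2) g1)⟩).tail
                ⟨le_rfl, AutF_le_Stab, fun a ha y hy hy' => Subgroup.mem_inf.2 ⟨AutF_apply_mem ha hy,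
                  (AutF_mor hPS ha).sc hQ hy hy'.2⟩, fun x hx => Subgroup.mem_inf.2
                    ⟨mul_mem (inv_mem hx) (stab_mem (cr_mem_Stab P g) hx),
                      (cr_mem_Triv (hPS.trans (sc_normal hQ)) (hle _ g1) g2).2 x hx⟩⟩)
        refine ⟨hP', fun g g1 g2 => (ih.2 g g1 g2).tail ⟨hP', fun a ha =>
          (AutF_mor hPS ha).wc_stab (hwc _) hP', fun a ha y _ hy => stab_mem (hs a ha) hy,
          fun x hx => h3 i ?_⟩⟩
        rw [inv_mul_cr g2 (hP' hx)]
        exact Subgroup.commutator_mem_commutator (inv_mem hx) g1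
    exact h1 ▸ (key _).1

end Cfsg.Agent.S5226
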