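import Cfsg.Statements.S5236
import Cfsg.Agent.H3.FS3

set_option autoImplicit false
open Cfsg

namespace Cfsg.Agent.S5236

/-- Let p be an odd prime, F a saturated fusion system over a finite p-group S and P a subgroup of S strongly closed in F. Then P is normal in F if and only if Ω₁(P) (the subgroup generated by the elements of order p of P) has a chain of subgroups 1 = Q₀ ≤ Q₁ ≤ ⋯ ≤ Qₙ = Ω₁(P), each strongly closed in F, with [Qᵢ₊₁, P] ≤ Qᵢ for all i. -/
theorem result {Ω : Type*} [Group Ω] {S : Subgroup Ω} [Finite S] (p : ℕ) [Fact p.Prime] (hS : IsPGroup p S) (F : Cfsg.FusionSystem S) (hF : F.IsSaturated p) (hp : p ≠ 2) (P : Subgroup Ω) (hP : F.StronglyClosed P) : F.IsNormal P ↔ ∃ (n : ℕ) (Q : Fin (n + 1) → Subgroup Ω), Q 0 = ⊥ ∧ Q (Fin.last n) = Cfsg.omegaOne p P ∧ Monotone Q ∧ (∀ i : Fin (n + 1), F.StronglyClosed (Q i)) ∧ ∀ i : Fin n, ⁅Q i.succ, P⁆ ≤ Q i.castSucc := by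
  rw [H3.normal_iff_ohm_chain hS hF hp hP, H20.chain_iff]
  constructor
  · rintro ⟨n, Q, h0, h1, h⟩
    refine ⟨n, Q, h0, h1, H20.monotone_of_chain fun i => (h i).1, fun i => ?_, fun i => (h i).2.2.2⟩
    induction i using Fin.cases with
    | zero => exact h0 ▸ H20.sc_bot F
    | succ i => exact (h i).2.2.1
  · rintro ⟨n, Q, h0, h1, h2, h3, h4⟩
    exact ⟨n, Q, h0, h1, fun i => ⟨h2 (Fin.castSucc_lt_succ (i := i)).le, h3 _, h3 _, h4 i⟩⟩

end Cfsg.Agent.S5236
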