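import Cfsg.Statements.S5243
import Cfsg.Agent.H20.RL

set_option autoImplicit false
open Cfsg H20

namespace Cfsg.Agent.S5243

/-- Let F be a saturated fusion system over a finite p-group S, E a normal subsystem of F over T ≤ S, and χ a surjective homomorphism from Aut_F(T) onto a nontrivial finite group Δ of order prime to p whose kernel contains Aut_E(T). Then there is a proper normal subsystem F₀ of F over S containing E such that Aut_{F₀}(S) consists of those α ∈ Aut_F(S) whose restriction to T is an element of Aut_F(T) in the kernel of χ; moreover every p'-residual subsystem O^{p'}(F) of F is contained in F₀. -/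
theorem result {Ω : Type*} [Group Ω] {S : Subgroup Ω} [Finite S] (p : ℕ) [Fact p.Prime] (hS : IsPGroup p S) (F : Cfsg.FusionSystem S) (hF : F.IsSaturated p) {T : Subgroup Ω} (hTS : T ≤ S) (E : Cfsg.FusionSystem T) (hE : E.IsNormalIn F p) {Δ : Type*} [Group Δ] [Finite Δ] [Nontrivial Δ] (hΔ : (Nat.card Δ).Coprime p) (χ : ↥(F.autGroup T) →* Δ) (hχ : Function.Surjective χ) (hker : (E.autGroup T).subgroupOf (F.autGroup T) ≤ χ.ker) : ∃ F₀ : Cfsg.FusionSystem S, F₀.IsNormalIn F p ∧ ¬ (∀ P : Subgroup Ω, F₀.Hom P = F.Hom P) ∧ E.IsSubsystemOf F₀ ∧ (∀ α : MulAut ↥S, α ∈ F₀.autGroup S ↔ α ∈ F.autGroup S ∧ ∃ β : ↥(F.autGroup T), χ β = 1 ∧ ∀ t : ↥T, (((β : MulAut ↥T) t : ↥T) : Ω) = ((α ⟨(t : Ω), hTS t.2⟩ : ↥S) : Ω)) ∧ ∀ R : Cfsg.FusionSystem S, F.IsPPrimeResidual p R → R.IsSubsystemOf F₀ := by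
  have i := nrm_inv hE
  have := fin_of_le hTS
  obtain ⟨f, a, b⟩ := exists_aut_fun χ
  obtain ⟨D, c, d, e, g⟩ := exists_ppp_ker hS hF i hE.1.1 (a.pre_le ⊥) a.ker_normal (by
      rintro _ ⟨α, hα, rfl⟩
      have k := autGroup_le_iff.2 i.sub.AutF_le hα
      exact ⟨ext_mem_AutF.2 k, (b ⟨α, k⟩).trans (hker (x := ⟨α, k⟩) hα)⟩)
    (PGen_le_iff.2 fun x k l => ⟨k, (a.pElt k l).eq_one (Nat.Coprime.coprime_dvd_left
      (orderOf_dvd_natCard _) hΔ)⟩)
  refine ⟨D, c, fun k => ?_, sub_iff.2 d, fun α => ?_, fun R k => sub_iff.2 ((ppr_iff.1 k).min D c.1.1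
    ((nrm_inv c).ppp hS hF))⟩
  · obtain ⟨x, l⟩ := exists_ne (1 : Δ)
    obtain ⟨β, rfl⟩ := hχ x
    exact l ((b β).symm.trans (e ((sub_of_hom_eq' k).AutF_le (ext_mem_AutF.2 β.2))).2)
  rw [← ext_mem_AutF, g, ext_mem_AutF]
  refine and_congr_right fun k => ?_
  have l := AutF_mor le_rfl (ext_mem_AutF.2 k)
  have m := l.sc_stab i.sc hTS
  refine ⟨fun ⟨⟨β, n, o⟩, q⟩ => ⟨⟨β, n⟩, (b ⟨β, n⟩).symm.trans (o ▸ q), fun t => ?_⟩, fun ⟨β, n, o⟩ => ?_⟩
  · rw [← ext_apply_coe, ← ext_apply α (hTS t.2), ← res_apply m t.2, ← o]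
  · have q : res T (ext S α) = ext T β := res_eq (ext_mem_Supp _) fun x hx => by
      rw [ext_apply α (hTS hx), ext_apply _ hx, o ⟨x, hx⟩]
    exact q ▸ ⟨ext_mem_AutF.2 β.2, (b β).trans n⟩

end Cfsg.Agent.S5243
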