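import Cfsg.Statements.S5245
import Cfsg.Agent.H27.XS

set_option autoImplicit false
open Cfsg

namespace Cfsg.Agent.S5245

open H20 H27 Subgroup

/-- Let F be an extremely sparse fusion system over a finite p-group S (saturated, not the inner system, and every saturated fusion system over any subgroup T of S contained in F is F itself or the inner system of T). Then S is normal in F, the focal and hyperfocal subgroups of F are both S, and Aut_F(S) is generated by the inner automorphisms of S together with a single automorphism of prime order q ≠ p (F is the fusion system of the semidirect product of S by a cyclic group of prime order). -/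
theorem result {Ω : Type*} [Group Ω] {S : Subgroup Ω} [Finite S] (p : ℕ) [Fact p.Prime] (hS : IsPGroup p S) (F : Cfsg.FusionSystem S) (hF : F.IsSaturated p) (hxs : ¬ (∀ P : Subgroup Ω, F.Hom P = (Cfsg.innerFusionSystem S).Hom P) ∧ ∀ (T : Subgroup Ω) (E : Cfsg.FusionSystem T), E.IsSaturated p → E.IsSubsystemOf F → (T = S ∧ ∀ P : Subgroup Ω, E.Hom P = F.Hom P) ∨ (∀ P : Subgroup Ω, E.Hom P = (Cfsg.innerFusionSystem T).Hom P)) : F.IsNormal S ∧ F.focalSubgroup = S ∧ F.hyperfocalSubgroup p = S ∧ ∃ (q : ℕ) (β : MulAut ↥S), q.Prime ∧ q ≠ p ∧ β ∈ F.autGroup S ∧ orderOf β = q ∧ (F.autGroup S : Subgroup (MulAut ↥S)) = Cfsg.Inn ↥S ⊔ Subgroup.zpowers β := by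
  have key : ∀ T ≤ S, ∀ β ∈ AutF F T, QElt p β → β ≠ 1 →
      T = S ∧ F.IsNormal S ∧ AutF F S = zpowers β ⊔ AutK S S := fun T hT β hβ hq h1 => by
    obtain ⟨W, a1, a2, a3, a4⟩ := exists_autsub hS hT (zpowers_le.2 hβ) fun α hα => by
      have := fin_of_le (zpowers_le.2 hβ)
      obtain ⟨n, rfl⟩ := (finOrder_of_mem (mem_zpowers β)).mem_powers_iff_mem_zpowers.2 hα
      exact hq.pow n
    have := fin_of_le hT
    rcases hxs.2 T W a1 (sub_iff.2 a2) with ⟨rfl, e⟩ | e
    · obtain rfl := fs_ext e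
      exact ⟨rfl, a3, a4⟩
    · have := (sub_of_hom_eq e).AutF_le (a4.ge (mem_sup_left (mem_zpowers β)))
      rw [AutF_inner le_rfl] at this
      exact (h1 ((pElt_of_mem (AutK_pgroup (hS.to_le hT)) this).eq_one hq)).elim
  obtain ⟨P, hP, α, hα, hq, h1⟩ : ∃ P, EssS F p P ∧ ∃ α ∈ AutF F P, QElt p α ∧ α ≠ 1 := by
    by_contra hc
    push Not at hc
    exact hxs.1 ((sub_inner_of hS hF hc).hom_eq (inner_sub F le_rfl))
  obtain ⟨rfl, -⟩ := key P hP.le α hα hq h1
  have ho := (finOrder_of_mem hα).orderOf_pos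
  obtain ⟨q, hq1, hq2⟩ := Nat.exists_prime_and_dvd (mt orderOf_eq_one_iff.1 h1)
  have hβ := pow_mem hα (orderOf α / q)
  have hoβ : orderOf (α ^ (orderOf α / q)) = q := orderOf_pow_orderOf_div ho.ne' hq2
  have hqβ := hq.pow (orderOf α / q)
  generalize α ^ (orderOf α / q) = β at hβ hoβ hqβ
  have hβ1 : β ≠ 1 := fun e => hq1.ne_one (by rw [← hoβ, e, orderOf_one])
  obtain ⟨-, b1, b2⟩ := key P le_rfl β hβ hqβ hβ1
  have hh : F.hyperfocalSubgroup p = P := by
    have hs := (AutF_mor le_rfl hβ).sc_stab (sc_hyp hS hF) hyp_le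
    refine (key _ hyp_le _ (((AutF_mor le_rfl hβ).mono hyp_le).res_mem hs) ((homOn_res _).qElt hs hqβ) fun e => hβ1 ?_).1
    refine eq_one_of_Supp (AutF_le_Supp hβ) fun x hx => ?_
    exact coprime_fix_perm_bot (AutF_hom hβ) hyp_le (hS.to_le hyp_le) ((res_eq_one_iff hs).1 e) hqβ hx
      (mem_hyp le_rfl hβ hqβ hx)
  obtain ⟨γ, hγ, rfl⟩ := hβ
  refine ⟨b1, le_antisymm foc_le (hh.ge.trans hyp_le_foc), hh, q, γ, hq1, fun e => ?_, hγ,
    by rwa [orderOf_injective _ ext_injective] at hoβ, map_injective ext_injective ?_⟩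
  · rw [QElt, hoβ, e, Nat.coprime_self] at hqβ
    exact (Fact.out : p.Prime).ne_one hqβ
  · rw [Subgroup.map_sup, map_Inn, MonoidHom.map_zpowers, sup_comm]
    exact b2

end Cfsg.Agent.S5245
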