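import Cfsg.Statements.S5251
import Cfsg.Agent.H20.Cent

set_option autoImplicit false
open Cfsg H20

namespace Cfsg.Agent.S5251

/-- Let F be a saturated fusion system over a finite p-group S, E a normal subsystem of F over T, and P an F-centric subgroup of S such that P ∩ T is not E-centric. Then some F-conjugate P* of P satisfies Out_S(P*) ∩ O_p(Out_F(P*)) ≠ 1: there is an element of N_S(P*) outside P* whose conjugation action on P* lies in O_p(Aut_F(P*)). In particular P is not both centric and radical in F. -/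
theorem result {Ω : Type*} [Group Ω] {S : Subgroup Ω} [Finite S] (p : ℕ) [Fact p.Prime] (hS : IsPGroup p S) (F : Cfsg.FusionSystem S) (hF : F.IsSaturated p) {T : Subgroup Ω} (E : Cfsg.FusionSystem T) (hE : E.IsNormalIn F p) (P : Subgroup Ω) (hP : F.IsCentric P) (hPT : ¬ E.IsCentric (P ⊓ T)) : (∃ φ ∈ F.Hom P, ∃ x ∈ S ⊓ Subgroup.normalizer (φ.range : Set Ω), x ∉ φ.range ∧ ∃ α ∈ ((Cfsg.pCore p ↥(F.autGroup φ.range)).map (F.autGroup φ.range).subtype : Subgroup (MulAut ↥φ.range)), ∀ y : ↥φ.range, ((α y : ↥φ.range) : Ω) = x * (y : Ω) * x⁻¹) ∧ ¬ F.IsRadical p P := by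
  have h := nrm_inv hE
  refine ⟨?_, fun hr => hPT (h.centric_inf hS hF hE.1.1 hP hr)⟩
  obtain ⟨σ, h1, g, h2, h3, h4⟩ := h.star hS hF hE.1.1 P hP hPT
  refine ⟨h1.hom.toHom, h1.toHom_mem, ?_⟩
  rw [← h1.hom.img_eq_range]
  rw [AutF, ← map_ext_Op] at h4
  obtain ⟨α, h5, h6⟩ := h4
  exact ⟨g, h2, h3, α, h5, fun y => by rw [← ext_apply_coe, h6, cr_apply h2.2 y.2]⟩

end Cfsg.Agent.S5251
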