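import Cfsg.Statements.S5271
import Cfsg.Agent.H27.Tate
import Cfsg.Agent.H27.FSFun
import Cfsg.Agent.H17.Cores
import Cfsg.Agent.H3.PGrpBasic
import Cfsg.Agent.H20.PPrime

set_option autoImplicit false
open Cfsg

namespace Cfsg.Agent.S5271

open H20 H27 Subgroup

open Equiv

universe u

theorem mid0 {G : Type*} [Group G] [Finite G] {p : ℕ} [hp : Fact p.Prime] (hG : IsPGroup p G) {k : ℕ} (A : Subgroup G)
    [A.Normal] (h1 : Nat.card A ≤ p ^ k) (h2 : p ^ k ≤ Nat.card G) :
    ∃ H : Subgroup G, H.Normal ∧ A ≤ H ∧ Nat.card H = p ^ k := by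
  obtain ⟨H, ⟨a, b, c⟩, hm⟩ := Set.exists_max_image {H : Subgroup G | H.Normal ∧ A ≤ H ∧ Nat.card H ≤ p ^ k}
    (fun H => Nat.card H) (Set.toFinite _) ⟨A, ‹_›, le_rfl, h1⟩
  refine ⟨H, a, b, c.eq_of_not_lt fun hlt => ?_⟩
  have : Nontrivial (G ⧸ H) := QuotientGroup.nontrivial_iff.2 fun e => by
    rw [e, card_top] at hlt
    omega
  have := (hG.to_quotient H).center_nontrivial
  obtain ⟨z, hz⟩ := exists_prime_orderOf_dvd_card' (G := center (G ⧸ H)) p (H17.dvd_card_of_pgroup_ne_bot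
    ((hG.to_quotient H).to_subgroup _) ((nontrivial_iff_ne_bot _).1 this))
  have n : (zpowers (z : G ⧸ H)).Normal := ⟨fun x hx g => by
    rwa [mem_center_iff.1 (zpowers_le.2 z.2 hx) g, mul_inv_cancel_right]⟩
  have e := H17.card_eq_card_ker_inf_mul (QuotientGroup.mk' H) ((zpowers (z : G ⧸ H)).comap (QuotientGroup.mk' H))
  rw [map_comap_eq_self_of_surjective (QuotientGroup.mk'_surjective H), inf_eq_left.2 (ker_le_comap _ _),
    QuotientGroup.ker_mk', Nat.card_zpowers, orderOf_coe, hz] at e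
  obtain ⟨j, hj⟩ := (hG.to_subgroup H).exists_card_eq
  have := hm _ ⟨n.comap _, b.trans (QuotientGroup.le_comap_mk' _ _), by
    rw [e, hj, ← pow_succ]
    exact Nat.pow_le_pow_right hp.out.pos ((Nat.pow_lt_pow_iff_right hp.out.one_lt).1 (hj ▸ hlt))⟩
  rw [e] at this
  exact (lt_mul_of_one_lt_right Nat.card_pos hp.out.one_lt).not_ge this

theorem mid {G : Type*} [Group G] {p : ℕ} [hp : Fact p.Prime] {P A : Subgroup G} [Finite P] (hP : IsPGroup p P) {k : ℕ}
    (hA : A ≤ P) (hn : P ≤ normalizer (A : Set G)) (h1 : Nat.card A ≤ p ^ k) (h2 : p ^ k ≤ Nat.card P) :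
    ∃ H, A ≤ H ∧ H ≤ P ∧ P ≤ normalizer (H : Set G) ∧ Nat.card H = p ^ k := by
  have := normal_subgroupOf_of hn
  obtain ⟨H, a, b, c⟩ := mid0 hP (A.subgroupOf P) (by rwa [Nat.card_congr (subgroupOfEquivOfLe hA).toEquiv]) h2
  exact ⟨H.map P.subtype, (map_subgroupOf_eq_of_le hA).ge.trans (map_mono b), map_subtype_le _,
    H17.le_normalizer_map_subtype a, by rwa [card_map_of_injective P.subtype_injective]⟩

theorem exists_max {G : Type*} [Group G] {p : ℕ} [hp : Fact p.Prime] {S U : Subgroup G} [Finite S] (hS : IsPGroup p S)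
    (hU : U ≤ S) (h : ¬ U ≤ H4.phi p S) :
    ∃ M ≤ S, ⁅S, S⁆ ≤ M ∧ M.relIndex S = p ∧ ¬ U ≤ M := by
  by_contra hc
  push Not at hc
  refine h (H4.phi_eq_frattini hS ▸ (map_subgroupOf_eq_of_le hU).ge.trans
    (map_mono (H3.le_frattini_of_forall fun M hM => ?_)))
  obtain ⟨M', a, b, c⟩ := H3.exists_normal_index_eq_prime_ge hS hM.1
  obtain rfl : M = M' := (hM.le_iff.1 c).resolve_left (fun e => hp.out.ne_one (by rw [← b, e, index_top])) |>.symm
  have := hc _ (map_subtype_le M) ((H3.commutator_le_map_subtype_frattini hS).trans (map_mono (frattini_le_coatom hM)))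
    (by rw [relIndex, subgroupOf, comap_map_eq_self_of_injective S.subtype_injective, b])
  exact (comap_mono this).trans (comap_map_eq_self_of_injective S.subtype_injective M).le

theorem main {p : ℕ} [hp : Fact p.Prime] (n : ℕ) : ∀ {Ω : Type u} [Group Ω] {S : Subgroup Ω} [Finite S]
    (F : FusionSystem S) (k : ℕ), Nat.card S = n → IsPGroup p S → F.IsSaturated p → p ^ k < Nat.card S →
    (∀ Q ≤ S, Nat.card Q = p ^ k → ∃ P, F.StronglyClosed P ∧ F.StronglyClosed (Q ⊔ P) ∧ F.StronglyClosed (Q ⊓ P)) →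
    (∀ R ≤ S, ∀ H ≤ R, R ≤ normalizer (H : Set Ω) → Nat.card H = p ^ k → ∀ α ∈ AutF F R, α ∈ Stab H → QElt p α →
      α = 1) → Sub F (innerFusionSystem S) := by
  induction n using Nat.strong_induction_on with
  | _ n ih =>
  intro Ω _ S _ F k hn hS hF hk hW hN
  rcases Nat.eq_zero_or_pos k with rfl | hk0
  · exact sub_inner_of hS hF fun P hP α hα => hN P hP.le ⊥ bot_le le_normalizer_bot (by simp) α hα
      (Fix_le_Stab (fix_bot (AutF_hom hα)))
  set U := F.hyperfocalSubgroup p with hU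
  have hA : ∀ T, F.StronglyClosed T → T ≠ ⊥ → Nat.card T ≤ p ^ k → U ≤ T := fun T hT h0 hc => by
    obtain ⟨Ω', _, S', _, F', f, h, rfl⟩ := exists_epi_quot hS hF hT
    have := fin_of_le hT.1
    obtain ⟨j, hj⟩ := (hS.to_le hT.1).exists_card_eq
    have hjk : j ≤ k := (Nat.pow_le_pow_iff_right hp.out.one_lt).1 (hj ▸ hc)
    have hpre : ∀ Q' ≤ S', Nat.card Q' = p ^ (k - j) → Nat.card (h.hom.pre Q') = p ^ k := fun Q' a b => by
      rw [h.hom.card_of_ker (h.hom.pre_le _) h.hom.ker_le_pre, h.img_pre a, b, hj, ← pow_add, Nat.sub_add_cancel hjk]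
    have := ih _ (hn ▸ Epi.card_lt h h0) F' (k - j) rfl (h.pgroup hS) (h.sat hS hF) (by
        rw [h.hom.card_of_ker le_rfl hT.1, h.surj, hj, ← Nat.sub_add_cancel hjk, pow_add] at hk
        exact lt_of_mul_lt_mul_right hk (Nat.zero_le _))
      (fun Q' a b => by
        obtain ⟨P, c1, c2, c3⟩ := hW _ (h.hom.pre_le Q') (hpre Q' a b)
        refine ⟨img P f, h.sc_img c1, ?_, ?_⟩
        · have := h.sc_img c2
          rwa [(h.hom.mono c2.1).img_sup, h.img_pre a] at this
        · have := h.sc_img c3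
          rwa [show img (h.hom.pre Q' ⊓ P) f = Q' ⊓ img P f from le_antisymm (img_le_iff.2 fun x hx =>
            ⟨hx.1.2, mem_img_of_mem f hx.2⟩) fun y hy => by
              obtain ⟨x, hx, rfl⟩ := (h.hom.mono c1.1).mem_img.1 hy.2
              exact mem_img_of_mem f ⟨⟨c1.1 hx, hy.1⟩, hx⟩] at this)
      (fun R' a H' b c d α' hα' e q => by
        have hR := h.hom.pre_le R'
        rw [← h.img_pre a, h.AutF_eq hR h.hom.ker_le_pre] at hα'
        have hi := h.mph.homOn_ind hR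
        obtain ⟨α, hα, rfl⟩ := hi.mem_img.1 hα'
        obtain ⟨m, q1, q2⟩ := hi.exists_qElt_lift hα q
        have := fin_of_le (h.hom.pre_le H')
        rw [← q2] at e ⊢
        rw [hN _ hR _ (h.hom.pre_mono b) (pre_le_normalizer h.hom c) (hpre H' (b.trans a) d) _ (pow_mem hα m)
          (mem_Stab_of_finite fun x hx => ⟨hR (AutF_apply_mem (pow_mem hα m) (h.hom.pre_mono b hx)), ?_⟩) q1,
          hi.one]
        rw [← ind_rl (h.mph.AutF_le_Indu hR (pow_mem hα m)) x (h.hom.pre_mono b hx)]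
        exact stab_mem e hx.2)
    have e := (hyp_eq_bot_iff (h.pgroup hS) (h.sat hS hF)).2 this
    rw [h.hyp_eq] at e
    exact fun x hx => ⟨hyp_le hx, e.le (mem_img_of_mem f hx)⟩
  have hne : ∀ Q : Subgroup Ω, Nat.card Q = p ^ k → Q ≠ ⊥ := fun Q a b => by
    rw [b, card_bot] at a
    exact (Nat.one_lt_pow hk0.ne' hp.out.one_lt).ne a
  have hB : ∀ m, ∀ T, F.StronglyClosed T → Nat.card T = m → T ≠ ⊥ → U ≤ T ∧ Nat.card U ≤ p ^ k := fun m => by
    induction m using Nat.strong_induction_on with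
    | _ m ihm =>
    intro T hT hm h0
    have := fin_of_le hT.1
    by_cases hc : Nat.card T ≤ p ^ k
    · exact ⟨hA T hT h0 hc, (card_le_of_le' (hA T hT h0 hc)).trans hc⟩
    by_contra hx
    have hmin : ∀ N ≤ T, F.StronglyClosed N → N = ⊥ ∨ N = T := fun N a b => by
      by_contra hy
      push Not at hy
      have := ihm _ (hm ▸ card_lt_of_lt' (lt_of_le_of_ne a hy.2)) N b rfl hy.1
      exact hx ⟨this.1.trans a, this.2⟩
    obtain ⟨Q, -, q1, -, q2⟩ := mid (hS.to_le hT.1) (k := k) bot_le le_normalizer_bot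
      (by rw [card_bot]; exact Nat.one_le_pow _ _ hp.out.pos) (not_le.1 hc).le
    obtain ⟨P, c1, c2, c3⟩ := hW Q (q1.trans hT.1) q2
    have hQT : ¬ T ≤ Q := fun e => hc (q2 ▸ (le_antisymm e q1 ▸ le_rfl))
    have d1 := (hmin _ (inf_le_left.trans q1) c3).resolve_right fun e => hQT (e.ge.trans inf_le_left)
    have d2 := (hmin _ inf_le_right (sc_inf c1 hT)).resolve_right fun e =>
      hne Q q2 (le_bot_iff.1 ((le_inf le_rfl (q1.trans (e.ge.trans inf_le_left))).trans d1.le))
    have d3 := (hmin _ inf_le_right (sc_inf c2 hT)).resolve_left fun e =>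
      hne Q q2 (le_bot_iff.1 ((le_inf le_sup_left q1).trans e.le))
    rw [H17.sup_inf_of_le_left ((q1.trans hT.1).trans (sc_normal c1)) q1, d2, sup_bot_eq] at d3
    exact hQT d3.ge
  have hC : ∀ Q ≤ S, Nat.card Q = p ^ k → U ≤ Q ∨ Q ⊓ U = ⊥ := fun Q a b => by
    obtain ⟨P, c1, c2, c3⟩ := hW Q a b
    by_cases e : P = ⊥
    · rw [e, sup_bot_eq] at c2
      exact Or.inl (hB _ Q c2 rfl (hne Q b)).1
    by_cases e' : Q ⊓ P = ⊥
    · exact Or.inr (le_bot_iff.1 ((inf_le_inf_left Q (hB _ P c1 rfl e).1).trans e'.le))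
    · exact Or.inl ((hB _ _ c3 rfl e').1.trans inf_le_left)
  have hUk := (hB _ S (sc_top F) rfl fun e => by
    rw [e, card_bot] at hk
    exact (Nat.one_le_pow _ _ hp.out.pos).not_gt hk).2
  have hUS : U ≤ S := hyp_le
  have hUn : S ≤ normalizer (U : Set Ω) := hyp_normal
  have := fin_of_le hUS
  by_cases hφ : U ≤ H4.phi p S
  · exact inner_of_foc_le_phi hS hF ((foc_eq hS hF).le.trans (sup_le hφ (H4.commutator_le_phi p S)))
  obtain ⟨M, m1, m5, m3, m4⟩ := exists_max hS hUS hφ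
  have := fin_of_le m1
  obtain ⟨Q, q1, q2, -, q3⟩ := mid (hS.to_le m1) (k := k) (A := U ⊓ M) inf_le_right
    (H17.le_normalizer_inf (m1.trans hUn) le_normalizer) ((card_le_of_le' inf_le_left).trans hUk) (by
      obtain ⟨j, hj⟩ := (hS.to_le m1).exists_card_eq
      rw [← H17.card_mul_relIndex m1, m3, hj, ← pow_succ, Nat.pow_lt_pow_iff_right hp.out.one_lt] at hk
      exact hj ▸ Nat.pow_le_pow_right hp.out.pos (Nat.lt_succ_iff.1 hk))
  have e : U ⊓ M = ⊥ := le_bot_iff.1 ((le_inf q1 inf_le_left).trans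
    ((hC Q (q2.trans m1) q3).resolve_left fun a => m4 (a.trans q2)).le)
  have hUM : ⁅U, S⁆ ≤ M := (commutator_mono hUS le_rfl).trans m5
  have hZ : S ≤ cIn S U := le_inf le_rfl (H17.le_centralizer_of_commutator_eq_bot' (le_bot_iff.1
    ((le_inf (H17.commutator_le_left_of_le_normalizer hUn) hUM).trans e.le)))
  obtain ⟨H, h1, h2, h3, h4⟩ := mid hS hUS hUn hUk hk.le
  have := fin_of_le h2
  have hT : ∀ α ∈ AutF F S, QElt p α → α = 1 := fun α a b => hN S le_rfl H h2 h3 h4 α a
    (mem_Stab_of_finite fun x hx => by simpa using mul_mem hx (h1 (mem_hyp le_rfl a b (h2 hx)))) b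
  refine sub_inner_of hS hF fun P hP α hα hq => ?_
  have hUP : U ≤ P := (le_inf hUS (le_centralizer_iff.1 (hP.le.trans (hZ.trans cIn_le_cent)))).trans
    (centric_self (hP.crfn hS hF).1)
  have hs := (AutF_mor hP.le hα).sc_stab (sc_hyp hS hF) hUP
  have hr := ((AutF_mor hP.le hα).mono hUP).res_mem hs
  obtain ⟨ρ, r1, r2⟩ := exists_ext_cIn (fn_rec hS hF (fn_of_normal hUS hUn)) hr
  rw [le_antisymm (sup_le hUS cIn_le) (hZ.trans le_sup_right)] at r1
  obtain ⟨ρ', s1, s2, s3⟩ := exists_qElt_ext' (res_mem_Supp _ _) ((homOn_res _).qElt hs hq) r1 hUS r2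
  refine eq_one_of_Supp (AutF_le_Supp hα) fun x hx => coprime_fix_perm_bot (AutF_hom hα) hUP (hS.to_le hUS)
    (fun y hy => ?_) hq hx (mem_hyp hP.le hα hq hx)
  rw [← res_apply hs hy, ← s3 y hy, hT ρ' s1 s2, Perm.one_apply]

/-- A nilpotency criterion for fusion systems. Let F be a saturated fusion system over a finite p-group S of order at least p². Call a subgroup Q of S weakly embedded in F when there is a subgroup P of S strongly closed in F such that both the product QP and the intersection Q ∩ P are strongly closed in F. Then F is the inner fusion system of S if and only if there is a subgroup D of S with 1 < D < S such that every subgroup of S of the same order as D is weakly embedded in F and, for every fully normalized subgroup H of S of that order, the normalizer fusion system of H in F is the inner fusion system of N_S(H). -/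
theorem result {Ω : Type*} [Group Ω] {S : Subgroup Ω} [Finite S] (p : ℕ) [Fact p.Prime] (hS : IsPGroup p ↥S) (F : Cfsg.FusionSystem S) (hF : F.IsSaturated p) (hcard : p ^ 2 ≤ Nat.card S) : (∀ P : Subgroup Ω, F.Hom P = (Cfsg.innerFusionSystem S).Hom P) ↔ ∃ D : Subgroup Ω, ⊥ < D ∧ D < S ∧ (∀ Q : Subgroup Ω, Q ≤ S → Nat.card ↥Q = Nat.card ↥D → ∃ P : Subgroup Ω, F.StronglyClosed P ∧ F.StronglyClosed (Q ⊔ P) ∧ F.StronglyClosed (Q ⊓ P)) ∧ (∀ H : Subgroup Ω, F.IsFullyNormalized H → Nat.card ↥H = Nat.card ↥D → ∀ N : Cfsg.FusionSystem (Cfsg.FusionSystem.normalizerIn S H), F.IsNormalizerSystem H N → ∀ P : Subgroup Ω, N.Hom P = (Cfsg.innerFusionSystem (Cfsg.FusionSystem.normalizerIn S H)).Hom P) := by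
  have hp : p.Prime := Fact.out
  rw [hom_eq_inner_iff]
  constructor
  · intro h
    obtain ⟨j, hj⟩ := hS.exists_card_eq
    have h2 : 2 ≤ j := (Nat.pow_le_pow_iff_right hp.one_lt).1 (hj ▸ hcard)
    obtain ⟨D, -, d1, -, d2⟩ := mid hS (k := j - 1) bot_le le_normalizer_bot
      (by rw [card_bot]; exact Nat.one_le_pow _ _ hp.pos) (hj ▸ Nat.pow_le_pow_right hp.pos (by omega))
    refine ⟨D, bot_lt_iff_ne_bot.2 fun e => ?_, lt_of_le_of_ne d1 fun e => ?_, fun Q a b => ⟨⊥, sc_bot F, ?_, ?_⟩,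
      fun H _ _ N hN => hom_eq_inner_iff.2 (kn_inner h (kd_Stab H) (isKN_Stab.2 hN))⟩
    · rw [e, card_bot] at d2
      exact (Nat.one_lt_pow (by omega) hp.one_lt).ne d2
    · rw [e, hj] at d2
      have := Nat.pow_right_injective hp.two_le d2
      omega
    · rw [sup_bot_eq]
      refine sc_of_hyp_le hS hF a ?_ (((hyp_eq_bot_iff hS hF).2 h).le.trans bot_le)
      have := fin_of_le a
      have e : Q < S := lt_of_le_of_ne a fun e => by
        rw [e, d2, hj] at b
        have := Nat.pow_right_injective hp.two_le b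
        omega
      have := fin_of_le (nIn_le (S := S) (P := Q))
      obtain ⟨i, hi⟩ := (hS.to_le (nIn_le (S := S) (P := Q))).exists_card_eq
      have e2 := card_lt_of_lt' (lt_nIn hS e)
      rw [b, d2, hi, Nat.pow_lt_pow_iff_right hp.one_lt] at e2
      exact (H20.eq_of_le_of_card_le nIn_le (by rw [hi, hj]; exact Nat.pow_le_pow_right hp.pos (by omega))).ge.trans
        nIn_le_norm
    · rw [inf_bot_eq]
      exact sc_bot F
  · rintro ⟨D, -, d2, d3, d4⟩
    have := fin_of_le d2.le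
    obtain ⟨k, hk⟩ := (hS.to_le d2.le).exists_card_eq
    rw [hk] at d3 d4
    refine main _ F k rfl hS hF (hk ▸ card_lt_of_lt' d2) d3 fun R a H b c d α hα e q => ?_
    obtain ⟨τ, t1, t2⟩ := exists_fn_map hS hF (b.trans a)
    have hR : R ≤ nIn S H := le_inf a c
    have t3 := t1.mono hR
    have t4 := t3.conj_mem_AutF hα
    have := (loc_inner_iff t2.1).1 (d4 _ t2 (by rw [(t3.mono b).card_img, d])) _ _ (img_mono _ b)
      ((t3.img_nIn_le b le_rfl c).trans nIn_le_norm) (AutF_mor t3.img_le t4)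
      (by rw [← (t3.hom.mono b).cjs_Stab, conj_mem_cjs]; exact e)
    have := (pt_inner (hS.to_le nIn_le) _ _ this (AutF_le_Supp t4)).eq_one (q.conj τ)
    simpa using this

end Cfsg.Agent.S5271
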