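import Cfsg.Statements.S5272
import Cfsg.Agent.H27.FSSparse

set_option autoImplicit false
open Cfsg

namespace Cfsg.Agent.S5272

open H20 H27 Subgroup

/-- An axiomatic Glauberman–Thompson nilpotency criterion for fusion systems. Let p be an odd prime, F a saturated fusion system over a finite p-group S, and 𝒜 a nonempty family of abelian subgroups of S. For Q ≤ S write I(Q) for the intersection of the members of 𝒜 contained in Q. Assume (invariance) that for every Q ≤ S containing a member of 𝒜, every F-automorphism of Q maps I(Q) into itself, and (replacement) that for every subgroup B of S of nilpotency class at most 2, if some member of 𝒜 contains [B,B] but not B, then B normalizes some member of 𝒜 that contains [B,B] but not B. Then F is the inner fusion system of S if and only if the normalizer fusion system of I(S)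 in F is the inner fusion system of N_S(I(S)). -/
theorem result {Ω : Type*} [Group Ω] {S : Subgroup Ω} [Finite S] (p : ℕ) [Fact p.Prime] (hS : IsPGroup p ↥S) (F : Cfsg.FusionSystem S) (hF : F.IsSaturated p) (hp : p ≠ 2) (𝒜 : Set (Subgroup Ω)) (h𝒜 : ∀ A ∈ 𝒜, A ≤ S ∧ IsMulCommutative ↥A) (hne : 𝒜.Nonempty) (hinv : ∀ Q : Subgroup Ω, Q ≤ S → (∃ A ∈ 𝒜, A ≤ Q) → ∀ α ∈ F.autGroup Q, ∀ x : ↥Q, (x : Ω) ∈ (⨅ A ∈ {A : Subgroup Ω | A ∈ 𝒜 ∧ A ≤ Q}, A) → (((α : MulAut ↥Q) x : ↥Q) : Ω) ∈ (⨅ A ∈ {A : Subgroup Ω | A ∈ 𝒜 ∧ A ≤ Q}, A)) (hrep : ∀ B : Subgroup Ω, B ≤ S → ⁅⁅B, B⁆, B⁆ = ⊥ → (∃ A ∈ 𝒜, ⁅B, B⁆ ≤ A ∧ ¬ B ≤ A) → ∃ A ∈ 𝒜, ⁅B, B⁆ ≤ A ∧ ¬ B ≤ A ∧ B ≤ Subgroup.normalizer (A : Set Ω)) : (∀ P : Subgroup Ω, F.Hom P = (Cfsg.innerFusionSystem S).Hom P) ↔ ∀ N : Cfsg.FusionSystem (Cfsg.FusionSystem.normalizerIn S (⨅ A ∈ 𝒜, A)), F.IsNormalizerSystem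 (⨅ A ∈ 𝒜, A) N → ∀ P : Subgroup Ω, N.Hom P = (Cfsg.innerFusionSystem (Cfsg.FusionSystem.normalizerIn S (⨅ A ∈ 𝒜, A))).Hom P := by
  obtain ⟨A₀, hA₀⟩ := hne
  have hI : (⨅ A ∈ 𝒜, A) ≤ S := (biInf_le _ hA₀).trans (h𝒜 A₀ hA₀).1
  refine inner_iff_of hI (inner_of_pStab hp hS hF hI fun D hD G _ _ f m hs => ?_)
  have hf := m.iso.inj
  have key : ∀ ℬ ⊆ 𝒜, ℬ.Nonempty → sInf ((img · f) '' ℬ) = img (⨅ A ∈ ℬ, A) f := by
    rintro ℬ h1 ⟨B, hB⟩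
    refine le_antisymm (fun y hy => ?_) (le_sInf ?_)
    · obtain ⟨x, hx, rfl⟩ := (hf.hom.mono (h𝒜 B (h1 hB)).1).mem_img.1 (mem_sInf.1 hy _ ⟨B, hB, rfl⟩)
      exact mem_img_of_mem f (mem_iInf.2 fun A => mem_iInf.2 fun hA =>
        (hf.mem_img_iff (h𝒜 A (h1 hA)).1 ((h𝒜 B (h1 hB)).1 hx)).1 (mem_sInf.1 hy _ ⟨A, hA, rfl⟩))
    · rintro _ ⟨A, hA, rfl⟩
      exact img_mono f (biInf_le _ hA)
  rw [← key 𝒜 le_rfl ⟨A₀, hA₀⟩]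
  refine zj_axiom (isSyl_of_syl m.syl) (Mdl.charP m) hs ?_ ⟨_, A₀, hA₀, rfl⟩ ?_ ?_
  · rintro _ ⟨A, hA, rfl⟩
    refine ⟨img_mono f (h𝒜 A hA).1, le_centralizer_iff_isMulCommutative.1 (img_le_iff.2 fun g hg =>
      (hf.centralizer_iff (h𝒜 A hA).1 ((h𝒜 A hA).1 hg)).2 (le_centralizer_iff_isMulCommutative.2 (h𝒜 A hA).2 hg))⟩
  · rintro Q' hQ _ ⟨A, hA, rfl⟩ h1 g hg
    obtain ⟨Q, h2, rfl⟩ := m.iso.exists_pre hQ
    rw [hf.img_le_iff (h𝒜 A hA).1 h2] at h1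
    have h3 : {B ∈ (img · f) '' 𝒜 | B ≤ img Q f} = (img · f) '' {A | A ∈ 𝒜 ∧ A ≤ Q} := by
      ext B
      exact ⟨fun ⟨⟨A, a, b⟩, c⟩ => ⟨A, ⟨a, (hf.img_le_iff (h𝒜 A a).1 h2).1 (b.trans_le c)⟩, b⟩,
        fun ⟨A, a, b⟩ => ⟨⟨A, a.1, b⟩, b ▸ img_mono f a.2⟩⟩
    have h4 : (⨅ A ∈ {A | A ∈ 𝒜 ∧ A ≤ Q}, A) ≤ Q := (biInf_le _ (show A ∈ {A | A ∈ 𝒜 ∧ A ≤ Q} from ⟨hA, h1⟩)).trans h1
    rw [h3, key {A | A ∈ 𝒜 ∧ A ≤ Q} (fun _ h => h.1) ⟨A, hA, h1⟩]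
    obtain ⟨σ, h5, h6⟩ := m.lift_cj h2 (mem_top g) fun u hu => hQ (conj_mem_of_mem_normalizer hg.2 (mem_img_of_mem f hu))
    have h7 : σ ∈ Stab Q := h5.stab fun x hx => (hf.mem_img_iff h2 (h5.maps hx)).1
      (h6 x hx ▸ conj_mem_of_mem_normalizer hg.2 (mem_img_of_mem f hx))
    refine mem_normalizer_of_conj fun y hy => ?_
    obtain ⟨x, hx, rfl⟩ := (hf.hom.mono (h4.trans h2)).mem_img.1 hy
    rw [← h6 x (h4 hx)]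
    exact mem_img_of_mem f (hinv Q h2 ⟨A, hA, h1⟩ (toAut h5.hom h7)
      ((mem_autGroup h2).2 (ext_toAut h5.hom h7 ▸ (hD Q σ h5).res h7)) ⟨x, h4 hx⟩ hx)
  · rintro B' hB h1 _ ⟨A, hA, rfl⟩ h2 h3
    obtain ⟨B, h4, rfl⟩ := m.iso.exists_pre hB
    have h5 := commutator_le_self'.trans h4
    rw [← hf.hom.img_commutator h4 h4] at h1 h2
    rw [← hf.hom.img_commutator h5 h4, hf.img_eq_bot_iff ((commutator_mono commutator_le_self' le_rfl).trans h5)] at h1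
    obtain ⟨A', h6, -, h7, h8⟩ := hrep B h4 h1 ⟨A, hA, (hf.img_le_iff h5 (h𝒜 A hA).1).1 h2, mt (img_mono f) h3⟩
    exact ⟨_, ⟨A', h6, rfl⟩, mt (hf.img_le_iff h4 (h𝒜 A' h6).1).1 h7, img_le_iff.2 fun g hg =>
      (hf.normalizer_iff (h𝒜 A' h6).1 (h4 hg)).2 (h8 hg)⟩

end Cfsg.Agent.S5272
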