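import Cfsg.Statements.S5274
import Cfsg.Agent.H20.Solv

set_option autoImplicit false
open Cfsg

namespace Cfsg.Agent.S5274

open Subgroup

open H20 Equiv

universe u

section
variable {Ω : Type u} [Group Ω] {S P : Subgroup Ω}

def V (P : Subgroup Ω) (m : ℕ) : Subgroup Ω where
  carrier := {y | ∃ a ∈ cIn P P, a ^ m = y}
  one_mem' := ⟨1, one_mem _, one_pow _⟩
  mul_mem' := by
    rintro _ _ ⟨a, ha, rfl⟩ ⟨b, hb, rfl⟩
    exact ⟨a * b, mul_mem ha hb, Commute.mul_pow (hb.2 a ha.1) m⟩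
  inv_mem' := by
    rintro _ ⟨a, ha, rfl⟩
    exact ⟨a⁻¹, inv_mem ha, inv_pow a m⟩

theorem V_le {m : ℕ} : V P m ≤ cIn P P := by
  rintro _ ⟨a, ha, rfl⟩
  exact pow_mem ha m

theorem stabV [Finite S] {F : FusionSystem S} (hP : P ≤ S) {m : ℕ} : AutF F P ≤ Stab (V P m) := fun α hα => by
  have := fin_of_le (V_le.trans (cIn_le.trans hP) : V P m ≤ S)
  refine mem_Stab_of_finite ?_
  rintro _ ⟨a, ha, rfl⟩
  exact ⟨α a, stab_mem ((AutF_hom hα).stab_cIn le_rfl (AutF_le_Stab hα) (AutF_le_Stab hα)) ha,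
    ((AutF_hom hα).pow ha.1 m).symm⟩

theorem fixV (hP : P ≤ S) {m : ℕ} (hm : ∀ x ∈ S, x ^ (2 * m) = 1) {t : Ω} (ht : t ∈ nIn S P) (h2 : t * t ∈ P) :
    cr P t ∈ H20.Fix (V P m) := by
  rintro _ ⟨a, ha, rfl⟩
  rw [cr_apply ht.2 (pow_mem ha.1 m), ← conj_pow]
  have hb : t * a * t⁻¹ ∈ cIn P P :=
    stab_mem ((homOn_cj P t).stab_cIn le_rfl (cj_mem_Stab.2 ht.2) (cj_mem_Stab.2 ht.2)) ha
  have h1 := hm _ (mul_mem (hP ha.1) ht.1)
  have h3 := hm t ht.1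
  have h4 := hm a (hP ha.1)
  rw [pow_mul, pow_two] at h3
  rw [pow_mul, show (a * t) ^ 2 = (a * (t * a * t⁻¹)) * (t * t) by rw [pow_two]; group,
    Commute.mul_pow ((mul_mem ha hb).2 _ h2).symm, h3, mul_one, Commute.mul_pow (hb.2 a ha.1)] at h1
  rw [two_mul, pow_add] at h4
  exact mul_left_cancel (h1.trans h4.symm)

theorem normalV [Finite S] (hS : IsPGroup 2 S) {F : FusionSystem S} (hF : F.IsSaturated 2) {m : ℕ}
    (hm : ∀ x ∈ S, x ^ (2 * m) = 1) : F.IsNormal (V S m) := by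
  have hU : V S m ≤ S := V_le.trans cIn_le
  obtain ⟨E, hE⟩ := exists_isKN (T := S) F hU (kd_Stab _) (le_antisymm (fun g hg => ⟨hg, cj_mem_Stab.2
    ((cr_mem_Stab_iff hU (le_normalizer hg)).1 (stabV le_rfl (cr_mem_AutF F le_rfl hg (le_normalizer hg))))⟩) NK_le)
  refine normal_iff.2 ⟨hU, fun P σ hσ => hE.ext (aft_ind hS hF (fun P hP ih => ?_) P σ hσ)⟩
  have hc := centric_self (hP.crfn hS hF).1
  have h1 : V S m ≤ V P m := by
    rintro _ ⟨a, ha, rfl⟩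
    exact ⟨a, ⟨hc (cIn_anti hP.le ha), fun y hy => ha.2 y (hP.le hy)⟩, rfl⟩
  have h2 : ∀ α ∈ AutF F P, α ∈ Stab (V S m) → α ∈ AutF E P := fun α hα h => Sub.mem_AutF hα
    ((hE.mor_iff_of_le (kd_Stab _) (h1.trans (V_le.trans cIn_le)) hP.le).2 ⟨AutF_mor hP.le hα, h⟩)
  rcases hP with rfl | hP
  · exact fun α hα => h2 α hα (stabV le_rfl hα)
  have hlt := ess_lt hS hF hP
  refine le_of_frattini hS hF hP.2.1 (B := AutF F P ⊓ H20.Fix (V P m)) inf_le_left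
    (fun g hg => mem_normalizer_inf (le_normalizer hg) (Stab_le_normalizer_Fix (stabV hlt.le hg)))
    (fun α hα => h2 α hα.1 (Fix_le_Stab (Fix_anti h1 hα.2))) fun τ hτ _ => (ih _ τ ?_ hτ).mono le_sup_left
  obtain ⟨g, hg, hgP⟩ := SetLike.exists_of_lt (lt_nIn hS hlt)
  obtain ⟨k, hk⟩ := hS ⟨g, hg.1⟩
  obtain ⟨j, a1, a2⟩ := Nat.exists_not_and_succ_of_not_zero_of_exists (p := fun j => g ^ 2 ^ j ∈ P) (by simpa using hgP)
    ⟨k, by rw [show g ^ 2 ^ k = 1 from congrArg Subtype.val hk]; exact one_mem _⟩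
  have ht := pow_mem hg (2 ^ j)
  have := hτ.finite
  refine card_lt_of_lt' (lt_of_le_of_ne le_sup_left fun e => a1 (e.ge (mem_sup_right (mem_RB.2 ⟨ht,
    cr_mem_AutF F hlt.le ht.1 ht.2, fixV hlt.le hm ht ?_⟩))))
  rwa [← pow_add, ← two_mul, ← pow_succ']

end

theorem main (n : ℕ) : ∀ {Ω : Type u} [Group Ω] {S : Subgroup Ω} [Finite S], IsPGroup 2 S → ∀ F : FusionSystem S,
    F.IsSaturated 2 → (∀ x ∈ S, ∃ σ, Mor F (zpowers x) σ ∧ σ x ∈ cIn S S) → Nat.card S = n →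
    ∀ x ∈ S, ∀ y ∈ S, x * y = y * x := by
  induction n using Nat.strong_induction_on with
  | _ n ih =>
  intro Ω _ S _ hS F hF h hn
  by_cases h0 : ∀ x ∈ S, x ^ 2 ^ 0 = 1
  · intro x hx y _
    rw [show x = 1 by simpa using h0 x hx, one_mul, mul_one]
  obtain ⟨k, hk⟩ := hS.exists_card_eq
  obtain ⟨e, a1, a2⟩ := Nat.exists_not_and_succ_of_not_zero_of_exists (p := fun j => ∀ x ∈ S, x ^ 2 ^ j = 1) h0
    ⟨k, fun x hx => by rw [← hk]; exact congrArg Subtype.val (pow_card_eq_one' (x := (⟨x, hx⟩ : S)))⟩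
  have hU := normalV hS hF (m := 2 ^ e) (by simpa only [pow_succ'] using a2)
  have hs := normal_sc hU
  have := normal_subgroupOf_of (S := S) (R := V S (2 ^ e)) fun g hg =>
    centralizer_le_normalizer _ (mem_centralizer_iff.2 fun y hy => ((V_le hy).2 g hg).symm)
  obtain ⟨f, E, hE, hk, -⟩ := exists_quot_epi hS hF hs
  have h1 : V S (2 ^ e) ≠ ⊥ := fun e0 => a1 fun x hx => by
    obtain ⟨σ, hσ, hz⟩ := h x hx
    have : σ x ^ 2 ^ e = 1 := e0.le ⟨_, hz, rfl⟩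
    rw [← hσ.hom.pow (mem_zpowers x), ← hσ.hom.one] at this
    exact σ.injective this
  have h2 := ih _ ?_ (hE.pgroup hS) E (hE.sat hS hF) (fun x' hx' => ?_) rfl
  rotate_left
  · have := hE.hom.card_of_ker le_rfl (hE.hom.pre_le _)
    have := fin_of_le hU.1
    have b := (one_lt_card_iff_ne_bot _).2 h1
    rw [hE.surj, hk] at *
    have : 0 < Nat.card (⊤ : Subgroup (S ⧸ (V S (2 ^ e)).subgroupOf S)) := Nat.card_pos
    nlinarith
  · obtain ⟨x, hx, rfl⟩ := hE.hom.mem_img.1 (hE.surj.ge hx')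
    obtain ⟨σ, hσ, hz⟩ := h x hx
    obtain ⟨σ', b1, b2⟩ := hE.map _ σ hσ
    refine ⟨σ', b1.mono (zpowers_le.2 ((hE.hom.mono hσ.le).mem_img.2 ⟨x, mem_zpowers x, rfl⟩)), ?_⟩
    have := hE.hom.img_cIn_le le_rfl le_rfl ((hE.hom.mono cIn_le).mem_img.2 ⟨_, hz, rfl⟩)
    rwa [hE.surj, ← b2 x (mem_zpowers x)] at this
  have hN : F.IsNormal S := normal_of_chain hS hF (sc_top F) (.tail (.single ⟨hs, sc_bot F,
    (commutator_eq_bot_of_comm fun x hx y hy => (V_le hy).2 x hx).le⟩) ⟨sc_top F, hs, commutator_le.2 fun x hx y hy => by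
      rw [← hk]
      refine ⟨commutator_le_self S (commutator_mem_commutator hx hy), ?_⟩
      rw [hE.hom.comm hx hy, mem_bot, commutatorElement_eq_one_iff_mul_comm]
      exact h2 _ trivial _ trivial⟩)
  intro x hx y hy
  obtain ⟨σ, hσ, hz⟩ := h x hx
  obtain ⟨α, hα, e1⟩ := normal_ext_aut hN hσ.le hσ
  rw [← e1 x (mem_zpowers x), mem_Stab.1 ((AutF_hom hα).stab_cIn le_rfl (AutF_le_Stab hα) (AutF_le_Stab hα))] at hz
  exact (hz.2 y hy).symm

/-- Let F be a saturated fusion system over a finite 2-group S. Suppose that every element of S is F-conjugate to an element of the centre Z(S) (some map of F defined on the cyclic subgroup it generates sends it into Z(S)). Then S is abelian. -/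
theorem result {Ω : Type*} [Group Ω] {S : Subgroup Ω} [Finite S] (hS : IsPGroup 2 ↥S) (F : Cfsg.FusionSystem S) (hF : F.IsSaturated 2) (h : ∀ x ∈ S, ∃ z ∈ S ⊓ Subgroup.centralizer (S : Set Ω), F.IsConjElt x z) : IsMulCommutative ↥S := by
    refine comm_iff.2 (main _ hS F hF (fun x hx => ?_) rfl)
    obtain ⟨z, hz, e⟩ := h x hx
    obtain ⟨σ, hσ, rfl⟩ := isConjElt_iff.1 e
    exact ⟨σ, hσ, hz⟩

end Cfsg.Agent.S5274
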