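import Cfsg.Statements.S5276
import Cfsg.Agent.H27.Tate

set_option autoImplicit false
open Cfsg

namespace Cfsg.Agent.S5276

open H20 H27 Subgroup

/-- Let p be a prime and F a saturated fusion system over a finite p-group S. Then F is the inner fusion system of S if and only if the normalizer fusion system of S itself in F is the inner fusion system (equivalently, Aut_F(S) is induced by S) and the Frattini subgroup Φ(S) is strongly closed in F. -/
theorem result {Ω : Type*} [Group Ω] {S : Subgroup Ω} [Finite S] (p : ℕ) [Fact p.Prime] (hS : IsPGroup p ↥S) (F : Cfsg.FusionSystem S) (hF : F.IsSaturated p) : (∀ P : Subgroup Ω, F.Hom P = (Cfsg.innerFusionSystem S).Hom P) ↔ (∀ N : Cfsg.FusionSystem (Cfsg.FusionSystem.normalizerIn S S), F.IsNormalizerSystem S N → ∀ P : Subgroup Ω, N.Hom P = (Cfsg.innerFusionSystem (Cfsg.FusionSystem.normalizerIn S S)).Hom P) ∧ F.StronglyClosed ((frattini ↥S).map S.subtype) := by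
  rw [← H4.phi_eq_frattini hS, hom_eq_inner_iff, loc_inner_iff le_rfl]
  refine ⟨fun h => ⟨(loc_inner_iff le_rfl).1 fun N hN => hom_eq_inner_iff.2 (kn_inner h (kd_Stab S) (isKN_Stab.2 hN)),
    sc_of_hyp_le hS hF (H4.phi_le p S) (le_normalizer.trans (H4.normalizer_le_normalizer_phi p S))
      (((hyp_eq_bot_iff hS hF).2 h).le.trans bot_le)⟩, fun h => ?_⟩
  exact inner_of_foc_le_phi hS hF (foc_le_of_sc hS hF (h.1.pgroup_aut (pt_inner (hS.to_le nIn_le))) h.2
    (H4.commutator_le_phi p S))

end Cfsg.Agent.S5276
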