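import Cfsg.Statements.S5280
import Cfsg.Agent.H27.FSStab

set_option autoImplicit false
open Cfsg

namespace Cfsg.Agent.S5280

open H20 H27 Subgroup

/-- Let p be a prime greater than 3, G a finite group with Sylow p-subgroup P, and F the fusion system of G on P. Suppose F is p-stable: for every fully normalized subgroup Q and every χ in Aut_F(Q) acting quadratically on Q (χ(a⁻¹)·a·χ(a⁻¹)·χ(χ(a)) = 1 for all a in Q), χ lies in O_p(Aut_F(Q)). Then F is constrained: some subgroup normal in F is F-centric. -/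
theorem result {Ω : Type*} [Group Ω] [Finite Ω] (p : ℕ) [Fact p.Prime] (hp : 3 < p) (P : Sylow p Ω) (hst : (∀ Q : Subgroup Ω, (Cfsg.groupFusionSystem (P : Subgroup Ω)).IsFullyNormalized Q → ∀ χ : MulAut ↥Q, χ ∈ (Cfsg.groupFusionSystem (P : Subgroup Ω)).autGroup Q → (∀ a : ↥Q, (χ a⁻¹) * a * (χ a⁻¹) * (χ (χ a)) = 1) → χ ∈ ((Cfsg.pCore p ↥((Cfsg.groupFusionSystem (P : Subgroup Ω)).autGroup Q)).map ((Cfsg.groupFusionSystem (P : Subgroup Ω)).autGroup Q).subtype : Subgroup (MulAut ↥Q)))) : (Cfsg.groupFusionSystem (P : Subgroup Ω)).IsConstrained p := by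
  have hS := H26.isSyl_top P
  rw [ps_iff, ps_group_iff hS] at hst
  have h := fnormal_of_ctl (opF_le _ ⊤) ((ctl_opF (P : Subgroup Ω) ⊤).imp inf_le_right)
  exact ⟨sat_group P, _, h, centric_of_fc (fn_fc hS.isP (sat_group P) (fn_of_normal h.1 (sc_normal (normal_sc h))))
    (centric_opF_of_pStable (by omega) hst hS)⟩

end Cfsg.Agent.S5280
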