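import Cfsg.Statements.S5291
import Cfsg.Agent.H20.Inv

set_option autoImplicit false
open Cfsg H20

namespace Cfsg.Agent.S5291

/-- Let F be a saturated fusion system over a finite p-group S and E a weakly normal subsystem of F over a subgroup T. Suppose a subgroup R of T is normal in E (E = N_E(R)), and let R* be the subgroup of T generated by the images of R under all maps of F with source R. Then R* is normal in F (F = N_F(R*)). -/
theorem result {Ω : Type*} [Group Ω] {S : Subgroup Ω} [Finite S] (p : ℕ) [Fact p.Prime] (hS : IsPGroup p S)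
    (F : Cfsg.FusionSystem S) (hF : F.IsSaturated p)
    {T : Subgroup Ω} (E : Cfsg.FusionSystem T) (hE : E.IsWeaklyNormalIn F p)
    (R : Subgroup Ω) (hR : E.IsNormal R) :
    F.IsNormal (Subgroup.closure {x : Ω | ∃ φ ∈ F.Hom R, ∃ r : R, x = φ r}) := by
  have hi := wn_inv hE
  have := fin_of_le hi.le
  set X := Subgroup.closure {x : Ω | ∃ φ ∈ F.Hom R, ∃ r : R, x = φ r} with hX
  have e : X = sSup {Q | E.IsNormal Q ∧ Q ≤ X} := by
    refine le_antisymm ((Subgroup.closure_le _).2 ?_) (sSup_le fun _ h => h.2)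
    rintro _ ⟨φ, hφ, r, rfl⟩
    obtain ⟨σ, hσ, e⟩ := exists_mor hφ
    obtain ⟨α, hα, h1⟩ := hi.frat R σ hR.1 hσ
    refine (le_sSup (s := {Q | E.IsNormal Q ∧ Q ≤ X}) (a := img R α) ⟨hi.normal_img hR hα,
      img_le_iff.2 fun x hx => Subgroup.subset_closure
        ⟨_, ((AutF_mor hi.le hα).mono hR.1).toHom_mem, ⟨x, hx⟩, rfl⟩⟩) ?_
    have := mem_img_of_mem α (h1.sc (normal_sc hR) r.2 r.2)
    rw [e]; simpa using this
  have hn : E.IsNormal X := by
    rw [e]
    exact (sSup_mem_of_sup (S := T) (C := fun Q => E.IsNormal Q ∧ Q ≤ X) (fun _ h => h.1.1)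
      ⟨normal_bot E, bot_le⟩ fun _ _ h h' => ⟨normal_sup h.1 h'.1, sup_le h.2 h'.2⟩).1
  refine hi.normal hS hF hn fun α hα => ((AutF_mor hi.le hα).mono hn.1).stab
    ((AutF_hom hα).mem_of_closure hn.1 ?_)
  rintro _ ⟨φ, hφ, r, rfl⟩
  obtain ⟨σ, hσ, e⟩ := exists_mor hφ
  exact Subgroup.subset_closure ⟨_, (hσ.comp (AutF_mor hi.le hα) fun x hx =>
    hσ.sc hi.sc hx (hR.1 hx)).toHom_mem, r, by rw [e]; rfl⟩

end Cfsg.Agent.S5291
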