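import Cfsg.Statements.S5298
import Cfsg.Agent.H3.FS4

set_option autoImplicit false
universe u
open Cfsg

namespace Cfsg.Agent.S5298

/-- Let F be a saturated fusion system over a finite p-group S. If every map of F between cyclic subgroups of the hyperfocal subgroup of F of order p or 4 is conjugation by an element of S, then F is the inner fusion system of S. -/
theorem result {Ω : Type u} [Group Ω] {S : Subgroup Ω} [Finite S] (p : ℕ) [Fact p.Prime] (hS : IsPGroup p S)
    (F : Cfsg.FusionSystem S) (hF : F.IsSaturated p)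
    (h : ∀ A B : Subgroup Ω, A ≤ (F.hyperfocalSubgroup p) → B ≤ (F.hyperfocalSubgroup p) → IsCyclic ↥A → (Nat.card ↥A = p ∨ Nat.card ↥A = 4) → IsCyclic ↥B → (Nat.card ↥B = p ∨ Nat.card ↥B = 4) →
      F.homSet A B ⊆ (Cfsg.innerFusionSystem S).Hom A) :
    ∀ P : Subgroup Ω, F.Hom P = (Cfsg.innerFusionSystem S).Hom P := by
  refine H20.Sub.hom_eq (H3.sub_inner_of_sm hS hF fun x hx h1 σ hσ => ?_) (H20.inner_sub F le_rfl)
  by_cases e : x = 1
  · exact ⟨1, one_mem _, by subst e; rw [hσ.hom.one]; simp⟩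
  obtain ⟨τ, h2, h3⟩ := H20.exists_mor
    (H3.cyc_of_homSet hS hF (X := (Cfsg.innerFusionSystem S).Hom) h hx h1 e hσ)
  obtain ⟨-, g, hg, h4⟩ := H20.mor_inner_iff.1 h2
  exact ⟨g, hg, (h3 ⟨x, Subgroup.mem_zpowers x⟩).trans (h4 x (Subgroup.mem_zpowers x))⟩

end Cfsg.Agent.S5298
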