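import Cfsg.Statements.S5301
import Cfsg.Agent.H20.AFT

set_option autoImplicit false
universe u
open Cfsg H20

namespace Cfsg.Agent.S5301

/-- Let F be a saturated fusion system over a finite p-group S. If for every subgroup P of S that is fully normalized, centric and radical in F the automorphism group that F induces on P has a normal Sylow p-subgroup, then S is normal in F. -/
theorem result {Ω : Type u} [Group Ω] {S : Subgroup Ω} [Finite S] (p : ℕ) [Fact p.Prime] (hS : IsPGroup p S)
    (F : Cfsg.FusionSystem S) (hF : F.IsSaturated p)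
    (hcl : ∀ P : Subgroup Ω, F.IsFullyNormalized P → F.IsCentric P → F.IsRadical p P →
      ∃ R : Sylow p ↥(F.autGroup P), (R : Subgroup ↥(F.autGroup P)).Normal) :
    F.IsNormal S := by
  refine normal_top_of hS hF fun P hP => ?_
  have hr := ess_rad hS hF hP
  obtain ⟨R, hR⟩ := hcl P hP.2.1 hP.1 hr
  have h1 : (R : Subgroup (F.autGroup P)) = pCore p (F.autGroup P) :=
    le_antisymm (le_pCore hR R.2) ((syl_top R).le_of_normal le_top (pCore_pgroup p _)
      Subgroup.le_normalizer_of_normal)
  have h2 := (syl_map_subtype R).map (ext P)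
  rw [h1, map_ext_Op] at h2
  have h3 : Syl p (AutK P P) (AutF F P) := (rad_iff.1 hr).2 ▸ h2
  exact (card_lt_of_lt' (inn_lt hS (centric_self hP.1) le_rfl (ess_lt hS hF hP))).ne
    (h3.card_eq (fn_syl hS hF hP.2.1))

end Cfsg.Agent.S5301
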