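import Cfsg.Statements.S5315
import Cfsg.Agent.H20.Solv

set_option autoImplicit false
open Cfsg H20

namespace Cfsg.Agent.S5315

/-- An analogue of Grün's lemma for fusion systems. Let F be a saturated fusion system over a finite p-group S that is perfect in the sense that its hyperfocal subgroup is all of S (F coincides with its p-residual subsystem). Then the second centre of F equals its centre: every fusion system over S/(Z(F) ∩ S) that is the factor system of F modulo its centre Z(F), read through the quotient map, has trivial centre. -/
theorem result {Ω : Type*} [Group Ω] {S : Subgroup Ω} [Finite S] (p : ℕ) [Fact p.Prime] (hS : IsPGroup p S) (F : Cfsg.FusionSystem S) (hF : F.IsSaturated p)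
    (hperf : F.hyperfocalSubgroup p = S)
    (E : Cfsg.FusionSystem (⊤ : Subgroup (↥S ⧸ (F.center).subgroupOf S)))
    (hE : F.IsFactorSystem F.center (QuotientGroup.mk' ((F.center).subgroupOf S)) E) : E.center = ⊥ := by
  obtain ⟨f, -, h1, h2⟩ := fac_epi hS hF center_sc hE
  have := h1.finite
  have h3 := le_center (h1.central_pre hS hF (h2.symm ▸ center_central F)
    ((foc_eq_top_iff hS hF).2 hperf) (center_central E))
  rw [← h1.img_pre (center_central E).1, eq_bot_iff, img_le_iff]
  exact fun x hx => (h2.ge (h3 hx)).2

end Cfsg.Agent.S5315
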