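import Cfsg.Statements.S5317
import Cfsg.Agent.H23.FLin
import Cfsg.Agent.H10.Klein

set_option autoImplicit false
open Cfsg

namespace Cfsg.Agent.S5317

open scoped MatrixGroups

/-- Let F be a finite field of odd order q with q² ≡ 1 mod 16 (so that a Sylow 2-subgroup of PSL(2,q), dihedral of order the 2-part of (q²−1)/2, has order at least 8). Then the 2-fusion system of PSL(2,F) on a Sylow 2-subgroup is simple: saturated, over a nontrivial 2-group, with no normal subsystem other than the trivial one and itself. -/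
theorem result {F : Type*} [Field F] [Fintype F] (hodd : Fintype.card F % 2 = 1) (h16 : 16 ∣ Fintype.card F ^ 2 - 1)
    (S : Sylow 2 (Matrix.ProjectiveSpecialLinearGroup (Fin 2) F)) :
    (Cfsg.groupFusionSystem (S : Subgroup (Matrix.ProjectiveSpecialLinearGroup (Fin 2) F))).IsSimple 2 := by
  have h2 : (2 : F) ≠ 0 := fun h => by
    have := FiniteField.even_card_of_char_two (F := F) (ringChar.eq_iff.2 (CharTwo.of_one_ne_zero_of_two_eq_zero one_ne_zero h))
    omega
  have hc : ringChar F ≠ 2 := fun h => by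
    have := FiniteField.even_card_of_char_two h
    omega
  have h8 : Fintype.card F % 8 ≠ 3 ∧ Fintype.card F % 8 ≠ 5 := by
    have hp : 1 ≤ Fintype.card F ^ 2 := Nat.one_le_pow _ _ Fintype.card_pos
    have h1 : Fintype.card F ^ 2 % 16 = 1 := by omega
    rw [Nat.pow_mod] at h1
    have h3 : Fintype.card F % 8 = Fintype.card F % 16 % 8 := by omega
    have h4 : Fintype.card F % 16 < 16 := Nat.mod_lt _ (by omega)
    rw [h3]
    generalize Fintype.card F % 16 = r at h1 h4
    interval_cases r <;> simp_all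
  obtain ⟨τ, hτ⟩ := FiniteField.isSquare_two_iff.2 h8
  obtain ⟨a, c, hac⟩ := H10.exists_root_of_odd h2 τ
  obtain ⟨H, ⟨e⟩⟩ := H10.exists_S4_of_root h2 (by rw [sq, ← hτ]) hac
  let f : Equiv.Perm (Fin 4) →* PSL(2, F) := H.subtype.comp e.symm.toMonoidHom
  have hf : Function.Injective f := H.subtype_injective.comp e.symm.injective
  have h4 : 4 ≤ Nat.card F := by
    rw [Nat.card_eq_fintype_card]
    have := Fintype.one_lt_card (α := F)
    omega
  have := Matrix.ProjectiveSpecialLinearGroup.rank_two_simple h4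
  have hn : f (Equiv.swap 0 1) * f (Equiv.swap 0 2 * Equiv.swap 1 3) ≠ f (Equiv.swap 0 2 * Equiv.swap 1 3) * f (Equiv.swap 0 1) := by
    rw [← map_mul, ← map_mul]
    exact fun h => absurd (hf h) (by decide)
  refine H23.FS.simple_of_rank_two (MonoidHom.id _) Function.surjective_id (fun x hx => ?_) ?_ ?_ ?_
    (by rw [← map_mul, Equiv.swap_mul_self, map_one]) (by rw [← map_mul, ← map_one f]; exact congrArg f (by decide)) ?_ hn S
  · rw [show x = 1 from hx]; simp
  · refine (Subgroup.Normal.eq_bot_or_eq_top inferInstance).resolve_left fun h => hn ?_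
    exact commutatorElement_eq_one_iff_mul_comm.1 (Subgroup.mem_bot.1 (h ▸ Subgroup.commutator_mem_commutator trivial trivial))
  · refine H23.FS.prank_of_kpair fun x y z hK _ zx zy => ?_
    obtain ⟨a, b, hab⟩ := H10.exists_sq_add_sq_neg_one (F := F)
    obtain ⟨t, h3, h4⟩ := (hK.map H10.ι_injective).exists_conj_std h2 hab (H10.ι_mem _) (H10.ι_mem _)
    have e1 := congrArg (H10.ι F) zx
    have e2 := congrArg (H10.ι F) zy
    rw [map_mul, map_mul, ← h3] at e1
    rw [map_mul, map_mul, ← h4] at e2
    have := H10.mem_of_commute_inv h2 hab (g := t⁻¹ * H10.ι F z * t)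
      (by calc _ = t⁻¹ * (H10.ι F z * (t * H10.inv0 F * t⁻¹)) * t := by group
            _ = _ := by rw [e1]; group)
      (by calc _ = t⁻¹ * (H10.ι F z * (t * H10.inv1 hab * t⁻¹)) * t := by group
            _ = _ := by rw [e2]; group)
    rw [(H10.kPair_inv h2 hab).mem_closure_iff] at this
    rw [hK.mem_closure_iff]
    have e3 : H10.ι F z = t * (t⁻¹ * H10.ι F z * t) * t⁻¹ := by group
    rcases this with h | h | h | h <;> rw [h] at e3
    · exact .inl (H10.ι_injective (by simpa using e3))
    · exact .inr (.inl (H10.ι_injective (e3.trans h3)))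
    · exact .inr (.inr (.inl (H10.ι_injective (e3.trans h4))))
    · exact .inr (.inr (.inr (H10.ι_injective (by rw [e3, map_mul, ← h3, ← h4]; group))))
  · intro x y hx hy
    have k : ∀ x : PSL(2, F), orderOf x = 2 → H10.ι F x * H10.ι F x = 1 ∧ H10.ι F x ≠ 1 := fun x hx =>
      ⟨by rw [← map_mul, ← sq, orderOf_dvd_iff_pow_eq_one.1 hx.dvd, map_one], fun h => by
        rw [H10.ι_injective (h.trans (map_one _).symm), orderOf_one] at hx; omega⟩
    obtain ⟨_, ⟨t, rfl⟩, ht⟩ := H10.exists_conj_involution h2 (H10.ι_mem x) (k x hx).1 (k x hx).2 (H10.ι_mem y) (k y hy).1 (k y hy).2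
    exact isConj_iff.2 ⟨t, H10.ι_injective (by rw [map_mul, map_mul, map_inv]; exact ht)⟩
  · rw [← map_inv, ← map_mul, ← map_mul]
    exact Commute.map (by unfold Commute SemiconjBy; decide) f

end Cfsg.Agent.S5317
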