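import Cfsg.Statements.S5318
import Cfsg.Agent.H23.FLin

set_option autoImplicit false
open Cfsg

namespace Cfsg.Agent.S5318

/-- For a finite field F of odd order, the 2-fusion system of PSL(3,F) on a Sylow 2-subgroup (semidihedral or wreathed according as |F| ≡ 3 or 1 mod 4) is simple. -/
theorem result {F : Type*} [Field F] [Fintype F] (hodd : Fintype.card F % 2 = 1) (S : Sylow 2 (Matrix.ProjectiveSpecialLinearGroup (Fin 3) F)) :
    (Cfsg.groupFusionSystem (S : Subgroup (Matrix.ProjectiveSpecialLinearGroup (Fin 3) F))).IsSimple 2 := by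
  have h2 : (2 : F) ≠ 0 := fun h => by
    have := FiniteField.even_card_of_char_two (F := F) (ringChar.eq_iff.2 (CharTwo.of_one_ne_zero_of_two_eq_zero one_ne_zero h))
    omega
  refine H23.FS.simple_dim3 h2 (Cfsg.slToMat 3 F) (fun _ _ h => Subtype.ext h) (fun g => g.2)
    (H10.commutator_SL_eq_top (by simp)) ?_ (H23.FS.isConj_SL3 h2)
    (a := ⟨!![1, 0, 0; 0, -1, 0; 0, 0, -1], by simp [Matrix.det_fin_three]⟩)
    (b := ⟨!![0, 1, 0; 1, 0, 0; 0, 0, -1], by simp [Matrix.det_fin_three]⟩) rfl rfl S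
  rw [H10.card_center_SL]
  exact Odd.of_dvd_nat (by decide : Odd 3) (Nat.gcd_dvd_left _ _)

end Cfsg.Agent.S5318
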