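import Cfsg.Statements.S5319
import Cfsg.Agent.H23.FLin

set_option autoImplicit false
open Cfsg

namespace Cfsg.Agent.S5319

/-- Let q be an odd prime power and F a field with q² elements. Then the 2-fusion system of PSU(3,q) (realised as the special unitary group of the standard Hermitian form over F modulo its centre) on a Sylow 2-subgroup is simple. -/
theorem result {F : Type*} [Field F] [Fintype F] (q : ℕ) (hq : Fintype.card F = q ^ 2) (hodd : q % 2 = 1) (S : Sylow 2 (Cfsg.PSU 3 F q)) :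
    (Cfsg.groupFusionSystem (S : Subgroup (Cfsg.PSU 3 F q))).IsSimple 2 := by
  have h2 : (2 : F) ≠ 0 := fun h => by
    have := FiniteField.even_card_of_char_two (F := F) (ringChar.eq_iff.2 (CharTwo.of_one_ne_zero_of_two_eq_zero one_ne_zero h))
    rw [hq, Nat.pow_mod, hodd] at this
    omega
  obtain ⟨σ, hσq, hσ, hne⟩ := H11.exists_frob hq
  have hN := H11.stdUnit_nondeg hσ hne (Fin 3)
  have hF : Nat.card F = q ^ 2 := by rw [Nat.card_eq_fintype_card, hq]
  let e := H11.suEquiv hσ hne hσq 3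
  have hm : ∀ A : Matrix.SpecialLinearGroup (Fin 3) F, (∀ u v, (H11.stdUnit hσ hne (Fin 3)).h (A.1.mulVec u) (A.1.mulVec v) =
      (H11.stdUnit hσ hne (Fin 3)).h u v) → A ∈ Cfsg.SU 3 F q := fun A h u v => by
    have := h v u
    rwa [H11.stdUnit_h_eq hσ hne hσq, H11.stdUnit_h_eq hσ hne hσq] at this
  refine H23.FS.simple_dim3 h2 ((Cfsg.slToMat 3 F).comp (Cfsg.SU 3 F q).subtype)
    (fun _ _ h => Subtype.ext (Subtype.ext h)) (fun g => g.1.2) ?_ ?_ (H23.FS.isConj_SU3 h2 hσ hne hσq)
    (a := ⟨⟨!![1, 0, 0; 0, -1, 0; 0, 0, -1], by simp [Matrix.det_fin_three]⟩, hm _ fun u v => by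
      simp [H11.stdUnit_h, Fin.sum_univ_three, Matrix.mulVec, dotProduct]⟩)
    (b := ⟨⟨!![0, 1, 0; 1, 0, 0; 0, 0, -1], by simp [Matrix.det_fin_three]⟩, hm _ fun u v => by
      simp [H11.stdUnit_h, Fin.sum_univ_three, Matrix.mulVec, dotProduct]; ring⟩) rfl rfl S
  · have h := (hN.unit_isSimple hne hF (by simp) (by omega)).1
    have := map_commutator_eq _ e.symm.toMonoidHom
    rw [h, ← MonoidHom.range_eq_map, MonoidHom.range_eq_top.2 e.symm.surjective] at this
    exact this.symm
  · rw [Nat.card_congr (Subgroup.centerCongr e).toEquiv, hN.unit_card_center hne hF (n := 3) (by simp) (by omega)]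
    exact Odd.of_dvd_nat (by decide : Odd 3) (Nat.gcd_dvd_left _ _)

end Cfsg.Agent.S5319
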