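import Cfsg.Statements.S5322
import Cfsg.Agent.H14.CzJ3
import Cfsg.Agent.H15.J3

set_option autoImplicit false
open Cfsg

namespace Cfsg.Agent.S5322

open H14 L L.CzJ3

/-- For a finite group G isomorphic to the third Janko group J₃, the 2-fusion system of G on a Sylow 2-subgroup is simple: saturated, over a nontrivial 2-group, with no normal subsystem other than the trivial one and itself. -/
theorem result {G : Type*} [Group G] [Finite G] (hG : Cfsg.Spor.IsoJ3 G) (S : Sylow 2 G) : (Cfsg.groupFusionSystem (S : Subgroup G)).IsSimple 2 := by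
  obtain ⟨F, _, _, ω, hF, hω, ⟨e⟩⟩ := hG
  obtain ⟨S0⟩ := H15.J3.std (hω := hω) hF
  obtain ⟨S1, -⟩ := S0.congr e
  obtain ⟨A⟩ := H15.StdAlt5.std
  exact fus_all S1.M S1.card (fun M => fs_all M S1.card (Pres.of fun _ _ y hy => H15.StdAlt5.hom A y hy) A.card)
    (by norm_num) S

end Cfsg.Agent.S5322
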