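import Cfsg.Statements.S5324
import Cfsg.Agent.L.FLc
import Cfsg.Agent.H15.LyA


set_option autoImplicit false
set_option linter.unusedVariables false
open Cfsg

namespace Cfsg.Agent.S5324

/-- For a finite group G isomorphic to the Lyons group, the 2-fusion system of G on a Sylow 2-subgroup is simple: saturated, over a nontrivial 2-group, with no normal subsystem other than the trivial one and itself. -/
theorem result {G : Type*} [Group G] [Finite G] (hG : Cfsg.Spor.IsoLy G) (S : Sylow 2 G) : (Cfsg.groupFusionSystem (S : Subgroup G)).IsSimple 2 := by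
  obtain ⟨e⟩ := hG
  obtain ⟨-, -, -, hc, hs⟩ := H15.Ly.main
  have := alternatingGroup.isSimpleGroup (α := Fin 11) (by simp)
  have : Finite Cfsg.Spor.Ly := Nat.finite_of_card_ne_zero (by rw [hc]; decide)
  obtain ⟨x, hom⟩ := H15.homA11'
  obtain ⟨-, h3, f, h4, h5⟩ := H15.cent_cover (MulEquiv.refl _) H15.LyA.ycm H15.LyA.ymr (by decide +kernel)
    (H15.not_mem_zpowers (p := 1) H15.LyA.t2 fun k hk => by
    have h0 : L.loc H15.LyA.y H15.LyA.W 0 = H14.ev H15.LyA.y [22] := rfl
    rw [h0]
    interval_cases k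
    · rw [pow_zero, ← H15.LyA.one']
      exact H15.LyA.ne (by decide) (by decide) (H15.BP.ne_of_fld H15.LyAM.c_ok H15.LyAM.hgen 0 1 (by decide +kernel))
    · rw [pow_one]
      exact H15.LyA.ne (by decide) (by decide) (H15.BP.ne_of_fld H15.LyAM.c_ok H15.LyAM.hgen 0 0 (by decide +kernel)))
    hom H15.LyA.ord (by rw [H15.LyA.tt, H15.cardA11]; exact H15.LyT.cent.trans_lt (by decide))
  rw [H15.cardA11] at h3
  exact L.FL.main (m := 202207730484375) (hc.trans (by norm_num)) (by norm_num) (by norm_num) H15.LyA.ord h3 H15.cardA11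
    f h4 h5 (e := H14.ev H15.LyA.y [24, 22]) ((H14.ev_append H15.LyA.y [24, 22] [24, 22]).symm.trans
      (H15.LyA.ymr ([24, 22, 24, 22], [10]) (by decide +kernel))) e.symm S

end Cfsg.Agent.S5324
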