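import Cfsg.Statements.S5346
import Cfsg.Agent.H28.G2

set_option autoImplicit false
open Cfsg

namespace Cfsg.Agent.S5346
open H28


/-- Let D be a conjugation-invariant generating set of 3-transpositions of a finite group G and d a member of D. Then D has width 1 (no two different members of D commute) if and only if G is the product of the subgroup generated by d with the largest normal 3-subgroup of G. -/
theorem result {G : Type*} [Group G] [Finite G] {D : Set G} (hD : Cfsg.IsThreeTranspositionGroup D) {d : G} (hd : d ∈ D) : Cfsg.commutingWidth D = 1 ↔ Subgroup.zpowers d ⊔ Cfsg.pCore 3 G = ⊤ := by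
  rw [width_one_iff hd]
  constructor
  · intro h
    have := prods_normal hD.2.1
    rw [eq_top_iff, ← hD.2.2]
    refine (closure_le_sup_prods hd (t3_sq hD.1 hd)).trans (sup_le_sup_left ?_ _)
    exact le_sSup ⟨this, pgroup_prods_nc (T3.of_group hD) h⟩
  · intro h a ha b hb hc
    have key : ∀ a ∈ D, d * a ∈ pCore 3 G := by
      intro a ha
      refine (mem_or_of_sup (t3_sq hD.1 hd) (h ▸ Subgroup.mem_top a)).resolve_left fun hm => ?_
      obtain ⟨k, hk⟩ := pow_of_mem (H17.pCore_isPGroup G 3) hm
      have h1 := orderOf_dvd_of_pow_eq_one hk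
      rw [hD.1.1 a ha] at h1
      have := Nat.Prime.dvd_of_dvd_pow Nat.prime_two h1
      omega
    have : a * b ∈ pCore 3 G := by
      have := (pCore 3 G).mul_mem ((pCore 3 G).inv_mem (key a ha)) (key b hb)
      simpa [t3_inv hD.1 ha, mul_assoc] using this
    obtain ⟨k, hk⟩ := pow_of_mem (H17.pCore_isPGroup G 3) this
    exact t3_eq_of_odd hD.1 ha hb hc (Odd.pow (by decide)) hk

end Cfsg.Agent.S5346
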