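import Cfsg.Statements.S5354
import Cfsg.Agent.H28.G5

set_option autoImplicit false
open Cfsg

namespace Cfsg.Agent.S5354
open H28


/-- Let D be a conjugation-invariant generating set of 3-transpositions of the finite group G on which G acts primitively by conjugation, and suppose two different members of D commute (width at least 2). Then G has a quasisimple normal subgroup L of index at most 2 with the generalized Fitting subgroup of G equal to L times the centre, the commuting graph of D is connected, and for d in D the subgroup generated by the members of D commuting with d is a maximal D-subgroup: it is proper, and every subgroup generated by members of D that contains it is either it or G. -/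
theorem result {G : Type*} [Group G] [Finite G] {D : Set G} (hD : Cfsg.IsThreeTranspositionGroup D) (hprim : Cfsg.IsPrimitiveUnderConj D) (hw : ∃ a ∈ D, ∃ b ∈ D, a ≠ b ∧ Commute a b) : (∃ L : Subgroup G, L.Normal ∧ Cfsg.IsQuasisimple L ∧ L.index ≤ 2 ∧ Cfsg.generalizedFittingSubgroup G = L ⊔ Subgroup.center G) ∧ (Cfsg.commutingGraph D).Connected ∧ ∀ d ∈ D, Subgroup.closure {y : G | y ∈ D ∧ Commute d y} ≠ ⊤ ∧ ∀ H : Subgroup G, Cfsg.IsDSubgroup D H → Subgroup.closure {y : G | y ∈ D ∧ Commute d y} ≤ H → H = Subgroup.closure {y : G | y ∈ D ∧ Commute d y} ∨ H = ⊤ := by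
  have h := PC.of hD hprim hw
  refine ⟨⟨layer G, inferInstance, h.qs, h.index, by
    rw [generalizedFittingSubgroup, h.toTC.fit_eq h.o2 h.o3]⟩, h.conn, fun d hd => ⟨fun e => ?_, fun H hH hle => ?_⟩⟩
  · obtain ⟨a, -, hn⟩ := h.toTC.exists_nc h.two hd
    exact hn (comm_perp (D := D) (by rw [perp, e]; trivial)).symm
  · by_cases hc : ∀ a ∈ D, a ∈ H → Commute d a
    · left
      refine le_antisymm ?_ hle
      rw [← hH]
      exact Subgroup.closure_mono fun x hx => ⟨hx.1, hc x hx.1 hx.2⟩
    · push Not at hc
      obtain ⟨a, ha, haH, hn⟩ := hc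
      exact Or.inr (h.gen_perp hd (fun x hx => hle (Subgroup.subset_closure hx)) ha haH hn)

end Cfsg.Agent.S5354
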