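import Cfsg.Statements.S5355
import Cfsg.Agent.H28.G5

set_option autoImplicit false
open Cfsg

namespace Cfsg.Agent.S5355
open H28


/-- Let D be a conjugacy class of 3-transpositions generating the finite group G, with at least two members, and d a member of D. Suppose that every member of D commuting with d commutes with exactly the same members of D as d does, and that exactly one member of D other than d commutes with d. Then G is isomorphic to the symmetric group of degree 4. -/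
theorem result {G : Type*} [Group G] [Finite G] {D : Set G} (hD : Cfsg.IsThreeTranspositionClass D) (hD2 : ∃ a ∈ D, ∃ b ∈ D, a ≠ b) {d : G} (hd : d ∈ D) (hV : {y : G | y ∈ D ∧ Commute d y} = {v : G | v ∈ D ∧ ∀ e ∈ D, Commute v e ↔ Commute d e}) (hm : {y : G | y ∈ D ∧ Commute d y}.ncard = 2) : Nonempty (G ≃* Equiv.Perm (Fin 4)) := by
  have h := TC.of hD
  have T := h.T3
  have vr : ∀ x ∈ D, ∀ y ∈ D, Commute x y → Vr D x y := fun x hx y hy hc => by
    obtain ⟨g, rfl⟩ := h.tr d hd x hx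
    have m : g⁻¹ * y * g ∈ {y : G | y ∈ D ∧ Commute d y} := ⟨by simpa using h.cj g⁻¹ y hy, commute_conj'.1 hc⟩
    rw [hV] at m
    simpa [mul_assoc] using h.vconj g m.2
  have two : ∀ x ∈ D, ∀ y ∈ nb D x, ∀ z ∈ nb D x, y = z := fun x hx y hy z hz => by
    have e : (nb D d).ncard = 1 := by
      have : {y : G | y ∈ D ∧ Commute d y} = insert d (nb D d) := by
        ext y
        refine ⟨fun h => ?_, ?_⟩
        · by_cases e : y = d
          · exact Or.inl e
          · exact Or.inr ⟨h.1, e, h.2⟩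
        · rintro (rfl | h)
          · exact ⟨hd, Commute.refl _⟩
          · exact ⟨h.1, h.2.2⟩
      rw [this, Set.ncard_insert_of_notMem (fun h => h.2.1 rfl)] at hm
      omega
    rw [h.ncard_nb hd hx, Set.ncard_eq_one] at e
    obtain ⟨w, e⟩ := e
    rw [e] at hy hz
    rw [hy, hz]
  obtain ⟨d', hd'⟩ : (nb D d).Nonempty := by
    by_contra hc
    have : {y : G | y ∈ D ∧ Commute d y} ⊆ {d} := fun y hy => by
      by_contra e
      exact hc ⟨y, hy.1, e, hy.2⟩
    have := Set.ncard_le_ncard this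
    rw [hm, Set.ncard_singleton] at this
    omega
  obtain ⟨a, ha, hn⟩ := h.exists_nc hD2 hd
  have hn' : ¬ Commute a d' := fun hc => hn ((vr d hd d' hd'.1 hd'.2.2 a ha).1 hc.symm)
  obtain ⟨φ, h1, h2, h3⟩ := exists_hom_S4c (t3_sq h.t3 hd) (t3_sq h.t3 ha) (t3_sq h.t3 hd'.1)
    (t3_braid h.t3 hd ha hn) (t3_braid h.t3 ha hd'.1 hn') hd'.2.2
  have hi := inj_S4 φ (by rw [h1, h3]; exact hd'.2.1.symm)
  refine ⟨(MulEquiv.ofBijective φ ⟨hi, ?_⟩).symm⟩
  rw [← MonoidHom.range_eq_top, eq_top_iff, ← h.gen, Subgroup.closure_le]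
  intro c hc
  by_contra hcr
  have sw : ∀ σ : Equiv.Perm (Fin 4), σ.IsSwap → φ σ ∈ D := by
    rintro _ ⟨i, j, hij, rfl⟩
    obtain ⟨g, e⟩ := isConj_iff.1 (Equiv.Perm.isConj_swap (show (0 : Fin 4) ≠ 1 by decide) hij)
    rw [← e, map_mul, map_mul, map_inv, h1]
    exact h.cj _ d hd
  have nc : ∀ i j k l : Fin 4, i ≠ j → k ≠ l → Equiv.swap i j ≠ Equiv.swap k l →
      Commute (Equiv.swap i j) (Equiv.swap k l) → ¬ Commute c (φ (Equiv.swap i j)) := by
    intro i j k l hij hkl hne hcm hcc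
    have m1 := sw _ ⟨i, j, hij, rfl⟩
    refine hcr ⟨Equiv.swap k l, two _ m1 _ ⟨sw _ ⟨k, l, hkl, rfl⟩, hi.ne hne.symm, hcm.map φ⟩ c
      ⟨hc, fun e => hcr ⟨_, e.symm⟩, hcc.symm⟩⟩
  have mv : ∀ i j k l : Fin 4, i ≠ j → k ≠ l → Equiv.swap i j ≠ Equiv.swap k l →
      Commute (Equiv.swap i j) (Equiv.swap k l) → φ (Equiv.swap i j * Equiv.swap k l) * c *
        (φ (Equiv.swap i j * Equiv.swap k l))⁻¹ ∈ nb D c := by
    intro i j k l hij hkl hne hcm
    have m1 := sw _ ⟨i, j, hij, rfl⟩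
    have m2 := sw _ ⟨k, l, hkl, rfl⟩
    have n1 := nc i j k l hij hkl hne hcm
    refine ⟨h.cj _ c hc, fun e => n1 (t3_two h.t3 m1 m2 hc (hi.ne hne) ?_).1, ?_⟩
    · rw [mul_inv_eq_iff_eq_mul, map_mul] at e
      exact e.symm
    · rw [map_mul]
      exact t3_S4 h.t3 m1 m2 hc (hcm.map φ) n1 (nc k l i j hkl hij hne.symm hcm.symm)
  have m1 := mv 0 1 2 3 (by decide) (by decide) (by decide) (by unfold Commute SemiconjBy; decide)
  have m2 := mv 1 2 0 3 (by decide) (by decide) (by decide) (by unfold Commute SemiconjBy; decide)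
  have m3 := mv 0 2 1 3 (by decide) (by decide) (by decide) (by unfold Commute SemiconjBy; decide)
  have e := two c hc _ m1 _ m2
  have e' : (Equiv.swap 0 2 * Equiv.swap 1 3 : Equiv.Perm (Fin 4)) =
    (Equiv.swap 0 1 * Equiv.swap 2 3)⁻¹ * (Equiv.swap 1 2 * Equiv.swap 0 3) := by decide
  apply m3.2.1
  rw [e', map_mul, map_inv]
  generalize φ (Equiv.swap 0 1 * Equiv.swap 2 3) = x at *
  generalize φ (Equiv.swap 1 2 * Equiv.swap 0 3) = y at *
  calc _ = x⁻¹ * (y * c * y⁻¹) * x := by group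
    _ = c := by rw [← e]; group

end Cfsg.Agent.S5355
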