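import Cfsg.Statements.S5356
import Cfsg.Agent.H28.G5

set_option autoImplicit false
open Cfsg

namespace Cfsg.Agent.S5356
open H28


/-- Let D be a conjugacy class of 3-transpositions generating the finite group G, with at least two members, and d a member of D such that every member of D commuting with d commutes with exactly the same members of D as d. Then there is a Sylow 3-subgroup P of G normalized by d such that G is generated by d, P and the largest normal 2-subgroup of G. -/
theorem result {G : Type*} [Group G] [Finite G] {D : Set G} (hD : Cfsg.IsThreeTranspositionClass D) (hD2 : ∃ a ∈ D, ∃ b ∈ D, a ≠ b) {d : G} (hd : d ∈ D) (hV : {y : G | y ∈ D ∧ Commute d y} = {v : G | v ∈ D ∧ ∀ e ∈ D, Commute v e ↔ Commute d e}) : ∃ P : Sylow 3 G, d ∈ Subgroup.normalizer (P : Set G) ∧ Subgroup.zpowers d ⊔ (P : Subgroup G) ⊔ Cfsg.pCore 2 G = ⊤ := by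
  open H28 Subgroup in
  have T := TC.of hD
  have := Fact.mk Nat.prime_three
  have := Fact.mk Nat.prime_two
  have V : ∀ y ∈ D, Commute d y → Vr D d y := fun y hy c => (hV.le ⟨hy, c⟩).2
  have q2 := H17.pCore_isPGroup G 2
  let π := QuotientGroup.mk' (pCore 2 G)
  have su : Function.Surjective π := QuotientGroup.mk'_surjective _
  have cq : ∀ a ∈ D, ∀ b ∈ D, ∀ n, (a * b) ^ 2 ^ n ∈ pCore 2 G → Commute a b := fun a ha b hb n h => by
    obtain ⟨k, hk⟩ := q2 ⟨_, h⟩
    exact t3_comm_of_pgroup Nat.prime_two (by decide) T.t3 ha hb (k := n + k) (by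
      rw [pow_add, pow_mul]; exact congrArg Subtype.val hk)
  have T' := T.map π su fun a ha h => by
    obtain ⟨b, hb, n⟩ := T.exists_nc hD2 ha
    have h : a ∈ pCore 2 G := (QuotientGroup.eq_one_iff a).1 h
    exact n (cq a ha b hb 1 (by
      simpa [pow_two, mul_assoc, t3_inv T.t3 hb] using mul_mem h (Normal.conj_mem inferInstance a h b)))
  have p3 : IsPGroup 3 (prods (π '' D)) := pgroup_prods_nc T'.T3 (by
    rintro _ ⟨a, ha, rfl⟩ _ ⟨b, hb, rfl⟩ c
    have c := cq a ha b hb 1 ((QuotientGroup.eq_one_iff _).1 (show π _ = 1 by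
      rw [map_pow, map_mul, pow_one]; exact sq_of_comm (t3_sq T'.t3 ⟨a, ha, rfl⟩) (t3_sq T'.t3 ⟨b, hb, rfl⟩) c))
    obtain ⟨g, rfl⟩ := T.tr d hd a ha
    have := T.mem_two ha hb (by simpa [mul_assoc] using T.vconj g (V _ (T.cj g⁻¹ b hb) ((commute_conj g).1 (by simpa [mul_assoc] using c))))
    exact QuotientGroup.eq.2 (by rwa [t3_inv T.t3 ha]))
  have : (prods (π '' D)).Normal := prods_normal T'.cj
  have d2 := t3_sq T.t3 hd
  have tp : zpowers (π d) ⊔ prods (π '' D) = ⊤ := top_le_iff.1 (T'.gen.ge.trans ((closure_le _).2 fun x hx => by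
    simpa [← mul_assoc, ← map_mul, d2] using mul_mem (mem_sup_left (mem_zpowers (π d)) : π d ∈ _ ⊔ prods (π '' D))
      (mem_sup_right (mem_prods ⟨d, hd, rfl⟩ hx))))
  let H := centralizer {d} ⊓ (prods (π '' D)).comap π
  obtain ⟨S⟩ : Nonempty (Sylow 3 H) := inferInstance
  have nc : ∀ K : Subgroup G, K ≤ centralizer {d} → d ∈ normalizer (K : Set G) := fun K h =>
    H17.mem_normalizer_of_conj_mem fun x hx => by rwa [← mem_centralizer_singleton_iff.1 (h hx), mul_inv_cancel_right]
  obtain ⟨R, le, M⟩ := Finite.exists_le_maximal (p := fun R : Subgroup G => IsPGroup 3 R ∧ d ∈ normalizer (R : Set G))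
    ⟨S.2.map H.subtype, nc _ ((map_subtype_le _).trans inf_le_left)⟩
  obtain ⟨P, hP⟩ := M.1.1.exists_le_sylow
  have ext : ∀ x ∈ normalizer (R : Set G), IsPGroup 3 (zpowers x) → d ∈ normalizer (zpowers x : Set G) → x ∈ R := fun x h1 h2 h3 =>
    M.2 ⟨M.1.1.to_sup_of_normal_left' h2 (zpowers_le.2 h1), normalizer_inf_normalizer_le_normalizer_sup _ _ ⟨M.1.2, h3⟩⟩ le_sup_left
      (mem_sup_right (mem_zpowers x))
  have ext' : ∀ x ∈ normalizer (R : Set G), x ∈ P → Commute x d → x ∈ R := fun x h1 h2 h3 =>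
    ext x h1 (P.2.to_le (zpowers_le.2 h2)) (nc _ (zpowers_le.2 (mem_centralizer_singleton_iff.2 h3)))
  obtain rfl : R = P := by
    by_contra n
    obtain ⟨g, h, gR⟩ := SetLike.exists_of_lt (H17.lt_normalizer_of_pgroup P.2 (hP.lt_of_ne n))
    obtain ⟨gP, gN⟩ := mem_inf.1 h
    have he := T.cj g d hd
    by_cases c : Commute d (g * d * g⁻¹)
    · obtain ⟨q, hq, e⟩ := T.vr_conj hD2 hd he (V _ he c)
      have q1 : π q = 1 := (QuotientGroup.eq_one_iff q).2 hq
      have gU : π g ∈ prods (π '' D) := by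
        obtain ⟨k, hk⟩ := P.2 ⟨g, gP⟩
        obtain ⟨m, hm⟩ := exists_pow_eq_self_of_coprime (x := π g) (n := 2) (Nat.Coprime.coprime_dvd_right (orderOf_dvd_of_pow_eq_one
          (show π g ^ 3 ^ k = 1 by rw [← map_pow, show g ^ 3 ^ k = 1 from congrArg Subtype.val hk, map_one])) (Nat.Coprime.pow_right _ (by decide)))
        refine hm ▸ pow_mem ?_ m
        rcases mem_or_of_sup (by rw [← map_mul, d2, map_one]) (tp.ge (mem_top (π g))) with h | h
        · exact pow_mem h 2
        · simpa [pow_two, mul_assoc, ← map_inv, t3_inv T.t3 hd, ← map_mul, canc d2] using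
            mul_mem (Normal.conj_mem inferInstance _ h (π d)) h
      let f := (π.comp H.subtype).rangeRestrict
      have m := (p3.to_le (show (π.comp H.subtype).range ≤ _ by rintro _ ⟨x, rfl⟩; exact x.2.2)).of_equiv topEquiv.symm
        |>.le_sylow_of_normal (S.mapSurjective (f := f) (MonoidHom.rangeRestrict_surjective _)) (mem_top (f ⟨q⁻¹ * g,
          mem_centralizer_singleton_iff.2 (by rw [mul_assoc, mul_inv_eq_iff_eq_mul.1 e]; group),
          by simpa [mem_comap, q1] using gU⟩))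
      obtain ⟨r, hr, er⟩ := m
      have er : π r = π g := by simpa [f, q1] using congrArg Subtype.val er
      have rR : r.1 ∈ R := le ⟨r, hr, rfl⟩
      have : r.1⁻¹ * g = 1 := mem_bot.1 ((IsPGroup.disjoint_of_ne 2 3 (by decide) _ _ q2 P.2).le_bot
        (mem_inf.2 ⟨QuotientGroup.eq.1 er, mul_mem (inv_mem (hP rR)) gP⟩))
      exact gR (inv_mul_eq_one.1 this ▸ rR)
    · have m := ext (d * (g * d * g⁻¹)) (mul_mem M.1.2 (mul_mem (mul_mem gN M.1.2) (inv_mem gN)))
        (IsPGroup.of_card (n := 1) (by rw [Nat.card_zpowers, orderOf_eq_prime ((T.t3.2 d hd _ he).resolve_left fun k =>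
          c (comm_of_sq d2 (t3_sq T.t3 he) k)) fun k => c (mul_eq_one_iff_inv_eq.1 k ▸ (Commute.refl d).inv_right)]; rfl))
        (H17.mem_normalizer_of_conj_mem fun x ⟨k, hx⟩ => ⟨-k, by
          generalize g * d * g⁻¹ = e at he hx
          simp only [← hx, zpow_neg]
          rw [← conj_zpow, ← inv_zpow, mul_inv_rev, t3_inv T.t3 hd, t3_inv T.t3 he, canc d2]⟩)
      have := ext' _ (mul_mem (inv_mem (le_normalizer m)) gN) (mul_mem (inv_mem (hP m)) gP) (by
        have := t3_conj T.t3 hd he c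
        generalize d * (g * d * g⁻¹) = w at this
        rw [commute_iff_eq, mul_assoc, ← mul_inv_eq_iff_eq_mul, mul_inv_rev, mul_assoc, ← mul_assoc (g * d), ← this]; group)
      exact gR (by simpa only [mul_inv_cancel_left] using mul_mem m this)
  refine ⟨P, M.1.2, top_le_iff.1 (T.gen.ge.trans ((closure_le _).2 fun x hx => ?_))⟩
  obtain ⟨y, hy, e⟩ := p3.le_sylow_of_normal (P.mapSurjective su) (mem_prods ⟨d, hd, rfl⟩ ⟨x, hx, rfl⟩)
  simpa [canc d2] using mul_mem (mem_sup_left (mem_sup_left (mem_zpowers d))) (mul_mem (mem_sup_left (mem_sup_right hy))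
    (mem_sup_right (QuotientGroup.eq.1 (e.trans (map_mul π d x).symm)) : _ ∈ zpowers d ⊔ P ⊔ pCore 2 G))

end Cfsg.Agent.S5356
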