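import Cfsg.Statements.S5358
import Cfsg.Agent.H28.O3

set_option autoImplicit false
open scoped MatrixGroups
open Cfsg

namespace Cfsg.Agent.S5358
open H28


/-- Let Q be a non-degenerate quadratic form on the n-dimensional coordinate space over the field with three elements and u, v vectors of the same non-zero norm Q(u) = Q(v) spanning different lines (v ≠ u and v ≠ −u). Then the reflection matrices of u and v commute if and only if u and v are orthogonal for the polar form of Q. -/
theorem result (n : ℕ) (Q : QuadraticForm (ZMod 3) (Fin n → ZMod 3)) (hQ : (QuadraticMap.polarBilin Q).Nondegenerate) (u v : Fin n → ZMod 3) (hu : Q u ≠ 0) (huv : Q u = Q v) (h1 : v ≠ u) (h2 : v ≠ -u) : Commute (Cfsg.reflectionMatrix (⇑Q) u) (Cfsg.reflectionMatrix (⇑Q) v) ↔ QuadraticMap.polar (⇑Q) u v = 0 := by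
  obtain ⟨τ, h, h'⟩ := md_refl Q (H11.orthS_nondeg hQ) hu
  have a1 := (nv_scale Q hu).2 (rfl : Q u = Q u)
  have a2 := (nv_scale Q hu).2 huv.symm
  have e := h.comm' a1 a2 (by rw [Ne, h.eq3 a1 a2, not_or]; exact ⟨h1, h2⟩)
  rw [← (H11.coe_eq_refl_iff Q _ _).2 (h' u rfl), ← (H11.coe_eq_refl_iff Q _ _).2 (h' v huv.symm)]
  rw [H11.PForm.scale_h, H11.orthS_h, mul_eq_zero, or_iff_right (neg_ne_zero.2 hu)] at e
  rw [← e]
  exact ⟨fun h => Subtype.ext (Units.ext h), fun h => congrArg (fun g : isometryGroup (ZMod 3) ⇑Q => g.1.1) h⟩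

end Cfsg.Agent.S5358
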