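import Cfsg.Statements.S5359
import Cfsg.Agent.H28.O3

set_option autoImplicit false
open scoped MatrixGroups
open Cfsg

namespace Cfsg.Agent.S5359
open H28


/-- Let Q be a non-degenerate quadratic form on the n-dimensional coordinate space over the field with three elements, n odd and at least 5, and c a non-zero scalar. Then the subgroup of the isometry group of Q generated by the reflections in vectors of norm c has index 2 in the isometry group. -/
theorem result (n : ℕ) (hn : 5 ≤ n) (hodd : Odd n) (Q : QuadraticForm (ZMod 3) (Fin n → ZMod 3)) (hQ : (QuadraticMap.polarBilin Q).Nondegenerate) (c : ZMod 3) (hc : c ≠ 0) : (Cfsg.reflectionSubgroup (⇑Q) c).index = 2 := by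
  have hS := H11.orthS_nondeg hQ
  have h2 : (2 : ZMod 3) ≠ 0 := by decide
  have h4 : (H11.orthS Q).NotO4 := H11.PForm.notO4_of_two_ne h2
  let θ : (H11.orthS Q).Isom →* ℤˣ := if H11.sqSign c = 1 then hS.spin else hS.dick * hS.spin
  have hθ : ∀ v, Q v ≠ 0 → θ ((H11.orthS Q).refl v) = H11.sqSign c * H11.sqSign (Q v) := fun v hv => by
    rcases Int.units_eq_one_or (H11.sqSign c) with e | e <;>
      simp [θ, e, hS.spin_refl hv, hS.dick_refl hv]
  have h1 : ∀ g, hS.dick g = 1 → θ g = hS.spin g := fun g hg => by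
    simp only [θ]; split_ifs <;> simp [hg]
  let K := (reflectionSubgroup (⇑Q) c).map (H11.orthEquiv Q).toMonoidHom
  have hK : K = Subgroup.closure {g | ∃ v, Q v = c ∧ g = (H11.orthS Q).refl v} := by
    simp only [K, reflectionSubgroup, MonoidHom.map_closure]
    congr 1
    ext g
    constructor
    · rintro ⟨x, ⟨v, hv, e⟩, rfl⟩
      exact ⟨v, hv, (H11.coe_eq_refl_iff Q _ _).1 e⟩
    · rintro ⟨v, hv, rfl⟩
      exact ⟨(H11.orthEquiv Q).symm ((H11.orthS Q).refl v), ⟨v, hv, (H11.coe_eq_refl_iff Q _ _).2 (by simp)⟩, by simp⟩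
  have hN : K.Normal := hK ▸ ⟨fun x hx g => by
    have := Subgroup.mem_map_of_mem (MulAut.conj g).toMonoidHom hx
    rw [MonoidHom.map_closure] at this
    refine Subgroup.closure_mono ?_ this
    rintro _ ⟨_, ⟨v, hv, rfl⟩, rfl⟩
    exact ⟨g.1 v, (H11.PForm.orth_isom_q g v).trans hv, H11.PForm.conj_refl g v⟩⟩
  have sg : ∀ a : ZMod 3, a ≠ 0 → H11.sqSign a = H11.sqSign c → a = c := fun a ha h => by
    obtain ⟨x, hx, e⟩ := H11.exists_sq_mul_of_sqSign_eq ha hc h
    rw [e, sq, z3_sq hx, one_mul]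
  have hC := hS.commutator_le_of_refl_class h2 (Or.inr (Or.inr (by simpa using hn))) hc (K := K)
    fun v hv e => hK ▸ Subgroup.subset_closure ⟨v, sg _ hv e, rfl⟩
  obtain ⟨u, hu⟩ := hS.orth_exists_q_eq (by simp; omega) c
  obtain ⟨w, hw⟩ := hS.orth_exists_q_eq (by simp; omega) (-c)
  have hu0 : Q u ≠ 0 := fun h => hc (hu.symm.trans h)
  have uK : (H11.orthS Q).refl u ∈ K := hK ▸ Subgroup.subset_closure ⟨u, hu, rfl⟩
  have e : K = θ.ker := by
    refine le_antisymm (hK.le.trans ((Subgroup.closure_le _).2 ?_)) fun g hg => ?_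
    · rintro _ ⟨v, hv, rfl⟩
      rw [SetLike.mem_coe, MonoidHom.mem_ker, hθ v (hv ▸ hc), hv, Int.units_mul_self]
    rcases Int.units_eq_one_or (hS.dick g) with e | e
    · exact hC ((hS.mem_commutator_iff h4 g).2 ⟨e, (h1 g e).symm.trans hg⟩)
    · have e' : hS.dick ((H11.orthS Q).refl u * g) = 1 := by simp [hS.dick_refl hu0, e]
      refine (K.mul_mem_cancel_left uK).1 (hC ((hS.mem_commutator_iff h4 _).2 ⟨e', ?_⟩))
      rw [← h1 _ e', map_mul, MonoidHom.mem_ker.1 hg, hθ u hu0, mul_one, show Q u = c from hu, Int.units_mul_self]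
  rw [← Subgroup.index_map_equiv _ (H11.orthEquiv Q)]
  change K.index = 2
  rw [e, Subgroup.index_ker, MonoidHom.range_eq_top.2 fun x => ?_]
  · simp
  rcases Int.units_eq_one_or x with rfl | rfl
  · exact ⟨1, map_one _⟩
  refine ⟨_, (hθ w fun h => neg_ne_zero.2 hc (hw.symm.trans h)).trans ?_⟩
  rw [show Q w = -c from hw]
  have : H11.sqSign (-c) ≠ H11.sqSign c := fun h => by
    have := sg _ (neg_ne_zero.2 hc) h
    rcases z3_cases hc with rfl | rfl <;> exact absurd this (by decide)
  revert this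
  rcases Int.units_eq_one_or (H11.sqSign c) with e | e <;> rcases Int.units_eq_one_or (H11.sqSign (-c)) with e' | e' <;>
    simp [e, e']

end Cfsg.Agent.S5359
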