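import Cfsg.Statements.S5362
import Cfsg.Agent.H28.DcB

set_option autoImplicit false
open scoped MatrixGroups
open Cfsg

namespace Cfsg.Agent.S5362
open H28


/-- Let D be a conjugacy class of 3-transpositions generating the finite group G, with trivial centre and trivial largest normal 2- and 3-subgroups, and suppose the commuting graph of D is not connected. Let F be the generalized Fitting subgroup of G. Then G/F is isomorphic to the symmetric group of degree 3, and F is isomorphic either to the commutator subgroup of the isometry group of the hyperbolic quadratic form in dimension 8 over the field with two elements, or to the commutator subgroup of the isometry group of the hyperbolic quadratic form in dimension 8 over the field with three elements modulo its centre. -/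
theorem result {G : Type*} [Group G] [Finite G] {D : Set G} (hD : Cfsg.IsThreeTranspositionClass D) (hZ : Subgroup.center G = ⊥) (h2 : Cfsg.pCore 2 G = ⊥) (h3 : Cfsg.pCore 3 G = ⊥) (hdisc : ¬ (Cfsg.commutingGraph D).Connected) (F : Subgroup G) [F.Normal] (hF : F = Cfsg.generalizedFittingSubgroup G) : Nonempty (G ⧸ F ≃* Equiv.Perm (Fin 3)) ∧ (Nonempty (F ≃* Cfsg.Omega (ZMod 2) (Cfsg.quadFormPlus 4 (ZMod 2))) ∨ Nonempty (F ≃* Cfsg.POmega (ZMod 3) (Cfsg.quadFormPlus 4 (ZMod 3)))) := by
  open H28 Subgroup in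
  have T := TC.of hD
  have ne := cls_ne hD
  have w : ∃ a ∈ D, ∃ b ∈ D, a ≠ b ∧ Commute a b := by
    by_contra! k
    have : (prods D).Normal := prods_normal T.cj
    have p := (H17.le_pCore_of_isSubnormal this.isSubnormal (pgroup_prods_nc T.T3 fun a ha b hb c => by_contra fun n => k a ha b hb n c)).trans h3.le
    obtain ⟨d, hd⟩ := ne
    refine t3_ne T.t3 hd (mem_bot.1 (hZ ▸ mem_center_iff.2 fun g => ?_))
    have := mem_bot.1 (p (mem_prods (T.cj g d hd) hd))
    rw [mul_eq_one_iff_eq_inv, t3_inv T.t3 hd, mul_inv_eq_iff_eq_mul] at this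
    exact this
  have hG : Gd D := ⟨T.lc, (T.vt_iff (two_of_w w)).2 (h2 ▸ bot_le), T.wt_iff.2 (h3 ▸ bot_le), ne, fun x hx => T.nb_ne w hx⟩
  obtain rfl : F = layer G := by rw [hF, generalizedFittingSubgroup, T.fit_eq (h2 ▸ bot_le) (h3 ▸ bot_le), hZ, sup_bot_eq]
  have hn : ¬ ∀ a ∈ D, ∀ b ∈ D, Cn D a b := fun k => hdisc (conn_iff.2 ⟨ne, k⟩)
  obtain ⟨d, hd⟩ := ne
  obtain ⟨P, z, n, ⟨e⟩, z', q⟩ := T.disc hG hZ hn hd
  obtain ⟨T', W⟩ := T.w1_quot hG hn
  obtain ⟨j, hj⟩ := W.ncard T'.T3 ⟨_, d, hd, rfl⟩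
  have dv : ∀ r, Ok r (layer G) → ¬ r ∣ 3 ^ j := fun r ⟨k, hk, c⟩ h => hk (by
    have i : Function.Injective (MulAut.conjNormal : G →* MulAut (layer G)) := (injective_iff_map_eq_one _).2 fun g hg =>
      T.cent_layer hG hZ fun y hy => by
        have := congrArg Subtype.val (DFunLike.congr_fun hg ⟨y, hy⟩)
        simp only [MulAut.conjNormal_apply, MulAut.one_apply, mul_inv_eq_iff_eq_mul] at this
        exact this.symm
    have := card_dvd_of_injective _ i
    rw [c, ← (layer G).index_mul_card, Nat.mul_dvd_mul_iff_right Nat.card_pos] at this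
    exact (h.trans (hj ▸ T'.ncard_index ⟨d, hd, rfl⟩ ▸ index_dvd_card _)).trans this)
  have j0 : j ≠ 0 := by
    rintro rfl
    obtain ⟨x, hx⟩ := Set.ncard_eq_one.1 hj
    exact hn fun a ha b hb => (T.mk_eq hG ha hb).1 ((hx.le ⟨a, ha, rfl⟩).trans (hx.le ⟨b, hb, rfl⟩).symm)
  rcases PC.out (T.T3.cmp hd) P z n (eq_bot_iff.2 fun x hx => by
    rw [H11.mem_center_iff_equiv e, z'] at hx; simpa using hx) q with h | ⟨h, k⟩
  · exact absurd (dvd_pow_self 3 j0) (dv 3 (h.of e.symm))
  · obtain rfl : j = 1 := by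
      by_contra j1
      exact dv 9 (h.of e.symm) (pow_dvd_pow 3 (show 2 ≤ j by omega))
    exact ⟨s3_of_three T' W hj, k.imp (fun ⟨f⟩ => ⟨e.symm.trans f⟩) fun ⟨f⟩ => ⟨e.symm.trans f⟩⟩

end Cfsg.Agent.S5362
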