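import Cfsg.Statements.S5365
import Cfsg.Agent.H28.CA

set_option autoImplicit false
open Cfsg

namespace Cfsg.Agent.S5365
open H28
open H28 Subgroup Equiv

theorem mem_three {G : Type*} [Group G] [Finite G] {D : Set G} (hD : T3 D) (cj : ∀ g : G, ∀ d ∈ D, g * d * g⁻¹ ∈ D) {d w : G}
    (hd : d ∈ D) (hw : w ∈ D) (h : Wr D d w) : d * w ∈ pCore 3 G := by
  have wc : ∀ g a b, Wr D a b → Wr D (g * a * g⁻¹) (g * b * g⁻¹) := fun g _ _ h => h.conj (cj_eq cj)
  let K := relKer D (Wr D) cj Wr.refl (fun _ _ => Wr.symm) (fun _ _ _ => Wr.trans) wc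
  have : K.Normal := relKer_normal _ _ _ _ _ _
  let E := {v | v ∈ D ∧ Wr D d v}
  refine prods_le_core (E := E) (K := K) ((closure_le _).2 ?_) ?_ ?_ (mem_prods ⟨hd, Wr.refl d⟩ ⟨hw, h⟩)
  · rintro _ ⟨x, hx, y, hy, rfl⟩ e he
    have hxy := hx.2.symm.trans hy.2
    have ix := t3_inv hD.t3 hx.1
    have iy := t3_inv hD.t3 hy.1
    by_cases h1 : e = y
    · subst h1
      rw [mul_inv_rev, ix, iy, mul_assoc x, t3_sq hD.t3 he, mul_one, ← mul_assoc]
      exact hxy.symm.trans (wr_conj_self hD hx.1 hxy)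
    by_cases h2 : e = x
    · subst h2
      rw [mul_inv_rev, ix, iy]
      have := wr_conj_self hD he (hxy.trans (wr_conj_self hD hy.1 hxy.symm))
      simpa [mul_assoc] using this
    by_cases hc : Commute x e
    · have : e ∈ nb D x := ⟨he, h2, hc⟩
      rw [hxy] at this
      rw [conj_fix hc this.2.2]; exact Wr.refl e
    · refine rel_nc hD.t3 _ wc hx.1 hy.1 he hxy hc fun h => hc ?_
      have : e ∈ nb D y := ⟨he, h1, h⟩
      rw [← hxy] at this
      exact this.2.2
  · exact fun g hg u hu => ⟨cj g u hu.1, hu.2.trans (hg u hu.1)⟩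
  · refine pgroup_prods_nc (hD.wcl d) fun a ha b hb hc => ?_
    by_contra hne
    exact (ha.2.symm.trans hb.2).nc hb.1 (Ne.symm hne) hc

theorem s3 : ∀ s t u : Perm (Fin 3), s * s = 1 → s ≠ 1 → t * t = 1 → t ≠ 1 → u * u = 1 → u ≠ 1 →
    (s * t = t * s → s = t) ∧ (s ≠ t → u = s ∨ u = t ∨ u = s * t * s) := by
  set_option synthInstance.maxSize 2000 in decide +kernel


/-- Let D be a non-empty conjugation-invariant set of involutions of a finite group G satisfying the 3-transposition order conditions, and suppose that for every d in D the members of D other than d commuting with d generate a subgroup isomorphic to the symmetric group of degree 3, and the largest normal 3-subgroup of the centralizer of d has order 3. Then the subgroup generated by D is isomorphic to the symmetric group of degree 5 or to the direct product of two symmetric groups of degree 3. -/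
theorem result {G : Type*} [Group G] [Finite G] {D : Set G} (hD : Cfsg.IsThreeTranspositionSet D) (hconj : ∀ g : G, ∀ d ∈ D, g * d * g⁻¹ ∈ D) (hne : D.Nonempty) (hloc : ∀ d ∈ D, Nonempty (↥(Subgroup.closure {y : G | y ∈ D ∧ y ≠ d ∧ Commute d y}) ≃* Equiv.Perm (Fin 3)) ∧ Nat.card (Cfsg.pCore 3 ↥(Subgroup.centralizer ({d} : Set G))) = 3) : Nonempty (↥(Subgroup.closure D) ≃* Equiv.Perm (Fin 5)) ∨ Nonempty (↥(Subgroup.closure D) ≃* Equiv.Perm (Fin 3) × Equiv.Perm (Fin 3)) := by
  have hT : T3 D := ⟨hD, fun a ha b hb => by simpa [t3_inv hD ha] using hconj a b hb⟩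
  have F : ∀ d ∈ D, ∀ x ∈ nb D d, ∀ y ∈ nb D d, ∀ z ∈ nb D d, (Commute x y → x = y) ∧ (x ≠ y → z = x ∨ z = y ∨ z = x * y * x) := by
    intro d hd x hx y hy z hz
    obtain ⟨φ⟩ := (hloc d hd).1
    have k : ∀ {x} (hx : x ∈ nb D d), φ (inE hx) * φ (inE hx) = 1 ∧ φ (inE hx) ≠ 1 := fun hx => ⟨by
      rw [← map_mul, map_eq_one_iff _ φ.injective]; exact Subtype.ext (t3_sq hD hx.1),
      fun e => t3_ne hD hx.1 (congrArg Subtype.val ((map_eq_one_iff _ φ.injective).1 e))⟩
    have := s3 _ _ _ (k hx).1 (k hx).2 (k hy).1 (k hy).2 (k hz).1 (k hz).2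
    simp only [← map_mul, φ.injective.eq_iff, ne_eq, Subtype.ext_iff] at this
    exact this
  have F1 := fun d hd x hx y hy => (F d hd x hx y hy x hx).1
  have F2 := fun d hd x hx y hy n z hz => (F d hd x hx y hy z hz).2 n
  have F0 : ∀ d ∈ D, ∀ c ∈ closure (nb D d), (∀ x ∈ nb D d, Commute x c) → c = 1 := fun d hd c hc h => by
    obtain ⟨φ⟩ := (hloc d hd).1
    have k : ∀ s : Perm (Fin 3), (∀ t, t * s = s * t) → s = 1 := by decide
    refine congrArg Subtype.val ((map_eq_one_iff _ φ.injective).1 (k (φ ⟨c, hc⟩) fun t => ?_))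
    obtain ⟨t, rfl⟩ := φ.surjective t
    rw [← map_mul, ← map_mul]
    exact congrArg φ (Subtype.ext (mem_centralizer_singleton_iff.1 ((closure_le (centralizer {c})).2
      (fun x hx => mem_centralizer_singleton_iff.2 (h x hx)) t.2)))
  have F3 : ∀ d ∈ D, ∃ x, x ∈ nb D d := fun d hd => by
    obtain ⟨φ⟩ := (hloc d hd).1
    by_contra! k
    have := Nat.card_congr φ.toEquiv
    rw [show {y | y ∈ D ∧ y ≠ d ∧ Commute d y} = ∅ from Set.eq_empty_of_forall_notMem k, Subgroup.closure_empty] at this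
    simp [Fintype.card_perm, Nat.factorial] at this
  have F4 : ∀ d ∈ D, ∀ x ∈ nb D d, ∃ y ∈ nb D d, y ≠ x := fun d hd x hx => by
    by_contra! k
    exact t3_ne hD hx.1 (F0 d hd x (subset_closure hx) fun y hy => k y hy ▸ Commute.refl _)
  have sy : ∀ {d x}, d ∈ D → x ∈ nb D d → d ∈ nb D x := fun hd hx => ⟨hd, hx.2.1.symm, hx.2.2.symm⟩
  have S : ∀ e ∈ D, ∀ l ∈ D, ∀ m ∈ D, Commute l m → l ≠ m → ¬ Commute e l → ¬ Commute e m → l * m * e * (l * m)⁻¹ ∈ nb D e :=
    fun e he l hl m hm c n h1 h2 => ⟨hconj _ e he, fun k => h1 (t3_two hD hl hm he n (mul_inv_eq_iff_eq_mul.1 k).symm).1,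
      t3_S4 hD hl hm he c h1 h2⟩
  by_cases W : ∀ d ∈ D, ∀ a ∈ nb D d, ∀ b ∈ nb D d, Wr D a b
  · obtain ⟨d, hd⟩ := hne
    obtain ⟨a, ha⟩ := F3 d hd
    have md := sy hd ha
    have c : ∀ l ∈ nb D d, ∀ m ∈ nb D a, m ∈ nb D l := fun l hl m hm => W d hd a ha l hl ▸ hm
    by_cases h : ∀ e ∈ D, e ∈ nb D d ∨ e ∈ nb D a
    · have cc : ∀ (x : closure (nb D d)) (y : closure (nb D a)), Commute (x : G) y := fun x y =>
        mem_centralizer_singleton_iff.1 ((closure_le (centralizer {y.1})).2 (fun l hl => mem_centralizer_singleton_iff.2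
          (mem_centralizer_singleton_iff.1 ((closure_le (centralizer {l})).2 (fun m hm => mem_centralizer_singleton_iff.2
            (c l hl m hm).2.2.symm) y.2)).symm) x.2)
      let ψ := (closure (nb D d)).subtype.noncommCoprod (closure (nb D a)).subtype cc
      have inj : Function.Injective ψ := (MonoidHom.noncommCoprod_injective _ _ _).2 ⟨subtype_injective _, subtype_injective _, by
        rw [range_subtype, range_subtype, disjoint_def]
        exact fun h1 h2 => F0 d hd _ h1 fun x hx => cc (inE hx) ⟨_, h2⟩⟩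
      have r : ψ.range = closure D := by
        rw [(MonoidHom.noncommCoprod_range _ _ _ : ψ.range = _), range_subtype, range_subtype, ← Subgroup.closure_union]
        exact congrArg _ (Set.ext fun e => ⟨fun k => k.elim (·.1) (·.1), fun k => h e k⟩)
      obtain ⟨φ⟩ := (hloc d hd).1
      obtain ⟨φ'⟩ := (hloc a ha.1).1
      exact .inr ⟨((MulEquiv.subgroupCongr r).symm.trans (MonoidHom.ofInjective inj).symm).trans (φ.prodCongr φ')⟩
    push Not at h
    obtain ⟨e, he, h1, h2⟩ := h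
    have n1 : ∀ l ∈ nb D d, ¬ Commute e l := fun l hl k => h2 (W d hd l hl a ha ▸ ⟨he, fun q => h1 (q ▸ hl), k.symm⟩)
    have n2 : ∀ m ∈ nb D a, ¬ Commute e m := fun m hm k => h1 (W a ha.1 m hm d md ▸ ⟨he, fun q => h2 (q ▸ hm), k.symm⟩)
    have f := fun l hl m hm => S e he l hl.1 m hm.1 (c l hl m hm).2.2 (c l hl m hm).2.1.symm (n1 l hl) (n2 m hm)
    have inj : ∀ l ∈ nb D d, ∀ m ∈ nb D a, ∀ l' ∈ nb D d, ∀ m' ∈ nb D a, l * m * e * (l * m)⁻¹ = l' * m' * e * (l' * m')⁻¹ →
        l = l' ∧ m = m' := fun l hl m hm l' hl' m' hm' k => by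
      by_contra n
      have t2 := (pow_two _).symm.trans (sq_of_comm (t3_sq hD hl.1) (t3_sq hD hm.1) (c l hl m hm).2.2)
      have t2' := (pow_two _).symm.trans (sq_of_comm (t3_sq hD hl'.1) (t3_sq hD hm'.1) (c l' hl' m' hm').2.2)
      have ez : l * m * (l' * m') = l * l' * (m * m') := by
        rw [mul_assoc, ← mul_assoc m, ← (c l' hl' m hm).2.2.eq]; group
      have z3 : l * m * (l' * m') ∈ pCore 3 G := ez ▸ mul_mem (mem_three hT hconj hl.1 hl'.1 (W d hd l hl l' hl'))
        (mem_three hT hconj hm.1 hm'.1 (W a ha.1 m hm m' hm'))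
      have z1 : l * m * (l' * m') ≠ 1 := fun q => by
        rw [ez, mul_eq_one_iff_eq_inv] at q
        obtain rfl := F1 d hd l hl l' hl' (by
          have := ((c l hl m hm).2.2.mul_right (c l hl m' hm').2.2).inv_right
          simpa [← mul_assoc, t3_sq hD hl.1] using (Commute.refl l).mul_right (q ▸ this :))
        rw [t3_sq hD hl.1, eq_inv_iff_mul_eq_one, one_mul, mul_eq_one_iff_eq_inv, t3_inv hD hm'.1] at q
        exact n ⟨rfl, q⟩
      have hf := f l hl m hm
      generalize l * m = t at *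
      generalize l' * m' = t' at *
      rw [inv_of_sq t2, inv_of_sq t2'] at k
      rw [inv_of_sq t2] at hf
      have ze : Commute (t * t') e := calc
        _ = t * (t' * e * t') * t' := by simp [mul_assoc, t2']
        _ = _ := by simp [← k, ← mul_assoc, t2]
      have zf : Commute (t * e * t) (t * t') := calc
        _ = t * e * t' := by simp [mul_assoc, canc t2]
        _ = _ := by simp [k, mul_assoc, canc t2']
      obtain ⟨f', hf', n'⟩ := F4 e he _ hf
      have le : (pCore 3 G).subgroupOf (centralizer {e}) ≤ pCore 3 _ := H17.le_pCore_of_isSubnormal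
        (Normal.isSubnormal inferInstance) ((H17.pCore_isPGroup G 3).comap_subtype)
      have := Fact.mk Nat.prime_three
      obtain ⟨j, hj⟩ := mem_zpowers_of_prime_card (hloc e he).2 (g := ⟨⟨t * t', mem_centralizer_singleton_iff.2 ze⟩, le z3⟩)
        (g' := ⟨⟨t * e * t * f', mem_centralizer_singleton_iff.2 (hf.2.2.mul_right hf'.2.2).symm⟩,
          le (mem_three hT hconj hf.1 hf'.1 (W e he _ hf _ hf'))⟩) fun q => z1 (congrArg (·.1.1) q)
      have hj : (t * t') ^ j = t * e * t * f' := by simpa using congrArg (·.1.1) hj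
      exact n' (F1 e he _ hf _ hf' (by
        have := (Commute.refl _).inv_right.mul_right (zf.zpow_right j)
        rwa [hj, inv_mul_cancel_left] at this)).symm
    obtain ⟨b, hb, nb'⟩ := F4 d hd a ha
    obtain ⟨m, hm, nm⟩ := F4 a ha.1 d md
    have k := F2 e he _ (f a ha d md) _ (f b hb d md) fun q => nb' (inj a ha d md b hb d md q).1.symm
    rcases k _ (f a ha m hm) with q | q | q
    · exact absurd (inj _ ha _ hm _ ha _ md q).2 nm
    · exact absurd (inj _ ha _ hm _ hb _ md q).2 nm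
    rcases k _ (f b hb m hm) with r | r | r
    · exact absurd (inj _ hb _ hm _ ha _ md r).2 nm
    · exact absurd (inj _ hb _ hm _ hb _ md r).2 nm
    · exact absurd (inj _ hb _ hm _ ha _ hm (r.trans q.symm)).1 nb'
  push Not at W
  obtain ⟨d, hd, a, ha, b, hb, n⟩ := W
  obtain ⟨x, hx, nx⟩ := F4 a ha.1 d (sy hd ha)
  have ab : a ≠ b := fun q => n (q ▸ Wr.refl a)
  have nab : ¬ Commute b a := fun q => ab (F1 d hd b hb a ha q).symm
  have key : ∀ {a b}, a ∈ nb D d → b ∈ nb D d → x ∈ nb D a → x ∈ nb D b → nb D a ⊆ nb D b := fun ha hb h1 h2 y hy => by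
    rcases F2 _ ha.1 d (sy hd ha) x h1 nx.symm y hy with rfl | rfl | rfl
    exacts [sy hd hb, h2, (hT.nb _).cl _ (sy hd hb) _ h2]
  obtain ⟨φ, e1, e2, e3, e4, inj, hr, sn⟩ := s5_frame hT hd hx.1 hb.1 ha.1 (fun q => nx (F1 a ha.1 d (sy hd ha) x hx q).symm)
    (fun q => have : x ∈ nb D b := ⟨hx.1, fun r => nab (r ▸ hx.2.2.symm), q.symm⟩
      n ((key ha hb hx this).antisymm (key hb ha this hx))) nab hb.2.2 ha.2.2 hx.2.2.symm
  refine .inl ⟨(MulEquiv.subgroupCongr (hr.antisymm ((closure_le _).2 fun e he => by_contra fun ne => ?_))).symm.trans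
    (MonoidHom.ofInjective inj).symm⟩
  have nc : ∀ i j, i ≠ j → ¬ Commute e (φ (swap i j)) := fun i j hij q => by
    obtain ⟨g, hg⟩ := isConj_iff.1 (Perm.isConj_swap (show (0 : Fin 5) ≠ 1 by decide) hij)
    rw [← hg, map_mul, map_mul, map_inv, e1] at q
    have m : (φ g)⁻¹ * e * (φ g)⁻¹⁻¹ ∈ φ.range := by
      by_cases r : (φ g)⁻¹ * e * (φ g)⁻¹⁻¹ = d
      · exact ⟨_, e1.trans r.symm⟩
      rcases F2 d hd a ha b hb ab _ ⟨hconj _ e he, r, by simpa [mul_assoc] using ((commute_conj (φ g)⁻¹).2 q).symm⟩ with r | r | r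
      exacts [⟨_, e4.trans r.symm⟩, ⟨_, e3.trans r.symm⟩, r ▸ mul_mem (mul_mem ⟨_, e4⟩ ⟨_, e3⟩) ⟨_, e4⟩]
    exact ne (by simpa [mul_assoc] using mul_mem (mul_mem (⟨g, rfl⟩ : φ g ∈ φ.range) m) (inv_mem (⟨g, rfl⟩ : φ g ∈ φ.range)))
  have s : ∀ i j k l : Fin 5, i ≠ j → k ≠ l → swap i j * swap k l = swap k l * swap i j → swap i j ≠ swap k l →
      φ (swap i j * swap k l) * e * (φ (swap i j * swap k l))⁻¹ ∈ nb D e := fun i j k l h1 h2 h3 h4 => by
    rw [map_mul]; exact S e he _ (sn.1 i j h1) _ (sn.1 k l h2) (Commute.map h3 φ) (inj.ne h4) (nc i j h1) (nc k l h2)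
  have s1 := s 0 1 2 3 (by decide) (by decide) (by decide) (by decide)
  have s2 := s 0 2 1 3 (by decide) (by decide) (by decide) (by decide)
  have s3 := s 0 3 1 2 (by decide) (by decide) (by decide) (by decide)
  rw [show swap (0 : Fin 5) 2 * swap 1 3 = swap 0 1 * swap 2 3 * (swap 0 3 * swap 1 2) by decide, map_mul] at s2
  have := F1 e he _ s1 _ s2 (by simpa only [mul_assoc, mul_inv_rev] using (commute_conj (φ (swap 0 1 * swap 2 3))).2 s3.2.2)
  generalize φ (swap 0 1 * swap 2 3) = u at this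
  generalize φ (swap 0 3 * swap 1 2) = v at this s3
  exact s3.2.1 (by
    have := congrArg (fun x => u⁻¹ * x * u) this
    simpa [mul_assoc] using this.symm)

end Cfsg.Agent.S5365
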