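import Cfsg.Statements.S5368
import Cfsg.Agent.S5369

set_option autoImplicit false
open scoped MatrixGroups
open Cfsg

namespace Cfsg.Agent.S5368
open H28


/-- Fischer's Theorem on 3-transposition groups. Let D be a conjugacy class of 3-transpositions generating the finite group G, and suppose the centre of G is trivial and the commutator subgroup of G is simple (possibly of prime order). Then one of the following holds: (1) G is isomorphic to a symmetric group with D going to the transpositions; (2) G is isomorphic to a symplectic group over the field with two elements with D going to the transvections (elements g with g − 1 of rank one); (3) G is isomorphic to a projective special unitary group over the field with four elements with D going to the images of the unitary transvections; (4) G is isomorphic to the full isometry group of a hyperbolic or elliptic quadratic form over the field with two elements with D going to the orthogonal transvections; (5)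 G is isomorphic to the subgroup of the isometry group of a non-degenerate quadratic form over the field with three elements generated by the reflections in vectors of a fixed non-zero norm, taken modulo its centre, with D going to the images of those reflections; (6) G with D is of type M(22), M(23) or M(24). -/
theorem result {G : Type*} [Group G] [Finite G] {D : Set G} (hD : Cfsg.IsThreeTranspositionClass D) (hZ : Subgroup.center G = ⊥) (hsimple : IsSimpleGroup (commutator G)) : (∃ n : ℕ, ∃ e : G ≃* Equiv.Perm (Fin n), e '' D = {σ : Equiv.Perm (Fin n) | σ.IsSwap}) ∨ (∃ m : ℕ, ∃ e : G ≃* Matrix.symplecticGroup (Fin m) (ZMod 2), e '' D = {g : Matrix.symplecticGroup (Fin m) (ZMod 2) | ((g : Matrix (Fin m ⊕ Fin m) (Fin m ⊕ Fin m) (ZMod 2)) - 1).rank = 1}) ∨ (∃ (n : ℕ) (F : Type) (_ : Field F) (_ : Fintype F), Fintype.card F = 4 ∧ ∃ e : G ≃* Cfsg.PSU n F 2, e '' D = (QuotientGroup.mk : ↥(Cfsg.SU n F 2) → Cfsg.PSU n F 2) '' {g : ↥(Cfsg.SU n F 2) | (((g : Matrix.SpecialLinearGroup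 (Fin n) F) : Matrix (Fin n) (Fin n) F) - 1).rank = 1}) ∨ ((∃ m : ℕ, ∃ e : G ≃* ↥(Cfsg.isometryGroup (ZMod 2) (Cfsg.quadFormPlus m (ZMod 2))), e '' D = {g : ↥(Cfsg.isometryGroup (ZMod 2) (Cfsg.quadFormPlus m (ZMod 2))) | (((g : GL (Fin m ⊕ Fin m) (ZMod 2)) : Matrix (Fin m ⊕ Fin m) (Fin m ⊕ Fin m) (ZMod 2)) - 1).rank = 1}) ∨ (∃ m : ℕ, ∃ e : G ≃* ↥(Cfsg.isometryGroup (ZMod 2) (Cfsg.quadFormMinus m (ZMod 2) 1 1)), e '' D = {g : ↥(Cfsg.isometryGroup (ZMod 2) (Cfsg.quadFormMinus m (ZMod 2) 1 1)) | (((g : GL ((Fin m ⊕ Fin m) ⊕ Fin 2) (ZMod 2)) : Matrix ((Fin m ⊕ Fin m) ⊕ Fin 2) ((Fin m ⊕ Fin m) ⊕ Fin 2) (ZMod 2)) - 1).rank = 1})) ∨ (∃ n : ℕ, ∃ Q : QuadraticForm (ZMod 3) (Fin n → ZMod 3), (QuadraticMap.polarBilin Q).Nondegenerate ∧ ∃ c : ZMod 3, c ≠ 0 ∧ ∃ e : G ≃* ↥(Cfsg.reflectionSubgroup (⇑Q) c) ⧸ Subgroup.center ↥(Cfsg.reflectionSubgroup (⇑Q) c), e '' D = (QuotientGroup.mk : ↥(Cfsg.reflectionSubgroup (⇑Q) c) → _) '' {g : ↥(Cfsg.reflectionSubgroup (⇑Q) c) | (g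 : ↥(Cfsg.isometryGroup (ZMod 3) (⇑Q))) ∈ Cfsg.reflectionsOfNorm (⇑Q) c}) ∨ (Cfsg.IsOfTypeM22 G D ∨ Cfsg.IsOfTypeM23 G D ∨ Cfsg.IsOfTypeM24 G D) := by
  have hT := TC.of hD
  by_cases hw : ∃ a ∈ D, ∃ b ∈ D, a ≠ b ∧ Commute a b
  · have hP := PC.of_simple hT hsimple hw
    obtain ⟨d, hd, b, hb, n, c⟩ := hw
    by_cases h3 : WT (nb D d)
    swap
    · exact Or.inl ⟨5, hP.caseA hd h3⟩
    by_cases h2 : VT (nb D d)
    swap
    · rcases hP.caseB hZ hd h2 with ⟨-, n, S, τ, m⟩ | ⟨n, h4, m⟩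
      exacts [Or.inr (Or.inl ((m.fin_sp hP.gen hZ).imp fun _ h => h.2)),
        Or.inr (Or.inr (Or.inl ⟨n, K4, inferInstance, inferInstance, K4.card, m.fin hP hZ h4⟩))]
    exact (S5369.result hP.grp hP.prim hZ d hd ⟨b, hb, n.symm, c⟩ ((hP.wt_iff hd).1 h3) ((hP.vt_iff hd).1 h2)).imp
      (fun h => h.imp fun _ h => h.2) fun h => Or.inr (Or.inr (h.imp
        (Or.imp (fun h => h.imp fun _ h => h.2) fun h => h.imp fun _ h => h.2) (Or.imp_left fun h => h.imp fun _ h => h.2)))
  have w : W1 D := fun a ha b hb c => by_contra fun n => hw ⟨a, ha, b, hb, n, c⟩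
  have cm := IsSimpleGroup.comm_iff_isSolvable.2
    (H17.solvable_of_le (le_top (a := commutator G)) (solv_of_width_one hT.grp (cls_ne hD) w))
  refine Or.inl (sn_of_noD4 hT (by_contra fun n => ?_) (fun x hx y hy z hz n1 n2 n3 => ?_)
    fun ⟨_, _, a, ha, b, hb, _, _, n, _, _, c, _⟩ => n (w a ha b hb c))
  · push Not at n
    have : commutator G = ⊥ := (commutator_eq_bot_iff G).2 ⟨⟨fun x y => comm_of_closure (E := D)
      (fun a ha b hb => n a ha b hb ▸ Commute.refl a) (hT.gen ▸ Subgroup.mem_top x) (hT.gen ▸ Subgroup.mem_top y)⟩⟩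
    exact (Subgroup.nontrivial_iff_ne_bot _).1 hsimple.toNontrivial this
  have x2 := t3_sq hT.t3 hx
  have y2 := t3_sq hT.t3 hy
  have b := t3_braid hT.t3 hx hy n1
  rcases (show (Subgroup.zpowers (⟨x * y, hT.mul_mem_comm hx hy⟩ : commutator G)).Normal from
    ⟨fun n hn g => by rw [cm g n]; simpa⟩).eq_bot_or_eq_top with h | h
  · exact absurd (mul_left_cancel ((congrArg Subtype.val (Subgroup.zpowers_eq_bot.1 h)).trans x2.symm) ▸ Commute.refl x) n1
  obtain ⟨k, hk⟩ := h.ge (Subgroup.mem_top ⟨x * z, hT.mul_mem_comm hx hz⟩)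
  have e : (x * y) ^ (k % (3 : ℕ)) = x * z := (zpow_eq_zpow_emod' k (cube_of_braid x2 y2 b)).symm.trans
    (congrArg Subtype.val hk)
  obtain h | h | h : k % (3 : ℕ) = 0 ∨ k % (3 : ℕ) = 1 ∨ k % (3 : ℕ) = 2 := by omega
  all_goals rw [h] at e
  · exact absurd (mul_left_cancel (x2.trans ((zpow_zero _).symm.trans e)) ▸ Commute.refl x) n2
  · exact absurd (mul_left_cancel ((zpow_one _).symm.trans e) ▸ Commute.refl y) n3
  · rw [zpow_two, mul_assoc, mul_left_cancel_iff, ← mul_assoc, ← b] at e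
    exact e ▸ Commute.refl _

end Cfsg.Agent.S5368
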