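import Cfsg.Statements.S5401
import Cfsg.Agent.H28.F24

set_option autoImplicit false
open Cfsg

namespace Cfsg.Agent.S5401
open H28


/-- Existence of the Fischer 3-transposition groups: there exist finite groups generated by a conjugacy class of 3-transpositions on which they act primitively that are of type M(22), of type M(23), and of type M(24) respectively. -/
theorem result : (∃ (X : Type) (_ : Group X) (_ : Finite X) (E : Set X), Cfsg.IsThreeTranspositionClass E ∧ Cfsg.IsPrimitiveUnderConj E ∧ Cfsg.IsOfTypeM22 X E) ∧ (∃ (X : Type) (_ : Group X) (_ : Finite X) (E : Set X), Cfsg.IsThreeTranspositionClass E ∧ Cfsg.IsPrimitiveUnderConj E ∧ Cfsg.IsOfTypeM23 X E) ∧ (∃ (X : Type) (_ : Group X) (_ : Finite X) (E : Set X), Cfsg.IsThreeTranspositionClass E ∧ Cfsg.IsPrimitiveUnderConj E ∧ Cfsg.IsOfTypeM24 X E) := by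
  obtain ⟨X, _, _, E, h, hZ, t⟩ := ex22
  obtain ⟨Y, _, _, E', h', hZ', t'⟩ := ex23
  exact ⟨⟨X, _, ‹_›, E, h.cls, h.prim, t.type hZ⟩, ⟨Y, _, ‹_›, E', h'.cls, h'.prim, t'.type hZ'⟩,
    _, _, fin24, D24, three24, pc24.prim, t24.1.type center24⟩

end Cfsg.Agent.S5401
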