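import Cfsg.Statements.S5521
import Cfsg.Agent.H14.M24Use

set_option autoImplicit false
open Cfsg

namespace Cfsg.Agent.S5521

open H14 MulAction
open scoped Pointwise
set_option maxRecDepth 100000

/-- The Mathieu group M₂₄ in its natural action on the 24 coordinate positions of the binary Golay code has minimal base size exactly 7: every set of at most 6 positions is fixed pointwise by some non-identity element of M₂₄, while some set of 7 positions is fixed pointwise only by the identity. -/
theorem result :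
    (∀ B : Finset Cfsg.GolayPt, B.card ≤ 6 → ∃ g ∈ Cfsg.M24, g ≠ 1 ∧ ∀ b ∈ B, g b = b) ∧
    (∃ B : Finset Cfsg.GolayPt, B.card = 7 ∧ ∀ g ∈ Cfsg.M24, (∀ b ∈ B, g b = b) → g = 1) := by
  refine ⟨fun B hB => ?_, bset (bits [5, 4, 3, 2, 1, 0, 23]), (card_bset_eq_iff _ _).2 (by decide +kernel),
    fun g hg h => congrArg Subtype.val (eq_one_of_fix7 (g := ⟨g, hg⟩) h)⟩
  have : Finite M24 := inferInstance
  have := Fintype.ofFinite M24
  obtain ⟨a, b, hab, e⟩ := Fintype.exists_ne_map_eq_of_card_lt (fun (g : M24) (p : B) => g • p.1) (by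
    rw [Fintype.card_fun, card_golayPt, Fintype.card_coe, ← Nat.card_eq_fintype_card, card_M24]
    exact (Nat.pow_le_pow_right (by norm_num) hB).trans_lt (by norm_num))
  refine ⟨(b⁻¹ * a : M24), (b⁻¹ * a).2, fun h => hab (inv_mul_eq_one.1 (Subtype.ext h)).symm, fun p hp => ?_⟩
  show (b⁻¹ * a) • p = p
  rw [mul_smul, inv_smul_eq_iff]
  exact congrFun e ⟨p, hp⟩

end Cfsg.Agent.S5521
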