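import Cfsg.Statements.S5529
import Cfsg.Agent.H16.M23k
import Cfsg.Agent.H16.Ree

set_option autoImplicit false
open Cfsg

namespace Cfsg.Agent.S5529

open H14 H16.MX H16.Ree MulAction
set_option maxRecDepth 100000

noncomputable def tab : List (ℕ × ℕ × ℕ × Word × Word × Word × Word) := [
  (2, 5, 11, [12, 19], [0, 8, 10], dw (nat_lit 0x0401030103030104040103010303010404010404), dw (nat_lit 0x010404010301030103030104010301040104010301040103)),
  (2, 5, 23, [16, 21, 16], [5, 1, 5], dw (nat_lit 0x040103030103010401030301030103030103010401), dw (nat_lit 0x0303010404010404010401040103030103030103030103010303)),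
  (2, 7, 7, [18, 12, 18], [7, 0, 15], dw (nat_lit 0x04040103010404010303030104010303030103030301040404), dw (nat_lit 0x0404040103030301030104040104010404010404040103)),
  (2, 7, 11, [16, 20], [13, 5, 1], dw (nat_lit 0x0103030104010303010404010301030301040401030104), dw (nat_lit 0x0303010301030301030104040103010401030104)),
  (2, 7, 23, [4, 20, 17], [4, 0, 0], dw (nat_lit 0x04040103030104040103010401040401030303010303010401), dw (nat_lit 0x0104010404010301030104010401040104040104040401)),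
  (2, 11, 11, [8, 13, 21], [0, 12, 5], dw (nat_lit 0x0103030303010301040401030301030301030303), dw (nat_lit 0x01040103030104010404040404010404040104010404)),
  (2, 11, 23, [17, 19], [19, 1, 20], dw (nat_lit 0x0404010303010404010404010401030103030103), dw (nat_lit 0x030303030301030104010404040401040404010303010401)),
  (2, 23, 23, [17, 18, 20], [19, 20, 0], dw (nat_lit 0x010401030103010401040103010301), dw (nat_lit 0x040404010303030104010301030301040404010301)),
  (3, 3, 11, [4, 21], [11, 0, 20], dw (nat_lit 0x020302040103020401040204010301030104), dw (nat_lit 0x02040104020302030103010302030104020402040104)),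
  (3, 3, 23, [12, 15, 16], [10, 21, 1], dw (nat_lit 0x030204020401030103020302030103020302030204), dw (nat_lit 0x040203010402030203020301040104010302040204)),
  (3, 5, 5, [10, 20, 11], [9, 1], dw (nat_lit 0x0104010404010401030104010401040402), dw (nat_lit 0x01030302040104010402030103020401040204)),
  (3, 5, 7, [8, 20, 9], [0, 8, 10], dw (nat_lit 0x0203020402030204010301040203), dw (nat_lit 0x0204020402040104040104020401030204)),
  (3, 5, 11, [1, 15, 0], [6, 11, 12], dw (nat_lit 0x0301030302040104040203010303020301), dw (nat_lit 0x030204010404020401030204020402030301)),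
  (3, 5, 23, [1, 17, 0], [10, 18, 4], dw (nat_lit 0x04040103010301030103020301040204), dw (nat_lit 0x03030104040104020303020303)),
  (3, 7, 7, [15, 20, 14], [0, 12, 9], dw (nat_lit 0x04040402040103010404010401030203), dw (nat_lit 0x02040104010301030301030302030204)),
  (3, 7, 11, [15, 19, 21], [1, 15], dw (nat_lit 0x030104020404040103010402040203010301), dw (nat_lit 0x01040204040203010303020401040402)),
  (3, 7, 23, [1, 21, 0], [12, 7], dw (nat_lit 0x040204010401040203030104040103), dw (nat_lit 0x040404010404010402040204010303)),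
  (3, 11, 11, [20, 15, 11], [15, 1, 11], dw (nat_lit 0x0104040103020302040103030204), dw (nat_lit 0x020302030303010301040402030302)),
  (3, 11, 23, [16, 18, 20], [0, 13, 16], dw (nat_lit 0x0301030104020303020303010301030301), dw (nat_lit 0x04010301040404010303020303010402)),
  (3, 23, 23, [16, 18, 9], [7, 0, 12], dw (nat_lit 0x0404040103030104040104010402), dw (nat_lit 0x040204020404020404040103030301)),
  (5, 5, 5, [5, 21, 8], [4, 6, 1], dw (nat_lit 0x0401040401010301030203020203), dw (nat_lit 0x0204020301010404010103010302)),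
  (5, 5, 7, [18, 1, 16], [5, 9, 7], dw (nat_lit 0x01030302030301030301040401010301), dw (nat_lit 0x030103030103010401010401040103)),
  (5, 5, 11, [0, 21, 14], [15, 17], dw (nat_lit 0x030101040402030103020303010302), dw (nat_lit 0x020301010301040402040402040204)),
  (5, 5, 23, [1, 11, 9], [15, 19, 15], dw (nat_lit 0x040203020204010301040401), dw (nat_lit 0x0301030101030203030202030103)),
  (5, 7, 7, [21, 6, 11], [16, 21, 0], dw (nat_lit 0x010402040103030103020402040101), dw (nat_lit 0x040204020303030202030301030303)),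
  (5, 7, 11, [11, 11], [15, 4, 1], dw (nat_lit 0x03010402040204040101030202), dw (nat_lit 0x0104010402020402020302030103)),
  (5, 7, 23, [18, 9, 13], [17, 0, 10], dw (nat_lit 0x03020301030101040104020404), dw (nat_lit 0x040204020204040103020402)),
  (5, 11, 11, [16, 20, 11], [21, 9, 0], dw (nat_lit 0x030103010402030202040202030204), dw (nat_lit 0x0404020303030303010404040404)),
  (5, 11, 23, [1, 11, 0], [12, 18, 6], dw (nat_lit 0x010103010404040204010404040204), dw (nat_lit 0x01040103030203010404020402)),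
  (5, 23, 23, [7], [6, 1, 7], dw (nat_lit 0x020401), dw (nat_lit 0x02040401040203030301040104)),
  (7, 7, 7, [17, 6, 12], [14, 9, 0], dw (nat_lit 0x0104040203010101040401040101), dw (nat_lit 0x0204010103030203030203010101)),
  (7, 7, 11, [9, 6, 13], [0, 17, 14], dw (nat_lit 0x04040401030202030103020202), dw (nat_lit 0x030103010101030204040202040101)),
  (7, 7, 23, [17, 14, 11], [15, 16, 1], dw (nat_lit 0x010302020301010401040203), dw (nat_lit 0x040401010303030101040204020301)),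
  (7, 11, 11, [1, 11, 12], [6, 5, 21], dw (nat_lit 0x0104040103030302040204020203), dw (nat_lit 0x02020204010302040203030302)),
  (7, 11, 23, [13, 1, 8], [15, 9, 7], dw (nat_lit 0x0203030301030202040104040404), dw (nat_lit 0x0202030301030202040204010101)),
  (7, 23, 23, [19, 5], [0, 10, 9], dw (nat_lit 0x040103030302020203010302030101), dw (nat_lit 0x02020302020204020203030101)),
  (11, 11, 11, [1, 10, 10], [6, 20, 8], dw (nat_lit 0x0401040104010302030101040202), dw (nat_lit 0x0203010401010302030303020302)),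
  (11, 11, 23, [14, 9, 1], [5, 13, 11], dw (nat_lit 0x01010301040203020404020302), dw (nat_lit 0x040104020302040401030301040104)),
  (11, 23, 23, [14, 20, 4], [6, 13, 1], dw (nat_lit 0x020203010101040404040202), dw (nat_lit 0x020303010301030203010404)),
  (23, 23, 23, [1, 1], [7, 1, 18], dw (nat_lit 0x0101010101010101010101), dw (nat_lit 0x04010103020203010301010402))]

noncomputable def ok (e : ℕ × ℕ × ℕ × Word × Word × Word × Word) : Bool :=
  invChk M24c.nets [e.2.2.2.1, e.2.2.2.2.1] (bit 23) && (PM.ordChk 24 M24c.nets 5 e.2.2.2.1 e.1 [e.1] &&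
    (PM.ordChk 24 M24c.nets 5 e.2.2.2.2.1 e.2.1 [e.2.1] &&
    (PM.ordChk 24 M24c.nets 5 (e.2.2.2.2.1 ++ e.2.2.2.1) e.2.2.1 [e.2.2.1] &&
    relsChk 24 M24c.nets 5 (idArr 24 5 5 0) (memRels [e.2.2.2.1, e.2.2.2.2.1] [[0], [4]]
      [e.2.2.2.2.2.1, e.2.2.2.2.2.2]))))

theorem tab_ok : tab.all ok = true := by decide +kernel

noncomputable def φ : Spor.M23 →* M24 := Subgroup.inclusion inf_le_left
theorem φ_inj : Function.Injective φ := Subgroup.inclusion_injective _

theorem pos {e : ℕ × ℕ × ℕ × Word × Word × Word × Word} (he : e ∈ tab) (hp : e.1.Prime) (hq : e.2.1.Prime)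
    (hr : e.2.2.1.Prime) : ∃ x y z : Cfsg.Spor.M23, orderOf x = e.1 ∧ orderOf y = e.2.1 ∧ orderOf z = e.2.2.1 ∧
      x * y * z = 1 ∧ Subgroup.closure {x, y} = ⊤ := by
  have h := List.all_eq_true.1 tab_ok e he
  simp only [ok, Bool.and_eq_true] at h
  obtain ⟨h1, h2, h3, h4, h5⟩ := h
  have k : ∀ g ∈ G23, ∃ x, φ x = g := fun g hg => ⟨⟨g, g.2, hg⟩, rfl⟩
  obtain ⟨x, hx⟩ := k _ (le_G23 (h := M24c_ok) h1 (ev_getL_mem _ _ 0))
  obtain ⟨y, hy⟩ := k _ (le_G23 (h := M24c_ok) h1 (ev_getL_mem _ _ 1))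
  replace hx : φ x = ev M0.gen e.2.2.2.1 := hx
  replace hy : φ y = ev M0.gen e.2.2.2.2.1 := hy
  refine ⟨x, y, (x * y)⁻¹, ?_, ?_, ?_, mul_inv_cancel _, eq_top_iff.2 fun g _ => ?_⟩
  · rw [← orderOf_injective φ φ_inj, hx]; exact M0.orderOf_prime (by norm_num) (by norm_num) hp h2
  · rw [← orderOf_injective φ φ_inj, hy]; exact M0.orderOf_prime (by norm_num) (by norm_num) hq h3
  · rw [orderOf_inv, ← orderOf_injective φ φ_inj, map_mul, hx, hy, ← ev_append]
    exact M0.orderOf_prime (by norm_num) (by norm_num) hr h4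
  · refine (Subgroup.mem_map_iff_mem φ_inj).1 ((sub_le (H := (Subgroup.closure {x, y}).map φ) M0.gen).2 (fa_cons ⟨x, Subgroup.subset_closure (by simp), hx⟩
      (fa_cons ⟨y, Subgroup.subset_closure (by simp), hy⟩ fa_nil))
      (sub_le_of_memRels (M0.rels_of_idArr (by norm_num) h5) (G23_le_tc g.2.2)))

theorem cy {g : Spor.M23} {p : ℕ} (h : orderOf g = p) (hp : p.Prime) : 1 ≤ cyc GolayPt g ∧
    (p = 2 → 16 ≤ cyc GolayPt g) ∧ (p = 3 → 12 ≤ cyc GolayPt g) ∧ (p = 5 → 8 ≤ cyc GolayPt g) ∧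
      (p = 7 → 6 ≤ cyc GolayPt g) := by
  have h1 := cyc_ge (Ω := GolayPt) h hp.pos
  have h2 : orderOf (φ g) = p := (orderOf_injective φ φ_inj g).trans h
  have h3 : nfix GolayPt (φ g) ≠ 0 := fun e => nfix_eq_zero.1 e none g.2.2
  rw [card_golayPt, show nfix GolayPt g = nfix GolayPt (φ g) from rfl] at h1
  refine ⟨Nat.pos_of_ne_zero fun e => by rw [e] at h1; omega, ?_, ?_, ?_, ?_⟩ <;> rintro rfl
  · have := cls2 h2; omega
  · have := cls3 h2; omega
  · have h4 := ncard_modEq hp h2 (O := (Set.univ : Set GolayPt)) fun _ _ => trivial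
    simp only [Set.mem_univ, true_and, Set.ncard_univ, Nat.card_eq_fintype_card, card_golayPt, Nat.ModEq] at h4
    unfold nfix at h1
    omega
  · have := nfix7 h2; omega

theorem fin {p q r a b c : ℕ} (hqr : q ≤ r) (hr : r.Prime) (h : a + b + c ≤ 24 + 4)
    (ha : 1 ≤ a ∧ (p = 2 → 16 ≤ a) ∧ (p = 3 → 12 ≤ a) ∧ (p = 5 → 8 ≤ a) ∧ (p = 7 → 6 ≤ a))
    (hb : 1 ≤ b ∧ (q = 2 → 16 ≤ b) ∧ (q = 3 → 12 ≤ b) ∧ (q = 5 → 8 ≤ b) ∧ (q = 7 → 6 ≤ b))
    (hc : 1 ≤ c ∧ (r = 2 → 16 ≤ c) ∧ (r = 3 → 12 ≤ c) ∧ (r = 5 → 8 ≤ c) ∧ (r = 7 → 6 ≤ c)) :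
    ¬ ((p = 2 ∧ q = 3) ∨ (p = 2 ∧ q = 5 ∧ r = 5) ∨ (p = 2 ∧ q = 5 ∧ r = 7) ∨ (p = 3 ∧ q = 3 ∧ r ≤ 7)) := by
  rintro (⟨rfl, rfl⟩ | ⟨rfl, rfl, rfl⟩ | ⟨rfl, rfl, rfl⟩ | ⟨rfl, rfl, h7⟩)
  · omega
  · omega
  · omega
  · interval_cases r <;> first | omega | exact absurd hr (by norm_num)

theorem pr {p : ℕ} (hp : p.Prime) (h : p ∣ 10200960) : p ∈ [2, 3, 5, 7, 11, 23] := by
  have := (Nat.mem_primeFactorsList_iff_dvd (by norm_num) hp).2 h
  simp only [Nat.primeFactorsList_ofNat] at this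
  simpa using this


/-- Generation of the Mathieu group M₂₃ (the stabiliser of a point in the Mathieu group M₂₄ acting on 24 points) by triples of prime orders. Let p ≤ q ≤ r be primes dividing |M₂₃| = 10200960 = 2⁷·3²·5·7·11·23, not both p and q equal to 2. Then M₂₃ contains elements x, y, z of orders p, q, r with xyz = 1 and ⟨x, y⟩ = M₂₃ if and only if (p, q, r) is none of: (2, 3, r) for any r, (2, 5, 5), (2, 5, 7), (3, 3, 3), (3, 3, 5), (3, 3, 7). -/
theorem result (p q r : ℕ) (hp : p.Prime) (hq : q.Prime)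
    (hr : r.Prime) (hpq : p ≤ q) (hqr : q ≤ r) (hp2 : ¬ (p = 2 ∧ q = 2))
    (hdvd : p ∣ 10200960 ∧ q ∣ 10200960 ∧ r ∣ 10200960) :
    (∃ x y z : Cfsg.Spor.M23, orderOf x = p ∧ orderOf y = q ∧ orderOf z = r ∧ x * y * z = 1 ∧
        Subgroup.closure {x, y} = ⊤) ↔
      ¬ ((p = 2 ∧ q = 3) ∨ (p = 2 ∧ q = 5 ∧ r = 5) ∨ (p = 2 ∧ q = 5 ∧ r = 7) ∨ (p = 3 ∧ q = 3 ∧ r ≤ 7)) := by
  refine ⟨fun ⟨x, y, z, hx, hy, hz, e, ht⟩ hn => ?_, fun hn => ?_⟩
  · have h := ree (x := x) (y := y) (a := (none : GolayPt)) (b := some 0) fun c => by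
      by_cases hc : c = none
      · exact ⟨1, one_mem _, .inl (hc ▸ one_smul _ _)⟩
      · obtain ⟨g, h1, h2⟩ := M24_exists_smul2 (show (none : GolayPt) ≠ some 0 by decide) (Ne.symm hc)
        exact ⟨⟨g, g.2, h1⟩, ht.ge trivial, .inr h2⟩
    have a := cy hx hp
    have b := cy hy hq
    have c := cy (g := x * y) (by rw [eq_inv_of_mul_eq_one_left e, orderOf_inv, hz]) hr
    exact fin hqr hr (card_golayPt ▸ h) a b c hn
  · obtain ⟨e, he, e1, e2, e3⟩ := (show ∀ p ∈ [2, 3, 5, 7, 11, 23], ∀ q ∈ [2, 3, 5, 7, 11, 23],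
      ∀ r ∈ [2, 3, 5, 7, 11, 23], p ≤ q → q ≤ r → ¬ (p = 2 ∧ q = 2) →
      ¬ ((p = 2 ∧ q = 3) ∨ (p = 2 ∧ q = 5 ∧ r = 5) ∨ (p = 2 ∧ q = 5 ∧ r = 7) ∨ (p = 3 ∧ q = 3 ∧ r ≤ 7)) →
      ∃ e ∈ tab, e.1 = p ∧ e.2.1 = q ∧ e.2.2.1 = r by decide +kernel) p (pr hp hdvd.1) q (pr hq hdvd.2.1) r
      (pr hr hdvd.2.2) hpq hqr hp2 hn
    have := pos he (e1 ▸ hp) (e2 ▸ hq) (e3 ▸ hr)
    rwa [e1, e2, e3] at this

end Cfsg.Agent.S5529
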