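import Cfsg.Statements.S5562
import Cfsg.Agent.H28.Dih

set_option autoImplicit false
open Cfsg

namespace Cfsg.Agent.S5562
open H28
open H28


/-- Let G be a finite group, d an involution of G whose conjugates pairwise have products of odd order, and x any involution of G. Then the conjugacy class of d is the disjoint union, over the conjugates a of d commuting with x, of the sets of conjugates of d commuting with ax: every conjugate of d commutes with ax for exactly one conjugate a of d that commutes with x. -/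
theorem result {G : Type*} [Group G] [Finite G] (d : G) (hd : orderOf d = 2)
    (hodd : ∀ a ∈ conjugatesOf d, ∀ b ∈ conjugatesOf d, Odd (orderOf (a * b)))
    (x : G) (hx : orderOf x = 2) :
    ∀ e ∈ conjugatesOf d,
      ∃! a : G, a ∈ conjugatesOf d ∧ Commute a x ∧ Commute e (a * x) := by
  have s : ∀ a ∈ conjugatesOf d, a * a = 1 := fun a ha => by
    obtain ⟨g, rfl⟩ := isConj_iff.1 ha
    simp [mul_assoc, canc (sq_of_ord hd)]
  have c : ∀ g, ∀ a ∈ conjugatesOf d, g * a * g⁻¹ ∈ conjugatesOf d := fun g a ha =>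
    IsConj.trans ha (isConj_iff.2 ⟨g, rfl⟩)
  have sx := sq_of_ord hx
  intro e he
  have u : ∀ a ∈ conjugatesOf d, Commute a x → Commute e (a * x) →
      a * x * (a * x) = 1 ∧ (e * x) ^ orderOf (e * a) = a * x := fun a ha h1 h2 => by
    have z : a * x * (a * x) = 1 := by rw [← pow_two, sq_of_comm (s a ha) sx h1]
    have : e * x = e * a * (a * x) := by rw [mul_assoc, canc (s a ha)]
    rw [this, (h2.mul_left ((Commute.refl a).mul_right h1)).mul_pow, pow_orderOf_eq_one, one_mul,
      pow_odd_of_sq z (hodd e he a ha)]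
    exact ⟨z, rfl⟩
  refine existsUnique_of_exists_of_unique ?_ fun a b ⟨ha, h1, h2⟩ ⟨hb, h3, h4⟩ => ?_
  · obtain ⟨m, h | h⟩ := Nat.even_or_odd' (orderOf (x * e))
    · have m0 : m ≠ 0 := by rintro rfl; exact (orderOf_pos _).ne' h
      obtain ⟨h1, h2, h3, h4⟩ := cen_inv sx (s e he) h m0
      obtain ⟨k, rfl | rfl⟩ := Nat.even_or_odd' m
      · have i : (e * x) ^ (2 * k) = (x * e) ^ (2 * k) := by
          rw [← inv_of_sq h2, ← inv_pow, mul_inv_rev, inv_of_sq sx, inv_of_sq (s e he)]
        have := hodd e he _ (refl_even (s e he) sx k ▸ c _ e he)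
        rw [canc (s e he), i, ord_of_sq h2 h1] at this
        exact absurd this (by decide)
      · refine ⟨_, refl_odd sx (s e he) k ▸ c _ e he, (Commute.refl x).mul_left h3.symm, ?_⟩
        rwa [h3.eq, mul_assoc, sx, mul_one]
    · have := refl_odd sx (s e he) m
      rw [← h, pow_orderOf_eq_one, mul_one] at this
      exact ⟨x, this ▸ c _ e he, .refl x, by simp [sx]⟩
  obtain ⟨z1, e1⟩ := u a ha h1 h2
  obtain ⟨z2, e2⟩ := u b hb h3 h4
  refine mul_right_cancel (b := x) ?_
  rw [← pow_odd_of_sq z1 (hodd e he b hb), ← pow_odd_of_sq z2 (hodd e he a ha), ← e1, ← e2, ← pow_mul, ← pow_mul, mul_comm]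

end Cfsg.Agent.S5562
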