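import Cfsg.Statements.S5598
import Cfsg.Agent.H21.LX3

set_option autoImplicit false
open Cfsg

namespace Cfsg.Agent.S5598

open H18 H1 H21 Subgroup

/-- Setting: `z` is an involution of the finite group `G`; for each element `x`, `Q x` is the largest normal 2-subgroup of the centralizer of `x`; `Q z` is extraspecial and contains its own centralizer in `G`. A subgroup `U` is singular when it is elementary abelian, every non-identity element of `U` is conjugate to `z`, and any two non-identity elements `u`, `v` of `U` are orthogonal (`v ∈ Q u`). Write `QU` for the intersection of the `Q u` and `LU` for the join of the `Q u` over the non-identity `u` in `U`. If the singular subgroup `U` is generated by a set `T` of non-identity elements, then `QU` is already the intersection of the `Q t` over `t ∈ T`. -/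
theorem result {G : Type*} [Group G] [Finite G]
    (Q : G → Subgroup G)
    (hQ : ∀ x : G, Q x = (Cfsg.pCore 2 ↥(Subgroup.centralizer ({x} : Set G))).map (Subgroup.centralizer ({x} : Set G)).subtype)
    (z : G) (hz : orderOf z = 2) (hE : Cfsg.IsExtraspecial 2 ↥(Q z))
    (hC : Subgroup.centralizer ((Q z : Subgroup G) : Set G) ≤ Q z)
    (U : Subgroup G) (hU2 : ∀ u ∈ U, u * u = 1)
    (hS : ∀ u ∈ U, u ≠ 1 → ∃ g : G, g * z * g⁻¹ = u)
    (hO : ∀ u ∈ U, ∀ v ∈ U, u ≠ 1 → v ≠ 1 → v ∈ Q u)
    (QU LU : Subgroup G) (hQU : QU = ⨅ u ∈ ((U : Set G) \ {1}), Q u) (hLU : LU = ⨆ u ∈ ((U : Set G) \ {1}), Q u)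
    (T : Set G) (hT : Subgroup.closure T = U) (hT1 : (1 : G) ∉ T) :
    QU = ⨅ t ∈ T, Q t := by
  obtain ⟨h, rfl⟩ := sing_of hQ hz hE hC hS hO
  subst hQU hT
  refine le_antisymm (le_iInf₂ fun t ht => iInf₂_le t ⟨subset_closure ht, fun e => hT1 (e ▸ ht)⟩)
    (le_iInf₂ fun u hu x hx => ?_)
  have key : ∀ u ∈ Subgroup.closure T, u = 1 ∨ x ∈ O[{2}](C1(u)) := fun u hu => by
    induction hu using closure_induction with
    | mem t ht => exact .inr ((iInf₂_le t ht : _ ≤ O[{2}](C1(t))) hx)
    | one => exact .inl rfl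
    | mul a b ha hb h1 h2 => exact h.mem_mul ha hb h1 h2
    | inv a ha h1 => rwa [inv_of_sq (h.sq ha)]
  exact (key u hu.1).resolve_left hu.2

end Cfsg.Agent.S5598
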