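import Cfsg.Statements.S5712
import Cfsg.Agent.H23.SX3
import Cfsg.Agent.H11.Mat
import Cfsg.Agent.H1.Cores
import Cfsg.Agent.S0247

set_option autoImplicit false
open Cfsg

namespace Cfsg.Agent.S5712

open H11 H11.PForm H23.SX Module

/-- Let F be a finite field of characteristic two, n ≥ 2, V = F^{2n} with the non-degenerate alternating form f(u, v) = Σ (u_i v_{n+i} + u_{n+i} v_i), and G the group of invertible matrices preserving f. Let a ≠ 0 be a vector, H its stabilizer in G, and X a subgroup of O₂(H) of order |F|^{2n−2} no element of which is a transvection (no element g has g − 1 of rank one). If L is a subgroup of G containing X that acts irreducibly on V (no proper non-zero L-invariant subspace), then L = G, or, for some quadratic form Q on V whose polar form is f, L is the isometry group of Q or its subgroup of the isometries g for which g − 1 has even rank, or |F| = 2, n = 2 and L is isomorphic to the alternating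 group of degree 6 or to the symmetric group of degree 5. -/
theorem result {F : Type*} [Field F] [Fintype F] [CharP F 2] {n : ℕ} (hn : 2 ≤ n) (a : (Fin n ⊕ Fin n → F)) (ha : a ≠ 0)
    (X : Subgroup (GL (Fin n ⊕ Fin n) F)) (hXG : X ≤ Cfsg.preserving (Units.coeHom (Matrix (Fin n ⊕ Fin n) (Fin n ⊕ Fin n) F)) (fun u v : (Fin n ⊕ Fin n → F) => ∑ i : Fin n, (u (Sum.inl i) * v (Sum.inr i) + u (Sum.inr i) * v (Sum.inl i))))
    (hXO : ∀ H : Subgroup (GL (Fin n ⊕ Fin n) F),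
      (∀ g : GL (Fin n ⊕ Fin n) F, g ∈ H ↔ (g ∈ Cfsg.preserving (Units.coeHom (Matrix (Fin n ⊕ Fin n) (Fin n ⊕ Fin n) F)) (fun u v : (Fin n ⊕ Fin n → F) => ∑ i : Fin n, (u (Sum.inl i) * v (Sum.inr i) + u (Sum.inr i) * v (Sum.inl i))) ∧ Matrix.mulVec (g : Matrix (Fin n ⊕ Fin n) (Fin n ⊕ Fin n) F) a = a)) →
      X ≤ (Cfsg.pCore 2 ↥H).map H.subtype)
    (hcard : Nat.card ↥X = Fintype.card F ^ (2 * n - 2))
    (hntv : ∀ x ∈ X, ((x : Matrix (Fin n ⊕ Fin n) (Fin n ⊕ Fin n) F) - 1).rank ≠ 1)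
    (L : Subgroup (GL (Fin n ⊕ Fin n) F)) (hXL : X ≤ L) (hLG : L ≤ Cfsg.preserving (Units.coeHom (Matrix (Fin n ⊕ Fin n) (Fin n ⊕ Fin n) F)) (fun u v : (Fin n ⊕ Fin n → F) => ∑ i : Fin n, (u (Sum.inl i) * v (Sum.inr i) + u (Sum.inr i) * v (Sum.inl i))))
    (hirr : ∀ W : Submodule F (Fin n ⊕ Fin n → F), (∀ g ∈ L, ∀ w ∈ W, Matrix.mulVec (g : Matrix (Fin n ⊕ Fin n) (Fin n ⊕ Fin n) F) w ∈ W) → W = ⊥ ∨ W = ⊤) :
    L = Cfsg.preserving (Units.coeHom (Matrix (Fin n ⊕ Fin n) (Fin n ⊕ Fin n) F)) (fun u v : (Fin n ⊕ Fin n → F) => ∑ i : Fin n, (u (Sum.inl i) * v (Sum.inr i) + u (Sum.inr i) * v (Sum.inl i))) ∨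
    (∃ Q : QuadraticForm F (Fin n ⊕ Fin n → F), (∀ u v, QuadraticMap.polar ⇑Q u v = (fun u v : (Fin n ⊕ Fin n → F) => ∑ i : Fin n, (u (Sum.inl i) * v (Sum.inr i) + u (Sum.inr i) * v (Sum.inl i))) u v) ∧
      (L = Cfsg.isometryGroup F ⇑Q ∨
        ∀ g : GL (Fin n ⊕ Fin n) F, g ∈ L ↔ (g ∈ Cfsg.isometryGroup F ⇑Q ∧ Even ((g : Matrix (Fin n ⊕ Fin n) (Fin n ⊕ Fin n) F) - 1).rank))) ∨
    (Fintype.card F = 2 ∧ n = 2 ∧ (Nonempty (↥L ≃* ↥(alternatingGroup (Fin 6))) ∨ Nonempty (↥L ≃* Equiv.Perm (Fin 5)))) := by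
  generalize hf : (fun u v : (Fin n ⊕ Fin n → F) => ∑ i : Fin n, (u (Sum.inl i) * v (Sum.inr i) + u (Sum.inr i) * v (Sum.inl i))) = f at *
  let S := stdSymp n F
  have hS : S.Nondeg := stdSymp_nondeg n
  have hh : ∀ u v, S.h u v = f u v := fun u v => by
    rw [← hf, stdSymp_h, sympForm_eq]
    exact Finset.sum_congr rfl fun i _ => by rw [CharTwo.sub_eq_add, add_comm]
  generalize hG : Cfsg.preserving (Units.coeHom (Matrix (Fin n ⊕ Fin n) (Fin n ⊕ Fin n) F)) f = G at *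
  have hG' : ∀ g : GL (Fin n ⊕ Fin n) F, g ∈ G ↔ ∀ u v, S.h (g.1.mulVec u) (g.1.mulVec v) = S.h u v := fun g => by
    simp only [hh, ← hG]; rfl
  let e : G ≃* S.Isom := isomEquiv G S fun g => (hG' g).trans ⟨symp_isIsom, fun h => h.h_eq⟩
  have he : ∀ (g : G) v, (e g).1 v = g.1.1.mulVec v := fun _ _ => rfl
  have hd : finrank F (Fin n ⊕ Fin n → F) = 2 * n := finrank_sum_fun n
  have hr : ∀ g : G, finrank F (LinearMap.range (((e g).1 : (Fin n ⊕ Fin n → F) →ₗ[F] (Fin n ⊕ Fin n → F)) - LinearMap.id)) = (g.1.1 - 1).rank := fun g => by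
    rw [Matrix.rank, show ((e g).1 : (Fin n ⊕ Fin n → F) →ₗ[F] (Fin n ⊕ Fin n → F)) - LinearMap.id =
      (g.1.1 - 1).mulVecLin from LinearMap.ext fun v => by simp [he, Matrix.sub_mulVec]]
  let im : Subgroup (GL (Fin n ⊕ Fin n) F) → Subgroup S.Isom := fun K => (K.subgroupOf G).map (e : G →* S.Isom)
  have him : ∀ K (g : G), e g ∈ im K ↔ g.1 ∈ K := fun K g => by
    simp only [im]; rw [mem_map_equiv']; simp [Subgroup.mem_subgroupOf]
  have hie : ∀ K, K ≤ G → Nonempty (K ≃* im K) := fun K hK =>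
    ⟨(Subgroup.subgroupOfEquivOfLe hK).symm.trans (e.subgroupMap _)⟩
  have hX : Full (im X) a := by
    refine full_of_card hS ha (fun g hg => ?_) (fun s hs => ?_) ?_
    · obtain ⟨g, rfl⟩ := e.surjective g
      let H : Subgroup (GL (Fin n ⊕ Fin n) F) := G ⊓ MulAction.stabilizer _ a
      obtain ⟨k, h1, h2⟩ := hXO H (fun g => Iff.rfl) ((him X g).1 hg)
      have := le_X hS (by omega) ha ((e : G →* S.Isom).comp (Subgroup.inclusion (inf_le_left : H ≤ G)))
        (fun g => g.2.2) (fun k hk => by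
          obtain ⟨k, rfl⟩ := e.surjective k
          exact ⟨⟨k.1, k.2, hk⟩, rfl⟩) (H1.pCore_isPGroup 2 H) h1
      have h3 : g = Subgroup.inclusion (inf_le_left : H ≤ G) k := Subtype.ext h2.symm
      rw [h3]; exact this
    · by_contra h0
      obtain ⟨g, hg⟩ := e.surjective (S.eich a 0 s)
      refine hntv g.1 ((him X g).1 (hg ▸ hs)) ?_
      rw [← hr, hg, ← finrank_span_singleton (K := F) ha]
      refine congrArg (fun W : Submodule F (Fin n ⊕ Fin n → F) => finrank F W) (le_antisymm ?_ ?_)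
      · rintro _ ⟨v, rfl⟩
        exact Submodule.mem_span_singleton.2 ⟨s * S.h a v, by simp [symp_transv_apply]⟩
      · obtain ⟨v, hv⟩ := hS.exists_h_eq_one ha
        rw [Submodule.span_singleton_le_iff_mem]
        exact ⟨s⁻¹ • v, by simp [symp_transv_apply, hv, smul_smul, h0]⟩
    · obtain ⟨i⟩ := hie X hXG
      rw [← Nat.card_congr i.toEquiv, hcard, hd, Nat.card_eq_fintype_card]
  have hL : Full (im L) a := ⟨ha, fun v hv => (hX.2 v hv).imp fun s hs =>
    Subgroup.map_mono (Subgroup.subgroupOf_mono G hXL) hs⟩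
  have hi : Irr (im L) := fun W hW => hirr W fun g hg w hw => hW (e ⟨g, hLG hg⟩) ((him L _).2 hg) w hw
  have ht : im L = ⊤ → L = G := fun h => le_antisymm hLG fun g hg => (him L ⟨g, hg⟩).1 (h ▸ trivial)
  rcases main hS (by omega) hi hL with h | ⟨Q, h1, h2⟩ | ⟨h1, h2, h3⟩
  · exact Or.inl (ht h)
  · refine Or.inr (Or.inl ⟨Q, fun u v => (h1 u v).trans (hh u v), ?_⟩)
    have hQ : ∀ g ∈ Cfsg.isometryGroup F ⇑Q, g ∈ G := fun g hg => (hG' g).2 fun u v => by
      have k : ∀ v, Q (g.1.mulVec v) = Q v := fun v => hg v v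
      rw [← h1, ← h1, QuadraticMap.polar, QuadraticMap.polar, ← Matrix.mulVec_add, k, k, k]
    rcases h2 with h2 | h2
    · exact Or.inl (le_antisymm (fun g hg u _ => (h2 (e ⟨g, hLG hg⟩)).1 ((him L _).2 hg) u) fun g hg =>
        (him L ⟨g, hQ g hg⟩).1 ((h2 _).2 fun v => hg v v))
    · refine Or.inr fun g => ⟨fun hg => ?_, fun hg => (him L ⟨g, hQ g hg.1⟩).1 ((h2 _).2
        ⟨fun v => hg.1 v v, by rw [hr]; exact hg.2⟩)⟩
      have := (h2 (e ⟨g, hLG hg⟩)).1 ((him L _).2 hg)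
      rw [hr] at this
      exact ⟨fun u _ => this.1 u, this.2⟩
  · by_cases h0 : im L = ⊤
    · exact Or.inl (ht h0)
    rw [Nat.card_eq_fintype_card] at h1
    obtain rfl : n = 2 := by omega
    refine Or.inr (Or.inr ⟨h1, rfl, ?_⟩)
    obtain ⟨j⟩ := S0247.result h1
    let k : S.Isom ≃* Equiv.Perm (Fin 6) := (spEquiv 2 F).symm.trans j
    obtain ⟨i⟩ := hie L hLG
    let i' := k.subgroupMap (im L)
    exact (s6_sub (K := (im L).map (k : S.Isom →* _)) (Nat.card_congr i'.toEquiv ▸ h3)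
      fun h => h0 (eq_top_of_map_equiv k h)).imp (fun ⟨m⟩ => ⟨(i.trans i').trans m⟩)
      fun ⟨m⟩ => ⟨(i.trans i').trans m⟩

end Cfsg.Agent.S5712
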