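import Cfsg.Statements.S5713
import Cfsg.Agent.H16.Jordan

set_option autoImplicit false
open Cfsg

namespace Cfsg.Agent.S5713
open MulAction Finset
open scoped Pointwise Classical

section
variable (G : Type*) {Ω : Type*} [Group G] [MulAction G Ω] [Fintype Ω] [DecidableEq Ω]

def Sm (x y z : Ω) : Prop := ∃ g : G, g • z = z ∧ g • x = y

noncomputable def D (x y : Ω) : Finset Ω := univ.filter fun z => ¬ Sm G x y z

noncomputable def Nb (a b y : Ω) : Finset Ω := univ.filter fun x => ∃ g : G, g • a = x ∧ g • b = y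

variable {G}

omit [Fintype Ω] [DecidableEq Ω] in
theorem Sm.symm {x y z : Ω} (h : Sm G x y z) : Sm G y x z := by
  obtain ⟨g, h1, h2⟩ := h
  exact ⟨g⁻¹, inv_smul_eq_iff.2 h1.symm, inv_smul_eq_iff.2 h2.symm⟩

omit [Fintype Ω] [DecidableEq Ω] in
theorem Sm.trans {x y w z : Ω} (h : Sm G x y z) (h' : Sm G y w z) : Sm G x w z := by
  obtain ⟨g, h1, h2⟩ := h
  obtain ⟨k, k1, k2⟩ := h'
  exact ⟨k * g, by rw [mul_smul, h1, k1], by rw [mul_smul, h2, k2]⟩

omit [DecidableEq Ω] in
theorem mem_D {x y z : Ω} : z ∈ D G x y ↔ ¬ Sm G x y z := by simp [D]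

omit [DecidableEq Ω] in
theorem mem_Nb {a b x y : Ω} : x ∈ Nb G a b y ↔ ∃ g : G, g • a = x ∧ g • b = y := by simp [Nb]

omit [DecidableEq Ω] in
theorem D_comm (x y : Ω) : D G x y = D G y x := by
  ext z; rw [mem_D, mem_D]; exact not_congr ⟨Sm.symm, Sm.symm⟩

theorem D_tri (x w y : Ω) : (D G x y).card ≤ (D G x w).card + (D G w y).card := by
  refine le_trans (card_le_card fun z hz => ?_) (card_union_le _ _)
  rw [mem_union, mem_D, mem_D, ← not_and_or]
  exact fun k => mem_D.1 hz (k.1.trans k.2)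

theorem D_smul (g : G) (x y : Ω) : (D G (g • x) (g • y)).card = (D G x y).card := by
  rw [← card_smul_finset g (D G x y)]
  congr 1
  ext z
  rw [← inv_smul_mem_iff, mem_D, mem_D]
  refine not_congr ⟨fun ⟨k, k1, k2⟩ => ⟨g⁻¹ * k * g, ?_, ?_⟩, fun ⟨k, k1, k2⟩ => ⟨g * k * g⁻¹, ?_, ?_⟩⟩
  · rw [mul_smul, mul_smul, smul_inv_smul, k1]
  · rw [mul_smul, mul_smul, k2, inv_smul_smul]
  · rw [mul_smul, mul_smul, k1, smul_inv_smul]
  · rw [mul_smul, mul_smul, inv_smul_smul, k2]

theorem Nb_smul (g : G) (a b y : Ω) : (Nb G a b (g • y)).card = (Nb G a b y).card := by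
  rw [← card_smul_finset g (Nb G a b y)]
  congr 1
  ext z
  rw [← inv_smul_mem_iff, mem_Nb, mem_Nb]
  refine ⟨fun ⟨k, k1, k2⟩ => ⟨g⁻¹ * k, ?_, ?_⟩, fun ⟨k, k1, k2⟩ => ⟨g * k, ?_, ?_⟩⟩
  · rw [mul_smul, k1]
  · rw [mul_smul, k2, inv_smul_smul]
  · rw [mul_smul, k1, smul_inv_smul]
  · rw [mul_smul, k2]

omit [DecidableEq Ω] in
theorem escape (hG : IsPreprimitive G Ω) {R : Ω → Ω → Prop}
    (hR : ∀ (g : G) x y, R x y → R (g • x) (g • y)) {u v : Ω} (uv : u ≠ v) (e : R u v)
    {O : Ω → Prop} {x y : Ω} (hx : O x) (hy : ¬ O y) : ∃ s t, O s ∧ ¬ O t ∧ R s t := by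
  have lift : ∀ (g : G) a b, Relation.ReflTransGen R a b →
      Relation.ReflTransGen R (g • a) (g • b) := fun g a b h => by
    induction h with
    | refl => exact Relation.ReflTransGen.refl
    | tail _ h2 ih => exact ih.tail (hR g _ _ h2)
  have key : ∀ k : G, k • u ∈ {z | Relation.ReflTransGen R u z} →
      k • {z | Relation.ReflTransGen R u z} = {z | Relation.ReflTransGen R u z} := by
    intro k hk
    refine Set.eq_of_subset_of_ncard_le ?_ (by rw [Set.ncard_smul_set]) (Set.toFinite _)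
    rintro _ ⟨z, hz, rfl⟩
    exact Relation.ReflTransGen.trans hk (lift k u z hz)
  have hb : IsBlock G {z | Relation.ReflTransGen R u z} := by
    rw [isBlock_iff_smul_eq_of_mem]
    intro g a h1 h2
    obtain ⟨k, rfl⟩ := exists_smul_eq G u a
    rw [← mul_smul] at h2
    rw [← key k h1, ← mul_smul, key _ h2, key k h1]
  have all : ∀ z, Relation.ReflTransGen R u z := by
    rcases hb.subsingleton_or_eq_univ with k | k
    · exact absurd (k (x := u) Relation.ReflTransGen.refl (y := v)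
        (Relation.ReflTransGen.single e)) uv
    · exact fun z => (k ▸ Set.mem_univ z : z ∈ {z | Relation.ReflTransGen R u z})
  obtain ⟨k, rfl⟩ := exists_smul_eq G u x
  have := lift k _ _ (all (k⁻¹ • y))
  rw [smul_inv_smul] at this
  induction this with
  | refl => exact absurd hx hy
  | @tail b c _ h2 ih =>
    by_cases hb : O b
    · exact ⟨b, c, hb, hy, h2⟩
    · exact ih hb

theorem nb_inv {a b : Ω} (g : G) (x y : Ω) (h : y ∈ Nb G a b x) : g • y ∈ Nb G a b (g • x) := by
  obtain ⟨k, k1, k2⟩ := mem_Nb.1 h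
  exact mem_Nb.2 ⟨g * k, by rw [mul_smul, k1], by rw [mul_smul, k2]⟩

theorem orb (hG : IsPreprimitive G Ω) (h2 : ¬ IsMultiplyPretransitive G Ω 2) {c x : Ω}
    (e : c ≠ x) : Fintype.card Ω ≤ (univ.filter fun y => ¬ Sm G x y c).card ^ 2 := by
  obtain ⟨u, v, uv, huv⟩ : ∃ u v, u ≠ v ∧ v ∉ Nb G x c u := by
    by_contra k
    push Not at k
    refine h2 (is_two_pretransitive_iff.2 fun {a b a' b'} h h' => ?_)
    obtain ⟨g, g1, g2⟩ := mem_Nb.1 (k a b h)
    obtain ⟨g', g1', g2'⟩ := mem_Nb.1 (k a' b' h')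
    exact ⟨g' * g⁻¹, by rw [mul_smul, ← g2, inv_smul_smul, g2'],
      by rw [mul_smul, ← g1, inv_smul_smul, g1']⟩
  have nb : ∀ u, u ∉ Nb G x c u := fun u k => by
    obtain ⟨g, g1, g2⟩ := mem_Nb.1 k
    exact e ((smul_left_cancel_iff g).1 (g2.trans g1.symm))
  obtain ⟨s, t, h1, h3, h4⟩ := escape hG (R := fun u v => u ≠ v ∧ v ∉ Nb G x c u)
    (fun g a b h => ⟨fun k => h.1 ((smul_left_cancel_iff g).1 k), fun k => h.2 (by
      simpa using nb_inv g⁻¹ _ _ k)⟩) uv ⟨uv, huv⟩ (O := fun v => v ∉ Nb G x c c) (nb c)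
    (y := x) (not_not.2 (mem_Nb.2 ⟨1, one_smul _ _, one_smul _ _⟩))
  rw [not_not] at h3
  have sc : s ≠ c := fun k => h4.2 (k ▸ h3)
  let K : Ω → Finset Ω := fun u => (Nb G x c u)ᶜ.erase u
  have cK : ∀ u, (K u).card + 1 + (Nb G x c c).card = Fintype.card Ω := fun u => by
    obtain ⟨g, rfl⟩ := exists_smul_eq G c u
    rw [card_erase_add_one (mem_compl.2 (nb _)), card_compl, Nb_smul]
    have := card_le_univ (Nb G x c c)
    omega
  have sub : Nb G x c c ⊆ (K c).biUnion K := fun y hy => by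
    obtain ⟨g, g1, g2⟩ := mem_Nb.1 hy
    obtain ⟨k, k1, k2⟩ := mem_Nb.1 h3
    have f1 : (g * k⁻¹) • c = c := by rw [mul_smul, inv_smul_eq_iff.2 k2.symm, g2]
    have f2 : (g * k⁻¹) • t = y := by rw [mul_smul, inv_smul_eq_iff.2 k1.symm, g1]
    refine mem_biUnion.2 ⟨(g * k⁻¹) • s, mem_erase.2 ⟨fun j => sc ?_, mem_compl.2 fun j => h1 ?_⟩,
      mem_erase.2 ⟨fun j => h4.1 ?_, mem_compl.2 fun j => h4.2 ?_⟩⟩
    · exact (smul_left_cancel_iff _).1 (j.trans f1.symm)
    · have := nb_inv (g * k⁻¹)⁻¹ _ _ j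
      rwa [inv_smul_smul, inv_smul_eq_iff.2 f1.symm] at this
    · exact ((smul_left_cancel_iff _).1 (f2.trans j)).symm
    · have := nb_inv (g * k⁻¹)⁻¹ _ _ j
      rwa [inv_smul_smul, ← f2, inv_smul_smul] at this
  have c1 := (card_le_card sub).trans (card_biUnion_le_card_mul (K c) K (K c).card fun u _ => by
    have := cK u; have := cK c; omega)
  have c2 : (univ.filter fun y => ¬ Sm G x y c) = (Nb G x c c)ᶜ := by
    ext y
    rw [mem_filter, mem_compl, mem_Nb, and_iff_right (mem_univ _)]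
    exact not_congr ⟨fun ⟨g, h1, h2⟩ => ⟨g, h2, h1⟩, fun ⟨g, h1, h2⟩ => ⟨g, h2, h1⟩⟩
  have c3 := cK c
  rw [c2, card_compl, show Fintype.card Ω - (Nb G x c c).card = (K c).card + 1 by omega]
  nlinarith

theorem babai (hG : IsPreprimitive G Ω) (h2 : ¬ IsMultiplyPretransitive G Ω 2) {a b : Ω}
    (e : a ≠ b) : Fintype.card Ω ≤ (2 * (D G a b).card + 1) ^ 2 := by
  have ab : a ∈ Nb G a b b := mem_Nb.2 ⟨1, one_smul _ _, one_smul _ _⟩
  have esc : ∀ {O : Ω → Prop} {x y : Ω}, O x → ¬ O y → ∃ s t, O s ∧ ¬ O t ∧ t ∈ Nb G a b s :=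
    fun hx hy => escape hG (R := fun s t => t ∈ Nb G a b s) nb_inv e.symm ab hx hy
  have dN : ∀ s t, t ∈ Nb G a b s → (D G s t).card = (D G a b).card := fun s t h => by
    obtain ⟨g, rfl, rfl⟩ := mem_Nb.1 h
    rw [D_smul, D_comm]
  have c1 : Fintype.card Ω ≤ (Nb G a b b).card * (D G a b).card := by
    refine le_trans (card_le_card (t := (Nb G a b b).biUnion (D G b)) fun c _ => ?_)
      (card_biUnion_le_card_mul _ _ _ fun t ht => (dN b t ht).le)
    obtain ⟨y, hy⟩ : ∃ y, ¬ Sm G b y c := by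
      by_cases k : c = b
      · exact ⟨a, fun ⟨g, g1, g2⟩ => e (by rw [← g2, ← k, g1])⟩
      · exact ⟨c, fun ⟨g, g1, g2⟩ => k ((smul_left_cancel_iff g).1 (g1.trans g2.symm))⟩
    obtain ⟨s, t, ⟨g, g1, rfl⟩, h3, h4⟩ := esc (O := fun x => Sm G b x c)
      ⟨1, one_smul _ _, one_smul _ _⟩ hy
    refine mem_biUnion.2 ⟨g⁻¹ • t, by simpa using nb_inv g⁻¹ _ _ h4, mem_D.2 fun k => h3 ?_⟩
    exact k.trans ⟨g, g1, smul_inv_smul _ _⟩
  let U : Ω → Ω → Prop := fun x y => x ∈ Nb G a b y ∨ y ∈ Nb G a b x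
  have dU : ∀ x y, U x y → (D G x y).card = (D G a b).card := fun x y h => by
    rcases h with h | h
    · rw [D_comm, dN _ _ h]
    · exact dN _ _ h
  have b2 : ∀ y, (y = b ∨ U b y ∨ ∃ w, U b w ∧ U w y) → (D G b y).card ≤ 2 * (D G a b).card := by
    rintro y (rfl | h | ⟨w, h1, h3⟩)
    · rw [show D G y y = ∅ from filter_eq_empty_iff.2 fun z _ =>
        not_not.2 ⟨1, one_smul _ _, one_smul _ _⟩]
      simp
    · rw [dU _ _ h]; omega
    · have := D_tri (G := G) b w y
      rw [dU _ _ h1, dU _ _ h3] at this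
      omega
  by_cases all : ∀ y, y = b ∨ U b y ∨ ∃ w, U b w ∧ U w y
  · have s1 : ∑ c, (univ.filter fun y => ¬ Sm G b y c).card = ∑ y, (D G b y).card := by
      simp only [D, card_filter]
      exact sum_comm
    obtain ⟨c, -, hc⟩ := exists_le_of_sum_le (s := univ) ⟨a, mem_univ a⟩
      (f := fun c => (univ.filter fun y => ¬ Sm G b y c).card) (g := fun _ => 2 * (D G a b).card)
      (s1 ▸ sum_le_sum fun y _ => b2 y (all y))
    by_cases k : c = b
    · have : univ.erase b ⊆ univ.filter fun y => ¬ Sm G b y c := fun y hy =>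
        mem_filter.2 ⟨mem_univ _, fun ⟨g, g1, g2⟩ => ne_of_mem_erase hy (by rw [← g2, ← k, g1])⟩
      have := card_le_card this
      rw [card_erase_of_mem (mem_univ _), card_univ] at this
      have : Fintype.card Ω ≤ 2 * (D G a b).card + 1 := by omega
      nlinarith
    · exact (orb hG h2 k).trans (Nat.pow_le_pow_left (by omega) 2)
  · obtain ⟨y, hy⟩ := not_forall.1 all
    obtain ⟨s, t, h1, h3, h4⟩ := esc (O := fun y => y = b ∨ U b y ∨ ∃ w, U b w ∧ U w y)
      (Or.inl rfl) hy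
    have k1 := D_tri (G := G) b s t
    rw [dN s t h4] at k1
    have k2 := b2 s h1
    have dis : Disjoint (Nb G a b b) (Nb G a b t) := disjoint_left.2 fun w w1 w2 =>
      h3 (Or.inr (Or.inr ⟨w, Or.inr w1, Or.inl w2⟩))
    have sub : Nb G a b b ∪ Nb G a b t ⊆ D G b t := fun w hw => mem_D.2 fun ⟨g, g1, g2⟩ => by
      rcases mem_union.1 hw with k | k
      · exact disjoint_left.1 dis k (by simpa [g1, g2] using nb_inv g _ _ k)
      · refine disjoint_left.1 dis ?_ k
        have := nb_inv g⁻¹ _ _ k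
        rwa [inv_smul_eq_iff.2 g1.symm, inv_smul_eq_iff.2 g2.symm] at this
    have k3 := card_le_card sub
    obtain ⟨g, rfl⟩ := exists_smul_eq G b t
    rw [card_union_of_disjoint dis, Nb_smul] at k3
    nlinarith

theorem exists_disj [Finite G] (h2 : IsMultiplyPretransitive G Ω 2) (a : Ω) (T : Finset Ω)
    (aT : a ∉ T) (hc : T.card ^ 2 + 1 < Fintype.card Ω) :
    ∃ h : G, h • a = a ∧ ∀ x ∈ T, h • x ∉ T := by
  letI := Fintype.ofFinite G
  rw [is_two_pretransitive_iff] at h2
  by_contra hn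
  push Not at hn
  obtain ⟨x0, -, h0⟩ := exists_mem_notMem_of_card_lt_card (s := {a}) (t := univ)
    (by rw [card_singleton, card_univ]; omega)
  rw [mem_singleton] at h0
  let F : Ω → Ω → Finset G := fun x y => univ.filter fun h => h • a = a ∧ h • x = y
  have cF : ∀ x y, x ≠ a → y ≠ a → (F x y).card = (F x0 x0).card := fun x y hx hy => by
    obtain ⟨p, p1, p2⟩ := h2 (Ne.symm hx) (Ne.symm h0)
    obtain ⟨q, q1, q2⟩ := h2 (Ne.symm h0) (Ne.symm hy)
    symm
    refine card_bij (fun h _ => q * h * p) (fun h hh => ?_) (fun h _ k _ e => by simpa using e)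
      (fun h hh => ⟨q⁻¹ * h * p⁻¹, ?_, by group⟩)
    · simp only [F, mem_filter, mem_univ, true_and, mul_smul] at hh ⊢
      rw [p1, hh.1, q1, p2, hh.2, q2]; exact ⟨rfl, rfl⟩
    · simp only [F, mem_filter, mem_univ, true_and, mul_smul] at hh ⊢
      rw [inv_smul_eq_iff.2 p1.symm, hh.1, inv_smul_eq_iff.2 p2.symm, hh.2, inv_smul_eq_iff,
        inv_smul_eq_iff, q1, q2]
      exact ⟨rfl, rfl⟩
  have c1 : (univ.filter fun h : G => h • a = a).card =
      (Fintype.card Ω - 1) * (F x0 x0).card := by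
    rw [card_eq_sum_card_fiberwise (t := univ.erase a) (f := fun h : G => h • x0) (fun h hh => by
      simp only [coe_filter, mem_univ, true_and, Set.mem_ofPred_eq] at hh
      simp only [coe_erase, coe_univ, Set.mem_sdiff, Set.mem_univ, true_and, Set.mem_singleton_iff]
      exact fun k => h0 ((smul_left_cancel_iff h).1 (k.trans hh.symm))),
      sum_congr rfl (g := fun _ => (F x0 x0).card) fun y hy => by
        rw [filter_filter]; exact cF x0 y h0 (ne_of_mem_erase hy)]
    rw [sum_const, card_erase_of_mem (mem_univ _), card_univ, smul_eq_mul]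
  have c2 : (univ.filter fun h : G => h • a = a).card ≤ (T ×ˢ T).card * (F x0 x0).card := by
    refine le_trans (card_le_card (t := (T ×ˢ T).biUnion fun p => F p.1 p.2) fun h hh => ?_)
      (card_biUnion_le_card_mul _ _ _ fun p hp => (cF _ _ (fun k => aT (k ▸ (mem_product.1 hp).1))
        (fun k => aT (k ▸ (mem_product.1 hp).2))).le)
    obtain ⟨x, x1, x2⟩ := hn h (mem_filter.1 hh).2
    exact mem_biUnion.2 ⟨(x, h • x), mem_product.2 ⟨x1, x2⟩,
      mem_filter.2 ⟨mem_univ _, (mem_filter.1 hh).2, rfl⟩⟩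
  have c3 : 0 < (F x0 x0).card := card_pos.2 ⟨1, by simp [F]⟩
  rw [c1, card_product] at c2
  have := Nat.le_of_mul_le_mul_right c2 c3
  rw [sq] at hc
  omega

theorem comm_three {u v : Equiv.Perm Ω} {a : Ω} (hu : u a ≠ a) (hv : v a ≠ a)
    (h : ∀ x, u x ≠ x → v x ≠ x → x = a) :
    u * v * u⁻¹ * v⁻¹ ≠ 1 ∧ (u * v * u⁻¹ * v⁻¹).support.card ≤ 3 := by
  have iv : ∀ (w : Equiv.Perm Ω) x, w x = x → w⁻¹ x = x := fun w x k =>
    Equiv.Perm.inv_eq_iff_eq.2 k.symm
  have h1 : ∀ x, v x ≠ x → x ≠ a → u x = x := fun x k1 k2 => by_contra fun k => k2 (h x k k1)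
  have mv : ∀ x, v x ≠ x → v (v⁻¹ x) ≠ v⁻¹ x := fun x k j => k (by
    have : x = v⁻¹ x := by simpa using j
    rw [← this] at j; exact j)
  constructor
  · intro k
    have := congrArg (fun p : Equiv.Perm Ω => p a) k
    simp only [Equiv.Perm.mul_apply, Equiv.Perm.one_apply] at this
    rw [iv u _ (h1 _ (mv a hv) fun j => hv (Equiv.Perm.inv_eq_iff_eq.1 j).symm)] at this
    exact hu (by simpa using this)
  · refine le_trans (card_le_card (t := {a, u a, v a}) fun x hx => ?_) card_le_three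
    by_contra k
    simp only [mem_insert, mem_singleton, not_or] at k
    refine Equiv.Perm.mem_support.1 hx ?_
    simp only [Equiv.Perm.mul_apply]
    by_cases j : v x = x
    · rw [iv v x j]
      have : v (u⁻¹ x) = u⁻¹ x := by
        by_contra i
        have i2 := h1 _ i fun l => k.2.1 (Equiv.Perm.inv_eq_iff_eq.1 l)
        have i3 : x = u⁻¹ x := by simpa using i2
        exact i (i3 ▸ j)
      rw [this]; simp
    · rw [iv u _ (h1 _ (mv x j) fun l => k.2.2 (Equiv.Perm.inv_eq_iff_eq.1 l))]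
      simpa using h1 x j k.1

end

/-- A classification-free minimal-degree bound. Let G be a finite group acting faithfully and primitively on a finite set Ω with n elements, and suppose that the image of G in the symmetric group on Ω does not contain the alternating group on Ω. Then every non-identity element of G moves at least (√n − 1)/2 points of Ω, that is, it fixes at most n − (√n − 1)/2 points. -/
theorem result {G Ω : Type*} [Group G] [Finite G] [MulAction G Ω] [FaithfulSMul G Ω] [Fintype Ω] [DecidableEq Ω]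
    (hprim : MulAction.IsPreprimitive G Ω)
    (hA : ¬ alternatingGroup Ω ≤ (MulAction.toPermHom G Ω).range)
    (g : G) (hg : g ≠ 1) :
    (Real.sqrt (Fintype.card Ω) - 1) / 2 ≤ (Fintype.card Ω : ℝ) - Nat.card (MulAction.fixedBy Ω g) := by
  have cs : (MulAction.toPermHom G Ω g).support.card + Nat.card (MulAction.fixedBy Ω g) =
      Fintype.card Ω := by
    rw [← card_add_card_compl (MulAction.toPermHom G Ω g).support, ← Fintype.card_coe,
      ← Fintype.card_coe, ← Nat.card_eq_fintype_card, ← Nat.card_eq_fintype_card]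
    congr 1
    exact Nat.card_congr (Equiv.subtypeEquivRight fun x => by simp)
  obtain ⟨a, ha⟩ : ∃ a : Ω, g • a ≠ a := by
    by_contra k
    push Not at k
    exact hg (eq_of_smul_eq_smul (α := Ω) fun a => by rw [k, one_smul])
  have key : Fintype.card Ω ≤ (2 * (MulAction.toPermHom G Ω g).support.card + 1) ^ 2 := by
    by_cases h2 : IsMultiplyPretransitive G Ω 2
    · by_contra hn
      have aS : a ∈ (MulAction.toPermHom G Ω g).support := Equiv.Perm.mem_support.2 ha
      obtain ⟨h, h1, h3⟩ := exists_disj h2 a ((MulAction.toPermHom G Ω g).support.erase a)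
        (notMem_erase _ _) (by
          have := card_erase_add_one aS
          nlinarith)
      have pr : IsPreprimitive (MulAction.toPermHom G Ω).range Ω :=
        IsPreprimitive.of_surjective (M := G) (α := Ω)
          (φ := (MulAction.toPermHom G Ω).rangeRestrict) (f := ⟨id, fun _ _ => rfl⟩)
          Function.surjective_id
      obtain ⟨k1, k2⟩ := comm_three (u := MulAction.toPermHom G Ω g)
        (v := MulAction.toPermHom G Ω (h * g * h⁻¹)) (a := a) ha (by
          change (h * g * h⁻¹) • a ≠ a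
          rw [mul_smul, mul_smul, inv_smul_eq_iff.2 h1.symm]
          exact fun k => ha ((smul_left_cancel_iff h).1 (k.trans h1.symm))) (fun x x1 x2 => by
          by_contra xa
          refine h3 (h⁻¹ • x) (mem_erase.2 ⟨fun k => xa ?_, Equiv.Perm.mem_support.2 fun k => x2 ?_⟩)
            (mem_erase.2 ⟨by simpa using xa, by simpa using x1⟩)
          · rw [inv_smul_eq_iff.1 k, h1]
          · change (h * g * h⁻¹) • x = x
            rw [mul_smul, mul_smul, show g • h⁻¹ • x = h⁻¹ • x from k, smul_inv_smul])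
      exact hA (H16.alternating_le_of_support_le_three pr (mul_mem (mul_mem (mul_mem ⟨_, rfl⟩
        ⟨_, rfl⟩) (inv_mem ⟨_, rfl⟩)) (inv_mem ⟨_, rfl⟩)) k1 k2)
    · refine (babai hprim h2 ha.symm).trans (Nat.pow_le_pow_left ?_ 2)
      have : D G a (g • a) ⊆ (MulAction.toPermHom G Ω g).support := fun z hz =>
        Equiv.Perm.mem_support.2 fun k => mem_D.1 hz ⟨g, k, rfl⟩
      have := card_le_card this
      omega
  have e : (Fintype.card Ω : ℝ) - Nat.card (MulAction.fixedBy Ω g) =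
      (MulAction.toPermHom G Ω g).support.card := by
    rw [← cs]; push_cast; ring
  rw [e]
  have : Real.sqrt (Fintype.card Ω) ≤ 2 * (MulAction.toPermHom G Ω g).support.card + 1 := by
    rw [Real.sqrt_le_left (by positivity)]
    exact_mod_cast key
  linarith

end Cfsg.Agent.S5713
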