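import Cfsg.Statements.S5729
import Cfsg.Agent.H16.Der
import Cfsg.Agent.H16.PTools
import Cfsg.Agent.H5.Equiv

set_option autoImplicit false
open Cfsg

namespace Cfsg.Agent.S5729


/-- Let a finite group G act faithfully and transitively on a set with n ≥ 3 points. Then either G is a Frobenius permutation group (Frobenius as a permutation group: transitive, some non-identity element fixes a point, and no non-identity element fixes two points) of order n(n − 1) and exactly |G|/n of its elements are derangements (fix no point), or the number of derangements is greater than |G|/n. -/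
theorem result {G Ω : Type*} [Group G] [Finite G] [MulAction G Ω] [FaithfulSMul G Ω] [Fintype Ω] (htr : MulAction.IsPretransitive G Ω) (hn : 3 ≤ Fintype.card Ω) :
    ((MulAction.IsPretransitive G Ω ∧ (∃ g : G, g ≠ 1 ∧ ∃ ω : Ω, g • ω = ω) ∧ ∀ g : G, g ≠ 1 → Nat.card (MulAction.fixedBy Ω g) ≤ 1) ∧ Nat.card G = Fintype.card Ω * (Fintype.card Ω - 1) ∧ Fintype.card Ω * Nat.card {g : G // ∀ ω : Ω, g • ω ≠ ω} = Nat.card G) ∨
    Nat.card G < Fintype.card Ω * Nat.card {g : G // ∀ ω : Ω, g • ω ≠ ω} := by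
  classical
  have := Fintype.ofFinite G
  have : Nontrivial Ω := Fintype.one_lt_card_iff_nontrivial.1 (by omega)
  obtain ⟨a, b, hab⟩ := exists_pair_ne Ω
  set n := Fintype.card Ω with hn'
  have h1 := H29.sum_card_fixedBy (G := G) (Ω := Ω)
  have h2 := H29.sum_card_fixedBy (G := G) (Ω := Ω × Ω)
  simp only [H5.card_fixedBy_prod] at h2
  rw [H16.card_orb_one, one_mul] at h1
  have : Nontrivial (MulAction.orbitRel.Quotient G (Ω × Ω)) := ⟨Quotient.mk _ (a, b), Quotient.mk _ (a, a), fun e => by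
    obtain ⟨g, e⟩ := Quotient.exact e
    exact hab ((congrArg Prod.fst e).symm.trans (congrArg Prod.snd e))⟩
  have h3 : 1 < Nat.card (MulAction.orbitRel.Quotient G (Ω × Ω)) := Finite.one_lt_card
  have le : ∀ g : G, Nat.card (MulAction.fixedBy Ω g) ≤ n := fun g =>
    (Nat.card_le_card_of_injective _ Subtype.val_injective).trans_eq Nat.card_eq_fintype_card
  have z : ∀ g : G, Nat.card (MulAction.fixedBy Ω g) = 0 ↔ ∀ ω : Ω, g • ω ≠ ω := fun g => by
    simp
  have h4 : ∀ g ∈ (Finset.univ : Finset G), ((Nat.card (MulAction.fixedBy Ω g) : ℤ) - 1) *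
      (Nat.card (MulAction.fixedBy Ω g) - n) ≤ if ∀ ω : Ω, g • ω ≠ ω then n else 0 := fun g _ => by
    split_ifs with h
    · rw [(z g).2 h]; simp
    · have := (z g).not.2 h
      have := le g
      exact mul_nonpos_of_nonneg_of_nonpos (by omega) (by omega)
  have h5 : ∑ g : G, ((Nat.card (MulAction.fixedBy Ω g) : ℤ) - 1) * (Nat.card (MulAction.fixedBy Ω g) - n) =
      (Nat.card (MulAction.orbitRel.Quotient G (Ω × Ω)) - 1) * Nat.card G := by
    zify at h1 h2
    simp only [sub_mul, mul_sub, Finset.sum_sub_distrib, ← Finset.sum_mul, h1, h2, one_mul]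
    simp
  have h6 : ∑ g : G, ((if ∀ ω : Ω, g • ω ≠ ω then n else 0 : ℕ) : ℤ) =
      n * Nat.card {g : G // ∀ ω : Ω, g • ω ≠ ω} := by
    simp [Finset.sum_ite, Fintype.card_subtype, mul_comm]
  have h7 := Finset.sum_le_sum h4
  have p : 0 < Nat.card G := Nat.card_pos
  refine (lt_or_ge _ _).symm.imp (fun h => ?_) id
  have h8 : Nat.card (MulAction.orbitRel.Quotient G (Ω × Ω)) = 2 := by
    rw [h5, h6] at h7
    zify at h h3 p ⊢
    nlinarith
  have h9 : n * Nat.card {g : G // ∀ ω : Ω, g • ω ≠ ω} = Nat.card G := by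
    rw [h5, h6, h8] at h7
    zify at h h7 ⊢
    linarith
  have f : ∀ g : G, g ≠ 1 → Nat.card (MulAction.fixedBy Ω g) ≤ 1 := fun g g1 => by
    have := (Finset.sum_eq_sum_iff_of_le h4).1 (by rw [h5, h6, h8]; zify at h9 ⊢; linarith) g (Finset.mem_univ _)
    split_ifs at this with h
    · exact ((z g).2 h).trans_le zero_le_one
    refine (mul_eq_zero.1 this).elim (by omega) fun e => absurd (H16.eq_one_of_forall_smul (α := Ω) fun x =>
      (Set.eq_of_subset_of_ncard_le (Set.subset_univ (MulAction.fixedBy Ω g)) (by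
        rw [Set.ncard_univ, ← Nat.card_coe_set_eq, Nat.card_eq_fintype_card]; omega)).ge trivial) g1
  have t : MulAction.IsMultiplyPretransitive G Ω 2 := MulAction.is_two_pretransitive_iff.2 fun {x y c d} h h' => by
    obtain ⟨g, e⟩ := H16.exists_smul_of_card_orb h8.le (x := (c, d)) (y := (x, y)) (z := (a, a))
      (fun g e => h' ((congrArg Prod.fst e).symm.trans (congrArg Prod.snd e)))
      fun g e => h ((congrArg Prod.fst e).symm.trans (congrArg Prod.snd e))
    exact ⟨g, congrArg Prod.fst e, congrArg Prod.snd e⟩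
  obtain ⟨c, h1, h2⟩ : ∃ c, c ≠ a ∧ c ≠ b := by
    obtain ⟨c, hc⟩ := Finset.exists_mem_notMem_of_card_lt_card (s := {a, b}) (t := Finset.univ)
      (Finset.card_le_two.trans_lt hn)
    exact ⟨c, by simpa using hc.2⟩
  obtain ⟨g, e1, e2⟩ := H16.exists_smul2 t hab h1.symm
  refine ⟨⟨htr, ⟨g, fun e => h2 (by simp [← e2, e]), a, e1⟩, f⟩, ?_, h9⟩
  have : fixingSubgroup G (({a, b} : Finset Ω) : Set Ω) = ⊥ := eq_bot_iff.2 fun g hg => by_contra fun g1 => hab
    (congrArg Subtype.val ((Finite.card_le_one_iff_subsingleton.1 (f g g1)).elim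
      ⟨a, H16.mem_fixing_finset.1 hg a (by simp)⟩ ⟨b, H16.mem_fixing_finset.1 hg b (by simp)⟩))
  rw [H16.card_eq_descFactorial_mul t {a, b} (Finset.card_pair hab), this]
  simp [mul_comm, n]

end Cfsg.Agent.S5729
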