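import Cfsg.Statements.S5730
import Cfsg.Agent.H9.Der

set_option autoImplicit false
open Cfsg

namespace Cfsg.Agent.S5730

open H9.Der Finset

/-- Let a finite group G act faithfully and transitively on a set with n ≥ 7 points. Then either G is a Frobenius permutation group (Frobenius as a permutation group: transitive, some non-identity element fixes a point, and no non-identity element fixes two points) of order n(n − 1)/a with a ∈ {1, 2}, in which case exactly a|G|/n of its elements are derangements, or the number of derangements is at least 2|G|/n. (Equality does occur: PSL₃(2) acting on the 7 points of the Fano plane has exactly 2|G|/7 derangements.) -/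
theorem result {G Ω : Type*} [Group G] [Finite G] [MulAction G Ω] [FaithfulSMul G Ω] [Fintype Ω] (htr : MulAction.IsPretransitive G Ω) (hn : 7 ≤ Fintype.card Ω) :
    (∃ a : ℕ, (a = 1 ∨ a = 2) ∧ (MulAction.IsPretransitive G Ω ∧ (∃ g : G, g ≠ 1 ∧ ∃ ω : Ω, g • ω = ω) ∧ ∀ g : G, g ≠ 1 → Nat.card (MulAction.fixedBy Ω g) ≤ 1) ∧ a * Nat.card G = Fintype.card Ω * (Fintype.card Ω - 1) ∧ Fintype.card Ω * Nat.card {g : G // ∀ ω : Ω, g • ω ≠ ω} = a * Nat.card G) ∨
    2 * Nat.card G ≤ Fintype.card Ω * Nat.card {g : G // ∀ ω : Ω, g • ω ≠ ω} := by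
  classical
  have := Fintype.ofFinite G
  have : Nonempty Ω := Fintype.card_pos_iff.1 (by omega)
  have hD : Nat.card {g : G // ∀ ω : Ω, g • ω ≠ ω} = (univ.filter fun g : G => ∀ x : Ω, g • x ≠ x).card := by
    rw [Nat.card_eq_fintype_card, Fintype.card_subtype]
  have hfx : ∀ g : G, Nat.card (MulAction.fixedBy Ω g) = fx Ω g := fun g => by
    rw [Nat.card_eq_fintype_card, fx, Fintype.card_subtype]
    congr 1
  have hE := der_eq (G := G) (Ω := Ω)
  have h1 : ∑ g : G, (fx Ω g : ℚ) = Fintype.card G := by exact_mod_cast sum_fx_univ (G := G) (Ω := Ω)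
  have hS : 0 ≤ ∑ g : G, (fx Ω g : ℚ) * (fx Ω g - 1) * (Fintype.card Ω / fx Ω g - 1) := by
    refine sum_nonneg fun g _ => ?_
    rcases Nat.eq_zero_or_pos (fx Ω g) with h | h
    · simp [h]
    · have h2 : (1 : ℚ) ≤ fx Ω g := by exact_mod_cast h
      have h3 : (fx Ω g : ℚ) ≤ Fintype.card Ω := by exact_mod_cast card_le_univ _
      refine mul_nonneg (mul_nonneg (by linarith) (by linarith)) ?_
      rw [sub_nonneg, le_div_iff₀ (by linarith)]; linarith
  rw [hD, Nat.card_eq_fintype_card]
  by_cases hT : T2 G Ω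
  · obtain ⟨a, b, hab⟩ : ∃ a b : Ω, a ≠ b := Fintype.exists_pair_of_one_lt_card (by omega)
    have hG := card_G hT hab
    have hP : ∑ g : G, (fx Ω g : ℚ) * (fx Ω g - 1) = Fintype.card G := by
      have := sum_pairs (G := G) (Ω := Ω) fun _ => 1
      simp only [mul_one, sum_const, nsmul_eq_mul] at this
      rw [this, sum_congr rfl (g := fun _ => ((St G a b).card : ℚ))
        fun p hp => by rw [card_St hT hab (mem_offDiag.1 hp).2.2], hG]
      simp [offDiag_card, Nat.mul_sub]
    by_cases hm : 2 ≤ (St G a b).card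
    · right
      have h2 : ∑ g : G, (fx Ω g : ℚ) * (fx Ω g - 1) * 1 ≤
          ∑ g : G, (fx Ω g : ℚ) * (fx Ω g - 1) * (Fintype.card Ω / fx Ω g - 1) := by
        rw [sum_pairs, sum_pairs]
        refine sum_le_sum fun p hp => ?_
        have hp' := (mem_offDiag.1 hp).2.2
        have := key hT hn hp' (by rwa [card_St hT hab hp'])
        rw [sum_sub_distrib]
        simp only [sum_const, nsmul_eq_mul, mul_one]
        linarith
      simp only [mul_one] at h2
      have : 2 * (Fintype.card G : ℚ) ≤ (Fintype.card Ω : ℚ) * (univ.filter fun g : G => ∀ x : Ω, g • x ≠ x).card := by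
        linarith
      exact_mod_cast this
    · left
      have hm1 : (St G a b).card = 1 := by
        have := card_pos.2 ⟨_, one_St (G := G) a b⟩
        omega
      have hle : ∀ g : G, g ≠ 1 → fx Ω g ≤ 1 := by
        intro g hg
        by_contra hlt
        obtain ⟨c, hc, d, hd, hcd⟩ := one_lt_card.1 (not_le.1 hlt)
        have h3 := card_St hT hab hcd
        rw [hm1] at h3
        exact hg (card_le_one.1 h3.le _ (mem_St.2 ⟨(mem_filter.1 hc).2, (mem_filter.1 hd).2⟩) _ (one_St _ _))
      refine ⟨1, Or.inl rfl, ⟨htr, ?_, fun g hg => (hfx g).symm ▸ hle g hg⟩, by rw [hG, hm1]; simp, ?_⟩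
      · obtain ⟨c, hca, hcb⟩ : ∃ c : Ω, c ≠ a ∧ c ≠ b := by
          obtain ⟨c, hc⟩ : (({a, b} : Finset Ω)ᶜ).Nonempty := card_pos.1 (by rw [card_compl, card_pair hab]; omega)
          exact ⟨c, by simpa using hc⟩
        obtain ⟨g, hg1, hg2⟩ := hT a b a c hab hca.symm
        exact ⟨g, fun e => hcb (by rw [← hg2, e, one_smul]), a, hg1⟩
      · have h0 : ∑ g : G, (fx Ω g : ℚ) * (fx Ω g - 1) * (Fintype.card Ω / fx Ω g - 1) = 0 := by
          refine sum_eq_zero fun g _ => ?_
          by_cases hg : g = 1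
          · rw [hg, fx_one, div_self (by positivity)]; simp
          · have := hle g hg
            interval_cases (fx Ω g) <;> simp
        have : (Fintype.card Ω : ℚ) * (univ.filter fun g : G => ∀ x : Ω, g • x ≠ x).card = Fintype.card G := by
          linarith
        rw [one_mul]
        exact_mod_cast this
  · right
    have h2 : 3 * (Fintype.card G : ℚ) ≤ ∑ g : G, (fx Ω g : ℚ) * fx Ω g := by exact_mod_cast sum_sq_of_not hT
    have h3 : ∑ g : G, (fx Ω g : ℚ) * (fx Ω g - 1) = ∑ g : G, (fx Ω g : ℚ) * fx Ω g - Fintype.card G := by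
      rw [← h1, ← sum_sub_distrib]; exact sum_congr rfl fun g _ => by ring
    have : 2 * (Fintype.card G : ℚ) ≤ (Fintype.card Ω : ℚ) * (univ.filter fun g : G => ∀ x : Ω, g • x ≠ x).card := by
      linarith
    exact_mod_cast this

end Cfsg.Agent.S5730
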