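import Cfsg.Statements.S5738
import Mathlib

set_option autoImplicit false
open Cfsg

namespace Cfsg.Agent.S5738

/-- Let F ⊆ K be finite fields with |F| = q and [K : F] = n ≥ 2, so |K| = q^n. Regard K as an n-dimensional F-vector space; the multiplications by non-zero elements of K form a cyclic subgroup of GL_F(K) of order q^n − 1 acting regularly on the non-zero vectors (a Singer group). Its normaliser in GL_F(K) has order n·(q^n − 1). -/
theorem result {F K : Type*} [Field F] [Fintype F] [Field K] [Fintype K] [Algebra F K] (n : ℕ) (hn : 2 ≤ n) (hdim : Module.finrank F K = n) :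
    Nat.card (Subgroup.normalizer (((Units.map ((Algebra.lmul F K : K →ₐ[F] Module.End F K) : K →* Module.End F K)).range : Subgroup (Module.End F K)ˣ) : Set (Module.End F K)ˣ)) = n * (Fintype.card K - 1) := by
  classical
  haveI : Finite (Module.End F K) := Finite.of_injective _ (DFunLike.coe_injective (F := Module.End F K))
  let N := Subgroup.normalizer (((Units.map ((Algebra.lmul F K : K →ₐ[F] Module.End F K) : K →* Module.End F K)).range : Subgroup (Module.End F K)ˣ) : Set (Module.End F K)ˣ)
  let u : Kˣ × (K ≃ₐ[F] K) → (Module.End F K)ˣ := fun x =>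
    { val := Algebra.lmul F K x.1 * x.2.toLinearMap
      inv := x.2.symm.toLinearMap * Algebra.lmul F K (x.1⁻¹ : Kˣ)
      val_inv := by ext y; simp
      inv_val := by ext y; simp }
  have hu : ∀ x, u x ∈ N := fun x => by
    refine Subgroup.mem_normalizer_fintype ?_
    rintro _ ⟨c, rfl⟩
    refine ⟨Units.map (x.2 : K →* K) c, Units.ext ?_⟩
    ext y
    simp [u]
    field_simp
  have hb : Function.Bijective fun x => (⟨u x, hu x⟩ : N) := by
    constructor
    · rintro ⟨a, σ⟩ ⟨b, τ⟩ h
      have h1 : ∀ y, (a : K) * σ y = b * τ y := fun y =>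
        congrArg (fun z : N => (z.1 : Module.End F K) y) h
      have h2 : a = b := Units.ext (by simpa using h1 1)
      subst h2
      exact Prod.ext rfl (AlgEquiv.ext fun y => mul_left_cancel₀ a.ne_zero (h1 y))
    · rintro ⟨g, hg⟩
      have hinj : Function.Injective (g : Module.End F K) := (Module.End.isUnit_iff _).1 g.isUnit |>.1
      have h1 : (g : Module.End F K) 1 ≠ 0 := fun h => one_ne_zero (hinj (h.trans (map_zero _).symm))
      have h2 : ∀ x y : K, (g : Module.End F K) (x * y) * (g : Module.End F K) 1 =
          (g : Module.End F K) x * (g : Module.End F K) y := fun x y => by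
        by_cases hx : x = 0
        · simp [hx]
        obtain ⟨c, hc⟩ := (Subgroup.mem_normalizer_iff.1 hg _).1 ⟨Units.mk0 x hx, rfl⟩
        have h3 : ∀ y, (c : K) * (g : Module.End F K) y = (g : Module.End F K) (x * y) := fun y => by
          have h4 := congrArg (fun z : (Module.End F K)ˣ => (z : Module.End F K) y) (eq_mul_inv_iff_mul_eq.1 hc)
          simpa using h4
        rw [← h3 y, ← mul_one x, ← h3 1]; ring
      let σ : K →ₐ[F] K := AlgHom.ofLinearMap (Algebra.lmul F K ((g : Module.End F K) 1)⁻¹ * (g : Module.End F K))
        (by simp [h1]) (fun x y => by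
          simp only [Module.End.mul_apply, Algebra.coe_lmul_eq_mul, LinearMap.mul_apply']
          field_simp
          rw [← h2 x y, mul_comm])
      refine ⟨(Units.mk0 _ h1, AlgEquiv.ofBijective σ (Finite.injective_iff_bijective.1 σ.injective)), ?_⟩
      apply Subtype.ext
      apply Units.ext
      ext y
      simp [u, σ, h1]
  rw [← Nat.card_eq_of_bijective _ hb, Nat.card_prod, Nat.card_units, Nat.card_eq_fintype_card, mul_comm,
    IsGalois.card_aut_eq_finrank, hdim]

end Cfsg.Agent.S5738
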