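import Cfsg.Statements.S5739


set_option autoImplicit false
open Cfsg

namespace Cfsg.Agent.S5739

/-- Let F ⊆ K be finite fields with |F| = q and [K : F] = n ≥ 2, and let M ≤ GL_F(K) be the Singer group of multiplications by non-zero elements of K. If g ∈ GL_F(K) does not normalise M, then the order of M ∩ gMg⁻¹ divides q^r − 1 for some proper divisor r of n. In particular, when n is prime, that order divides q − 1. -/
theorem result {F K : Type*} [Field F] [Fintype F] [Field K] [Fintype K] [Algebra F K] (n : ℕ) (hn : 2 ≤ n) (hdim : Module.finrank F K = n)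
    (g : (Module.End F K)ˣ) (hg : ((Units.map ((Algebra.lmul F K : K →ₐ[F] Module.End F K) : K →* Module.End F K)).range).map (MulAut.conj g).toMonoidHom ≠ (Units.map ((Algebra.lmul F K : K →ₐ[F] Module.End F K) : K →* Module.End F K)).range) :
    ∃ r : ℕ, 1 ≤ r ∧ r ∣ n ∧ r < n ∧ Nat.card ↥(((Units.map ((Algebra.lmul F K : K →ₐ[F] Module.End F K) : K →* Module.End F K)).range).map (MulAut.conj g).toMonoidHom ⊓ (Units.map ((Algebra.lmul F K : K →ₐ[F] Module.End F K) : K →* Module.End F K)).range) ∣ Fintype.card F ^ r - 1 := by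
  let θ : Kˣ →* (Module.End F K)ˣ := Units.map ((Algebra.lmul F K : K →ₐ[F] Module.End F K) : K →* Module.End F K)
  have hθ : Function.Injective θ := Units.map_injective (Algebra.lmul_injective (R := F) (A := K))
  let c : Module.End F K →ₐ[F] Module.End F K := AlgHom.ofLinearMap ((LinearMap.mulLeft F g.1).comp (LinearMap.mulRight F (g⁻¹).1))
    (by simp) fun x y => by simp [mul_assoc]
  let A : Subalgebra F K := (c.comp (Algebra.lmul F K)).range.comap (Algebra.lmul F K)
  let L := A.toIntermediateField fun x hx => by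
    rcases eq_or_ne x 0 with rfl | e
    · simp
    rw [show x⁻¹ = x ^ (Fintype.card K - 2) from inv_eq_of_mul_eq_one_right (by
      rw [← pow_succ', ← FiniteField.pow_card_sub_one_eq_one x e]; congr 1; have := Fintype.one_lt_card (α := K); omega)]
    exact pow_mem hx _
  have hL : ∀ x : Kˣ, θ x ∈ θ.range.map (MulAut.conj g).toMonoidHom ↔ x.1 ∈ L := fun x => by
    refine ⟨?_, fun ⟨y, hy⟩ => ⟨θ (Units.mk0 y ?_), ⟨_, rfl⟩, Units.ext (by rw [MulEquiv.coe_toMonoidHom, MulAut.conj_apply, mul_assoc]; exact hy)⟩⟩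
    · rintro ⟨_, ⟨y, rfl⟩, e⟩
      rw [MulEquiv.coe_toMonoidHom, MulAut.conj_apply, mul_assoc] at e
      exact ⟨y.1, congrArg Units.val e⟩
    · rintro rfl
      exact x.ne_zero (Algebra.lmul_injective (R := F) (by simpa using hy.symm))
  have hr : Module.finrank F L ∣ n := hdim ▸ Dvd.intro _ (Module.finrank_mul_finrank F L K)
  refine ⟨Module.finrank F L, Module.finrank_pos, hr, (Nat.le_of_dvd (by omega) hr).lt_of_ne fun e => hg ?_, ?_⟩
  · have hT : L = ⊤ := IntermediateField.eq_of_le_of_finrank_eq le_top (by simp [e, hdim])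
    have : Finite (Module.End F K) := .of_injective _ DFunLike.coe_injective
    refine (Subgroup.eq_of_le_of_card_ge ?_ (Subgroup.card_map_of_injective (MulAut.conj g).injective).le).symm
    rintro _ ⟨x, rfl⟩
    exact (hL x).2 (by simp [hT])
  · rw [← Nat.card_eq_fintype_card, ← Module.natCard_eq_pow_finrank, ← Nat.card_units]
    refine (Subgroup.card_dvd_of_le (K := (θ.comp (Units.map L.subtype.toMonoidHom)).range) ?_).trans (Subgroup.card_range_dvd _)
    rintro _ ⟨h, x, rfl⟩
    exact ⟨Units.mk0 ⟨x.1, (hL x).1 h⟩ fun e => x.ne_zero (congrArg Subtype.val e), congrArg θ (Units.ext rfl)⟩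

end Cfsg.Agent.S5739
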