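import Cfsg.Statements.S5746
import Cfsg.Agent.H14.ExG24
import Cfsg.Agent.H15.J2

set_option autoImplicit false
open Cfsg

namespace Cfsg.Agent.S5746

open H14 L L.ExG24

/-- The Chevalley group G₂(4) (over the field with 4 elements) has a maximal subgroup H isomorphic to the Hall–Janko group J₂ such that for every x outside H the intersection H ∩ xHx⁻¹ is a maximal subgroup of H; that is, the action of G₂(4) on the cosets of H is extremely primitive. -/
theorem result {F : Type*} [Field F] [Fintype F] (hF : Fintype.card F = 4) :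
    ∃ H : Subgroup (Cfsg.Lie.chevG2.group F), IsCoatom H ∧ Cfsg.Spor.IsoJ2 H ∧
      ∀ x : Cfsg.Lie.chevG2.group F, x ∉ H → IsCoatom ((H ⊓ H.map (MulAut.conj x).toMonoidHom).subgroupOf H) := by
  obtain ⟨S⟩ := StG416.std
  obtain ⟨T⟩ := H15.StdG24.std hF
  obtain ⟨J⟩ := H15.J2.std
  have := S.finite
  obtain ⟨e⟩ := (gqs S.M S.card (Pres.of fun _ _ y hy => H15.StdG24.hom T y hy)).iso_bot T.card
    (by rw [S.top, Subgroup.card_top, S.card]) (by norm_num)
  obtain ⟨_, ⟨M⟩, hN, _⟩ := exM S.M (((MulEquiv.subgroupCongr S.top).trans Subgroup.topEquiv).symm.trans e)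
    S.card (by norm_num)
  refine ⟨_, coatom_top (tcoatom M hN), ?_, exprim (tcv M hN) fun M => all M hN⟩
  rw [(hs_eq M hN).1]
  exact (jqs M hN (Pres.of fun _ _ y hy => H15.StdJ2.hom J y hy)).iso_bot J.card (hs_low M hN) (by norm_num)

end Cfsg.Agent.S5746
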