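import Cfsg.Statements.S5747
import Mathlib

set_option autoImplicit false
open Cfsg

namespace Cfsg.Agent.S5747

section
variable {G Ω : Type*} [Group G] [MulAction G Ω]

/-- base for a subgroup -/
def Bs (K : Subgroup G) (t : ℕ) (f : Fin t → Ω) : Prop := ∀ g ∈ K, (∀ i, g • f i = f i) → g = 1

/-- irredundant base for a subgroup -/
def Ir (K : Subgroup G) (t : ℕ) (f : Fin t → Ω) : Prop :=
  Bs K t f ∧ ∀ i, ∃ g ∈ K, (∀ j, j < i → g • f j = f j) ∧ g • f i ≠ f i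

theorem bs_succ {K : Subgroup G} {t : ℕ} {f : Fin (t + 1) → Ω} :
    Bs K (t + 1) f ↔ Bs (K ⊓ MulAction.stabilizer G (f 0)) t (Fin.tail f) := by
  simp only [Bs, Fin.forall_fin_succ, Subgroup.mem_inf, MulAction.mem_stabilizer_iff, Fin.tail, and_imp]

theorem ir_succ {K : Subgroup G} {t : ℕ} {f : Fin (t + 1) → Ω} :
    Ir K (t + 1) f ↔ (∃ g ∈ K, g • f 0 ≠ f 0) ∧ Ir (K ⊓ MulAction.stabilizer G (f 0)) t (Fin.tail f) := by
  simp only [Ir, bs_succ, Fin.forall_fin_succ, Subgroup.mem_inf, MulAction.mem_stabilizer_iff, Fin.tail,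
    Fin.not_lt_zero, Fin.succ_pos, Fin.succ_lt_succ_iff, IsEmpty.forall_iff, implies_true, true_and,
    forall_const, and_assoc]
  tauto

theorem ir_cons {K : Subgroup G} {t : ℕ} {ω : Ω} {f : Fin t → Ω} :
    Ir K (t + 1) (Fin.cons ω f) ↔ (∃ g ∈ K, g • ω ≠ ω) ∧ Ir (K ⊓ MulAction.stabilizer G ω) t f := by
  rw [ir_succ]; simp

theorem bs_cases : ∀ (t : ℕ) (K : Subgroup G) (f : Fin t → Ω), Bs K t f →
    Ir K t f ∨ ∃ s < t, ∃ f' : Fin s → Ω, Ir K s f' := by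
  intro t
  induction t with
  | zero => exact fun K f h => Or.inl ⟨h, fun i => i.elim0⟩
  | succ t ih =>
    intro K f h
    have h1 := ih _ _ (bs_succ.1 h)
    by_cases h0 : ∃ g ∈ K, g • f 0 ≠ f 0
    · rcases h1 with h1 | ⟨s, hs, f', hf'⟩
      · exact Or.inl (ir_succ.2 ⟨h0, h1⟩)
      · exact Or.inr ⟨s + 1, by omega, Fin.cons (f 0) f', ir_cons.2 ⟨h0, hf'⟩⟩
    · push Not at h0
      rw [inf_eq_left.2 (show K ≤ MulAction.stabilizer G (f 0) from h0)] at h1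
      rcases h1 with h1 | ⟨s, hs, f', hf'⟩
      · exact Or.inr ⟨t, by omega, _, h1⟩
      · exact Or.inr ⟨s, by omega, f', hf'⟩

theorem exists_ir {K : Subgroup G} {t : ℕ} {f : Fin t → Ω} (h : Bs K t f) :
    ∃ s, ∃ f' : Fin s → Ω, Ir K s f' :=
  (bs_cases t K f h).elim (fun h => ⟨t, f, h⟩) fun ⟨s, _, h⟩ => ⟨s, h⟩

/-- invariance under reordering -/
def Re (Ω : Type*) [MulAction G Ω] (K : Subgroup G) : Prop :=
  ∀ (t : ℕ) (f : Fin t → Ω) (σ : Equiv.Perm (Fin t)), Ir K t f → Ir K t (f ∘ σ)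

theorem re_stab {K : Subgroup G} (h : Re Ω K) {ω : Ω} (hω : ∃ g ∈ K, g • ω ≠ ω) :
    Re Ω (K ⊓ MulAction.stabilizer G ω) := fun t f σ hf => by
  have h1 := h (t + 1) (Fin.cons ω f) (Equiv.Perm.decomposeFin.symm (0, σ)) (ir_cons.2 ⟨hω, hf⟩)
  have h2 : (Fin.cons ω f : Fin (t + 1) → Ω) ∘ (Equiv.Perm.decomposeFin.symm (0, σ)) =
      Fin.cons ω (f ∘ σ) := by
    ext i
    refine Fin.cases ?_ (fun i => ?_) i <;> simp
  rw [h2] at h1
  exact (ir_cons.1 h1).2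

theorem ir_zero {K : Subgroup G} {t : ℕ} {f : Fin 0 → Ω} {f' : Fin t → Ω} (h : Ir K 0 f) (h' : Ir K t f') :
    t = 0 := by
  rcases t with _ | t
  · rfl
  obtain ⟨g, hg, -, h2⟩ := h'.2 0
  rw [h.1 g hg (fun i => i.elim0), one_smul] at h2
  exact absurd rfl h2

theorem len_eq [Finite G] (n : ℕ) : ∀ (K : Subgroup G), Nat.card K = n → Re Ω K →
    ∀ (t t' : ℕ) (f : Fin t → Ω) (f' : Fin t' → Ω), Ir K t f → Ir K t' f' → t = t' := by
  induction n using Nat.strong_induction_on with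
  | _ n ih =>
  intro K hK hR
  have step : ∀ ω : Ω, (∃ g ∈ K, g • ω ≠ ω) → ∀ (t t' : ℕ) (f : Fin t → Ω) (f' : Fin t' → Ω),
      Ir (K ⊓ MulAction.stabilizer G ω) t f → Ir (K ⊓ MulAction.stabilizer G ω) t' f' → t = t' := by
    intro ω hω
    refine ih _ ?_ _ rfl (re_stab hR hω)
    obtain ⟨g, hg, hg'⟩ := hω
    rw [← hK]
    refine Set.ncard_lt_ncard (s := ((K ⊓ MulAction.stabilizer G ω : Subgroup G) : Set G)) (t := K) ?_
    exact SetLike.coe_ssubset_coe.2 (lt_of_le_of_ne inf_le_left fun e => hg' (by rw [← e] at hg; exact hg.2))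
  have sw : ∀ (t t' : ℕ) (ω δ : Ω) (f : Fin t → Ω) (f' : Fin t' → Ω), Ir K (t + 1) (Fin.cons ω f) →
      Ir K (t' + 1) (Fin.cons δ f') → (∃ g ∈ K ⊓ MulAction.stabilizer G ω, g • δ ≠ δ) → t = t' := by
    intro t t' ω δ f f' h h' hm
    obtain ⟨h1, h2⟩ := ir_cons.1 h
    obtain ⟨h1', h2'⟩ := ir_cons.1 h'
    obtain ⟨s, l, hl⟩ := exists_ir (K := K ⊓ MulAction.stabilizer G ω ⊓ MulAction.stabilizer G δ) (f := f)
      (fun g hg => h2.1 g hg.1)
    have h3 := ir_cons.2 ⟨hm, hl⟩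
    have h4 := hR _ _ (Equiv.swap 0 1) (ir_cons.2 ⟨h1, h3⟩)
    have h5 : (Fin.cons ω (Fin.cons δ l) : Fin (s + 2) → Ω) ∘ (Equiv.swap 0 1) = Fin.cons δ (Fin.cons ω l) := by
      ext i
      refine Fin.cases ?_ (fun i => Fin.cases ?_ (fun i => ?_) i) i
      · simp
      · simp
      · rw [Function.comp_apply, Equiv.swap_apply_of_ne_of_ne (Fin.succ_ne_zero _) (Fin.succ_succ_ne_one _)]
        simp
    rw [h5] at h4
    exact (step ω h1 _ _ _ _ h2 h3).trans (step δ h1' _ _ _ _ (ir_cons.1 h4).2 h2')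
  intro t t' f f' h h'
  rcases t with _ | t
  · exact (ir_zero h h').symm
  rcases t' with _ | t'
  · exact ir_zero h' h
  rw [← Fin.cons_self_tail f] at h
  rw [← Fin.cons_self_tail f'] at h'
  by_cases c1 : ∃ g ∈ K ⊓ MulAction.stabilizer G (f 0), g • f' 0 ≠ f' 0
  · rw [sw _ _ _ _ _ _ h h' c1]
  by_cases c2 : ∃ g ∈ K ⊓ MulAction.stabilizer G (f' 0), g • f 0 ≠ f 0
  · rw [sw _ _ _ _ _ _ h' h c2]
  push Not at c1 c2
  have e : K ⊓ MulAction.stabilizer G (f' 0) = K ⊓ MulAction.stabilizer G (f 0) :=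
    le_antisymm (fun g hg => ⟨hg.1, c2 g hg⟩) (fun g hg => ⟨hg.1, c1 g hg⟩)
  have h2 := (ir_cons.1 h').2
  rw [e] at h2
  rw [step _ (ir_cons.1 h).1 _ _ _ _ (ir_cons.1 h).2 h2]

theorem ir_top {t : ℕ} {f : Fin t → Ω} : Ir (⊤ : Subgroup G) t f ↔
    ((∀ g : G, (∀ i : Fin t, g • f i = f i) → g = 1) ∧
      ∀ i : Fin t, ∃ g : G, (∀ j : Fin t, j < i → g • f j = f j) ∧ g • f i ≠ f i) := by
  simp [Ir, Bs]

end

/-- Let a finite group G act on a finite set Ω. An irredundant base is a sequence of points ω₁, …, ω_t whose pointwise stabiliser is trivial and in which each ω_i is moved by some element fixing ω₁, …, ω_{i−1}. Then all irredundant bases have the same length if and only if every reordering of an irredundant base is again an irredundant base. -/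
theorem result {G Ω : Type*} [Group G] [Finite G] [MulAction G Ω] [Fintype Ω] :
    (∀ (t t' : ℕ) (f : Fin t → Ω) (f' : Fin t' → Ω), ((∀ g : G, (∀ i : Fin t, g • f i = f i) → g = 1) ∧ ∀ i : Fin t, ∃ g : G, (∀ j : Fin t, j < i → g • f j = f j) ∧ g • f i ≠ f i) → ((∀ g : G, (∀ i : Fin t', g • f' i = f' i) → g = 1) ∧ ∀ i : Fin t', ∃ g : G, (∀ j : Fin t', j < i → g • f' j = f' j) ∧ g • f' i ≠ f' i) → t = t') ↔
    (∀ (t : ℕ) (f : Fin t → Ω) (σ : Equiv.Perm (Fin t)), ((∀ g : G, (∀ i : Fin t, g • f i = f i) → g = 1) ∧ ∀ i : Fin t, ∃ g : G, (∀ j : Fin t, j < i → g • f j = f j) ∧ g • f i ≠ f i) → ((∀ g : G, (∀ i : Fin t, g • (f ∘ σ) i = (f ∘ σ) i) → g = 1) ∧ ∀ i : Fin t, ∃ g : G, (∀ j : Fin t, j < i → g • (f ∘ σ) j = (f ∘ σ) j) ∧ g • (f ∘ σ) i ≠ (f ∘ σ) i)) := by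
  simp only [← ir_top]
  refine ⟨fun h t f σ hf => ?_, fun h => len_eq _ ⊤ rfl h⟩
  rcases bs_cases t ⊤ (f ∘ σ) (fun g hg hi => hf.1 g hg fun i => by simpa using hi (σ.symm i)) with
    h1 | ⟨s, hs, f', hf'⟩
  · exact h1
  · exact absurd (h _ _ _ _ hf hf') hs.ne'

end Cfsg.Agent.S5747
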