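import Cfsg.Statements.S5748
import Cfsg.Agent.H23.BSW
import Cfsg.Agent.H16.OddOrder

set_option autoImplicit false
open Cfsg

namespace Cfsg.Agent.S5748

open H18 Subgroup

/-- A finite non-abelian simple group in which commuting is a transitive relation on the non-identity elements (equivalently, every non-identity element has abelian centraliser) is isomorphic to PSL₂ over a field with 2^f elements for some f ≥ 2; conversely these groups have that property. -/
theorem result {G : Type*} [Group G] [Finite G] [IsSimpleGroup G] (hG : ¬ IsMulCommutative G) :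
    (∀ a b c : G, a ≠ 1 → b ≠ 1 → c ≠ 1 → Commute a b → Commute b c → Commute a c) ↔
    ∃ (F : Type) (_ : Field F) (_ : Fintype F) (f : ℕ), 2 ≤ f ∧ Fintype.card F = 2 ^ f ∧ Nonempty (G ≃* Matrix.ProjectiveSpecialLinearGroup (Fin 2) F) := by
  refine ⟨fun h => ?_, ?_⟩
  · have h1 : ∀ t : G, orderOf t = 2 → IsMulCommutative C1(t) := fun t ht => ⟨⟨fun a b => Subtype.ext (by
      by_cases ha : a.1 = 1
      · simp [ha]
      by_cases hb : b.1 = 1
      · simp [hb]
      exact h a t b ha (H9.orderOf_eq_two.1 ht).2 hb (mem_C1.1 a.2) (mem_C1.1 b.2).symm)⟩⟩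
    have he : Even (Nat.card G) := Nat.not_odd_iff_even.1 fun ho => hG
      ⟨⟨(IsSimpleGroup.comm_iff_isSolvable.2 (H16.odd_order G ho))⟩⟩
    obtain ⟨T, hT⟩ := exists_sylow Nat.prime_two (⊤ : Subgroup G)
    obtain ⟨F, _, _, h2, h3, e⟩ := H6.Ree.psl_of_se (fun Q hQ => cent_iff.1 (H23.ca_abel h1
      (piGrp_of_isPGroup Nat.prime_two hQ))) (H23.ca_se h1 he hT fun hn => by
        rcases hn.eq_bot_or_eq_top with rfl | rfl
        · exact hT.ne_bot_p Nat.prime_two (by rwa [card_top, ← even_iff_two_dvd]) rfl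
        · exact hG ⟨⟨fun a b => comm_of_cent (H23.ca_abel h1 hT.pi) (mem_top a) (mem_top b)⟩⟩)
    have : CharP F 2 := CharP.ringChar_of_prime_eq_zero Nat.prime_two h2 ▸ ringChar.charP F
    obtain ⟨n, -, hn⟩ := FiniteField.card F 2
    refine ⟨F, _, _, n, by_contra fun h4 => ?_, hn, e⟩
    have : (n : ℕ) = 1 := le_antisymm (Nat.lt_succ_iff.1 (not_le.1 h4)) n.2
    rw [hn, this] at h3; exact absurd h3 (by decide)
  rintro ⟨F, _, _, f, -, h2, ⟨e⟩⟩ a b c - hb - h3 h4
  have := H19.charP_of_card h2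
  have h5 := CharP.cast_eq_zero F 2
  let φ := e.trans (MulEquiv.ofBijective _ (H6.Ree.πS_bij h5)).symm
  have h6 := H6.Ree.not_isScal_two h5 (X := φ b) fun h => hb (φ.injective (h.trans (map_one φ).symm))
  obtain ⟨x, y, h7⟩ := (H24.commute_iff h6 (φ a)).1 (congrArg Subtype.val (h3.map φ).eq)
  obtain ⟨z, w, h8⟩ := (H24.commute_iff h6 (φ c)).1 (congrArg Subtype.val (h4.map φ).eq).symm
  refine φ.injective ?_
  rw [map_mul, map_mul]
  refine Subtype.ext ?_
  change (φ a).1 * (φ c).1 = (φ c).1 * (φ a).1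
  rw [h7, h8, H24.lin_commute]

end Cfsg.Agent.S5748
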