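import Cfsg.Statements.S5751
import Cfsg.Agent.H12.BT
import Cfsg.Agent.H12.Graph
import Cfsg.Agent.H12.Perf
import Cfsg.Agent.H13.BN

set_option autoImplicit false
open Cfsg

namespace Cfsg.Agent.S5751

section
open H12 H12.StSys Cfsg.Lie

theorem mem_core {G : Type*} [Group G] {M Y : Subgroup G} {x : G} :
    x ∈ (Y.subgroupOf M).normalCore.map M.subtype ↔ x ∈ M ∧ ∀ m ∈ M, m * x * m⁻¹ ∈ Y :=
  ⟨by rintro ⟨y, h, rfl⟩; exact ⟨y.2, fun m hm => h ⟨m, hm⟩⟩, fun h => ⟨⟨x, h.1⟩, fun m => h.2 m m.2, rfl⟩⟩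

theorem mem_cj {G : Type*} [Group G] {Y : Subgroup G} {n x : G} (h : n⁻¹ = n) :
    x ∈ Y.map (MulAut.conj n).toMonoidHom ↔ n * x * n⁻¹ ∈ Y := by
  rw [Subgroup.mem_map_equiv, MulAut.conj_symm_apply, h]

def A {G : Type*} [Group G] (M : Subgroup G) (n : G) : ℕ → Subgroup G
  | 0 => M
  | i + 1 => ((A M n i ⊓ (A M n i).map (MulAut.conj n).toMonoidHom).subgroupOf M).normalCore.map M.subtype

theorem mem_A {G : Type*} [Group G] {M : Subgroup G} {n x : G} (h : n⁻¹ = n) {i : ℕ} :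
    x ∈ A M n (i + 1) ↔ x ∈ M ∧ ∀ m ∈ M, m * x * m⁻¹ ∈ A M n i ∧ n * (m * x * m⁻¹) * n⁻¹ ∈ A M n i := by
  simp only [A, mem_core, Subgroup.mem_inf, mem_cj h]

def CT (T : Tab) (X : Aux) (k : ℕ) : Prop :=
  (∀ r < T.n, X.rc r k ≤ 6 ∧ (r ≠ T.sim k → T.ca k r ≤ 1) ∧ (X.rc r k = 1 → r = T.sim k ∨ ∃ i < T.l, i ≠ k ∧ 0 < T.ca i r)) ∧
    (∃ r < T.n, X.rc r k = 6) ∧ ∀ i < T.l, ∃ r < T.n, X.rc r k = 1 ∧ T.ca i r ≠ 0

theorem ctE8 : CT (tab chevE8) auxE8 3 := by rw [tabE8_eq]; unfold CT; decide +kernel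

variable {D : ChevalleyDatum} [G : Good D] {F : Type*} [Field F] {Γ : Type*} [Group Γ] {S : StSys D F Γ} {θ : Γ →* GL D.Idx F} {k : I D}

def R (k : I D) (j : ℤ) : Set (Φ D) := {r | j ≤ rc r k}

theorem rc_comb {r s u : Φ D} (h : PosComb r s u) (hr : 0 ≤ rc r k) (hs : 0 ≤ rc s k) : rc s k ≤ rc u k := by
  obtain ⟨i, j, hi, hj, e⟩ := h
  have := congrFun (rc_of_wt_eq₂ e) k
  simp only [Pi.add_apply, Pi.smul_apply, smul_eq_mul] at this
  nlinarith [mul_nonneg (Int.natCast_nonneg i) hr, mul_nonneg (show (0 : ℤ) ≤ j - 1 by omega) hs]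

theorem closed_R {j : ℤ} (hj : 1 ≤ j) : Closed (R k j) := fun r hr s hs u h =>
  le_trans hs (rc_comb h (by have : j ≤ rc r k := hr; omega) (by have : j ≤ rc s k := hs; omega))

theorem pos_R {j : ℤ} (hj : 1 ≤ j) : ∀ r ∈ R k j, IsPos r := fun r hr => isPos_of_rc_pos (i := k) (by have : j ≤ rc r k := hr; omega)

theorem inJ_iff {r : Φ D} : InJ {k}ᶜ r ↔ rc r k = 0 := by simp [InJ]

theorem P_conj {j : ℤ} (hj : 1 ≤ j) {m y : Γ} (hm : m ∈ S.P {k}ᶜ) (hy : y ∈ S.gen (R k j)) : m * y * m⁻¹ ∈ S.gen (R k j) := by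
  have h0 : ∀ r : Φ D, IsPos r ∨ InJ {k}ᶜ r → 0 ≤ rc r k := fun r h => h.elim (fun h => h.rc_nonneg k) fun h => (inJ_iff.1 h).ge
  rw [P_eq] at hm
  refine conj_mem_of_normalizer (sup_le (S.gen_le_normalizer (fun r hr h => ?_) fun r hr s hs u h => ?_) (S.H_le_normalizer _) hm) hy
  · have : j ≤ rc (ng r) k := h
    have := h0 r hr
    simp only [rc_ng, Pi.neg_apply] at *; omega
  · exact le_trans hs (rc_comb h (h0 r hr) (by have : j ≤ rc s k := hs; omega))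

theorem R_le_P {j : ℤ} (hj : 1 ≤ j) : S.gen (R k j) ≤ S.P {k}ᶜ := (S.gen_mono (pos_R hj)).trans (S.U_le_B.trans (S.B_le_P _))

theorem rep_mem {m : Γ} {w : W D} (h : S.Rep m w) (hw : w ∈ WJ {k}ᶜ) : m ∈ S.P {k}ᶜ := mem_P.2 ⟨w, hw, h.cell⟩

theorem kill (hθ : S.Cov θ) {Q Q' : Set (Φ D)} (hQ : Closed Q) (hp : ∀ r ∈ Q, IsPos r) {y : Γ} (hy : y ∈ S.gen Q)
    (h : ∀ r ∈ Q, r ∉ Q' → ∃ m w R, S.Rep m w ∧ Closed R ∧ (∀ r ∈ R, IsPos r) ∧ m * y * m⁻¹ ∈ S.gen R ∧ w • r ∉ R) : y ∈ S.gen Q' := by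
  classical
  have hf : ∀ r ∈ Q, 0 < fl (wt r) := fun r hr => isPos_iff_fl.1 (hp r hr)
  have hL : ∀ r, r ∈ (Finset.univ.filter (· ∈ Q)).toList ↔ r ∈ Q := by simp
  obtain ⟨t, rfl⟩ := S.exists_prod hQ hf (Finset.nodup_toList _) hL hy
  refine S.prod_mem fun r hr => ?_
  by_cases h' : r ∈ Q'
  · exact S.x_mem h' _
  obtain ⟨m, w, R, a, b, c, d, e⟩ := h r ((hL r).1 hr) h'
  rw [hθ.supp (Finset.nodup_toList _) (fun r hr => hf r ((hL r).1 hr)) (closed_isPos.inter (b.preimage w))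
    (fun r hr => isPos_iff_fl.1 hr.1) (hθ.mem_of_conj a (S.gen_mono hp hy) b c d) r hr fun h => e h.2, S.x_zero]
  exact one_mem _

theorem desc (r : Φ D) : 1 ≤ rc r k → ∃ w ∈ WJ {k}ᶜ, 0 < wt (w • r) k ∧ ∀ i ≠ k, wt (w • r) i ≤ 0 := by
  induction r using WellFoundedLT.induction with | _ r ih
  intro hr
  by_cases h : ∀ i ≠ k, wt r i ≤ 0
  · obtain ⟨i, -, hi⟩ := (isPos_of_rc_pos (i := k) (by omega : 0 < rc r k)).exists_wt_pos
    obtain rfl : i = k := by_contra fun e => (h i e).not_gt hi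
    exact ⟨1, one_mem _, by simpa using hi, by simpa using h⟩
  push Not at h
  obtain ⟨i, hi, h⟩ := h
  obtain ⟨w, a, b⟩ := ih _ (sref_lt h) (by rwa [rc_sref_of_ne hi.symm])
  exact ⟨w * sW i, mul_mem a (sW_mem_WJ hi), by simpa [mul_smul] using b⟩

theorem rc_sref_k (r : Φ D) : rc (sref k r) k = rc r k - wt r k := by simp [rc_sref]

theorem ng_mem (hθ : S.Cov θ) {t : F} (h : S.x (ng (sim k)) t ∈ S.P {k}ᶜ) : t = 0 := by
  by_contra ht
  obtain ⟨w, hw, c⟩ := mem_P.1 h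
  have e := S.x_ng_eq (sim k) (Units.mk0 t ht)
  rw [Units.val_mk0] at e
  have hx := fun t => S.U_le_B (S.x_mem_U (isPos_sim k) t)
  obtain rfl := hθ.cell_unique c (e ▸ ((rep_n_sim k _).cell.mul_left (hx _)).mul_right (hx _))
  have := rc_smul_of_mem hw (sim k) (j := k) (by simp)
  simp [rc_sim] at this

theorem step (hθ : S.Cov θ) {j : ℤ} (hj : 1 ≤ j) {y : Γ} (hy : y ∈ S.gen (R k j))
    (h : ∀ m ∈ S.P {k}ᶜ, S.n (sim k) 1 * (m * y * m⁻¹) * (S.n (sim k) 1)⁻¹ ∈ S.gen (R k j)) : y ∈ S.gen (R k (j + 1)) := by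
  refine kill hθ (closed_R hj) (pos_R hj) hy fun r h1 h2 => ?_
  simp only [R, Set.mem_ofPred_eq] at h1 h2
  obtain ⟨w, a, b, -⟩ := desc (k := k) r (by omega)
  obtain ⟨m, hm⟩ := S.exists_rep w
  refine ⟨_, _, _, (rep_n_sim k 1).mul hm, closed_R hj, pos_R hj, by simpa [mul_assoc] using h m (rep_mem hm a), fun c => ?_⟩
  simp only [R, Set.mem_ofPred_eq, mul_smul, sW_smul, rc_sref_k, rc_smul_of_mem a r (j := k) (by simp)] at c
  omega

variable (hc : CT (tab D) G.aux k)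
include hc

theorem step1 (hθ : S.Cov θ) {y : Γ} (hy : y ∈ S.gen (R k 1))
    (h : ∀ m ∈ S.P {k}ᶜ, S.n (sim k) 1 * (m * y * m⁻¹) * (S.n (sim k) 1)⁻¹ ∈ S.P {k}ᶜ) : y ∈ S.gen (R k 2) := by
  refine kill hθ (closed_R le_rfl) (pos_R le_rfl) hy fun r h1 h2 => ?_
  simp only [R, Set.mem_ofPred_eq] at h1 h2
  obtain ⟨w, a, -, b⟩ := desc (k := k) r h1
  obtain ⟨m, hm⟩ := S.exists_rep w
  have e : w • r = sim k := ((hc.1 _ (w • r).2).2.2 ((rc_smul_of_mem a r (j := k) (by simp)).trans (by omega))).elim (fun h => Fin.ext h)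
    fun ⟨i, c, d, e⟩ => absurd e (b ⟨i, c⟩ fun h => d (congrArg Fin.val h)).not_gt
  refine ⟨_, _, _, (rep_n_sim k 1).mul hm, closed_isPos, fun _ h => h, ?_, by simpa [mul_smul, e] using not_isPos_ng_sim k⟩
  have h3 := h m (rep_mem hm a)
  obtain ⟨u, hu, v, hv, e⟩ := S.U_decomp (sW k) (S.gen_mono (pos_R le_rfl) (P_conj le_rfl (rep_mem hm a) hy))
  obtain ⟨t, rfl⟩ := mem_Um_sW.1 hv
  have h4 := (rep_n_sim k 1).conj_Up hu
  have h5 := mul_mem (inv_mem (S.B_le_P {k}ᶜ (S.U_le_B h4))) h3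
  rw [e, show ∀ n u x : Γ, (n * u * n⁻¹)⁻¹ * (n * (u * x) * n⁻¹) = n * x * n⁻¹ from fun _ _ _ => by group, S.n_conj_x', rf_self] at h5
  obtain rfl : t = 0 := by simpa using ng_mem hθ h5
  rw [S.x_zero, mul_one] at e
  rw [← e] at h4
  simpa [mul_assoc, StSys.U] using h4

theorem step0 (hθ : S.Cov θ) (hH : S.H = ⊥) {N : Subgroup Γ} (h0 : N ≤ S.P {k}ᶜ) (h1 : ∀ y ∈ N, ∀ m ∈ S.P {k}ᶜ, m * y * m⁻¹ ∈ N)
    (h : ∀ y ∈ N, S.n (sim k) 1 * y * (S.n (sim k) 1)⁻¹ ∈ S.P {k}ᶜ) : N ≤ S.gen (R k 2) := by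
  have a1 : ∀ y ∈ N, y ∈ S.gen (R k 1) → y ∈ S.gen (R k 2) := fun y hy h' => step1 hc hθ h' fun m hm => h _ (h1 y hy m hm)
  have a2 : ∀ y ∈ N, ∀ w ∈ WJ {k}ᶜ, S.Cell w y → ∀ r, rc r k = 1 → fl (wt r) ≤ fl (wt (w • r)) := fun y hy w hw c r hr => by
    have hx : S.x r 1 ∈ S.gen (R k 1) := S.x_mem hr.ge 1
    have b1 := a1 (y * S.x r 1 * y⁻¹ * (S.x r 1)⁻¹) (by simpa [mul_assoc] using mul_mem hy (h1 _ (inv_mem hy) _ (R_le_P le_rfl hx)))
      (mul_mem (P_conj le_rfl (h0 hy) hx) (inv_mem hx))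
    have b2 := hθ.smul_mem (R := {s | 2 ≤ rc s k ∨ 1 ≤ rc s k ∧ fl (wt r) ≤ fl (wt s)})
      (hθ.pers_x (isPos_of_rc_pos (i := k) (by omega)) one_ne_zero) (stab_of_ideal (fun s hs => isPos_of_rc_pos (i := k)
        (by rcases hs with h | h <;> omega)) (fun s hs u hu v hv => ?_) ?_) c rfl r rfl
    · rcases b2 with b2 | b2
      · rw [rc_smul_of_mem hw r (j := k) (by simp)] at b2; omega
      · exact b2.2
    · have b3 := rc_comb hv (hs.rc_nonneg k) (by rcases hu with h | h <;> omega)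
      have b4 := hv.le (isPos_iff_fl.1 hs) (isPos_iff_fl.1 (isPos_of_rc_pos (i := k) (by rcases hu with h | h <;> omega)))
      have := isPos_iff_fl.1 hs
      rcases hu with h | h
      · exact .inl (by omega)
      · exact .inr ⟨by omega, by omega⟩
    · simpa using mul_mem (S.gen_mono (fun _ h => .inl h) b1) (S.x_mem (r := r) (.inr ⟨hr.ge, le_rfl⟩) 1)
  have a3 : N ≤ S.U := fun y hy => by
    obtain ⟨w, hw, c⟩ := mem_P.1 (h0 hy)
    have b1 : ∀ r, rc r k = 1 → w • r = r := fun r hr => fl_strictMono.injective <| le_antisymm (by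
      simpa using a2 _ (inv_mem hy) _ (inv_mem hw) c.inv (w • r) ((rc_smul_of_mem hw r (j := k) (by simp)).trans hr)) (a2 y hy w hw c r hr)
    obtain rfl : w = 1 := eq_one_of_pos fun i => by
      suffices w • sim i = sim i by rw [this]; exact isPos_sim i
      by_cases hi : i = k
      · exact b1 _ (by simp [hi, rc_sim])
      obtain ⟨r, b2, b3, b4⟩ := hc.2.2 i i.2
      have b5 := congrArg wt (b1 (sref i ⟨r, b2⟩) ((rc_sref_of_ne (Ne.symm hi) _).trans b3))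
      rw [← wL_wt, wt_sref, map_sub, map_smul, wL_wt, wL_wt, b1 ⟨r, b2⟩ b3, sub_right_inj] at b5
      exact wt_injective (smul_right_injective _ b4 b5)
    simpa [StSys.B, hH] using cell_one.1 c
  refine fun y hy => a1 y hy (kill hθ closed_isPos (fun _ h => h) (a3 hy) fun r b1 b2 => ?_)
  have b3 : InJ {k}ᶜ r := inJ_iff.2 (by have := IsPos.rc_nonneg b1 k; simp only [R, Set.mem_ofPred_eq] at b2; omega)
  exact ⟨_, _, _, rep_n r 1, closed_isPos, fun _ h => h, a3 (h1 y hy _ (rep_mem (rep_n r 1) b3.rW_mem)), by simpa [isPos_ng] using b1⟩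

theorem lower (hn : (S.n (sim k) 1)⁻¹ = S.n (sim k) 1) (i : ℕ) : S.gen (R k (i + 1)) ≤ A (S.P {k}ᶜ) (S.n (sim k) 1) i := by
  induction i with
  | zero => exact R_le_P (by simp)
  | succ i ih =>
    refine fun y hy => (mem_A hn).2 ⟨R_le_P (by omega) hy, fun m hm => ?_⟩
    have := P_conj (by omega) hm hy
    refine ⟨ih (S.gen_mono (fun r h => ?_) this), ih ((rep_n_sim k 1).act.conj_mem (fun r h => ?_) this)⟩
    · simp only [R, Set.mem_ofPred_eq] at h ⊢; omega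
    · have : wt r k ≤ 1 := (hc.1 _ r.2).2.1 fun e => by
        obtain rfl : r = sim k := Fin.ext e
        simp [R, rc_sim] at h; omega
      simp only [R, Set.mem_ofPred_eq, sW_smul, rc_sref_k] at h ⊢; omega

theorem upper (hθ : S.Cov θ) (hH : S.H = ⊥) (hn : (S.n (sim k) 1)⁻¹ = S.n (sim k) 1) (i : ℕ) :
    A (S.P {k}ᶜ) (S.n (sim k) 1) (i + 1) ≤ S.gen (R k (i + 1 + 1)) := by
  induction i with
  | zero =>
    refine step0 hc hθ hH (fun y hy => ((mem_A hn).1 hy).1) (fun y hy m hm => ?_) fun y hy => by simpa [A] using (((mem_A hn).1 hy).2 1 (one_mem _)).2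
    rw [mem_A hn] at hy ⊢
    exact ⟨mul_mem (mul_mem hm hy.1) (inv_mem hm), fun a ha => by simpa [mul_assoc] using hy.2 _ (mul_mem ha hm)⟩
  | succ i ih =>
    intro y hy
    rw [mem_A hn] at hy
    exact_mod_cast step hθ (by omega) (ih (by simpa using (hy.2 1 (one_mem _)).1)) fun m hm => ih (hy.2 m hm).2

omit hc in
theorem coatom (hθ : S.Cov θ) (hT : S.T = ⊤) : IsCoatom (S.P {k}ᶜ) := by
  refine ⟨fun h => one_ne_zero (ng_mem (k := k) hθ (h ▸ Subgroup.mem_top _)), fun M hM => ?_⟩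
  have hB := (S.B_le_P _).trans hM.le
  by_cases h : S.n (sim k) 1 ∈ M
  · have h1 : ∀ i, S.n (sim i) 1 ∈ M := fun i => by
      by_cases hi : i = k
      · rwa [hi]
      · exact hM.le (rep_mem (rep_n_sim i 1) (sW_mem_WJ hi))
    have h2 := fun i t => hB (S.U_le_B (S.x_mem_U (isPos_sim i) t))
    refine eq_top_iff.2 (hT ▸ S.T_le_of_sim h2 fun i t => ?_)
    obtain ⟨c, e⟩ := (rep_n_sim (S := S) i 1).act.conj_x (sim i)
    simpa [e] using mul_mem (mul_mem (h1 i) (h2 i (c⁻¹ * t))) (inv_mem (h1 i))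
  refine absurd (fun y hy => ?_) hM.not_ge
  have e := H13.BN.eq_parabolic_of_le (P := hθ.bn) (M.subgroupOf S.T) fun b hb => hB hb
  have : hθ.bn.parabolic (hθ.bn.S ∩ M.subgroupOf S.T) ≤ (S.P {k}ᶜ).subgroupOf S.T := by
    refine sup_le (fun b hb => S.B_le_P _ hb) ((Subgroup.closure_le _).2 ?_)
    rintro n ⟨⟨i, a⟩, b⟩
    change (n : Γ) ∈ M at b
    change (n : Γ) ∈ S.P _
    rw [a] at b ⊢
    exact rep_mem (rep_n_sim i 1) (sW_mem_WJ fun (hi : i = k) => h (hi ▸ b))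
  exact this (e.le (show (⟨y, hT ▸ Subgroup.mem_top _⟩ : S.T) ∈ M.subgroupOf S.T from hy))

theorem main [IsSimpleGroup Γ] (hθ : S.Cov θ) (hT : S.T = ⊤) (hH : S.H = ⊥) : ∃ (M₁ M₂ : Subgroup Γ) (g : Γ) (A B : ℕ → Subgroup Γ),
      IsCoatom M₁ ∧ M₂ = M₁.map (MulAut.conj g).toMonoidHom ∧ M₁ ≠ M₂ ∧ M₁.normalCore = ⊥ ∧ A 0 = M₁ ∧ B 0 = M₂ ∧
      (∀ i, A (i + 1) = ((A i ⊓ B i).subgroupOf M₁).normalCore.map M₁.subtype) ∧
      (∀ i, B (i + 1) = ((A i ⊓ B i).subgroupOf M₂).normalCore.map M₂.subtype) ∧ A 6 = ⊥ ∧ A 5 ≠ ⊥ := by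
  have hn : (S.n (sim k) 1)⁻¹ = S.n (sim k) 1 := inv_eq_of_mul_eq_one_right (Subgroup.mem_bot.1 (hH ▸ S.n_mul_n_mem_H _ _ _))
  have hm := coatom (k := k) hθ hT
  refine ⟨S.P {k}ᶜ, _, S.n (sim k) 1, A (S.P {k}ᶜ) (S.n (sim k) 1), fun i => (A (S.P {k}ᶜ) (S.n (sim k) 1) i).map (MulAut.conj _).toMonoidHom,
    hm, rfl, fun h => ?_, ?_, rfl, rfl, fun _ => rfl, fun i => ?_, ?_, fun h => ?_⟩
  · have := (mem_cj hn).1 (h.le (S.B_le_P _ (S.U_le_B (S.x_mem_U (isPos_sim k) 1))))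
    rw [S.n_conj_x', rf_self] at this
    simpa using ng_mem hθ this
  · exact (Subgroup.normalCore_normal _).eq_bot_or_eq_top.resolve_right fun h => hm.1 (eq_top_iff.2 (h ▸ Subgroup.normalCore_le _))
  · ext x
    generalize S.n (sim k) 1 = n at hn
    have e : ∀ x, n * (n * x) = x := fun x => by nth_rw 1 [← hn]; simp
    have e' : n * n = 1 := by simpa using e 1
    simp only [mem_core, Subgroup.mem_inf, mem_cj hn, mem_A hn]
    refine and_congr_right fun _ => ⟨fun h m a => ?_, fun h m a => ?_⟩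
    · simpa [hn, mul_assoc, e, e', and_comm] using h _ a
    · simpa [hn, mul_assoc, e, e', and_comm] using h (n * m * n) (by simpa [hn, mul_assoc, e, e'] using a)
  · exact eq_bot_iff.2 ((upper hc hθ hH hn 5).trans (S.gen_le.2 fun r hr => absurd (le_trans hr (hc.1 _ r.2).1) (by norm_num)))
  · obtain ⟨r, a, b⟩ := hc.2.1
    have := lower hc hn 5 (S.x_mem (r := ⟨r, a⟩) b.ge 1)
    rw [h, Subgroup.mem_bot] at this
    exact hθ.not_isPos_of_x_mem_V one_ne_zero (this ▸ one_mem _) (isPos_of_rc_pos (i := k) (lt_of_lt_of_eq (by norm_num) b.symm))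

end

/-- An extremal example for iterated cores of conjugate maximal subgroups: there exist a finite group G and two distinct conjugate maximal subgroups M₁, M₂ of G, with M₁ having trivial core in G, such that, if we define two descending sequences of subgroups by A₀ = M₁, B₀ = M₂ and, for every i, A_{i+1} = the core in M₁ of A_i ∩ B_i and B_{i+1} = the core in M₂ of A_i ∩ B_i (the core in M of a subgroup Y ≤ M is the largest normal subgroup of M contained in Y), the subgroup A₆ is trivial while A₅ is not (so the index 6 cannot be lowered to 5). (One example is a maximal parabolic subgroup of the Chevalley group of type E₈ over a finite field and a suitable conjugate of it.) -/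
theorem result :
    ∃ (G : Type) (_ : Group G) (_ : Finite G) (M₁ M₂ : Subgroup G) (g : G) (A B : ℕ → Subgroup G),
      IsCoatom M₁ ∧ M₂ = M₁.map (MulAut.conj g).toMonoidHom ∧ M₁ ≠ M₂ ∧ M₁.normalCore = ⊥ ∧ A 0 = M₁ ∧ B 0 = M₂ ∧
      (∀ i, A (i + 1) = ((A i ⊓ B i).subgroupOf M₁).normalCore.map M₁.subtype) ∧
      (∀ i, B (i + 1) = ((A i ⊓ B i).subgroupOf M₂).normalCore.map M₂.subtype) ∧ A 6 = ⊥ ∧ A 5 ≠ ⊥ := by
  have := (H12.simple_of_mem (D := Lie.chevE8) (F := ZMod 2) (by simp) ?_).1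
  · exact ⟨_, _, inferInstance, main (k := ⟨3, by decide⟩) (S := H12.grS Lie.chevE8 (ZMod 2)) ctE8 H12.cov_gr H12.grS_T
      (eq_bot_iff.2 ((H12.StSys.H_le _).2 fun r t => by rw [Subsingleton.elim t 1, H12.StSys.h_one]; exact one_mem _))⟩
  · rintro (h | h) <;> exact absurd (congrArg Lie.ChevalleyDatum.rank h) (by decide)

end Cfsg.Agent.S5751
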