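import Cfsg.Statements.S5754
import Cfsg.Agent.H11.Refl

set_option autoImplicit false
open Cfsg

namespace Cfsg.Agent.S5754

/-- Let V be a finite-dimensional vector space over a finite field F carrying an anisotropic quadratic form Q (Q(v) = 0 only for v = 0). Then the group of all maps v ↦ φ(v) + c, with φ an isometry of Q and c ∈ V, acts on V as a binary permutation group: given n ≥ 2 and two n-tuples u, u' of vectors such that every pair of corresponding entries of u is carried to that of u' by such a map, one such map carries u to u'. -/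
theorem result {F V : Type*} [Field F] [Finite F] [AddCommGroup V] [Module F V] [Module.Finite F V]
    (Q : QuadraticForm F V) (hQ : Q.Anisotropic) (n : ℕ) (hn : 2 ≤ n) (u u' : Fin n → V)
    (h2 : ∀ i j : Fin n, i ≠ j → ∃ (φ : Q.IsometryEquiv Q) (c : V), φ (u i) + c = u' i ∧ φ (u j) + c = u' j) :
    ∃ (φ : Q.IsometryEquiv Q) (c : V), ∀ i, φ (u i) + c = u' i := by
  have key : ∀ (k : ℕ) (v w : Fin k → V), (∀ i, Q (v i) = Q (w i)) → (∀ i j, Q (v i - v j) = Q (w i - w j)) →
      ∃ g : (H11.orthS Q).Isom, ∀ i, g.1 (v i) = w i := fun k => by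
    induction k with
    | zero => exact fun _ _ _ _ => ⟨1, fun i => i.elim0⟩
    | succ k ih =>
      intro v w a b
      obtain ⟨g, hg⟩ := ih (fun i => v i.succ) (fun i => w i.succ) (fun i => a _) fun i j => b _ _
      have c : ∀ i j, (H11.orthS Q).h (v i) (v j) = (H11.orthS Q).h (w i) (w j) := fun i j => by
        have e1 := (H11.orthS Q).orth_q_sub (v i) (v j)
        have e2 := (H11.orthS Q).orth_q_sub (w i) (w j)
        simp only [H11.orthS_q] at e1 e2
        linear_combination e1 - e2 + a i + a j - b i j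
      refine ⟨(H11.orthS Q).refl (g.1 (v 0) - w 0) * g, Fin.cases ?_ fun i => ?_⟩
      · by_cases e : g.1 (v 0) - w 0 = 0
        · simp [H11.PForm.refl_apply, e, sub_eq_zero.1 e]
        have e3 : (H11.orthS Q).h (g.1 (v 0) - w 0) (g.1 (v 0)) = (H11.orthS Q).q (g.1 (v 0) - w 0) := by
          rw [H11.PForm.orth_q_sub, map_sub, LinearMap.sub_apply, H11.PForm.orth_h_self, H11.PForm.orth_symm _ (w 0),
            H11.PForm.orth_isom_q, H11.orthS_q, ← a 0, two_mul]
        rw [H11.PForm.isom_mul_apply, H11.PForm.refl_apply, e3, inv_mul_cancel₀ (show (H11.orthS Q).q _ ≠ 0 from mt (hQ _) e)]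
        simp
      · rw [H11.PForm.isom_mul_apply, hg, H11.PForm.refl_apply_of_perp]
        rw [map_sub, LinearMap.sub_apply, ← c, ← hg, (H11.PForm.isom_isIsom g).h_eq, sub_self]
  have h3 : ∀ i j, Q (u i - u j) = Q (u' i - u' j) := fun i j => by
    by_cases e : i = j
    · simp [e]
    obtain ⟨φ, c, a, b⟩ := h2 i j e
    rw [← a, ← b, add_sub_add_right_eq_sub, ← map_sub, φ.map_app]
  let o : Fin n := ⟨0, by omega⟩
  obtain ⟨g, hg⟩ := key n (fun i => u i - u o) (fun i => u' i - u' o) (fun i => h3 i o) fun i j => by simpa using h3 i j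
  refine ⟨⟨g.1, fun x => H11.PForm.orth_isom_q g x⟩, u' o - g.1 (u o), fun i => ?_⟩
  change g.1 (u i) + _ = _
  rw [add_sub_left_comm, ← map_sub, hg, add_sub_cancel]

end Cfsg.Agent.S5754
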