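import Cfsg.Statements.S5763
import Mathlib

set_option autoImplicit false
open Cfsg

namespace Cfsg.Agent.S5763

open Equiv

def pr : Fin 8 → Fin 8 := ![1, 0, 3, 2, 5, 4, 7, 6]
def bl : Fin 8 → ZMod 2 × ZMod 2 := ![(0,0), (0,0), (0,1), (0,1), (1,0), (1,0), (1,1), (1,1)]
def rp : ZMod 2 × ZMod 2 → Fin 8 := fun v => if v.1 = 0 then (if v.2 = 0 then 0 else 2) else (if v.2 = 0 then 4 else 6)

def Good (ρ k : Fin 8 → Fin 8) : Prop :=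
  ∀ x, k (k x) = x ∧ k (pr x) = pr (k x) ∧ k (ρ x) = ρ (k x) ∧ k x ≠ x ∧ k x ≠ pr x ∧ k x ≠ ρ x

instance instGood (ρ k : Fin 8 → Fin 8) : Decidable (Good ρ k) := by unfold Good; infer_instance

def Concl (ρ : Fin 8 → Fin 8) : Prop :=
  (∃ x, ρ x = pr x) ∨ Good ρ (fun x => pr (ρ x)) ∨ Good ρ (fun x => pr (ρ (pr (ρ x))))

instance instConcl (ρ : Fin 8 → Fin 8) : Decidable (Concl ρ) := by unfold Concl; infer_instance

set_option synthInstance.maxSize 10000 in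
theorem key : ∀ a : Fin 8, a ≠ 0 → ∀ b : Fin 8, b ≠ 1 → b ≠ a → (a = 1 ↔ b = 0) →
    ∀ c : Fin 8, c ≠ 2 → c ≠ a → c ≠ b → (a = 2 ↔ c = 0) → (b = 2 ↔ c = 1) →
    ∀ d : Fin 8, d ≠ 3 → d ≠ a → d ≠ b → d ≠ c → (a = 3 ↔ d = 0) → (b = 3 ↔ d = 1) → (c = 3 ↔ d = 2) →
    ∀ e : Fin 8, e ≠ 4 → (a = 4 ↔ e = 0) → (b = 4 ↔ e = 1) → (c = 4 ↔ e = 2) → (d = 4 ↔ e = 3) →
    ∀ f : Fin 8, f ≠ 5 → (a = 5 ↔ f = 0) → (b = 5 ↔ f = 1) → (c = 5 ↔ f = 2) → (d = 5 ↔ f = 3) →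
      (e = 5 ↔ f = 4) →
    ∀ g : Fin 8, g ≠ 6 → (a = 6 ↔ g = 0) → (b = 6 ↔ g = 1) → (c = 6 ↔ g = 2) → (d = 6 ↔ g = 3) →
      (e = 6 ↔ g = 4) → (f = 6 ↔ g = 5) →
    ∀ h : Fin 8, h ≠ 7 → (a = 7 ↔ h = 0) → (b = 7 ↔ h = 1) → (c = 7 ↔ h = 2) → (d = 7 ↔ h = 3) →
      (e = 7 ↔ h = 4) → (f = 7 ↔ h = 5) → (g = 7 ↔ h = 6) → Concl ![a, b, c, d, e, f, g, h] := by
  decide +kernel

theorem concl (ρ : Fin 8 → Fin 8) (h1 : ∀ x, ρ (ρ x) = x) (h2 : ∀ x, ρ x ≠ x) : Concl ρ := by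
  have hi : Function.Injective ρ := Function.LeftInverse.injective h1
  have h3 : ∀ x y, ρ x = y ↔ ρ y = x := fun x y => ⟨fun h => h ▸ h1 x, fun h => h ▸ h1 y⟩
  have h4 : ∀ x y, x ≠ y → ρ x ≠ ρ y := fun x y h => hi.ne h
  have : ρ = ![ρ 0, ρ 1, ρ 2, ρ 3, ρ 4, ρ 5, ρ 6, ρ 7] := by
    funext x; fin_cases x <;> rfl
  rw [this]
  apply key <;> first | exact h2 _ | exact h3 _ _ | exact h4 _ _ (by decide)

def P0 : Subgroup (Perm (Fin 8)) where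
  carrier := {g | ∃ v, ∀ x, bl (g x) = bl x + v}
  one_mem' := ⟨0, fun x => by simp⟩
  mul_mem' := by
    rintro a b ⟨v, hv⟩ ⟨w, hw⟩
    exact ⟨w + v, fun x => by rw [Perm.mul_apply, hv, hw, add_assoc]⟩
  inv_mem' := by
    rintro a ⟨v, hv⟩
    exact ⟨-v, fun x => by have := hv (a⁻¹ x); simp at this; simp [this]⟩

theorem bl_eq : ∀ x y, bl y = bl x ↔ (y = x ∨ y = pr x) := by decide
theorem pr_pr : ∀ x, pr (pr x) = x := by decide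
theorem pr_ne : ∀ x, pr x ≠ x := by decide
theorem bl_rp : ∀ v, bl (rp v) = v := by decide
theorem trans_of : ∀ σ : ZMod 2 × ZMod 2 → ZMod 2 × ZMod 2, (∀ i, σ (σ i) = i ∧ σ i ≠ i) →
    ∃ v, ∀ i, σ i = i + v := by decide +kernel

theorem P0_p : IsPGroup 2 P0 := by
  rintro ⟨g, v, hv⟩
  refine ⟨2, Subtype.ext ?_⟩
  have h1 : ∀ x, bl ((g * g) x) = bl x := fun x => by
    rw [Perm.mul_apply, hv, hv, add_assoc]
    have : ∀ v : ZMod 2 × ZMod 2, v + v = 0 := by decide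
    rw [this, add_zero]
  have h2 : (g * g) * (g * g) = 1 := by
    generalize g * g = k at h1
    ext1 x
    rw [Perm.mul_apply]
    rcases (bl_eq _ _).1 (h1 x) with h | h
    · rw [h, h]; rfl
    · rcases (bl_eq _ _).1 (h1 (k x)) with h' | h'
      · exact absurd (k.injective h') (h ▸ pr_ne x)
      · rw [h', h, pr_pr]; rfl
  show g ^ (2 ^ 2) = 1
  rw [← h2]; simp [pow_succ, mul_assoc]

theorem mem_P0 (k : Perm (Fin 8)) (h1 : ∀ x, k (k x) = x) (h2 : ∀ x, k (pr x) = pr (k x))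
    (h3 : ∀ x, k x ≠ x) (h4 : ∀ x, k x ≠ pr x) : k ∈ P0 := by
  have h5 : ∀ x, bl (k x) = bl (k (rp (bl x))) := fun x => by
    rcases (bl_eq x _).1 (bl_rp (bl x)) with h | h
    · rw [h]
    · rw [h, h2]; exact ((bl_eq _ _).2 (Or.inr rfl)).symm
  obtain ⟨v, hv⟩ := trans_of (fun i => bl (k (rp i))) (fun i => ⟨by
    show bl (k (rp (bl (k (rp i))))) = i
    rw [← h5, h1, bl_rp], fun h => by
      have h' : bl (k (rp i)) = bl (rp i) := h.trans (bl_rp i).symm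
      exact ((bl_eq _ _).1 h').elim (h3 _) (h4 _)⟩)
  exact ⟨v, fun x => (h5 x).trans (hv _)⟩

theorem swap_mem (x : Fin 8) : swap x (pr x) ∈ P0 := ⟨0, fun y => by
  rw [add_zero, swap_apply_def]
  split_ifs with h1 h2
  · rw [h1]; exact (bl_eq _ _).2 (Or.inr rfl)
  · rw [h2]; exact ((bl_eq _ _).2 (Or.inr rfl)).symm
  · rfl⟩

theorem main (z : Perm (Fin 8)) : ∃ k : Perm (Fin 8), k ≠ 1 ∧ k ∈ P0 ∧ z⁻¹ * k * z ∈ P0 := by
  let π : Perm (Fin 8) := Function.Involutive.toPerm pr pr_pr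
  let ρ : Perm (Fin 8) := z * π * z⁻¹
  have hρ : ∀ x, ρ x = z (pr (z⁻¹ x)) := fun x => rfl
  have good : ∀ k : Perm (Fin 8), Good ρ k → k ≠ 1 ∧ k ∈ P0 ∧ z⁻¹ * k * z ∈ P0 := fun k hk => by
    refine ⟨fun h => (hk 0).2.2.2.1 (by rw [h]; rfl), mem_P0 k (fun x => (hk x).1) (fun x => (hk x).2.1)
      (fun x => (hk x).2.2.2.1) (fun x => (hk x).2.2.2.2.1), mem_P0 _ (fun x => ?_) (fun x => ?_)
      (fun x h => ?_) (fun x h => ?_)⟩
    · simp [(hk _).1]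
    · have := (hk (z x)).2.2.1
      rw [hρ, hρ] at this
      simp only [Perm.mul_apply, Perm.inv_eq_iff_eq]
      simpa using this
    · simp only [Perm.mul_apply, Perm.inv_eq_iff_eq] at h
      exact (hk _).2.2.2.1 h
    · simp only [Perm.mul_apply, Perm.inv_eq_iff_eq] at h
      exact (hk (z x)).2.2.2.2.2 (by rw [h, hρ]; simp)
  rcases concl ρ (fun x => by simp [hρ, pr_pr]) (fun x h => pr_ne (z⁻¹ x) (by
    rw [hρ] at h; rw [Perm.eq_inv_iff_eq, h])) with ⟨x, hx⟩ | h | h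
  · refine ⟨swap x (pr x), fun h => pr_ne x (swap_eq_one_iff.1 h).symm, swap_mem x, ?_⟩
    have := swap_apply_apply z⁻¹ x (pr x)
    rw [inv_inv] at this
    rw [← this, ← hx, hρ]
    simpa using swap_mem (z⁻¹ x)
  · exact ⟨π * ρ, good _ h⟩
  · exact ⟨π * ρ * π * ρ, good _ h⟩

/-- In the symmetric group on 8 letters any two Sylow 2-subgroups have non-trivial intersection: for a Sylow 2-subgroup H and every element x, H ∩ xHx⁻¹ ≠ 1. -/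
theorem result (H : Sylow 2 (Equiv.Perm (Fin 8))) (x : Equiv.Perm (Fin 8)) :
    (H : Subgroup (Equiv.Perm (Fin 8))) ⊓ (H : Subgroup (Equiv.Perm (Fin 8))).map (MulAut.conj x).toMonoidHom ≠ ⊥ := by
  obtain ⟨Q, hQ⟩ := P0_p.exists_le_sylow
  obtain ⟨y, rfl⟩ := MulAction.exists_smul_eq (Perm (Fin 8)) Q H
  obtain ⟨k, h1, h2, h3⟩ := main (y⁻¹ * x * y)
  have hm : ∀ g ∈ P0, y * g * y⁻¹ ∈ ((y • Q : Sylow 2 (Perm (Fin 8))) : Subgroup (Perm (Fin 8))) :=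
    fun g hg => ⟨g, hQ hg, rfl⟩
  intro h
  have : y * k * y⁻¹ ∈ (⊥ : Subgroup (Perm (Fin 8))) := h ▸ ⟨hm k h2, _, hm _ h3, by
    simp only [MulEquiv.coe_toMonoidHom, MulAut.conj_apply]; group⟩
  rw [Subgroup.mem_bot] at this
  apply h1
  calc k = y⁻¹ * (y * k * y⁻¹) * y := by group
    _ = 1 := by rw [this]; group

end Cfsg.Agent.S5763
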