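import Cfsg.Statements.S5769
import Cfsg.Agent.H12.Spec
import Cfsg.Agent.H11.ThD
import Cfsg.Agent.H11.Spec
import Cfsg.Agent.S1064

set_option autoImplicit false
open Cfsg

namespace Cfsg.Agent.S5769
open H12 H13 Cfsg.Lie
open StSys

theorem conj_zpowers {G : Type*} [Group G] [Finite G] {r : ℕ} [hr : Fact r.Prime] (h : ¬ r ^ 2 ∣ Nat.card G) {x y : G}
    (hx : orderOf x = r) (hy : orderOf y = r) : ∃ b, b * y * b⁻¹ ∈ Subgroup.zpowers x := by
  replace h : (Nat.card G).factorization r = 1 := (Nat.lt_succ_iff.1 (not_le.1 (mt (hr.out.pow_dvd_iff_le_factorization Nat.card_pos.ne').2 h))).antisymm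
    ((hr.out.pow_dvd_iff_le_factorization Nat.card_pos.ne').1 (by simpa [hx] using orderOf_dvd_natCard x))
  obtain ⟨b, hb⟩ := MulAction.exists_smul_eq G (Sylow.ofCard (p := r) (Subgroup.zpowers y) (by simp [h, hy]))
    (Sylow.ofCard (p := r) (Subgroup.zpowers x) (by simp [h, hx]))
  have := congrArg (fun P : Sylow r G => (P : Subgroup G)) hb
  simp only [Sylow.coe_ofCard, Sylow.coe_subgroup_smul] at this
  exact ⟨b, this ▸ Subgroup.smul_mem_pointwise_smul _ _ _ (Subgroup.mem_zpowers y)⟩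

theorem mem_zpowers_of_prime {G : Type*} [Group G] {x y : G} (h : (orderOf x).Prime) (hy : y ∈ Subgroup.zpowers x) (h1 : y ≠ 1) : x ∈ Subgroup.zpowers y := by
  obtain ⟨k, rfl⟩ := hy
  refine mem_zpowers_zpow_iff.2 ((Nat.coprime_comm.1 (h.coprime_iff_not_dvd.2 fun e => h1 ?_)))
  exact orderOf_dvd_iff_zpow_eq_one.1 (Int.natCast_dvd.2 e)

theorem psi_lin {D : ChevalleyDatum} {A : Type*} [CommGroup A] {ζ : A} {a : List ℤ} {r : Φ D}
    (h : r ∈ Psi {fun i => ζ ^ lfun D a (Pi.single i 1)}) : (orderOf ζ : ℤ) ∣ (tab D).lf a r := by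
  have := h _ rfl
  rwa [tch_zpow_lin, ← orderOf_dvd_iff_zpow_eq_one, lfun_wt] at this

theorem psi13 : ∀ r < (tab chevE7).n, (tab chevE7).n ≤ 2 * r → 13 ∣ (tab chevE7).lf [12, 8, 10, 3, 9, 2, 1] r →
    ∃ j ∈ [1, 4, 6], j < (tab chevE7).l ∧ r = (tab chevE7).sim j := by rw [tabE7_eq]; decide +kernel

theorem no65 (x : chevE7.group (ZMod 2)) : orderOf x ≠ 65 := fun hx => by
  obtain ⟨m, e1, e2⟩ := exists_fm chevE7 (ZMod 2) 2
  rw [Nat.card_zmod] at e1
  have hi := m.π_injective fun z hz _ => by simpa [smithE7.ker_eq_bot_two (by decide)] using hz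
  have hj := hi_st (D := chevE7) (AlgebraicClosure (ZMod 2))
  have := m.finite_Fix
  obtain ⟨x, rfl⟩ := m.π_surjective x
  rw [orderOf_injective _ hi] at hx
  obtain ⟨a, c, h1⟩ := exists_conj_H 2 (x := x.1) (m := 65) (by decide) (by rw [← Subgroup.coe_pow, ← hx, pow_orderOf_eq_one]; rfl)
  obtain ⟨v, h2⟩ := m.exists_mem_TF x.2 h1
  obtain ⟨ζ, hζ, -⟩ := exists_prim (k := AlgebraicClosure (ZMod 2)) 2 (N := 13) (by decide)
  obtain ⟨l, hl⟩ := exists_map_val (n := chevE7.rank) (l := [2, 0, 5, 4, 3, 1, 6, 5, 4, 3]) (by decide)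
  set c0 : I chevE7 → (AlgebraicClosure (ZMod 2))ˣ := fun i => ζ ^ lfun chevE7 [12, 8, 10, 3, 9, 2, 1] (Pi.single i 1) with hc0
  have o (g y) (c : I chevE7 → (AlgebraicClosure (ZMod 2))ˣ) (h : g * y * g⁻¹ = (stS chevE7 _).hl c) : orderOf y = orderOf c := by
    rw [← orderOf_injective _ hj, show r3_st.hprod c = _ from h.symm, ← (MulAut.conj g).orderOf_eq]; rfl
  have h3 : c0 ∈ m.TF (wp l)⁻¹ := by
    refine m.mem_TF.2 (funext fun i => ?_)
    change tch _ _ = _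
    rw [m.tch_φ, e1, e2, inv_inv, ← toΛ_eL, (toΛ_runL hAE7 (length_eL _ _) l).2.symm, hl, LinearMap.id_apply, hc0, tch_zpow_lin, ← zpow_natCast, ← zpow_mul,
      zpow_eq_zpow_iff_modEq, hζ]
    revert i; decide +kernel
  have h4 : orderOf c0 = 13 := (orderOf_zpow_lin (μ := Pi.single (⟨6, by decide⟩ : I chevE7) 1) (n := 1) (by decide +kernel) (by simp)).trans hζ
  obtain ⟨x0, g, h5⟩ := m.exists_fix h3
  have := Fact.mk (show Nat.Prime 13 by decide)
  obtain ⟨b, k, h6⟩ := conj_zpowers (r := 13) (x := x0) (y := x ^ 5) (by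
    have := S1064.result (F := ZMod 2) (q := 2) rfl
    rw [Nat.card_eq_of_bijective _ ⟨hi, m.π_surjective⟩, show Nat.card _ = _ from (one_mul _).symm.trans this]
    decide +kernel)
    (by rw [← Subgroup.orderOf_coe, o _ _ _ h5, h4]) (by rw [orderOf_pow, hx]; rfl)
  obtain ⟨u, h7⟩ := exists_wT_of_conj (g := g * b.1 * a⁻¹) (c := c ^ 5) (c' := c0 ^ k) (by
    rw [r3_st.hl_pow, ← h1, show (stS chevE7 _).hl (c0 ^ k) = (stS chevE7 _).hl c0 ^ k from map_zpow r3_st.hprod c0 k, ← h5, conj_zpow, conj_pow,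
      show x0.1 ^ k = b.1 * x.1 ^ 5 * b.1⁻¹ from congrArg Subtype.val h6]; simp [mul_assoc])
  have h8 : orderOf c = 65 := (o _ _ _ h1).symm.trans (by simpa using hx)
  have h9 : orderOf (wT u c) = 65 := by
    rw [orderOf_injective _ fun a b h => by simpa [← wT_mul] using congrArg (wT u⁻¹) h, h8]
  rw [FM.mem_TF, m.φ_eq e2, e1] at h2 h3
  have i1 : wT (u * v * u⁻¹) (wT u c ^ 2) = wT u c := by rw [← map_pow, ← wT_mul, inv_mul_cancel_right, wT_mul, h2]
  have i2 : wT (wp l * (u * v * u⁻¹)) ((c0 ^ k) ^ 2) = (c0 ^ k) ^ 2 := by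
    rw [map_pow] at h7
    rw [wT_mul, ← h7, ← pow_mul, mul_comm 5, pow_mul, map_pow, i1, ← pow_mul, mul_comm 2, pow_mul, h7, map_zpow, ← zpow_natCast, ← zpow_mul,
      mul_comm k, zpow_mul, zpow_natCast, ← congrArg (wT (wp l)) h3, ← wT_mul, mul_inv_cancel, wT_one]
  have i3 : wp l * (u * v * u⁻¹) ∈ WA {c0} := by
    rintro _ rfl
    have : c0 ∈ Subgroup.zpowers ((c0 ^ k) ^ 2) := by
      refine mem_zpowers_of_prime (by rw [h4]; decide) (pow_mem (zpow_mem (Subgroup.mem_zpowers _) _) _) fun h => ?_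
      rw [← h7, map_pow, ← pow_mul, ← orderOf_dvd_iff_pow_eq_one, h9] at h
      exact absurd h (by decide)
    obtain ⟨j, hj⟩ := this
    simp only at hj
    rw [← hj, map_zpow, i2]
  have i4 : (wp l * (u * v * u⁻¹))⁻¹ ∈ WJ {j : I chevE7 | j.1 ∈ [1, 4, 6]} := by
    refine (refS_of_conn (conn_units (isOfFinOrder_iff_pow_eq_one.2 ⟨13, by decide, h4 ▸ pow_orderOf_eq_one _⟩))).ind (one_mem _)
      (fun w _ r h1 h2 h3 => mul_mem h3 ?_) (inv_mem i3)
    have := psi_lin h1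
    rw [hζ] at this
    obtain ⟨j, hj, e⟩ : ∃ j ∈ [1, 4, 6], j < chevE7.rank ∧ r.1 = chevE7.simple j := psi13 r.1 r.2 h2 this
    exact (Fin.ext e.2 : r = sim ⟨j, e.1⟩) ▸ sW_mem_WJ hj
  obtain ⟨l', i5, i6⟩ := (show CovT 7 caE7L [1, 4, 6] [[[], [1]], [[], [4]], [[], [6]]] by decide +kernel).exists (D := chevE7) hAE7 i4
  have i7 := (show ∀ u ∈ allW [[[], [1]], [[], [4]], [[], [6]]], RelT 7 (matL 7 caE7L (u ++ [2, 0, 5, 4, 3, 1, 6, 5, 4, 3]))
    [-1, 0, 1, 0, -1, 0, 1, 0, -1, 0, 1] by decide +kernel) _ i5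
  rw [← hl, ← List.map_append] at i7
  have i8 := pow_revE (c := wT u c) (q := 2) (fun μ => by
    rw [← pow_tch, (wg _).wp_append, i6, ← congrArg (tch · μ) i1, tch_wT]; congr 2; group) (i7.eq hAE7)
  rw [← orderOf_dvd_iff_zpow_eq_one, h9] at i8
  exact absurd i8 (by decide)

theorem psp65 {F : Type*} [Field F] [Fintype F] (h8 : Fintype.card F = 8) {n : ℕ} (hn : 2 ≤ n) : ∃ g : Cfsg.PSp n F, orderOf g = 65 := by
  have := charP_of_card_eq_prime_pow (p := 2) (f := 3) h8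
  obtain ⟨A, T, a, hT, hA, ha, -⟩ := H11.exists_ord_model (H11.sympP F) (N := 65) H11.frob_id
    (by rw [Ne, CharP.cast_eq_zero_iff F 2]; decide) (by decide)
  have h1 := H11.dN_le (F := F) (N := 65) two_ne_zero (Or.inr (by simp [h8]))
  obtain ⟨U, -, h2⟩ := H11.PForm.symp_exists_compl (H11.stdSymp_nondeg n) hT (by simp; omega)
  obtain ⟨g, hg⟩ := h2.exists_spl a 1
  have h3 : orderOf g = 65 := by simp [hg.orderOf_eq, ha]
  refine ⟨(H11.spEquiv n F).symm g, Nat.dvd_antisymm ?_ ?_⟩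
  · exact (orderOf_map_dvd (QuotientGroup.mk' _) _).trans (by simp [h3])
  have h4 := pow_orderOf_eq_one ((H11.spEquiv n F).symm g : Cfsg.PSp n F)
  rw [← QuotientGroup.mk_pow, QuotientGroup.eq_one_iff, H11.mem_center_iff_equiv (H11.spEquiv n F), (H11.stdSymp_nondeg n).symp_center] at h4
  simp only [map_pow, MulEquiv.apply_symm_apply] at h4
  refine Nat.Coprime.dvd_of_dvd_mul_right (n := 2) (by decide) (h3 ▸ orderOf_dvd_of_pow_eq_one ?_)
  rcases h4 with h | h <;> rw [pow_mul, h]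
  exacts [one_pow _, H11.PForm.neg1_sq]
theorem key {H : Subgroup (chevE7.group (ZMod 2))} {K : Type*} [Group K] (h : ∃ g : K, orderOf g = 65) : IsEmpty (H ≃* K) := ⟨fun e => by
  obtain ⟨g, hg⟩ := h
  exact no65 (e.symm g) (by simpa using hg)⟩

/-- The Chevalley group of type E₇ over the field with two elements (generated by its root elements in the adjoint representation) has no subgroup isomorphic to any of PSL₂(64), PSp₄(8), PSL₄(8), PSU₄(8) or PSp₆(8). Here F₈ and F₆₄ denote fields with 8 and 64 elements. -/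
theorem result {F₈ F₆₄ : Type*} [Field F₈] [Fintype F₈] (h8 : Fintype.card F₈ = 8) [Field F₆₄] [Fintype F₆₄] (h64 : Fintype.card F₆₄ = 64)
    (H : Subgroup ↥(Cfsg.Lie.chevE7.group (ZMod 2))) :
    IsEmpty (↥H ≃* Matrix.ProjectiveSpecialLinearGroup (Fin 2) F₆₄) ∧ IsEmpty (↥H ≃* Cfsg.PSp 2 F₈) ∧
    IsEmpty (↥H ≃* Matrix.ProjectiveSpecialLinearGroup (Fin 4) F₈) ∧ IsEmpty (↥H ≃* Cfsg.PSU 4 F₆₄ 8) ∧ IsEmpty (↥H ≃* Cfsg.PSp 3 F₈) := by
  have := charP_of_card_eq_prime_pow (p := 2) (f := 3) h8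
  have := charP_of_card_eq_prime_pow (p := 2) (f := 6) h64
  have := Fact.mk (show Nat.Prime 13 by decide)
  have := Fact.mk (show Nat.Prime 5 by decide)
  refine ⟨key ?_, key (psp65 h8 le_rfl), key ?_, key ?_, key (psp65 h8 (by decide))⟩
  · refine ((H11.lu_psl (F := F₆₄) (ι := Fin 2) 2).two_primes (H11.char_dvd_card 2) (r := 5) (s := 13) (k := 2) (l := 2) (by decide) (by decide) (by decide) (by decide)
      (by decide) ?_ ?_ le_rfl le_rfl (by simp)).2 (Or.inr dvd_rfl) <;>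
    rw [Nat.card_eq_fintype_card, h64] <;> exact (orderOf_eq_prime (by decide) (by decide)).symm
  · refine ((H11.lu_psl (F := F₈) (ι := Fin 4) 2).two_primes (H11.char_dvd_card 2) (r := 5) (s := 13) (k := 4) (l := 4) (by decide) (by decide) (by decide) (by decide)
      (by decide) ?_ ?_ (by decide) le_rfl (by simp)).2 (Or.inr dvd_rfl) <;>
    rw [Nat.card_eq_fintype_card, h8] <;> exact (orderOf_eq_prime_pow (p := 2) (n := 1) (by decide) (by decide)).symm
  · refine ((H11.lu_psu (q := 8) h64 4 2 (by decide)).two_primes (H11.char_dvd_q 2 h64) (r := 5) (s := 13) (k := 4) (l := 4) (by decide) (by decide) (by decide) (by decide)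
      (by decide) ?_ ?_ (by decide) le_rfl (by simp)).2 (Or.inr dvd_rfl) <;>
    exact (orderOf_eq_prime_pow (p := 2) (n := 1) (by decide) (by decide)).symm

end Cfsg.Agent.S5769
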