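import Cfsg.Statements.S5883
import Cfsg.Agent.H14.MxFi23
import Cfsg.Agent.H15.Fi23
import Cfsg.Agent.S0144

set_option autoImplicit false
open Cfsg

namespace Cfsg.Agent.S5883

open H14 L L.MxFi23

/-- The constant 10 in the statement that H⁽¹⁰⁾ is perfect for every maximal subgroup H of a finite almost simple group cannot be lowered to 9: there exist a finite almost simple group G (with a non-abelian simple normal subgroup of trivial centralizer) and a maximal subgroup H of G whose ninth derived subgroup H⁽⁹⁾ is not perfect, i.e. H⁽¹⁰⁾ ≠ H⁽⁹⁾. (A solvable maximal subgroup of derived length 10 in the Fischer group Fi₂₃ is such an example.) -/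
theorem result :
    ∃ (G : Type) (_ : Group G) (_ : Finite G) (S H : Subgroup G), S.Normal ∧ IsSimpleGroup S ∧ ¬ IsMulCommutative S ∧
      Subgroup.centralizer (S : Set G) = ⊥ ∧ IsCoatom H ∧ derivedSeries H 10 ≠ derivedSeries H 9 := by
  have hN := H15.Fi23.card
  have : Finite Spor.Fi23 := Nat.finite_of_card_ne_zero (by rw [hN]; norm_num)
  have := H15.Fi23.simple
  let M := H15.Fi23.M
  have hZ : Subgroup.center Spor.Fi23 = ⊥ := center_simple hN (by norm_num)
  have := S0144.result 2 3 11 13 Nat.prime_two Nat.prime_three (card M hN)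
  refine ⟨Spor.Fi23, inferInstance, inferInstance, ⊤, sst M AA, inferInstance, Subgroup.topEquiv.isSimpleGroup,
    fun h => ?_, by rw [Subgroup.coe_top, Subgroup.centralizer_univ, hZ], (K23.fi M hN).coatom
      (ne_base1 (F := K23T.F) (K23.base0 M hN) (v := []) (by decide +kernel)) (le M hN) (cvA M hN) (cvB M hN)
      (gen M hN) fun e => ?_, ds_ne (d9 M hN)⟩
  · have : Subgroup.center Spor.Fi23 = ⊤ := (Subgroup.eq_top_iff' _).2 fun g => Subgroup.mem_center_iff.2 fun k =>
      congrArg Subtype.val (h.is_comm.comm (⟨k, trivial⟩ : (⊤ : Subgroup _)) ⟨g, trivial⟩)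
    exact bot_ne_top (hZ.symm.trans this)
  · have := card M hN
    rw [e, Subgroup.card_top, hN] at this
    norm_num at this

end Cfsg.Agent.S5883
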