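import Cfsg.Statements.S5885


set_option autoImplicit false
open Cfsg

namespace Cfsg.Agent.S5885
open Subgroup Equiv MulAction

theorem coat {G : Type*} [Group G] {H K : Subgroup G} (h : H ≤ K) :
    IsCoatom (H.subgroupOf K) ↔ ¬ K ≤ H ∧ ∀ Y, H ≤ Y → Y ≤ K → Y ≤ H ∨ K ≤ Y := by
  constructor
  · rintro ⟨h1, h2⟩
    refine ⟨fun e => h1 (subgroupOf_eq_top.2 e), fun Y a b => ?_⟩
    by_cases e : Y ≤ H
    · exact .inl e
    refine .inr (subgroupOf_eq_top.1 (h2 _ (lt_of_le_of_ne (comap_mono a) fun e' => e fun y hy => ?_)))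
    have : (⟨y, b hy⟩ : K) ∈ H.subgroupOf K := e' ▸ hy
    exact this
  · rintro ⟨h1, h2⟩
    refine ⟨fun e => h1 (subgroupOf_eq_top.1 e), fun Y hY => ?_⟩
    rcases h2 (Y.map K.subtype) (fun x hx => ⟨⟨x, h hx⟩, hY.le hx, rfl⟩) (map_subtype_le Y) with e | e
    · exact absurd (fun y hy => e ⟨y, hy, rfl⟩) hY.not_ge
    · refine eq_top_iff.2 fun x _ => ?_
      obtain ⟨y, hy, e⟩ := e x.2
      exact Subtype.ext e ▸ hy

def stb {G Ω : Type*} [Group G] (φ : G →* Perm Ω) (B : Set Ω) : Subgroup G where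
  carrier := {g | ∀ x, φ g x ∈ B ↔ x ∈ B}
  one_mem' x := by simp
  mul_mem' {a b} ha hb x := by rw [map_mul, Perm.mul_apply, ha, hb]
  inv_mem' {a} ha x := by rw [← ha, ← Perm.mul_apply, ← map_mul]; simp

theorem main {G Ω : Type*} [Group G] [Fintype Ω] [DecidableEq Ω] (φ : G →* Perm Ω) (α : Ω)
    (hodd : Odd (Fintype.card Ω)) (hA : alternatingGroup Ω ≤ φ.range) (htr : ∀ x, ∃ g, φ g α = x)
    {M H K : Subgroup G} (hM : IsCoatom M) (mem : ∀ g, g ∈ M ↔ φ g α = α) (hHM : H ≤ M)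
    (hmax : IsCoatom (H.subgroupOf M)) (hK : IsCoatom K) (hHK : H ≤ K) : IsCoatom (H.subgroupOf K) := by
  classical
  by_cases hKM : K = M
  · exact hKM ▸ hmax
  obtain ⟨h1, h2⟩ := (coat hHM).1 hmax
  have hH : ∀ g ∈ M, g ∈ K → g ∈ H := fun g a b => by
    rcases h2 (M ⊓ K) (le_inf hHM hHK) inf_le_left with e | e
    · exact e ⟨a, b⟩
    · exact absurd ((hM.le_iff.1 (e.trans inf_le_right)).resolve_left hK.1) hKM
  have nKM : ¬ K ≤ M := fun e => hKM ((hK.le_iff.1 e).resolve_left hM.1).symm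
  refine (coat hHK).2 ⟨fun e => nKM (e.trans hHM), fun Y a b => ?_⟩
  refine or_iff_not_imp_left.2 fun hY => ?_
  obtain ⟨y, hy, hy'⟩ := SetLike.not_le_iff_exists.1 hY
  have hyM : φ y α ≠ α := fun e => hy' (hH y ((mem y).2 e) (b hy))
  have two : ∀ {g h : G}, φ g α = φ h α → h⁻¹ * g ∈ M := fun {g h} e => by
    rw [mem, map_mul, Perm.mul_apply, e, ← Perm.mul_apply, ← map_mul]; simp
  have sw : ∀ x x' u v : Ω, x ≠ x' → u ≠ v → ∃ g, φ g = swap x x' * swap u v := fun x x' u v e e' =>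
    hA (by rw [Perm.mem_alternatingGroup, map_mul, Perm.sign_swap e, Perm.sign_swap e']; simp)
  by_cases hN : φ.ker ≤ K
  swap
  · have NM : φ.ker ≤ M := fun g hg => (mem g).2 (by rw [MonoidHom.mem_ker.1 hg]; rfl)
    have t1 : φ.ker ⊔ K = ⊤ := hK.2 _ (lt_of_le_of_ne le_sup_right fun e => hN (e ▸ le_sup_left))
    have t2 : M ≤ φ.ker ⊔ Y := fun m hm => by
      obtain ⟨c, hc, k, hk, rfl⟩ := mem_sup_of_normal_left.1 (t1 ▸ mem_top m : m ∈ φ.ker ⊔ K)
      exact mul_mem (mem_sup_left hc) (mem_sup_right (a (hH k ((M.mul_mem_cancel_left (NM hc)).1 hm) hk)))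
    have t3 : φ.ker ⊔ Y = ⊤ := hM.2 _ (lt_of_le_of_ne t2 fun e => hyM ((mem y).1 (e ▸ mem_sup_right hy)))
    intro k hk
    obtain ⟨c, hc, z, hz, rfl⟩ := mem_sup_of_normal_left.1 (t3 ▸ mem_top k : k ∈ φ.ker ⊔ Y)
    exact mul_mem (a (hH c (NM hc) ((K.mul_mem_cancel_right (b hz)).1 hk))) hz
  have inK : ∀ {g k : G}, φ g = φ k → k ∈ K → g ∈ K := fun {g k} e hk => by
    have : g * k⁻¹ ∈ φ.ker := by rw [MonoidHom.mem_ker, map_mul, map_inv, e, mul_inv_cancel]
    simpa using mul_mem (hN this) hk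
  have inY : ∀ {k z : G}, k ∈ K → z ∈ Y → φ k α = φ z α → k ∈ Y := fun {k z} hk hz e => by
    simpa using mul_mem hz (a (hH _ (two e) (mul_mem (inv_mem (b hz)) hk)))
  intro k hk
  by_contra hkY
  let B : Set Ω := {x | ∃ z ∈ Y, φ z α = x}
  let D : Set Ω := {x | ∃ z ∈ K, φ z α = x}
  have aB : α ∈ B := ⟨1, one_mem _, by simp⟩
  have bB : φ y α ∈ B := ⟨y, hy, rfl⟩
  have cB : φ k α ∉ B := fun ⟨z, hz, e⟩ => hkY (inY hk hz e.symm)
  have ca : φ k α ≠ α := fun e => cB (e.symm ▸ aB)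
  have cb : φ y α ≠ φ k α := fun e => cB (e ▸ bB)
  by_cases hD : ∀ x, x ∈ D
  · have dis : ∀ x ∈ B, φ k x ∉ B := by
      rintro _ ⟨z, hz, rfl⟩ ⟨w, hw, e⟩
      rw [← Perm.mul_apply, ← map_mul] at e
      exact hkY (by simpa using mul_mem (inY (mul_mem hk (b hz)) hw e.symm) (inv_mem hz))
    have dB := dis _ bB
    have cd : φ k α ≠ φ k (φ y α) := fun e => hyM ((φ k).injective e).symm
    obtain ⟨z, z1, z2⟩ : ∃ z, z ∉ B ∧ z ∉ φ k '' B := by
      by_contra! h
      have e : B ∪ φ k '' B = Set.univ := Set.eq_univ_of_forall fun z => (em _).imp_right (h z)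
      have := congrArg Set.ncard e
      rw [Set.ncard_union_eq (Set.disjoint_left.2 (by rintro _ h1 ⟨x, hx, rfl⟩; exact dis x hx h1)),
        Set.ncard_image_of_injective _ (φ k).injective, Set.ncard_univ, Nat.card_eq_fintype_card] at this
      rw [← this] at hodd
      exact (Nat.not_even_iff_odd.2 hodd) ⟨_, rfl⟩
    have HL : H ≤ M ⊓ stb φ B := le_inf hHM fun g hg x => by
      constructor
      · rintro ⟨w, hw, e⟩
        exact ⟨g⁻¹ * w, mul_mem (inv_mem (a hg)) hw, by rw [map_mul, Perm.mul_apply, e, map_inv]; simp⟩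
      · rintro ⟨w, hw, rfl⟩
        exact ⟨g * w, mul_mem (a hg) hw, by rw [map_mul, Perm.mul_apply]⟩
    rcases h2 _ HL inf_le_left with e | e
    · have zc : φ k α ≠ z := fun e => z2 ⟨α, aB, e⟩
      have zd : φ k (φ y α) ≠ z := fun e => z2 ⟨_, bB, e⟩
      obtain ⟨g, hg⟩ := sw _ _ _ _ cd zd
      have fx : ∀ x ∈ B, φ g x = x := fun x hx => by
        rw [hg, Perm.mul_apply, swap_apply_of_ne_of_ne (ne_of_mem_of_not_mem hx dB) (ne_of_mem_of_not_mem hx z1),
          swap_apply_of_ne_of_ne (ne_of_mem_of_not_mem hx cB) (ne_of_mem_of_not_mem hx dB)]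
      have gK : g ∈ K := hHK (e ⟨(mem g).2 (fx α aB), fun x => ⟨fun hx => by
        rwa [(φ g).injective (fx _ hx)] at hx, fun hx => by rwa [fx x hx]⟩⟩)
      have e1 : φ (k⁻¹ * g * k) α = φ y α := by
        simp only [map_mul, map_inv, Perm.mul_apply, hg]
        rw [swap_apply_of_ne_of_ne cd zc, swap_apply_left]; simp
      have := inY (mul_mem (mul_mem (inv_mem hk) gK) hk) hy e1
      refine z2 ⟨φ (k⁻¹ * g * k * y) α, ⟨_, mul_mem this hy, rfl⟩, ?_⟩
      simp only [map_mul, map_inv, Perm.mul_apply, hg]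
      rw [swap_apply_left, swap_apply_of_ne_of_ne zc.symm zd.symm]; simp
    · obtain ⟨g, hg⟩ := sw _ _ _ _ cb cd
      have gM : g ∈ M := by
        rw [mem, hg, Perm.mul_apply, swap_apply_of_ne_of_ne ca.symm (ne_of_mem_of_not_mem aB dB),
          swap_apply_of_ne_of_ne hyM.symm ca.symm]
      have := ((e gM).2 (φ y α)).2 bB
      rw [hg, Perm.mul_apply, swap_apply_of_ne_of_ne cb (ne_of_mem_of_not_mem bB dB), swap_apply_left] at this
      exact cB this
  · push Not at hD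
    obtain ⟨w, hw⟩ := hD
    have aD : α ∈ D := ⟨1, one_mem _, by simp⟩
    have bD : φ y α ∈ D := ⟨y, b hy, rfl⟩
    have cD : φ k α ∈ D := ⟨k, hk, rfl⟩
    have KD : K ≤ stb φ D := fun g hg x => by
      constructor
      · rintro ⟨w, hw, e⟩
        exact ⟨g⁻¹ * w, mul_mem (inv_mem hg) hw, by rw [map_mul, Perm.mul_apply, e, map_inv]; simp⟩
      · rintro ⟨w, hw, rfl⟩
        exact ⟨g * w, mul_mem hg hw, by rw [map_mul, Perm.mul_apply]⟩
    have eK : stb φ D = K := (hK.le_iff.1 KD).resolve_left fun e => by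
      obtain ⟨g, rfl⟩ := htr w
      exact hw (((e ▸ mem_top g : g ∈ stb φ D) α).2 aD)
    obtain ⟨u, v, uv, ua, ub, va, vb, e⟩ : ∃ u v, u ≠ v ∧ u ≠ α ∧ u ≠ φ y α ∧ v ≠ α ∧ v ≠ φ y α ∧ (u ∈ D ↔ v ∈ D) := by
      have wa : w ≠ α := fun e => hw (e ▸ aD)
      have wb : w ≠ φ y α := fun e => hw (e ▸ bD)
      have wc : w ≠ φ k α := fun e => hw (e ▸ cD)
      obtain ⟨t, ht⟩ : ∃ t, t ∉ ({α, φ y α, φ k α, w} : Finset Ω) := by
        by_contra! h
        have := congrArg Finset.card (Finset.eq_univ_of_forall h)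
        rw [Finset.card_insert_of_notMem (by simp [hyM.symm, ca.symm, wa.symm]),
          Finset.card_insert_of_notMem (by simp [cb, wb.symm]), Finset.card_pair wc.symm, Finset.card_univ] at this
        rw [← this] at hodd
        exact absurd hodd (by decide)
      simp only [Finset.mem_insert, Finset.mem_singleton, not_or] at ht
      by_cases td : t ∈ D
      · exact ⟨t, φ k α, ht.2.2.1, ht.1, ht.2.1, ca, cb.symm, by simp [td, cD]⟩
      · exact ⟨t, w, ht.2.2.2, ht.1, ht.2.1, wa, wb, by simp [td, hw]⟩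
    obtain ⟨g, hg⟩ := sw _ _ _ _ cb uv
    have sD : ∀ {u v : Ω}, (u ∈ D ↔ v ∈ D) → ∀ x, swap u v x ∈ D ↔ x ∈ D := fun {u v} e x => by
      rw [swap_apply_def]; split_ifs with p q
      · rw [p, e]
      · rw [q, e]
      · rfl
    have gK : g ∈ K := eK ▸ fun x => by rw [hg, Perm.mul_apply, sD (by simp [bD, cD]), sD e]
    have gM : g ∈ M := by
      rw [mem, hg, Perm.mul_apply, swap_apply_of_ne_of_ne ua.symm va.symm, swap_apply_of_ne_of_ne hyM.symm ca.symm]
    refine cB ⟨g * y, mul_mem (a (hH g gM gK)) hy, ?_⟩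
    rw [map_mul, Perm.mul_apply, hg, Perm.mul_apply, swap_apply_of_ne_of_ne ub.symm vb.symm, swap_apply_left]

/-- Let n be an odd positive integer such that every primitive permutation group of degree n contains the alternating group (so the symmetric and alternating groups are the only primitive groups of degree n). Let G be a finite group, M a maximal subgroup of G of index n, and H a maximal subgroup of M. Then H is a second maximal subgroup of G: H is maximal in every maximal subgroup K of G containing H. -/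
theorem result {G : Type*} [Group G]
    [Finite G] (n : ℕ) (hodd : Odd n)
    (hA : ∀ P : Subgroup (Equiv.Perm (Fin n)), MulAction.IsPreprimitive P (Fin n) → alternatingGroup (Fin n) ≤ P)
    (M : Subgroup G) (hM : IsCoatom M) (hn : M.index = n) (H : Subgroup G) (hHM : H ≤ M)
    (hmax : IsCoatom (H.subgroupOf M)) (K : Subgroup G) (hK : IsCoatom K) (hHK : H ≤ K) :
    IsCoatom (H.subgroupOf K) := by
  classical
  have e : (G ⧸ M) ≃ Fin n := Finite.equivFinOfCardEq hn
  let φ : G →* Perm (Fin n) := e.permCongrHom.toMonoidHom.comp (toPermHom G (G ⧸ M))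
  have ap : ∀ g x, φ g (e x) = e (g • x) := fun g x => by simp [φ]
  have nt : Nontrivial (G ⧸ M) := by
    rw [← Finite.one_lt_card_iff_nontrivial]
    have := M.index_ne_zero_of_finite
    have := M.index_eq_one.not.2 hM.1
    change 1 < M.index; omega
  have pr : IsPreprimitive G (G ⧸ M) :=
    (isCoatom_stabilizer_iff_preprimitive G ((1 : G) : G ⧸ M)).1 (by rwa [stabilizer_quotient])
  let f : (G ⧸ M) →ₑ[φ.rangeRestrict] Fin n := ⟨e, fun g x => (ap g x).symm⟩
  refine main φ (e ((1 : G) : G ⧸ M)) (by simpa using hodd) (hA _ (IsPreprimitive.of_surjective (f := f) e.surjective))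
    (fun x => ?_) hM (fun g => ?_) hHM hmax hK hHK
  · obtain ⟨g, hg⟩ := exists_smul_eq G ((1 : G) : G ⧸ M) (e.symm x)
    exact ⟨g, by rw [ap, hg]; simp⟩
  · rw [ap, e.injective.eq_iff, ← mem_stabilizer_iff, stabilizer_quotient]

end Cfsg.Agent.S5885
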