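import Cfsg.Statements.S5886
import Cfsg.Agent.H29.ExtL

set_option autoImplicit false
open Cfsg

namespace Cfsg.Agent.S5886

open H11 H29 Matrix Module Cfsg.Geo

/-- Let F be a finite field, n a positive integer and r a prime that divides n with r < n. Let K be a subalgebra of the algebra of n × n matrices over F which is a field of degree r over F (commutative, every non-zero element invertible, of dimension r over F; it contains the scalars). Then the normaliser N of K in GL_n(F) — the invertible F-linear maps that are semilinear over the field K, a group of type ΓL_{n/r}(F_{q^r}) for |F| = q — is a maximal subgroup of GL_n(F), and N ∩ SL_n(F) is a maximal subgroup of SL_n(F). No lower bound on n is assumed. -/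
theorem result {F : Type*} [Field F]
    [Fintype F] (n r : ℕ) (hr : r.Prime) (hrn : r ∣ n) (hlt : r < n) (K : Subalgebra F (Matrix (Fin n) (Fin n) F))
    (hK : Cfsg.Geo.IsFieldSubalgebra r K) :
    IsCoatom (Cfsg.Geo.subalgebraNormalizer K) ∧
      Cfsg.Geo.IsMaximalIn (Cfsg.Geo.specialLinear (Fin n) F)
        (Cfsg.Geo.subalgebraNormalizer K ⊓ Cfsg.Geo.specialLinear (Fin n) F) := by
  obtain ⟨m, rfl⟩ := hrn
  have hm : 2 ≤ m := by
    by_contra! h
    interval_cases m <;> omega
  have h4 : 4 ≤ r * m := Nat.mul_le_mul hr.two_le hm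
  have hb := big_SL (F := F) (ι := Fin (r * m)) (by simp; omega)
  haveI := hb.nonempty
  haveI : Nontrivial (Fin (r * m)) := Fin.nontrivial_iff_two_le.2 (by omega)
  have h1 := hb.not_field hK hr.one_lt
  letI := (isField_of hK).toField
  haveI : Finite K := Subtype.finite
  haveI : FiniteDimensional K (Fin (r * m) → F) := Module.Finite.of_restrictScalars_finite F K _
  have h2 := Module.finrank_mul_finrank F K (Fin (r * m) → F)
  rw [hK.finrank_eq, finrank_fintype_fun_eq_card, Fintype.card_fin,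
    Nat.mul_left_cancel_iff hr.pos] at h2
  have hr' : (finrank F K).Prime := by rwa [← hK.finrank_eq] at hr
  have hn := exists_notMem_line (K := K) (V := Fin (r * m) → F) (by omega)
  have h3 : ∀ (χ : Dual K (Fin (r * m) → F)) v, 1 + χ v ≠ 0 → ∃ g ∈ subalgebraNormalizer K,
      g.1.det = Algebra.norm F (1 + χ v) ∧ ∀ x, glEquiv g x = x + χ x • v := fun χ v h => by
    let g := (LinearEquiv.dilatransvection (Ne.isUnit h)).restrictScalars F
    refine ⟨glEquiv.symm g, mem_nml_of_comm fun k x => ?_, ?_, fun x => ?_⟩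
    · rw [glEquiv_symm_mulVec, glEquiv_symm_mulVec]
      exact map_smul (LinearEquiv.dilatransvection (Ne.isUnit h)) k x
    · rw [← LinearMap.transvection.det, ← LinearMap.det_restrictScalars, ← LinearMap.det_toLin',
        ← glEquiv_coe, MulEquiv.apply_symm_apply]
      rfl
    · rw [MulEquiv.apply_symm_apply]
      rfl
  have key : ∀ L, subalgebraNormalizer K ⊓ specialLinear _ F ≤ L →
      specialLinear _ F ≤ L ∨ L ≤ subalgebraNormalizer K := fun L hL => by
    have hT : ∀ (χ : Dual K (Fin (r * m) → F)) u, χ u = 0 →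
        ∃ g ∈ L.map glEquiv.toMonoidHom, ∀ x, g x = x + χ x • u := fun χ u h => by
      obtain ⟨g, h5, h6, h7⟩ := h3 χ u (by simp [h])
      exact ⟨_, ⟨g, hL ⟨h5, mem_specialLinear.2 (by simp [h6, h])⟩, rfl⟩, h7⟩
    have hD : ∀ (χ : Dual K (Fin (r * m) → F)) v (l : K), χ v = 1 → l ≠ 0 →
        ∃ g ∈ L.map glEquiv.toMonoidHom,
          ∀ x, g x = x + ((l ^ (Fintype.card F - 1) - 1) * χ x) • v := fun χ v l h hl => by
      obtain ⟨g, h5, h6, h7⟩ := h3 ((l ^ (Fintype.card F - 1) - 1) • χ) v (by simp [h, hl])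
      refine ⟨_, ⟨g, hL ⟨h5, mem_specialLinear.2 ?_⟩, rfl⟩, h7⟩
      rw [h6, LinearMap.smul_apply, h, smul_eq_mul, mul_one, add_sub_cancel, map_pow]
      exact FiniteField.pow_card_sub_one_eq_one _ (Algebra.norm_ne_zero_iff.2 hl)
    by_cases h : Pres K (L.map glEquiv.toMonoidHom)
    · exact .inr (le_nml fun g hg => h.semi hn ⟨g, hg, rfl⟩)
    · exact .inl (sl_le_of_lfull L (lfull_of_nt hr'.one_lt hn hT hD
        (nt_of_not_pres hr' hT hD h)))
  refine ⟨⟨fun e => h1 (e ▸ le_top), fun L hL => eq_top_iff.2 fun g _ => ?_⟩,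
    isMaximalIn_SL _ (SetLike.not_le_iff_exists.1 h1) fun L hL _ => key L hL⟩
  have h5 := (key L (inf_le_left.trans hL.le)).resolve_right hL.not_ge
  obtain ⟨l, hl⟩ := FiniteField.norm_surjective F K g.1.det
  obtain ⟨v, hv⟩ := exists_ne (0 : Fin (r * m) → F)
  obtain ⟨χ, -, hχ⟩ := exists_dual_of_notMem (⊥ : Submodule K _) (u := v) (by simpa) (l - 1)
  have h6 : g.1.det ≠ 0 := (GeneralLinearGroup.det g).ne_zero
  obtain ⟨k, h7, h8, -⟩ := h3 χ v (by
    rw [hχ, add_sub_cancel]; rintro rfl; exact h6 (hl ▸ Algebra.norm_zero))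
  rw [hχ, add_sub_cancel, hl] at h8
  simpa using L.mul_mem (h5 (x := g * k⁻¹) (mem_specialLinear.2 (by simp [h8, h6]))) (hL.le h7)

end Cfsg.Agent.S5886
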