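import Cfsg.Statements.S5887

set_option autoImplicit false
open Cfsg

namespace Cfsg.Agent.S5887

open Matrix Cfsg.Geo

theorem exists_tv {F : Type*} [Field F] [Fintype F] {n : ℕ} (hn : 0 < n) {K E : Subalgebra F (Matrix (Fin n) (Fin n) F)}
    (hEK : E ≤ K) (hc : ∀ x ∈ E, ∀ y ∈ E, x * y = y * x) (hE : ∀ x ∈ E, x ≠ 0 → ∃ y ∈ E, x * y = 1)
    (hK : ∀ x ∈ K, x ≠ 0 → ∃ y ∈ K, x * y = 1) {k : Matrix (Fin n) (Fin n) F} (hk : k ∈ K) (hk' : k ∉ E)
    (hcard : Nat.card E * Nat.card E < Nat.card (Fin n → F)) :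
    ∃ g ∈ specialLinear (Fin n) F, g ∈ subalgebraNormalizer E ∧ g ∉ subalgebraNormalizer K := by
  have : Nonempty (Fin n) := ⟨⟨0, hn⟩⟩
  have hF : IsField E := ⟨exists_pair_ne E, fun a b => Subtype.ext (hc _ a.2 _ b.2), fun {a} ha =>
    let ⟨y, hy, e⟩ := hE a a.2 fun e => ha (Subtype.ext e); ⟨⟨y, hy⟩, Subtype.ext e⟩⟩
  let _ := hF.toField
  let _ : Module E (Fin n → F) := Module.compHom _ ((toLinAlgEquiv' (R := F) (n := Fin n)).toRingHom.comp E.val.toRingHom)
  have sm : ∀ (e : E) (v : Fin n → F), e • v = e.1 *ᵥ v := fun _ _ => rfl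
  have inj : ∀ x ∈ K, ∀ v : Fin n → F, v ≠ 0 → x *ᵥ v = 0 → x = 0 := fun x hx v hv e => by_contra fun x0 => hv (by
    obtain ⟨y, -, hy⟩ := hK x hx x0
    rw [← one_mulVec v, ← mul_eq_one_comm.1 hy, ← mulVec_mulVec, e, mulVec_zero])
  obtain ⟨u, u0⟩ := exists_ne (0 : Fin n → F)
  obtain ⟨l, lu⟩ := Module.Projective.exists_dual_eq_one E u0
  obtain ⟨w, w0, w1, w2⟩ : ∃ w ≠ 0, l w = 0 ∧ l (k *ᵥ w) = 0 := by
    by_contra! h
    refine (Nat.card_le_card_of_injective (fun v => (l v, l (k *ᵥ v))) fun a b e => by_contra fun ne => ?_).not_gt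
      (by rwa [Nat.card_prod])
    obtain ⟨e1, e2⟩ := Prod.mk.inj e
    exact h (a - b) (sub_ne_zero.2 ne) (by rw [map_sub, e1, sub_self]) (by rw [mulVec_sub, map_sub, e2, sub_self])
  let T : (Fin n → F) →ₗ[F] (Fin n → F) :=
    { toFun := fun v => l v • w
      map_add' := fun a b => by rw [map_add, sm, sm, sm]; exact add_mulVec ..
      map_smul' := fun c v => by
        have : ∀ v : Fin n → F, c • v = algebraMap F E c • v := fun v => by
          rw [sm, Subalgebra.coe_algebraMap, Algebra.algebraMap_eq_smul_one, smul_mulVec, one_mulVec]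
        rw [RingHom.id_apply, this, this, map_smul, smul_assoc] }
  obtain ⟨M, hM⟩ : ∃ M : Matrix (Fin n) (Fin n) F, ∀ v, M *ᵥ v = l v • w :=
    ⟨LinearMap.toMatrix' T, fun v => by rw [← toLin'_apply, toLin'_toMatrix']; rfl⟩
  have MM : M * M = 0 := toLin'.injective (LinearMap.ext fun v => by
    rw [toLin'_apply, ← mulVec_mulVec, hM, hM, map_smul, w1, smul_zero, zero_smul, map_zero]; rfl)
  have Me : ∀ e ∈ E, M * e = e * M := fun e he => toLin'.injective (LinearMap.ext fun v => by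
    rw [toLin'_apply, toLin'_apply, ← mulVec_mulVec, ← mulVec_mulVec, hM, hM, ← sm ⟨e, he⟩, ← sm ⟨e, he⟩, map_smul,
      smul_assoc])
  let g : GL (Fin n) F := ⟨1 + M, 1 - M, by noncomm_ring [MM], by noncomm_ring [MM]⟩
  have g1 : (g : Matrix (Fin n) (Fin n) F) = 1 + M := rfl
  refine ⟨g, Units.ext ?_, ?_, fun h => ?_⟩
  · obtain ⟨p, hp⟩ := CharP.exists F
    have : Fact p.Prime := ⟨CharP.char_is_prime F p⟩
    change (1 + M).det = 1
    have : (1 + M).det ^ p = 1 := by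
      rw [← det_pow, add_pow_char_of_commute _ (Commute.one_left M), one_pow,
        pow_eq_zero_of_le (Fact.out : p.Prime).two_le (by rw [sq, MM]), add_zero, det_one]
    rw [← sub_eq_zero, ← pow_eq_zero_iff (Fact.out : p.Prime).ne_zero, sub_pow_char, this, one_pow, sub_self]
  · have c : ∀ e ∈ E, g.1 * e = e * g.1 := fun e he => by rw [g1, add_mul, mul_add, Me e he, one_mul, mul_one]
    refine fun x => ⟨fun hx => by rwa [c x hx, Units.mul_inv_cancel_right], fun hx => ?_⟩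
    have := c _ hx
    rw [Units.inv_mul_cancel_right, mul_assoc, Units.mul_right_inj] at this
    rwa [mul_assoc, this] at hx
  · have h1 := (h k).1 hk
    generalize hk1 : g.1 * k * (g⁻¹).1 = k' at h1
    rw [Units.mul_inv_eq_iff_eq_mul, g1, add_mul, mul_add, one_mul, mul_one] at hk1
    obtain rfl : k = k' := sub_eq_zero.1 (inj _ (sub_mem hk h1) w w0 (by
      rw [show k - k' = k' * M - M * k by rw [sub_eq_sub_iff_add_eq_add, hk1, add_comm], sub_mulVec, ← mulVec_mulVec,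
        ← mulVec_mulVec, hM, hM, w1, w2, zero_smul, mulVec_zero, sub_self]))
    refine hk' (sub_eq_zero.1 (inj _ (sub_mem hk (hEK (l (k *ᵥ u)).2)) w w0 ?_) ▸ (l (k *ᵥ u)).2)
    rw [sub_mulVec, ← sm, ← hM, mulVec_mulVec, add_left_cancel hk1, ← mulVec_mulVec, hM, lu, one_smul, sub_self]

/-- Let F be a finite field, n a positive integer and r a composite number (r > 1, not prime) that divides n with r < n. Let K be a subalgebra of the algebra of n × n matrices over F which is a field of degree r over F (commutative, every non-zero element invertible, of dimension r over F). Then the normaliser N of K in GL_n(F) (a group of type ΓL_{n/r}(F_{q^r})) is not a maximal subgroup of GL_n(F), and N ∩ SL_n(F) is not a maximal subgroup of SL_n(F): both lie properly inside the normaliser of an intermediate subfield of prime degree over F. -/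
theorem result {F : Type*} [Field F]
    [Fintype F] (n r : ℕ) (hr1 : 1 < r) (hrp : ¬ r.Prime) (hrn : r ∣ n) (hlt : r < n)
    (K : Subalgebra F (Matrix (Fin n) (Fin n) F)) (hK : Cfsg.Geo.IsFieldSubalgebra r K) :
    ¬ IsCoatom (Cfsg.Geo.subalgebraNormalizer K) ∧
      ¬ Cfsg.Geo.IsMaximalIn (Cfsg.Geo.specialLinear (Fin n) F)
        (Cfsg.Geo.subalgebraNormalizer K ⊓ Cfsg.Geo.specialLinear (Fin n) F) := by
  have : Nonempty (Fin n) := ⟨⟨0, by omega⟩⟩
  obtain ⟨p, hp⟩ := CharP.exists F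
  obtain ⟨f, pp, hf⟩ := FiniteField.card F p
  have : Fact p.Prime := ⟨pp⟩
  have q2 : 1 < Fintype.card F := Fintype.one_lt_card
  obtain ⟨s, hs, s1, s2⟩ := Nat.exists_dvd_of_not_prime2 hr1 hrp
  let L : Subalgebra F (Matrix (Fin n) (Fin n) F) :=
    { carrier := {x | x ∈ K ∧ x ^ Fintype.card F ^ s = x}
      mul_mem' := fun {a b} ha hb => ⟨mul_mem ha.1 hb.1, by
        rw [(show Commute a b from hK.comm a ha.1 b hb.1).mul_pow, ha.2, hb.2]⟩
      add_mem' := fun {a b} ha hb => ⟨add_mem ha.1 hb.1, by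
        have := add_pow_char_pow_of_commute p (f * s) (show Commute a b from hK.comm a ha.1 b hb.1)
        rw [pow_mul, ← hf, ha.2, hb.2] at this
        exact this⟩
      algebraMap_mem' := fun c => ⟨K.algebraMap_mem c, by rw [← map_pow, FiniteField.pow_card_pow]⟩ }
  have mL : ∀ x, x ∈ L ↔ x ∈ K ∧ x ^ Fintype.card F ^ s = x := fun _ => Iff.rfl
  have LK : L ≤ K := fun x h => h.1
  have iL : ∀ x ∈ L, x ≠ 0 → ∃ y ∈ L, x * y = 1 := fun x hx x0 => by
    obtain ⟨y, hy, e⟩ := hK.inv x hx.1 x0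
    refine ⟨y, ⟨hy, ?_⟩, e⟩
    have := (show Commute x y from hK.comm x hx.1 y hy).mul_pow (Fintype.card F ^ s)
    rw [e, one_pow, hx.2] at this
    rw [← one_mul (y ^ _), ← mul_eq_one_comm.1 e, mul_assoc, ← this, mul_one]
  have NL : subalgebraNormalizer K ≤ subalgebraNormalizer L := fun g hg x => by
    rw [mL, mL, ← hg x, Units.conj_pow, Units.mul_left_inj, Units.mul_right_inj]
  have hF : IsField K := ⟨exists_pair_ne K, fun a b => Subtype.ext (hK.comm _ a.2 _ b.2), fun {a} ha =>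
    let ⟨y, hy, e⟩ := hK.inv a a.2 fun e => ha (Subtype.ext e); ⟨⟨y, hy⟩, Subtype.ext e⟩⟩
  have cK : Nat.card K = Fintype.card F ^ r := by
    rw [Module.natCard_eq_pow_finrank (K := F), hK.finrank_eq, Nat.card_eq_fintype_card]
  obtain ⟨γ, hγ⟩ : ∃ γ : K, orderOf γ = Fintype.card F ^ r - 1 := by
    let _ := hF.toField
    obtain ⟨u, hu⟩ := IsCyclic.exists_ofOrder_eq_natCard (α := Kˣ)
    exact ⟨u, by rw [orderOf_units, hu, Nat.card_units, cK]⟩
  have lt : ∀ {a b}, a < b → Fintype.card F ^ a < Fintype.card F ^ b := Nat.pow_lt_pow_right q2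
  have nf : ∀ (x : K) {a b : ℕ}, 0 < b → b < a → orderOf x = Fintype.card F ^ a - 1 → x.1 ^ Fintype.card F ^ b ≠ x := by
    intro x a b b0 ab h e
    have h1 := lt ab
    have h2 := lt b0
    rw [pow_zero] at h2
    have e : x ^ (Fintype.card F ^ b - 1 + 1) = x ^ 1 := Subtype.ext (by rw [Nat.sub_add_cancel h2.le, pow_one]; exact e)
    have u : IsOfFinOrder x := orderOf_pos_iff.1 (by omega)
    rw [u.pow_eq_pow_iff_modEq, h] at e
    have := Nat.le_of_dvd (by omega) ((Nat.modEq_zero_iff_dvd).1 (Nat.ModEq.add_right_cancel' 1 e))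
    omega
  have γL : γ.1 ∉ L := fun h => nf γ (by omega) s2 hγ h.2
  obtain ⟨t, ht⟩ : Fintype.card F ^ s - 1 ∣ Fintype.card F ^ r - 1 := by
    obtain ⟨c, rfl⟩ := hs
    simpa only [one_pow, pow_mul] using Nat.sub_dvd_pow_sub_pow (Fintype.card F ^ s) 1 c
  have t0 : t ≠ 0 := by
    rintro rfl
    have := lt (by omega : 0 < r)
    rw [pow_zero] at this
    omega
  have oδ : orderOf (γ ^ t) = Fintype.card F ^ s - 1 := by
    rw [orderOf_pow_of_dvd t0 (by rw [hγ, ht]; exact dvd_mul_left ..), hγ, ht, Nat.mul_div_cancel _ (Nat.pos_of_ne_zero t0)]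
  have δL : (γ ^ t).1 ∈ L := ⟨(γ ^ t).2, by
    rw [← Nat.sub_add_cancel (lt (by omega : 0 < s)).le, pow_zero, ← oδ, pow_succ, ← SubmonoidClass.coe_pow,
      pow_orderOf_eq_one, OneMemClass.coe_one, one_mul]⟩
  have δB : (γ ^ t).1 ∉ (⊥ : Subalgebra F (Matrix (Fin n) (Fin n) F)) := by
    rintro ⟨c, h⟩
    refine nf _ one_pos s1 oδ ?_
    rw [← h]
    exact (map_pow (algebraMap F _) c _).symm.trans (congrArg _ (FiniteField.pow_card_pow 1 c))
  have cd : ∀ E ≤ L, Nat.card E * Nat.card E < Nat.card (Fin n → F) := fun E hE => by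
    have h1 : Nat.card E < Nat.card K := Set.Finite.card_lt_card (Set.toFinite _) ⟨hE.trans LK, fun h => γL (hE (h γ.2))⟩
    obtain ⟨c, rfl⟩ := hrn
    refine (Nat.mul_lt_mul'' h1 h1).trans_le ?_
    rw [cK, ← pow_add, Nat.card_fun, Nat.card_eq_fintype_card, Nat.card_fin]
    exact Nat.pow_le_pow_right q2.le (by nlinarith [show 2 ≤ c by nlinarith])
  obtain ⟨g, g1, g2, g3⟩ := exists_tv (by omega) LK (fun x hx y hy => hK.comm x hx.1 y hy.1) iL hK.inv γ.2 γL (cd L le_rfl)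
  obtain ⟨h, h1, -, h3⟩ := exists_tv (by omega) (bot_le : ⊥ ≤ L) (fun x hx y hy => hK.comm x ((bot_le : ⊥ ≤ K) hx) y ((bot_le : ⊥ ≤ K) hy))
    (by
      rintro _ ⟨c, rfl⟩ h
      have c0 : c ≠ 0 := fun e => h (by rw [e, map_zero])
      exact ⟨_, ⟨c⁻¹, rfl⟩, by rw [← map_mul, mul_inv_cancel₀ c0, map_one]⟩) iL δL δB (cd ⊥ bot_le)
  refine ⟨fun hc => h3 ((hc.2 _ (lt_of_le_of_ne NL fun e => g3 (e ▸ g2))).ge (Subgroup.mem_top h)), fun hc => ?_⟩
  rcases hc.2 _ (inf_le_inf_right _ NL) inf_le_right with e | e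
  · exact g3 (e.le ⟨g2, g1⟩).1
  · exact h3 (e.ge h1).1

end Cfsg.Agent.S5887
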