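import Cfsg.Statements.S5890
import Cfsg.Agent.S5892

set_option autoImplicit false
open Cfsg

namespace Cfsg.Agent.S5890

open Subgroup Matrix H10 H22 MulAction
open scoped MatrixGroups

theorem dvd_of_pow {p a g : ℕ} (hp : 2 ≤ p) (ha : 0 < a) (h : p ^ (2 * a) - 1 ∣ 2 * (p ^ (2 * g) - 1)) : a ∣ g := by
  have h1 := Nat.dvd_gcd (dvd_mul_left (p ^ (2 * a) - 1) 2) h
  rw [Nat.gcd_mul_left, Nat.pow_sub_one_gcd_pow_sub_one, Nat.gcd_mul_left] at h1
  by_contra hn
  obtain ⟨c, hc⟩ := Nat.gcd_dvd_left a g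
  have he := Nat.gcd_pos_of_pos_left g ha
  have c2 : 2 ≤ c := by
    rcases c with _ | _ | c
    · omega
    · exact absurd ((hc.trans (mul_one _)).dvd.trans (Nat.gcd_dvd_right a g)) hn
    · omega
  have h2 : p ^ (2 * a.gcd g) ≤ p ^ a := Nat.pow_le_pow_right (by omega) (by nlinarith)
  have h3 := Nat.one_lt_pow (n := 2 * a.gcd g) (by omega) hp
  have h4 := Nat.le_of_dvd (by omega) h1
  rw [mul_comm 2 a, pow_mul] at h4
  generalize p ^ a = u at h2 h4
  have : u ^ 2 + 1 ≤ 2 * u := by omega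
  nlinarith

theorem not_A4_dih {k : ℕ} (f : alternatingGroup (Fin 4) →* DihedralGroup k) : ¬ Function.Injective f := fun hf => by
  have h1 : ∀ a : DihedralGroup k, ∃ i, a * a = DihedralGroup.r i := by
    rintro (i | i)
    · exact ⟨_, rfl⟩
    · exact ⟨_, rfl⟩
  have h2 : ∀ g, ∃ i, f g = DihedralGroup.r i := fun g => by
    obtain ⟨a, b, rfl⟩ := A4_sq g
    obtain ⟨i, hi⟩ := h1 (f a)
    obtain ⟨j, hj⟩ := h1 (f b)
    exact ⟨_, by rw [map_mul, map_mul, map_mul, hi, hj, DihedralGroup.r_mul_r]⟩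
  have : ∀ a b : alternatingGroup (Fin 4), a * b = b * a := fun a b => hf (by
    obtain ⟨i, hi⟩ := h2 a
    obtain ⟨j, hj⟩ := h2 b
    rw [map_mul, map_mul, hi, hj, DihedralGroup.r_mul_r, DihedralGroup.r_mul_r, add_comm])
  revert this
  decide +kernel

/-- Let F be a finite field with q ≥ 4 elements, let L ≤ PGL₂(F) be the image of SL₂(F) (a copy of PSL₂(F), of index gcd(2, q − 1)), and let M be a maximal subgroup of PGL₂(F) that does not contain L. Suppose q ∉ {7, 9, 11} and that q is not a prime congruent to ±11 or ±19 modulo 40. Then M ∩ L is a maximal subgroup of L. (For the excluded q there are maximal subgroups of PGL₂(q) — dihedral groups of order 12 and 16 at q = 7, of order 20 and 16 at q = 9, of order 20 at q = 11, and S₄ at the excluded primes — whose intersection with L is not maximal in L.) -/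
theorem result {F : Type*} [Field F]
    [Fintype F] (h4 : 4 ≤ Fintype.card F) (h7 : Fintype.card F ≠ 7) (h9 : Fintype.card F ≠ 9) (h11 : Fintype.card F ≠ 11)
    (h40 : (Fintype.card F).Prime → Fintype.card F % 40 ∉ ({11, 19, 21, 29} : Finset ℕ))
    (M : Subgroup (Matrix.ProjGenLinGroup (Fin 2) F)) (hM : IsCoatom M)
    (hML : ¬ (Matrix.ProjGenLinGroup.mk.comp Matrix.SpecialLinearGroup.toGL).range ≤ M) :
    IsCoatom ((M ⊓ (Matrix.ProjGenLinGroup.mk.comp Matrix.SpecialLinearGroup.toGL).range).subgroupOf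
      (Matrix.ProjGenLinGroup.mk.comp Matrix.SpecialLinearGroup.toGL).range) := by
  classical
  change ¬ (SpecialLinearGroup.toPGL : SL(2, F) →* PGL(2, F)).range ≤ M at hML
  change IsCoatom ((M ⊓ (SpecialLinearGroup.toPGL : SL(2, F) →* PGL(2, F)).range).subgroupOf
    (SpecialLinearGroup.toPGL : SL(2, F) →* PGL(2, F)).range)
  rw [← PSL2_eq_range] at hML ⊢
  rw [coatom_iff_cov (PSL2 F).subtype_injective, subgroupOf_map_subtype, range_subtype, inf_assoc, inf_idem]
  rcases Nat.even_or_odd (Fintype.card F) with he | ho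
  · rw [L_eq_top he, inf_top_eq]; exact covBy_top_iff.2 hM
  have hA : (M.comap (ι F)).map (ι F) = M ⊓ PSL2 F := by rw [map_comap_eq, inf_comm]; rfl
  rw [← hA]
  refine (coatom_iff_cov ι_injective).1 ?_
  have hc : Nat.card (M.comap (ι F)) = Nat.card (M ⊓ PSL2 F : Subgroup _) := by
    rw [← hA, card_map_of_injective ι_injective]
  have hne : M.comap (ι F) ≠ ⊤ := fun e => hML (by rintro _ ⟨g, rfl⟩; exact (show g ∈ M.comap (ι F) from e ▸ mem_top g))
  have key : (∀ K, IsCoatom K → M.comap (ι F) ≤ K → Nat.card K ≤ Nat.card (M.comap (ι F))) → IsCoatom (M.comap (ι F)) :=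
    fun h => by
      obtain ⟨K, hK, hle⟩ := (eq_top_or_exists_le_coatom _).resolve_left hne
      rwa [eq_of_le_of_card_ge hle (h K hK hle)]
  obtain ⟨p, hp⟩ := CharP.exists F
  have : Fact p.Prime := ⟨CharP.char_is_prime F p⟩
  obtain ⟨f, hpp, hf⟩ := FiniteField.card F p
  have h2 := two_ne_of_odd ho
  have ho' := Nat.odd_iff.1 ho
  have h5 : 5 ≤ Fintype.card F := by omega
  have hs := ProjectiveSpecialLinearGroup.rank_two_simple (F := F) (by rwa [Nat.card_eq_fintype_card])
  rcases pgl_struct ho h4 hM hML with ⟨x, rfl⟩ | ⟨x, y, n, h1, h3, rfl⟩ | ⟨h1, h3, ⟨e⟩⟩ | ⟨R, r, t, h1, h3, h6, h8⟩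
  · refine key fun K hK hle => ?_
    have a1 := index_stabilizer_PSL2 x
    have a2 : Fintype.card F + 1 ≤ K.index := by
      by_cases q5 : Fintype.card F = 5
      · have a3 := two_mul_card_dvd_factorial_index not_comm_PSL2 hK.1
        have a4 := index_dvd_of_le hle
        rw [card_PSL2_of 60 q5 (by norm_num)] at a3
        rw [a1, Nat.card_eq_fintype_card, q5] at a4
        have := Nat.le_of_dvd (by norm_num) a4
        rw [q5]
        generalize K.index = i at a3 a4 this ⊢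
        interval_cases i <;> first | omega | exact absurd a3 (by decide)
      · exact le_index_of_ne_top hK.1 (by omega) (by omega) q5 h7 h9 h11
    have a3 := K.index_mul_card
    rw [← ((stabilizer PGL(2, F) x).comap (ι F)).index_mul_card, a1, Nat.card_eq_fintype_card (α := F)] at a3
    exact Nat.le_of_mul_le_mul_left ((Nat.mul_le_mul_right _ a2).trans a3.le) (Nat.add_one_pos _)
  · obtain ⟨a1, t, a2, a3, a4⟩ := h1.odd ho h4 (h3.imp_left And.left)
    obtain ⟨e⟩ := h1.dih a2 a3 a4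
    generalize Nat.card (TorSt x y ⊓ PSL2 F : Subgroup _) = k at a1 e
    have e' := (((PairSt x y).comap (ι F)).equivMapOfInjective _ ι_injective).trans ((MulEquiv.subgroupCongr hA).trans e)
    have g2 : Nat.gcd 2 (Fintype.card F - 1) = 2 := Nat.gcd_eq_left (by omega)
    refine isCoatom_dihedral (e'.symm (DihedralGroup.r 1)).2 (by
      rw [orderOf_coe, MulEquiv.orderOf_eq, DihedralGroup.orderOf_r_one]) (fun z => ?_) e' (by rw [g2]; omega)
    by_contra hn
    push Not at hn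
    have a5 : Nat.card (PairSt x y ⊓ PSL2 F : Subgroup _) ∣ Nat.card (stabilizer PGL(2, F) z ⊓ PSL2 F : Subgroup _) :=
      card_dvd_of_le (le_inf (by rintro _ ⟨hg, g, rfl⟩; exact hn g hg) inf_le_right)
    rw [Nat.card_congr e.toEquiv, DihedralGroup.nat_card, a1, ← Nat.mul_dvd_mul_iff_left two_pos, card_stab_L ho] at a5
    rcases h3 with ⟨rfl, -⟩ | rfl
    · have := Nat.dvd_of_mul_dvd_mul_right (by omega) a5
      omega
    · obtain ⟨m, hm⟩ : ∃ m, Fintype.card F = m + 2 := ⟨Fintype.card F - 2, by omega⟩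
      have a6 := (dvd_mul_left _ 2).trans a5
      rw [hm, show (m + 2) * (m + 2 - 1) = (m + 2 + 1) * m + 2 by rw [show m + 2 - 1 = m + 1 by omega]; ring,
        Nat.dvd_add_right (dvd_mul_right _ _)] at a6
      have := Nat.le_of_dvd two_pos a6
      omega
  · refine key fun K hK hle => ?_
    let g := M.subtype.comp (e.symm.toMonoidHom.comp (alternatingGroup (Fin 4)).subtype)
    have hg : Function.Injective g := M.subtype_injective.comp (e.symm.injective.comp (subtype_injective _))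
    obtain ⟨g', hg'⟩ := exists_lift_PSL g (le_L_A4 (MonoidHom.ofInjective hg).symm)
    have hi : Function.Injective g' := fun a b h => hg (by rw [← hg', ← hg', h])
    have a1 : g'.range ≤ M.comap (ι F) := by rintro _ ⟨a, rfl⟩; rw [mem_comap, hg']; exact (e.symm a).2
    have a2 : Nat.card g'.range = 12 := by rw [← Nat.card_congr (MonoidHom.ofInjective hi).toEquiv, card_alt_four]
    have a3 := a2 ▸ card_dvd_of_le (a1.trans hle)
    have a4 := a2 ▸ card_le_of_le a1
    have a5 : ∀ k, ¬ Nonempty (K ≃* DihedralGroup k) := fun k ⟨e'⟩ =>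
      not_A4_dih (e'.toMonoidHom.comp (g'.codRestrict K fun a => (a1.trans hle) ⟨a, rfl⟩))
        (e'.injective.comp fun a b h => hi (congrArg Subtype.val h))
    have a6 := h40 h1
    simp only [Finset.mem_insert, Finset.mem_singleton] at a6
    rcases S5892.result p ho h5 K hK with h | ⟨-, k, -, h⟩ | ⟨-, -, k, -, h⟩ | ⟨F₀, _, _, h, -⟩ | ⟨F₀, _, _, r, h, -, h', -⟩ |
      ⟨h, -⟩ | ⟨-, -, -, ⟨e'⟩⟩ | ⟨h, h', -⟩
    · have : 8 ∣ Fintype.card F * (Fintype.card F - 1) := by omega
      have := (Nat.Coprime.pow_left 3 (Nat.coprime_two_left.2 ho)).dvd_of_dvd_mul_left this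
      omega
    · exact absurd h (a5 k)
    · exact absurd h (a5 k)
    · exact absurd (h ▸ h1).eq_one_of_pow (by norm_num)
    · exact absurd (h' ▸ h1).eq_one_of_pow h.one_lt.ne'
    · omega
    · rwa [Nat.card_congr e'.toEquiv, card_alt_four]
    · omega
  refine key fun K hK hle => ?_
  have := Fintype.ofFinite R
  rw [Nat.card_eq_fintype_card] at h6
  have hpow : ∀ s n : ℕ, n ≠ 0 → Fintype.card F = s ^ n → ∃ a, s = p ^ a ∧ a * n = f := fun s n hn h => by
    obtain ⟨a, -, rfl⟩ := (Nat.dvd_prime_pow hpp).1 (show s ∣ p ^ (f : ℕ) by rw [← hf, h]; exact dvd_pow_self s hn)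
    exact ⟨a, rfl, Nat.pow_right_injective hpp.two_le (by rw [hf, ← pow_mul] at h; exact h.symm)⟩
  obtain ⟨a, ha, har⟩ := hpow _ r h1.ne_zero h6
  have r3 : 3 ≤ r := by have := h1.two_le; have := Nat.odd_iff.1 h3; omega
  have a0 : 0 < a := Nat.pos_of_ne_zero (by rintro rfl; have := f.pos; omega)
  have f3 : 3 ≤ (f : ℕ) := by nlinarith
  have hodd : ∀ (K : Type _) [Field K] [Fintype K] (n : ℕ), n ≠ 0 → Fintype.card F = Fintype.card K ^ n →
      2 * Nat.card PSL(2, K) = Fintype.card K * (Fintype.card K - 1) * (Fintype.card K + 1) := fun K _ _ n hn h => by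
    rw [h, Nat.odd_pow_iff hn] at ho
    rw [Nat.card_congr (PSL2Equiv K).toEquiv, card_L_odd ho]
  have b1 : 2 * Nat.card (M.comap (ι F)) = Fintype.card R * (Fintype.card R - 1) * (Fintype.card R + 1) := by
    rw [hc, ← card_cj t, cj, map_inf _ _ _ (MulAut.conj t).injective, show Subgroup.map _ M = _ from h8,
      show Subgroup.map _ (PSL2 F) = _ from cj_normal t _, Sub_inf_L h2 (h6.trans (by rw [Nat.card_eq_fintype_card])) h3,
      Nat.card_congr (equiv_SubL R).some.toEquiv]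
    rw [h6, Nat.odd_pow_iff h1.ne_zero] at ho
    rw [Nat.card_congr (PSL2Equiv R).toEquiv, card_L_odd ho]
  have b2 := b1 ▸ Nat.mul_dvd_mul_left 2 (card_dvd_of_le hle)
  have p2 : p ≠ 2 := char_ne_two_of_two_ne_zero h2 p
  have pq : p ∣ Fintype.card F := hf ▸ dvd_pow_self p f.ne_zero
  have b3 : p ∣ Nat.card K := ((Nat.coprime_primes hpp Nat.prime_two).2 p2).dvd_of_dvd_mul_left
    ((((ha ▸ dvd_pow_self p a0.ne').mul_right _).mul_right _).trans b2)
  have b4 : ∀ s n : ℕ, n.Prime → Fintype.card F = s ^ n → 2 * Nat.card K ∣ 2 * (s * (s - 1) * (s + 1)) →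
      s = Fintype.card R ∧ n = r := fun s n hn h h' => by
    obtain ⟨g, rfl, hg⟩ := hpow s n hn.ne_zero h
    have sq : ∀ u : ℕ, p ^ u * (p ^ u - 1) * (p ^ u + 1) = p ^ u * (p ^ (2 * u) - 1) := fun u => by
      rw [mul_assoc, mul_comm (p ^ u - 1), ← Nat.sq_sub_sq, one_pow, ← pow_mul, mul_comm u]
    have c1 := b2.trans h'
    rw [ha, sq, sq, mul_left_comm] at c1
    obtain ⟨c, rfl⟩ := dvd_of_pow hpp.two_le a0 (Nat.Coprime.dvd_of_dvd_mul_left (Nat.Coprime.pow_right _ (
      ((Nat.Prime.coprime_iff_not_dvd hpp).2 fun h => hpp.not_dvd_one ((Nat.dvd_sub_iff_right (Nat.one_le_pow _ _ hpp.pos)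
        (dvd_pow_self p (by omega))).1 h)).symm)) ((dvd_mul_left _ _).trans c1))
    rw [← har, mul_assoc] at hg
    have c2 := Nat.eq_of_mul_eq_mul_left a0 hg
    have c3 := (Nat.prime_dvd_prime_iff_eq hn h1).1 ⟨c, by rw [← c2, mul_comm]⟩
    rw [c3] at c2
    rw [Nat.eq_of_mul_eq_mul_right h1.pos (c2.trans (one_mul r).symm), mul_one]
    exact ⟨ha.symm, c3⟩
  have b5 : Fintype.card F ≠ p ∧ Fintype.card F ≠ p ^ 2 := by
    have := Nat.pow_lt_pow_right hpp.one_lt (show 2 < (f : ℕ) from f3)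
    have := Nat.pow_lt_pow_right hpp.one_lt (show 1 < 2 by norm_num)
    rw [pow_one] at this
    omega
  rcases S5892.result p ho h5 K hK with h | ⟨-, k, h, ⟨e⟩⟩ | ⟨-, -, k, h, ⟨e⟩⟩ | ⟨F₀, _, _, h, ⟨e⟩⟩ |
    ⟨F₀, _, _, r', h, -, h', ⟨e⟩⟩ | ⟨-, h | h, -⟩ | ⟨h, -⟩ | ⟨h, -⟩
  · have c1 := (dvd_mul_left _ _).trans (h ▸ b2)
    have c2 := h3.nat_add_dvd_pow_add_pow (Fintype.card R) 1
    obtain ⟨m, hm⟩ : ∃ m, Fintype.card F = m + 2 := ⟨Fintype.card F - 2, by omega⟩
    rw [one_pow, ← h6, hm] at c2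
    rw [hm, show (m + 2) * (m + 2 - 1) = (m + 2 + 1) * m + 2 by rw [show m + 2 - 1 = m + 1 by omega]; ring,
      Nat.dvd_add_right (c2.mul_right _)] at c1
    have := Nat.le_of_dvd two_pos c1
    have := Fintype.one_lt_card (α := R)
    omega
  · rw [Nat.card_congr e.toEquiv, DihedralGroup.nat_card, h] at b3
    exact absurd ((Nat.dvd_sub_iff_right (by omega) pq).1 b3) hpp.not_dvd_one
  · rw [Nat.card_congr e.toEquiv, DihedralGroup.nat_card, h] at b3
    exact absurd ((Nat.dvd_add_right pq).1 b3) hpp.not_dvd_one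
  · have := (b4 _ 2 Nat.prime_two h (by rw [Nat.card_congr e.toEquiv, card_PGL2])).2
    omega
  · have c1 := hodd F₀ r' h.ne_zero h'
    rw [← Nat.card_congr e.toEquiv] at c1
    rw [(b4 _ r' h h' (by rw [c1]; exact dvd_mul_left _ _)).1, ← b1] at c1
    omega
  · exact absurd h b5.1
  · exact absurd h.1 b5.2
  · exact absurd h b5.1
  · exact absurd h b5.1

end Cfsg.Agent.S5890
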