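import Cfsg.Statements.S5893
import Cfsg.Agent.H22.PGLMax

set_option autoImplicit false
open Cfsg

namespace Cfsg.Agent.S5893

open Subgroup Matrix H10 H22
open scoped MatrixGroups

/-- Let F be a finite field of even order q ≥ 4 and let M be a maximal subgroup of PSL₂(F) (= SL₂(F) = PGL₂(F)). Then one of the following holds: |M| = q(q − 1) (the stabiliser of a point of the projective line, elementary abelian of order q extended by a cyclic group of order q − 1); M is dihedral of order 2(q − 1); M is dihedral of order 2(q + 1); or q = q₀^r for a prime r with q₀ ≠ 2 and M ≅ PSL₂(F₀) with |F₀| = q₀. -/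
theorem result {F : Type*} [Field F] [Fintype F]
    (heven : Even (Fintype.card F)) (h4 : 4 ≤ Fintype.card F) (M : Subgroup (Matrix.ProjectiveSpecialLinearGroup (Fin 2) F)) (hM : IsCoatom M) :
    Nat.card M = Fintype.card F * (Fintype.card F - 1) ∨
    Nonempty (M ≃* DihedralGroup (Fintype.card F - 1)) ∨
    Nonempty (M ≃* DihedralGroup (Fintype.card F + 1)) ∨
    (∃ (F₀ : Type) (_ : Field F₀) (_ : Fintype F₀) (r : ℕ), r.Prime ∧ Fintype.card F₀ ≠ 2 ∧
        Fintype.card F = Fintype.card F₀ ^ r ∧ Nonempty (M ≃* Matrix.ProjectiveSpecialLinearGroup (Fin 2) F₀)) := by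
  classical
  have h2 : ringChar F = 2 := FiniteField.even_card_iff_char_two.2 (Nat.even_iff.1 heven)
  have := ringChar.of_eq h2
  have h : M.map (ι F) ⋖ ⊤ := L_eq_top heven ▸ (coatom_iff_cov ι_injective).1 hM
  have e := M.equivMapOfInjective _ (ι_injective (K := F))
  rcases max_struct 2 h4 h le_top (fun hl => h.ne (top_le_iff.1 (L_eq_top heven ▸ hl))) with ⟨x, hx⟩ | ⟨x, y, n, h1, h3, h5⟩ |
    ⟨h1, ⟨⟨e'⟩⟩ | ⟨⟨e'⟩⟩⟩ | ⟨h1, ⟨e'⟩⟩ | ⟨h6, R, r, t, h1, h3, h5⟩
  · exact Or.inl (by rw [Nat.card_congr e.toEquiv, hx, inf_top_eq, card_stab])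
  · rw [h5, inf_top_eq] at e
    rcases h3 with rfl | rfl
    · exact Or.inr (Or.inl ⟨e.trans h1.dih_top.some⟩)
    · exact Or.inr (Or.inr (Or.inl ⟨e.trans h1.dih_top.some⟩))
  · rw [Nat.card_congr e'.toEquiv, card_alt_four] at h1; omega
  · rw [Nat.card_congr e'.toEquiv, card_perm_four] at h1; omega
  · rw [Nat.card_congr e'.toEquiv, card_alt_five] at h1; omega
  obtain ⟨F₀, _, _, a1, -, ⟨a2⟩⟩ := exists_type0 R
  have := Fintype.ofFinite R
  have e1 := (cjEquiv t (M.map (ι F))).trans ((MulEquiv.subgroupCongr (h5.trans (inf_top_eq _))).trans (equiv_Sub R).some)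
  have hR : PSL2 R = ⊤ := L_eq_top (by rw [h3, Nat.card_eq_fintype_card] at heven; exact (Nat.even_pow.1 heven).1)
  refine Or.inr (Or.inr (Or.inr ⟨F₀, _, _, r, h1, fun h7 => h6 ?_, a1 ▸ h3,
    ⟨e.trans (e1.trans ((topEquiv.symm.trans (MulEquiv.subgroupCongr hR.symm)).trans ((PSL2Equiv R).symm.trans a2)))⟩⟩))
  rw [Nat.card_congr e1.toEquiv, card_PGL2, ← Nat.card_eq_fintype_card, ← a1, h7]

end Cfsg.Agent.S5893
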