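import Cfsg.Statements.S5894
import Cfsg.Agent.H29.Sym2

set_option autoImplicit false
open Cfsg

namespace Cfsg.Agent.S5894

open Equiv Equiv.Perm H29 MulAction
open scoped Pointwise

noncomputable def stabEquiv {Ω : Type*} [Fintype Ω] [DecidableEq Ω] (x : Ω) :
    Perm {y : Ω // y ≠ x} ≃* stabilizer (Perm Ω) x := by
  let f : Perm {y : Ω // y ≠ x} →* stabilizer (Perm Ω) x :=
    (Perm.ofSubtype).codRestrict _ (fun g => Perm.ofSubtype_apply_of_not_mem g (by simp))
  have hf : Function.Injective f := fun a b h =>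
    Perm.ofSubtype_injective (congrArg Subtype.val h)
  have hc : Fintype.card {y : Ω // y ≠ x} = Fintype.card Ω - 1 := by simp
  have hb : Function.Bijective f := by
    rw [Nat.bijective_iff_injective_and_card]
    refine ⟨hf, ?_⟩
    rw [card_of_index (index_stab x), Nat.card_perm, Nat.card_eq_fintype_card, hc]
  exact MulEquiv.ofBijective f hb

theorem coe_stabEquiv {Ω : Type*} [Fintype Ω] [DecidableEq Ω] (x : Ω) (g : Perm {y : Ω // y ≠ x}) :
    (stabEquiv x g : Perm Ω) = Perm.ofSubtype g := rfl

theorem not_coatom {G : Type*} [Group G] {H L K : Subgroup G} (h1 : H < L) (h2 : L < K) :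
    ¬ IsCoatom (H.subgroupOf K) := fun h => by
  obtain ⟨x, hx, hx'⟩ := SetLike.exists_of_lt h1
  obtain ⟨y, hy, hy'⟩ := SetLike.exists_of_lt h2
  have h3 := h.2 (L.subgroupOf K) (lt_of_le_of_ne (fun g hg => h1.le hg) fun e => by
    have : (⟨x, h2.le hx⟩ : K) ∈ L.subgroupOf K := hx
    rw [← e] at this
    exact hx' this)
  have : (⟨y, hy⟩ : K) ∈ L.subgroupOf K := h3 ▸ Subgroup.mem_top _
  exact hy' this

/-- For every m ≥ 2 the symmetric group on 2m letters has a maximal subgroup M of index 2m together with a maximal subgroup H of M that is not second maximal: some maximal subgroup K of the symmetric group contains H without H being maximal in K. (One may take M the stabiliser of a letter, H ≅ S_m × S_{m−1} inside it, and K ≅ S_m ≀ S₂ the stabiliser of a partition into two m-sets, with H < S_m × S_m < K.) So the prime-index hypothesis in the second-maximality criterion cannot be relaxed to any even index ≥ 4. -/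
theorem result (m : ℕ) (hm : 2 ≤ m) :
    ∃ M H K : Subgroup (Equiv.Perm (Fin (2 * m))), IsCoatom M ∧ M.index = 2 * m ∧ H ≤ M ∧ IsCoatom (H.subgroupOf M) ∧
      IsCoatom K ∧ H ≤ K ∧ ¬ IsCoatom (H.subgroupOf K) := by
  let e : Fin (2 * m) ≃ Fin 2 × Fin m := finProdFinEquiv.symm
  let f : Fin (2 * m) → Fin 2 := fun x => (e x).1
  have he : ∀ x, (e x).1 = f x := fun _ => rfl
  have hf : ∀ i, Nat.card {x // f x = i} = m := fun i => by
    let e2 : {x // f x = i} ≃ Fin m :=
      { toFun := fun x => (e x.1).2
        invFun := fun k => ⟨e.symm (i, k), by simp [f]⟩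
        left_inv := fun x => Subtype.ext (by obtain ⟨x, rfl⟩ := x; simp [f])
        right_inv := fun k => by simp }
    rw [Nat.card_congr e2]
    simp
  let a := e.symm (0, ⟨0, by omega⟩)
  let a' := e.symm (0, ⟨1, by omega⟩)
  let c := e.symm (1, ⟨0, by omega⟩)
  have ha : f a = 0 := by simp [f, a]
  have ha' : f a' = 0 := by simp [f, a']
  have hc : f c = 1 := by simp [f, c]
  have haa : a ≠ a' := by simp [a, a']
  let s : Set (Fin (2 * m)) := {x | f x = 1}
  haveI : Nontrivial (Fin (2 * m)) := ⟨a, a', haa⟩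
  have hL : stabilizer (Perm (Fin (2 * m))) s < blockStab f := by
    refine lt_of_le_of_ne (fun g hg x y => ?_) fun h => ?_
    · rw [mem_stabilizer_set] at hg
      have h1 : f (g x) = 1 ↔ f x = 1 := hg x
      have h2 : f (g y) = 1 ↔ f y = 1 := hg y
      revert h1 h2
      generalize f (g x) = p, f (g y) = q, f x = r, f y = t
      revert p q r t
      decide
    · obtain ⟨w, hw, h1, -⟩ := exists_blockPerm e he 0 1
      rw [← h, mem_stabilizer_set] at hw
      have h2 : f (w c) = 1 := (hw c).2 hc
      rw [h1, hc] at h2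
      revert h2
      decide
  have hH : stabilizer (Perm (Fin (2 * m))) a ⊓ stabilizer (Perm (Fin (2 * m))) s <
      stabilizer (Perm (Fin (2 * m))) s := by
    refine lt_of_le_of_ne inf_le_right fun h => ?_
    have h1 : swap a a' ∈ stabilizer (Perm (Fin (2 * m))) s := by
      rw [mem_stabilizer_set]
      intro x
      show f (swap a a' x) = 1 ↔ f x = 1
      rw [swap_apply_def]
      split_ifs with h1 h2
      · rw [h1, ha, ha']
      · rw [h2, ha, ha']
      · rfl
    rw [← h] at h1
    have h2 : swap a a' a = a := h1.1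
    rw [swap_apply_left] at h2
    exact haa h2.symm
  refine ⟨stabilizer _ a, stabilizer _ a ⊓ stabilizer _ s, blockStab f,
    IsPreprimitive.isCoatom_stabilizer_of_isPreprimitive _ a, by simpa using index_stab a, inf_le_left, ?_,
    blockStab_coatom hm le_rfl hf, hH.le.trans hL.le, not_coatom hH hL⟩
  rw [← Subgroup.isCoatom_comap (stabEquiv a)]
  have h1 := Perm.isCoatom_stabilizer (α := {y // y ≠ a}) (s := {y | f y.1 = 1})
    ⟨⟨c, fun h => by rw [h, ha] at hc; revert hc; decide⟩, hc⟩
    ⟨⟨a', haa.symm⟩, fun h => by have h2 : f a' = 1 := h; rw [ha'] at h2; revert h2; decide⟩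
    (by simp; omega)
  convert h1 using 1
  ext g
  rw [mem_stabilizer_set, Subgroup.mem_comap, Subgroup.mem_subgroupOf, Subgroup.mem_inf, mem_stabilizer_set]
  refine ⟨fun h y => ?_, fun h => ⟨(stabEquiv a g).2, fun y => ?_⟩⟩
  · have := h.2 y
    change f (Perm.ofSubtype g y) = 1 ↔ _ at this
    rw [Perm.ofSubtype_apply_coe] at this
    exact this
  · change f (Perm.ofSubtype g y) = 1 ↔ _
    by_cases hy : y = a
    · rw [Perm.ofSubtype_apply_of_not_mem g (by simpa using hy)]; rfl
    · rw [Perm.ofSubtype_apply_of_mem g hy]; exact h ⟨y, hy⟩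

end Cfsg.Agent.S5894
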