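import Cfsg.Statements.S5895
import Mathlib

set_option autoImplicit false
open Cfsg

namespace Cfsg.Agent.S5895

open MulAction
open scoped LinearAlgebra.Projectivization

theorem not_coatom {G : Type*} [Group G] {H L K : Subgroup G} (h1 : H < L) (h2 : L < K) :
    ¬ IsCoatom (H.subgroupOf K) := fun h => by
  obtain ⟨x, hx, hx'⟩ := SetLike.exists_of_lt h1
  obtain ⟨y, hy, hy'⟩ := SetLike.exists_of_lt h2
  have h3 := h.2 (L.subgroupOf K) (lt_of_le_of_ne (fun g hg => h1.le hg) fun e => by
    have : (⟨x, h2.le hx⟩ : K) ∈ L.subgroupOf K := hx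
    rw [← e] at this
    exact hx' this)
  have : (⟨y, hy⟩ : K) ∈ L.subgroupOf K := h3 ▸ Subgroup.mem_top _
  exact hy' this

/-- the linear action on the translation group -/
def act (F V : Type) [Field F] [AddCommGroup V] [Module F V] :
    (V ≃ₗ[F] V) →* MulAut (Multiplicative V) where
  toFun g := AddEquiv.toMultiplicative g.toAddEquiv
  map_one' := rfl
  map_mul' _ _ := rfl

/-- For every prime p and every d ≥ 2 there is a finite group G with a maximal subgroup M of index p^d and a maximal subgroup H of M that is not second maximal in G: some maximal subgroup K of G contains H without H being maximal in K. (One may take G the affine group V ⋊ GL(V) of V = 𝔽_p^d, M = GL(V), H the stabiliser in M of a line W of V, and K = V ⋊ H, with H < W ⋊ H < K.) So the prime-index hypothesis in the second-maximality criterion cannot be relaxed to prime-power index. -/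
theorem result (p d : ℕ) (hp : p.Prime)
    (hd : 2 ≤ d) :
    ∃ (G : Type) (_ : Group G) (_ : Finite G) (M H K : Subgroup G), IsCoatom M ∧ M.index = p ^ d ∧ H ≤ M ∧
      IsCoatom (H.subgroupOf M) ∧ IsCoatom K ∧ H ≤ K ∧ ¬ IsCoatom (H.subgroupOf K) := by
  haveI : Fact p.Prime := ⟨hp⟩
  let F := ZMod p
  let V := Fin d → F
  let G := Multiplicative V ⋊[act F V] (V ≃ₗ[F] V)
  haveI : Finite (V ≃ₗ[F] V) := Finite.of_injective _ (DFunLike.coe_injective (F := V ≃ₗ[F] V))
  haveI : Finite G := Finite.of_equiv _ SemidirectProduct.equivProd.symm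
  let v0 : V := Pi.single ⟨0, by omega⟩ 1
  let v1 : V := Pi.single ⟨1, by omega⟩ 1
  have h0 : v0 ≠ 0 := fun h => by
    have h2 : v0 ⟨0, by omega⟩ = (0 : F) := congrFun h _
    simp [v0] at h2
  have h1 : v1 ≠ 0 := fun h => by
    have h2 : v1 ⟨1, by omega⟩ = (0 : F) := congrFun h _
    simp [v1] at h2
  have h01 : ∀ c : F, c • v0 ≠ v1 := fun c h => by
    have h2 : c * v0 ⟨1, by omega⟩ = v1 ⟨1, by omega⟩ := congrFun h ⟨1, by omega⟩
    simp [v0, v1] at h2
  haveI : Nontrivial (ℙ F V) := ⟨Projectivization.mk F v1 h1, Projectivization.mk F v0 h0, fun h => by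
    obtain ⟨c, hc⟩ := (Projectivization.mk_eq_mk_iff' F _ _ _ _).1 h
    exact h01 c hc⟩
  haveI hp2 : IsPreprimitive (V ≃ₗ[F] V) (ℙ F V) := isPreprimitive_of_is_two_pretransitive inferInstance
  let S := stabilizer (V ≃ₗ[F] V) (Projectivization.mk F v0 h0)
  have hS : IsCoatom S := IsPreprimitive.isCoatom_stabilizer_of_isPreprimitive _ _
  let M : Subgroup G := (SemidirectProduct.inr : (V ≃ₗ[F] V) →* G).range
  have hM : ∀ x : G, x ∈ M ↔ x.left = 1 := fun x =>
    ⟨by rintro ⟨g, rfl⟩; rfl, fun h => ⟨x.right, SemidirectProduct.ext h.symm rfl⟩⟩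
  let K : Subgroup G := S.comap SemidirectProduct.rightHom
  have hSm : ∀ g ∈ S, ∃ c : F, c • v0 = g v0 := fun g hg =>
    (Projectivization.mk_eq_mk_iff' F _ _ _ _).1 hg
  let L : Subgroup G :=
    { carrier := {x | x.right ∈ S ∧ ∃ c : F, c • v0 = x.left.toAdd}
      one_mem' := ⟨one_mem _, 0, by simp⟩
      mul_mem' := by
        rintro x y ⟨hx, c, hc⟩ ⟨hy, c', hc'⟩
        obtain ⟨e, he⟩ := hSm _ hx
        refine ⟨mul_mem hx hy, c + c' * e, ?_⟩
        show _ = x.left.toAdd + x.right y.left.toAdd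
        rw [← hc, ← hc', map_smul, ← he, add_smul, mul_smul]
      inv_mem' := by
        rintro x ⟨hx, c, hc⟩
        obtain ⟨e, he⟩ := hSm _ (inv_mem hx)
        refine ⟨inv_mem hx, -c * e, ?_⟩
        show _ = x.right⁻¹ (-x.left.toAdd)
        rw [← hc, ← neg_smul, map_smul, ← he, mul_smul] }
  refine ⟨G, inferInstance, inferInstance, M, M ⊓ K, K, ⟨fun h => ?_, fun X hX => ?_⟩, ?_, inf_le_left, ?_,
    Subgroup.isCoatom_comap_of_surjective SemidirectProduct.rightHom_surjective hS, inf_le_right,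
    not_coatom (L := L) (lt_of_le_of_ne (fun x hx => ⟨hx.2, 0, by simp [(hM x).1 hx.1]⟩) fun h => ?_)
      (lt_of_le_of_ne (fun x hx => hx.1) fun h => ?_)⟩
  · have : (SemidirectProduct.inl (Multiplicative.ofAdd v0) : G) ∈ M := h ▸ Subgroup.mem_top _
    exact h0 ((hM _).1 this)
  · obtain ⟨x, hx, hx'⟩ := SetLike.exists_of_lt hX
    have hinr : ∀ g, (SemidirectProduct.inr g : G) ∈ X := fun g => hX.le ⟨g, rfl⟩
    have hv : (SemidirectProduct.inl x.left : G) ∈ X := by
      rw [← SemidirectProduct.inl_left_mul_inr_right x] at hx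
      exact (Subgroup.mul_mem_cancel_right _ (hinr _)).1 hx
    have hv0 : x.left.toAdd ≠ 0 := fun h => hx' ((hM x).2 h)
    have hall : ∀ w, (SemidirectProduct.inl w : G) ∈ X := by
      intro w
      by_cases hw : w.toAdd = 0
      · rw [show w = 1 from hw, map_one]; exact one_mem _
      obtain ⟨g, hg⟩ := exists_smul_eq (V ≃ₗ[F] V) (Projectivization.mk F _ hv0) (Projectivization.mk F _ hw)
      obtain ⟨c, hc⟩ := (Projectivization.mk_eq_mk_iff F _ _ _ _).1 hg
      have : w = act F V (g.trans (LinearEquiv.smulOfUnit c⁻¹)) x.left := by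
        show w.toAdd = (c⁻¹ : Fˣ) • g x.left.toAdd
        rw [eq_inv_smul_iff]; exact hc
      rw [this, SemidirectProduct.inl_aut]
      exact mul_mem (mul_mem (hinr _) hv) (hinr _)
    refine top_le_iff.1 fun y _ => ?_
    rw [← SemidirectProduct.inl_left_mul_inr_right y]
    exact mul_mem (hall _) (hinr _)
  · have h2 := M.card_mul_index
    rw [← Nat.card_congr (MonoidHom.ofInjective SemidirectProduct.inr_injective).toEquiv,
      SemidirectProduct.card, mul_comm] at h2
    rw [Nat.eq_of_mul_eq_mul_right Nat.card_pos h2]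
    show Nat.card (Fin d → ZMod p) = _
    simp
  · have h2 : (M ⊓ K).subgroupOf M = S.comap (SemidirectProduct.rightHom.comp M.subtype) := by
      rw [Subgroup.inf_subgroupOf_left]; rfl
    rw [h2]
    exact Subgroup.isCoatom_comap_of_surjective (fun g => ⟨⟨_, g, rfl⟩, rfl⟩) hS
  · have : (SemidirectProduct.inl (Multiplicative.ofAdd v0) : G) ∈ L := ⟨one_mem _, 1, by simp⟩
    rw [← h] at this
    exact h0 ((hM _).1 this.1)
  · have : (SemidirectProduct.inl (Multiplicative.ofAdd v1) : G) ∈ K := one_mem S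
    rw [← h] at this
    obtain ⟨c, hc⟩ := this.2
    exact h01 c hc

end Cfsg.Agent.S5895
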