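import Cfsg.Statements.S5896
import Mathlib
import Cfsg.Agent.H5.Central

set_option autoImplicit false
open Cfsg

namespace Cfsg.Agent.S5896

open RegularWreathProduct
open scoped commutatorElement

theorem dl_surj {A B : Type*} [Group A] [Group B] (f : A →* B) (hf : Function.Surjective f) {d : ℕ}
    (h : derivedSeries B d ≠ ⊥) : derivedSeries A d ≠ ⊥ := fun e => h (by
  rw [← map_derivedSeries_eq hf, e, Subgroup.map_bot])

theorem dl_inj {A B : Type*} [Group A] [Group B] (f : A →* B) (hf : Function.Injective f) {d : ℕ}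
    (h : derivedSeries A d ≠ ⊥) : derivedSeries B d ≠ ⊥ := fun e => h (by
  have := map_derivedSeries_le_derivedSeries f d
  rw [e, le_bot_iff] at this
  exact (Subgroup.map_eq_bot_iff_of_injective _ hf).1 this)

theorem map_comm (A : Type*) [Group A] (d : ℕ) :
    (derivedSeries (commutator A) d).map (commutator A).subtype = derivedSeries A (d + 1) := by
  induction d with
  | zero => rw [derivedSeries_zero, ← MonoidHom.range_eq_map, Subgroup.range_subtype]; rfl
  | succ d ih => rw [derivedSeries_succ, Subgroup.map_commutator, ih]; rfl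

/-- evaluation at `1` on the base group -/
def ev {D Q : Type*} [Group D] [Group Q] (N : Subgroup (D ≀ᵣ Q)) :
    ↥(N ⊓ (rightHom : D ≀ᵣ Q →* Q).ker) →* D where
  toFun x := x.1.left 1
  map_one' := rfl
  map_mul' x y := by
    have : x.1.right = 1 := x.2.2
    simp [this]

theorem dl_wreath {D Q : Type*} [Group D] [Group Q] (N : Subgroup (D ≀ᵣ Q)) {q : Q} (hq : q ≠ 1)
    (hN : ∀ b : D ≀ᵣ Q, ⁅b, (inl q : D ≀ᵣ Q)⁆ ∈ N) {d : ℕ} (h : derivedSeries D d ≠ ⊥) :
    derivedSeries ↥(N ⊓ (rightHom : D ≀ᵣ Q →* Q).ker) d ≠ ⊥ := by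
  classical
  refine dl_surj (ev N) (fun s => ⟨⟨⁅(⟨Pi.mulSingle 1 s, 1⟩ : D ≀ᵣ Q), (inl q : D ≀ᵣ Q)⁆, hN _, ?_⟩, ?_⟩) h
  · simp [commutatorElement_def, MonoidHom.mem_ker]
  · simp [ev, commutatorElement_def, hq]

theorem solv_ker {D Q : Type*} [Group D] [Group Q] [Finite Q] [Group.IsSolvable D] :
    Group.IsSolvable (rightHom : D ≀ᵣ Q →* Q).ker := by
  let f : (rightHom : D ≀ᵣ Q →* Q).ker →* (Q → D) :=
    { toFun := fun x => x.1.left
      map_one' := rfl
      map_mul' := fun x y => by
        have : x.1.right = 1 := x.2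
        ext; simp [this] }
  have : Group.IsSolvable (Q → D) := by
    obtain ⟨n, hn⟩ := (inferInstance : Group.IsSolvable D).solvable
    refine ⟨n, ?_⟩
    rw [eq_bot_iff]
    intro x hx
    rw [Subgroup.mem_bot]
    ext i
    have := map_derivedSeries_le_derivedSeries (Pi.evalMonoidHom (fun _ : Q => D) i) n ⟨x, hx, rfl⟩
    rwa [hn, Subgroup.mem_bot] at this
  refine Group.isSolvable_of_isSolvable_injective (f := f) fun x y h => Subtype.ext (RegularWreathProduct.ext h ?_)
  rw [show x.1.right = 1 from x.2, show y.1.right = 1 from y.2]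

theorem exists_solv (d : ℕ) : ∃ (S : Type) (_ : Group S) (_ : Finite S), Group.IsSolvable S ∧
    derivedSeries S d ≠ ⊥ := by
  induction d with
  | zero => exact ⟨Multiplicative (ZMod 2), inferInstance, inferInstance, inferInstance, top_ne_bot⟩
  | succ d ih =>
    obtain ⟨S, _, _, hS, h⟩ := ih
    let Q := Multiplicative (ZMod 2)
    haveI := solv_ker (D := S) (Q := Q)
    refine ⟨S ≀ᵣ Q, inferInstance, inferInstance,
      Group.isSolvable_of_ker_le_range (rightHom : S ≀ᵣ Q →* Q).ker.subtype rightHom (by simp), ?_⟩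
    rw [← map_comm, Ne, Subgroup.map_eq_bot_iff_of_injective _ (Subgroup.subtype_injective _)]
    have h2 := dl_wreath (commutator (S ≀ᵣ Q)) (q := Multiplicative.ofAdd 1) (by decide)
      (fun b => Subgroup.commutator_mem_commutator (Subgroup.mem_top _) (Subgroup.mem_top _)) h
    exact dl_inj (Subgroup.inclusion inf_le_left) (Subgroup.inclusion_injective _) h2

/-- Finite perfect groups have solvable maximal subgroups of unbounded derived length: for every d there is a finite perfect group G (equal to its commutator subgroup) with a solvable maximal subgroup H whose derived length exceeds d, i.e. the d-th term of the derived series of H is non-trivial. (Take the derived subgroup of a wreath product S ≀ A₅ with S solvable of large derived length, and H the preimage of a maximal subgroup of A₅.) -/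
theorem result (d : ℕ) :
    ∃ (G : Type) (_ : Group G) (_ : Finite G) (H : Subgroup G), commutator G = ⊤ ∧ IsCoatom H ∧ Group.IsSolvable H ∧
      derivedSeries H d ≠ ⊥ := by
  obtain ⟨S, _, _, hS, h⟩ := exists_solv d
  let Q := alternatingGroup (Fin 5)
  have hQ : commutator Q = ⊤ := commutator_alternatingGroup_eq_top (by simp)
  let G : Subgroup (S ≀ᵣ Q) := Subgroup.normalClosure (Set.range (inl : Q → S ≀ᵣ Q))
  have hin : ∀ q, inl q ∈ G := fun q => Subgroup.subset_normalClosure ⟨q, rfl⟩
  let π : G →* Q := rightHom.comp G.subtype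
  have hπ : Function.Surjective π := fun q => ⟨⟨_, hin q⟩, rfl⟩
  let T : Subgroup Q := MulAction.stabilizer Q (0 : Fin 5)
  haveI : MulAction.IsPretransitive Q (Fin 5) := alternatingGroup.isPretransitive_of_three_le_card _ (by simp)
  haveI : MulAction.IsPreprimitive Q (Fin 5) := MulAction.IsPreprimitive.of_prime_card (by simp; norm_num)
  have hT : IsCoatom T := MulAction.IsPreprimitive.isCoatom_stabilizer_of_isPreprimitive _ _
  have hTs : Group.IsSolvable T := by
    have h1 := T.card_mul_index
    rw [MulAction.index_stabilizer_of_transitive, nat_card_alternatingGroup] at h1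
    simp only [Nat.card_eq_fintype_card (α := Fin 5), Fintype.card_fin] at h1
    have h2 : (5 : ℕ).factorial = 120 := rfl
    exact H5.burnside_paqb (p := 2) (q := 3) (a := 2) (b := 1) Nat.prime_two Nat.prime_three (by omega)
  refine ⟨G, inferInstance, inferInstance, T.comap π, ?_, Subgroup.isCoatom_comap_of_surjective hπ hT, ?_, ?_⟩
  · have h1 : G ≤ ⁅G, G⁆ := by
      refine Subgroup.normalClosure_le_normal ?_
      rintro _ ⟨q, rfl⟩
      have h2 : (commutator Q).map (inl : Q →* S ≀ᵣ Q) ≤ ⁅G, G⁆ := by
        rw [commutator_def, Subgroup.map_commutator]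
        exact Subgroup.commutator_mono (by rintro _ ⟨q, -, rfl⟩; exact hin q) (by rintro _ ⟨q, -, rfl⟩; exact hin q)
      exact h2 ⟨q, hQ ▸ Subgroup.mem_top _, rfl⟩
    apply Subgroup.map_injective G.subtype_injective
    rw [Subgroup.map_subtype_commutator, ← MonoidHom.range_eq_map, Subgroup.range_subtype]
    exact le_antisymm (Subgroup.commutator_le_left _ _) h1
  · haveI := solv_ker (D := S) (Q := Q)
    let f : T.comap π →* T := (π.comp (T.comap π).subtype).codRestrict T (fun x => x.2)
    haveI : Group.IsSolvable f.ker := Group.isSolvable_of_isSolvable_injective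
      (f := ((G.subtype.comp (T.comap π).subtype).comp f.ker.subtype).codRestrict
        (rightHom : S ≀ᵣ Q →* Q).ker (fun x => congrArg Subtype.val x.2))
      (fun a b hab => Subtype.ext (Subtype.ext (Subtype.ext
        (congrArg (fun z : (rightHom : S ≀ᵣ Q →* Q).ker => z.1) hab))))
    exact Group.isSolvable_of_ker_le_range f.ker.subtype f (by simp)
  · obtain ⟨q, hq⟩ := exists_ne (1 : Q)
    have h2 := dl_wreath G hq (fun b => by
      rw [commutatorElement_def]
      exact mul_mem ((inferInstance : G.Normal).conj_mem _ (hin q) b) (inv_mem (hin q))) h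
    let f : ↥(G ⊓ (rightHom : S ≀ᵣ Q →* Q).ker) →* T.comap π :=
      (Subgroup.inclusion inf_le_left).codRestrict _ (fun x => by
        show rightHom x.1 ∈ T
        rw [show rightHom x.1 = 1 from x.2.2]; exact one_mem _)
    exact dl_inj f (fun a b hab => Subtype.ext (congrArg (fun z : T.comap π => z.1.1) hab)) h2

end Cfsg.Agent.S5896
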