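import Cfsg.Statements.S5902
import Mathlib

set_option autoImplicit false
open Cfsg

namespace Cfsg.Agent.S5902

theorem aux {G : Type*} [Group G] [Finite G] (X M : Subgroup G)
    (hK : ComplementedLattice (Subgroup X))
    (hM : IsCoatom M) (hXM : X ≤ M) (huniq : ∀ M' : Subgroup G, IsCoatom M' → X ≤ M' → M' = M)
    (H : Subgroup G) (hH : ¬ H ≤ M) : ∃ C : Subgroup G, C ≤ X ∧ H ⊔ C = ⊤ ∧ H ⊓ C = ⊥ := by
  obtain ⟨D, hD⟩ := exists_isCompl (H.subgroupOf X)
  refine ⟨D.map X.subtype, Subgroup.map_subtype_le D, ?_, ?_⟩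
  · by_contra hne
    obtain ⟨M', hM', hle⟩ := (eq_top_or_exists_le_coatom (H ⊔ D.map X.subtype)).resolve_left hne
    have hXM' : X ≤ M' := by
      have h1 := hD.sup_eq_top
      have h2 : (H.subgroupOf X ⊔ D).map X.subtype = X := by
        rw [h1, ← MonoidHom.range_eq_map, Subgroup.range_subtype]
      rw [← h2, Subgroup.map_sup]
      refine sup_le ?_ (le_sup_right.trans hle)
      rw [Subgroup.subgroupOf_map_subtype]
      exact inf_le_left.trans (le_sup_left.trans hle)
    have := huniq M' hM' hXM'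
    subst this
    exact hH (le_sup_left.trans hle)
  · rw [eq_bot_iff]
    rintro x ⟨hxH, ⟨y, hyD, rfl⟩⟩
    have h1 := hD.inf_eq_bot
    have : y ∈ H.subgroupOf X ⊓ D := ⟨hxH, hyD⟩
    rw [h1, Subgroup.mem_bot] at this
    subst this
    simp

theorem aux2 {G : Type*} [Group G] [Finite G] (X M : Subgroup G)
    (hK : ComplementedLattice (Subgroup X))
    (hM : IsCoatom M) (hXM : X ≤ M) (huniq : ∀ M' : Subgroup G, IsCoatom M' → X ≤ M' → M' = M)
    (H : Subgroup G) (hH : ¬ H ≤ M.normalCore) : ∃ C : Subgroup G, H ⊔ C = ⊤ ∧ H ⊓ C = ⊥ := by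
  have : ∃ g : G, ¬ H.map (MulAut.conj g).toMonoidHom ≤ M := by
    by_contra hcon
    push Not at hcon
    apply hH
    intro h hh g
    exact hcon g ⟨h, hh, rfl⟩
  obtain ⟨g, hg⟩ := this
  obtain ⟨C, -, h1, h2⟩ := aux X M hK hM hXM huniq _ hg
  let e : Subgroup G ≃o Subgroup G := (MulAut.conj g).mapSubgroup
  have he : e H = H.map (MulAut.conj g).toMonoidHom := rfl
  refine ⟨e.symm C, ?_, ?_⟩
  · apply e.injective
    rw [map_sup, e.apply_symm_apply, he, h1, map_top]
  · apply e.injective
    rw [map_inf, e.apply_symm_apply, he, h2, map_bot]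

/-- Let G be a finite group, X a subgroup whose own subgroup lattice is complemented, and suppose X lies in exactly one maximal subgroup M of G. Then every subgroup H of G not contained in the normal core of M has a complement in the subgroup lattice of G (some C with H ⊔ C = G and H ⊓ C = 1); in particular the subgroup lattice of G modulo the normal core of M is complemented. -/
theorem result {G : Type*} [Group G] [Finite G] (X M : Subgroup G)
    (hK : ComplementedLattice (Subgroup X))
    (hM : IsCoatom M) (hXM : X ≤ M) (huniq : ∀ M' : Subgroup G, IsCoatom M' → X ≤ M' → M' = M) :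
    (∀ H : Subgroup G, ¬ H ≤ M.normalCore → ∃ C : Subgroup G, H ⊔ C = ⊤ ∧ H ⊓ C = ⊥) ∧
    ComplementedLattice (Subgroup (G ⧸ M.normalCore)) := by
  refine ⟨fun H hH => aux2 X M hK hM hXM huniq H hH, ⟨fun K => ?_⟩⟩
  by_cases hK0 : K = ⊥
  · subst hK0; exact ⟨⊤, isCompl_bot_top⟩
  have hH : ¬ K.comap (QuotientGroup.mk' M.normalCore) ≤ M.normalCore := by
    intro h
    apply hK0
    rw [eq_bot_iff]
    intro k hk
    obtain ⟨g, rfl⟩ := QuotientGroup.mk'_surjective M.normalCore k
    have := h hk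
    rw [Subgroup.mem_bot]
    exact (QuotientGroup.eq_one_iff g).mpr this
  obtain ⟨C, h1, h2⟩ := aux2 X M hK hM hXM huniq _ hH
  refine ⟨C.map (QuotientGroup.mk' M.normalCore), ?_, ?_⟩
  · rw [disjoint_iff, eq_bot_iff]
    rintro k ⟨hk, ⟨c, hc, rfl⟩⟩
    have : c ∈ K.comap (QuotientGroup.mk' M.normalCore) ⊓ C := ⟨hk, hc⟩
    rw [h2, Subgroup.mem_bot] at this
    subst this
    simp
  · rw [codisjoint_iff]
    have h3 := congrArg (Subgroup.map (QuotientGroup.mk' M.normalCore)) h1
    rw [Subgroup.map_sup, Subgroup.map_comap_eq_self_of_surjective (QuotientGroup.mk'_surjective _),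
      Subgroup.map_top_of_surjective _ (QuotientGroup.mk'_surjective _)] at h3
    exact h3

end Cfsg.Agent.S5902
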