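import Cfsg.Statements.S5903
import Mathlib
import Cfsg.Agent.S5901

set_option autoImplicit false
open Cfsg

namespace Cfsg.Agent.S5903

/-- Let G be a finite simple group, X a subgroup lying in exactly one maximal subgroup M of G, and N a subgroup of prime order with N ≤ X that is central in M. If the subgroup lattice of X/N is complemented, then the subgroup lattice of G is complemented. -/
theorem result {G : Type*} [Group G] [Finite G] [IsSimpleGroup G] (X M N : Subgroup G)
    (hM : IsCoatom M) (hXM : X ≤ M) (huniq : ∀ M' : Subgroup G, IsCoatom M' → X ≤ M' → M' = M)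
    (hNX : N ≤ X) (hN : (Nat.card N).Prime) (hcen : ∀ n ∈ N, ∀ m ∈ M, m * n = n * m)
    [(N.subgroupOf X).Normal] (hK : ComplementedLattice (Subgroup (X ⧸ N.subgroupOf X))) :
    ComplementedLattice (Subgroup G) := by
  have hN1 : N ≠ ⊥ := by
    intro h; rw [h, Subgroup.card_bot] at hN; exact Nat.not_prime_one hN
  -- interval [N, X] is complemented
  have hint : ∀ Y : Subgroup G, N ≤ Y → Y ≤ X → ∃ C : Subgroup G, N ≤ C ∧ C ≤ X ∧ Y ⊔ C = X ∧ Y ⊓ C = N := by
    intro Y hNY hYX
    let π := QuotientGroup.mk' (N.subgroupOf X)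
    obtain ⟨D, hD⟩ := exists_isCompl ((Y.subgroupOf X).map π)
    have hker : π.ker = N.subgroupOf X := QuotientGroup.ker_mk' _
    have hY : ((Y.subgroupOf X).map π).comap π = Y.subgroupOf X := by
      rw [Subgroup.comap_map_eq, hker, sup_eq_left]
      exact Subgroup.subgroupOf_mono X hNY
    refine ⟨(D.comap π).map X.subtype, ?_, Subgroup.map_subtype_le _, ?_, ?_⟩
    · intro n hn
      refine ⟨⟨n, hNX hn⟩, ?_, rfl⟩
      have : (⟨n, hNX hn⟩ : X) ∈ π.ker := by rw [hker]; exact hn
      exact Subgroup.ker_le_comap π D this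
    · have h1 := congrArg (Subgroup.comap π) hD.sup_eq_top
      rw [← Subgroup.comap_sup_eq π _ _ (QuotientGroup.mk'_surjective _), hY, Subgroup.comap_top] at h1
      have h2 := congrArg (Subgroup.map X.subtype) h1
      rw [Subgroup.map_sup, Subgroup.subgroupOf_map_subtype, inf_eq_left.mpr hYX, ← MonoidHom.range_eq_map,
        Subgroup.range_subtype] at h2
      exact h2
    · have h1 := congrArg (Subgroup.comap π) hD.inf_eq_bot
      rw [Subgroup.comap_inf, hY, MonoidHom.comap_bot, hker] at h1
      have h2 := congrArg (Subgroup.map X.subtype) h1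
      rw [Subgroup.map_inf _ _ _ X.subtype_injective, Subgroup.subgroupOf_map_subtype, Subgroup.subgroupOf_map_subtype,
        inf_eq_left.mpr hYX, inf_eq_left.mpr hNX] at h2
      exact h2
  have hXtop : X ≠ ⊤ := by
    intro h; rw [h, top_le_iff] at hXM; exact hM.1 hXM
  refine ⟨fun H => ?_⟩
  by_cases hH0 : H = ⊥
  · subst hH0; exact ⟨⊤, isCompl_bot_top⟩
  by_cases hH1 : H = ⊤
  · subst hH1; exact ⟨⊥, isCompl_top_bot⟩
  -- find a conjugate of H, not in M, meeting N trivially
  have hprime : ∀ K : Subgroup G, K ⊓ N = ⊥ ∨ N ≤ K := by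
    intro K
    haveI := Fact.mk hN
    rcases (K.subgroupOf N).eq_bot_or_eq_top_of_prime_card with h | h
    · left
      have := congrArg (Subgroup.map N.subtype) h
      rwa [Subgroup.subgroupOf_map_subtype, Subgroup.map_bot] at this
    · right; exact Subgroup.subgroupOf_eq_top.mp h
  have key : ∃ g : G, ¬ H.map (MulAut.conj g).toMonoidHom ≤ M ∧ H.map (MulAut.conj g).toMonoidHom ⊓ N = ⊥ := by
    by_contra hcon
    push Not at hcon
    -- A = {g | H^g ≤ M}, B = {g | N ≤ H^g} cover G
    have hcov : ∀ g : G, H.map (MulAut.conj g).toMonoidHom ≤ M ∨ N ≤ H.map (MulAut.conj g).toMonoidHom := by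
      intro g
      by_cases h : H.map (MulAut.conj g).toMonoidHom ≤ M
      · exact Or.inl h
      · exact Or.inr ((hprime _).resolve_left (hcon g h))
    have hnc : Subgroup.normalClosure (N : Set G) ≤ Subgroup.normalizer (H : Set G) := by
      rw [Subgroup.normalClosure, Subgroup.closure_le]
      intro x hx
      obtain ⟨n, hn, hc⟩ := Group.mem_conjugatesOfSet_iff.mp hx
      obtain ⟨c, rfl⟩ := isConj_iff.mp hc
      rcases hcov c⁻¹ with h | h
      · apply Subgroup.centralizer_le_normalizer
        rw [Subgroup.mem_centralizer_iff]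
        intro y hy
        have h1 : c⁻¹ * y * c ∈ M := h ⟨y, hy, by simp⟩
        have h2 := hcen n hn _ h1
        calc y * (c * n * c⁻¹) = c * ((c⁻¹ * y * c) * n) * c⁻¹ := by group
          _ = c * (n * (c⁻¹ * y * c)) * c⁻¹ := by rw [h2]
          _ = c * n * c⁻¹ * y := by group
      · apply Subgroup.le_normalizer
        obtain ⟨y, hy, hyn⟩ := h hn
        have : c * n * c⁻¹ = y := by rw [← hyn]; simp [mul_assoc]
        rw [this]; exact hy
    have hnc2 : Subgroup.normalClosure (N : Set G) = ⊤ := by
      rcases (Subgroup.normalClosure_normal (s := (N : Set G))).eq_bot_or_eq_top with h | h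
      · exfalso; apply hN1; rw [eq_bot_iff, ← h]; exact Subgroup.le_normalClosure
      · exact h
    rw [hnc2, top_le_iff, Subgroup.normalizer_eq_top_iff] at hnc
    rcases hnc.eq_bot_or_eq_top with h | h
    · exact hH0 h
    · exact hH1 h
  obtain ⟨g, hg1, hg2⟩ := key
  obtain ⟨C, h1, h2⟩ := Cfsg.Agent.S5901.result N X M hNX hXtop hint hM hXM huniq _ hg1 hg2
  let e : Subgroup G ≃o Subgroup G := (MulAut.conj g).mapSubgroup
  have he : e H = H.map (MulAut.conj g).toMonoidHom := rfl
  refine ⟨e.symm C, ?_, ?_⟩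
  · rw [disjoint_iff]
    apply e.injective
    rw [map_inf, e.apply_symm_apply, he, h2, map_bot]
  · rw [codisjoint_iff]
    apply e.injective
    rw [map_sup, e.apply_symm_apply, he, h1, map_top]

end Cfsg.Agent.S5903
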