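import Cfsg.Statements.S5904
import Mathlib

set_option autoImplicit false
open scoped Pointwise
open Cfsg

namespace Cfsg.Agent.S5904

/-- Let Ω be a finite set with more than two elements and O ⊆ Ω a subset with exactly as many elements as its complement. Then the setwise stabilizer of O in the symmetric group on Ω is not a maximal subgroup (it is properly contained in the stabilizer of the partition {O, Ω ∖ O}, which is proper). -/
theorem result {Ω : Type*} [Fintype Ω] [DecidableEq Ω] (hΩ : 2 < Fintype.card Ω)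
    (O : Set Ω) (hO : Nat.card O = Nat.card ↥Oᶜ) :
    ¬ IsCoatom (MulAction.stabilizer (Equiv.Perm Ω) O) := by
  intro h
  have hcard : Nat.card O + Nat.card ↥Oᶜ = Fintype.card Ω := by
    rw [Nat.card_coe_set_eq, Nat.card_coe_set_eq, Set.ncard_add_ncard_compl, Nat.card_eq_fintype_card]
  let K : Subgroup (Equiv.Perm Ω) := MulAction.stabilizer (Equiv.Perm Ω) ({O, Oᶜ} : Set (Set Ω))
  have hcompl : ∀ g : Equiv.Perm Ω, ∀ A : Set Ω, g • Aᶜ = (g • A)ᶜ := fun g A => Set.smul_set_compl
  have hle : MulAction.stabilizer (Equiv.Perm Ω) O ≤ K := by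
    intro g hg
    rw [MulAction.mem_stabilizer_iff] at hg ⊢
    rw [Set.smul_set_insert, Set.smul_set_singleton, hcompl, hg]
  have hO2 : 2 ≤ O.ncard := by rw [← Nat.card_coe_set_eq]; omega
  have hO2' : 2 ≤ (Oᶜ).ncard := by rw [← Nat.card_coe_set_eq]; omega
  obtain ⟨a, ha, b, hb, hab⟩ := (Set.one_lt_ncard (Set.toFinite O)).mp hO2
  obtain ⟨c, hc, d, hd, hcd⟩ := (Set.one_lt_ncard (Set.toFinite Oᶜ)).mp hO2'
  have hne : K ≠ ⊤ := by
    intro hK
    have : Equiv.swap a c ∈ K := by rw [hK]; trivial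
    rw [MulAction.mem_stabilizer_iff] at this
    have h1 : Equiv.swap a c • O ∈ ({O, Oᶜ} : Set (Set Ω)) := by
      rw [← this]; exact Set.smul_mem_smul_set (by simp)
    have hbc : b ≠ c := fun e => hc (e ▸ hb)
    have h2 : c ∈ Equiv.swap a c • O := ⟨a, ha, by simp⟩
    have h3 : b ∈ Equiv.swap a c • O := ⟨b, hb, by simp [Equiv.swap_apply_of_ne_of_ne hab.symm hbc]⟩
    rcases h1 with h1 | h1
    · rw [h1] at h2; exact hc h2
    · rw [Set.mem_singleton_iff] at h1; rw [h1] at h3; exact h3 hb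
  have hlt : MulAction.stabilizer (Equiv.Perm Ω) O < K := by
    refine lt_of_le_of_ne hle fun heq => ?_
    classical
    obtain ⟨e⟩ : Nonempty (O ≃ ↥Oᶜ) := Finite.card_eq.mp hO
    let g : Equiv.Perm Ω := Equiv.subtypeCongr (p := (· ∈ O)) (q := (· ∈ Oᶜ)) e
      (e.symm.trans (Equiv.subtypeEquivRight (fun x => by simp)))
    have hg1 : ∀ x ∈ O, g x ∈ Oᶜ := by
      intro x hx
      have : g x = e ⟨x, hx⟩ := by
        simp [g, Equiv.subtypeCongr, Equiv.sumCompl_symm_apply_of_pos hx]
      rw [this]; exact (e ⟨x, hx⟩).2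
    have hgO : g • O = Oᶜ := by
      refine Set.eq_of_subset_of_ncard_le ?_ ?_ (Set.toFinite _)
      · rintro _ ⟨x, hx, rfl⟩; exact hg1 x hx
      · rw [Set.ncard_smul_set, ← Nat.card_coe_set_eq, ← Nat.card_coe_set_eq, hO]
    have hgK : g ∈ K := by
      rw [MulAction.mem_stabilizer_iff, Set.smul_set_insert, Set.smul_set_singleton, hcompl, hgO, compl_compl,
        Set.pair_comm]
    rw [← heq, MulAction.mem_stabilizer_iff, hgO] at hgK
    have : a ∈ Oᶜ := by rw [hgK]; exact ha
    exact this ha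
  exact hne (h.2 K hlt)

end Cfsg.Agent.S5904
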