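import Cfsg.Statements.S5908
import Cfsg.Agent.H19.U32

set_option autoImplicit false
open Cfsg

namespace Cfsg.Agent.S5908

/-- The subgroup lattice of PSU₃(2) (the solvable group of order 72, realised over the field with 4 elements) is not complemented: some subgroup H has no subgroup X with H ⊔ X = ⊤ and H ⊓ X = ⊥. -/
theorem result {F : Type*} [Field F] [Fintype F] (hF : Fintype.card F = 4) :
    ¬ ComplementedLattice (Subgroup (Cfsg.PSU 3 F 2)) := by
  obtain ⟨-, N, _, -, -, ⟨e⟩⟩ := H19.U32.psu32 hF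
  intro h
  let π := e.toMonoidHom.comp (QuotientGroup.mk' N)
  have hπ : Function.Surjective π := e.surjective.comp (QuotientGroup.mk'_surjective N)
  obtain ⟨X, h1, h2⟩ := h.exists_isCompl ((Subgroup.zpowers (QuaternionGroup.a 2)).comap π)
  have h3 : ∀ x ∈ X, π x = 1 := fun x hx => by_contra fun k => by
    have : ∀ y ∈ X, π y ≠ .a 2 := fun y hy e => by
      rw [Subgroup.disjoint_def.1 h1 (show π y ∈ Subgroup.zpowers _ from e ▸ Subgroup.mem_zpowers _) hy, map_one] at e
      exact absurd e (by decide)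
    rcases (by decide : ∀ x : QuaternionGroup 2, x ≠ 1 → x = .a 2 ∨ x ^ 2 = .a 2) _ k with h | h
    exacts [this x hx h, this _ (pow_mem hx 2) ((map_pow π x 2).trans h)]
  obtain ⟨x, hx⟩ := hπ (.a 1)
  obtain ⟨k, hk⟩ : π x ∈ Subgroup.zpowers (QuaternionGroup.a 2) :=
    (codisjoint_iff.1 h2).ge.trans (sup_le le_rfl fun y hy => show π y ∈ Subgroup.zpowers _ from h3 y hy ▸ one_mem _) (Subgroup.mem_top x)
  have := congrArg (· ^ 2) (hk.trans hx)
  simp only [← zpow_natCast, ← zpow_mul, mul_comm k] at this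
  rw [zpow_mul, zpow_natCast, zpow_natCast, show (QuaternionGroup.a 2 : QuaternionGroup 2) ^ 2 = 1 by decide, one_zpow] at this
  exact absurd this (by decide)

end Cfsg.Agent.S5908
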