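import Cfsg.Statements.S5909
import Cfsg.Agent.H29.Sym2

set_option autoImplicit false
open Cfsg

namespace Cfsg.Agent.S5909

open Equiv Equiv.Perm H29

set_option synthInstance.maxSize 1000 in
theorem four : ∀ g h : Perm (Fin 2 × Fin 2), sign g = 1 → sign h = 1 →
    ¬ (∀ x y, x.1 = y.1 ↔ (g x).1 = (g y).1) → (∀ x y, x.1 = y.1 ↔ (h x).1 = (h y).1) ∨
    (∀ x y, x.1 = y.1 ↔ ((h * g) x).1 = ((h * g) y).1) ∨
    (∀ x y, x.1 = y.1 ↔ ((h * g * g) x).1 = ((h * g * g) y).1) := by
  decide +kernel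

theorem mem_iff {Ω : Type*} {a b : ℕ} {f : Ω → Fin b} (e : Ω ≃ Fin b × Fin a) (he : ∀ x, (e x).1 = f x)
    (g : Perm Ω) : g ∈ blockStab f ↔ ∀ x y, x.1 = y.1 ↔ (e.permCongrHom g x).1 = (e.permCongrHom g y).1 := by
  constructor
  · intro h x y
    have := h (e.symm x) (e.symm y)
    simpa [← he] using this
  · intro h x y
    have := h (e x) (e y)
    simpa [← he] using this

/-- Let Ω be a finite set whose size is not 8, and f : Ω → Fin b a labelling with b ≥ 2 whose fibres all have the same size a ≥ 2 (a partition into b blocks of size a). Then the even permutations preserving the partition — the intersection of the imprimitive wreath product S_a ≀ S_b with the alternating group — form a maximal subgroup of the alternating group on Ω. -/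
theorem result {Ω : Type*} [Fintype Ω] [DecidableEq Ω] (h8 : Fintype.card Ω ≠ 8) (a b : ℕ) (ha : 2 ≤ a) (hb : 2 ≤ b)
    (f : Ω → Fin b) (hf : ∀ i : Fin b, Nat.card {x : Ω // f x = i} = a) :
    IsCoatom ((Subgroup.closure {g : Equiv.Perm Ω | ∀ x y : Ω, f x = f y ↔ f (g x) = f (g y)} ⊓ alternatingGroup Ω).subgroupOf (alternatingGroup Ω)) := by
  rw [closure_blockStab]
  obtain ⟨e, he⟩ := exists_coords f hf
  obtain ⟨x, x', y, h1, h2, h3⟩ := blockStab_wit e he ha hb
  have hxy : x ≠ y := fun h => h3 (h ▸ rfl)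
  have hxy' : x' ≠ y := fun h => h3 (h2.trans (h ▸ rfl))
  refine ⟨fun h => ?_, fun K hK => ?_⟩
  · have hc : swap x y * swap x x' ∈ alternatingGroup Ω :=
      mul_mem_alternatingGroup_of_isSwap ⟨_, _, hxy, rfl⟩ ⟨_, _, h1, rfl⟩
    have : (⟨_, hc⟩ : alternatingGroup Ω) ∈ (blockStab f ⊓ alternatingGroup Ω).subgroupOf (alternatingGroup Ω) :=
      h ▸ Subgroup.mem_top _
    have h4 := (this.1 x x').1 h2
    simp only [Subgroup.coe_subtype, Perm.mul_apply, swap_apply_left, swap_apply_right,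
      swap_apply_of_ne_of_ne h1.symm hxy'] at h4
    exact h3 (h2.trans h4)
  have hG : blockStab f ⊓ alternatingGroup Ω ≤ K.map (alternatingGroup Ω).subtype := fun g hg =>
    ⟨⟨g, hg.2⟩, hK.le hg, rfl⟩
  have hn : ¬ K.map (alternatingGroup Ω).subtype ≤ blockStab f := fun h =>
    not_le_of_gt hK fun g hg => ⟨h ⟨g, hg, rfl⟩, g.2⟩
  suffices alternatingGroup Ω ≤ K.map (alternatingGroup Ω).subtype by
    refine top_le_iff.1 fun g _ => ?_
    obtain ⟨k, hk, hkg⟩ := this g.2
    rwa [← Subtype.ext hkg]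
  have hc : Fintype.card Ω = b * a := by rw [Fintype.card_congr e]; simp
  by_cases hab : 3 ≤ a ∨ b = 3 ∨ 5 ≤ b
  · exact alt_le_of_blockStab e he ha hb hab hG hn
  obtain rfl : a = 2 := by omega
  obtain rfl : b = 2 := by omega
  obtain ⟨_, ⟨g, hg, rfl⟩, hg'⟩ := SetLike.not_le_iff_exists.1 hn
  have hgK : (g : Perm Ω) ∈ K.map (alternatingGroup Ω).subtype := ⟨g, hg, rfl⟩
  intro h hh
  have hs : ∀ k ∈ alternatingGroup Ω, sign (e.permCongrHom k) = 1 := fun k hk => by
    rw [Equiv.permCongrHom_coe, sign_permCongr]; exact hk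
  rcases four _ _ (hs _ g.2) (hs _ hh) (fun h => hg' ((mem_iff e he _).2 h)) with h | h | h
  · exact hG ⟨(mem_iff e he _).2 h, hh⟩
  · rw [← map_mul] at h
    exact (Subgroup.mul_mem_cancel_right _ hgK).1 (hG ⟨(mem_iff e he _).2 h, mul_mem hh g.2⟩)
  · rw [← map_mul, ← map_mul] at h
    exact (Subgroup.mul_mem_cancel_right _ hgK).1 ((Subgroup.mul_mem_cancel_right _ hgK).1
      (hG ⟨(mem_iff e he _).2 h, mul_mem (mul_mem hh g.2) g.2⟩))

end Cfsg.Agent.S5909
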