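import Cfsg.Statements.S5910
import Cfsg.Agent.H29.Sym2

set_option autoImplicit false
open Cfsg

namespace Cfsg.Agent.S5910

open Equiv Equiv.Perm H29

/-- the ternary operation `x + y + z` of an affine `3`-space over `𝔽₂` -/
def m3 (x y z : Fin 4 × Fin 2) : Fin 4 × Fin 2 :=
  (⟨(x.1.1 ^^^ y.1.1 ^^^ z.1.1) % 4, Nat.mod_lt _ (by decide)⟩, x.2 + y.2 + z.2)

/-- the affine group -/
def Aff : Subgroup (Perm (Fin 4 × Fin 2)) where
  carrier := {g | ∀ x y z, g (m3 x y z) = m3 (g x) (g y) (g z)}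
  one_mem' := fun _ _ _ => rfl
  mul_mem' := fun {a b} ha hb x y z => by rw [Perm.mul_apply, hb, ha]; rfl
  inv_mem' := fun {a} ha x y z => by
    rw [Perm.inv_eq_iff_eq, ha]; simp

theorem left_mem : ∀ σ : Perm (Fin 4), ∀ x y z : Fin 4 × Fin 2,
    (σ (m3 x y z).1, (m3 x y z).2) = m3 (σ x.1, x.2) (σ y.1, y.2) (σ z.1, z.2) := by
  decide +kernel

theorem right_mem : ∀ τ : Fin 4 → Perm (Fin 2), ∏ k, sign (τ k) = 1 → ∀ x y z : Fin 4 × Fin 2,
    ((m3 x y z).1, τ (m3 x y z).1 (m3 x y z).2) =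
      m3 (x.1, τ x.1 x.2) (y.1, τ y.1 y.2) (z.1, τ z.1 z.2) := by
  decide +kernel

theorem mem_Aff (g : Perm (Fin 4 × Fin 2)) (hg : ∀ x y, x.1 = y.1 ↔ (g x).1 = (g y).1)
    (hs : sign g = 1) : g ∈ Aff := by
  have h1 : Function.Injective fun i : Fin 4 => (g (i, 0)).1 := fun i j h => (hg (i, 0) (j, 0)).2 h
  let σ : Perm (Fin 4) := Equiv.ofBijective _ (Finite.injective_iff_bijective.1 h1)
  have h2 : ∀ i, Function.Injective fun k : Fin 2 => (g (i, k)).2 := fun i k l h => by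
    have : g (i, k) = g (i, l) := Prod.ext ((hg _ _).1 rfl) h
    exact (Prod.ext_iff.1 (g.injective this)).2
  let τ : Fin 4 → Perm (Fin 2) := fun i => Equiv.ofBijective _ (Finite.injective_iff_bijective.1 (h2 i))
  have h3 : g = (prodCongrLeft fun _ : Fin 2 => σ) * prodCongrRight τ := by
    ext1 ⟨i, k⟩
    exact Prod.ext ((hg (i, k) (i, 0)).1 rfl) rfl
  have h4 : ∏ k, sign (τ k) = 1 := by
    rw [h3, Perm.sign_mul, sign_prodCongrLeft, sign_prodCongrRight] at hs
    simpa using hs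
  rw [h3]
  exact mul_mem (left_mem σ) (right_mem τ h4)

theorem mem_iff {Ω : Type*} {a b : ℕ} {f : Ω → Fin b} (e : Ω ≃ Fin b × Fin a) (he : ∀ x, (e x).1 = f x)
    (g : Perm Ω) : g ∈ blockStab f ↔ ∀ x y, x.1 = y.1 ↔ (e.permCongrHom g x).1 = (e.permCongrHom g y).1 := by
  constructor
  · intro h x y
    have := h (e.symm x) (e.symm y)
    simpa [← he] using this
  · intro h x y
    have := h (e x) (e y)
    simpa [← he] using this

def g1 : Perm (Fin 4 × Fin 2) := swap (0, 1) (1, 0) * swap (2, 1) (3, 0)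
def g2 : Perm (Fin 4 × Fin 2) := swap (0, 0) (0, 1) * swap (0, 0) (1, 0)

theorem g1_spec : sign g1 = 1 ∧ (∀ x y z, g1 (m3 x y z) = m3 (g1 x) (g1 y) (g1 z)) ∧
    ¬ ∀ x y : Fin 4 × Fin 2, x.1 = y.1 ↔ (g1 x).1 = (g1 y).1 := by decide +kernel

theorem g2_spec : sign g2 = 1 ∧ ¬ (∀ x y z, g2 (m3 x y z) = m3 (g2 x) (g2 y) (g2 z)) := by
  decide +kernel

/-- Let Ω be a set with 8 elements and f : Ω → Fin 4 a labelling whose four fibres all have size 2 (a partition of the 8 points into 4 pairs). Then the group of even permutations preserving this partition, (S₂ ≀ S₄) ∩ A₈, is not a maximal subgroup of the alternating group A₈ (it lies in a subgroup isomorphic to the affine group AGL₃(2)). -/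
theorem result {Ω : Type*} [Fintype Ω] [DecidableEq Ω] (h8 : Fintype.card Ω = 8)
    (f : Ω → Fin 4) (hf : ∀ i : Fin 4, Nat.card {x : Ω // f x = i} = 2) :
    ¬ IsCoatom ((Subgroup.closure {g : Equiv.Perm Ω | ∀ x y : Ω, f x = f y ↔ f (g x) = f (g y)} ⊓ alternatingGroup Ω).subgroupOf (alternatingGroup Ω)) := by
  rw [closure_blockStab]
  obtain ⟨e, he⟩ := exists_coords f hf
  have hs : ∀ k, sign (e.permCongrHom k) = sign k := fun k => by
    rw [Equiv.permCongrHom_coe, sign_permCongr]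
  have hev : ∀ g, sign g = 1 → e.permCongrHom.symm g ∈ alternatingGroup Ω := fun g hg => by
    rw [mem_alternatingGroup, ← hs, MulEquiv.apply_symm_apply, hg]
  intro h
  have h1 := h.2 ((Aff.comap e.permCongrHom.toMonoidHom).subgroupOf (alternatingGroup Ω)) (by
    refine lt_of_le_of_ne (fun g hg => mem_Aff _ ((mem_iff e he _).1 hg.1) ((hs _).trans g.2)) fun hh => ?_
    have h2 : (⟨_, hev g1 g1_spec.1⟩ : alternatingGroup Ω) ∈
        (Aff.comap e.permCongrHom.toMonoidHom).subgroupOf (alternatingGroup Ω) := by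
      show e.permCongrHom (e.permCongrHom.symm g1) ∈ Aff
      rw [MulEquiv.apply_symm_apply]; exact g1_spec.2.1
    rw [← hh] at h2
    have h3 := (mem_iff e he _).1 h2.1
    simp only [Subgroup.coe_subtype, MulEquiv.apply_symm_apply] at h3
    exact g1_spec.2.2 h3)
  have h2 : (⟨_, hev g2 g2_spec.1⟩ : alternatingGroup Ω) ∈
      (Aff.comap e.permCongrHom.toMonoidHom).subgroupOf (alternatingGroup Ω) := h1 ▸ Subgroup.mem_top _
  have h3 : e.permCongrHom (e.permCongrHom.symm g2) ∈ Aff := h2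
  rw [MulEquiv.apply_symm_apply] at h3
  exact g2_spec.2 h3

end Cfsg.Agent.S5910
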