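import Cfsg.Statements.S5913
import Mathlib

set_option autoImplicit false
open Cfsg

namespace Cfsg.Agent.S5913

/-- Let S be a non-abelian simple group and n a natural number. Every normal subgroup N of the direct power S^n (functions Fin n → S) is a subproduct: there is a set T of coordinates such that N consists exactly of the elements whose coordinates outside T are trivial. In particular the minimal normal subgroups of S^n are its n factors. -/
theorem result {S : Type*} [Group S] [IsSimpleGroup S] (hS : ¬ IsMulCommutative S) (n : ℕ)
    (N : Subgroup (Fin n → S)) [N.Normal] :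
    ∃ T : Finset (Fin n), ∀ x : Fin n → S, x ∈ N ↔ ∀ i, i ∉ T → x i = 1 := by
  classical
  refine ⟨Finset.univ.filter (fun i => ∃ x ∈ N, x i ≠ 1), fun x => ⟨fun hx i hi => ?_, fun hx => ?_⟩⟩
  · by_contra h
    exact hi (Finset.mem_filter.mpr ⟨Finset.mem_univ _, x, hx, h⟩)
  · have key : ∀ i, (∃ x ∈ N, x i ≠ 1) → ∀ s : S, Pi.mulSingle i s ∈ N := by
      rintro i ⟨y, hy, hyi⟩
      let K : Subgroup S := N.comap (MonoidHom.mulSingle (fun _ : Fin n => S) i)
      have hK : K.Normal := Subgroup.Normal.comap inferInstance _
      rcases hK.eq_bot_or_eq_top with h | h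
      · exfalso
        have hc : y i ∈ Subgroup.center S := by
          rw [Subgroup.mem_center_iff]
          intro s
          have h1 : (Pi.mulSingle i s : Fin n → S) * y * (Pi.mulSingle i s)⁻¹ * y⁻¹ ∈ N :=
            N.mul_mem (Subgroup.Normal.conj_mem inferInstance y hy _) (N.inv_mem hy)
          have h2 : (Pi.mulSingle i s : Fin n → S) * y * (Pi.mulSingle i s)⁻¹ * y⁻¹ = Pi.mulSingle i (s * y i * s⁻¹ * (y i)⁻¹) := by
            ext j
            by_cases hj : j = i
            · subst hj; simp
            · simp [Pi.mulSingle_eq_of_ne hj]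
          rw [h2] at h1
          have h3 : s * y i * s⁻¹ * (y i)⁻¹ ∈ K := h1
          rw [h, Subgroup.mem_bot] at h3
          calc s * y i = (s * y i * s⁻¹ * (y i)⁻¹) * (y i * s) := by group
            _ = y i * s := by rw [h3, one_mul]
        rcases (Subgroup.normal_of_characteristic (Subgroup.center S)).eq_bot_or_eq_top with h4 | h4
        · rw [h4, Subgroup.mem_bot] at hc; exact hyi hc
        · apply hS
          refine ⟨⟨fun a b => ?_⟩⟩
          have : b ∈ Subgroup.center S := by rw [h4]; trivial
          exact Subgroup.mem_center_iff.mp this a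
      · intro s
        have : s ∈ K := by rw [h]; trivial
        exact this
    have h5 : x = Finset.univ.noncommProd (fun i => (Pi.mulSingle i (x i) : Fin n → S))
        (fun i _ j _ hij => Pi.mulSingle_commute hij _ _) := by
      exact (Finset.noncommProd_mulSingle x).symm
    rw [h5]
    apply Subgroup.noncommProd_mem
    intro i _
    by_cases hi : ∃ x ∈ N, x i ≠ 1
    · exact key i hi _
    · have := hx i (by simpa using hi)
      rw [this]; simp

end Cfsg.Agent.S5913
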