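import Cfsg.Statements.S5914
import Mathlib
import Cfsg.Agent.H16.MinNormal

set_option autoImplicit false
open Cfsg

namespace Cfsg.Agent.S5914

open scoped commutatorElement

theorem pi_char {S : Type*} [Group S] [IsSimpleGroup S] {n : ℕ} (H : Subgroup (Fin n → S))
    (hH : H.Characteristic) : H = ⊥ ∨ H = ⊤ := by
  classical
  have hφ : ∀ (φ : (Fin n → S) ≃* (Fin n → S)) x, x ∈ H → φ x ∈ H := fun φ x hx => by
    rw [← hH.fixed φ] at hx; exact hx
  by_cases hb : H = ⊥
  · exact Or.inl hb
  right
  obtain ⟨⟨h, hh⟩, hne⟩ := Subgroup.ne_bot_iff_exists_ne_one.1 hb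
  obtain ⟨i, hi⟩ : ∃ i, h i ≠ 1 := by
    by_contra hc; push Not at hc; exact hne (Subtype.ext (funext hc))
  obtain ⟨j, s, hs, hjs⟩ : ∃ j s, s ≠ 1 ∧ (Pi.mulSingle j s : Fin n → S) ∈ H := by
    by_cases hc : ∀ a b : S, a * b = b * a
    · by_cases hj : ∃ j, j ≠ i
      · obtain ⟨j, hj⟩ := hj
        let φ : (Fin n → S) ≃* (Fin n → S) :=
          { toFun := fun x => x * Pi.mulSingle j (x i)
            invFun := fun x => x * Pi.mulSingle j (x i)⁻¹
            left_inv := fun x => by
              simp [Pi.mulSingle_eq_of_ne hj.symm, mul_assoc, ← Pi.mulSingle_mul]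
            right_inv := fun x => by
              simp [Pi.mulSingle_eq_of_ne hj.symm, mul_assoc, ← Pi.mulSingle_mul]
            map_mul' := fun x y => by
              ext k
              simp only [Pi.mul_apply, Pi.mulSingle_mul, mul_assoc]
              congr 1
              rw [← mul_assoc, hc (y k), mul_assoc] }
        exact ⟨j, h i, hi, (Subgroup.mul_mem_cancel_left _ hh).1 (hφ φ h hh)⟩
      · push Not at hj
        refine ⟨i, h i, hi, ?_⟩
        convert hh
        ext k; rw [hj k]; simp
    · have hZ : Subgroup.center S = ⊥ :=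
        (IsSimpleGroup.eq_bot_or_eq_top_of_normal _ inferInstance).resolve_right fun h =>
          hc fun a b => Subgroup.mem_center_iff.1 (h ▸ Subgroup.mem_top b) a
      obtain ⟨s, hs⟩ : ∃ s, s * h i ≠ h i * s := by
        by_contra hc'; push Not at hc'
        exact hi (Subgroup.mem_bot.1 (hZ ▸ Subgroup.mem_center_iff.2 hc'))
      refine ⟨i, ⁅s, h i⁆, fun e => hs (commutatorElement_eq_one_iff_mul_comm.1 e), ?_⟩
      have := mul_mem ((inferInstance : H.Normal).conj_mem h hh (Pi.mulSingle i s)) (inv_mem hh)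
      convert this
      ext k
      by_cases hk : k = i
      · subst hk; simp [commutatorElement_def]
      · simp [Pi.mulSingle_eq_of_ne hk]
  have h1 : H.comap (MonoidHom.mulSingle (fun _ : Fin n => S) j) = ⊤ :=
    (IsSimpleGroup.eq_bot_or_eq_top_of_normal _ inferInstance).resolve_left fun e =>
      hs (Subgroup.mem_bot.1 (e ▸ (hjs : s ∈ H.comap (MonoidHom.mulSingle (fun _ : Fin n => S) j))))
  have h2 : ∀ k t, (Pi.mulSingle k t : Fin n → S) ∈ H := fun k t => by
    have h3 : (Pi.mulSingle j t : Fin n → S) ∈ H := by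
      have : t ∈ H.comap (MonoidHom.mulSingle (fun _ : Fin n => S) j) := h1 ▸ Subgroup.mem_top _
      exact this
    convert hφ (MulEquiv.arrowCongr (Equiv.swap j k) (MulEquiv.refl S)) _ h3
    ext l
    simp only [MulEquiv.arrowCongr_apply, Equiv.symm_swap, MulEquiv.refl_apply, Pi.mulSingle_apply]
    congr 1
    rw [Equiv.swap_apply_eq_iff, Equiv.swap_apply_left]
  exact top_le_iff.1 fun x _ => Subgroup.pi_mem_of_mulSingle_mem x fun k => h2 k _

/-- A non-trivial finite group G is characteristically simple (its only characteristic subgroups are 1 and G) if and only if G is isomorphic to a direct power S^n (n ≥ 1) of some simple group S (possibly cyclic of prime order). -/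
theorem result {G : Type*} [Group G] [Finite G] [Nontrivial G] :
    (∀ H : Subgroup G, H.Characteristic → H = ⊥ ∨ H = ⊤) ↔
    ∃ (S : Type) (_ : Group S) (_ : IsSimpleGroup S) (n : ℕ), 1 ≤ n ∧ Nonempty (G ≃* (Fin n → S)) := by
  constructor
  · intro h
    obtain ⟨M, m, hM, hm, ⟨e⟩⟩ := H16.exists_pi_of_charSimple h
    let f' : Shrink.{0} M ≃* M := Shrink.mulEquiv
    exact ⟨Shrink.{0} M, inferInstance, f'.isSimpleGroup, m, hm,
      ⟨e.trans (MulEquiv.arrowCongr (Equiv.refl _) f'.symm)⟩⟩
  · rintro ⟨S, _, _, n, -, ⟨e⟩⟩ H hH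
    rcases pi_char (H.map e.toMonoidHom) (Subgroup.characteristic_iff_map_eq.2 fun φ => by
      have := Subgroup.characteristic_iff_map_eq.1 hH (e.trans (φ.trans e.symm))
      conv_rhs => rw [← this]
      rw [Subgroup.map_map, Subgroup.map_map]
      congr 1
      ext1 x
      simp) with h | h
    · exact Or.inl ((Subgroup.map_eq_bot_iff_of_injective _ e.injective).1 h)
    · right
      apply Subgroup.map_injective (f := e.toMonoidHom) e.injective
      rw [h, Subgroup.map_top_of_surjective _ e.surjective]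

end Cfsg.Agent.S5914
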