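import Cfsg.Statements.S5939
import Cfsg.Agent.H10.PSLx
import Cfsg.Agent.H22.PGLMax
import Cfsg.Agent.S0253

set_option autoImplicit false
open Cfsg

namespace Cfsg.Agent.S5939

open H10 Subgroup in

/-- Let p be a prime and F a finite field of characteristic p such that either F has p elements and p ≡ ±1 (mod 10), or F has p² elements and p ≡ ±3 (mod 10). Then PSL_2(F) has a maximal subgroup isomorphic to the alternating group A_5. -/
theorem result {F : Type*} [Field F] [Fintype F] (p : ℕ) [Fact p.Prime] [CharP F p] (h : (Fintype.card F = p ∧ (p % 10 = 1 ∨ p % 10 = 9)) ∨ (Fintype.card F = p ^ 2 ∧ (p % 10 = 3 ∨ p % 10 = 7))) : ∃ H : Subgroup (Matrix.ProjectiveSpecialLinearGroup (Fin 2) F), IsCoatom H ∧ Nonempty (H ≃* alternatingGroup (Fin 5)) := by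
  have hq : p.Prime := Fact.out
  have h2 : (2 : F) ≠ 0 := fun e => by
    have := (Nat.prime_dvd_prime_iff_eq hq Nat.prime_two).1 ((CharP.cast_eq_zero_iff F p 2).1 (by exact_mod_cast e))
    omega
  obtain ⟨j, i, rfl, hi⟩ : ∃ j i, p = 10 * j + i ∧ i < 10 := ⟨p / 10, p % 10, by omega⟩
  obtain ⟨τ, hτ⟩ := H22.exists_golden (K := F) (by
    rcases h with ⟨h, k | k⟩ | ⟨h, k | k⟩ <;> rw [h]
    · exact (Dvd.dvd.mul_left (by omega) _).mul_right _
    · exact Dvd.dvd.mul_left (by omega) _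
    all_goals
      obtain rfl : i = _ := (by omega : i = (10 * j + i) % 10).trans k
      exact Dvd.dvd.mul_left (by ring_nf; omega) _)
  obtain ⟨a, c, k⟩ := exists_root_of_odd h2 τ
  obtain ⟨H, ⟨e⟩⟩ := exists_A5_of_root hτ k
  have hH : Nat.card H = 60 := (Nat.card_congr e.toEquiv).trans card_alt_five'
  have h3 := card_PSL2 (F := F)
  have h4 : 9 ≤ Fintype.card F := by
    have := hq.two_le
    rcases h with ⟨h, k⟩ | ⟨h, k⟩
    · omega
    · nlinarith [show 3 ≤ 10 * j + i by omega]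
  refine ⟨H, isCoatom_of_card (fun k => ?_) (.inr ⟨h2, ?_⟩) ?_, ⟨e⟩⟩
  · rw [k, card_top] at hH
    have := Nat.gcd_le_left (Fintype.card F - 1) two_pos
    have : 9 * 8 * 10 ≤ Fintype.card F * (Fintype.card F - 1) * (Fintype.card F + 1) := by gcongr <;> omega
    rw [hH] at h3
    omega
  · haveI : Fact (Nat.Prime 5) := ⟨Nat.prime_five⟩
    obtain ⟨f, hf⟩ := exists_A4_hom (F := ZMod 5) (fun e => absurd ((ZMod.natCast_eq_zero_iff 2 5).1 (by exact_mod_cast e)) (by decide))
    obtain ⟨e'⟩ := Cfsg.Agent.S0253.result (F := ZMod 5) (by simp)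
    exact ⟨((e'.trans e.symm : _ ≃* H) : _ →* H).comp f, (e'.trans e.symm).injective.comp hf⟩
  rw [hH]
  rintro n h1 h5 - - (rfl | rfl | rfl | ⟨s, m, k1, k2, k3⟩)
  all_goals try omega
  rcases h with ⟨h, -⟩ | ⟨h, k⟩
  · have := (hq.pow_eq_iff.1 (k2.trans h)).2
    omega
  obtain ⟨b, -, rfl⟩ := (Nat.dvd_prime_pow hq).1 (k2.trans h ▸ dvd_pow_self s (by omega))
  rw [h, ← pow_mul, Nat.pow_right_inj hq.one_lt] at k2
  obtain rfl : b = 1 := by rcases b with _ | _ | b <;> nlinarith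
  rw [pow_one] at k3
  have := (Dvd.dvd.trans (by decide : 5 ∣ 60) h1).trans k3
  simp only [Nat.prime_five.dvd_mul] at this
  omega

end Cfsg.Agent.S5939
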