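import Cfsg.Statements.S5940
import Cfsg.Agent.H10.PSLx

set_option autoImplicit false
open Cfsg

namespace Cfsg.Agent.S5940

open H10 Subgroup in

/-- Let p ≥ 5 be a prime with p ≡ ±3 (mod 8) and p ≢ ±1 (mod 10), and F a field with p elements. Then PSL_2(F) has a maximal subgroup isomorphic to the alternating group A_4. -/
theorem result {F : Type*} [Field F] [Fintype F] (p : ℕ) [Fact p.Prime] (hF : Fintype.card F = p) (h5 : 5 ≤ p) (h8 : p % 8 = 3 ∨ p % 8 = 5) (h10 : p % 10 ≠ 1 ∧ p % 10 ≠ 9) : ∃ H : Subgroup (Matrix.ProjectiveSpecialLinearGroup (Fin 2) F), IsCoatom H ∧ Nonempty (H ≃* alternatingGroup (Fin 4)) := by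
  have hq : p.Prime := Fact.out
  have h2 : (2 : F) ≠ 0 := Ring.two_ne_zero fun h => by have := FiniteField.even_card_of_char_two h; omega
  obtain ⟨a, c, h⟩ := exists_root_of_odd h2 1
  obtain ⟨H, ⟨e⟩⟩ := exists_A4_of_root h
  have hH : Nat.card H = 12 := (Nat.card_congr e.toEquiv).trans card_alt_four'
  refine ⟨H, isCoatom_of_card (fun k => not_isSolvable_PSL2 (F := F) (by omega)
    (isSolvable_of_card_dvd_24 (by rw [← card_top, ← k, hH]; decide))) (.inr ⟨h2, e.symm, e.symm.injective⟩) ?_, ⟨e⟩⟩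
  have h3 := card_PSL2 (F := F)
  rw [hF, Nat.gcd_eq_left (by omega)] at h3
  rw [hH]
  rintro n h1 h4 h6 h7 (rfl | rfl | rfl | ⟨s, m, k1, k2, -⟩)
  · omega
  · obtain ⟨j, i, rfl, hi⟩ : ∃ j i, p = 16 * j + i + 1 ∧ i < 16 := ⟨(p - 1) / 16, (p - 1) % 16, by omega⟩
    rw [Nat.add_sub_cancel] at h3
    obtain rfl | rfl | rfl | rfl : i = 2 ∨ i = 4 ∨ i = 10 ∨ i = 12 := by omega
    all_goals ring_nf at h3; omega
  · have : 5 ∣ p * (p - 1) * (p + 1) := by omega
    simp only [Nat.prime_five.dvd_mul, Nat.prime_dvd_prime_iff_eq Nat.prime_five hq] at this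
    obtain rfl : p = 5 := by omega
    omega
  · have := (hq.pow_eq_iff.1 (k2.trans hF)).2
    omega

end Cfsg.Agent.S5940
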