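import Cfsg.Statements.S5947
import Cfsg.Agent.H26.Zsig

set_option autoImplicit false
open Cfsg

namespace Cfsg.Agent.S5947

/-- Let F ⊆ K be finite fields with |F| = q and [K : F] = n ≥ 2, regard K as an n-dimensional F-vector space, and let M ≤ GL_F(K) be the Singer group of multiplications by non-zero elements of K (cyclic of order q^n − 1). Assume (n, q) ≠ (6, 2), and that it is not the case that n = 2 with q a prime such that q + 1 is a power of 2. Then every abelian subgroup of GL_F(K) of order q^n − 1 is conjugate to M. -/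
theorem result {F K : Type*} [Field F] [Fintype F] [Field K] [Fintype K] [Algebra F K] (n : ℕ) (hn : 2 ≤ n) (hdim : Module.finrank F K = n)
    (hex1 : ¬ (n = 6 ∧ Fintype.card F = 2))
    (hex2 : ¬ (n = 2 ∧ (Fintype.card F).Prime ∧ ∃ a : ℕ, Fintype.card F + 1 = 2 ^ a))
    (U : Subgroup (Module.End F K)ˣ) (hU : IsMulCommutative U) (hcard : Nat.card U = Fintype.card K - 1) :
    ∃ g : (Module.End F K)ˣ, U.map (MulAut.conj g).toMonoidHom = (Units.map ((Algebra.lmul F K : K →ₐ[F] Module.End F K) : K →* Module.End F K)).range := by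
  have hK : Fintype.card K = Fintype.card F ^ n := hdim ▸ Module.card_eq_pow_finrank
  obtain ⟨p, hp, e, pp, he⟩ := FiniteField.card' F
  have := Fact.mk pp
  obtain ⟨r, hr, r1, r2⟩ : ∃ r : ℕ, r.Prime ∧ r ∣ Fintype.card F ^ n - 1 ∧ ∀ k, 0 < k → k < n → ¬ r ∣ Fintype.card F ^ k - 1 := by
    have e0 := e.pos
    by_cases h6 : p = 2 ∧ e * n = 6
    · obtain ⟨rfl, h⟩ := h6
      have := Nat.le_of_dvd (by simp) (Dvd.intro_left _ h)
      generalize (e : ℕ) = e at *
      rw [he] at hex1 ⊢
      interval_cases n <;> try omega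
      · obtain rfl : e = 3 := by omega
        exact ⟨3, by decide, by decide, fun k a b => by interval_cases k; decide⟩
      · obtain rfl : e = 2 := by omega
        exact ⟨7, by decide, by decide, fun k a b => by interval_cases k <;> decide⟩
      · obtain rfl : e = 1 := by omega
        simp at hex1
    obtain ⟨r, hr, a, b⟩ := H26.zsigmondy (n := e * n) pp.one_lt (by nlinarith) h6 fun ⟨h, k⟩ => hex2 (by
      have : (e : ℕ) = 1 := by nlinarith
      simp only [this, pow_one, one_mul] at he h
      exact ⟨h, he ▸ pp, he ▸ k⟩)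
    exact ⟨r, hr, by rwa [he, ← pow_mul], fun k c d => by rw [he, ← pow_mul]; exact b _ (by positivity) (by nlinarith)⟩
  have := Fact.mk hr
  have : Finite (Module.End F K) := .of_injective _ DFunLike.coe_injective
  obtain ⟨x, hx⟩ := exists_prime_orderOf_dvd_card' (G := U) r (by rwa [hcard, hK])
  let A := Algebra.adjoin F (Units.val '' (U : Set (Module.End F K)ˣ))
  have cA : IsMulCommutative A := Algebra.isMulCommutative_adjoin F (by
    rintro _ ⟨a, ha, rfl⟩ _ ⟨b, hb, rfl⟩
    exact congrArg (fun y : U => y.1.1) (hU.is_comm.comm ⟨a, ha⟩ ⟨b, hb⟩))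
  letI : CommRing A := { (inferInstance : Ring A) with mul_comm := cA.is_comm.comm }
  let ι : U →* A := ((Units.coeHom _).comp U.subtype).codRestrict A fun u => Algebra.subset_adjoin ⟨_, u.2, rfl⟩
  have hι : Function.Injective ι := fun a b h => Subtype.ext (Units.ext (congrArg Subtype.val h))
  have hn1 : ¬ IsNilpotent (ι x - 1) := fun ⟨k, hk⟩ => by
    have : CharP A p := charP_of_injective_algebraMap (algebraMap F A).injective p
    have h : x ^ p ^ k = 1 := hι (by
      rw [map_pow, map_one, ← sub_eq_zero, ← one_pow (M := A) (p ^ k), ← sub_pow_char_pow]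
      exact pow_eq_zero_of_le (Nat.lt_pow_self pp.one_lt).le hk)
    obtain rfl := (Nat.prime_dvd_prime_iff_eq hr pp).1 (hr.dvd_of_dvd_pow (hx ▸ orderOf_dvd_of_pow_eq_one h))
    exact hr.not_dvd_one ((Nat.dvd_sub_iff_right (Nat.one_le_pow _ _ Fintype.card_pos)
      ((he ▸ dvd_pow_self r e.ne_zero).trans (dvd_pow_self _ (by omega)))).1 r1)
  obtain ⟨m, hm, h1⟩ : ∃ m : Ideal A, m.IsPrime ∧ ι x - 1 ∉ m := by
    simpa [← mem_nilradical, nilradical_eq_sInf, Submodule.mem_sInf] using hn1
  have := IsArtinianRing.isMaximal_of_isPrime m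
  letI := Ideal.Quotient.field m
  let π := Ideal.Quotient.mkₐ F m
  have hπ : Function.Surjective π := Ideal.Quotient.mkₐ_surjective F m
  have hf : n ≤ Module.finrank F (A ⧸ m) := not_lt.1 fun l => r2 _ Module.finrank_pos l (by
    have := Finite.of_surjective π hπ
    have := Fintype.ofFinite (A ⧸ m)
    have k : π (ι x) ^ r = 1 := by rw [← map_pow, ← map_pow, ← hx, pow_orderOf_eq_one, map_one, map_one]
    rw [← Module.card_eq_pow_finrank, ← orderOf_eq_prime k fun e => h1 (Ideal.Quotient.eq.1 e)]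
    exact orderOf_dvd_of_pow_eq_one (FiniteField.pow_card_sub_one_eq_one _ fun e => by simp [e, hr.ne_zero] at k))
  obtain ⟨v, hv⟩ : ∃ v : K, ∀ a : A, a.1 v = 0 → a ∈ m := by
    by_contra! h
    choose a a1 a2 using h
    obtain ⟨w, -, hw⟩ := (Ideal.IsPrime.prod_mem_iff (s := Finset.univ) (x := a) (p := m)).1 (by
      classical
      rw [show ∏ w, a w = 0 from Subtype.ext (LinearMap.ext fun w => by
        rw [← Finset.prod_erase_mul _ _ (Finset.mem_univ w)]; exact (congrArg (∏ x ∈ Finset.univ.erase w, a x).1 (a1 w)).trans (map_zero _))]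
      exact zero_mem _)
    exact a2 w hw
  let φ : A →ₗ[F] K := (LinearMap.applyₗ v).comp A.val.toLinearMap
  have e1 := φ.finrank_range_add_finrank_ker
  have e2 := π.toLinearMap.finrank_range_add_finrank_ker
  have e3 := Submodule.finrank_mono (s := LinearMap.ker φ) (t := LinearMap.ker π.toLinearMap) fun a ha =>
    Ideal.Quotient.eq_zero_iff_mem.2 (hv a ha)
  have e4 := (LinearMap.range φ).finrank_le
  rw [LinearMap.range_eq_top.2 hπ, finrank_top] at e2
  have s1 : Function.Surjective φ := LinearMap.range_eq_top.1 (Submodule.eq_top_of_finrank_eq (by omega))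
  have s2 : LinearMap.ker φ = ⊥ := eq_bot_iff.2 fun a ha => Subtype.ext (LinearMap.ext fun w => by
    obtain ⟨b, rfl⟩ := s1 w
    exact congr($(mul_comm a b).1 v).trans ((congrArg b.1 ha).trans (map_zero _)))
  rw [s2, finrank_bot] at e1
  have s3 : Function.Injective π := LinearMap.ker_eq_bot.1 (Submodule.finrank_eq_zero.1 (show Module.finrank F (LinearMap.ker π.toLinearMap) = 0 by omega))
  have := NeZero.mk (show n ≠ 0 by omega)
  let ε : A ≃ₐ[F] K := (AlgEquiv.ofBijective π ⟨s3, hπ⟩).trans ((FiniteField.algEquivExtension F p n _ (by omega)).trans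
    (FiniteField.algEquivExtension F p n K hdim).symm)
  let φ' := LinearEquiv.ofBijective φ ⟨LinearMap.ker_eq_bot.1 s2, s1⟩
  let g := LinearMap.GeneralLinearGroup.ofLinearEquiv (φ'.symm.trans ε.toLinearEquiv)
  have hg : ∀ a : A, g.1 (φ a) = ε a := fun a => congrArg ε (φ'.symm_apply_apply a)
  refine ⟨g, Subgroup.eq_of_le_of_card_ge ?_ ?_⟩
  · rintro _ ⟨u, hu, rfl⟩
    refine ⟨Units.map ε.toMonoidHom (ι.toHomUnits ⟨u, hu⟩), eq_mul_inv_of_mul_eq (Units.ext (LinearMap.ext fun w => ?_))⟩
    obtain ⟨b, rfl⟩ := s1 w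
    exact (congrArg (ε (ι ⟨u, hu⟩) * ·) (hg b)).trans ((map_mul ε _ _).symm.trans (hg _).symm)
  · rw [Subgroup.card_map_of_injective (MulAut.conj g).injective, hcard, ← Nat.card_eq_fintype_card, ← Nat.card_units]
    exact Nat.card_le_card_of_surjective _ (MonoidHom.rangeRestrict_surjective _)

end Cfsg.Agent.S5947
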